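import Cfsg.Agent.Class.OrthSpin
import Mathlib

/-!
# The double cover of `S_n` inside the Clifford algebra over `F₃` (helper2)
-/

set_option autoImplicit false

open Equiv Subgroup CliffordAlgebra
open scoped commutatorElement

namespace Cfsg.Lib.AltCover

instance factThree : Fact (Nat.Prime 3) := ⟨Nat.prime_three⟩

variable (Ω : Type) [Fintype Ω] [DecidableEq Ω]

/-- The sum of squares over `F₃`. -/
noncomputable def Q : QuadraticForm (ZMod 3) (Ω → ZMod 3) :=
  LinearMap.BilinMap.toQuadraticMap (dotProductBilin (ZMod 3) (ZMod 3))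

variable {Ω}

omit [DecidableEq Ω] in
theorem Q_apply (x : Ω → ZMod 3) : Q Ω x = x ⬝ᵥ x := rfl

omit [DecidableEq Ω] in
theorem polar_Q (x y : Ω → ZMod 3) : QuadraticMap.polar (Q Ω) x y = 2 * x ⬝ᵥ y := by
  rw [Q, LinearMap.BilinMap.polar_toQuadraticMap]
  change x ⬝ᵥ y + y ⬝ᵥ x = _
  rw [dotProduct_comm y]; ring

theorem nondeg : (QuadraticMap.polarBilin (Q Ω)).Nondegenerate := by
  have key : ∀ x : Ω → ZMod 3, (∀ y, 2 * x ⬝ᵥ y = 0) → x = 0 := fun x hx => by
    funext i
    have := hx (Pi.single i 1)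
    rw [dotProduct_single, mul_one] at this
    exact (mul_eq_zero.1 this).resolve_left (by decide)
  refine ⟨fun x hx => key x fun y => ?_, fun x hx => key x fun y => ?_⟩
  · rw [← polar_Q]; exact hx y
  · rw [dotProduct_comm, ← polar_Q]; exact hx y

instance instNontrivialCl : Nontrivial (CliffordAlgebra (Q Ω)) := by
  letI : Invertible (2 : ZMod 3) := ⟨2, by decide, by decide⟩
  infer_instance

/-- The basis vectors in the Clifford algebra. -/
noncomputable def e (i : Ω) : CliffordAlgebra (Q Ω) := ι (Q Ω) (Pi.single i 1)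

theorem e_mul_self (i : Ω) : e i * e i = 1 := by
  rw [e, ι_sq_scalar, Q_apply]; simp

theorem e_anti {i j : Ω} (h : i ≠ j) : e i * e j = -(e j * e i) := by
  rw [eq_neg_iff_add_eq_zero, e, e, ι_mul_ι_add_swap, polar_Q]
  simp [Pi.single_apply, h.symm]

theorem three_eq_zero : (3 : CliffordAlgebra (Q Ω)) = 0 := by
  rw [← map_ofNat (algebraMap (ZMod 3) (CliffordAlgebra (Q Ω))) 3, show (3 : ZMod 3) = 0 from rfl,
    map_zero]

theorem t_mul_self {i j : Ω} (h : i ≠ j) : (e i - e j) * (e i - e j) = -1 := by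
  simp only [mul_sub, sub_mul, e_mul_self, e_anti h]
  rw [← sub_eq_zero, ← three_eq_zero, show (3 : CliffordAlgebra (Q Ω)) = 1 + 1 + 1 by norm_num]
  abel

/-- The unit `e i - e j`. -/
noncomputable def t {i j : Ω} (h : i ≠ j) : (CliffordAlgebra (Q Ω))ˣ :=
  ⟨e i - e j, -(e i - e j), by rw [mul_neg, t_mul_self h, neg_neg],
    by rw [neg_mul, t_mul_self h, neg_neg]⟩

variable (Ω) in
/-- The double cover of the symmetric group. -/
def Pin : Subgroup ((CliffordAlgebra (Q Ω))ˣ × Perm Ω) where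
  carrier := {p | ∀ i, involute (p.1 : CliffordAlgebra (Q Ω)) * e i = e (p.2 i) * p.1}
  one_mem' i := by simp
  mul_mem' {p q} hp hq i := by
    simp only [Prod.fst_mul, Units.val_mul, map_mul, Prod.snd_mul, Perm.mul_apply]
    rw [mul_assoc, hq, ← mul_assoc, hp, mul_assoc]
  inv_mem' {p} hp i := by
    have h := hp (p.2⁻¹ i)
    rw [show p.2 (p.2⁻¹ i) = i by simp] at h
    have h1 : involute ((p.1⁻¹ : (CliffordAlgebra (Q Ω))ˣ) : CliffordAlgebra (Q Ω)) *
        involute (p.1 : CliffordAlgebra (Q Ω)) = 1 := by rw [← map_mul, Units.inv_mul, map_one]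
    change involute ((p.1⁻¹ : (CliffordAlgebra (Q Ω))ˣ) : CliffordAlgebra (Q Ω)) * e i =
      e (p.2⁻¹ i) * (p.1⁻¹ : (CliffordAlgebra (Q Ω))ˣ)
    rw [Units.eq_mul_inv_iff_mul_eq, mul_assoc, ← h, ← mul_assoc, h1, one_mul]

theorem t_mem {i j : Ω} (h : i ≠ j) : (t h, swap i j) ∈ Pin Ω := by
  intro k
  change involute (e i - e j) * e k = e (swap i j k) * (e i - e j)
  rw [map_sub, e, e, involute_ι, involute_ι, ← e, ← e]
  by_cases h1 : k = i
  · subst h1
    simp only [swap_apply_left, sub_mul, mul_sub, neg_mul, e_mul_self]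
    abel
  by_cases h2 : k = j
  · subst h2
    simp only [swap_apply_right, sub_mul, mul_sub, neg_mul, e_mul_self]
    abel
  rw [swap_apply_of_ne_of_ne h1 h2]
  simp only [sub_mul, mul_sub, neg_mul, e_anti h1, e_anti h2]

theorem neg_one_mem : ((-1, 1) : (CliffordAlgebra (Q Ω))ˣ × Perm Ω) ∈ Pin Ω := fun i => by simp

variable (Ω) in
/-- The central involution. -/
noncomputable def zz : Pin Ω := ⟨(-1, 1), neg_one_mem⟩

variable (Ω) in
/-- The projection. -/
noncomputable def pr : Pin Ω →* Perm Ω := (MonoidHom.snd _ _).comp (Pin Ω).subtype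

theorem zz_mem_center : zz Ω ∈ center (Pin Ω) :=
  mem_center_iff.2 fun g => Subtype.ext (Prod.ext (by simp [zz]) (by simp [zz]))

theorem zz_ne_one : zz Ω ≠ 1 := fun h => by
  have h1 : (-1 : CliffordAlgebra (Q Ω)) = 1 := congrArg (fun p : Pin Ω => (p.1.1 : CliffordAlgebra (Q Ω))) h
  have h2 : (1 : CliffordAlgebra (Q Ω)) = 0 := by
    rw [← three_eq_zero, show (3 : CliffordAlgebra (Q Ω)) = 1 + 1 + 1 by norm_num]
    nth_rewrite 2 [← h1]
    abel
  exact one_ne_zero h2

theorem zz_mul_self : zz Ω * zz Ω = 1 := Subtype.ext (Prod.ext (by simp [zz]) (by simp [zz]))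

theorem orderOf_zz : orderOf (zz Ω) = 2 :=
  orderOf_eq_prime (by rw [sq, zz_mul_self]) zz_ne_one

theorem pr_surjective : Function.Surjective (pr Ω) := by
  rw [← MonoidHom.range_eq_top, eq_top_iff, ← Perm.closure_isSwap, closure_le]
  rintro _ ⟨i, j, h, rfl⟩
  exact ⟨⟨_, t_mem h⟩, rfl⟩

theorem eq_of_pr_eq_one {p : Pin Ω} (h : pr Ω p = 1) : p = 1 ∨ p = zz Ω := by
  have h1 : p.1.2 = 1 := h
  obtain ⟨r, hr⟩ := Class.Orth.exists_eq_algebraMap_of_comm nondeg
    (u := (p.1.1 : CliffordAlgebra (Q Ω))) fun x => by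
      have hx : ι (Q Ω) x = ∑ i, x i • e i := by
        conv_lhs => rw [pi_eq_sum_univ' x]
        simp only [map_sum, map_smul, e]
      rw [hx, Finset.mul_sum, Finset.sum_mul]
      refine Finset.sum_congr rfl fun i _ => ?_
      rw [mul_smul_comm, smul_mul_assoc, p.2 i, h1, Perm.one_apply]
  have hc : r = 0 ∨ r = 1 ∨ r = -1 := by clear hr; revert r; decide
  rcases hc with rfl | rfl | rfl
  · exact absurd (hr.trans (map_zero _)) p.1.1.ne_zero
  · exact Or.inl (Subtype.ext (Prod.ext (Units.ext (hr.trans (map_one _))) h1))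
  · exact Or.inr (Subtype.ext (Prod.ext (Units.ext (hr.trans (by simp [zz]))) h1))

theorem ker_pr : (pr Ω).ker = zpowers (zz Ω) := by
  refine le_antisymm (fun p hp => ?_) (zpowers_le.2 rfl)
  rcases eq_of_pr_eq_one hp with rfl | rfl
  · exact one_mem _
  · exact mem_zpowers _

instance instFinitePin : Finite (Pin Ω) := by
  rw [(pr Ω).finite_iff_finite_ker_range, ker_pr]
  exact ⟨(isOfFinOrder_iff_pow_eq_one.2 ⟨2, by norm_num, by rw [sq, zz_mul_self]⟩).finite_zpowers,
    inferInstance⟩

/-- Lifts of double transpositions have order four. -/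
theorem sq_eq_zz {a b c d : Ω} (hab : a ≠ b) (hac : a ≠ c) (had : a ≠ d) (hbc : b ≠ c) (hbd : b ≠ d)
    (hcd : c ≠ d) {p : Pin Ω} (hp : pr Ω p = swap a b * swap c d) : p * p = zz Ω := by
  let q : Pin Ω := ⟨_, t_mem hab⟩ * ⟨_, t_mem hcd⟩
  have hq : q * q = zz Ω := by
    refine Subtype.ext (Prod.ext (Units.ext ?_) ?_)
    · change (e a - e b) * (e c - e d) * ((e a - e b) * (e c - e d)) = -1
      have h1 : (e c - e d) * (e a - e b) = -((e a - e b) * (e c - e d)) := by
        simp only [sub_mul, mul_sub, e_anti hac, e_anti had, e_anti hbc, e_anti hbd]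
        abel
      rw [mul_assoc, ← mul_assoc (e c - e d), h1, neg_mul, mul_assoc, t_mul_self hcd, mul_neg,
        ← mul_assoc, t_mul_self hab]
      simp
    · change swap a b * swap c d * (swap a b * swap c d) = 1
      have h1 : Commute (swap a b) (swap c d) := by
        apply Perm.Disjoint.commute
        intro x
        by_cases h2 : x = a
        · right; rw [h2, swap_apply_of_ne_of_ne hac had]
        by_cases h3 : x = b
        · right; rw [h3, swap_apply_of_ne_of_ne hbc hbd]
        · left; exact swap_apply_of_ne_of_ne h2 h3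
      rw [← sq, h1.mul_pow, sq, sq, swap_mul_self, swap_mul_self, one_mul]
  have h2 : pr Ω (q⁻¹ * p) = 1 := by
    rw [map_mul, map_inv, hp]
    exact inv_mul_cancel _
  clear_value q
  rcases eq_of_pr_eq_one h2 with h | h
  · rw [inv_mul_eq_one] at h
    rw [← h, hq]
  · rw [inv_mul_eq_iff_eq_mul] at h
    rw [h, mul_assoc, ← mul_assoc (zz Ω), ← mem_center_iff.1 zz_mem_center q, mul_assoc q (zz Ω),
      zz_mul_self, mul_one, hq]

variable (Ω) in
/-- The double cover of the alternating group. -/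
noncomputable def Spin : Subgroup (Pin Ω) := (alternatingGroup Ω).comap (pr Ω)

variable (Ω) in
/-- The central involution of the double cover of the alternating group. -/
noncomputable def zs : Spin Ω := ⟨zz Ω, (alternatingGroup Ω).one_mem⟩

variable (Ω) in
/-- The projection onto the alternating group. -/
noncomputable def ps : Spin Ω →* alternatingGroup Ω := (pr Ω).subgroupComap _

theorem ps_surjective : Function.Surjective (ps Ω) :=
  (pr Ω).subgroupComap_surjective_of_surjective _ pr_surjective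

theorem zs_mem_center : zs Ω ∈ center (Spin Ω) :=
  mem_center_iff.2 fun g => Subtype.ext (mem_center_iff.1 zz_mem_center g.1)

theorem orderOf_zs : orderOf (zs Ω) = 2 := by
  rw [← orderOf_zz (Ω := Ω), ← orderOf_coe]; rfl

theorem ker_ps : (ps Ω).ker = zpowers (zs Ω) := by
  refine le_antisymm (fun p hp => ?_) (zpowers_le.2 rfl)
  rcases eq_of_pr_eq_one (p := p.1) (congrArg Subtype.val hp) with h | h
  · rw [show p = 1 from Subtype.ext h]; exact one_mem _
  · rw [show p = zs Ω from Subtype.ext h]; exact mem_zpowers _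

theorem zs_mem_commutator {a b c d : Ω} (hab : a ≠ b) (hac : a ≠ c) (had : a ≠ d) (hbc : b ≠ c)
    (hbd : b ≠ d) (hcd : c ≠ d) : zs Ω ∈ commutator (Spin Ω) := by
  obtain ⟨x, hx⟩ := ps_surjective ⟨swap b d * swap b c, by simp [hbd, hbc]⟩
  obtain ⟨y, hy⟩ := ps_surjective ⟨swap a c * swap b d, by simp [hbd, hac]⟩
  have hx' : pr Ω x = swap b d * swap b c := congrArg Subtype.val hx
  have hy' : pr Ω y = swap a c * swap b d := congrArg Subtype.val hy
  have h : pr Ω (⁅x, y⁆ : Spin Ω) = swap a b * swap c d := by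
    change pr Ω ⁅x.1, y.1⁆ = _
    rw [map_commutatorElement, hx', hy', commutatorElement_def]
    ext k
    simp only [mul_inv_rev, swap_inv, Perm.mul_apply]
    by_cases h1 : k = a
    · simp [h1, swap_apply_of_ne_of_ne, *, Ne.symm]
    by_cases h2 : k = b
    · simp [h2, swap_apply_of_ne_of_ne, *, Ne.symm]
    by_cases h3 : k = c
    · simp [h3, swap_apply_of_ne_of_ne, *, Ne.symm]
    by_cases h4 : k = d
    · simp [h4, swap_apply_of_ne_of_ne, *, Ne.symm]
    · simp [swap_apply_of_ne_of_ne, *]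
  have h1 : ⁅x, y⁆ * ⁅x, y⁆ = zs Ω := Subtype.ext (sq_eq_zz hab hac had hbc hbd hcd h)
  rw [← h1]
  exact mul_mem (commutator_mem_commutator trivial trivial)
    (commutator_mem_commutator trivial trivial)

end Cfsg.Lib.AltCover
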