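/- Iterated cores of a maximal parabolic subgroup and its conjugate by the missing reflection. -/
import Cfsg.Agent.Chev.StructFaithful

set_option autoImplicit false

namespace Cfsg.Lib.Known.CChain

open Cfsg.Lib.Chev Cfsg.Lib.Chev.RGD

variable {ι A : Type} [Fintype ι] [DecidableEq ι] [DecidableEq A] {G : Type*} [Group G]
  {R : WeylData ι A} {Y : RGD R G}

/-- The span of the root subgroups of level at least `k`. -/
def Lv (Y : RGD R G) (φ : (ι → ℤ) →ₗ[ℤ] ℤ) (k : ℤ) : Subgroup G :=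
  spanX Y.X {r | r ∈ R.Φ ∧ k ≤ φ (R.rc r)}

theorem n_mem_of_X_le (hY : Y.Faithful) {M : Subgroup G} (hB : Y.B ≤ M) {i : ι}
    (h : Y.X (R.neg (R.simple i)) ≤ M) : Y.n i ∈ M := by
  obtain ⟨a, ha, h1⟩ := hY.exists_ne_one (R.neg_mem _ (R.simple_mem i))
  obtain ⟨u, hu, k, hk, u', hu', e⟩ := Y.rank_one i a ha h1
  have hX := (Y.X_le_U (R.pos_simple i)).trans (Y.U_le_B.trans hB)
  have : Y.n i = (u * k)⁻¹ * a * u'⁻¹ := by rw [e]; group
  rw [this]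
  exact mul_mem (mul_mem (inv_mem (mul_mem (hX hu) (hB (Y.H_le_B hk)))) (h ha)) (inv_mem (hX hu'))

/-- Overgroups of `B` are parabolic. -/
theorem eq_P (hY : Y.Faithful) {M : Subgroup G} (hB : Y.B ≤ M) (hM : M ≤ Y.G0) :
    M = Y.P {i | Y.n i ∈ M} := by
  refine le_antisymm (fun g hg => ?_) (sup_le hB ((Subgroup.closure_le _).2 ?_))
  · obtain ⟨w, hw⟩ := mem_G0_iff.1 (hM hg)
    have key : ∀ w : R.W, ∀ m ∈ M, Y.Lifts m w → w ∈ R.WJ {i | Y.n i ∈ M} := fun w => by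
      refine R.induction_pos_left (p := fun w => ∀ m ∈ M, Y.Lifts m w → w ∈ R.WJ {i | Y.n i ∈ M})
        w (fun _ _ _ => one_mem _) fun i w hi ih m hm h => ?_
      have hn : Y.n i ∈ M := n_mem_of_X_le hY hB fun a ha => by
        have h1 := h.inv_conj_X (R.neg_mem _ (R.simple_mem i)) ha
        rw [mul_inv_rev, mul_smul, R.s_inv, R.s_smul_neg_simple] at h1
        have := mul_mem (mul_mem hm (hB (Y.U_le_B (Y.X_le_U hi h1)))) (inv_mem hm)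
        simpa [mul_assoc] using this
      refine mul_mem (R.s_mem_WJ hn) (ih _ (mul_mem (inv_mem hn) hm) ?_)
      simpa using (Y.lifts_n i).inv.mul h
    obtain ⟨m, hm⟩ := Y.exists_lifts w
    exact mem_P_iff.2 ⟨w, key w m (cell_subset_of_mem hB hw hg hm.mem_cell) hm, hw⟩
  · rintro _ ⟨i, hi, rfl⟩
    exact hi

theorem mono_mem {X : A → Subgroup G} {S T : Set A} {g : G} (hg : g ∈ spanX X S)
    (h : ∀ r ∈ S, r ∈ T) : g ∈ spanX X T := spanX_mono X h hg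

theorem Lv_mono (φ : (ι → ℤ) →ₗ[ℤ] ℤ) {k l : ℤ} (h : k ≤ l) : Lv Y φ l ≤ Lv Y φ k :=
  spanX_mono _ fun _ hr => ⟨hr.1, h.trans hr.2⟩

theorem conj_mem_Lv {m : G} {w : R.W} (hm : Y.Lifts m w) {φ : (ι → ℤ) →ₗ[ℤ] ℤ} {k : ℤ} {g : G}
    (hg : m * g * m⁻¹ ∈ Lv Y φ k) : g ∈ Lv Y (φ ∘ₗ R.lin w) k := by
  have := hm.inv.conj_spanX (T := {r | r ∈ R.Φ ∧ k ≤ (φ ∘ₗ R.lin w) (R.rc r)}) (fun _ h => h.1)
    (fun r h => ⟨R.smul_mem _ h.1, by simpa [R.rc_smul _ h.1] using h.2⟩) hg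
  rwa [show m⁻¹ * (m * g * m⁻¹) * m⁻¹⁻¹ = g by group] at this

/-- The support of a unipotent element lies in every half space it can be bounded by. -/
theorem mem_Lv (hY : Y.Faithful) {χ ψ : (ι → ℤ) →ₗ[ℤ] ℤ} {c : ℤ} {g : G} (hg : g ∈ Lv Y χ 1)
    (h : ∀ r ∈ R.Φ, (∀ φ k, 0 ≤ k → g ∈ Lv Y φ k → k ≤ φ (R.rc r)) → c ≤ ψ (R.rc r)) :
    g ∈ Lv Y ψ c := by
  classical
  obtain ⟨T, ⟨hT, hc, hgT⟩, hmin⟩ := Set.Finite.exists_minimal
    (s := {T : Set A | T ⊆ {r | r ∈ R.Φ ∧ 1 ≤ χ (R.rc r)} ∧ R.StClosed T ∧ g ∈ spanX Y.X T})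
    ((R.Φ.finite_toSet.subset fun r (hr : r ∈ R.Φ ∧ 1 ≤ χ (R.rc r)) => hr.1).finite_subsets.subset
      fun _ h => h.1) ⟨_, subset_rfl, R.stClosed_ge χ zero_le_one, hg⟩
  have hΦ : ∀ r ∈ T, r ∈ R.Φ := fun r hr => (hT hr).1
  have hsub : ∀ S : Set A, R.StClosed S → g ∈ spanX Y.X (T ∩ S) → T ⊆ S := fun S hS hgS r hr =>
    (hmin (y := T ∩ S) ⟨Set.inter_subset_left.trans hT, hc.inter hS, hgS⟩ Set.inter_subset_left hr).2
  refine spanX_mono Y.X (T' := {r | r ∈ R.Φ ∧ c ≤ ψ (R.rc r)})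
    (fun r hr => ⟨hΦ r hr, h r (hΦ r hr) fun φ k hk hgk => ?_⟩) hgT
  obtain ⟨a, ha, b, hb, e⟩ := Y.comm.exists_mul_of_union hΦ hc χ (fun r hr => (hT hr).2)
    (S₁ := T ∩ {r | r ∈ R.Φ ∧ min k 1 ≤ φ (R.rc r)}) (S₂ := T ∩ {r | φ (R.rc r) < min k 1})
    (by ext r; by_cases hr : r ∈ T <;> simp [hr, hΦ r]; omega) hgT
  have hab : b ∈ Lv Y φ (min k 1) := by
    rw [show b = a⁻¹ * g by rw [e]; group]
    exact mul_mem (inv_mem (spanX_mono _ Set.inter_subset_right ha))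
      (Lv_mono φ (min_le_left _ _) hgk)
  have hb1 : b = 1 := by
    rcases hk.eq_or_lt with rfl | hk
    · refine hY.sep (-φ) b (mono_mem hb fun r hr => ⟨hΦ r hr.1, ?_⟩)
        (Subgroup.mem_sup_left (mono_mem hab fun r hr => ⟨hr.1, ?_⟩))
      · simpa using hr.2
      · simpa using hr.2
    · rw [min_eq_right (show 1 ≤ k from hk)] at hb hab
      exact hY.sep φ b hab (Subgroup.mem_sup_left
        (mono_mem hb fun r hr => ⟨hΦ r hr.1, Int.lt_add_one_iff.1 hr.2⟩))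
  have h1 := hsub _ (R.stClosed_ge φ (le_min hk zero_le_one)) (by rwa [e, hb1, mul_one])
  rcases hk.eq_or_lt with rfl | hk
  · simpa using (h1 hr).2
  rw [min_eq_right (show 1 ≤ k from hk)] at h1
  by_contra! hlt
  obtain ⟨θ, h2, h3, h4⟩ := R.st_exists_generic φ
  obtain ⟨m, hm, hm'⟩ := Set.exists_min_image T (fun r => θ (R.rc r))
    (R.Φ.finite_toSet.subset hΦ) ⟨r, hr⟩
  have hpos : ∀ r ∈ T, 0 < θ (R.rc r) := fun r hr => h3 r (hΦ r hr) (h1 hr).2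
  obtain ⟨a, ha, u, hu, e⟩ := (Y.comm.ufilt hΦ hc θ hpos fun r hr s hs =>
    h2 r (hΦ r hr) s (hΦ s hs)).exists_mul_of_mem_ge hm
      (mono_mem hgT fun r hr => ⟨hr, hm' r hr⟩)
  have ha1 : a = 1 := hY.indep θ m (hΦ m hm) (hpos m hm) a ha (by
    rw [show a = g * u⁻¹ by rw [e]; group]
    refine mul_mem (mono_mem hgk fun s hs => ⟨hs.1, ?_⟩)
      (inv_mem (mono_mem hu fun s hs => ⟨hΦ s hs.1, hs.2⟩))
    exact (hm' r hr).trans_lt (h4 r (hΦ r hr) s hs.1 (hlt.trans_le hs.2)))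
  have := hsub _ (R.stClosed_gt θ (hpos m hm).le) (by
    rw [e, ha1, one_mul]
    exact mono_mem hu fun s hs => ⟨hs.1, hΦ s hs.1, hs.2⟩) hm
  exact lt_irrefl _ this.2

/-- Tits' lemma. -/
theorem tits (hY : Y.Faithful) {K : Set ι} {i j : ι} (hi : i ∈ K) (hj : j ∉ K) (hC : R.C i j ≠ 0)
    {x : G} (hx : x ∈ Y.cell (R.s i)) (h : (Y.n j)⁻¹ * x * Y.n j ∈ Y.P K) : False := by
  have hij : i ≠ j := fun e => hj (e ▸ hi)
  obtain ⟨v, hv, h⟩ := mem_P_iff.1 h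
  obtain ⟨b, hb, b', hb', rfl⟩ := (mem_cell_iff (Y.lifts_n i)).1 hx
  have h1 := B_mul_mem_cell hb (n_mul_mem_cell_of_pos (w := R.s j) (i := i)
    (by rw [R.s_inv]; exact R.pos_s_smul (R.pos_simple i) fun e => hij (R.simple_injective e))
    (B_mul_mem_cell hb' (Y.lifts_n j).mem_cell))
  rcases n_mul_mem_cell v j h with h2 | h2 <;>
    have h3 := hY.eq_of_mem_cell h1 (by simpa [mul_assoc] using h2)
  · have h4 := R.rc_smul_of_mem_WJ hv (R.smul_mem (R.s j) (R.simple_mem i)) hj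
    rw [show v = R.s j * (R.s i * R.s j) by rw [h3]; simp, ← mul_smul, mul_assoc, mul_assoc,
      R.s_mul_self, mul_one, mul_smul, R.s_smul_simple, R.smul_neg _ (R.simple_mem i),
      R.rc_neg _ (R.smul_mem _ (R.simple_mem i)), R.rc_smul _ (R.simple_mem i), R.lin_s,
      R.rc_simple, R.sl_apply, R.a_single] at h4
    have h5 := R.symm i j
    have h6 : R.C j i = 0 := by simp [hij.symm] at h4; omega
    rw [h6, mul_zero] at h5
    exact hC ((mul_eq_zero.1 h5).resolve_left (R.d_pos i).ne')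
  · refine hj (R.s_mem_WJ_iff.1 ?_)
    have := mul_mem (R.s_mem_WJ hi) hv
    rwa [← h3, R.s_mul_s_mul] at this

theorem le_B (hY : Y.Faithful)
    (hconn : ∀ J : Set ι, J.Nonempty → Jᶜ.Nonempty → ∃ i ∈ J, ∃ j ∉ J, R.C i j ≠ 0) {c : ι}
    {N : Subgroup G} (hN : N ≤ Y.P {c}ᶜ) (h1 : ∀ m ∈ Y.P {c}ᶜ, ∀ x ∈ N, m * x * m⁻¹ ∈ N)
    (h2 : ∀ x ∈ N, (Y.n c)⁻¹ * x * Y.n c ∈ Y.P {c}ᶜ) : N ≤ Y.B := by
  have hM : N ⊔ Y.B ≤ Y.P {c}ᶜ := sup_le hN (Y.B_le_P _)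
  have h3 := eq_P hY (M := N ⊔ Y.B) le_sup_right (hM.trans (Y.P_le_G0 _))
  set K := {i | Y.n i ∈ N ⊔ Y.B}
  have hK : K ⊆ {c}ᶜ := fun i hi => hY.n_mem_P_iff.1 (hM hi)
  rcases K.eq_empty_or_nonempty with h | h
  · rw [h, Y.P_empty] at h3
    exact le_sup_left.trans h3.le
  obtain ⟨i, hi, j, hj, hC⟩ := hconn K h ⟨c, fun h => hK h rfl⟩
  obtain ⟨x, hx, b, hb, e⟩ := exists_mul_of_mem_sup_of_le_normalizer'
    ((Y.B_le_P _).trans (le_normalizer_of_conj_mem h1)) hi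
  have hc : x ∈ Y.cell (R.s i) := by
    rw [show x = Y.n i * b⁻¹ by rw [e]; group]
    exact mul_B_mem_cell (Y.lifts_n i).mem_cell (inv_mem hb)
  by_cases hjc : j = c
  · exact (tits hY (hK hi) (by simp [hjc]) hC hc (hjc ▸ h2 x hx)).elim
  · refine (tits hY hi hj hC hc (h3 ▸ Subgroup.mem_sup_left ?_)).elim
    simpa using h1 _ (inv_mem (Y.n_mem_P (J := {c}ᶜ) hjc)) x hx

theorem exists_low {c : ι} (hd : R.d c = 1) {r : A} (hr : r ∈ R.Φ) (h : 1 ≤ R.rc r c) :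
    ∃ w ∈ R.WJ {c}ᶜ, 2 ≤ R.rc r c * R.a c (R.rc (w • r)) := by
  obtain ⟨w, hw, hmin⟩ := Set.exists_min_image (R.WJ {c}ᶜ : Set R.W)
    (fun w => ∑ i, R.rc (w • r) i) (Set.toFinite _) ⟨1, one_mem _⟩
  have hwr := R.smul_mem w hr
  have e := R.rc_smul_of_mem_WJ hw hr (i := c) (by simp)
  have hp := R.pos_of_coord_pos hwr (j := c) (by omega)
  refine ⟨w, hw, ?_⟩
  obtain ⟨v, i, hv⟩ := exists_smul_simple R hwr
  have h1 : R.form (R.rc (w • r)) (R.rc (w • r)) = R.d i * 2 := by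
    rw [← hv, R.rc_smul _ (R.simple_mem i), R.form_lin, R.rc_simple, R.form_single, R.a_single,
      R.C_diag]
  have h2 := R.d_pos i
  rw [WeylData.form, ← Finset.add_sum_erase _ _ (Finset.mem_univ c), hd, one_mul, e] at h1
  have h3 : ∑ j ∈ Finset.univ.erase c, R.d j * R.rc (w • r) j * R.a j (R.rc (w • r)) ≤ 0 :=
    Finset.sum_nonpos fun j hj => mul_nonpos_of_nonneg_of_nonpos
      (mul_nonneg (R.d_pos j).le (hp.2 j)) (by
        have := hmin _ (mul_mem (R.s_mem_WJ (J := {c}ᶜ) (Finset.ne_of_mem_erase hj)) hw)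
        simp only [mul_smul, R.rc_smul _ hwr, R.lin_s, R.sl_apply, Pi.sub_apply,
          Finset.sum_sub_distrib, Pi.smul_apply, smul_eq_mul, ← Finset.mul_sum] at this
        simpa using this)
  omega

theorem P_eq_Lv (hH : Y.H = ⊥) (c : ι) : Y.P {c}ᶜ = Lv Y (LinearMap.proj c) 0 := by
  rw [Y.P_eq, hH, bot_sup_eq, Lv]
  congr 1
  ext r
  constructor
  · rintro (h | h)
    · exact ⟨h.1, h.2 c⟩
    · exact ⟨h.1, (h.2 c (by simp)).ge⟩
  · rintro ⟨hr, h⟩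
    refine or_iff_not_imp_left.2 fun h1 => ⟨hr, fun i hi => ?_⟩
    obtain rfl : i = c := by simpa using hi
    exact le_antisymm ((R.not_pos_iff hr).1 h1 i) h

theorem step (hY : Y.Faithful) {c : ι} (hd : R.d c = 1) {x : G} {k l : ℤ} (hk : 1 ≤ k)
    (hl : l = k ∨ l = 0 ∧ k = 1) (hx : x ∈ Lv Y (LinearMap.proj c) k)
    (h : ∀ m ∈ Y.P {c}ᶜ, (Y.n c)⁻¹ * (m * x * m⁻¹) * Y.n c ∈ Lv Y (LinearMap.proj c) l) :
    x ∈ Lv Y (LinearMap.proj c) (k + 1) := by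
  refine mem_Lv hY (Lv_mono _ hk hx) fun r hr hφ => ?_
  have h1 : k ≤ R.rc r c := hφ _ _ (by omega) hx
  obtain ⟨w, hw, h2⟩ := exists_low hd hr (hk.trans h1)
  obtain ⟨m, hm⟩ := Y.exists_lifts w
  have h3 := hφ _ l (by omega) (conj_mem_Lv ((Y.lifts_n c).inv.mul hm)
    (by simpa [mul_assoc] using h m (hm.mem_P hw)))
  simp only [LinearMap.comp_apply, R.lin_mul_apply, R.s_inv, R.lin_s, ← R.rc_smul _ hr, R.sl_apply,
    LinearMap.proj_apply, Pi.sub_apply, Pi.smul_apply, Pi.single_eq_same, smul_eq_mul, mul_one,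
    R.rc_smul_of_mem_WJ hw hr (i := c) (by simp)] at h3
  change k + 1 ≤ R.rc r c
  by_contra! h4
  obtain rfl : k = R.rc r c := by omega
  rcases hl with rfl | ⟨rfl, h5⟩
  · nlinarith
  · rw [h5] at h2 h3; omega

theorem step0 (hY : Y.Faithful) (hH : Y.H = ⊥) {c : ι} {x : G}
    (h : ∀ m ∈ Y.P {c}ᶜ, m * x * m⁻¹ ∈ Y.B) : x ∈ Lv Y (LinearMap.proj c) 1 := by
  have hB : Y.B = Lv Y (R.stHt ∅) 1 := by rw [RGD.B, hH, sup_bot_eq, U_eq_level]; rfl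
  refine mem_Lv hY (hB.le (by simpa using h 1 (one_mem _))) fun r hr hφ => ?_
  have key : ∀ w ∈ R.WJ {c}ᶜ, R.Pos (w • r) := fun w hw => by
    obtain ⟨m, hm⟩ := Y.exists_lifts w
    have := hφ _ 1 zero_le_one (conj_mem_Lv hm (hB ▸ h m (hm.mem_P hw)))
    rw [LinearMap.comp_apply, ← R.rc_smul _ hr] at this
    exact (R.stHt_empty_pos_iff (R.smul_mem w hr)).1 this
  have h1 : R.Pos r := by simpa using key 1 (one_mem _)
  by_contra! h2
  refine (R.pos_w0_smul_iff (J := {c}ᶜ) ⟨hr, fun i hi => ?_⟩).1 (key _ (R.w0_mem _)) h1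
  obtain rfl : i = c := by simpa using hi
  exact le_antisymm (Int.lt_add_one_iff.1 h2) (h1.2 i)

theorem conj_mem_of_P {c : ι} {k : ℤ} (hk : 0 < k) {m x : G} (hm : m ∈ Y.P {c}ᶜ)
    (hx : x ∈ Lv Y (LinearMap.proj c) k) : m * x * m⁻¹ ∈ Lv Y (LinearMap.proj c) k := by
  have e : R.stHt {c}ᶜ = LinearMap.proj c := by
    ext v
    rw [LinearMap.comp_apply, R.stHt_apply, Finset.sum_eq_single c] <;> simp +contextual
  have := Y.P_le_normalizer_level {c}ᶜ hk hm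
  rw [e] at this
  exact conj_mem_of_mem_normalizer this hx

theorem mem_core {M X : Subgroup G} {x : G} :
    x ∈ (X.subgroupOf M).normalCore.map M.subtype ↔ x ∈ M ∧ ∀ m ∈ M, m * x * m⁻¹ ∈ X :=
  ⟨by rintro ⟨y, hy, rfl⟩; exact ⟨y.2, fun m hm => hy ⟨m, hm⟩⟩,
    fun h => ⟨⟨x, h.1⟩, fun m => h.2 m m.2, rfl⟩⟩

theorem mem_cj {M : Subgroup G} {g x : G} :
    x ∈ M.map (MulAut.conj g).toMonoidHom ↔ g⁻¹ * x * g ∈ M :=
  ⟨by rintro ⟨y, hy, rfl⟩; simpa [mul_assoc] using hy, fun h => ⟨_, h, by simp [mul_assoc]⟩⟩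

/-- The iterated cores. -/
def ch (M : Subgroup G) (g : G) : ℕ → Subgroup G
  | 0 => M
  | i + 1 => ((ch M g i ⊓ (ch M g i).map (MulAut.conj g).toMonoidHom).subgroupOf M).normalCore.map
      M.subtype

theorem ch_eq_def' : type_of% @ch.eq_def := @ch.eq_def

theorem mem_ch {M : Subgroup G} {g x : G} {i : ℕ} : x ∈ ch M g (i + 1) ↔
    x ∈ M ∧ ∀ m ∈ M, m * x * m⁻¹ ∈ ch M g i ∧ g⁻¹ * (m * x * m⁻¹) * g ∈ ch M g i := by
  simp only [ch, mem_core, Subgroup.mem_inf, mem_cj]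

theorem map_ch {M : Subgroup G} {g : G} (hg : g * g = 1) (i : ℕ) :
    (ch M g (i + 1)).map (MulAut.conj g).toMonoidHom =
      ((ch M g i ⊓ (ch M g i).map (MulAut.conj g).toMonoidHom).subgroupOf
        (M.map (MulAut.conj g).toMonoidHom)).normalCore.map
          (M.map (MulAut.conj g).toMonoidHom).subtype := by
  have h1 : g⁻¹ = g := inv_eq_of_mul_eq_one_left hg
  have h2 : ∀ y, g * (g * y) = y := fun y => by rw [← mul_assoc, hg, one_mul]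
  ext x
  simp only [mem_ch, mem_core, Subgroup.mem_inf, mem_cj]
  refine and_congr_right fun _ => ⟨fun h m hm => ?_, fun h m hm => ?_⟩
  · simpa [h1, mul_assoc, h2, hg] using (h _ hm).symm
  · simpa [h1, mul_assoc, h2, hg] using (h (g * m * g) (by simpa [h1, mul_assoc, h2, hg])).symm

theorem main (hY : Y.Faithful) (hH : Y.H = ⊥)
    (hconn : ∀ J : Set ι, J.Nonempty → Jᶜ.Nonempty → ∃ i ∈ J, ∃ j ∉ J, R.C i j ≠ 0) {c : ι}
    (hd : R.d c = 1) (ha : ∀ r ∈ R.Φ, 2 ≤ R.rc r c → R.a c (R.rc r) ≤ 1) {n : ℕ}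
    (hn : ∀ r ∈ R.Φ, R.rc r c ≤ n + 2) (hn' : ∃ r ∈ R.Φ, R.rc r c = n + 2) :
    ∃ (M₁ M₂ : Subgroup Y.G0) (g : Y.G0) (A B : ℕ → Subgroup Y.G0),
      IsCoatom M₁ ∧ M₂ = M₁.map (MulAut.conj g).toMonoidHom ∧ M₁ ≠ M₂ ∧ M₁.normalCore = ⊥ ∧
      A 0 = M₁ ∧ B 0 = M₂ ∧
      (∀ i, A (i + 1) = ((A i ⊓ B i).subgroupOf M₁).normalCore.map M₁.subtype) ∧
      (∀ i, B (i + 1) = ((A i ⊓ B i).subgroupOf M₂).normalCore.map M₂.subtype) ∧
      A (n + 2) = ⊥ ∧ A (n + 1) ≠ ⊥ := by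
  let M := (Y.P {c}ᶜ).subgroupOf Y.G0
  let g : Y.G0 := ⟨Y.n c, Y.N_le_G0 (Y.n_mem_N c)⟩
  have hg : g * g = 1 := Subtype.ext (Subgroup.mem_bot.1 (hH ▸ Y.n_sq c))
  have hc : Y.n c ∉ Y.P {c}ᶜ := fun h => hY.n_mem_P_iff.1 h rfl
  have hup : ∀ i : ℕ, ∀ x ∈ ch M g (i + 1), (x : G) ∈ Lv Y (LinearMap.proj c) (i + 2) := by
    intro i
    induction i with
    | zero =>
      have h1 : (ch M g 1).map Y.G0.subtype ≤ Y.B := by
        refine le_B hY hconn (c := c) ?_ ?_ ?_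
        · rintro _ ⟨x, hx, rfl⟩
          exact (mem_ch.1 hx).1
        · rintro m hm _ ⟨x, hx, rfl⟩
          refine ⟨⟨m, Y.P_le_G0 _ hm⟩ * x * ⟨m, Y.P_le_G0 _ hm⟩⁻¹, mem_ch.2 ⟨?_, fun k hk => ?_⟩, rfl⟩
          · exact ((mem_ch.1 hx).2 _ hm).1
          · simpa [mul_assoc] using (mem_ch.1 hx).2 (k * ⟨m, Y.P_le_G0 _ hm⟩) (M.mul_mem hk hm)
        · rintro _ ⟨x, hx, rfl⟩
          have := ((mem_ch.1 hx).2 1 M.one_mem).2
          rw [one_mul, inv_one, mul_one] at this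
          exact this
      intro x hx
      rw [show ((0 : ℕ) : ℤ) + 2 = 1 + 1 from rfl]
      refine step hY hd (k := 1) (l := 0) le_rfl (Or.inr ⟨rfl, rfl⟩)
        (step0 hY hH fun m hm => h1 ?_) fun m hm => ?_
      · refine ⟨⟨m, Y.P_le_G0 _ hm⟩ * x * ⟨m, Y.P_le_G0 _ hm⟩⁻¹, mem_ch.2 ⟨?_, fun k hk => ?_⟩, rfl⟩
        · exact ((mem_ch.1 hx).2 _ hm).1
        · simpa [mul_assoc] using (mem_ch.1 hx).2 (k * ⟨m, Y.P_le_G0 _ hm⟩) (M.mul_mem hk hm)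
      · rw [← P_eq_Lv hH]
        exact ((mem_ch.1 hx).2 ⟨m, Y.P_le_G0 _ hm⟩ hm).2
    | succ i ih =>
      intro x hx
      have h1 := (mem_ch.1 hx).2
      rw [show ((i + 1 : ℕ) : ℤ) + 2 = i + 2 + 1 by push_cast; ring]
      exact step hY hd (by omega) (Or.inl rfl) (ih x (by simpa using (h1 1 M.one_mem).1))
        fun m hm => ih _ (h1 ⟨m, Y.P_le_G0 _ hm⟩ hm).2
  have hlow : ∀ i : ℕ, ∀ x : Y.G0, (x : G) ∈ Lv Y (LinearMap.proj c) (i + 1) → x ∈ ch M g i := by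
    intro i
    induction i with
    | zero => exact fun x hx => (P_eq_Lv hH c).ge (Lv_mono _ (by simp) hx)
    | succ i ih =>
      refine fun x hx => mem_ch.2 ⟨(P_eq_Lv hH c).ge (Lv_mono _ (by omega) hx), fun m hm => ?_⟩
      have h1 := conj_mem_of_P (by omega) hm hx
      refine ⟨ih _ (Lv_mono _ (by omega) h1), ih _ ?_⟩
      have := (Y.lifts_n c).inv.conj_spanX (T := {r | r ∈ R.Φ ∧ (i + 1 : ℤ) ≤ R.rc r c})
        (fun _ h => h.1) (fun r h => ⟨R.smul_mem _ h.1, ?_⟩) h1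
      · rwa [inv_inv] at this
      · have h2 : ((i + 1 : ℕ) : ℤ) + 1 ≤ R.rc r c := h.2
        have h3 := ha r h.1 (by omega)
        simp only [R.s_inv, R.rc_smul _ h.1, R.lin_s, R.sl_apply, Pi.sub_apply, Pi.smul_apply,
          Pi.single_eq_same, smul_eq_mul, mul_one]
        omega
  have hbot : ch M g (n + 2) = ⊥ := eq_bot_iff.2 fun x hx => by
    have := hup _ x hx
    rw [Lv, Set.eq_empty_of_forall_notMem (s := {r | _}) fun r hr => ?_, spanX_empty] at this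
    · exact Subtype.ext this
    · have h1 := hn r hr.1
      have h2 : ((n + 1 : ℕ) : ℤ) + 2 ≤ R.rc r c := hr.2
      omega
  refine ⟨M, _, g, ch M g, fun i => (ch M g i).map (MulAut.conj g).toMonoidHom,
    ⟨fun h => hc ((Subgroup.eq_top_iff' _).1 h g), fun L hL => ?_⟩, rfl, fun h => ?_, ?_, rfl, rfl,
    fun _ => rfl, map_ch hg, hbot, fun h => ?_⟩
  · have h1 : Y.P {c}ᶜ ≤ L.map Y.G0.subtype := fun x hx => ⟨⟨x, Y.P_le_G0 _ hx⟩, hL.le hx, rfl⟩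
    have h2 := eq_P hY ((Y.B_le_P _).trans h1) (Subgroup.map_subtype_le L)
    by_cases h3 : Y.n c ∈ L.map Y.G0.subtype
    · rw [Set.eq_univ_of_forall (s := {i | _}) fun i => ?_, Y.P_univ] at h2
      · refine eq_top_iff.2 fun x _ => ?_
        obtain ⟨y, hy, e⟩ := h2.ge x.2
        exact Subtype.ext e ▸ hy
      · by_cases h4 : i = c
        · exact h4 ▸ h3
        · exact h1 (Y.n_mem_P h4)
    · have h4 := h2.le.trans (Y.P_mono (K := {c}ᶜ) fun i hi (e : i = c) => h3 (e ▸ hi))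
      exact (hL.not_ge fun x hx => h4 ⟨x, hx, rfl⟩).elim
  · refine hc (n_mem_of_X_le hY (Y.B_le_P _) fun a ha => ?_)
    have h1 := (Y.lifts_n c).conj_X (R.neg_mem _ (R.simple_mem c)) ha
    rw [R.s_smul_neg_simple] at h1
    have h2 : (⟨_, Y.X_le_G0 (R.simple_mem c) h1⟩ : Y.G0) ∈ M :=
      Y.X_le_P (Or.inl (R.pos_simple c)) h1
    rw [h, mem_cj] at h2
    simpa [M, g, Subgroup.mem_subgroupOf, mul_assoc] using h2
  · have : ∀ i, M.normalCore ≤ ch M g i := fun i => by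
      induction i with
      | zero => exact M.normalCore_le
      | succ i ih =>
        refine fun x hx => mem_ch.2 ⟨M.normalCore_le hx, fun m _ => ⟨ih ?_, ih ?_⟩⟩
        · exact Subgroup.Normal.conj_mem inferInstance _ hx _
        · exact Subgroup.Normal.conj_mem' inferInstance _
            (Subgroup.Normal.conj_mem inferInstance _ hx _) _
    exact eq_bot_iff.2 (hbot ▸ this _)
  · obtain ⟨r, hr, e⟩ := hn'
    obtain ⟨a, ha, h1⟩ := hY.exists_ne_one hr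
    have := hlow (n + 1) ⟨a, Y.X_le_G0 hr ha⟩ (mem_spanX Y.X (And.intro hr (by
      change _ ≤ R.rc r c
      omega)) ha)
    rw [h] at this
    exact h1 (congrArg Subtype.val this)

end Cfsg.Lib.Known.CChain
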