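import Mathlib
import Cfsg.Agent.Known.ElusOrd

/-!
Hermitian and alternating spaces treated together: subspaces fixed by elements of prime order and
by Sylow subgroups.
-/

namespace Cfsg.Lib.Known

open Module Polynomial Cfsg.Lib.Class Cfsg.Lib.Class.Form

universe u

variable {F : Type u} [Field F] {σ : F →+* F} {V W : Type*} [AddCommGroup V] [Module F V]
  [AddCommGroup W] [Module F W] {B : V →ₛₗ[σ] V →ₗ[F] F} {ε : F} {g : End F V}

theorem HForm.nondegOn_span (h : HForm B ε) {v : V} (hv : B v v ≠ 0) :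
    NondegOn B (Submodule.span F {v}) := fun u hu h1 => by
  obtain ⟨c, rfl⟩ := Submodule.mem_span_singleton.mp hu
  have := h.eq_zero_comm.mp (h1 v (Submodule.mem_span_singleton_self v))
  rw [map_smul, smul_eq_mul] at this
  rw [(mul_eq_zero.mp this).resolve_right hv, zero_smul]

theorem HForm.nondegOn_top (h : HForm B ε) : NondegOn B ⊤ :=
  fun u _ hu => h.sep u fun v => hu v trivial

theorem nondegOn_bot : NondegOn B ⊥ := fun _ hu _ => hu

theorem totIso_bot : TotIso B ⊥ := fun u hu v _ => by simp [(Submodule.mem_bot F).mp hu]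

variable [FiniteDimensional F V]

theorem HForm.exists_plane_of_alt (h : HForm B ε) {U : Submodule F V} (hU : NondegOn B U)
    (h0 : U ≠ ⊥) (ha : ∀ v ∈ U, B v v = 0) : ∃ T, NondegOn B T ∧ finrank F T = 2 := by
  obtain ⟨x, hx, hx0⟩ := (Submodule.ne_bot_iff _).mp h0
  obtain ⟨y, hy, hxy⟩ : ∃ y ∈ U, B x y ≠ 0 := by
    by_contra h1
    push Not at h1
    exact hx0 (hU x hx h1)
  refine ⟨Submodule.span F {x} ⊔ Submodule.span F {y}, mem_sup_elim fun u hu v hv h1 => ?_, ?_⟩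
  · obtain ⟨a, rfl⟩ := Submodule.mem_span_singleton.mp hu
    obtain ⟨b, rfl⟩ := Submodule.mem_span_singleton.mp hv
    have h2 := h.eq_zero_comm.mp (h1 x (Submodule.mem_sup_left (Submodule.mem_span_singleton_self x)))
    have h3 := h.eq_zero_comm.mp (h1 y (Submodule.mem_sup_right (Submodule.mem_span_singleton_self y)))
    simp only [map_add, map_smul, smul_eq_mul, ha x hx, ha y hy, mul_zero, zero_add, add_zero,
      mul_eq_zero] at h2 h3
    rw [h2.resolve_right hxy, h3.resolve_right (mt h.eq_zero_comm.mp hxy)]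
    simp
  · rw [finrank_sup_span, finrank_span_singleton hx0]
    intro h1
    obtain ⟨a, rfl⟩ := Submodule.mem_span_singleton.mp h1
    exact hxy (by simp [ha x hx])

theorem HForm.nondegOn_sup_orth (h : HForm B ε) {U T : Submodule F V} (hU : NondegOn B U)
    (hT : NondegOn B T) (hle : T ≤ orth B U) :
    NondegOn B (U ⊔ T) ∧ finrank F ↥(U ⊔ T) = finrank F U + finrank F T :=
  ⟨nondegOn_sup hU hT (fun u hu v hv => mem_orth.mp (hle hv) u hu)
    fun u hu v hv => h.mem_orth'.mp (hle hv) u hu,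
    finrank_sup_of_disjoint ((h.isCompl_orth hU).disjoint.mono_right hle)⟩

theorem HForm.exists_plane (h : HForm B ε) (h2 : 2 ≤ finrank F V) :
    ∃ T, NondegOn B T ∧ finrank F T = 2 := by
  by_cases h1 : ∀ v, B v v = 0
  · exact h.exists_plane_of_alt h.nondegOn_top (ne_bot_of_finrank (finrank_top F V) (by omega))
      fun v _ => h1 v
  push Not at h1
  obtain ⟨x, hx⟩ := h1
  have h3 := h.finrank_orth (Submodule.span F {x})
  have h4 := finrank_span_singleton (K := F) (v := x) (by rintro rfl; simp at hx)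
  by_cases h1 : ∀ v ∈ orth B (Submodule.span F {x}), B v v = 0
  · exact h.exists_plane_of_alt (h.nondegOn_orth (h.nondegOn_span hx))
      (ne_bot_of_finrank rfl (by omega)) h1
  push Not at h1
  obtain ⟨y, hy, hy0⟩ := h1
  have h5 := h.nondegOn_sup_orth (h.nondegOn_span hx) (h.nondegOn_span hy0)
    ((Submodule.span_singleton_le_iff_mem _ _).mpr hy)
  exact ⟨_, h5.1, by rw [h5.2, h4, finrank_span_singleton (by rintro rfl; simp at hy0)]⟩

theorem HForm.exists_nondeg_even (h : HForm B ε) (k : ℕ) (hk : 2 * k ≤ finrank F V) :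
    ∃ U, NondegOn B U ∧ finrank F U = 2 * k := by
  induction k with
  | zero => exact ⟨⊥, nondegOn_bot, finrank_bot F V⟩
  | succ k ih =>
    obtain ⟨U, h1, h2⟩ := ih (by omega)
    have h3 := h.finrank_orth U
    obtain ⟨T, h4, h5⟩ := (h.restrict (h.nondegOn_orth h1)).exists_plane (by omega)
    have h6 := h.nondegOn_sup_orth h1 (nondegOn_map_subtype h4) (Submodule.map_subtype_le _ _)
    exact ⟨_, h6.1, by rw [h6.2, Submodule.finrank_map_subtype_eq, h2, h5]; ring⟩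

theorem HForm.exists_nondeg_of_aniso (h : HForm B ε)
    (ha : ∀ U, NondegOn B U → U ≠ ⊥ → ∃ v ∈ U, B v v ≠ 0) (k : ℕ) (hk : k ≤ finrank F V) :
    ∃ U, NondegOn B U ∧ finrank F U = k := by
  obtain ⟨j, rfl | rfl⟩ := Nat.even_or_odd' k
  · exact h.exists_nondeg_even j hk
  obtain ⟨U, h1, h2⟩ := h.exists_nondeg_even j (by omega)
  have h3 := h.finrank_orth U
  obtain ⟨v, hv, hv0⟩ := ha _ (h.nondegOn_orth h1) (ne_bot_of_finrank rfl (by omega))
  have h5 := h.nondegOn_sup_orth h1 (h.nondegOn_span hv0)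
    ((Submodule.span_singleton_le_iff_mem _ _).mpr hv)
  exact ⟨_, h5.1, by rw [h5.2, h2, finrank_span_singleton (by rintro rfl; simp at hv0)]⟩

omit [FiniteDimensional F V] in
theorem HForm.exists_aniso_of_symm {B : LinearMap.BilinForm F V}
    (h : HForm (σ := RingHom.id F) B 1) (h2 : (2 : F) ≠ 0) (U : Submodule F V)
    (hU : NondegOn (σ := RingHom.id F) B U) (h0 : U ≠ ⊥) : ∃ v ∈ U, B v v ≠ 0 := by
  by_contra h1
  push Not at h1
  refine h0 (eq_bot_iff.mpr fun u hu => hU u hu fun v hv => ?_)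
  have h3 := h1 _ (U.add_mem hu hv)
  have h4 := h.sym v u
  simp only [map_add, LinearMap.add_apply, h1 u hu, h1 v hv, one_mul, RingHom.id_apply] at h3 h4
  exact (mul_eq_zero.mp (show 2 * B u v = 0 by linear_combination h3 - h4)).resolve_left h2

theorem HForm.two_mul_le (h : HForm B ε) {U : Submodule F V} (hU : TotIso B U) :
    2 * finrank F U ≤ finrank F V := by
  have h1 := h.finrank_orth U
  have h2 := Submodule.finrank_mono hU.le_orth
  omega

theorem HForm.two_mul_le_of_le (h : HForm B ε) {U A : Submodule F V} (hA : NondegOn B A)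
    (hU : TotIso B U) (hle : U ≤ A) : 2 * finrank F U ≤ finrank F A := by
  rw [← (Submodule.comapSubtypeEquivOfLe hle).finrank_eq]
  exact (h.restrict hA).two_mul_le fun u hu v hv => hU u hu v hv

theorem HForm.exists_compl_nondeg (h : HForm B ε) {U : Submodule F V} (hU : TotIso B U) :
    ∃ M, NondegOn B M ∧ Disjoint U M ∧ U ⊔ M = orth B U ∧
      finrank F M + 2 * finrank F U = finrank F V := by
  obtain ⟨M, h1, h2⟩ := IsModularLattice.exists_disjoint_and_sup_eq hU.le_orth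
  refine ⟨M, fun v hv h3 => Submodule.disjoint_def.mp h1 v ?_ hv, h1, h2, ?_⟩
  · rw [← h.orth_orth U, h.mem_orth', ← h2]
    exact mem_sup_elim fun u hu w hw => by
      rw [map_add, h3 w hw, h.mem_orth'.mp (h2 ▸ Submodule.mem_sup_right hv) u hu, add_zero]
  · have h3 := h.finrank_orth U
    rw [← h2, finrank_sup_of_disjoint h1] at h3
    omega

theorem HForm.exists_ts_pGroup [Fintype F] (h : HForm B ε) {r : ℕ} [Fact r.Prime]
    {P : Subgroup (V ≃ₗ[F] V)} (hP : IsPGroup r P) (hB : ∀ g ∈ P, ∀ u v, B (g u) (g v) = B u v)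
    (N : V → Prop) (h0 : N 0) (hN : ∀ g ∈ P, ∀ v, N v → N (g v))
    (hadd : ∀ u v, N u → N v → B u v = 0 → N (u + v)) (hsmul : ∀ (c : F) v, N v → N (c • v))
    (hself : ∀ v, N v → B v v = 0) (m : ℕ)
    (hc : ∀ U M : Submodule F V, (∀ u ∈ U, N u) → TotIso B U → finrank F U < m → NondegOn B M →
      U ⊔ M = orth B U → finrank F M + 2 * finrank F U = finrank F V →
      r ∣ Nat.card {x : M // N x}) :
    ∃ U : Submodule F V, finrank F U = m ∧ (∀ u ∈ U, N u) ∧ TotIso B U ∧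
      ∀ g ∈ P, ∀ v ∈ U, g v ∈ U := by
  induction m with
  | zero => exact ⟨⊥, finrank_bot F V, fun u hu => (Submodule.mem_bot F).mp hu ▸ h0, totIso_bot,
      fun g _ v hv => by simp [(Submodule.mem_bot F).mp hv]⟩
  | succ m ih =>
    obtain ⟨U, h1, h2, h3, h4⟩ := ih fun U M a b c => hc U M a b (by omega)
    obtain ⟨M, h5, h6, h7, h8⟩ := h.exists_compl_nondeg h3
    obtain ⟨v, hv, hv1, hv2, hv3⟩ := exists_step_pGroup hP h4
      (fun g hg => h.mem_orth_of_isometry (g := (g : End F V)) (hB g hg) (h4 g hg)) h6 h7 N h0 hN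
      (fun u hu v hv h9 => hadd u v (h2 u hu) h9 (mem_orth.mp hv u hu))
      (hc U M h2 h3 (by omega) h5 h7 h8)
    have h9 := (Submodule.span_singleton_le_iff_mem _ _).mpr hv
    refine ⟨_, by rw [finrank_sup_span hv1, h1], mem_sup_elim fun u hu w hw => ?_,
      totIso_sup h3 (fun a ha b hb => ?_) (fun u hu w hw => mem_orth.mp (h9 hw) u hu)
        fun u hu w hw => h.mem_orth'.mp (h9 hw) u hu, inv_sup_span h4 hv3⟩
    · obtain ⟨c, rfl⟩ := Submodule.mem_span_singleton.mp hw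
      exact hadd u _ (h2 u hu) (hsmul c v hv2) (mem_orth.mp (h9 hw) u hu)
    · obtain ⟨c, rfl⟩ := Submodule.mem_span_singleton.mp ha
      obtain ⟨d, rfl⟩ := Submodule.mem_span_singleton.mp hb
      simp [hself v hv2]

omit [FiniteDimensional F V] in
theorem isom_map_nondegOn {g : V ≃ₗ[F] V} (hg : ∀ u v, B (g u) (g v) = B u v) {U : Submodule F V}
    (h : NondegOn B U) : NondegOn B (U.map (g : V →ₗ[F] V)) := by
  rintro _ ⟨u, hu, rfl⟩ h1
  rw [h u hu fun v hv => (hg u v).symm.trans (h1 _ ⟨v, hv, rfl⟩), map_zero]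

omit [FiniteDimensional F V] in
theorem isom_map_totIso {g : V ≃ₗ[F] V} (hg : ∀ u v, B (g u) (g v) = B u v) {U : Submodule F V}
    (h : TotIso B U) : TotIso B (U.map (g : V →ₗ[F] V)) := by
  rintro _ ⟨u, hu, rfl⟩ _ ⟨v, hv, rfl⟩
  exact (hg u v).trans (h u hu v hv)

theorem FixDec.nondegOn {P : Subgroup (V ≃ₗ[F] V)} {A C : Submodule F V} (hA : FixDec P A C)
    (h : HForm B ε) (hB : ∀ g ∈ P, ∀ u v, B (g u) (g v) = B u v) :
    NondegOn B A ∧ NondegOn B C :=
  ⟨h.nondegOn_of_orth hA.isCompl.sup_eq_top (hA.orth σ B hB),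
    h.nondegOn_of_orth hA.isCompl.symm.sup_eq_top fun u hu v hv =>
      h.eq_zero_comm.mp (hA.orth σ B hB v hv u hu)⟩

/-- Non-degenerate hermitian or alternating forms. -/
structure HA (B : V →ₛₗ[σ] V →ₗ[F] F) (ε : F) : Prop extends HForm B ε where
  kind : (σ ≠ RingHom.id F ∧ ε = 1) ∨ (σ = RingHom.id F ∧ ε = -1 ∧ ∀ v, B v v = 0)

omit [FiniteDimensional F V] in
theorem ha_of_herm (h : Herm B) : HA B 1 := ⟨herm_hform h, Or.inl ⟨h.ne_id, rfl⟩⟩

omit [FiniteDimensional F V] in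
theorem ha_of_isAlt {B : LinearMap.BilinForm F V} (hB : B.Nondegenerate) (hA : B.IsAlt) :
    HA (σ := RingHom.id F) B (-1) := ⟨hform_of_isAlt hB hA, Or.inr ⟨rfl, rfl, hA⟩⟩

namespace HA

omit [FiniteDimensional F V] in
theorem good (h : HA B ε) : Good B ε := by
  rcases h.kind with ⟨h1, rfl⟩ | ⟨rfl, rfl, h1⟩
  · exact (herm_iff_hform.mpr ⟨h.toHForm, h1⟩).toGood
  · exact good_of_isAlt B h.nondegenerate h1

omit [FiniteDimensional F V] in
theorem restrict (h : HA B ε) {U : Submodule F V} (hU : NondegOn B U) : HA (restr B U) ε :=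
  ⟨h.toHForm.restrict hU, h.kind.imp id fun h => ⟨h.1, h.2.1, fun v => h.2.2 v⟩⟩

omit [FiniteDimensional F V] in
theorem prod {B' : W →ₛₗ[σ] W →ₗ[F] F} (h : HA B ε) (h' : HA B' ε) : HA (prodForm B B') ε :=
  ⟨h.toHForm.prod h'.toHForm, h.kind.imp id fun h1 => ⟨h1.1, h1.2.1, fun v => by
    rw [prodForm_apply, h1.2.2, (h'.kind.resolve_left fun h => h.1 h1.1).2.2, add_zero]⟩⟩

theorem even (h : HA B ε) (hσ : σ = RingHom.id F) : Even (finrank F V) := by
  subst hσ
  exact even_finrank_of_isAlt h.nondegenerate (h.kind.resolve_left fun h => h.1 rfl).2.2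

variable [Finite F]

theorem exists_isometry [FiniteDimensional F W] {B' : W →ₛₗ[σ] W →ₗ[F] F} (h : HA B ε)
    (h' : HA B' ε) (hd : finrank F V = finrank F W) :
    ∃ e : V ≃ₗ[F] W, ∀ u v, B' (e u) (e v) = B u v := by
  rcases h.kind with ⟨h1, rfl⟩ | ⟨rfl, rfl, h1⟩
  · exact (herm_iff_hform.mpr ⟨h.toHForm, h1⟩).exists_isometry
      (herm_iff_hform.mpr ⟨h'.toHForm, h1⟩) hd
  · exact exists_equiv_of_isAlt h.nondegenerate h1 h'.nondegenerate
      (h'.kind.resolve_left fun h => h.1 rfl).2.2 hd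

theorem exists_map_eq (h : HA B ε) {U U' : Submodule F V} (hU : NondegOn B U)
    (hU' : NondegOn B U') (hd : finrank F U = finrank F U') :
    ∃ g ∈ isomGroup B, U.map (g : V →ₗ[F] V) = U' := by
  obtain ⟨e, he⟩ := (h.restrict hU).exists_isometry (h.restrict hU') hd
  obtain ⟨g, hg⟩ := h.good.witt_subspace U U' e he
  exact ⟨g, g.2, map_eq_of_forall_coe e hg⟩

theorem exists_totIso (h : HA B ε) {A : Submodule F V} (hA : NondegOn B A) {k : ℕ}
    (hk : 2 * k ≤ finrank F A) : ∃ U ≤ A, finrank F U = k ∧ TotIso B U := by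
  have h' := h.restrict hA
  suffices ∃ U : Submodule F A, finrank F U = k ∧ TotIso (restr B A) U by
    obtain ⟨U, h1, h2⟩ := this
    exact ⟨_, Submodule.map_subtype_le _ _, (Submodule.finrank_map_subtype_eq _ _).trans h1,
      totIso_map_subtype h2⟩
  rcases h'.kind with ⟨h1, rfl⟩ | ⟨rfl, rfl, h1⟩
  · exact (herm_iff_hform.mpr ⟨h'.toHForm, h1⟩).exists_totIso k hk
  obtain ⟨m, hm⟩ := h'.even rfl
  obtain ⟨X, h2, h3⟩ := exists_lagrangian h'.nondegenerate h1 (m := m) (by omega)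
  obtain ⟨U, h4, h5⟩ := Form.exists_le_finrank_eq X (k := k) (by omega)
  exact ⟨U, h5, fun u hu v hv => h3 u (h4 hu) v (h4 hv)⟩

theorem exists_nondeg (h : HA B ε) {A : Submodule F V} (hA : NondegOn B A) {k : ℕ}
    (hk : k ≤ finrank F A) (he : σ = RingHom.id F → Even k) :
    ∃ U ≤ A, finrank F U = k ∧ NondegOn B U := by
  have h' := h.restrict hA
  suffices ∃ U : Submodule F A, NondegOn (restr B A) U ∧ finrank F U = k by
    obtain ⟨U, h1, h2⟩ := this
    exact ⟨_, Submodule.map_subtype_le _ _, (Submodule.finrank_map_subtype_eq _ _).trans h2,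
      nondegOn_map_subtype h1⟩
  rcases h'.kind with ⟨h1, rfl⟩ | ⟨h1, -⟩
  · exact h'.exists_nondeg_of_aniso (fun U hU h0 => by
      obtain ⟨w, hw, h2⟩ := (herm_iff_hform.mpr ⟨h'.toHForm, h1⟩).exists_norm_of_nondegOn hU h0
        (μ := 1) (map_one σ)
      exact ⟨w, hw, h2 ▸ one_ne_zero⟩) k hk
  obtain ⟨j, rfl⟩ := he h1
  rw [← two_mul] at hk ⊢
  exact h'.exists_nondeg_even j hk

theorem exists_of_type (h : HA B ε) {s : Multiset (F[X] × ℕ)} (hs : IsElDivs s)
    (hX : ∀ x ∈ s, x.1 ≠ X) (hd : s.map (dualED σ) = s) (hn : elDeg s = finrank F V)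
    (hp : σ = RingHom.id F → SpParity s) :
    ∃ g : End F V, (∀ u v, B (g u) (g v) = B u v) ∧ elDiv g = s := by
  suffices ∃ (W : Type u) (_ : AddCommGroup W) (_ : Module F W) (_ : FiniteDimensional F W)
      (B' : W →ₛₗ[σ] W →ₗ[F] F) (f : End F W), HA B' ε ∧ (∀ u v, B' (f u) (f v) = B' u v) ∧
      elDiv f = s by
    obtain ⟨W, _, _, _, B', f, h1, h2, h3⟩ := this
    obtain ⟨e, he⟩ := h1.exists_isometry h (by rw [finrank_eq_elDeg f, h3, hn])
    refine ⟨e.conj f, fun u v => ?_, (sim_conj e f).elDiv_eq.symm.trans h3⟩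
    rw [LinearEquiv.conj_apply_apply, LinearEquiv.conj_apply_apply, he, h2, ← he]
    simp
  rcases h.kind with ⟨h1, rfl⟩ | ⟨rfl, rfl, h1⟩
  · obtain ⟨H, f, h2, h3⟩ := hs.exists_herm h.invol h1 hX hd
    exact ⟨_, _, _, inferInstance, H, f, ha_of_herm h2, h3⟩
  · obtain ⟨W, _, _, _, H, f, h2, h3, h4⟩ := spReal_of_parity hs hX hd (hp rfl)
    exact ⟨W, _, _, inferInstance, H, f, ha_of_isAlt h2 h3, h4⟩

variable {A C : Submodule F V} {b c j l : ℕ}

theorem ts_iff (h : HA B ε) (hA : OrdR B g b c A C j l) (d : ℕ) :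
    (∃ U : Submodule F V, finrank F U = d ∧ TotIso B U ∧ U.map g ≤ U) ↔
      ∃ k' j', 2 * k' ≤ finrank F A ∧ j' ≤ l ∧ k' + b * j' = d := by
  have h0 := (hA.nondegOn h.toHForm).1
  simp only [map_le_iff_forall]
  constructor
  · rintro ⟨U, rfl, h1, h2⟩
    obtain ⟨j', h3, h4⟩ := hA.ts_of _ inf_le_right (inv_inf h2 hA.inv) (h1.mono inf_le_left)
    exact ⟨_, j', h.two_mul_le_of_le h0 (h1.mono inf_le_left) inf_le_right, h3,
      h4 ▸ hA.finrank_inf h2⟩
  · rintro ⟨k', j', h1, h2, rfl⟩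
    obtain ⟨U, h3, h4, h5⟩ := h.exists_totIso h0 h1
    obtain ⟨U', h6, h7, h8, h9⟩ := hA.ts_ex j' h2
    exact ⟨_, by rw [hA.finrank_sup h3 h6, h4, h9], hA.totIso_sup h3 h6 h5 h8,
      inv_sup (hA.inv_of_le h3) h7⟩

theorem nd_iff (h : HA B ε) (hA : OrdR B g b c A C j l) (d : ℕ) :
    (∃ U : Submodule F V, finrank F U = d ∧ NondegOn B U ∧ U.map g ≤ U) ↔
      ∃ k' ≤ finrank F A, ∃ j' ≤ j, k' + c * j' = d ∧ (σ = RingHom.id F → Even k') := by
  have h0 := (hA.nondegOn h.toHForm).1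
  simp only [map_le_iff_forall]
  constructor
  · rintro ⟨U, rfl, h1, h2⟩
    have h5 := hA.nondegOn_inf h2 h1
    obtain ⟨j', h3, h4⟩ := hA.nd_of _ inf_le_right (inv_inf h2 hA.inv) h5.2
    exact ⟨_, Submodule.finrank_mono inf_le_right, j', h3, h4 ▸ hA.finrank_inf h2,
      (h.restrict h5.1).even⟩
  · rintro ⟨k', h1, j', h2, rfl, h10⟩
    obtain ⟨U, h3, h4, h5⟩ := h.exists_nondeg h0 h1 h10
    obtain ⟨U', h6, h7, h8, h9⟩ := hA.nd_ex j' h2
    exact ⟨_, by rw [hA.finrank_sup h3 h6, h4, h9], hA.nondegOn_sup h3 h6 h5 h8,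
      inv_sup (hA.inv_of_le h3) h7⟩

end HA

theorem OrdR.ne_one_iff {A C : Submodule F V} {b c j l : ℕ} (hA : OrdR B g b c A C j l)
    (hc : c ≠ 0) : g ≠ 1 ↔ j ≠ 0 := by
  refine not_congr ⟨fun h => ?_, fun h => LinearMap.ext fun v => ?_⟩
  · have h1 : C = ⊥ := eq_bot_iff.mpr fun v hv => hA.free v hv (by simp [h])
    have h2 := hA.rank
    rw [h1, finrank_bot] at h2
    exact (mul_eq_zero.mp h2.symm).resolve_left hc
  · have h1 := hA.sub_mem v
    rw [Submodule.finrank_eq_zero.mp (hA.rank.trans (by simp [h]))] at h1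
    exact sub_eq_zero.mp h1

variable [Fintype F] (p : ℕ) [Fact p.Prime] [CharP F p] {r : ℕ} [Fact r.Prime] {fx : Prop}
  {b c : ℕ}

omit [FiniteDimensional F V] in
theorem CycD.pos' (hD : CycD σ ε r fx b c) (hrp : r ≠ p) : 0 < b ∧ 0 < c := by
  obtain ⟨f, hf⟩ := cycFactors_nonempty (F := F) p hrp
  have h1 : 0 < b := by
    rw [← hD.deg f hf, natDegree_of_mem_cycFactors p hrp hf]
    exact orderOf_card_pos p hrp
  by_cases h : fx
  · exact ⟨h1, hD.pos h ▸ h1⟩
  · exact ⟨h1, by rw [hD.neg h]; omega⟩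

omit [FiniteDimensional F V] in
theorem CycD.card_eq (hD : CycD σ ε r fx b c) (hrp : r ≠ p) :
    (cycFactors F r).card = (r - 1) / b := by
  obtain ⟨f, hf⟩ := cycFactors_nonempty (F := F) p hrp
  rw [← card_cycFactors (K := F) p hrp, ← natDegree_of_mem_cycFactors p hrp hf, hD.deg f hf,
    Nat.mul_div_cancel_left _ (hD.pos' p hrp).1]

theorem HA.exists_of_md (h : HA B ε) (hD : CycD σ ε r fx b c) (hrp : r ≠ p) {k j l : ℕ}
    {m : Multiset (F[X] × ℕ)} (hm : ∀ x ∈ m, x ∈ cycFactors F r) (hd : MD σ b c m j l)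
    (hn : k + c * j = finrank F V) : ∃ g : End F V, (∀ u v, B (g u) (g v) = B u v) ∧
      elDiv g = Multiset.replicate k (X - 1, 1) + m := by
  have h1 := isGLType_replicate_one (K := F) k
  have h2 := isElDivs_of_mem_cycFactors hm
  have h3 : ∀ x ∈ m, x.1 ≠ X := fun x hx => ne_X_of_dvd_X_pow_sub_one
    (Fact.out : r.Prime).ne_zero ((dvd_pow_self _ (h2 x hx).2.2.ne').trans
      (dvd_of_mem_cycFactors (hm x hx)))
  refine h.exists_of_type (h1.1.add h2) (fun x hx => (Multiset.mem_add.mp hx).elim (h1.2.2 x)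
    (h3 x)) (map_dualED_add (replicate_one_map_dualED k) hd.dual)
    (by rw [elDeg_add, h1.2.1, hd.deg, hn]) fun hσ => ?_
  subst hσ
  have h4 := SpReal.of_no_pm h2 h3 hd.dual
    ((hD.rig p hrp hm).resolve_left fun h => h.1 rfl).2.2
  have h5 := h4.even_elDeg
  have h6 := h.even rfl
  rw [← hn, ← hd.deg, Nat.even_add, iff_true_right h5] at h6
  obtain ⟨k, rfl⟩ := h6
  have h7 := SpReal.hyp (isGLType_replicate_one (K := F) k).1 (isGLType_replicate_one k).2.2
  rw [replicate_one_map_dualED, ← Multiset.replicate_add] at h7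
  exact (spReal_iff.mp (h7.add h4)).2.2.2

theorem HA.forall_iff (h : HA B ε) (hD : CycD σ ε r fx b c) (hrp : r ≠ p) (Ψ : End F V → Prop)
    (Φ : ℕ → ℕ → ℕ → Prop)
    (H : ∀ g A C j l, (∀ u v, B (g u) (g v) = B u v) → g ^ r = 1 → OrdR B g b c A C j l →
      (Ψ g ↔ Φ (finrank F A) j l)) :
    (∀ g : End F V, (∀ u v, B (g u) (g v) = B u v) → g ^ r = 1 → g ≠ 1 → Ψ g) ↔
      ∀ k j l, k + c * j = finrank F V → j ≠ 0 → Adm fx ((r - 1) / b) j l → Φ k j l := by
  have hc := (hD.pos' p hrp).2.ne'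
  rw [← hD.card_eq p hrp]
  constructor
  · intro h1 k j l hk hj ha
    obtain ⟨m, hm, hd⟩ := hD.exists_of_adm p hrp ha
    obtain ⟨g, hg, he⟩ := h.exists_of_md p hD hrp hm hd hk
    obtain ⟨h2, A, C, h3, rfl⟩ := hD.ordR_of_md p hrp h.toHForm hg he hm hd
    exact (H g A C j l hg h2 h3).mp (h1 g hg h2 ((h3.ne_one_iff hc).mpr hj))
  · intro h1 g hg h2 h3
    obtain ⟨A, C, j, l, h4, h5⟩ := hD.exists_ordR p hrp h.toHForm hg h2
    exact (H g A C j l hg h2 h4).mpr
      (h1 _ j l (h4.rank ▸ h4.finrank_add) ((h4.ne_one_iff hc).mp h3) h5)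

theorem HA.not_dvd_ts_char (h : HA B ε) (hF : σ ≠ RingHom.id F → ∃ q, Fintype.card F = q ^ 2)
    {m : ℕ} (hm : 2 * m ≤ finrank F V) :
    ¬ p ∣ Nat.card {U : Submodule F V // finrank F U = m ∧ TotIso B U} := by
  refine not_dvd_card_submodule (isomGroup B) _
    (fun g hg U hU => ⟨(g.finrank_map_eq U).trans hU.1, isom_map_totIso hg hU.2⟩)
    (fun U U' hU hU' => ?_) fun P hP hp => ?_
  · obtain ⟨g, hg⟩ := h.good.exists_map_eq_of_totIso hU.2 hU'.2 (hU.1.trans hU'.1.symm)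
    exact ⟨g, g.2, hg⟩
  obtain ⟨U, h1, -, h2, h3⟩ := h.exists_ts_pGroup hp (fun g hg => hP hg) (fun v => B v v = 0)
    (by simp) (fun g hg v hv => (hP hg v v).trans hv)
    (fun u v hu hv huv => by simp [hu, hv, huv, h.eq_zero_comm.mp huv])
    (fun c v hv => by simp [hv]) (fun _ h => h) m fun U M _ _ h1 h2 _ h3 => by
      obtain ⟨e, he⟩ : ∃ e, finrank F M = e + 2 := ⟨finrank F M - 2, by omega⟩
      obtain ⟨f, -, hf⟩ := FiniteField.card F p
      rcases h.kind with ⟨h4, rfl⟩ | ⟨-, -, h4⟩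
      · obtain ⟨q, hq⟩ := hF h4
        have h5 := (normCount_int hq (e + 2)).1
        rw [← (herm_iff_hform.mpr ⟨h.toHForm.restrict h2, h4⟩).card_norm_eq hq he] at h5
        have h6 : p ∣ q := (Fact.out : p.Prime).dvd_of_dvd_pow (hq ▸ hf ▸ dvd_pow_self p f.ne_zero)
        have h7 : (q : ℤ) ≠ 0 := fun h => Fintype.card_ne_zero (hq.trans (by
          rw [Nat.cast_eq_zero.mp h]; rfl))
        refine h6.trans (Int.natCast_dvd_natCast.mp ⟨q ^ (2 * e + 2) + (-1) ^ e *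
          (q ^ (e + 1) - q ^ e), mul_left_cancel₀ h7 (h5.trans (by ring))⟩)
      · rw [Nat.card_congr (Equiv.subtypeUnivEquiv fun v : M => h4 v),
          Module.natCard_eq_pow_finrank (K := F), Nat.card_eq_fintype_card, he, hf]
        exact (dvd_pow_self p f.ne_zero).trans (dvd_pow_self _ (by omega))
  exact ⟨U, ⟨h1, h2⟩, h3⟩

theorem HA.not_dvd_ts (h : HA B ε) (hrp : r ≠ p) {c : ℕ}
    (hc : ∀ P A C, P ≤ isomGroup B → IsPGroup r P → FixDec P A C → c ∣ finrank F C) {m : ℕ}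
    (hm : 2 * m ≤ finrank F V % c) :
    ¬ r ∣ Nat.card {U : Submodule F V // finrank F U = m ∧ TotIso B U} := by
  refine not_dvd_card_submodule (isomGroup B) _
    (fun g hg U hU => ⟨(g.finrank_map_eq U).trans hU.1, isom_map_totIso hg hU.2⟩)
    (fun U U' hU hU' => ?_) fun P hP hp => ?_
  · obtain ⟨g, hg⟩ := h.good.exists_map_eq_of_totIso hU.2 hU'.2 (hU.1.trans hU'.1.symm)
    exact ⟨g, g.2, hg⟩
  obtain ⟨A, C, hA⟩ := exists_fixDec p hrp hp
  obtain ⟨U, h1, h2⟩ := h.exists_totIso (hA.nondegOn h.toHForm fun g hg => hP hg).1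
    (hm.trans (hA.mod_le (hc P A C hP hp hA)))
  exact ⟨U, h2, hA.inv_of_le_left h1⟩

theorem HA.not_dvd_nd (h : HA B ε) (hrp : r ≠ p) {c : ℕ}
    (hc : ∀ P A C, P ≤ isomGroup B → IsPGroup r P → FixDec P A C → c ∣ finrank F C) {m : ℕ}
    (hm : m ≤ finrank F V % c) (he : σ = RingHom.id F → Even m) :
    ¬ r ∣ Nat.card {U : Submodule F V // finrank F U = m ∧ NondegOn B U} := by
  refine not_dvd_card_submodule (isomGroup B) _
    (fun g hg U hU => ⟨(g.finrank_map_eq U).trans hU.1, isom_map_nondegOn hg hU.2⟩)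
    (fun U U' hU hU' => h.exists_map_eq hU.2 hU'.2 (hU.1.trans hU'.1.symm)) fun P hP hp => ?_
  obtain ⟨A, C, hA⟩ := exists_fixDec p hrp hp
  obtain ⟨U, h1, h2⟩ := h.exists_nondeg (hA.nondegOn h.toHForm fun g hg => hP hg).1
    (hm.trans (hA.mod_le (hc P A C hP hp hA))) he
  exact ⟨U, h2, hA.inv_of_le_left h1⟩

omit [Fintype F] [Fact r.Prime] in
theorem lcm_two_dvd {i c e : ℕ} (hc : c = if Even i then i else 2 * i) (h1 : i ∣ e)
    (h2 : Even e) : c ∣ e := by
  split_ifs at hc with h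
  · exact hc ▸ h1
  · exact hc ▸ Nat.Coprime.mul_dvd_of_dvd_of_dvd
      (Nat.coprime_two_left.mpr (Nat.not_even_iff_odd.mp h)) h2.two_dvd h1

theorem HA.fixDec_dvd_id {B : LinearMap.BilinForm F V} (h : HA (σ := RingHom.id F) B ε) {i c : ℕ}
    (hi : i = orderOf (Fintype.card F : ZMod r)) (hc : c = if Even i then i else 2 * i)
    (P : Subgroup (V ≃ₗ[F] V)) (A C : Submodule F V) (hP : P ≤ isomGroup (σ := RingHom.id F) B)
    (hp : IsPGroup r P) (hA : FixDec P A C) : c ∣ finrank F C :=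
  lcm_two_dvd hc (hi ▸ hA.orderOf_dvd hp)
    ((h.restrict (hA.nondegOn h.toHForm fun _ hg => hP hg).2).even rfl)

end Cfsg.Lib.Known
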