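import Mathlib
import Cfsg.Agent.Known.ElusHA
import Cfsg.Agent.Known.WallOdd

/-!
Splitting off Jordan blocks with eigenvalue `± 1` of an isometry orthogonally.
-/

namespace Cfsg.Lib.Known

open Module Polynomial Cfsg.Lib.Class Cfsg.Lib.Class.Form

universe u v

variable {F : Type u} [Field F] {σ : F →+* F} {V : Type v} [AddCommGroup V] [Module F V]
  [FiniteDimensional F V] {B : V →ₛₗ[σ] V →ₗ[F] F} {ε l : F} {g : End F V}

open Classical in
theorem kerDim_add_count {s : Multiset (F[X] × ℕ)} {k : ℕ}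
    (h : ∀ x ∈ s, x.1 = X - C l ∧ x.2 ≤ k + 1) :
    kerDim s (X - C l) k + s.count (X - C l, k + 1) = elDeg s := by
  induction s using Multiset.induction_on with
  | empty => simp [kerDim, elDeg]
  | cons x s ih =>
    have h1 := ih fun c hc => h c (Multiset.mem_cons_of_mem hc)
    obtain ⟨P, e⟩ := x
    obtain ⟨rfl, h2⟩ := h _ (Multiset.mem_cons_self _ _)
    simp only [kerDim, elDeg, Multiset.map_cons, Multiset.sum_cons, Multiset.count_cons, if_true,
      natDegree_X_sub_C, Prod.mk.injEq, true_and] at h1 h2 ⊢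
    split_ifs <;> omega

theorem elDiv_restrict_sup {U U' : Submodule F V} (hd : Disjoint U U') (hU : ∀ v ∈ U, g v ∈ U)
    (hU' : ∀ v ∈ U', g v ∈ U') :
    elDiv (g.restrict (inv_sup hU hU')) = elDiv (g.restrict hU) + elDiv (g.restrict hU') := by
  rw [elDiv_eq_add_of_isCompl (U := U.comap (Submodule.subtype _))
    (W := U'.comap (Submodule.subtype _)) ⟨Submodule.disjoint_def.mpr fun v h1 h2 =>
      Subtype.ext (Submodule.disjoint_def.mp hd v h1 h2), codisjoint_iff.mpr
      (eq_top_iff.mpr fun v _ => ?_)⟩ (fun v hv => hU v hv) (fun v hv => hU' v hv)]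
  · exact congrArg₂ _ (elDiv_restrict_restrict le_sup_left hU _ _)
      (elDiv_restrict_restrict le_sup_right hU' _ _)
  obtain ⟨v, hv⟩ := v
  obtain ⟨a, ha, b, hb, rfl⟩ := Submodule.mem_sup.mp hv
  exact Submodule.mem_sup.mpr ⟨⟨a, Submodule.mem_sup_left ha⟩, ha,
    ⟨b, Submodule.mem_sup_right hb⟩, hb, rfl⟩

theorem WallData.exists_block (h : WallData B ε g l) (j : ℕ) {N : End F V} (hN : g - l • 1 = N)
    {L : Submodule F (Lay N j)} (hL : NondegOn (layB B N j) L) :
    ∃ (U : Submodule F V) (hU : ∀ v ∈ U, g v ∈ U), NondegOn B U ∧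
      (∀ y ∈ L, laySec N j y ∈ U) ∧
      elDiv (g.restrict hU) = Multiset.replicate (finrank F L) (X - C l, j + 1) := by
  classical
  have hf := h.hf.form_pow_left h.hg h.hl h.hσ
  have hf' := h.hform_layB j
  rw [hN] at hf hf'
  let s : L →ₗ[F] V := laySec N j ∘ₗ L.subtype
  have hs : ∀ k, j + 1 ≤ k → ∀ y, (N ^ k) (s y) = 0 := fun k hk y => by
    obtain ⟨k, rfl⟩ := Nat.exists_eq_add_of_le' hk
    rw [pow_add, End.mul_apply, show (N ^ (j + 1)) (s y) = 0 from pow_laySec N j y, map_zero]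
  let Φ : (Fin (j + 1) → L) →ₗ[F] V := ∑ i : Fin (j + 1), (N ^ (i : ℕ)) ∘ₗ s ∘ₗ LinearMap.proj i
  have hΦ : ∀ c, Φ c = ∑ i : Fin (j + 1), (N ^ (i : ℕ)) (s (c i)) := fun c => by
    simp [Φ, LinearMap.sum_apply]
  have hm : ∀ (i : ℕ) y, (N ^ i) (s y) ∈ LinearMap.range Φ := fun i y => by
    by_cases hi : i < j + 1
    · refine ⟨Pi.single ⟨i, hi⟩ y, ?_⟩
      rw [hΦ, Finset.sum_eq_single ⟨i, hi⟩ (fun b _ hb => by simp [hb]) (by simp)]
      simp
    · rw [hs i (by omega)]
      exact Submodule.zero_mem _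
  have key : ∀ c, (∀ v ∈ LinearMap.range Φ, B (Φ c) v = 0) → c = 0 := by
    intro c hc
    suffices ∀ (i : ℕ) (hi : i < j + 1), c ⟨i, hi⟩ = 0 from funext fun i => this i i.2
    intro i
    induction i using Nat.strong_induction_on with
    | _ i ih =>
      intro hi
      refine Subtype.ext (hL _ (c _).2 fun y hy => ?_)
      have h1 := hc _ (hm (j - i) ⟨y, hy⟩)
      rw [hΦ, map_sum, LinearMap.sum_apply, Finset.sum_eq_single ⟨i, hi⟩ (fun k _ hk => ?_)
        (by simp), hf _ _ _ (hs _ (by simp; omega) _),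
        show i + (j - i) = j by omega] at h1
      · exact (mul_eq_zero.mp h1).resolve_left (by simp)
      · by_cases h2 : (k : ℕ) < i
        · simp [ih k h2 k.2]
        · have h3 : (k : ℕ) ≠ i := fun h => hk (Fin.ext h)
          rw [hf _ _ _ (hs _ (by omega) _), hs _ (by omega)]
          simp
  have hNU : ∀ v ∈ LinearMap.range Φ, N v ∈ LinearMap.range Φ := by
    rintro _ ⟨c, rfl⟩
    rw [hΦ, map_sum]
    exact Submodule.sum_mem _ fun i _ => by rw [← End.mul_apply, ← pow_succ']; exact hm _ _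
  have hU : ∀ v ∈ LinearMap.range Φ, g v ∈ LinearMap.range Φ := fun v hv => by
    simpa [← hN] using Submodule.add_mem _ (hNU v hv) (Submodule.smul_mem _ l hv)
  have hinj : Function.Injective Φ :=
    (injective_iff_map_eq_zero _).mpr fun c hc => key c fun v _ => by simp [hc]
  refine ⟨_, hU, ?_, fun y hy => hm 0 ⟨y, hy⟩, ?_⟩
  · rintro _ ⟨c, rfl⟩ hc
    rw [key c hc, map_zero]
  have h1 : ∀ (k : ℕ) v, (aeval (g.restrict hU) ((X - C l) ^ k) v : V) = (N ^ k) v := fun k v =>
    (intertwine_aeval (LinearMap.range Φ).subtype (fun _ => rfl) _ v).trans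
      (by rw [map_pow, aeval_X_sub_C_End, hN]; rfl)
  have h2 := (aeval_pow_eq_zero_iff (f := g.restrict hU) (monic_X_sub_C l) (irreducible_X_sub_C l)
    (N := j + 1)).mp (LinearMap.ext fun v => Subtype.ext (by
      obtain ⟨c, hc⟩ := v.2
      rw [h1, ← hc, hΦ, map_sum]
      exact Finset.sum_eq_zero fun i _ => by rw [← End.mul_apply, ← pow_add, hs _ (by omega)]))
  have h3 := kerDim_add_count h2
  have h4 := LinearMap.finrank_range_add_finrank_ker (aeval (g.restrict hU) ((X - C l) ^ j))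
  have h5 : finrank F L ≤ finrank F (LinearMap.range (aeval (g.restrict hU) ((X - C l) ^ j))) :=
    LinearMap.finrank_le_finrank_of_injective (f := (aeval (g.restrict hU)
      ((X - C l) ^ j)).rangeRestrict ∘ₗ s.codRestrict _ (hm 0))
      ((injective_iff_map_eq_zero _).mpr fun y hy => Subtype.ext (hL _ y.2 fun z hz => by
        have h5 : (N ^ j) (s y) = 0 :=
          (h1 j _).symm.trans (congrArg Subtype.val (congrArg Subtype.val hy))
        rw [hf'.eq_zero_comm, layB_apply, show laySec N j y = s y from rfl, h5,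
          map_zero]))
  have h6 := finrank_eq_elDeg_restrict hU
  rw [finrank_ker_eq_kerDim _ (monic_X_sub_C l) (irreducible_X_sub_C l)] at h4
  obtain ⟨t, ht⟩ := Multiset.le_iff_exists_add.mp (Multiset.le_count_iff_replicate_le.mp
    (show finrank F L ≤ (elDiv (g.restrict hU)).count (X - C l, j + 1) by omega))
  rw [LinearMap.finrank_range_of_inj hinj, Module.finrank_pi_fintype, ht, elDeg_add,
    elDeg_replicate] at h6
  simp only [Finset.sum_const, Finset.card_univ, Fintype.card_fin, smul_eq_mul,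
    natDegree_X_sub_C, one_mul] at h6
  rw [ht, add_eq_left]
  by_contra h7
  have := ((isElDivs_elDiv _).of_le (ht ▸ Multiset.le_add_left _ _)).elDeg_pos h7
  rw [mul_comm] at h6
  omega

open Classical in
theorem exists_nondeg_unip_aux {l ε : F} (n : ℕ) : ∀ (V : Type v) [AddCommGroup V] [Module F V]
    [FiniteDimensional F V] (B : LinearMap.BilinForm F V) (g : End F V) (ν : Multiset ℕ),
    WallData (σ := RingHom.id F) B ε g l → ν.card = n →
    (ν.map fun e => (X - C l, e)) ≤ elDiv g →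
    (∀ j, Even (ν.count (j + 1)) ∨ ν.count (j + 1) = (elDiv g).count (X - C l, j + 1) ∨
      ((2 : F) ≠ 0 ∧ ε * (-1) ^ j = 1)) →
    ∃ (U : Submodule F V) (hU : ∀ v ∈ U, g v ∈ U), NondegOn (σ := RingHom.id F) B U ∧
      elDiv (g.restrict hU) = ν.map fun e => (X - C l, e) := by
  induction n using Nat.strong_induction_on with
  | _ n ih =>
  intro V _ _ _ B g ν h hn hle hc
  rcases ν.empty_or_exists_mem with rfl | ⟨e, he⟩
  · exact ⟨⊥, fun v hv => by simp [(Submodule.mem_bot F).mp hv], nondegOn_bot,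
      (elDiv_eq_zero_iff _).mpr (finrank_bot F V)⟩
  have hinj : Function.Injective fun e : ℕ => ((X - C l : F[X]), e) :=
    fun _ _ h => congrArg Prod.snd h
  obtain ⟨j, rfl⟩ := Nat.exists_eq_add_one.mpr (isElDivs_elDiv g _
    (Multiset.mem_of_le hle (Multiset.mem_map_of_mem _ he))).2.2
  have h1 := Multiset.count_le_of_le (X - C l, j + 1) hle
  rw [Multiset.count_map_eq_count' _ _ hinj, ← finrank_lay_eq_count] at h1
  have h2 := h.hform_layB j
  obtain ⟨L, hL, h3⟩ : ∃ L, NondegOn (layB (σ := RingHom.id F) B (g - l • 1) j) L ∧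
      finrank F L = ν.count (j + 1) := by
    rcases hc j with ⟨k, hk⟩ | hk | ⟨hk, hk'⟩
    · rw [hk, ← two_mul] at h1 ⊢
      exact h2.exists_nondeg_even k h1
    · exact ⟨⊤, h2.nondegOn_top, by rw [finrank_top, hk, finrank_lay_eq_count]⟩
    · rw [hk'] at h2
      exact h2.exists_nondeg_of_aniso (h2.exists_aniso_of_symm hk) _ h1
  obtain ⟨U, hU, h4, -, h5⟩ := h.exists_block j rfl hL
  have h6 := h.hf.elDiv_eq_add h.hg hU h4
  have h7 : ν = Multiset.replicate (ν.count (j + 1)) (j + 1) + ν.filter (· ≠ j + 1) := by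
    rw [← Multiset.filter_eq', Multiset.filter_add_not]
  have h8 := Multiset.count_pos.mpr he
  have hO := h.hf.mem_orth_of_isometry h.hg hU
  obtain ⟨U', hU', h9, h10⟩ := ih (ν.filter (· ≠ j + 1)).card (by
      have := congrArg Multiset.card h7
      simp only [Multiset.card_add, Multiset.card_replicate] at this
      omega) _ (restr (σ := RingHom.id F) B (orth B U)) (g.restrict hO) (ν.filter (· ≠ j + 1))
    ⟨h.hf.restrict (h.hf.nondegOn_orth h4), fun _ _ => h.hg _ _, h.hl, rfl⟩ rfl
    (by rwa [h7, h6, h5, h3, Multiset.map_add, Multiset.map_replicate, add_le_add_iff_left] at hle)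
    fun i => by
      by_cases hi : i = j
      · simp [hi]
      · have := hc i
        rwa [h6, h5, Multiset.count_add, Multiset.count_eq_zero.mpr
          (show (X - C l, i + 1) ∉ Multiset.replicate _ (X - C l, j + 1) by
            simp [Multiset.mem_replicate, hi]), zero_add,
          ← Multiset.count_filter_of_pos (p := (· ≠ j + 1)) (by simpa using hi)] at this
  obtain ⟨h11, h12⟩ := elDiv_restrict_map_subtype hO hU'
  have h13 := h.hf.nondegOn_sup_orth h4 (nondegOn_map_subtype h9) (Submodule.map_subtype_le _ _)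
  refine ⟨_, inv_sup hU h11, h13.1, ?_⟩
  rw [elDiv_restrict_sup ((h.hf.isCompl_orth h4).disjoint.mono_right (Submodule.map_subtype_le _ _))
    hU h11, h12, h10, h5, h3]
  conv_rhs => rw [h7, Multiset.map_add, Multiset.map_replicate]

open Classical in
theorem WallData.exists_nondeg {B : LinearMap.BilinForm F V}
    (h : WallData (σ := RingHom.id F) B ε g l) {ν : Multiset ℕ}
    (hle : (ν.map fun e => (X - C l, e)) ≤ elDiv g)
    (hc : ∀ j, Even (ν.count (j + 1)) ∨ ν.count (j + 1) = (elDiv g).count (X - C l, j + 1) ∨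
      ((2 : F) ≠ 0 ∧ ε * (-1) ^ j = 1)) :
    ∃ (U : Submodule F V) (hU : ∀ v ∈ U, g v ∈ U), NondegOn (σ := RingHom.id F) B U ∧
      elDiv (g.restrict hU) = ν.map fun e => (X - C l, e) :=
  exists_nondeg_unip_aux _ V B g ν h rfl hle hc

end Cfsg.Lib.Known
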