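import Mathlib
import Cfsg.Agent.Known.ElusUnip

/-!
Isometries with `g ^ r` scalar and without fixed vectors; orthogonal decompositions by induction.
-/

namespace Cfsg.Lib.Known

open Module Polynomial Cfsg.Lib.Class Cfsg.Lib.Class.Form

universe u v

theorem card_mul_card_of_trans {G X : Type*} [Group G] (H K : Subgroup G) (act : G → X → X)
    (h1 : ∀ x, act 1 x = x) (hmul : ∀ a b x, act (a * b) x = act a (act b x)) (S : X → Prop)
    (x : X) (hS : ∀ y, S y ↔ ∃ g ∈ H, act g x = y) (hK : ∀ g, g ∈ K ↔ g ∈ H ∧ act g x = x) :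
    Nat.card {y // S y} * Nat.card K = Nat.card H := by
  letI : MulAction H X :=
    { smul := fun g x => act g x
      one_smul := h1
      mul_smul := fun a b x => hmul a b x }
  rw [← card_orbit_mul_card_fix (G := H) x S fun y => (hS y).trans
    ⟨fun ⟨g, hg, h⟩ => ⟨⟨g, hg⟩, h⟩, fun ⟨g, h⟩ => ⟨g, g.2, h⟩⟩]
  exact congrArg _ (Nat.card_congr ((Equiv.subtypeEquivRight hK).trans
    (Equiv.subtypeSubtypeEquivSubtypeInter (· ∈ H) fun g => act g x = x).symm))

variable {F : Type u} [Field F] {σ : F →+* F} {V : Type v} {W : Type*} [AddCommGroup V] [Module F V]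
  [AddCommGroup W] [Module F W] {B : V →ₛₗ[σ] V →ₗ[F] F} {ε : F} {g : End F V}

theorem isom_pow (hg : ∀ u v, B (g u) (g v) = B u v) (k : ℕ) :
    ∀ u v, B ((g ^ k) u) ((g ^ k) v) = B u v := by
  induction k with
  | zero => exact fun _ _ => rfl
  | succ k ih => exact fun u v => by rw [pow_succ', End.mul_apply, End.mul_apply, hg, ih]

theorem isom_smul (hg : ∀ u v, B (g u) (g v) = B u v) {z : F} (hz : σ z * z = 1) :
    ∀ u v, B ((z • g) u) ((z • g) v) = B u v := fun u v => by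
  simp only [LinearMap.smul_apply, LinearMap.map_smulₛₗ, map_smul, smul_eq_mul, hg]
  linear_combination B u v * hz

theorem HForm.norm_of_pow_eq (h : HForm B ε) [Nontrivial V] (hg : ∀ u v, B (g u) (g v) = B u v)
    {k : ℕ} {z : F} (hz : g ^ k = z • 1) : σ z * z = 1 := by
  obtain ⟨u, hu⟩ := exists_ne (0 : V)
  obtain ⟨v, hv⟩ := not_forall.mp (mt (h.sep u) hu)
  have := isom_pow hg k u v
  simp only [hz, LinearMap.smul_apply, End.one_apply, LinearMap.map_smulₛₗ, map_smul,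
    smul_eq_mul] at this
  exact mul_right_cancel₀ hv (by linear_combination this)

theorem map_smul_le {z : F} {U U' : Submodule F V} (h : U.map g ≤ U') : U.map (z • g) ≤ U' := by
  rintro _ ⟨v, hv, rfl⟩
  exact U'.smul_mem z (h ⟨v, hv, rfl⟩)

theorem map_smul_eq {z : F} (hz : z ≠ 0) (U : Submodule F V) : U.map (z • g) = U.map g :=
  le_antisymm (map_smul_le le_rfl) (by
    conv_lhs => rw [← inv_smul_smul₀ hz g]
    exact map_smul_le le_rfl)

theorem forall_isom_odd_iff {B : LinearMap.BilinForm F V} (h : HForm (σ := RingHom.id F) B ε)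
    [Nontrivial V] {r : ℕ} (hr : Odd r) (Φ : End F V → Prop)
    (hΦ : ∀ (z : F) g, z ≠ 0 → Φ (z • g) → Φ g) :
    (∀ g : End F V, (∀ u v, B (g u) (g v) = B u v) → (∃ z : F, g ^ r = z • 1) →
      (∀ z : F, g ≠ z • 1) → Φ g) ↔
      ∀ g : End F V, (∀ u v, B (g u) (g v) = B u v) → g ^ r = 1 → g ≠ 1 → Φ g := by
  obtain ⟨k, rfl⟩ := hr
  constructor
  · intro H g hg h1 h2
    refine H g hg ⟨1, by rw [h1, one_smul]⟩ fun z hz => h2 ?_
    have h3 : z * z = 1 := h.norm_of_pow_eq hg (k := 1) (by rw [pow_one, hz])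
    rwa [hz, _root_.smul_pow, one_pow, pow_succ, pow_mul, pow_two, h3, one_pow, one_mul, ← hz] at h1
  · rintro H g hg ⟨z, hz⟩ h2
    have h3 : z * z = 1 := h.norm_of_pow_eq hg hz
    refine hΦ z g (left_ne_zero_of_mul_eq_one h3) (H _ (isom_smul (σ := RingHom.id F) hg h3) ?_
      fun h4 => h2 z ?_)
    · rw [_root_.smul_pow, hz, smul_smul, ← pow_succ, show 2 * k + 1 + 1 = 2 * (k + 1) by ring, pow_mul, pow_two, h3,
        one_pow, one_smul]
    · rw [← h4, smul_smul, h3, one_smul]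

theorem isom_of_iSup {ι : Type*} {D : ι → Submodule F V} (hs : iSup D = ⊤) {e : V →ₗ[F] W}
    {B' : W →ₛₗ[σ] W →ₗ[F] F} (h : ∀ i j, ∀ u ∈ D i, ∀ v ∈ D j, B' (e u) (e v) = B u v) (u v : V) :
    B' (e u) (e v) = B u v :=
  Submodule.iSup_induction D (motive := fun u => B' (e u) (e v) = B u v) (hs ▸ Submodule.mem_top)
    (fun i u hu => Submodule.iSup_induction D (motive := fun v => B' (e u) (e v) = B u v)
      (hs ▸ Submodule.mem_top) (fun j v hv => h i j u hu v hv) (by simp)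
      fun a b ha hb => by simp [ha, hb]) (by simp) fun a b ha hb => by simp [ha, hb]

theorem nondegOn_of_iSup (h : HForm B ε) {ι : Type*} {D : ι → Submodule F V} (hs : iSup D = ⊤)
    (ho : ∀ j j', j ≠ j' → ∀ u ∈ D j, ∀ v ∈ D j', B u v = 0) (j : ι) : NondegOn B (D j) :=
  fun u hu h1 => h.sep u fun v => Submodule.iSup_induction D (motive := fun v => B u v = 0)
    (hs ▸ Submodule.mem_top) (fun i v hv => by
      by_cases hi : j = i
      · exact h1 v (hi ▸ hv)
      · exact ho j i hi u hu v hv) (by simp) fun a b ha hb => by simp [ha, hb]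

theorem nondegOn_iff_ne {U : Submodule F V} :
    NondegOn B U ↔ ∀ u ∈ U, u ≠ 0 → ∃ v ∈ U, B u v ≠ 0 :=
  forall₂_congr fun u _ => by rw [← not_imp_not]; simp

theorem aeval_mem_of_inv {U : Submodule F V} (hU : ∀ v ∈ U, g v ∈ U) (f : F[X]) :
    ∀ v ∈ U, aeval g f v ∈ U := fun v hv => by
  have := intertwine_aeval (f := g.restrict hU) U.subtype (fun _ => rfl) f ⟨v, hv⟩
  exact this ▸ Subtype.property _

theorem aeval_apply_of_eq_smul {v : V} {c : F} (h : g v = c • v) (f : F[X]) :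
    aeval g f v = f.eval c • v := by
  induction f using Polynomial.induction_on' with
  | add p q hp hq => simp [hp, hq, add_smul]
  | monomial n a => simp [aeval_monomial, pow_apply_of_eq_smul h, smul_smul, mul_comm]

namespace FixSp

variable {A C : Submodule F V}

theorem ker_aeval_le (h : FixSp B g A C) {f : F[X]} (hf : f.eval 1 ≠ 0) :
    LinearMap.ker (aeval g f) ≤ C := fun v hv => by
  obtain ⟨a, ha, c, hc, rfl⟩ := Submodule.mem_sup.mp (h.isCompl.sup_eq_top.ge (Submodule.mem_top (x := v)))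
  rw [LinearMap.mem_ker, map_add, aeval_apply_of_eq_smul (((h.mem a).mp ha).trans
    (one_smul F a).symm), add_eq_zero_iff_eq_neg] at hv
  have := Submodule.disjoint_def.mp h.isCompl.disjoint _ (A.smul_mem _ ha)
    (hv ▸ C.neg_mem (aeval_mem_of_inv h.inv f c hc))
  rwa [(smul_eq_zero.mp this).resolve_left hf, zero_add]

theorem ker_eq (h : FixSp B g A C) : LinearMap.ker (g - 1) = A :=
  Submodule.ext fun v => by simp [h.mem, sub_eq_zero]

theorem neg_of_sq (h : FixSp B g A C) (h2 : g ^ 2 = 1) : ∀ v ∈ C, g v = -v := fun v hv => by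
  obtain ⟨u, -, rfl⟩ := h.exists_sub h.inv le_rfl v hv
  rw [map_sub, ← End.mul_apply, ← pow_two, h2]
  simp

theorem inv_of_sq (h : FixSp B g A C) (h2 : g ^ 2 = 1) {U : Submodule F V} (hU : U ≤ C) :
    ∀ v ∈ U, g v ∈ U := fun v hv => by
  rw [h.neg_of_sq h2 v (hU hv)]
  exact U.neg_mem hv

end FixSp

variable [FiniteDimensional F V]

theorem PDec.of_step {a t₀ : ℕ} (𝒞 : ∀ (V : Type v) [AddCommGroup V] [Module F V],
      (V →ₛₗ[σ] V →ₗ[F] F) → End F V → Prop)
    (hform : ∀ (V : Type v) [AddCommGroup V] [Module F V] B g, 𝒞 V B g →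
      HForm B ε ∧ ∀ u v, B (g u) (g v) = B u v)
    (hres : ∀ (V : Type v) [AddCommGroup V] [Module F V] B g (U : Submodule F V)
      (hU : ∀ v ∈ U, g v ∈ U), 𝒞 V B g → NondegOn B U → 𝒞 U (restr B U) (g.restrict hU))
    (hstep : ∀ (V : Type v) [AddCommGroup V] [Module F V] [FiniteDimensional F V] B g t,
      𝒞 V B g → t < t₀ → finrank F V = a * (t + 1) → ∃ (U : Submodule F V)
        (hU : ∀ v ∈ U, g v ∈ U) (s : ℕ), NondegOn B U ∧ s ≠ 0 ∧ s ≤ t + 1 ∧
          PDec (restr B U) (g.restrict hU) a s) (t : ℕ) :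
    ∀ (V : Type v) [AddCommGroup V] [Module F V] [FiniteDimensional F V] B g,
      𝒞 V B g → t ≤ t₀ → finrank F V = a * t → PDec B g a t := by
  induction t using Nat.strong_induction_on with
  | _ t ih =>
  intro V _ _ _ B g hC ht hV
  rcases t with _ | t
  · exact PDec.zero _ _ hV
  obtain ⟨h, hg⟩ := hform V B g hC
  obtain ⟨U, hU, s, h1, h2, h3, h4⟩ := hstep V B g t hC ht hV
  obtain ⟨s', h5⟩ := Nat.exists_eq_add_of_le h3
  have h6 := h.finrank_orth U
  rw [h4.1, hV, h5, mul_add] at h6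
  rw [h5]
  exact PDec.add_of_isCompl (h.isCompl_orth h1) (fun u hu v hv => mem_orth.mp hv u hu)
    (fun u hu v hv => h.mem_orth'.mp hv u hu) h4
    (ih s' (by omega) _ _ _ (hres V B g _ (h.mem_orth_of_isometry hg hU) hC (h.nondegOn_orth h1))
      (by omega) (by omega))

variable [Finite F]

theorem exists_ordR_of_md (h : HForm B ε) (hg : ∀ u v, B (g u) (g v) = B u v)
    (hs : g.IsSemisimple) (h1 : (X - 1, 1) ∉ elDiv g) (hr : Rig σ ε (elDiv g)) {b c j l : ℕ}
    (hm : MD σ b c (elDiv g) j l) : OrdR B g b c ⊥ ⊤ j l := by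
  have hinj : Function.Injective (aeval g (X - 1 : F[X])) :=
    (injective_aeval_iff_elDiv g _).mpr fun x hx h2 => h1 (by
      obtain ⟨h3, h4, -⟩ := isElDivs_elDiv g x hx
      have h5 := eq_of_monic_of_associated h3 monic_X_sub_one
        (h4.associated_of_dvd irreducible_X_sub_one h2)
      have h6 := elDiv_snd_eq_one_of_squarefree hs.minpoly_squarefree (minpoly.aeval F g) x hx
      rwa [← h5, ← h6])
  obtain ⟨A, C, hA⟩ := exists_fixSp h hg fun v hv => by
    have : v = 0 := hinj (hinj (by simpa [sub_eq_zero] using hv))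
    simp [this]
  obtain ⟨h2, h3⟩ := hA.elDiv_eq (k := 0) (by simp) h1
  obtain rfl := Submodule.finrank_eq_zero.mp h2
  obtain rfl := eq_top_of_bot_isCompl hA.isCompl
  exact hA.ordR h hg hs (h3 ▸ hr) (h3 ▸ hm)

theorem exists_ordR_replicate (h : HForm B ε) (hg : ∀ u v, B (g u) (g v) = B u v)
    (hs : g.IsSemisimple) (hr : Rig σ ε (elDiv g)) {j : ℕ} {y : F[X] × ℕ}
    (he : elDiv g = Multiset.replicate j y) (hy : y ≠ (X - 1, 1)) :
    OrdR B g (y.1.natDegree * y.2) (y.1.natDegree * y.2) ⊥ ⊤ j (j / 2) := by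
  classical
  refine exists_ordR_of_md h hg hs (fun h => hy (Multiset.eq_of_mem_replicate (he ▸ h)).symm) hr ?_
  have h1 : elDiv g = Multiset.replicate (j / 2) y + Multiset.replicate (j / 2) y +
      Multiset.replicate (j % 2) y := by
    rw [he, ← Multiset.replicate_add, ← Multiset.replicate_add]
    congr 1
    omega
  have h2 := h.elDiv_map_dualED hg
  have := MD.fixed (σ := σ) (b := y.1.natDegree * y.2) (u := Multiset.replicate (j / 2) y)
    (o := Multiset.replicate (j % 2) y) (Multiset.nodup_iff_count_le_one.mpr fun x => by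
      rw [Multiset.count_replicate]; split_ifs <;> omega) fun x hx => by
      rw [← h1] at hx
      have h3 := h2 ▸ Multiset.mem_map_of_mem (dualED σ) hx
      rw [he] at hx h3
      rw [Multiset.eq_of_mem_replicate h3, Multiset.eq_of_mem_replicate hx]
      exact ⟨rfl, rfl⟩
  rwa [← h1, Multiset.card_replicate, Multiset.card_replicate, Nat.div_add_mod] at this

theorem exists_ordR_free (h : HForm B ε) (hg : ∀ u v, B (g u) (g v) = B u v)
    (hs : g.IsSemisimple) (hr : Rig σ ε (elDiv g)) {b : ℕ}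
    (hb : ∀ x ∈ elDiv g, x.1.natDegree * x.2 = b ∧ dualED σ x ≠ x) :
    ∃ u : Multiset (F[X] × ℕ), elDiv g = u + u.map (dualED σ) ∧
      OrdR B g b (2 * b) ⊥ ⊤ u.card u.card := by
  have h1 : ∀ x ∈ elDiv g, dualED σ (dualED σ x) = x := fun x hx => Prod.ext
    (dualPoly_dualPoly h.invol (isElDivs_elDiv g x hx).1
      ((isElDivs_elDiv g).coeff_zero_ne (h.ne_X hg) x hx)) rfl
  obtain ⟨u, hu⟩ := exists_half_of_free (h.elDiv_map_dualED hg) fun x hx => ⟨(hb x hx).2, h1 x hx⟩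
  refine ⟨u, hu, exists_ordR_of_md h hg hs (fun h => (hb _ h).2 (Prod.ext dualPoly_X_sub_one rfl))
    hr ?_⟩
  rw [hu] at hb h1 ⊢
  exact MD.free fun x hx => ⟨(hb x hx).1, (hb x hx).2, h1 x hx⟩

theorem HA.exists_hyp (h : HA B ε) {k : ℕ} (hk : finrank F V = 2 * k) :
    ∃ B₀ : (Fin k → F) →ₛₗ[σ] (Fin k → F) →ₗ[F] F, HForm B₀ 1 ∧
      ∃ e : ((Fin k → F) × (Fin k → F)) ≃ₗ[F] V, ∀ u v, B (e u) (e v) = hypForm B₀ ε u v := by
  obtain ⟨B₀, h₀⟩ := exists_hform_one (V := Fin k → F) h.invol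
  refine ⟨B₀, h₀, HA.exists_isometry ⟨h₀.hyp ?_, h.kind.imp id ?_⟩ h (by simp [hk, two_mul])⟩
  · rcases h.kind with ⟨-, rfl⟩ | ⟨-, rfl, -⟩ <;> simp
  · rintro ⟨rfl, rfl, -⟩
    exact ⟨rfl, rfl, isAlt_hypForm h₀⟩

theorem HA.exists_isCompl_totIso (h : HA B ε) {A : Submodule F V} (hA : NondegOn B A)
    (he : Even (finrank F A)) : ∃ U U', U ⊔ U' = A ∧ TotIso B U ∧ TotIso B U' := by
  obtain ⟨k, hk⟩ := he
  obtain ⟨B₀, -, e, he⟩ := (h.restrict hA).exists_hyp (hk.trans (two_mul k).symm)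
  refine ⟨((LinearMap.range (LinearMap.inl F _ _)).map e.toLinearMap).map A.subtype,
    ((LinearMap.range (LinearMap.inr F _ _)).map e.toLinearMap).map A.subtype, ?_,
    totIso_map_subtype ?_, totIso_map_subtype ?_⟩
  · rw [← Submodule.map_sup, ← Submodule.map_sup, LinearMap.sup_range_inl_inr, Submodule.map_top,
      LinearEquiv.range, Submodule.map_top, Submodule.range_subtype]
  · rintro _ ⟨_, ⟨u, rfl⟩, rfl⟩ _ ⟨_, ⟨v, rfl⟩, rfl⟩
    simp [he]
  · rintro _ ⟨_, ⟨u, rfl⟩, rfl⟩ _ ⟨_, ⟨v, rfl⟩, rfl⟩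
    simp [he]

omit [Finite F] in
theorem HForm.isCompl_of_sup (h : HForm B ε) {U U' : Submodule F V} (hs : U ⊔ U' = ⊤)
    (hU : TotIso B U) (hU' : TotIso B U') : IsCompl U U' :=
  ⟨Submodule.disjoint_def.mpr fun v h1 h2 => h.sep v fun w => mem_sup_elim (P := fun w => B v w = 0)
    (fun a ha b hb => by rw [map_add, hU v h1 a ha, hU' v h2 b hb, add_zero]) w
      (hs ▸ Submodule.mem_top), codisjoint_iff.mpr hs⟩

theorem HA.exists_map_eq_fam (h : HA B ε) {ι : Type*} {D D' : ι → Submodule F V}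
    (hi : iSupIndep D) (hs : iSup D = ⊤) (hi' : iSupIndep D') (hs' : iSup D' = ⊤)
    (ho : ∀ j j', j ≠ j' → ∀ u ∈ D j, ∀ v ∈ D j', B u v = 0)
    (ho' : ∀ j j', j ≠ j' → ∀ u ∈ D' j, ∀ v ∈ D' j', B u v = 0)
    (hd : ∀ j, finrank F (D j) = finrank F (D' j)) :
    ∃ g ∈ isomGroup B, ∀ j, (D j).map (g : V →ₗ[F] V) = D' j := by
  choose e he using fun j => (h.restrict (nondegOn_of_iSup h.toHForm hs ho j)).exists_isometry
    (h.restrict (nondegOn_of_iSup h.toHForm hs' ho' j)) (hd j)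
  obtain ⟨g, hg⟩ := exists_map_eq_of_iSupIndep hi hs hi' hs' e
  refine ⟨g, isom_of_iSup (e := (g : V →ₗ[F] V)) hs fun i j u hu v hv => ?_,
    fun j => map_eq_of_forall_coe _ (hg j)⟩
  rw [LinearEquiv.coe_coe, hg i ⟨u, hu⟩, hg j ⟨v, hv⟩]
  by_cases hij : i = j
  · subst hij
    exact he i _ _
  · rw [ho i j hij u hu v hv, ho' i j hij _ (Subtype.property _) _ (Subtype.property _)]

section J

variable {B : LinearMap.BilinForm F V}

omit [Finite F] in
theorem rig_of_sq_neg (h2 : (2 : F) ≠ 0) (hε : ε * ε = 1) (hJ : g ^ 2 = (-1 : F) • 1) :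
    Rig (RingHom.id F) ε (elDiv g) :=
  Or.inr ⟨rfl, hε, fun x hx l hl h1 => h2 (by
    have := (dvd_pow_self _ (isElDivs_elDiv g x hx).2.2.ne').trans
      (forall_dvd_of_pow_eq_smul hJ x hx)
    rw [h1, dvd_iff_isRoot] at this
    simp only [IsRoot.def, eval_sub, eval_pow, eval_X, eval_C] at this
    linear_combination this - hl)⟩

theorem ordR_of_sq_neg_of_isSquare (h : HForm (σ := RingHom.id F) B ε) (h2 : (2 : F) ≠ 0)
    (hε : ε * ε = 1) (hg : ∀ u v, B (g u) (g v) = B u v) (hJ : g ^ 2 = (-1 : F) • 1)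
    (hs : IsSquare (-1 : F)) : ∃ u : Multiset (F[X] × ℕ),
      elDiv g = u + u.map (dualED (RingHom.id F)) ∧
      OrdR (σ := RingHom.id F) B g 1 2 ⊥ ⊤ u.card u.card := by
  obtain ⟨i, hi⟩ := hs
  have hi0 : i ≠ 0 := by rintro rfl; simp at hi
  refine exists_ordR_free h hg (isSemisimple_of_pow_eq_smul (by exact_mod_cast h2) (by simp) hJ)
    (rig_of_sq_neg h2 hε hJ) fun x hx => ?_
  obtain ⟨h3, h4, h5⟩ := isElDivs_elDiv g x hx
  have h6 := elDiv_snd_eq_one_of_squarefree (separable_X_pow_sub_C (n := 2) (-1 : F)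
    (by exact_mod_cast h2) (by simp)).squarefree (by
      simp [hJ, Algebra.algebraMap_eq_smul_one]) x hx
  have h7 := forall_dvd_of_pow_eq_smul hJ x hx
  rw [h6, pow_one, hi, show (X ^ 2 - C (i * i) : F[X]) = (X - C i) * (X - C (-i)) by
    simp only [map_mul, map_neg]; ring] at h7
  obtain ⟨a, ha, h8⟩ : ∃ a : F, -1 = a * a ∧ x.1 = X - C a :=
    (h4.prime.dvd_or_dvd h7).elim (fun h => ⟨i, hi, eq_of_monic_of_associated h3
      (monic_X_sub_C _) (h4.associated_of_dvd (irreducible_X_sub_C _) h)⟩) fun h =>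
      ⟨-i, by simp [hi], eq_of_monic_of_associated h3 (monic_X_sub_C _)
        (h4.associated_of_dvd (irreducible_X_sub_C _) h)⟩
  have ha0 : a ≠ 0 := by rintro rfl; simp at ha
  refine ⟨by simp [h6, h8], fun h9 => h2 ?_⟩
  have h10 := congrArg Prod.fst h9
  rw [dualED, h8, dualPoly_X_sub_C ha0, sub_right_inj, C_inj, RingHom.id_apply] at h10
  have h11 := mul_inv_cancel₀ ha0
  rw [h10] at h11
  linear_combination -ha - h11

end J

end Cfsg.Lib.Known
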