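import Mathlib
import Cfsg.Agent.Known.ElusJ
import Cfsg.Agent.Known.InvTwo
import Cfsg.Agent.Known.ClassConj

/-!
Involutions and unipotent elements of prime order of `PSp`: fixed subspaces.
-/

namespace Cfsg.Lib.Known

open Module Polynomial Cfsg.Lib.Class Cfsg.Lib.Class.Form

universe u v

variable {F : Type u} [Field F]

theorem forall_Sp_iff {d : ℕ} (r : ℕ) (Φ : End F (Fin d ⊕ Fin d → F) → Prop) :
    (∀ x : Matrix.symplecticGroup (Fin d) F,
      (∃ z : F, ((x ^ r : Matrix.symplecticGroup (Fin d) F) :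
        Matrix (Fin d ⊕ Fin d) (Fin d ⊕ Fin d) F) = z • 1) →
      (∀ z : F, (x : Matrix (Fin d ⊕ Fin d) (Fin d ⊕ Fin d) F) ≠ z • 1) →
      Φ (Matrix.toLin' (x : Matrix (Fin d ⊕ Fin d) (Fin d ⊕ Fin d) F))) ↔
    ∀ g : End F (Fin d ⊕ Fin d → F), (∀ u v, sympBilin d F (g u) (g v) = sympBilin d F u v) →
      (∃ z : F, g ^ r = z • 1) → (∀ z : F, g ≠ z • 1) → Φ g := by
  constructor
  · intro h g hg h1 h2
    obtain ⟨x, rfl⟩ := exists_Sp_of_isometry hg
    exact h x (by simpa only [toLin'_pow_eq_smul_one_iff, SubmonoidClass.coe_pow] using h1)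
      (by simpa only [Ne, toLin'_eq_smul_one_iff] using h2)
  · intro h x h1 h2
    exact h _ (sympBilin_mulVec x)
      (by simpa only [toLin'_pow_eq_smul_one_iff, SubmonoidClass.coe_pow] using h1)
      (by simpa only [Ne, toLin'_eq_smul_one_iff] using h2)

theorem ha_symp (d : ℕ) : HA (σ := RingHom.id F) (sympBilin d F) (-1) :=
  ha_of_isAlt (sympBilin_nondegenerate d) (sympBilin_isAlt d)

theorem two_ne_zero_of_ne (p : ℕ) [Fact p.Prime] [CharP F p] (hp : p ≠ 2) : (2 : F) ≠ 0 :=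
  Ring.two_ne_zero (by rwa [ringChar.eq F p])

theorem isSquare_neg_one_iff_mod [Fintype F] (h2 : (2 : F) ≠ 0) :
    (IsSquare (-1 : F) ↔ Fintype.card F % 4 = 1) ∧
      (¬ IsSquare (-1 : F) ↔ Fintype.card F % 4 = 3) := by
  have h := FiniteField.odd_card_of_char_ne_two (F := F) fun h => h2 (by
    have := ringChar.Nat.cast_ringChar (R := F)
    rwa [h] at this)
  rw [FiniteField.isSquare_neg_one_iff]
  omega

variable {V : Type v} [AddCommGroup V] [Module F V] [FiniteDimensional F V] {ε : F} {g : End F V}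
  {B : LinearMap.BilinForm F V}

omit [FiniteDimensional F V] in
theorem HForm.sq_cases (h : HForm (σ := RingHom.id F) B ε) [Nontrivial V]
    (hg : ∀ u v, B (g u) (g v) = B u v) {z : F} (hz : g ^ 2 = z • 1) :
    g ^ 2 = 1 ∨ g ^ 2 = (-1 : F) • 1 :=
  (mul_self_eq_one_iff.mp (show z * z = 1 from h.norm_of_pow_eq hg hz)).imp (fun h => by rw [hz, h, one_smul])
    fun h => by rw [hz, h]

theorem elDiv_of_sq_neg [Fintype F] (h2 : (2 : F) ≠ 0) (hJ : g ^ 2 = (-1 : F) • 1)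
    (hs : ¬ IsSquare (-1 : F)) :
    ∃ j, elDiv g = Multiset.replicate j (X ^ 2 - C (-1), 1) ∧ finrank F V = 2 * j :=
  have : Fact (ringChar F).Prime := ⟨CharP.char_is_prime F _⟩
  elDiv_of_pow_eq_not_pow (ringChar F) (r := 2) (fun h => h2 (by
    have := ringChar.Nat.cast_ringChar (R := F)
    rwa [← h] at this)) (fun b hb => hs ⟨b, by rw [← hb, pow_two]⟩) hJ

theorem ordR_of_sq_neg [Fintype F] (h : HForm (σ := RingHom.id F) B ε) (h2 : (2 : F) ≠ 0)
    (hε : ε * ε = 1) (hg : ∀ u v, B (g u) (g v) = B u v) (hJ : g ^ 2 = (-1 : F) • 1) :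
    ∃ j, finrank F V = 2 * j ∧
      (IsSquare (-1 : F) → OrdR (σ := RingHom.id F) B g 1 2 ⊥ ⊤ j j) ∧
      (¬ IsSquare (-1 : F) → OrdR (σ := RingHom.id F) B g 2 2 ⊥ ⊤ j (j / 2)) := by
  by_cases hs : IsSquare (-1 : F)
  · obtain ⟨u, -, h3⟩ := ordR_of_sq_neg_of_isSquare h h2 hε hg hJ hs
    exact ⟨_, (finrank_top F V).symm.trans h3.rank, fun _ => h3, fun h => absurd hs h⟩
  obtain ⟨j, h3, h4⟩ := elDiv_of_sq_neg h2 hJ hs
  have := exists_ordR_replicate h hg (isSemisimple_of_pow_eq_smul (by exact_mod_cast h2)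
    (by simp) hJ) (rig_of_sq_neg h2 hε hJ) h3 fun h => by
      have := congrArg (fun x => natDegree x.1) h
      simp only [natDegree_X_pow_sub_C, natDegree_X_sub_one] at this
      omega
  simp only [natDegree_X_pow_sub_C] at this
  exact ⟨j, h4, fun h => absurd h hs, fun _ => this⟩

theorem exists_fixSp_of_sq {σ : F →+* F} {B : V →ₛₗ[σ] V →ₗ[F] F} (h : HForm B ε)
    (h2 : (2 : F) ≠ 0) (hg : ∀ u v, B (g u) (g v) = B u v) (hs : g ^ 2 = 1) :
    ∃ A C, FixSp B g A C :=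
  exists_fixSp h hg (ssAt_of_pow_eq_one (by exact_mod_cast h2) hs 1)

section Inv

variable {σ : F →+* F} {B : V →ₛₗ[σ] V →ₗ[F] F} [Finite F]

theorem HA.exists_ts_of_sq {A C : Submodule F V} (h : HA B ε) (hA : FixSp B g A C)
    (hs : g ^ 2 = 1) {a c : ℕ} (ha : 2 * a ≤ finrank F A) (hc : 2 * c ≤ finrank F C) :
    ∃ U : Submodule F V, finrank F U = a + c ∧ TotIso B U ∧ U.map g ≤ U := by
  obtain ⟨U, h1, h2, h3⟩ := h.exists_totIso (hA.nondegOn h.toHForm).1 ha
  obtain ⟨U', h4, h5, h6⟩ := h.exists_totIso (hA.nondegOn h.toHForm).2 hc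
  exact ⟨_, by rw [hA.finrank_sup h1 h4, h2, h5], hA.totIso_sup h1 h4 h3 h6,
    map_le_iff_forall.mpr (inv_sup (hA.inv_of_le h1) (hA.inv_of_sq hs h4))⟩

theorem HA.exists_nd_of_sq {A C : Submodule F V} (h : HA B ε) (hA : FixSp B g A C)
    (hs : g ^ 2 = 1) {a c : ℕ} (ha : a ≤ finrank F A) (hc : c ≤ finrank F C)
    (he : σ = RingHom.id F → Even a ∧ Even c) :
    ∃ U : Submodule F V, finrank F U = a + c ∧ NondegOn B U ∧ U.map g ≤ U := by
  obtain ⟨U, h1, h2, h3⟩ := h.exists_nondeg (hA.nondegOn h.toHForm).1 ha fun h => (he h).1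
  obtain ⟨U', h4, h5, h6⟩ := h.exists_nondeg (hA.nondegOn h.toHForm).2 hc fun h => (he h).2
  exact ⟨_, by rw [hA.finrank_sup h1 h4, h2, h5], hA.nondegOn_sup h1 h4 h3 h6,
    map_le_iff_forall.mpr (inv_sup (hA.inv_of_le h1) (hA.inv_of_sq hs h4))⟩

end Inv

theorem HA.exists_nd_of_sq_smul [Fintype F] (h : HA (σ := RingHom.id F) B (-1))
    (h2 : (2 : F) ≠ 0) (hg : ∀ u v, B (g u) (g v) = B u v)
    (hs : g ^ 2 = 1 ∨ g ^ 2 = (-1 : F) • 1) {m : ℕ} (hm : m ≤ finrank F V) (he : Even m) :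
    ∃ U : Submodule F V, finrank F U = m ∧ NondegOn (σ := RingHom.id F) B U ∧ U.map g ≤ U := by
  rcases hs with hs | hs
  · obtain ⟨A, C, hA⟩ := exists_fixSp_of_sq h.toHForm h2 hg hs
    obtain ⟨a, ha⟩ := (h.restrict (hA.nondegOn h.toHForm).1).even rfl
    have h3 := hA.finrank_add
    obtain ⟨k, rfl⟩ := he
    by_cases hk : k ≤ a
    · exact h.exists_nd_of_sq hA hs (a := k + k) (c := 0) (by omega) (by omega) fun _ => by simp
    · rw [show k + k = (a + a) + ((k - a) + (k - a)) by omega]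
      exact h.exists_nd_of_sq hA hs (by omega) (by omega) fun _ => by simp
  obtain ⟨j, h3, h4, h5⟩ := ordR_of_sq_neg h.toHForm h2 (by simp) hg hs
  obtain ⟨k, rfl⟩ := he
  by_cases h6 : IsSquare (-1 : F)
  · exact (h.nd_iff (h4 h6) _).mpr ⟨0, zero_le, k, by omega, by omega, by simp⟩
  · exact (h.nd_iff (h5 h6) _).mpr ⟨0, zero_le, k, by omega, by omega, by simp⟩

omit [FiniteDimensional F V] in
theorem exists_sq_neg_model {k : ℕ} {B₀ : LinearMap.BilinForm F (Fin k → F)} :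
    ∃ f : End F ((Fin k → F) × (Fin k → F)), f ^ 2 = (-1 : F) • 1 ∧ (∀ x y, f (x, y) = (-y, x)) ∧
      ∀ u v, hypForm (σ := RingHom.id F) B₀ (-1) (f u) (f v) =
        hypForm (σ := RingHom.id F) B₀ (-1) u v :=
  ⟨LinearMap.prod (-LinearMap.snd F _ _) (LinearMap.fst F _ _),
    LinearMap.ext fun v => Prod.ext (by simp [pow_two]) (by simp [pow_two]), fun _ _ => rfl, fun u v => by simp; ring⟩

theorem HA.exists_sq_neg [Finite F] (h : HA (σ := RingHom.id F) B (-1)) :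
    ∃ g : End F V, (∀ u v, B (g u) (g v) = B u v) ∧ g ^ 2 = (-1 : F) • 1 ∧
      ∃ U, TotIso (σ := RingHom.id F) B U ∧ U ⊔ U.map g = ⊤ := by
  obtain ⟨k, hk⟩ := h.even rfl
  obtain ⟨B₀, -, e, he⟩ := h.exists_hyp (hk.trans (two_mul k).symm)
  obtain ⟨f, h1, h2, h3⟩ := exists_sq_neg_model (B₀ := B₀)
  refine ⟨e.conj f, fun u v => ?_, ?_, (LinearMap.range (LinearMap.inl F _ _)).map e.toLinearMap,
    ?_, eq_top_iff.mpr fun v _ => ?_⟩
  · rw [LinearEquiv.conj_apply_apply, LinearEquiv.conj_apply_apply, he, h3, ← he]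
    simp
  · ext v
    have := congrArg e (LinearMap.congr_fun h1 (e.symm v))
    simpa [pow_two] using this
  · rintro _ ⟨_, ⟨u, rfl⟩, rfl⟩ _ ⟨_, ⟨v, rfl⟩, rfl⟩
    simp [he]
  · obtain ⟨⟨x, y⟩, rfl⟩ := e.surjective v
    refine Submodule.mem_sup.mpr ⟨_, ⟨_, ⟨x, rfl⟩, rfl⟩, _, ⟨_, ⟨_, ⟨y, rfl⟩, rfl⟩, rfl⟩, ?_⟩
    simp [h2, ← map_add]

theorem elDiv_of_pow_char_one [Fintype F] (p : ℕ) [Fact p.Prime] [CharP F p] (h : g ^ p = 1) :
    ∃ μ : Multiset ℕ, (∀ e ∈ μ, 0 < e ∧ e ≤ p) ∧ μ.sum = finrank F V ∧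
      elDiv g = μ.map fun e => (X - C 1, e) := by
  obtain ⟨a, h1, h2⟩ := elDiv_of_pow_char p (c := 1) (g := g) (by rw [h, one_smul])
  obtain rfl : a = 1 := frobenius_inj F p (by rw [frobenius_def, h1, map_one])
  have h3 : elDiv g = ((elDiv g).map Prod.snd).map fun e => (X - C 1, e) := by
    rw [Multiset.map_map]
    refine (map_eq_self_of_forall fun x hx => ?_).symm
    exact Prod.ext (h2 x hx).1.symm rfl
  refine ⟨_, fun e he => ?_, ?_, h3⟩
  · obtain ⟨x, hx, rfl⟩ := Multiset.mem_map.mp he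
    exact ⟨(isElDivs_elDiv g x hx).2.2, (h2 x hx).2⟩
  · rw [finrank_eq_elDeg g, ← elDeg_map_unip (F := F), ← C_1, ← h3]

open Classical in
theorem count_map_X_sub_C (μ : Multiset ℕ) (l : F) (e : ℕ) :
    (μ.map fun e => ((X - C l : F[X]), e)).count (X - C l, e) = μ.count e :=
  Multiset.count_map_eq_count' _ _ (fun _ _ h => congrArg Prod.snd h) e

omit [FiniteDimensional F V] in
theorem spParity_unip_iff {μ : Multiset ℕ} :
    SpParity (μ.map fun e => ((X - C 1 : F[X]), e)) ↔ ∀ a, Odd a → Even (μ.count a) := by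
  classical
  refine ⟨fun h a ha => by simpa only [count_map_X_sub_C] using h 1 (one_mul 1) a ha,
    fun h l _ a ha => ?_⟩
  by_cases hl : l = 1
  · simpa only [hl, count_map_X_sub_C] using h a ha
  · rw [Multiset.count_eq_zero.mpr (fun h => by
      obtain ⟨e, -, he⟩ := Multiset.mem_map.mp h
      exact hl (C_inj.mp (sub_right_inj.mp (congrArg Prod.fst he))).symm)]
    exact Even.zero

theorem exists_le_of_restrict_unip {σ : F →+* F} {B : V →ₛₗ[σ] V →ₗ[F] F} (h : HForm B ε)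
    (hg : ∀ u v, B (g u) (g v) = B u v) {μ : Multiset ℕ}
    (he : elDiv g = μ.map fun e => (X - C 1, e)) {U : Submodule F V} (hU : ∀ v ∈ U, g v ∈ U)
    (hn : NondegOn B U) : ∃ ν ≤ μ, ν.sum = finrank F U ∧
      elDiv (g.restrict hU) = ν.map fun e => (X - C 1, e) := by
  obtain ⟨ν, ν', rfl, h1, -⟩ := exists_add_map_eq (he.symm.trans (h.elDiv_eq_add hg hU hn))
  exact ⟨ν, Multiset.le_add_right _ _, by
    rw [finrank_eq_elDeg_restrict hU, ← h1, C_1, elDeg_map_unip], h1.symm⟩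

theorem HA.exists_unip [Finite F] {σ : F →+* F} {B : V →ₛₗ[σ] V →ₗ[F] F} (h : HA B ε)
    {μ : Multiset ℕ} (h1 : ∀ e ∈ μ, 0 < e) (h2 : μ.sum = finrank F V)
    (h3 : σ = RingHom.id F → ∀ a, Odd a → Even (μ.count a)) :
    ∃ g : End F V, (∀ u v, B (g u) (g v) = B u v) ∧ elDiv g = μ.map fun e => (X - C 1, e) := by
  refine h.exists_of_type (by simpa using isElDivs_map_unip h1) (fun x hx => ?_)
    (map_eq_self_of_forall fun x hx => ?_) (by rw [C_1, elDeg_map_unip, h2])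
    fun hσ => spParity_unip_iff.mpr (h3 hσ)
  · obtain ⟨e, -, rfl⟩ := Multiset.mem_map.mp hx
    simp
  · obtain ⟨e, -, rfl⟩ := Multiset.mem_map.mp hx
    exact Prod.ext (by simpa using dualPoly_X_sub_one) rfl

theorem finrank_of_elDiv_unip {U : Submodule F V} {hU : ∀ v ∈ U, g v ∈ U} {ν : Multiset ℕ}
    (h : elDiv (g.restrict hU) = ν.map fun e => (X - C 1, e)) : finrank F U = ν.sum := by
  rw [finrank_eq_elDeg_restrict hU, h, C_1, elDeg_map_unip]

theorem HForm.exists_nondeg_of_ne {σ : F →+* F} {B : V →ₛₗ[σ] V →ₗ[F] F} (h : HForm B ε) {x : V}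
    (hx : B x x ≠ 0) {k : ℕ} (hk : k ≤ finrank F V) : ∃ U, NondegOn B U ∧ finrank F U = k := by
  obtain ⟨j, rfl | rfl⟩ := Nat.even_or_odd' k
  · exact h.exists_nondeg_even j hk
  have h3 := h.finrank_orth (Submodule.span F {x})
  have h4 := finrank_span_singleton (K := F) (v := x) (by rintro rfl; simp at hx)
  obtain ⟨T, h1, h2⟩ := (h.restrict (h.nondegOn_orth (h.nondegOn_span hx))).exists_nondeg_even j
    (by omega)
  have h5 := h.nondegOn_sup_orth (h.nondegOn_span hx) (nondegOn_map_subtype h1)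
    (Submodule.map_subtype_le _ _)
  exact ⟨_, h5.1, by rw [h5.2, h4, Submodule.finrank_map_subtype_eq, h2, add_comm]⟩

section Two

variable [Fintype F] [CharP F 2]

theorem elDiv_of_invol (hs : g ^ 2 = 1) : ∃ k₁ k₂, k₁ + 2 * k₂ = finrank F V ∧
    finrank F (LinearMap.range (g - 1)) = k₂ ∧ elDiv g =
      (Multiset.replicate k₁ 1 + Multiset.replicate k₂ 2).map fun e => (X - C 1, e) := by
  obtain ⟨μ, h1, h2, h3⟩ := elDiv_of_pow_char_one 2 hs
  obtain ⟨k₁, k₂, rfl⟩ := eq_replicate_add_replicate (a := 1) (b := 2) (ν := μ) fun e he => by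
    have := h1 e he
    omega
  refine ⟨k₁, k₂, by simpa [mul_comm] using h2, ?_, h3⟩
  have h4 := kerDim_add_count (s := elDiv g) (l := 1) (k := 1) fun x hx => by
    obtain ⟨e, he, rfl⟩ := Multiset.mem_map.mp (h3 ▸ hx)
    exact ⟨rfl, (h1 e he).2⟩
  have h5 := LinearMap.finrank_range_add_finrank_ker (g - 1)
  rw [← finrank_ker_eq_kerDim g (monic_X_sub_C 1) (irreducible_X_sub_C 1), ← finrank_eq_elDeg, h3,
    count_map_X_sub_C, pow_one, aeval_X_sub_C_End, one_smul] at h4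
  simp [Multiset.count_replicate] at h4
  omega

theorem exists_nd_of_invol (h : HForm (σ := RingHom.id F) B ε) (hg : ∀ u v, B (g u) (g v) = B u v)
    {k₁ k₂ : ℕ} (he : elDiv g =
      (Multiset.replicate k₁ 1 + Multiset.replicate k₂ 2).map fun e => (X - C 1, e)) {a b : ℕ}
    (ha : a ≤ k₁) (hb : b ≤ k₂) (ha' : Even a ∨ a = k₁) (hb' : Even b ∨ b = k₂) :
    ∃ (U : Submodule F V) (hU : ∀ v ∈ U, g v ∈ U), NondegOn (σ := RingHom.id F) B U ∧
      finrank F U = a + 2 * b ∧ elDiv (g.restrict hU) =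
      (Multiset.replicate a 1 + Multiset.replicate b 2).map fun e => (X - C 1, e) := by
  obtain ⟨U, hU, h1, h2⟩ := WallData.exists_nondeg (l := 1) ⟨h, hg, one_mul 1, rfl⟩
    (ν := Multiset.replicate a 1 + Multiset.replicate b 2)
    (he ▸ Multiset.map_le_map (le_replicate_add_replicate.mpr ⟨a, ha, b, hb, rfl⟩)) fun j => by
      rw [he, count_map_X_sub_C]
      rcases j with _ | _ | j <;> simp [Multiset.count_replicate] <;> tauto
  exact ⟨U, hU, h1, by simp [finrank_of_elDiv_unip h2, mul_comm], h2⟩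

theorem HA.exists_swap (h : HA (σ := RingHom.id F) B (-1)) (hg : ∀ u v, B (g u) (g v) = B u v)
    (hs : g ^ 2 = 1) (ha : ∀ v, B v (g v) = 0) {a : ℕ} (hV : finrank F V = a * 2) (he : Even a)
    (hr : finrank F (LinearMap.range (g - 1)) = a) : PDec (σ := RingHom.id F) B g a 2 := by
  have hA := (h.kind.resolve_left fun h => h.1 rfl).2.2
  obtain ⟨D, -, h1, h2⟩ := h.exists_nondeg h.nondegOn_top (k := a)
    (by rw [finrank_top]; omega) fun _ => he
  have h3 := h.restrict h2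
  obtain ⟨e, he'⟩ := (h3.prod h3).exists_isometry h (by simp [h1, hV, mul_two])
  let s : V ≃ₗ[F] V := e.symm.trans ((LinearEquiv.prodComm F D D).trans e)
  have hs1 : ∀ x y, s (e (x, y)) = e (y, x) := fun x y => by simp [s]
  have hs2 : IsInv B s := ⟨fun u v => by
    obtain ⟨⟨x, y⟩, rfl⟩ := e.surjective u
    obtain ⟨⟨x', y'⟩, rfl⟩ := e.surjective v
    rw [hs1, hs1, he', he', prodForm_apply, prodForm_apply, add_comm], fun v => by simp [s]⟩
  have hinj := injective_of_isometry h.toHForm hg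
  let t : V ≃ₗ[F] V := LinearEquiv.ofInjectiveEndo g hinj
  have ht2 : ∀ v, t (t v) = v := fun v => LinearMap.congr_fun ((pow_two g).symm.trans hs) v
  have hW := witt2_SpB h.nondegenerate hA
  have h5 : finrank F (resSp s) = finrank F (resSp t) := by
    refine le_antisymm ?_ (hr.trans_le ?_)
    · have := hs2.two_mul_finrank_le hW.1
      rw [show finrank F (resSp t) = a from hr]
      omega
    · rw [← h1]
      refine LinearMap.finrank_le_finrank_of_injective (f := (resN s).rangeRestrict ∘ₗ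
        e.toLinearMap ∘ₗ LinearMap.inl F D D) ((injective_iff_map_eq_zero _).mpr fun x hx => ?_)
      have h4 : s (e (x, 0)) - e (x, 0) = 0 := congrArg Subtype.val hx
      rw [hs1, sub_eq_zero] at h4
      exact congrArg Prod.snd (e.injective h4)
  have h6 : ∀ v, B v (s v) = 0 := fun v => by
    obtain ⟨⟨x, y⟩, rfl⟩ := e.surjective v
    rw [hs1, he', prodForm_apply, restr_apply, restr_apply, h.sym (y : V)]
    simp
  obtain ⟨c, hc⟩ := isConj_iff.mp ((hW.isConj_iff (t := ⟨s, hs2.isom⟩) (s := ⟨t, hg⟩)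
    (Subtype.ext (LinearEquiv.ext hs2.invol)) (Subtype.ext (LinearEquiv.ext ht2))).mpr
      (invType_eq_iff.mpr ⟨h5, iff_of_true h6 ha⟩))
  refine PDec.congr (C := prodForm (restr B D) (restr B D))
    (f := (LinearEquiv.prodComm F D D : End F (D × D))) (PDec.swap (z := 1)
      (D := LinearMap.range (LinearMap.inl F D D)) (by ext <;> simp [pow_two])
      (LinearEquiv.injective _) (by
        rw [LinearMap.finrank_range_of_inj LinearMap.inl_injective, h1]) (by simp [h1, mul_two])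
      (fun v => ⟨_, ⟨v.1, rfl⟩, _, ⟨v.2, rfl⟩, by simp⟩) ?_ ?_) (e.trans c.1) (fun w => ?_)
    fun u v => (c.2 _ _).trans (he' u v)
  · rintro _ ⟨x, rfl⟩ _ ⟨y, rfl⟩
    simp
  · rintro _ ⟨x, rfl⟩ _ ⟨y, rfl⟩
    simp
  · exact (congrArg c.1 (hs1 w.1 w.2).symm).trans (conj_eq_iff_linear.mp hc (e w))

end Two

end Cfsg.Lib.Known
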