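import Mathlib
import Cfsg.Agent.Known.ElusSp

/-!
Elements of odd prime order `r ≠ p` of symplectic and unitary groups fixing a subspace.
-/

namespace Cfsg.Lib.Known

open Module Polynomial Cfsg.Lib.Class Cfsg.Lib.Class.Form

universe u v

theorem mod_div_of_eq {i k j m : ℕ} (hi : 0 < i) (h : k + i * j = m) :
    m % i ≤ k ∧ j ≤ m / i ∧ (k < i → j = m / i ∧ k = m % i) := by
  subst h
  rw [Nat.add_mul_mod_self_left, Nat.add_mul_div_left _ _ hi]
  exact ⟨Nat.mod_le _ _, Nat.le_add_left _ _, fun h => by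
    rw [Nat.div_eq_of_lt h, zero_add, Nat.mod_eq_of_lt h]; exact ⟨rfl, rfl⟩⟩

theorem ts_arith {fx : Prop} {i c n m N : ℕ} (hi : 0 < i) (hc : fx → c = i)
    (hc' : ¬ fx → c = 2 * i) (hmd : 2 * m ≤ n) (hN : 0 < N) (hΩ : ¬ 2 * m ≤ n % c) :
    (∀ k j l, k + c * j = n → j ≠ 0 → Adm fx N j l →
      ∃ k' j', 2 * k' ≤ k ∧ j' ≤ l ∧ k' + i * j' = m) ↔
    i ≤ m ∧ 2 * (m % i) ≤ n % c ∧ (fx → N + 2 * (m / i) ≤ n / i) := by
  have h1 := Nat.mod_add_div n c
  have h2 := Nat.mod_add_div m i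
  have h3 := Nat.mod_lt m hi
  have h4 : n / c ≠ 0 := fun h => hΩ (by rw [h] at h1; omega)
  have key := fun k' j' (h : k' + i * j' = m) => mod_div_of_eq hi h
  by_cases he : fx
  · obtain rfl := hc he
    have h5 := Nat.mod_lt n hi
    simp only [Adm, he, true_imp_iff, not_true, false_imp_iff, and_true]
    have h0 := Nat.zero_le (n / c)
    have h0' := Nat.zero_le (m / c)
    constructor
    · intro H
      obtain ⟨k', j', h6, h7, h8⟩ := H _ _ ((n / c - N + 1) / 2) h1 h4 (by omega)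
      have h9 := key k' j' h8
      have h10 : m / c ≠ 0 := fun h => hΩ (by rw [h] at h2; omega)
      refine ⟨Nat.le_of_not_lt fun h => h10 (Nat.div_eq_of_lt h), by omega, ?_⟩
      by_contra h11
      obtain ⟨J, hJ⟩ := Nat.exists_eq_add_one.mpr (Nat.pos_of_ne_zero h4)
      obtain ⟨k', j', h6, h7, h8⟩ := H (n % c + c) J ((J - N + 1) / 2)
        (by rw [hJ, mul_add] at h1; omega) (by omega) (by omega)
      have h9 := key k' j' h8
      omega
    · rintro ⟨h6, h7, h8⟩ k j l h9 - h10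
      have h11 : j ≤ n / c := (Nat.le_div_iff_mul_le hi).mpr (by rw [mul_comm]; omega)
      obtain ⟨e, he⟩ := Nat.exists_eq_add_of_le h11
      rw [he, mul_add] at h1
      by_cases h12 : m / c ≤ l
      · exact ⟨m % c, m / c, by omega, h12, h2⟩
      · obtain ⟨f, hf⟩ := Nat.exists_eq_add_of_le (not_le.mp h12).le
        have h13 := Nat.mul_le_mul_left c (show 2 * f ≤ e by omega)
        rw [hf, mul_add] at h2
        exact ⟨m % c + c * f, l, by rw [mul_left_comm] at h13; omega, le_rfl, by omega⟩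
  · obtain rfl := hc' he
    simp only [Adm, he, false_imp_iff, not_false_iff, true_imp_iff, true_and, and_true]
    constructor
    · intro H
      obtain ⟨k', j', h6, h7, h8⟩ := H _ _ _ h1 h4 rfl
      have h9 := key k' j' h8
      exact ⟨Nat.le_of_not_lt fun h => hΩ (by rw [Nat.mod_eq_of_lt h] at h9; omega), by omega⟩
    · rintro ⟨h6, h7⟩ k j l h9 - rfl
      have h10 : n % (2 * i) ≤ k := by
        rw [← h9, Nat.add_mul_mod_self_left]; exact Nat.mod_le _ _
      by_cases h12 : m / i ≤ l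
      · exact ⟨m % i, m / i, by omega, h12, h2⟩
      · have h13 := Nat.mul_le_mul_left i (not_le.mp h12).le
        rw [mul_assoc] at h9
        exact ⟨m - i * l, l, by omega, le_rfl, by omega⟩

theorem nd_arith {fx : Prop} {c n m N : ℕ} (hc : 0 < c) (hmd : m ≤ n) (hΩ : ¬ m ≤ n % c) :
    (∀ k j l, k + c * j = n → j ≠ 0 → Adm fx (N + 1) j l →
      ∃ k' ≤ k, ∃ j' ≤ j, k' + c * j' = m) ↔ c ≤ m ∧ m % c ≤ n % c := by
  rw [and_iff_right_of_imp (a := c ≤ m) fun h : m % c ≤ n % c => Nat.le_of_not_lt fun h1 =>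
    hΩ (by rwa [Nat.mod_eq_of_lt h1] at h),
    ← forall_exists_sub_iff hc hmd]
  refine ⟨fun H k j h => ?_, fun H k j l h _ _ => H k j h⟩
  by_cases hj : j = 0
  · subst hj
    exact ⟨m, by omega, 0, le_rfl, rfl⟩
  by_cases hf : fx
  · exact H k j (j / 2) h hj ⟨fun _ => by omega, fun h => absurd hf h⟩
  · exact H k j j h hj ⟨fun h => absurd h hf, fun _ => rfl⟩

variable {F : Type u} [Field F] {σ : F →+* F} {V : Type v} [AddCommGroup V] [Module F V]
  [FiniteDimensional F V] {B : V →ₛₗ[σ] V →ₗ[F] F} {ε : F} [Fintype F] (p : ℕ) [Fact p.Prime]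
  [CharP F p] {r : ℕ} [Fact r.Prime] {fx : Prop} {b c : ℕ}

omit [FiniteDimensional F V] in
theorem CycD.exists_succ (hD : CycD σ ε r fx b c) (hrp : r ≠ p) : ∃ N, (r - 1) / b = N + 1 :=
  Nat.exists_eq_add_one.mpr (hD.card_eq p hrp ▸ (cycFactors_nonempty p hrp).card_pos)

theorem HA.forall_ts_iff (h : HA B ε) (hD : CycD σ ε r fx b c) (hrp : r ≠ p) {m : ℕ}
    (hm : 2 * m ≤ finrank F V) (hΩ : ¬ 2 * m ≤ finrank F V % c) :
    (∀ g : End F V, (∀ u v, B (g u) (g v) = B u v) → g ^ r = 1 → g ≠ 1 →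
      ∃ U : Submodule F V, finrank F U = m ∧ TotIso B U ∧ U.map g ≤ U) ↔
    b ≤ m ∧ 2 * (m % b) ≤ finrank F V % c ∧ (fx → (r - 1) / b + 2 * (m / b) ≤ finrank F V / b) := by
  obtain ⟨N, hN⟩ := hD.exists_succ p hrp
  exact (h.forall_iff p hD hrp _ (fun k _ l => ∃ k' j', 2 * k' ≤ k ∧ j' ≤ l ∧ k' + b * j' = m)
    fun g A C j l _ _ hA => h.ts_iff hA m).trans
    (ts_arith (hD.pos' p hrp).1 hD.pos hD.neg hm (by omega) hΩ)

theorem HA.forall_nd_iff (h : HA B ε) (hD : CycD σ ε r fx b c) (hrp : r ≠ p) {m : ℕ}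
    (hm : m ≤ finrank F V) (hΩ : ¬ m ≤ finrank F V % c)
    (he : σ = RingHom.id F → Even m ∧ Even c) :
    (∀ g : End F V, (∀ u v, B (g u) (g v) = B u v) → g ^ r = 1 → g ≠ 1 →
      ∃ U : Submodule F V, finrank F U = m ∧ NondegOn B U ∧ U.map g ≤ U) ↔
    c ≤ m ∧ m % c ≤ finrank F V % c := by
  obtain ⟨N, hN⟩ := hD.exists_succ p hrp
  rw [h.forall_iff p hD hrp _ (fun k j _ => ∃ k' ≤ k, ∃ j' ≤ j, k' + c * j' = m)
    fun g A C j l _ _ hA => (h.nd_iff hA m).trans (exists_congr fun k' => and_congr_right fun _ =>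
      exists_congr fun j' => and_congr_right fun _ => and_iff_left_of_imp fun h1 h2 => by
        have := (he h2).1
        rwa [← h1, Nat.even_add, iff_true_right ((he h2).2.mul_right _)] at this), hN]
  exact nd_arith (hD.pos' p hrp).2 hm hΩ

theorem inv_smul_of_map {Φ : Submodule F V → Prop} (z : F) (g : End F V) (hz : z ≠ 0)
    (h : ∃ U, Φ U ∧ U.map (z • g) ≤ U) : ∃ U, Φ U ∧ U.map g ≤ U := by
  simpa only [map_smul_eq hz] using h

end Cfsg.Lib.Known
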