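import Mathlib
import Cfsg.Agent.Known.ElusSp
import Cfsg.Agent.Known.ElusAr
import Cfsg.Agent.Known.SylHomo
import Cfsg.Agent.Class.SpStab

/-!
Elements of prime order of symplectic groups permuting a decomposition.
-/

namespace Cfsg.Lib.Known

open Module Polynomial Cfsg.Lib.Class Cfsg.Lib.Class.Form

universe u v

variable {F : Type u} [Field F] {σ : F →+* F} {V : Type v} [AddCommGroup V] [Module F V] {ε : F}
  {g : End F V}

theorem HForm.injective_of_isom {B : V →ₛₗ[σ] V →ₗ[F] F} (h : HForm B ε)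
    (hg : ∀ u v, B (g u) (g v) = B u v) : Function.Injective g :=
  (injective_iff_map_eq_zero g).mpr fun v hv => h.sep v fun w => by rw [← hg, hv]; simp

theorem inv_of_sq_inv {r : ℕ} (hr : Odd r) (h : g ^ r = 1) {U : Submodule F V}
    (hU : ∀ v ∈ U, g (g v) ∈ U) : ∀ v ∈ U, g v ∈ U := by
  obtain ⟨k, rfl⟩ := hr
  have h1 : ∀ n : ℕ, ∀ v ∈ U, ((g ^ 2) ^ n) v ∈ U := fun n => by
    induction n with
    | zero => exact fun v hv => hv
    | succ n ih => exact fun v hv => by rw [pow_succ, End.mul_apply, pow_two]; exact ih _ (hU v hv)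
  intro v hv
  have := h1 (k + 1) v hv
  rwa [← pow_mul, show 2 * (k + 1) = 2 * k + 1 + 1 by ring, pow_succ, h, one_mul] at this

variable [FiniteDimensional F V]

theorem map_eq_of_inv (hg : Function.Injective g) {U : Submodule F V} (hU : ∀ v ∈ U, g v ∈ U) :
    U.map g = U :=
  Submodule.eq_of_le_of_finrank_eq (map_le_iff_forall.mpr hU)
    (Submodule.equivMapOfInjective g hg U).finrank_eq.symm

theorem sum_finrank_le_of_iSupIndep {ι : Type*} [Fintype ι] {D : ι → Submodule F V}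
    (hi : iSupIndep D) {A : Submodule F V} (h : ∀ j, D j ≤ A) :
    ∑ j, finrank F (D j) ≤ finrank F A := by
  classical
  rw [← Module.finrank_directSum, ← LinearMap.finrank_range_of_inj (f := DirectSum.coeLinearMap D)
    hi.dfinsupp_lsum_injective, DirectSum.range_coeLinearMap]
  exact Submodule.finrank_mono (iSup_le h)

section

variable {B : V →ₛₗ[σ] V →ₗ[F] F} [Fintype F] (p : ℕ) [Fact p.Prime] [CharP F p] {r : ℕ}
  [Fact r.Prime] {fx : Prop} {b c : ℕ}

theorem HA.exists_ordR (h : HA B ε) (hD : CycD σ ε r fx b c) (hrp : r ≠ p) {k j l : ℕ}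
    (hn : k + c * j = finrank F V) (ha : Adm fx ((r - 1) / b) j l) :
    ∃ (g : End F V) (A C : Submodule F V), (∀ u v, B (g u) (g v) = B u v) ∧ g ^ r = 1 ∧
      OrdR B g b c A C j l ∧ finrank F A = k := by
  obtain ⟨m, h1, h2⟩ := hD.exists_of_adm p hrp (hD.card_eq p hrp ▸ ha)
  obtain ⟨g, hg, he⟩ := h.exists_of_md p hD hrp h1 h2 hn
  obtain ⟨h3, A, C, h4⟩ := hD.ordR_of_md p hrp h.toHForm hg he h1 h2
  exact ⟨g, A, C, hg, h3, h4⟩

theorem CycD.exists_adm (hD : CycD σ ε r fx b c) (hrp : r ≠ p) (j : ℕ) :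
    ∃ l, Adm fx ((r - 1) / b) j l := by
  obtain ⟨N, hN⟩ := hD.exists_succ p hrp
  by_cases h : fx
  · exact ⟨j / 2, fun _ => by omega, fun h' => absurd h h'⟩
  · exact ⟨j, fun h' => absurd h' h, fun _ => rfl⟩

theorem HA.pdec_of_mod (h : HA B ε) (hD : CycD σ ε r fx b c) (hrp : r ≠ p)
    (hg : ∀ u v, B (g u) (g v) = B u v) (hr : g ^ r = 1) {a t : ℕ} (hV : finrank F V = a * t)
    (hm : a * t % c = t * (a % c)) (he : σ = RingHom.id F → Even a ∧ Even c) : PDec B g a t := by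
  have hc := (hD.pos' p hrp).2
  refine PDec.of_step (ε := ε) (t₀ := t) (fun V _ _ B g => HA B ε ∧
      (∀ u v, B (g u) (g v) = B u v) ∧ g ^ r = 1) (fun V _ _ B g h => ⟨h.1.toHForm, h.2.1⟩)
    (fun V _ _ B g U hU h hn => ⟨⟨h.1.toHForm.restrict hn, h.1.kind.imp_right fun h =>
      ⟨h.1, h.2.1, fun v => h.2.2 v⟩⟩, fun _ _ => h.2.1 _ _, by
        rw [End.pow_restrict]; exact LinearMap.ext fun v => Subtype.ext (by simp [h.2.2])⟩)
    ?_ t V B g ⟨h, hg, hr⟩ le_rfl hV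
  rintro V _ _ _ B g s ⟨h, hg, hr⟩ hs hV
  obtain ⟨A, C, j, l, hA, -⟩ := hD.exists_ordR p hrp h.toHForm hg hr
  have h1 := hA.finrank_add
  rw [hA.rank, hV] at h1
  have h2 : (s + 1) * (a % c) < c :=
    (Nat.mul_le_mul_right _ hs).trans_lt (hm ▸ Nat.mod_lt _ hc)
  obtain ⟨k', h3, j', h4, h5⟩ := (forall_exists_sub_iff (m := a) hc
    (Nat.le_mul_of_pos_right a s.succ_pos)).mpr (by
      rw [mul_comm a, ← Nat.mul_mod_mod, Nat.mod_eq_of_lt h2]
      exact Nat.le_mul_of_pos_left _ s.succ_pos) _ _ h1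
  obtain ⟨U, h6, h7, h8⟩ := (h.nd_iff hA a).mpr ⟨k', h3, j', h4, h5, fun h6 => by
    have := (he h6).1
    rwa [← h5, Nat.even_add, iff_true_right ((he h6).2.mul_right _)] at this⟩
  exact ⟨U, map_le_iff_forall.mp h8, 1, h7, one_ne_zero, by omega, PDec.one _ _ h6⟩

omit [Fact p.Prime] in
theorem OrdR.perm_cases [Fact p.Prime] (hrp : r ≠ p) {A C : Submodule F V} {j l : ℕ}
    (hA : OrdR B g b c A C j l) (hr : g ^ r = 1) {a t : ℕ} (ha : 0 < a)
    {D : Fin t → Submodule F V} (hi : iSupIndep D) (hd : ∀ i, finrank F (D i) = a)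
    (hn : ∀ i, NondegOn B (D i)) {τ : Equiv.Perm (Fin t)} (hτ : ∀ i, ∀ v ∈ D i, g v ∈ D (τ i)) :
    (a ≤ finrank F A ∧ a * (r - 1) ≤ c * j) ∨
      ∃ κ μ : Fin t → ℕ, (∀ i, κ i + c * μ i = a) ∧ ∑ i, κ i ≤ finrank F A := by
  by_cases hs : ∀ i, τ i = i
  · simp only [hs] at hτ
    choose μ _ hμ using fun i => hA.nd_of (D i ⊓ C) inf_le_right (inv_inf (hτ i) hA.inv)
      (hA.nondegOn_inf (hτ i) (hn i)).2
    exact Or.inr ⟨fun i => finrank F ↥(D i ⊓ A), μ, fun i => by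
      rw [← hμ, hA.finrank_inf (hτ i), hd],
      sum_finrank_le_of_iSupIndep (hi.mono fun _ => inf_le_left) fun _ => inf_le_right⟩
  push Not at hs
  obtain ⟨i, hs⟩ := hs
  have h1 := fun f hf => mul_le_finrank_ker_aeval hi (fun i => ne_bot_of_finrank (hd i) ha) hτ
    one_ne_zero (hr.trans (one_smul F _).symm) hs (f := f) hf
  rw [hd] at h1
  refine Or.inl ⟨?_, ?_⟩
  · have := h1 (X - 1) (by simpa using sub_one_dvd_pow_sub_one _ _)
    rwa [natDegree_X_sub_one, mul_one, map_sub, aeval_X, map_one, hA.ker_eq] at this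
  · have := h1 (cyclotomic r F) (cyclotomic.dvd_X_pow_sub_one r F)
    rw [natDegree_cyclotomic, Nat.totient_prime Fact.out] at this
    refine this.trans (hA.rank ▸ Submodule.finrank_mono (hA.ker_aeval_le ?_))
    rw [eval_one_cyclotomic_prime, Ne, CharP.cast_eq_zero_iff F p,
      Nat.prime_dvd_prime_iff_eq Fact.out Fact.out]
    exact hrp.symm

end

variable {B : LinearMap.BilinForm F V} [Fintype F]

theorem exists_nd_of_invol_of_ne [CharP F 2] (h : HForm (σ := RingHom.id F) B ε)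
    (hg : ∀ u v, B (g u) (g v) = B u v) (hs : g ^ 2 = 1) {x : V} (hx : B x (g x) ≠ B x x)
    {k₁ k₂ : ℕ} (he : elDiv g =
      (Multiset.replicate k₁ 1 + Multiset.replicate k₂ 2).map fun e => (X - C 1, e)) {b : ℕ}
    (hb : b ≤ k₂) : ∃ (U : Submodule F V) (hU : ∀ v ∈ U, g v ∈ U),
      NondegOn (σ := RingHom.id F) B U ∧
        elDiv (g.restrict hU) = Multiset.replicate b (X - C 1, 2) := by
  have hw : WallData (σ := RingHom.id F) B ε g 1 := ⟨h, hg, one_mul 1, rfl⟩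
  have h1 : ((g - (1 : F) • 1 : End F V) ^ (1 + 1)) x = 0 := by
    have h2 : g (g x) = x := by rw [← End.mul_apply, ← pow_two, hs, End.one_apply]
    have h3 : ∀ y : V, y + y = 0 := fun y => by
      rw [← two_smul F, CharTwo.two_eq_zero, zero_smul]
    simp only [pow_succ, pow_zero, one_mul, one_smul, End.mul_apply, LinearMap.sub_apply,
      End.one_apply, map_sub, h2]
    rw [show x - g x - (g x - x) = x + x - (g x + g x) by abel, h3, h3, sub_zero]
  obtain ⟨L, h2, h3⟩ := (hw.hform_layB 1).exists_nondeg_of_ne (x := layPr _ 1 x) (k := b) (by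
      rw [hw.layB_layPr h1 h1]
      simpa [sub_eq_zero] using hx) (by
    rw [finrank_lay_eq_count, he, count_map_X_sub_C]
    simpa [Multiset.count_replicate] using hb)
  obtain ⟨U, hU, h4, -, h5⟩ := hw.exists_block 1 rfl h2
  exact ⟨U, hU, h4, h3 ▸ h5⟩

theorem HA.pdec_of_sq (h : HA (σ := RingHom.id F) B (-1)) (hg : ∀ u v, B (g u) (g v) = B u v)
    (hs : g ^ 2 = 1 ∨ g ^ 2 = (-1 : F) • 1) {a t : ℕ} (hV : finrank F V = a * t) (he : Even a) :
    PDec (σ := RingHom.id F) B g a t := by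
  refine PDec.of_step (ε := -1) (t₀ := t) (fun V _ _ B g => HA (σ := RingHom.id F) B (-1) ∧
      (∀ u v, B (g u) (g v) = B u v) ∧ (g ^ 2 = 1 ∨ g ^ 2 = (-1 : F) • 1))
    (fun V _ _ B g h => ⟨h.1.toHForm, h.2.1⟩)
    (fun V _ _ B g U hU h hn => ⟨⟨h.1.toHForm.restrict hn, h.1.kind.imp_right fun h =>
      ⟨h.1, h.2.1, fun v => h.2.2 v⟩⟩, fun _ _ => h.2.1 _ _, by
        rw [End.pow_restrict]
        exact h.2.2.imp (fun h => LinearMap.ext fun v => Subtype.ext (by simp [h]))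
          fun h => LinearMap.ext fun v => Subtype.ext (by simp [h])⟩)
    ?_ t V B g ⟨h, hg, hs⟩ le_rfl hV
  rintro V _ _ _ B g s ⟨h, hg, hs⟩ - hV
  have h0 : a ≤ a * (s + 1) := Nat.le_mul_of_pos_right a s.succ_pos
  by_cases h2 : (2 : F) = 0
  swap
  · obtain ⟨U, h3, h4, h5⟩ := h.exists_nd_of_sq_smul h2 hg hs (hV ▸ h0) he
    exact ⟨U, map_le_iff_forall.mp h5, 1, h4, one_ne_zero, by omega, PDec.one _ _ h3⟩
  have : CharP F 2 := CharTwo.of_one_ne_zero_of_two_eq_zero one_ne_zero h2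
  have h1 : g ^ 2 = 1 := hs.elim id fun h => by rw [h, CharTwo.neg_eq, one_smul]
  obtain ⟨k₁, k₂, h3, -, h4⟩ := elDiv_of_invol h1
  obtain ⟨a, rfl⟩ := he
  obtain ⟨n, hn⟩ := h.even rfl
  have key : ∀ α β, α ≤ k₁ → β ≤ k₂ → α + 2 * β = a + a → Even β ∨ β = k₂ →
      ∃ (U : Submodule F V) (hU : ∀ v ∈ U, g v ∈ U) (s' : ℕ), NondegOn B U ∧ s' ≠ 0 ∧
        s' ≤ s + 1 ∧ PDec (restr B U) (g.restrict hU) (a + a) s' := fun α β h5 h6 h7 h8 => by
    obtain ⟨U, hU, h9, h10, -⟩ := exists_nd_of_invol h.toHForm hg h4 h5 h6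
      (Or.inl (Nat.even_iff.mpr (by omega))) h8
    exact ⟨U, hU, 1, h9, one_ne_zero, by omega, PDec.one _ _ (h10.trans h7)⟩
  by_cases h5 : k₂ ≤ a
  · exact key (a + a - 2 * k₂) k₂ (by omega) le_rfl (by omega) (Or.inr rfl)
  rcases Nat.even_or_odd a with ha | ha
  · exact key 0 a zero_le (by omega) (by omega) (Or.inl ha)
  rw [Nat.odd_iff] at ha
  by_cases h6 : 2 ≤ k₁
  · exact key 2 (a - 1) h6 (by omega) (by omega) (Or.inl (Nat.even_iff.mpr (by omega)))
  have hA := (h.kind.resolve_left fun h => h.1 rfl).2.2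
  by_cases h7 : ∀ v, B v (g v) = 0
  swap
  · push Not at h7
    obtain ⟨x, hx⟩ := h7
    obtain ⟨U, hU, h7, h8⟩ := exists_nd_of_invol_of_ne h.toHForm hg h1 (by rwa [hA]) h4
      (b := a) (by omega)
    exact ⟨U, hU, 1, h7, one_ne_zero, by omega, PDec.one _ _ (by
      rw [finrank_eq_elDeg_restrict hU, h8, elDeg_replicate, natDegree_X_sub_C]; omega)⟩
  obtain _ | s := s
  · omega
  obtain ⟨U, hU, h8, h9, h10⟩ := exists_nd_of_invol h.toHForm hg h4 zero_le (b := a + a)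
    (by nlinarith) (Or.inl Even.zero) (Or.inl ⟨a, rfl⟩)
  have h11 : g.restrict hU ^ 2 = 1 := by
    rw [End.pow_restrict]; exact LinearMap.ext fun v => Subtype.ext (by simp [h1])
  refine ⟨U, hU, 2, h8, two_ne_zero, by omega, (h.restrict h8).exists_swap (fun _ _ => hg _ _) h11
    (fun v => h7 v) (by omega) ⟨a, rfl⟩ ?_⟩
  obtain ⟨l₁, l₂, -, h12, h13⟩ := elDiv_of_invol h11
  classical
  have := congrArg (Multiset.count (X - C 1, 2)) (h13.symm.trans h10)
  rw [count_map_X_sub_C, count_map_X_sub_C] at this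
  simpa [Multiset.count_replicate, h12] using this

theorem HA.exists_pair_of_sq (h : HA (σ := RingHom.id F) B (-1)) (h2 : (2 : F) ≠ 0)
    (hg : ∀ u v, B (g u) (g v) = B u v) (hs : g ^ 2 = 1 ∨ g ^ 2 = (-1 : F) • 1) :
    ∃ U W : Submodule F V, IsCompl U W ∧ TotIso (σ := RingHom.id F) B U ∧
      TotIso (σ := RingHom.id F) B W ∧
        ((U.map g = U ∧ W.map g = W) ∨ (U.map g = W ∧ W.map g = U)) := by
  have hi := h.toHForm.injective_of_isom hg
  rcases hs with hs | hs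
  · obtain ⟨A, C, hA⟩ := exists_fixSp_of_sq h.toHForm h2 hg hs
    obtain ⟨h3, h4⟩ := hA.nondegOn h.toHForm
    obtain ⟨U, U', rfl, h5, h6⟩ := h.exists_isCompl_totIso h3 ((h.restrict h3).even rfl)
    obtain ⟨W, W', rfl, h7, h8⟩ := h.exists_isCompl_totIso h4 ((h.restrict h4).even rfl)
    have h9 := hA.totIso_sup le_sup_left le_sup_left h5 h7
    have h10 := hA.totIso_sup le_sup_right le_sup_right h6 h8
    exact ⟨_, _, h.toHForm.isCompl_of_sup (by rw [sup_sup_sup_comm, hA.isCompl.sup_eq_top]) h9 h10,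
      h9, h10, Or.inl ⟨map_eq_of_inv hi
        (inv_sup (hA.inv_of_le le_sup_left) (hA.inv_of_sq hs le_sup_left)), map_eq_of_inv hi
        (inv_sup (hA.inv_of_le le_sup_right) (hA.inv_of_sq hs le_sup_right))⟩⟩
  have hr := rig_of_sq_neg (ε := -1) h2 (by simp) hs
  by_cases h3 : IsSquare (-1 : F)
  · obtain ⟨u, h4, -⟩ := ordR_of_sq_neg_of_isSquare h.toHForm h2 (by simp) hg hs h3
    obtain ⟨U, W, h5, h6, h7, h8, h9, -⟩ := hr.exists_isCompl_totIso h.toHForm hg h4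
    exact ⟨U, W, h5, h6, h7, Or.inl ⟨map_eq_of_inv hi h8, map_eq_of_inv hi h9⟩⟩
  obtain ⟨g', hg', hs', U, h4, h5⟩ := h.exists_sq_neg
  obtain ⟨j, h6, h7⟩ := elDiv_of_sq_neg h2 hs h3
  obtain ⟨j', h8, h9⟩ := elDiv_of_sq_neg h2 hs' h3
  obtain rfl : j = j' := by omega
  obtain ⟨y, h10, h11⟩ := (rig_of_sq_neg (ε := -1) h2 (by simp) hs').exists_isometry h.toHForm
    h.toHForm hg' hg (h8.trans h6.symm)
  have h12 := isom_map_totIso (σ := RingHom.id F) h10 h4
  have h13 : TotIso (σ := RingHom.id F) B ((U.map y.toLinearMap).map g) := by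
    rintro _ ⟨u, hu, rfl⟩ _ ⟨v, hv, rfl⟩
    exact (hg u v).trans (h12 u hu v hv)
  refine ⟨_, _, h.toHForm.isCompl_of_sup ?_ h12 h13, h12, h13, Or.inr ⟨rfl, ?_⟩⟩
  · rw [← Submodule.map_comp, show g ∘ₗ y.toLinearMap = y.toLinearMap ∘ₗ g' from
      LinearMap.ext fun v => (h11 v).symm, Submodule.map_comp, ← Submodule.map_sup, h5,
      Submodule.map_top, LinearEquiv.range]
  · rw [← Submodule.map_comp, show g ∘ₗ g = (-1 : F) • 1 from (pow_two g).symm.trans hs,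
      map_smul_eq (by simp), End.one_eq_id, Submodule.map_id]

theorem card_lagPair (hB : B.Nondegenerate) (hA : B.IsAlt) {d : ℕ} (hd : finrank F V = 2 * d)
    {r : ℕ} (hr : r.Prime) (hq : ¬ r ∣ Fintype.card F)
    (h : r ∣ Nat.card {P : Submodule F V × Submodule F V // LagPair B P.1 P.2}) :
    ∃ k, 0 < k ∧ k ≤ d ∧ r ∣ Fintype.card F ^ k + 1 := by
  obtain ⟨U, W, h1, h2, h3⟩ := (ha_of_isAlt hB hA).exists_isCompl_totIso
    (ha_of_isAlt hB hA).nondegOn_top (by rw [finrank_top, hd]; exact even_two_mul d)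
  have h4 : LagPair B U W := ⟨h2, h3, (ha_of_isAlt hB hA).toHForm.isCompl_of_sup h1 h2 h3⟩
  have h5 := card_mul_card_of_trans (SpB B) (stabSub U ⊓ stabSub W ⊓ SpB B)
    (fun g (P : Submodule F V × Submodule F V) => (P.1.map g.toLinearMap, P.2.map g.toLinearMap))
    (fun P => by simp [LinearEquiv.coe_toLinearMap_one])
    (fun a b P => by simp [← Submodule.map_comp]; exact ⟨rfl, rfl⟩)
    (fun P => LagPair B P.1 P.2) (U, W) (fun P => ⟨fun hP => by
      obtain ⟨g, hg, -, h6, h7⟩ := h4.exists_extend hB hA hP (LinearEquiv.ofFinrankEq _ _ (by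
        have := (h4.finrank_eq hB).1
        have := (hP.finrank_eq hB).1
        omega))
      exact ⟨g, hg, Prod.ext h6 h7⟩, by
        rintro ⟨g, hg, rfl⟩
        exact ⟨isom_map_totIso (σ := RingHom.id F) hg h2, isom_map_totIso (σ := RingHom.id F) hg h3,
          (Submodule.orderIsoMapComap g).isCompl h4.compl⟩⟩)
    fun g => by simp [mem_stabSub_iff_map, and_comm]
  obtain ⟨e⟩ := h4.nonempty_stab_equiv hB hA
  rw [Nat.card_congr e.toEquiv, card_linearEquiv_self (k := d) (by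
    have := (h4.finrank_eq hB).1; omega), card_SpB hB hA hd, SylH.prod_gl_eq, spOrd] at h5
  set q := Fintype.card F
  have h6 : ∏ i ∈ Finset.range d, (q ^ (2 * (i + 1)) - 1) = (∏ i ∈ Finset.range d,
      (q ^ (i + 1) + 1)) * ∏ i ∈ Finset.range d, (q ^ (i + 1) - 1) := by
    rw [← Finset.prod_mul_distrib]
    exact Finset.prod_congr rfl fun i _ => by rw [mul_comm 2, pow_mul, Nat.sq_sub_sq _ 1]
  rw [h6, ← mul_assoc, ← mul_assoc, Nat.mul_left_inj (Finset.prod_ne_zero_iff.mpr fun i _ =>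
    Nat.sub_ne_zero_of_lt (Nat.one_lt_pow i.succ_ne_zero Fintype.one_lt_card))] at h5
  obtain ⟨i, hi, h7⟩ := (Nat.Prime.prime hr).exists_mem_finset_dvd
    ((hr.dvd_mul.mp (h5 ▸ h.mul_right _)).resolve_left fun h => hq (hr.dvd_of_dvd_pow h))
  exact ⟨i + 1, i.succ_pos, Finset.mem_range.mp hi, h7⟩

theorem even_orderOf_of_dvd {q r k : ℕ} [Fact r.Prime] (hr2 : r ≠ 2) (hk : 0 < k)
    (h : r ∣ q ^ k + 1) : Even (orderOf (q : ZMod r)) ∧ orderOf (q : ZMod r) ≤ 2 * k := by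
  have h1 : (q : ZMod r) ^ k = -1 := by
    have := (ZMod.natCast_eq_zero_iff _ _).mpr h
    push_cast at this
    exact eq_neg_of_add_eq_zero_left this
  have h2 : orderOf (q : ZMod r) ∣ 2 * k :=
    orderOf_dvd_of_pow_eq_one (by rw [mul_comm, pow_mul, h1, neg_one_sq])
  refine ⟨?_, Nat.le_of_dvd (by omega) h2⟩
  by_contra h3
  have h4 := orderOf_dvd_iff_pow_eq_one.mp
    ((Nat.coprime_two_right.mpr (Nat.not_even_iff_odd.mp h3)).dvd_of_dvd_mul_left h2)
  have : Fact (2 < r) := ⟨lt_of_le_of_ne (Fact.out : r.Prime).two_le hr2.symm⟩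
  exact ZMod.neg_one_ne_one (h1.symm.trans h4)

end Cfsg.Lib.Known
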