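import Mathlib
import Cfsg.Agent.Known.ElusSp2

/-!
Elements of norm one of `F_{q²}` and their `r`-th roots.
-/

namespace Cfsg.Lib.Known

open Module Polynomial Cfsg.Lib.Class Cfsg.Lib.Class.Form

universe u

variable {F : Type u} [Field F] [Fintype F] {q r : ℕ}

theorem frobq_mul_self (hF : Fintype.card F = q ^ 2) (z : F) : frobq hF z * z = z ^ (q + 1) := by
  rw [frobq_apply, pow_succ]

theorem card_ker_pow_succ (hF : Fintype.card F = q ^ 2) :
    Nat.card (powMonoidHom (q + 1) : Fˣ →* Fˣ).ker = q + 1 := by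
  rw [IsCyclic.card_powMonoidHom_ker, card_units_eq, hF, Nat.gcd_eq_right_iff_dvd,
    show q ^ 2 - 1 = (q + 1) * (q - 1) from Nat.sq_sub_sq q 1]
  exact dvd_mul_right _ _

omit [Fintype F] in
theorem exists_ker_pow_succ {z : F} (hz : z ^ (q + 1) = 1) :
    ∃ c : (powMonoidHom (q + 1) : Fˣ →* Fˣ).ker, ((c : Fˣ) : F) = z :=
  ⟨⟨Units.mk0 z fun h => by simp [h] at hz, Units.ext (by simpa using hz)⟩, rfl⟩

omit [Fintype F] in
theorem ker_pow_succ (c : (powMonoidHom (q + 1) : Fˣ →* Fˣ).ker) : ((c : Fˣ) : F) ^ (q + 1) = 1 := by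
  simpa using congrArg Units.val c.2

variable [Fact r.Prime]

theorem exists_norm_pow_of_not_dvd (hF : Fintype.card F = q ^ 2) (hr : ¬ r ∣ q + 1) {z : F}
    (hz : z ^ (q + 1) = 1) : ∃ a : F, a ^ (q + 1) = 1 ∧ a ^ r = z := by
  obtain ⟨c, rfl⟩ := exists_ker_pow_succ hz
  obtain ⟨b, rfl⟩ := exists_pow_eq_of_not_dvd (r := r) (by rwa [card_ker_pow_succ hF]) c
  exact ⟨_, ker_pow_succ b, by simp⟩

theorem exists_norm_pow_of_pow_eq_one (hF : Fintype.card F = q ^ 2) {z : F}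
    (hz : z ^ (q + 1) = 1) {j : ℕ} (hj : j ≠ 0) (h : z ^ j = 1)
    (hv : padicValNat r j < padicValNat r (q + 1)) : ∃ a : F, a ^ (q + 1) = 1 ∧ a ^ r = z := by
  obtain ⟨c, rfl⟩ := exists_ker_pow_succ hz
  obtain ⟨b, rfl⟩ := exists_pow_eq_of_pow_eq_one (r := r) (c := c) hj
    (Subtype.ext (Units.ext (by simpa using h))) (by rwa [card_ker_pow_succ hF])
  exact ⟨_, ker_pow_succ b, by simp⟩

theorem exists_norm_not_pow (hF : Fintype.card F = q ^ 2) (hr : r ∣ q + 1) :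
    ∃ z : F, z ^ (q + 1) = 1 ∧ (∀ a : F, a ^ (q + 1) = 1 → a ^ r ≠ z) ∧
      z ^ r ^ padicValNat r (q + 1) = 1 := by
  obtain ⟨c, h1, h2⟩ := exists_not_pow (C := (powMonoidHom (q + 1) : Fˣ →* Fˣ).ker) (r := r)
    (by rwa [card_ker_pow_succ hF])
  rw [card_ker_pow_succ hF] at h2
  refine ⟨_, ker_pow_succ c, fun a ha h => ?_,
    by simpa using congrArg (fun c => ((Subtype.val c : Fˣ) : F)) h2⟩
  obtain ⟨b, rfl⟩ := exists_ker_pow_succ ha
  exact h1 b (Subtype.ext (Units.ext (by simpa using h)))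

omit [Fintype F] in
theorem eq_one_of_norm_of_pow (hr : ¬ r ∣ q + 1) {z : F} (hz : z ^ (q + 1) = 1) (h : z ^ r = 1) :
    z = 1 := by
  simpa [((Fact.out : r.Prime).coprime_iff_not_dvd.mpr hr).gcd_eq_one] using
    (pow_gcd_eq_one.mpr ⟨h, hz⟩ : z ^ r.gcd (q + 1) = 1)

omit [Fact r.Prime] in
theorem odd_of_card_sq (hF : Fintype.card F = q ^ 2) (h2 : (2 : F) ≠ 0) : Odd q := by
  by_contra h
  obtain ⟨k, rfl⟩ := Nat.not_odd_iff_even.mp h
  have h3 := FiniteField.odd_card_of_char_ne_two (F := F) fun h =>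
    h2 (by simpa [h] using ringChar.Nat.cast_ringChar (R := F))
  rw [hF, ← two_mul, mul_pow] at h3
  omega

omit [Fact r.Prime] in
theorem exists_norm_sq_neg_iff (hF : Fintype.card F = q ^ 2) (h2 : (2 : F) ≠ 0) :
    (∃ a : F, a ^ (q + 1) = 1 ∧ a ^ 2 = -1) ↔ q % 4 = 3 := by
  have hq := Nat.odd_iff.mp (odd_of_card_sq hF h2)
  constructor
  · rintro ⟨a, h1, h3⟩
    by_contra h4
    rw [show q + 1 = 2 * (2 * (q / 4) + 1) by omega, pow_mul, h3, (odd_two_mul_add_one _).neg_one_pow,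
      neg_eq_iff_add_eq_zero, one_add_one_eq_two] at h1
    exact h2 h1
  · intro h
    refine exists_norm_pow_of_pow_eq_one hF (Even.neg_one_pow ⟨(q + 1) / 2, by omega⟩) two_ne_zero
      neg_one_sq ?_
    rw [padicValNat_self]
    exact (padicValNat_dvd_iff_le (p := 2) (n := 2) (by omega)).mp (by omega)

omit [Fact r.Prime] in
theorem exists_norm_pow_eq_neg_iff (hF : Fintype.card F = q ^ 2) (h2 : (2 : F) ≠ 0) {n : ℕ}
    (hn : n ≠ 0) : (∃ a : F, a ^ (q + 1) = 1 ∧ a ^ n = -1) ↔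
      padicValNat 2 n < padicValNat 2 (q + 1) := by
  have h3 : (-1 : F) ≠ 1 := fun h => h2 (by linear_combination -h)
  constructor
  · rintro ⟨a, h4, h5⟩
    by_contra h6
    obtain ⟨k, m, hm, h7⟩ := Nat.exists_eq_two_pow_mul_odd q.succ_ne_zero
    obtain ⟨l, hl⟩ : 2 ^ k ∣ n := (padicValNat_dvd_iff_le hn).mpr
      (((padicValNat_dvd_iff_le q.succ_ne_zero).mp ⟨m, h7⟩).trans (not_lt.mp h6))
    have h8 := congrArg (· ^ m) h5
    simp only [hm.neg_one_pow, ← pow_mul] at h8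
    rw [hl, mul_right_comm, ← h7, pow_mul, h4, one_pow] at h8
    exact h3 h8.symm
  · intro h
    obtain ⟨k, m, hm, rfl⟩ := Nat.exists_eq_two_pow_mul_odd hn
    rw [padicValNat.mul (by simp) hm.pos.ne', padicValNat.prime_pow,
      padicValNat.eq_zero_of_not_dvd hm.not_two_dvd_nat] at h
    have h4 : 2 ^ (k + 1) ∣ q + 1 := (padicValNat_dvd_iff_le q.succ_ne_zero).mpr h
    obtain ⟨a, -, ha⟩ := exists_orderOf_eq_of_dvd_add_one hF h4
    refine ⟨a, orderOf_dvd_iff_pow_eq_one.mp (ha ▸ h4), ?_⟩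
    rw [pow_mul, (sq_eq_one_iff.mp (show (a ^ 2 ^ k) ^ 2 = 1 by
      rw [← pow_mul, ← pow_succ, ← ha, pow_orderOf_eq_one])).resolve_left
      (pow_ne_one_of_lt_orderOf (by simp) (ha ▸ Nat.pow_lt_pow_right one_lt_two k.lt_succ_self)),
      hm.neg_one_pow]

/-- All scalars `z` of norm one with `((-1) ^ (r + 1) z) ^ (n / r) = 1` have an `r`-th root of
norm one. -/
def USplit (r q n : ℕ) : Prop :=
  padicValNat r n ≤ padicValNat r (q + 1) ∧ (r = 2 → Even n → q % 4 = 3)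

theorem not_uSplit_of_not_pow (hF : Fintype.card F = q ^ 2) (h2 : r = 2 → (2 : F) ≠ 0) {z : F}
    (hz : z ^ (q + 1) = 1) (hc : ∀ a : F, a ^ (q + 1) = 1 → a ^ r ≠ z) {j : ℕ} (hj : j ≠ 0)
    (h : ((-1) ^ (r + 1) * z) ^ j = 1) : r ∣ q + 1 ∧ ¬ USplit r q (r * j) := by
  have hr : r.Prime := Fact.out
  have h0 : r ∣ q + 1 := by
    by_contra h1
    obtain ⟨a, h3, h4⟩ := exists_norm_pow_of_not_dvd hF h1 hz
    exact hc a h3 h4
  refine ⟨h0, fun ⟨h1, h3⟩ => ?_⟩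
  rw [padicValNat.mul hr.ne_zero hj, padicValNat_self] at h1
  rcases hr.eq_two_or_odd' with rfl | ho
  · obtain ⟨u, h4, h5⟩ := (exists_norm_sq_neg_iff hF (h2 rfl)).mpr (h3 rfl (even_two_mul j))
    obtain ⟨b, h6, h7⟩ := exists_norm_pow_of_pow_eq_one (r := 2) hF (by
      rw [mul_pow, hz, ← pow_mul, mul_one]
      exact ((even_iff_two_dvd.mpr h0).mul_left _).neg_one_pow) hj h (by omega)
    exact hc (u * b) (by rw [mul_pow, h4, h6, one_mul]) (by rw [mul_pow, h5, h7]; ring)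
  · rw [ho.add_one.neg_one_pow, one_mul] at h
    obtain ⟨b, h6, h7⟩ := exists_norm_pow_of_pow_eq_one (r := r) hF hz hj h (by omega)
    exact hc b h6 h7

theorem exists_not_pow_of_not_uSplit (hF : Fintype.card F = q ^ 2) (h2 : r = 2 → (2 : F) ≠ 0)
    (hi : r ∣ q + 1) {n : ℕ} (hn : n ≠ 0) (h : ¬ USplit r q n) :
    ∃ (z : F) (j : ℕ), n = r * j ∧ z ^ (q + 1) = 1 ∧ (∀ a : F, a ^ (q + 1) = 1 → a ^ r ≠ z) ∧
      ((-1) ^ (r + 1) * z) ^ j = 1 := by
  have hr : r.Prime := Fact.out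
  by_cases h4 : r = 2 ∧ Even n ∧ q % 4 ≠ 3
  · obtain ⟨rfl, ⟨j, hj⟩, h4⟩ := h4
    exact ⟨-1, j, by omega, (even_iff_two_dvd.mpr hi).neg_one_pow,
      fun b h5 hb => h4 ((exists_norm_sq_neg_iff hF (h2 rfl)).mp ⟨b, h5, hb⟩), by norm_num⟩
  have h1 : padicValNat r (q + 1) < padicValNat r n := by
    by_contra h1
    exact h ⟨by omega, fun h2 h3 => by_contra fun h5 => h4 ⟨h2, h3, h5⟩⟩
  obtain ⟨c, hc0, hc, hc1⟩ := exists_norm_not_pow hF hi
  obtain ⟨j, hj⟩ : r ^ (padicValNat r (q + 1) + 1) ∣ n := (padicValNat_dvd_iff_le hn).mpr h1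
  have h5 : ((-1 : F) ^ (r + 1)) ^ (q + 1) = 1 := by
    rw [← pow_mul]
    rcases hr.eq_two_or_odd' with rfl | ho
    · exact ((even_iff_two_dvd.mpr hi).mul_left _).neg_one_pow
    · exact (ho.add_one.mul_right _).neg_one_pow
  refine ⟨(-1) ^ (r + 1) * c, r ^ padicValNat r (q + 1) * j, by rw [hj]; ring,
    by rw [mul_pow, h5, hc0, one_mul], fun b h6 hb => ?_, ?_⟩
  · rcases hr.eq_two_or_odd' with rfl | ho
    · obtain ⟨u, h7, h8⟩ := (exists_norm_sq_neg_iff hF (h2 rfl)).mpr (by_contra fun h5 =>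
        h4 ⟨rfl, by rw [hj, pow_succ', mul_assoc]; exact even_two_mul _, h5⟩)
      exact hc (u * b) (by rw [mul_pow, h7, h6, one_mul]) (by rw [mul_pow, h8, hb]; ring)
    · rw [ho.add_one.neg_one_pow, one_mul] at hb
      exact hc b h6 hb
  · rw [← mul_assoc, ← pow_add, Even.neg_one_pow ⟨_, rfl⟩, one_mul, pow_mul, hc1, one_pow]

theorem not_pow_of_not_norm_pow (hr2 : r ≠ 2) (hi : r ∣ q + 1)
    (hF : Fintype.card F = q ^ 2) {z : F} (hz : z ^ (q + 1) = 1)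
    (hc : ∀ a : F, a ^ (q + 1) = 1 → a ^ r ≠ z) (b : F) : b ^ r ≠ z := by
  rintro rfl
  have hq := two_le_of_card_sq hF
  have hb : b ≠ 0 := by rintro rfl; simp [(Fact.out : r.Prime).ne_zero] at hz
  refine hc b (eq_one_of_norm_of_pow (q := q - 2) (r := r) (fun h => hr2 ?_) ?_
    (by rw [← pow_mul, mul_comm, pow_mul, hz])) rfl
  · exact (Nat.prime_dvd_prime_iff_eq Fact.out Nat.prime_two).mp
      ((show q + 1 - (q - 2 + 1) = 2 by omega) ▸ Nat.dvd_sub hi h)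
  · rw [← pow_mul, show q - 2 + 1 = q - 1 by omega, ← Nat.sq_sub_sq q 1, ← hF]
    exact FiniteField.pow_card_sub_one_eq_one b hb

omit [Fact r.Prime] in
theorem isSquare_of_norm (hF : Fintype.card F = q ^ 2) (h2 : (2 : F) ≠ 0) {z : F}
    (hz : z ^ (q + 1) = 1) : IsSquare z := by
  obtain ⟨k, rfl⟩ := odd_of_card_sq hF h2
  rw [FiniteField.isSquare_iff (fun h => h2 (by simpa [h] using ringChar.Nat.cast_ringChar (R := F)))
    (fun h => by simp [h] at hz), hF, show (2 * k + 1) ^ 2 / 2 = (2 * k + 1 + 1) * k by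
      rw [show (2 * k + 1) ^ 2 = 2 * ((2 * k + 1 + 1) * k) + 1 by ring]; omega, pow_mul, hz, one_pow]

omit [Field F] [Fintype F] in
theorem orderOf_eq_two_iff_dvd (hr2 : r ≠ 2) : orderOf (q : ZMod r) = 2 ↔ r ∣ q + 1 := by
  have : Fact (2 < r) := ⟨lt_of_le_of_ne (Fact.out : r.Prime).two_le hr2.symm⟩
  rw [← ZMod.natCast_eq_zero_iff, Nat.cast_add, Nat.cast_one, add_eq_zero_iff_eq_neg,
    orderOf_eq_prime_iff, sq_eq_one_iff]
  exact ⟨fun h => h.1.resolve_left h.2, fun h => ⟨Or.inr h, h ▸ ZMod.neg_one_ne_one⟩⟩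

omit [Field F] [Fintype F] in
theorem dvd_of_neg_pow_eq_one (hr2 : r ≠ 2) {i c e : ℕ} (hi : i = orderOf (q : ZMod r))
    (hc : c = if i % 4 = 0 then i else if i % 4 = 2 then i / 2 else 2 * i)
    (h : (q : ZMod r) ^ e = (-1) ^ e) : c ∣ e := by
  have : Fact (2 < r) := ⟨lt_of_le_of_ne (Fact.out : r.Prime).two_le hr2.symm⟩
  rcases Nat.even_or_odd e with he | he
  · have h1 : i ∣ e := hi ▸ orderOf_dvd_of_pow_eq_one (h.trans he.neg_one_pow)
    rw [hc]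
    split_ifs with h2 h3
    · exact h1
    · exact (Nat.div_dvd_of_dvd (by omega)).trans h1
    · exact lcm_two_dvd (if_neg (Nat.not_even_iff_odd.mpr (Nat.odd_iff.mpr (by omega)))).symm h1 he
  · rw [he.neg_one_pow] at h
    have h1 : i ∣ 2 * e := hi ▸ orderOf_dvd_of_pow_eq_one (by rw [mul_comm, pow_mul, h, neg_one_sq])
    have h2 : ¬ i ∣ e := fun h2 =>
      ZMod.neg_one_ne_one (h.symm.trans (orderOf_dvd_iff_pow_eq_one.mp (hi ▸ h2)))
    obtain ⟨k, rfl⟩ : 2 ∣ i := by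
      by_contra h3
      exact h2 ((Nat.coprime_two_right.mpr (Nat.odd_iff.mpr (by omega))).dvd_of_dvd_mul_left h1)
    have h3 := Nat.dvd_of_mul_dvd_mul_left two_pos h1
    have h4 := Nat.odd_iff.mp (he.of_dvd_nat h3)
    rwa [hc, if_neg (by omega), if_pos (by omega), Nat.mul_div_cancel_left _ two_pos]

variable (p : ℕ) [Fact p.Prime] [CharP F p]

theorem orderOf_ne_zero_of_card_sq (hF : Fintype.card F = q ^ 2) (hrp : r ≠ p) :
    orderOf (q : ZMod r) ≠ 0 := by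
  have := orderOf_card_pos (K := F) p hrp
  rw [hF, Nat.cast_pow, orderOf_pos_iff] at this
  exact (orderOf_pos_iff.mpr (this.of_pow two_ne_zero)).ne'

theorem cycD_frob (hF : Fintype.card F = q ^ 2) (hrp : r ≠ p) (hr2 : r ≠ 2) {i b c : ℕ}
    (hi : i = orderOf (q : ZMod r)) (hb : b = if Even i then i / 2 else i)
    (hc : c = if i % 4 = 0 then i else if i % 4 = 2 then i / 2 else 2 * i) :
    CycD (frobq hF) 1 r (i % 4 = 2) b c := by
  refine ⟨frobq_frobq hF, Or.inl ⟨frobq_ne_id hF, rfl⟩, hr2, fun x hx => ?_, fun x hx => ?_,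
    fun h => by rw [hc, hb, if_neg (by omega), if_pos h, if_pos (Nat.even_iff.mpr (by omega))],
    fun h => ?_⟩
  · rw [natDegree_of_mem_cycFactors p hrp hx, hF, Nat.cast_pow, orderOf_pow' _ two_ne_zero, ← hi, hb]
    split_ifs with h
    · rw [Nat.gcd_eq_right (even_iff_two_dvd.mp h)]
    · rw [(Nat.coprime_two_right.mpr (Nat.not_even_iff_odd.mp h)).gcd_eq_one, Nat.div_one]
  · obtain ⟨h1, h2, h3, h4⟩ := mem_cycFactors.mp hx
    obtain ⟨f, -, hf⟩ := FiniteField.card F p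
    obtain ⟨k, -, hk⟩ := (Nat.dvd_prime_pow Fact.out).mp
      (hf ▸ hF ▸ dvd_pow_self q two_ne_zero : q ∣ p ^ (f : ℕ))
    rw [hi, ← exists_dvd_sq_pow_mul_add_one_iff hr2 (orderOf_ne_zero_of_card_sq p hF hrp), dualED,
      Prod.ext_iff, and_iff_left rfl, dualPoly_eq_self_iff_of_dvd_cyclotomic p k
        (fun x => by rw [frobq_apply, hk]) (natCast_prime_ne_zero p hrp) h1 h2 h3, hF, hk]
  · rw [hc, hb, if_neg h]
    split_ifs with h1 h2 h2
    · omega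
    · exact absurd (Nat.even_iff.mpr (by omega)) h2
    · rw [Nat.even_iff] at h2; omega
    · rfl

end Cfsg.Lib.Known
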