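import Mathlib
import Cfsg.Agent.Known.ElusNorm

/-!
Elements of prime order of `PSU`: reduction to isometries of order `r` and to the non-split classes.
-/

namespace Cfsg.Lib.Known

open Module Polynomial Cfsg.Lib.Class Cfsg.Lib.Class.Form

universe u v

variable {F : Type u} [Field F] {σ : F →+* F} {V : Type v} [AddCommGroup V] [Module F V] {ε : F}
  {g : End F V}

theorem map_val_eq_of_invol {α : Type*} {τ : α → α} {s : Finset α}
    (h : ∀ x ∈ s, τ x ∈ s ∧ τ (τ x) = x) : s.val.map τ = s.val :=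
  (Multiset.Nodup.ext (s.nodup.map_on fun x hx y hy e => by
    rw [← (h x hx).2, e, (h y hy).2]) s.nodup).mpr fun x =>
    ⟨fun hx => by
      obtain ⟨y, hy, rfl⟩ := Multiset.mem_map.mp hx
      exact (h y hy).1, fun hx => Multiset.mem_map.mpr ⟨τ x, (h x hx).1, (h x hx).2⟩⟩

theorem tDet_map_dualED {s : Multiset (F[X] × ℕ)} (hs : IsElDivs s) (hX : ∀ x ∈ s, x.1 ≠ X) :
    tDet (s.map (dualED σ)) * σ (tDet s) = 1 := by
  have h1 : σ ((elProd s).coeff 0) ≠ 0 := (map_ne_zero σ).mpr (hs.forall_ne_X_iff.mp hX)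
  rw [tDet, tDet, hs.elDeg_map_dualED hX, elProd_map_dualED, coeff_zero_dualPoly hs.monic_elProd,
    map_mul, map_pow, map_neg, map_one, mul_mul_mul_comm, inv_mul_cancel₀ h1, ← mul_pow]
  simp

theorem dualPoly_X_pow_sub_C {r : ℕ} (hr : r ≠ 0) {z : F} (hz : σ z * z = 1) :
    dualPoly σ (X ^ r - C z : F[X]) = X ^ r - C z := by
  have h0 : σ z ≠ 0 := left_ne_zero_of_mul_eq_one hz
  rw [dualPoly_eq_self_iff (natDegree_X_pow_sub_C)]
  intro i hi
  simp only [coeff_sub, coeff_X_pow, coeff_C, if_neg hr.symm, if_true, zero_sub, map_neg]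
  by_cases h1 : i = 0
  · simp [h1, hr, hr.symm, inv_eq_of_mul_eq_one_right hz]
  by_cases h2 : i = r
  · simp [h2, hr, hr.symm, h0]
  · simp [h1, h2, show r - i ≠ r by omega, show r - i ≠ 0 by omega]

theorem eq_X_sub_C_of_dvd {f : F[X]} (h1 : f.Monic) (h2 : Irreducible f) {b : F}
    (h : f ∣ X ^ 2 - C (b * b)) : ∃ a : F, a * a = b * b ∧ f = X - C a := by
  rw [show (X ^ 2 - C (b * b) : F[X]) = (X - C b) * (X - C (-b)) by
    simp only [map_mul, map_neg]; ring] at h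
  exact (h2.prime.dvd_or_dvd h).elim (fun h => ⟨b, rfl, eq_of_monic_of_associated h1
    (monic_X_sub_C _) (h2.associated_of_dvd (irreducible_X_sub_C _) h)⟩) fun h =>
    ⟨-b, by simp, eq_of_monic_of_associated h1 (monic_X_sub_C _)
      (h2.associated_of_dvd (irreducible_X_sub_C _) h)⟩

variable [FiniteDimensional F V]

theorem det_eq_mul_of_isCompl {U W : Submodule F V} (hc : IsCompl U W) (hU : ∀ v ∈ U, g v ∈ U)
    (hW : ∀ v ∈ W, g v ∈ W) :
    LinearMap.det g = LinearMap.det (g.restrict hU) * LinearMap.det (g.restrict hW) := by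
  rw [det_eq_tDet_End, elDiv_eq_add_of_isCompl hc hU hW, tDet_add, ← det_eq_tDet_End,
    ← det_eq_tDet_End]

section

variable {B : V →ₛₗ[σ] V →ₗ[F] F} {A C : Submodule F V}

theorem FixSp.det_of_sq (h : FixSp B g A C) (hs : g ^ 2 = 1) :
    LinearMap.det g = (-1) ^ finrank F C := by
  rw [det_eq_mul_of_isCompl h.isCompl (h.inv_of_le le_rfl) h.inv,
    show g.restrict (h.inv_of_le le_rfl) = 1 from
      LinearMap.ext fun v => Subtype.ext ((h.mem v).mp v.2),
    show g.restrict h.inv = (-1 : F) • 1 from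
      LinearMap.ext fun v => Subtype.ext (by simpa using h.neg_of_sq hs v v.2)]
  simp

omit [FiniteDimensional F V] in
theorem FixSp.ne_smul (h : FixSp B g A C) (hA : A ≠ ⊥) (hC : C ≠ ⊥) (z : F) : g ≠ z • 1 := by
  rintro rfl
  obtain ⟨u, h1, h2⟩ := Submodule.exists_mem_ne_zero_of_ne_bot hA
  obtain ⟨v, h3, h4⟩ := Submodule.exists_mem_ne_zero_of_ne_bot hC
  obtain rfl : z = 1 := smul_left_injective F h2 (((h.mem u).mp h1).trans (one_smul F u).symm)
  exact h4 (h.free v h3 (by simp))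

theorem HA.ts_iff_of_sq [Finite F] (h : HA B ε) (hA : FixSp B g A C) (hs : g ^ 2 = 1) (m : ℕ) :
    (∃ U : Submodule F V, finrank F U = m ∧ TotIso B U ∧ U.map g ≤ U) ↔
      ∃ a c, 2 * a ≤ finrank F A ∧ 2 * c ≤ finrank F C ∧ a + c = m := by
  constructor
  · rintro ⟨U, rfl, h1, h2⟩
    obtain ⟨h3, h4⟩ := hA.nondegOn h.toHForm
    exact ⟨_, _, h.two_mul_le_of_le (U := U ⊓ A) h3 (fun u hu v hv => h1 u hu.1 v hv.1) inf_le_right,
      h.two_mul_le_of_le (U := U ⊓ C) h4 (fun u hu v hv => h1 u hu.1 v hv.1) inf_le_right,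
      hA.finrank_inf (map_le_iff_forall.mp h2)⟩
  · rintro ⟨a, c, h1, h2, rfl⟩
    exact h.exists_ts_of_sq hA hs h1 h2

theorem HA.exists_invol [Finite F] (h : HA B ε) (hσ : σ ≠ RingHom.id F) (h2 : (2 : F) ≠ 0)
    {k j : ℕ} (hn : k + j = finrank F V) : ∃ (g : End F V) (A C : Submodule F V),
      (∀ u v, B (g u) (g v) = B u v) ∧ g ^ 2 = 1 ∧ FixSp B g A C ∧ finrank F A = k ∧
        finrank F C = j := by
  have h1 : ∀ x ∈ Multiset.replicate k ((X - 1 : F[X]), 1) + Multiset.replicate j (X - C (-1), 1),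
      ∃ l : F, l * l = 1 ∧ σ l = l ∧ x = (X - C l, 1) := fun x hx =>
    (Multiset.mem_add.mp hx).elim (fun hx => ⟨1, by simp, by simp, Multiset.eq_of_mem_replicate hx⟩)
      fun hx => ⟨-1, by simp, by simp, Multiset.eq_of_mem_replicate hx⟩
  obtain ⟨g, hg, he⟩ := h.exists_of_type (fun x hx => by
      obtain ⟨l, -, -, rfl⟩ := h1 x hx
      exact ⟨monic_X_sub_C l, irreducible_X_sub_C l, one_pos⟩) (fun x hx => by
      obtain ⟨l, hl, -, rfl⟩ := h1 x hx
      simpa using left_ne_zero_of_mul_eq_one hl) (map_eq_self_of_forall fun x hx => by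
      obtain ⟨l, hl, hl', rfl⟩ := h1 x hx
      rw [dualED, dualPoly_X_sub_C (left_ne_zero_of_mul_eq_one hl), hl',
        inv_eq_of_mul_eq_one_right hl])
    (by rw [elDeg_add, elDeg_replicate, elDeg_replicate, natDegree_X_sub_one, natDegree_X_sub_C]
        omega) fun h => absurd h hσ
  have hs : g ^ 2 = 1 := (pow_eq_smul_of_forall_dvd (c := 1) fun x hx => by
    obtain ⟨l, hl, -, rfl⟩ := h1 x (he ▸ hx)
    rw [pow_one, dvd_iff_isRoot]
    simp [pow_two, hl]).trans (one_smul _ _)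
  obtain ⟨A, C, hA⟩ := exists_fixSp_of_sq h.toHForm h2 hg hs
  have h3 := (hA.elDiv_eq he fun hx => h2 (by
    have := congrArg (fun x => x.1.eval 1) (Multiset.eq_of_mem_replicate hx)
    simpa [one_add_one_eq_two] using this.symm)).1
  have := hA.finrank_add
  exact ⟨g, A, C, hg, hs, hA, h3, by omega⟩

omit [FiniteDimensional F V] in
/-- The invariant subspaces of an isometry whose `r`-th power is a scalar without `r`-th root of
norm one. -/
def NS (B : V →ₛₗ[σ] V →ₗ[F] F) (g : End F V) (r j : ℕ) : Prop :=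
  (r = 2 → OrdR B g 1 2 ⊥ ⊤ j j ∧ ∃ u, elDiv g = u + u.map (dualED σ)) ∧
    (r ≠ 2 → OrdR B g r r ⊥ ⊤ j (j / 2))

end

variable [Fintype F] {q : ℕ} {hF : Fintype.card F = q ^ 2} {B : V →ₛₗ[frobq hF] V →ₗ[F] F}
  (p : ℕ) [Fact p.Prime] [CharP F p] {r : ℕ} [Fact r.Prime]

omit [FiniteDimensional F V] [Fact p.Prime] [Fact r.Prime] in
theorem forall_SU_iff {n : ℕ} (hF : Fintype.card F = q ^ 2) (r : ℕ)
    (Φ : End F (Fin n → F) → Prop) :
    (∀ x : Matrix.SpecialLinearGroup (Fin n) F, x ∈ SU n F q →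
      (∃ z : F, ((x ^ r : Matrix.SpecialLinearGroup (Fin n) F) : Matrix (Fin n) (Fin n) F) =
        z • 1) → (∀ z : F, (x : Matrix (Fin n) (Fin n) F) ≠ z • 1) →
      Φ (Matrix.toLin' (x : Matrix (Fin n) (Fin n) F))) ↔
    ∀ g : End F (Fin n → F), (∀ u v, hermSesq hF n (g u) (g v) = hermSesq hF n u v) →
      LinearMap.det g = 1 → (∃ z : F, g ^ r = z • 1) → (∀ z : F, g ≠ z • 1) → Φ g := by
  have := forall_SL_iff r fun g : End F (Fin n → F) =>
    (∀ u v, hermSesq hF n (g u) (g v) = hermSesq hF n u v) → Φ g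
  simp only [hermSesq_apply, Matrix.toLin'_apply] at this ⊢
  exact ⟨fun h g h1 h2 h3 h4 => this.mp (fun x h1 h2 h3 => h x ((mem_SU n q x).mpr
      fun u v => h3 v u) h1 h2) g h2 h3 h4 h1,
    fun h x h1 h2 h3 => this.mpr (fun g h1 h2 h3 h4 => h g h4 h1 h2 h3) x h2 h3
      fun u v => (mem_SU n q x).mp h1 v u⟩

theorem HA.nonsplit (h : HA B 1) (hrp : r ≠ p) (hg : ∀ u v, B (g u) (g v) = B u v) {z : F}
    (hs : g ^ r = z • 1) (hz : z ^ (q + 1) = 1) (hi : r ∣ q + 1)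
    (hc : ∀ a : F, a ^ (q + 1) = 1 → a ^ r ≠ z) : ∃ j, finrank F V = r * j ∧
      LinearMap.det g = ((-1) ^ (r + 1) * z) ^ j ∧ NS B g r j := by
  have hz0 : z ≠ 0 := fun h => by simp [h] at hz
  have h1 := isSemisimple_of_pow_eq_smul (natCast_prime_ne_zero p hrp) hz0 hs
  have hr : Rig (frobq hF) 1 (elDiv g) := Or.inl ⟨frobq_ne_id hF, rfl⟩
  by_cases hr2 : r = 2
  · subst hr2
    obtain ⟨b, rfl⟩ := isSquare_of_norm hF (two_ne_zero_of_ne p hrp.symm) hz
    have h2 : ∀ x ∈ elDiv g, ∃ a : F, a * a = b * b ∧ a ≠ 0 ∧ x = (X - C a, 1) ∧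
        dualED (frobq hF) x = (X - C (-a), 1) := fun x hx => by
      obtain ⟨h3, h4, h5⟩ := isElDivs_elDiv g x hx
      have h6 := forall_dvd_of_pow_eq_smul hs x hx
      have h7 := snd_eq_one_of_dvd p hrp hz0 h4 h5 h6
      rw [h7, pow_one] at h6
      obtain ⟨a, h8, h9⟩ := eq_X_sub_C_of_dvd h3 h4 h6
      have ha : a ≠ 0 := by rintro rfl; exact hz0 (by simp [← h8])
      refine ⟨a, h8, ha, Prod.ext h9 h7, Prod.ext ?_ h7⟩
      rw [dualED_fst, h9, dualPoly_X_sub_C ha, inv_eq_of_mul_eq_one_right (b := -a)]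
      rw [← h8, mul_pow, mul_self_eq_one_iff] at hz
      rw [mul_neg, frobq_mul_self, hz.resolve_left fun h => hc a h ((pow_two a).trans h8), neg_neg]
    obtain ⟨u, h3, h4⟩ := exists_ordR_free h.toHForm hg h1 hr (b := 1) fun x hx => by
      obtain ⟨a, -, ha, rfl, h5⟩ := h2 x hx
      refine ⟨by simp, fun h6 => two_ne_zero_of_ne (F := F) p hrp.symm ?_⟩
      have := congrArg Prod.fst (h5.symm.trans h6)
      rw [sub_right_inj, C_inj] at this
      exact (mul_eq_zero.mp (show 2 * a = 0 by linear_combination -this)).resolve_right ha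
    refine ⟨u.card, (finrank_top F V).symm.trans h4.rank, ?_,
      fun _ => ⟨h4, u, h3⟩, fun h => absurd rfl h⟩
    have h5 : ∀ x ∈ u, x ∈ elDiv g := fun x hx => h3 ▸ Multiset.mem_add.mpr (Or.inl hx)
    rw [det_eq_tDet_End, h3]
    clear h3 h4
    induction u using Multiset.induction_on with
    | empty => simp [tDet_zero]
    | cons x u ih =>
      obtain ⟨a, h6, -, rfl, h7⟩ := h2 x (h5 x (Multiset.mem_cons_self _ _))
      have := ih fun y hy => h5 y (Multiset.mem_cons_of_mem hy)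
      rw [tDet_add] at this
      rw [Multiset.map_cons, h7, tDet_add, tDet_cons, tDet_cons (X - C (-a), 1), tDet_X_sub_C,
        tDet_X_sub_C, Multiset.card_cons, mul_mul_mul_comm, this, ← h6]
      ring
  obtain ⟨j, h2, h3⟩ := elDiv_of_pow_eq_not_pow p hrp (not_pow_of_not_norm_pow hr2 hi hF hz hc) hs
  refine ⟨j, h3, by rw [det_eq_tDet_End, h2, tDet_replicate_X_pow_sub_C
    (Fact.out : r.Prime).ne_zero], fun h => absurd h hr2, fun _ => ?_⟩
  have := exists_ordR_replicate h.toHForm hg h1 hr h2 fun h => (Fact.out : r.Prime).ne_one (by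
    simpa [natDegree_X_sub_one] using congrArg (fun x => x.1.natDegree) h)
  simpa using this

theorem HA.exists_nonsplit (h : HA B 1) (hrp : r ≠ p) {z : F} (hz : z ^ (q + 1) = 1)
    (hi : r ∣ q + 1) (hc : ∀ a : F, a ^ (q + 1) = 1 → a ^ r ≠ z) {j : ℕ}
    (hj : finrank F V = r * j) : ∃ g : End F V, (∀ u v, B (g u) (g v) = B u v) ∧ g ^ r = z • 1 := by
  have hz0 : z ≠ 0 := fun h => by simp [h] at hz
  rw [← frobq_mul_self hF] at hz
  suffices ∃ s : Multiset (F[X] × ℕ), IsElDivs s ∧ s.map (dualED (frobq hF)) = s ∧ elDeg s = r ∧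
      ∀ x ∈ s, x.1 ^ x.2 ∣ X ^ r - C z by
    obtain ⟨s, h1, h2, h3, h4⟩ := this
    obtain ⟨g, hg, he⟩ := h.exists_of_type (s := j • s)
      (fun x hx => h1 x (Multiset.mem_of_mem_nsmul hx)) (fun x hx h5 => by
        have h6 := Multiset.mem_of_mem_nsmul hx
        have := (dvd_pow_self _ (h1 x h6).2.2.ne').trans (h4 x h6)
        rw [h5, X_dvd_iff] at this
        exact hz0 (by simpa [(Fact.out : r.Prime).ne_zero.symm] using this))
      (map_dualED_nsmul h2 j) (by rw [elDeg_nsmul, h3, hj, mul_comm])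
      fun h => absurd h (frobq_ne_id hF)
    exact ⟨g, hg, pow_eq_smul_of_forall_dvd fun x hx => h4 x (Multiset.mem_of_mem_nsmul (he ▸ hx))⟩
  by_cases hr2 : r = 2
  · subst hr2
    obtain ⟨b, rfl⟩ := isSquare_of_norm hF (two_ne_zero_of_ne p hrp.symm)
      ((frobq_mul_self hF z).symm.trans hz)
    have hb : b ≠ 0 := by rintro rfl; simp at hz0
    have h1 : IsElDivs {((X - C b : F[X]), 1)} := fun x hx => by
      rw [Multiset.mem_singleton.mp hx]
      exact ⟨monic_X_sub_C _, irreducible_X_sub_C _, one_pos⟩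
    have h2 : ∀ x ∈ ({((X - C b : F[X]), 1)} : Multiset (F[X] × ℕ)), x.1 ≠ X := by simpa using hb
    refine ⟨_, h1.add (h1.map_dualED (frobq_frobq hF) h2), by
      rw [Multiset.map_add, h1.map_dualED_map_dualED (frobq_frobq hF) h2, add_comm], by
      rw [elDeg_add, h1.elDeg_map_dualED h2]; simp [elDeg], ?_⟩
    have h3 : (frobq hF b)⁻¹ ^ 2 = b * b := by
      rw [inv_pow, pow_two, ← map_mul, inv_eq_of_mul_eq_one_right hz]
    simp [dualED, dualPoly_X_sub_C hb, dvd_iff_isRoot, h3, pow_two b, -inv_pow, -frobq_apply]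
  refine ⟨{(X ^ r - C z, 1)}, fun x hx => ?_, ?_, by simp [elDeg], by simp⟩
  · rw [Multiset.mem_singleton.mp hx]
    exact ⟨monic_X_pow_sub_C z (Fact.out : r.Prime).ne_zero, (X_pow_sub_C_irreducible_iff_of_prime
      Fact.out).mpr (not_pow_of_not_norm_pow hr2 hi hF ((frobq_mul_self hF z).symm.trans hz) hc),
      one_pos⟩
  · rw [Multiset.map_singleton, dualED, dualPoly_X_pow_sub_C (Fact.out : r.Prime).ne_zero hz]

omit [Fact r.Prime] in
theorem HForm.det_pow_succ (h : HForm B ε) (hg : ∀ u v, B (g u) (g v) = B u v) :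
    LinearMap.det g ^ (q + 1) = 1 := (frobq_mul_self hF _).symm.trans (h.norm_det_of_isometry hg)

theorem HA.forall_su_iff_of_not_dvd (h : HA B 1) [Nontrivial V] (hi : ¬ r ∣ q + 1)
    (Φ : End F V → Prop) (hΦ : ∀ (z : F) g, z ≠ 0 → Φ (z • g) → Φ g) :
    (∀ g : End F V, (∀ u v, B (g u) (g v) = B u v) → LinearMap.det g = 1 →
      (∃ z : F, g ^ r = z • 1) → (∀ z : F, g ≠ z • 1) → Φ g) ↔
      ∀ g : End F V, (∀ u v, B (g u) (g v) = B u v) → g ^ r = 1 → g ≠ 1 → Φ g := by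
  constructor
  · intro H g hg h1 h2
    refine H g hg (eq_one_of_norm_of_pow hi (h.det_pow_succ hg) (by rw [← map_pow, h1, map_one]))
      ⟨1, by rw [h1, one_smul]⟩ fun z hz => h2 ?_
    have h3 := h.norm_of_pow_eq hg (k := 1) (by rw [pow_one, hz])
    rw [hz, _root_.smul_pow, one_pow] at h1
    rw [hz, eq_one_of_norm_of_pow hi ((frobq_mul_self hF z).symm.trans h3)
      (smul_left_injective F one_ne_zero (h1.trans (one_smul F _).symm)), one_smul]
  · rintro H g hg - ⟨z, hz⟩ h2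
    obtain ⟨a, h3, rfl⟩ := exists_norm_pow_of_not_dvd hF hi
      ((frobq_mul_self hF z).symm.trans (h.norm_of_pow_eq hg hz))
    have ha : a ≠ 0 := fun h => by simp [h] at h3
    refine hΦ a⁻¹ g (inv_ne_zero ha) (H _ (isom_smul hg (by rw [frobq_mul_self, inv_pow, h3, inv_one]))
      (by rw [_root_.smul_pow, hz, smul_smul, ← mul_pow, inv_mul_cancel₀ ha, one_pow, one_smul])
      fun h => h2 a (by rw [← h, smul_smul, mul_inv_cancel₀ ha, one_smul]))

theorem HA.forall_su_iff (h : HA B 1) [Nontrivial V] (hrp : r ≠ p) (hi : r ∣ q + 1)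
    (Φ : End F V → Prop) (hΦ : ∀ (z : F) g, z ≠ 0 → Φ (z • g) → Φ g) {Ψ : Prop}
    (hΨ : ∀ g j, (∀ u v, B (g u) (g v) = B u v) → finrank F V = r * j → NS B g r j → (Φ g ↔ Ψ)) :
    (∀ g : End F V, (∀ u v, B (g u) (g v) = B u v) → LinearMap.det g = 1 →
      (∃ z : F, g ^ r = z • 1) → (∀ z : F, g ≠ z • 1) → Φ g) ↔
      (∀ g : End F V, (∀ u v, B (g u) (g v) = B u v) → (∃ a : F, a ^ (q + 1) = 1 ∧
        a ^ finrank F V * LinearMap.det g = 1) → g ^ r = 1 → (∀ z : F, g ≠ z • 1) → Φ g) ∧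
        (USplit r q (finrank F V) ∨ Ψ) := by
  have h2 : r = 2 → (2 : F) ≠ 0 := fun h => two_ne_zero_of_ne p (h ▸ hrp.symm)
  have hV := (Module.finrank_pos (R := F) (M := V)).ne'
  constructor
  · refine fun H => ⟨fun g hg ⟨a, h3, h4⟩ h5 h6 => ?_, or_iff_not_imp_left.mpr fun h3 => ?_⟩
    · have ha : a ≠ 0 := fun h => by simp [h] at h3
      exact hΦ a g ha (H _ (isom_smul hg (by rw [frobq_mul_self, h3])) (by simpa using h4)
        ⟨a ^ r, by rw [_root_.smul_pow, h5]⟩ fun z hz => h6 (a⁻¹ * z) (by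
          rw [← smul_smul, ← hz, smul_smul, inv_mul_cancel₀ ha, one_smul]))
    obtain ⟨z, j, h4, h5, h6, h7⟩ := exists_not_pow_of_not_uSplit hF h2 hi hV h3
    obtain ⟨g, hg, h8⟩ := h.exists_nonsplit p hrp h5 hi h6 h4
    obtain ⟨j', h9, h10, h11⟩ := h.nonsplit p hrp hg h8 h5 hi h6
    obtain rfl : j = j' := Nat.eq_of_mul_eq_mul_left (Fact.out : r.Prime).pos (h4.symm.trans h9)
    refine (hΨ g j hg h4 h11).mp (H g hg (h10.trans h7) ⟨z, h8⟩ fun a ha => h6 a
      ((frobq_mul_self hF a).symm.trans (h.norm_of_pow_eq hg (k := 1) (by rw [pow_one, ha]))) ?_)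
    rw [ha, _root_.smul_pow, one_pow] at h8
    exact smul_left_injective F one_ne_zero h8
  rintro ⟨H, H'⟩ g hg hd ⟨z, hz⟩ h3
  have h4 := (frobq_mul_self hF z).symm.trans (h.norm_of_pow_eq hg hz)
  by_cases h5 : ∃ a : F, a ^ (q + 1) = 1 ∧ a ^ r = z
  · obtain ⟨a, h5, rfl⟩ := h5
    have ha : a ≠ 0 := fun h => by simp [h] at h5
    exact hΦ a⁻¹ g (inv_ne_zero ha) (H _
      (isom_smul hg (by rw [frobq_mul_self, inv_pow, h5, inv_one])) ⟨a, h5, by simp [hd, ha]⟩
      (by rw [_root_.smul_pow, hz, smul_smul, ← mul_pow, inv_mul_cancel₀ ha, one_pow, one_smul])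
      fun z h => h3 (a * z) (by rw [← smul_smul, ← h, smul_smul, mul_inv_cancel₀ ha, one_smul]))
  push Not at h5
  obtain ⟨j, h6, h7, h8⟩ := h.nonsplit p hrp hg hz h4 hi h5
  exact (hΨ g j hg h6 h8).mpr (H'.resolve_left (h6 ▸ (not_uSplit_of_not_pow hF h2 h4 h5
    (by rintro rfl; exact hV h6) (h7.symm.trans hd)).2))

theorem HA.exists_pairs (h : HA B 1) (hrp : r ≠ p) (hr2 : r ≠ 2) (hi : r ∣ q + 1) {k s : ℕ}
    (hs : 2 * s ≤ r - 1) (hs0 : s ≠ 0) (hn : k + 2 * s = finrank F V) :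
    ∃ (g : End F V) (A C : Submodule F V), (∀ u v, B (g u) (g v) = B u v) ∧
      LinearMap.det g = 1 ∧ g ^ r = 1 ∧ (∀ z : F, g ≠ z • 1) ∧ OrdR B g 1 1 A C (2 * s) 0 ∧
        finrank F A = k := by
  have h1 := (orderOf_eq_two_iff_dvd hr2).mpr hi
  have hD := cycD_frob p hF hrp hr2 (b := 1) (c := 1) h1.symm rfl rfl
  have hD' := cycD_id (F := F) p hrp hr2 (ε := 1) (i := 1) (c := 2) (one_mul 1) (by
    rw [hF, Nat.cast_pow, ← h1, pow_orderOf_eq_one, orderOf_one]) rfl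
  have h2 := fun x hx => dualED_mem_cycFactors (σ := RingHom.id F) p hrp (fun _ => rfl) (x := x) hx
  obtain ⟨w, hw⟩ := exists_half_of_free (map_val_eq_of_invol h2) fun x hx =>
    ⟨fun h => absurd ((hD'.fix x hx).mp h) (by decide), (h2 x hx).2⟩
  have h3 := congrArg Multiset.card hw
  rw [Finset.card_val, hD.card_eq p hrp, Multiset.card_add, Multiset.card_map] at h3
  obtain ⟨t, ht, rfl⟩ := exists_le_card_eq w (k := s) (by omega)
  have h4 : t + t.map (dualED (RingHom.id F)) ≤ (cycFactors F r).val :=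
    hw ▸ add_le_add ht (Multiset.map_le_map ht)
  have h5 : ∀ x ∈ t + t.map (dualED (RingHom.id F)), x ∈ cycFactors F r :=
    fun x hx => Multiset.mem_of_le h4 hx
  have h6 := MD.fixed (σ := frobq hF) (u := 0) (Multiset.nodup_of_le h4 (cycFactors F r).nodup)
    fun x hx => ⟨hD.deg x (h5 x (by simpa using hx)), (hD.fix x (h5 x (by simpa using hx))).mpr rfl⟩
  simp only [zero_add, Multiset.card_zero, Multiset.card_add, Multiset.card_map, mul_zero,
    ← two_mul] at h6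
  obtain ⟨g, hg, he⟩ := h.exists_of_md p hD hrp h5 h6 (k := k) (by omega)
  obtain ⟨h7, A, C, h8, h9⟩ := hD.ordR_of_md p hrp h.toHForm hg he h5 h6
  have h10 := (isElDivs_elDiv g).of_le (he ▸ (Multiset.le_add_right t _).trans
    (Multiset.le_add_left _ _))
  obtain ⟨x, hx⟩ := Multiset.card_pos_iff_exists_mem.mp (Nat.pos_of_ne_zero hs0)
  refine ⟨g, A, C, hg, ?_, h7, ne_smul_of_mem_ne (x := x) (y := dualED (RingHom.id F) x)
    (by simp [he, hx]) (he ▸ Multiset.mem_add.mpr (Or.inr (Multiset.mem_add.mpr (Or.inr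
      (Multiset.mem_map_of_mem _ hx))))) fun h => absurd ((hD'.fix x (h5 x (by simp [hx]))).mp
        h.symm) (by decide), h8, h9⟩
  rw [det_eq_tDet_End, he, tDet_add, tDet_replicate_one, one_mul, tDet_add, mul_comm]
  exact tDet_map_dualED (σ := RingHom.id F) h10 fun x hx => h.ne_X hg x (by simp [he, hx])

theorem HA.fixDec_dvd_frob (h : HA B 1) (hrp : r ≠ p) (hr2 : r ≠ 2) {i c : ℕ}
    (hi : i = orderOf (q : ZMod r))
    (hc : c = if i % 4 = 0 then i else if i % 4 = 2 then i / 2 else 2 * i)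
    (P : Subgroup (V ≃ₗ[F] V)) (A C : Submodule F V) (hP : P ≤ isomGroup B)
    (hp : IsPGroup r P) (hA : FixDec P A C) : c ∣ finrank F C := by
  have h1 := hA.dvd_card hp (fun v => B v v = 1) (by simp) fun g hg v hv => (hP hg v v).trans hv
  have h2 := (normCount_int hF (finrank F C)).2
  rw [← (herm_iff_hform.mpr ⟨h.toHForm.restrict (hA.nondegOn h.toHForm fun _ hg => hP hg).2,
    frobq_ne_id hF⟩).card_norm_eq hF rfl] at h2
  have h3 := congrArg (Int.cast : ℤ → ZMod r) h2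
  push_cast at h3
  rw [show Nat.card {v : C // restr B C v v = 1} = Nat.card {v : C // B v v = 1} from rfl,
    (ZMod.natCast_eq_zero_iff _ _).mpr h1, mul_zero, zero_eq_mul, sub_eq_zero] at h3
  refine dvd_of_neg_pow_eq_one hr2 hi hc (h3.resolve_left (pow_ne_zero _ fun h => ?_))
  exact orderOf_ne_zero_of_card_sq p hF hrp (by rw [h, orderOf_zero])

end Cfsg.Lib.Known
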