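import Mathlib
import Cfsg.Agent.Known.ElusSU

/-!
Pairs of complementary totally isotropic subspaces; indices of subgroups.
-/

namespace Cfsg.Lib.Known

open Module Polynomial Cfsg.Lib.Class Cfsg.Lib.Class.Form

universe u v

theorem relIndex_inf_dvd {G : Type*} [Group G] [Finite G] (H K N : Subgroup G) [N.Normal] :
    H.relIndex (K ⊓ N) ∣ H.relIndex K := by
  obtain ⟨m, hm⟩ := Subgroup.relIndex_dvd_index_of_normal (N.subgroupOf K) (H.subgroupOf K)
  have h1 := Subgroup.relIndex_mul_index (inf_le_right : H.subgroupOf K ⊓ N.subgroupOf K ≤ _)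
  have h2 := Subgroup.relIndex_mul_index (inf_le_left : H.subgroupOf K ⊓ N.subgroupOf K ≤ _)
  rw [Subgroup.inf_relIndex_right] at h1
  rw [Subgroup.inf_relIndex_left, ← h1, hm] at h2
  rw [← Subgroup.relIndex_subgroupOf (inf_le_left : K ⊓ N ≤ K), Subgroup.inf_subgroupOf_left]
  refine ⟨m, Nat.eq_of_mul_eq_mul_left (Nat.pos_of_ne_zero
    (Subgroup.index_ne_zero_of_finite (H := (N.subgroupOf K).subgroupOf (H.subgroupOf K)))) ?_⟩
  exact h2.trans (mul_left_comm _ _ _)

theorem relIndex_mul_card_of_le {G : Type*} [Group G] {H K : Subgroup G} (h : H ≤ K) :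
    H.relIndex K * Nat.card H = Nat.card K := by
  rw [← Nat.card_congr (Subgroup.subgroupOfEquivOfLe h).toEquiv]
  exact Subgroup.index_mul_card _

variable {F : Type u} [Field F] {σ : F →+* F} {V : Type v} [AddCommGroup V] [Module F V] {ε : F}
  {g : End F V} {B : V →ₛₗ[σ] V →ₗ[F] F}

theorem exists_linearEquiv_det [FiniteDimensional F V] [Nontrivial V] {a : F} (ha : a ≠ 0) :
    ∃ φ : V ≃ₗ[F] V, LinearMap.det φ.toLinearMap = a := by
  have : Nonempty (Fin (finrank F V)) := ⟨⟨0, Module.finrank_pos⟩⟩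
  obtain ⟨A, hA⟩ := Matrix.GeneralLinearGroup.det_surjective (n := Fin (finrank F V))
    (Units.mk0 a ha)
  have h := (LinearMap.det_toLin (finBasis F V) A.1).trans (congrArg Units.val hA)
  exact ⟨LinearMap.equivOfDetNeZero _ (h.trans_ne ha), h⟩

theorem forall_GL_iff {n : Type} [Fintype n] [DecidableEq n] (S : Subgroup (GL n F))
    (P : End F (n → F) → Prop) (hS : ∀ x : GL n F, x ∈ S ↔ P (Matrix.toLin' (x : Matrix n n F)))
    (hP : ∀ g, P g → LinearMap.det g ≠ 0) (r : ℕ) (Ψ : GL n F → Prop) (Φ : End F (n → F) → Prop)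
    (hΦ : ∀ x ∈ S, Ψ x ↔ Φ (Matrix.toLin' (x : Matrix n n F))) :
    (∀ x ∈ S, (∃ z : F, ((x ^ r : GL n F) : Matrix n n F) = z • 1) →
      (∀ z : F, (x : Matrix n n F) ≠ z • 1) → Ψ x) ↔
    ∀ g : End F (n → F), P g → (∃ z : F, g ^ r = z • 1) → (∀ z : F, g ≠ z • 1) → Φ g := by
  constructor
  · intro h g hg h1 h2
    obtain ⟨x, rfl⟩ : ∃ x : GL n F, Matrix.toLin' (x : Matrix n n F) = g :=
      ⟨(glLin n F).symm (LinearMap.equivOfDetNeZero g (hP g hg)), by
        rw [← glLin_toLinearMap, MulEquiv.apply_symm_apply]; rfl⟩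
    exact (hΦ x ((hS x).mpr hg)).mp (h x ((hS x).mpr hg)
      (by simpa only [toLin'_pow_eq_smul_one_iff, Units.val_pow_eq_pow_val] using h1)
      (by simpa only [Ne, toLin'_eq_smul_one_iff] using h2))
  · exact fun h x hx h1 h2 => (hΦ x hx).mpr (h _ ((hS x).mp hx)
      (by simpa only [toLin'_pow_eq_smul_one_iff, Units.val_pow_eq_pow_val] using h1)
      (by simpa only [Ne, toLin'_eq_smul_one_iff] using h2))

theorem mem_specialLinear_iff {n : Type} [Fintype n] [DecidableEq n] (x : GL n F) :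
    x ∈ Geo.specialLinear n F ↔ LinearMap.det (Matrix.toLin' (x : Matrix n n F)) = 1 := by
  rw [LinearMap.det_toLin', Geo.specialLinear, MonoidHom.mem_ker, Units.ext_iff]
  rfl

theorem mem_GU_iff [Fintype F] {q n : ℕ} (hF : Fintype.card F = q ^ 2) (x : GL (Fin n) F) :
    x ∈ GU n F q ↔ ∀ u v, hermSesq hF n (Matrix.toLin' (x : Matrix (Fin n) (Fin n) F) u)
      (Matrix.toLin' (x : Matrix (Fin n) (Fin n) F) v) = hermSesq hF n u v := by
  simp only [mem_GU, hermSesq_apply, Matrix.toLin'_apply]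
  exact forall_comm

theorem map_conj_eq_iff {n : Type} [Fintype n] [DecidableEq n] (x g : GL n F)
    (U W : Submodule F (n → F)) :
    U.map (Matrix.toLin' ((g⁻¹ * x * g : GL n F) : Matrix n n F)) = W ↔
      (U.map (glLin n F g).toLinearMap).map (Matrix.toLin' (x : Matrix n n F)) =
        W.map (glLin n F g).toLinearMap := by
  rw [← (Submodule.map_injective_of_injective (glLin n F g).injective).eq_iff, ← Submodule.map_comp,
    ← Submodule.map_comp, glLin_toLinearMap, ← Matrix.toLin'_mul, ← Matrix.toLin'_mul,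
    ← Units.val_mul, ← Units.val_mul, ← mul_assoc, ← mul_assoc, mul_inv_cancel, one_mul]

/-- Complementary totally isotropic subspaces. -/
structure TPair (B : V →ₛₗ[σ] V →ₗ[F] F) (U W : Submodule F V) : Prop where
  compl : IsCompl U W
  left : TotIso B U
  right : TotIso B W

namespace TPair

variable {U W U' W' : Submodule F V}

theorem symm (h : TPair B U W) : TPair B W U := ⟨h.compl.symm, h.right, h.left⟩

theorem sep (h : TPair B U W) (hB : HForm B ε) : ∀ w ∈ W, (∀ u ∈ U, B w u = 0) → w = 0 :=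
  fun w hw H => hB.sep w fun v => mem_sup_elim (P := fun v => B w v = 0)
    (fun u hu u' hu' => by rw [map_add, H u hu, h.right w hw u' hu', add_zero]) v
    (h.compl.sup_eq_top ▸ Submodule.mem_top)

theorem map (h : TPair B U W) {g : V ≃ₗ[F] V} (hg : ∀ u v, B (g u) (g v) = B u v) :
    TPair B (U.map g.toLinearMap) (W.map g.toLinearMap) :=
  ⟨(Submodule.orderIsoMapComap g).isCompl h.compl, isom_map_totIso hg h.left,
    isom_map_totIso hg h.right⟩

variable [FiniteDimensional F V]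

theorem finrank_eq (h : TPair B U W) (hB : HForm B ε) :
    finrank F V = 2 * finrank F U ∧ finrank F W = finrank F U := by
  have h1 := hB.two_mul_le h.left
  have h2 := hB.two_mul_le h.right
  have h3 := Submodule.finrank_add_eq_of_isCompl h.compl
  omega

theorem exists_extend (h : TPair B U W) (hB : HForm B ε) (h' : TPair B U' W')
    (φ : U ≃ₗ[F] U') : ∃ g ∈ isomGroup B, (∀ u : U, g u = φ u) ∧ U.map g.toLinearMap = U' ∧
      W.map g.toLinearMap = W' := by
  have h1 := h.finrank_eq hB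
  have h2 := h'.finrank_eq hB
  obtain ⟨B₀, h₀⟩ := exists_hform_one (V := U') hB.invol
  obtain ⟨a, ha⟩ := h₀.exists_adj (C := (B.domRestrict₁₂ W U).compl₂ φ.symm.toLinearMap)
  obtain ⟨a', ha'⟩ := h₀.exists_adj (C := B.domRestrict₁₂ W' U')
  have hi : Function.Injective a := (injective_iff_map_eq_zero _).mpr fun v hv =>
    Subtype.ext (h.sep hB v v.2 fun u hu => by
      simpa [hv, LinearMap.domRestrict₁₂_apply] using (ha v (φ ⟨u, hu⟩)).symm)
  have hi' : Function.Injective a' := (injective_iff_map_eq_zero _).mpr fun v hv =>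
    Subtype.ext (h'.sep hB v v.2 fun u hu => by
      simpa [hv, LinearMap.domRestrict₁₂_apply] using (ha' v ⟨u, hu⟩).symm)
  let ψ : W ≃ₗ[F] W' := (a.linearEquivOfInjective hi (by omega)).trans
    (a'.linearEquivOfInjective hi' (by omega)).symm
  have hψ : ∀ (w : W) (u : U), B (ψ w) (φ u) = B w u := fun w u => by
    have : a' (ψ w) = a w := (a'.linearEquivOfInjective hi' h2.2).apply_symm_apply _
    simpa [this, ha, LinearMap.domRestrict₁₂_apply] using (ha' (ψ w) (φ u)).symm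
  let g : V ≃ₗ[F] V := (Submodule.prodEquivOfIsCompl U W h.compl).symm.trans
    ((φ.prodCongr ψ).trans (Submodule.prodEquivOfIsCompl U' W' h'.compl))
  have hU : ∀ u : U, g u = φ u := fun u => by simp [g]
  have hW : ∀ w : W, g w = ψ w := fun w => by simp [g]
  refine ⟨g, fun x y => ?_, hU, map_eq_of_forall_coe φ hU, map_eq_of_forall_coe ψ hW⟩
  obtain ⟨⟨a, b⟩, rfl⟩ := (Submodule.prodEquivOfIsCompl U W h.compl).surjective x
  obtain ⟨⟨c, d⟩, rfl⟩ := (Submodule.prodEquivOfIsCompl U W h.compl).surjective y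
  simp only [Submodule.coe_prodEquivOfIsCompl', map_add, hU, hW, LinearMap.add_apply, hψ,
    h.left _ a.2 _ c.2, h.right _ b.2 _ d.2, h'.left _ (φ a).2 _ (φ c).2,
    h'.right _ (ψ b).2 _ (ψ d).2, hB.sym (φ a : V) (ψ d), hB.sym (a : V) d]

theorem card_stab (h : TPair B U W) (hB : HForm B ε) :
    Nat.card ↥(stabSub U ⊓ stabSub W ⊓ isomGroup B) = Nat.card (U ≃ₗ[F] U) := by
  refine Nat.card_eq_of_bijective (stabRes _ U (inf_le_left.trans inf_le_left)) ⟨?_, fun φ => ?_⟩
  · rw [injective_iff_map_eq_one]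
    rintro ⟨g, ⟨hU, hW⟩, hg⟩ h1
    have h2 : ∀ u ∈ U, g u = u := fun w hw => congrArg (fun e : U ≃ₗ[F] U => (e ⟨w, hw⟩ : V)) h1
    have h3 : ∀ w ∈ W, g w = w := fun w hw => sub_eq_zero.mp
      (h.sep hB _ (W.sub_mem ((hW w).1 hw) hw) fun u hu => by
        rw [map_sub, LinearMap.sub_apply, ← mem_isomGroup.mp hg w u, h2 u hu, sub_self])
    exact Subtype.ext (LinearEquiv.ext fun v => mem_sup_elim (P := fun v => g v = v)
      (fun u hu w hw => by rw [map_add, h2 u hu, h3 w hw]) v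
      (h.compl.sup_eq_top ▸ Submodule.mem_top))
  · obtain ⟨g, hg, e, h1, h2⟩ := h.exists_extend hB h φ
    exact ⟨⟨g, ⟨mem_stabSub_iff_map.2 h1, mem_stabSub_iff_map.2 h2⟩, hg⟩,
      LinearEquiv.ext fun x => Subtype.ext (e x)⟩

theorem det_mul (h : TPair B U W) (hB : HForm B ε) (hg : ∀ u v, B (g u) (g v) = B u v)
    (hU : ∀ v ∈ U, g v ∈ U) (hW : ∀ v ∈ W, g v ∈ W) :
    LinearMap.det g * σ (LinearMap.det (g.restrict hU)) = LinearMap.det (g.restrict hU) := by
  have h1 := hB.elDiv_of_isCompl_totIso hg h.compl hU hW h.left h.right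
  rw [det_eq_tDet_End, det_eq_tDet_End, h1, tDet_add, mul_assoc, tDet_map_dualED (isElDivs_elDiv _)
    fun x hx => hB.ne_X hg x (h1 ▸ Multiset.mem_add.mpr (Or.inl hx)), mul_one]

theorem exists_map_eq_det [Finite F] (h : TPair B U W) (hB : HForm B ε) (hσ : σ ≠ RingHom.id F)
    (h' : TPair B U' W') (h0 : U' ≠ ⊥) : ∃ g ∈ isomGroup B, LinearMap.det g.toLinearMap = 1 ∧
      U.map g.toLinearMap = U' ∧ W.map g.toLinearMap = W' := by
  obtain ⟨g, hg, -, h1, h2⟩ := h.exists_extend hB h' (LinearEquiv.ofFinrankEq _ _ (by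
    have := h.finrank_eq hB; have := h'.finrank_eq hB; omega))
  obtain ⟨a, ha, h3⟩ := exists_div_eq_of_norm_one hσ hB.invol (hB.norm_det_of_isometry
    (g := g.toLinearMap) hg)
  have : Nontrivial U' := Submodule.nontrivial_iff_ne_bot.mpr h0
  obtain ⟨φ, hφ⟩ := exists_linearEquiv_det (V := U') ha
  obtain ⟨s, hs, h4, h5, h6⟩ := h'.exists_extend hB h' φ
  have h7 := h'.det_mul hB (g := s.toLinearMap) hs (map_le_iff_forall.mp h5.le)
    (map_le_iff_forall.mp h6.le)
  rw [show s.toLinearMap.restrict (map_le_iff_forall.mp h5.le) = φ.toLinearMap from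
    LinearMap.ext fun v => Subtype.ext (h4 v), hφ, h3,
    ← mul_assoc, mul_eq_right₀ ha] at h7
  refine ⟨s * g, mul_mem hs hg, (map_mul LinearMap.det s.toLinearMap g.toLinearMap).trans h7, ?_, ?_⟩
  · rw [← h5, ← h1, ← Submodule.map_comp]; rfl
  · rw [← h6, ← h2, ← Submodule.map_comp]; rfl

theorem count_even (h : TPair B U W) (hB : HForm B ε) (hg : ∀ u v, B (g u) (g v) = B u v)
    (hU : ∀ v ∈ U, g v ∈ U) (hW : ∀ v ∈ W, g v ∈ W) [DecidableEq (F[X] × ℕ)] {x : F[X] × ℕ}
    (hx : dualED σ x = x) : Even ((elDiv g).count x) := by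
  have h1 := hB.elDiv_of_isCompl_totIso hg h.compl hU hW h.left h.right
  by_cases h0 : x ∈ elDiv g
  swap
  · simp [h0]
  have h2 : ∀ y ∈ elDiv g, dualED σ (dualED σ y) = y := fun y hy => Prod.ext
    (dualPoly_dualPoly hB.invol (isElDivs_elDiv g y hy).1
      ((isElDivs_elDiv g).coeff_zero_ne (hB.ne_X hg) y hy)) rfl
  refine ⟨(elDiv (g.restrict hU)).count x, ?_⟩
  rw [h1, Multiset.count_add, Multiset.count_map, Multiset.count_eq_card_filter_eq,
    Multiset.filter_congr (p := fun y => x = dualED σ y) (q := fun y => x = y) fun y hy => ⟨fun h3 => by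
      rw [← hx, h3, h2 y (h1 ▸ Multiset.mem_add.mpr (Or.inl hy))], fun h => by rw [← h, hx]⟩]

theorem le_finrank_range (h : TPair B U W) (hU : ∀ v ∈ U, g v ∈ W) :
    finrank F U ≤ finrank F (LinearMap.range (g - 1)) :=
  LinearMap.finrank_le_finrank_of_injective (f := (g - 1).rangeRestrict ∘ₗ U.subtype)
    ((injective_iff_map_eq_zero _).mpr fun v hv => Subtype.ext
      (Submodule.disjoint_def.mp h.compl.disjoint v v.2
        ((show g v = v from sub_eq_zero.mp (congrArg Subtype.val hv)) ▸ hU v v.2)))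

end TPair

variable [FiniteDimensional F V]

theorem FixSp.exists_tPair [Finite F] {A C : Submodule F V} (hA : FixSp B g A C) (h : HA B ε)
    (hs : g ^ 2 = 1) (h1 : Even (finrank F A)) (h2 : Even (finrank F C)) :
    ∃ U W, TPair B U W ∧ (∀ v ∈ U, g v ∈ U) ∧ ∀ v ∈ W, g v ∈ W := by
  obtain ⟨h3, h4⟩ := hA.nondegOn h.toHForm
  obtain ⟨U, U', rfl, h5, h6⟩ := h.exists_isCompl_totIso h3 h1
  obtain ⟨W, W', rfl, h7, h8⟩ := h.exists_isCompl_totIso h4 h2
  have h9 := hA.totIso_sup le_sup_left le_sup_left h5 h7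
  have h10 := hA.totIso_sup le_sup_right le_sup_right h6 h8
  exact ⟨_, _, ⟨h.toHForm.isCompl_of_sup (by rw [sup_sup_sup_comm, hA.isCompl.sup_eq_top]) h9 h10,
    h9, h10⟩, inv_sup (hA.inv_of_le le_sup_left) (hA.inv_of_sq hs le_sup_left),
    inv_sup (hA.inv_of_le le_sup_right) (hA.inv_of_sq hs le_sup_right)⟩

theorem guOrder_two_mul (q k : ℕ) : guOrder q (2 * k) = q ^ (k * (2 * k - 1)) *
    (∏ i ∈ Finset.range k, (q ^ (2 * i + 1) + 1)) * ∏ i ∈ Finset.range k, ((q ^ 2) ^ (i + 1) - 1) := by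
  rw [guOrder, mul_assoc, Nat.mul_div_cancel_left _ two_pos, mul_assoc, ← Finset.prod_mul_distrib]
  congr 1
  induction k with
  | zero => rfl
  | succ k ih =>
    rw [mul_add, mul_one, Finset.prod_range_succ, Finset.prod_range_succ, ih, Finset.prod_range_succ,
      if_pos (even_two_mul k), if_neg (by simp), ← pow_mul, mul_assoc]
    rfl

theorem TPair.exists_dvd [Fintype F] {q : ℕ} (hF : Fintype.card F = q ^ 2) {U W : Submodule F V}
    (h : TPair B U W) (hB : Herm B) {r : ℕ} (hr : r.Prime) (hq : ¬ r ∣ q)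
    (hd : r ∣ (stabSub U ⊓ stabSub W).relIndex (isomGroup B)) :
    ∃ k, k < finrank F U ∧ r ∣ q ^ (2 * k + 1) + 1 := by
  have h1 := relIndex_mul_card_of_le (inf_le_right : stabSub U ⊓ stabSub W ⊓ isomGroup B ≤ _)
  rw [Subgroup.inf_relIndex_right, h.card_stab (herm_hform hB), card_linearEquiv_self rfl,
    hB.card_isomGroup hF (h.finrank_eq (herm_hform hB)).1, SylH.prod_gl_eq, guOrder_two_mul, hF,
    ← mul_assoc, Nat.mul_left_inj (Finset.prod_ne_zero_iff.mpr fun i _ =>
    Nat.sub_ne_zero_of_lt (Nat.one_lt_pow i.succ_ne_zero (hF ▸ Fintype.one_lt_card)))] at h1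
  obtain ⟨i, hi, h7⟩ := (Nat.Prime.prime hr).exists_mem_finset_dvd
    ((hr.dvd_mul.mp (h1 ▸ hd.mul_right _)).resolve_left fun h => hq (hr.dvd_of_dvd_pow h))
  exact ⟨i, Finset.mem_range.mp hi, h7⟩

end Cfsg.Lib.Known
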