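import Mathlib
import Cfsg.Agent.Known.ElusPair
import Cfsg.Agent.Known.QEven
import Cfsg.Agent.Known.OrthLevi
import Cfsg.Agent.Known.InvTwoClass

/-!
Isometry classes of non-degenerate subspaces of a finite quadratic space, by a sign.
-/

namespace Cfsg.Lib.Known

open Module Polynomial Cfsg.Lib.Class Cfsg.Lib.Class.Form QuadraticMap
open Cfsg.Lib.Class.Orth hiding orth stab mem_orth mem_orth'

universe u v

variable {F : Type u} [Field F] {V : Type v} {V₁ V₂ : Type*} [AddCommGroup V] [Module F V]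
  [AddCommGroup V₁] [Module F V₁] [AddCommGroup V₂] [Module F V₂] {Q : QuadraticForm F V}
  {Q₁ : QuadraticForm F V₁} {Q₂ : QuadraticForm F V₂}

/-- The polar form is non-degenerate on `W`. -/
abbrev ND (Q : QuadraticForm F V) (W : Submodule F V) : Prop :=
  NondegOn (σ := RingHom.id F) (polarBilin Q) W

theorem nd_iff_disjoint {W : Submodule F V} : ND Q W ↔ Disjoint W (Orth.orth Q W) := by
  rw [Submodule.disjoint_def]
  exact forall₂_congr fun u _ => imp_congr_left Orth.mem_orth'.symm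

theorem isPlus_restrict_iff' {W : Submodule F V} :
    IsPlus (Q.restrict W) ↔ ∃ U ≤ W, (∀ u ∈ U, Q u = 0) ∧ 2 * finrank F U = finrank F W := by
  constructor
  · rintro ⟨U, h1, h2⟩
    refine ⟨U.map W.subtype, W.map_subtype_le U, ?_, by rw [Submodule.finrank_map_subtype_eq, h2]⟩
    rintro _ ⟨u, hu, rfl⟩
    exact h1 u hu
  · rintro ⟨U, h1, h2, h3⟩
    exact ⟨U.comap W.subtype, fun u hu => h2 u hu,
      by rw [(Submodule.comapSubtypeEquivOfLe h1).finrank_eq, h3]⟩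

theorem isOSum_sup {U U' : Submodule F V} (hd : Disjoint U U')
    (ho : ∀ u ∈ U, ∀ v ∈ U', polar Q u v = 0) : ∃ e : (U × U') ≃ₗ[F] ↥(U ⊔ U'),
      IsOSum (Q.restrict (U ⊔ U')) (Q.restrict U) (Q.restrict U') e := by
  let f : (U × U') →ₗ[F] ↥(U ⊔ U') :=
    (Submodule.inclusion le_sup_left).coprod (Submodule.inclusion le_sup_right)
  have hf : ∀ a b, (f (a, b) : V) = a + b := fun _ _ => rfl
  refine ⟨LinearEquiv.ofBijective f ⟨(injective_iff_map_eq_zero f).mpr fun ⟨a, b⟩ h => ?_,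
    fun ⟨v, hv⟩ => ?_⟩, fun a b => ?_⟩
  · have h1 : (a : V) = -b := eq_neg_of_add_eq_zero_left ((hf a b).symm.trans (congrArg _ h))
    have h2 : (a : V) = 0 := Submodule.disjoint_def.mp hd a a.2 (h1 ▸ U'.neg_mem b.2)
    rw [h2, zero_eq_neg] at h1
    exact Prod.ext (Subtype.ext h2) (Subtype.ext h1)
  · obtain ⟨a, ha, b, hb, rfl⟩ := Submodule.mem_sup.mp hv
    exact ⟨(⟨a, ha⟩, ⟨b, hb⟩), rfl⟩
  · change Q (a + b) = Q a + Q b
    rw [Q_add, ho a a.2 b b.2, add_zero]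

variable [FiniteDimensional F V] [FiniteDimensional F V₁] [FiniteDimensional F V₂]

theorem ND.restrict {W : Submodule F V} (h : ND Q W) : (polarBilin (Q.restrict W)).Nondegenerate :=
  restrict_nondeg_iff.mpr (nd_iff_disjoint.mp h)

theorem even_finrank_of_two (hQ : (polarBilin Q).Nondegenerate) (h2 : (2 : F) = 0) :
    Even (finrank F V) :=
  even_finrank_of_isAlt hQ fun v => by rw [polarBilin_apply_apply, polar_self', h2, zero_mul]

variable [Finite F]

open Classical in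
/-- A multiplicative sign which, with the dimension, classifies quadratic spaces. -/
noncomputable def tq (Q : QuadraticForm F V) : ℤˣ :=
  if (2 : F) = 0 then (if IsPlus Q then 1 else -1) else sqs (disc Q)

/-- The class of the space is the one of `H ⊥ ⋯ ⊥ H` (or `H ⊥ ⋯ ⊥ H ⊥ ⟨1/2⟩`). -/
def Tp (Q : QuadraticForm F V) : Prop := tq Q = sqs (-1 : F) ^ (finrank F V / 2)

theorem tq_of_ne (h2 : (2 : F) ≠ 0) : tq Q = sqs (disc Q) := if_neg h2

theorem tq_congr (e : V ≃ₗ[F] V₁) (he : ∀ v, Q₁ (e v) = Q v) : tq Q₁ = tq Q := by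
  unfold tq
  rw [(sqEq_disc_of_equiv e he).sqs_eq, isPlus_congr e one_ne_zero (by simpa using he)]

theorem tp_congr (e : V ≃ₗ[F] V₁) (he : ∀ v, Q₁ (e v) = Q v) : Tp Q₁ ↔ Tp Q := by
  rw [Tp, Tp, tq_congr e he, e.finrank_eq]

theorem IsOSum.tq_eq {e : (V₁ × V₂) ≃ₗ[F] V} (h : IsOSum Q Q₁ Q₂ e)
    (hQ : (polarBilin Q).Nondegenerate) : tq Q = tq Q₁ * tq Q₂ := by
  have h1 := h.nondegenerate_left hQ
  have h3 := h.nondegenerate_right hQ
  by_cases h2 : (2 : F) = 0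
  · have h4 := h.isPlus_iff hQ (even_finrank_of_two h1 h2) (even_finrank_of_two h3 h2)
    simp only [tq, if_pos h2]
    by_cases IsPlus Q₁ <;> by_cases IsPlus Q₂ <;> simp [*]
  · simp only [tq_of_ne h2, h.sqEq_disc.sqs_eq, sqs_mul (disc_ne_zero h1) (disc_ne_zero h3)]

theorem units_mul_eq_iff {a b x y : ℤˣ} : a * b = x * y ↔ (a = x ↔ b = y) := by
  revert a b x y
  decide

theorem units_eq_iff_iff {a b x : ℤˣ} : (a = x ↔ b = x) ↔ a = b := by
  revert a b x
  decide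

theorem IsOSum.tp_iff {e : (V₁ × V₂) ≃ₗ[F] V} (h : IsOSum Q Q₁ Q₂ e)
    (hQ : (polarBilin Q).Nondegenerate) (he : Even (finrank F V₂)) : Tp Q ↔ (Tp Q₁ ↔ Tp Q₂) := by
  rw [Tp, h.tq_eq hQ, h.finrank_eq, Nat.add_div_of_dvd_left he.two_dvd, pow_add, units_mul_eq_iff,
    Tp, Tp]

theorem isPlus_iff_tp (hQ : (polarBilin Q).Nondegenerate) (he : Even (finrank F V)) :
    IsPlus Q ↔ Tp Q := by
  obtain ⟨m, hm⟩ := he.two_dvd
  by_cases h2 : (2 : F) = 0
  · rw [Tp, tq, if_pos h2, sqs_of_isSquare (isSquare_of_two_eq_zero h2 _), one_pow]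
    split_ifs with h <;> simp [h]
  · rw [isPlus_iff_isSquare_disc h2 hQ hm, Tp, tq_of_ne h2, hm, Nat.mul_div_cancel_left _ two_pos,
      ← sqs_eq_one_iff, sqs_mul (by simp) (disc_ne_zero hQ), sqs_pow (by simp)]
    generalize sqs (-1 : F) ^ m = a, sqs (disc Q) = b
    revert a b
    decide

theorem exists_equiv_of_tq (hQ : (polarBilin Q).Nondegenerate)
    (hQ₁ : (polarBilin Q₁).Nondegenerate) (hd : finrank F V₁ = finrank F V) (h : tq Q = tq Q₁) :
    ∃ e : V ≃ₗ[F] V₁, ∀ v, Q₁ (e v) = Q v := by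
  by_cases h2 : (2 : F) = 0
  · have h3 := even_finrank_of_two hQ h2
    refine exists_equiv_of_isPlus_iff hQ hQ₁ h3 hd ?_
    rw [isPlus_iff_tp hQ h3, isPlus_iff_tp hQ₁ (hd ▸ h3), Tp, Tp, h, hd]
  · rw [tq_of_ne h2, tq_of_ne h2] at h
    exact exists_equiv_of_sqEq_disc h2 hQ hQ₁ hd
      (sqEq_of_sqs_eq (disc_ne_zero hQ) (disc_ne_zero hQ₁) h)

theorem exists_equiv_of_tp (hQ : (polarBilin Q).Nondegenerate)
    (hQ₁ : (polarBilin Q₁).Nondegenerate) (hd : finrank F V₁ = finrank F V) (h : Tp Q ↔ Tp Q₁) :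
    ∃ e : V ≃ₗ[F] V₁, ∀ v, Q₁ (e v) = Q v := by
  rw [Tp, Tp, hd, units_eq_iff_iff] at h
  exact exists_equiv_of_tq hQ hQ₁ hd h

theorem tp_of_finrank_zero (h : finrank F V = 0) : Tp Q := by
  have := finrank_zero_iff.mp h
  exact (isPlus_iff_tp ⟨fun _ _ => Subsingleton.elim _ _, fun _ _ => Subsingleton.elim _ _⟩
    (by simp [h])).mp ⟨⊥, by simp, by simp [h]⟩

theorem tq_of_finrank_zero (h : finrank F V = 0) : tq Q = 1 := by
  simpa [Tp, h] using tp_of_finrank_zero (Q := Q) h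

theorem exists_tq {k : ℕ} (hk : k ≠ 0) (he : (2 : F) = 0 → Even k) (t : ℤˣ) :
    ∃ (W : Type u) (_ : AddCommGroup W) (_ : Module F W) (_ : FiniteDimensional F W)
      (Q : QuadraticForm F W), (polarBilin Q).Nondegenerate ∧ finrank F W = k ∧ tq Q = t := by
  have := Fintype.ofFinite F
  by_cases h2 : (2 : F) = 0
  · obtain ⟨m, rfl⟩ := (he h2).two_dvd
    obtain ⟨m, rfl⟩ := Nat.exists_eq_succ_of_ne_zero (right_ne_zero_of_mul hk)
    rcases Int.units_eq_one_or t with rfl | rfl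
    · exact ⟨_, _, _, inferInstance, quadPlus (m + 1) F, quadPlus_nondegenerate _,
        finrank_plusSpace, by rw [tq, if_pos h2, if_pos (isPlus_quadPlus _)]⟩
    · obtain ⟨ζ, hζ⟩ := exists_aniso F
      exact ⟨_, _, _, inferInstance, quadMinus m F 1 ζ, quadMinus_nondegenerate m hζ,
        by simp; omega, by rw [tq, if_pos h2, if_neg (not_isPlus_quadMinus m hζ)]⟩
  · obtain ⟨s, σ, ⟨W, _, _, _, Q, hQ, g, rfl, h3, -⟩, h4, -⟩ :=
      exists_OT_pm h2 (mul_one 1) odd_one k t fun h => absurd h hk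
    exact ⟨W, _, _, inferInstance, Q, hQ, (isGLType_O g).2.1.symm.trans h4, (tq_of_ne h2).trans h3⟩

/-- An orthogonal decomposition with a first summand of given dimension and class. -/
theorem exists_isOSum_tq (hQ : (polarBilin Q).Nondegenerate) {k : ℕ} (h0 : k ≠ 0)
    (hk : k < finrank F V) (he : (2 : F) = 0 → Even k) (t : ℤˣ) :
    ∃ U : Submodule F V, finrank F U = k ∧ ND Q U ∧ tq (Q.restrict U) = t := by
  obtain ⟨W, _, _, _, Q₁, h1, h2, h3⟩ := exists_tq h0 he t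
  obtain ⟨W', _, _, _, Q₂, h4, h5, h6⟩ := exists_tq (F := F) (k := finrank F V - k) (by omega)
    (fun h => (Nat.even_sub hk.le).mpr (iff_of_true (even_finrank_of_two hQ h) (he h))) (t * tq Q)
  have h7 := nondegenerate_prod h1 h4
  obtain ⟨e, h8⟩ := exists_equiv_of_tq h7 hQ (by rw [finrank_prod]; omega)
    (by rw [(isOSum_prod Q₁ Q₂).tq_eq h7, h3, h6, ← mul_assoc, Int.units_mul_self, one_mul])
  let f : W →ₗ[F] V := e.toLinearMap ∘ₗ LinearMap.inl F W W'
  have hf : Function.Injective f := e.injective.comp LinearMap.inl_injective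
  have h9 : ∀ w, Q (f w) = Q₁ w := fun w => (h8 _).trans (by simp)
  refine ⟨LinearMap.range f, (LinearMap.finrank_range_of_inj hf).trans h2,
    nondegOn_range (hform_polarBilin h1) f fun u v => ?_,
    (tq_congr (LinearEquiv.ofInjective f hf) h9).trans h3⟩
  simpa using polar_of_sim f (c := 1) (by simpa using h9) u v

/-- `W` is non-degenerate of dimension `m`, in the class given by `τ`. -/
def NT (Q : QuadraticForm F V) (m : ℕ) (τ : Prop) (W : Submodule F V) : Prop :=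
  finrank F W = m ∧ ND Q W ∧ (Tp (Q.restrict W) ↔ τ)

omit [Finite F] [FiniteDimensional F V] in
theorem nd_map_subtype {A : Submodule F V} {U : Submodule F A} (h : ND (Q.restrict A) U) :
    ND Q (U.map A.subtype) := by
  rintro _ ⟨u, hu, rfl⟩ h1
  rw [h u hu fun v hv => (polar_restrict A u v).trans (h1 _ ⟨v, hv, rfl⟩), map_zero]

theorem tq_map_subtype {A : Submodule F V} (U : Submodule F A) :
    tq (Q.restrict (U.map A.subtype)) = tq ((Q.restrict A).restrict U) :=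
  tq_congr (U.equivMapOfInjective A.subtype A.subtype_injective) fun _ => rfl

theorem ND.exists_tq {A : Submodule F V} (hA : ND Q A) {k : ℕ} (h0 : k ≠ 0)
    (hk : k < finrank F A) (he : (2 : F) = 0 → Even k) (t : ℤˣ) :
    ∃ U ≤ A, finrank F U = k ∧ ND Q U ∧ tq (Q.restrict U) = t := by
  obtain ⟨U, h1, h2, h3⟩ := exists_isOSum_tq hA.restrict h0 hk he t
  exact ⟨_, A.map_subtype_le U, (Submodule.finrank_map_subtype_eq A U).trans h1, nd_map_subtype h2,
    (tq_map_subtype U).trans h3⟩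

theorem ND.exists_nt_iff {A : Submodule F V} (hA : ND Q A) {k : ℕ} (he : (2 : F) = 0 → Even k)
    {τ : Prop} : (∃ U ≤ A, NT Q k τ U) ↔
      k ≤ finrank F A ∧ (k = 0 → τ) ∧ (k = finrank F A → (τ ↔ Tp (Q.restrict A))) := by
  constructor
  · rintro ⟨U, h1, rfl, -, h2⟩
    refine ⟨Submodule.finrank_mono h1, fun h => h2.mp (tp_of_finrank_zero h), fun h => ?_⟩
    rw [← Submodule.eq_of_le_of_finrank_eq h1 h, h2]
  rintro ⟨h1, h2, h3⟩
  by_cases h4 : k = 0
  · exact ⟨⊥, bot_le, by simp [h4], nondegOn_bot,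
      iff_of_true (tp_of_finrank_zero (by simp)) (h2 h4)⟩
  by_cases h5 : k = finrank F A
  · exact ⟨A, le_rfl, h5.symm, hA, (h3 h5).symm⟩
  classical
  obtain ⟨U, h6, h7, h8, h9⟩ := hA.exists_tq h4 (by omega) he
    ((if τ then 1 else -1) * sqs (-1 : F) ^ (k / 2))
  refine ⟨U, h6, h7, h8, ?_⟩
  rw [Tp, h9, h7, mul_eq_right]
  split_ifs with h <;> simp [h]

theorem tq_sup {U U' : Submodule F V} (hU : ND Q U) (hU' : ND Q U')
    (ho : ∀ u ∈ U, ∀ v ∈ U', polar Q u v = 0) :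
    tq (Q.restrict (U ⊔ U')) = tq (Q.restrict U) * tq (Q.restrict U') := by
  obtain ⟨e, h⟩ := isOSum_sup
    (disjoint_of_nondegOn hU fun u hu v hv => (polar_comm _ _ _).trans (ho u hu v hv)) ho
  exact h.tq_eq (h.nondegenerate hU.restrict hU'.restrict)

theorem tp_sup {U U' : Submodule F V} (hU : ND Q U) (hU' : ND Q U')
    (ho : ∀ u ∈ U, ∀ v ∈ U', polar Q u v = 0) (he : Even (finrank F U')) :
    Tp (Q.restrict (U ⊔ U')) ↔ (Tp (Q.restrict U) ↔ Tp (Q.restrict U')) := by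
  obtain ⟨e, h⟩ := isOSum_sup
    (disjoint_of_nondegOn hU fun u hu v hv => (polar_comm _ _ _).trans (ho u hu v hv)) ho
  exact h.tp_iff (h.nondegenerate hU.restrict hU'.restrict) he

theorem tq_top : tq (Q.restrict ⊤) = tq Q := (tq_congr Submodule.topEquiv fun _ => rfl).symm

theorem tp_top : Tp (Q.restrict ⊤) ↔ Tp Q := (tp_congr Submodule.topEquiv fun _ => rfl).symm

theorem NT.map {m : ℕ} {τ : Prop} {W : Submodule F V} (h : NT Q m τ W) {g : V ≃ₗ[F] V}
    (hg : g ∈ O Q) : NT Q m τ (W.map (g : V →ₗ[F] V)) :=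
  ⟨(g.finrank_map_eq W).trans h.1, 
    isom_map_nondegOn (polar_isometry (g := (g : End F V)) (mem_O.mp hg)) h.2.1,
    (tp_congr (g.submoduleMap W) fun v => mem_O.mp hg v).trans h.2.2⟩

theorem NT.exists_map_eq (hQ : (polarBilin Q).Nondegenerate) {m : ℕ} {τ : Prop}
    {W W' : Submodule F V} (h : NT Q m τ W) (h' : NT Q m τ W') :
    ∃ g ∈ O Q, W.map (g : V →ₗ[F] V) = W' := by
  obtain ⟨e, he⟩ := exists_equiv_of_tp h.2.1.restrict h'.2.1.restrict (h'.1.trans h.1.symm)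
    (h.2.2.trans h'.2.2.symm)
  obtain ⟨g, hg⟩ := exists_O_map_eq hQ e he
  exact ⟨g, g.2, hg⟩

theorem exists_sing_iff (hQ : (polarBilin Q).Nondegenerate) {k : ℕ} :
    (∃ U : Submodule F V, finrank F U = k ∧ ∀ u ∈ U, Q u = 0) ↔
      2 * k ≤ finrank F V ∧ (2 * k = finrank F V → Tp Q) := by
  constructor
  · rintro ⟨U, rfl, h⟩
    exact ⟨two_mul_finrank_le hQ h, fun h1 =>
      (isPlus_iff_tp hQ (h1 ▸ even_two_mul _)).mp ⟨U, h, h1⟩⟩
  rintro ⟨h1, h2⟩
  suffices ∃ X : Submodule F V, k ≤ finrank F X ∧ ∀ u ∈ X, Q u = 0 by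
    obtain ⟨X, h3, h4⟩ := this
    obtain ⟨Y, h5, h6⟩ := exists_le_finrank_eq X h3
    exact ⟨Y, h6, fun u hu => h4 u (h5 hu)⟩
  by_cases hp : IsPlus Q
  · obtain ⟨X, h3, h4⟩ := hp
    exact ⟨X, by omega, h3⟩
  have h3 : 2 * k < finrank F V := lt_of_le_of_ne h1 fun h =>
    hp ((isPlus_iff_tp hQ (h ▸ even_two_mul _)).mpr (h2 h))
  obtain ⟨e, f, h4, -⟩ := exists_isHyp_anisotropic_of_not_isPlus hQ
    (m := (finrank F V - 1) / 2) (by omega) hp
  refine ⟨(plusU _ F).map (hypComb F e f), ?_, ?_⟩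
  · rw [← (Submodule.equivMapOfInjective _ h4.comb_injective _).finrank_eq, finrank_plusU]
    omega
  · rintro _ ⟨x, hx, rfl⟩
    simp [h4.quad_comb, mem_plusU.mp hx]

theorem ND.exists_sing_iff {A : Submodule F V} (hA : ND Q A) {k : ℕ} :
    (∃ U ≤ A, finrank F U = k ∧ ∀ u ∈ U, Q u = 0) ↔
      2 * k ≤ finrank F A ∧ (2 * k = finrank F A → Tp (Q.restrict A)) := by
  rw [← Known.exists_sing_iff hA.restrict]
  constructor
  · rintro ⟨U, h1, h2, h3⟩
    exact ⟨U.comap A.subtype, (Submodule.comapSubtypeEquivOfLe h1).finrank_eq.trans h2,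
      fun u hu => h3 u hu⟩
  · rintro ⟨U, h1, h2⟩
    refine ⟨_, A.map_subtype_le U, (Submodule.finrank_map_subtype_eq A U).trans h1, ?_⟩
    rintro _ ⟨u, hu, rfl⟩
    exact h2 u hu

end Cfsg.Lib.Known
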