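import Cfsg.Agent.Known.F4Tree
import Cfsg.Agent.Known.ChevSpec
import Cfsg.Agent.S1062
import Cfsg.Agent.Chev.CoreAll
/-!
# The prime graph of `F₄(q)`
-/
set_option autoImplicit false
set_option linter.unusedSectionVars false
set_option maxRecDepth 100000

namespace Cfsg.Lib.Known.WE

open Cfsg.Lie Cfsg.Lib.Chev Cfsg.Lib.Chev.Core

universe u

section field
variable {K : Type*} [Field K] {x : K}

theorem ord_P3 : x ^ 4 - 1 = 0 ↔ orderOf x ∈ ({1, 2, 4} : Finset ℕ) := by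
  rw [sub_eq_zero, ← orderOf_dvd_iff_pow_eq_one, ← show Nat.divisors 4 = {1, 2, 4} by decide]
  simp

theorem ord_P1 : (x + 1) * (x ^ 3 - 1) = 0 ↔ orderOf x ∈ ({1, 2, 3} : Finset ℕ) := by
  have h := pow_orderOf_eq_one x
  simp only [Finset.mem_insert, Finset.mem_singleton]
  constructor
  · intro h1
    rcases mul_eq_zero.1 h1 with h1 | h1
    · have := (Nat.dvd_prime Nat.prime_two).1 (orderOf_dvd_of_pow_eq_one
        (show x ^ 2 = 1 by linear_combination (x - 1) * h1))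
      omega
    · have := (Nat.dvd_prime Nat.prime_three).1 (orderOf_dvd_of_pow_eq_one (sub_eq_zero.1 h1))
      omega
  · rintro (e | e | e) <;> rw [e] at h
    · linear_combination (x + 1) * (x ^ 2 + x + 1) * h
    · linear_combination (x ^ 2 + x + 1) * h
    · linear_combination (x + 1) * h

theorem ord_of_neg (h2 : (2 : K) ≠ 0) {n : ℕ} (h : x ^ n + 1 = 0) :
    orderOf x ∣ 2 * n ∧ ¬ orderOf x ∣ n :=
  ⟨orderOf_dvd_of_pow_eq_one (by rw [mul_comm, pow_mul]; linear_combination (x ^ n - 1) * h),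
    fun h' => h2 (by linear_combination h - orderOf_dvd_iff_pow_eq_one.1 h')⟩

theorem neg_of_ord {n : ℕ} (hn : 0 < n) (h : orderOf x = 2 * n) : x ^ n + 1 = 0 := by
  have h1 := pow_orderOf_eq_one x
  rw [h, mul_comm, pow_mul] at h1
  have h2 : (x ^ n + 1) * (x ^ n - 1) = 0 := by linear_combination h1
  refine (mul_eq_zero.1 h2).resolve_right fun h3 => ?_
  have := Nat.le_of_dvd hn (orderOf_dvd_of_pow_eq_one (sub_eq_zero.1 h3))
  omega

theorem ord_P2 (h2 : (2 : K) ≠ 0) :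
    (x - 1) * (x ^ 3 + 1) = 0 ↔ orderOf x ∈ ({1, 2, 6} : Finset ℕ) := by
  have h := pow_orderOf_eq_one x
  simp only [Finset.mem_insert, Finset.mem_singleton]
  constructor
  · intro h1
    rcases mul_eq_zero.1 h1 with h1 | h1
    · exact .inl (orderOf_eq_one_iff.2 (sub_eq_zero.1 h1))
    · obtain ⟨h3, h4⟩ := ord_of_neg h2 h1
      have := Nat.le_of_dvd (by norm_num) h3
      generalize orderOf x = e at *
      interval_cases e <;> simp_all
  · rintro (e | e | e)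
    · rw [e] at h; linear_combination (x ^ 3 + 1) * h
    · rw [e] at h; linear_combination (x ^ 2 - x + 1) * h
    · linear_combination (x - 1) * neg_of_ord (n := 3) (by norm_num) e

theorem ord_P4 (h2 : (2 : K) ≠ 0) : x ^ 4 + 1 = 0 ↔ orderOf x = 8 := by
  refine ⟨fun h1 => ?_, fun e => neg_of_ord (n := 4) (by norm_num) e⟩
  obtain ⟨h3, h4⟩ := ord_of_neg h2 h1
  have := Nat.le_of_dvd (by norm_num) h3
  generalize orderOf x = e at *
  interval_cases e <;> simp_all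

theorem ord_P5 (h2 : (2 : K) ≠ 0) (h3 : (3 : K) = 0 → x ^ 2 = 1) :
    x ^ 4 - x ^ 2 + 1 = 0 ↔ orderOf x = 12 := by
  constructor
  · intro h1
    obtain ⟨h4, h5⟩ := ord_of_neg h2 (n := 6) (x := x) (by linear_combination (x ^ 2 + 1) * h1)
    have h6 : orderOf x ≠ 4 := fun e => by
      have h7 := neg_of_ord (n := 2) (by norm_num) e
      exact h2 (by linear_combination h7 - h3 (by linear_combination h1 - (x ^ 2 - 2) * h7))
    have := Nat.le_of_dvd (by norm_num) h4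
    generalize orderOf x = e at *
    interval_cases e <;> simp_all
  · intro e
    have h4 : (x ^ 2 + 1) * (x ^ 4 - x ^ 2 + 1) = 0 := by
      linear_combination neg_of_ord (n := 6) (by norm_num) e
    refine (mul_eq_zero.1 h4).resolve_left fun h5 => ?_
    have := (ord_of_neg h2 h5).1
    rw [e] at this
    omega

end field

section num
variable {r q : ℕ} [hr : Fact r.Prime]

theorem dvd_evalZ_iff (a b c d e : ℤ) : (r : ℤ) ∣ evalZ [a, b, c, d, e] q ↔
    (a + b * q + c * q ^ 2 + d * q ^ 3 + e * q ^ 4 : ZMod r) = 0 := by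
  rw [← ZMod.intCast_zmod_eq_zero_iff_dvd]
  simp only [evalZ_cons, evalZ_nil]
  push_cast
  ring_nf

theorem two_ne_zero_zmod (h : r ≠ 2) : (2 : ZMod r) ≠ 0 := fun e =>
  h ((Nat.prime_dvd_prime_iff_eq hr.out Nat.prime_two).1 ((ZMod.natCast_eq_zero_iff 2 r).1 e))

theorem sq_eq_one_of_three (hq : ¬ r ∣ q) (h : (3 : ZMod r) = 0) : (q : ZMod r) ^ 2 = 1 := by
  have h1 := (Nat.prime_dvd_prime_iff_eq hr.out Nat.prime_three).1
    ((ZMod.natCast_eq_zero_iff 3 r).1 h)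
  subst h1
  exact ZMod.pow_card_sub_one_eq_one (by rwa [Ne, ZMod.natCast_eq_zero_iff])

theorem dvd_P3 : (r : ℤ) ∣ evalZ [-1, 0, 0, 0, 1] q ↔
    orderOf (q : ZMod r) ∈ ({1, 2, 4} : Finset ℕ) := by
  rw [dvd_evalZ_iff, ← ord_P3]; push_cast; ring_nf

theorem dvd_P1 : (r : ℤ) ∣ evalZ [-1, -1, 0, 1, 1] q ↔
    orderOf (q : ZMod r) ∈ ({1, 2, 3} : Finset ℕ) := by
  rw [dvd_evalZ_iff, ← ord_P1]; push_cast; ring_nf

theorem dvd_P2 (h : r ≠ 2) : (r : ℤ) ∣ evalZ [-1, 1, 0, -1, 1] q ↔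
    orderOf (q : ZMod r) ∈ ({1, 2, 6} : Finset ℕ) := by
  rw [dvd_evalZ_iff, ← ord_P2 (two_ne_zero_zmod h)]; push_cast; ring_nf

theorem dvd_P4 (h : r ≠ 2) : (r : ℤ) ∣ evalZ [1, 0, 0, 0, 1] q ↔ orderOf (q : ZMod r) = 8 := by
  rw [dvd_evalZ_iff, ← ord_P4 (two_ne_zero_zmod h)]; push_cast; ring_nf

theorem dvd_P5 (h : r ≠ 2) (hq : ¬ r ∣ q) :
    (r : ℤ) ∣ evalZ [1, 0, -1, 0, 1] q ↔ orderOf (q : ZMod r) = 12 := by
  rw [dvd_evalZ_iff, ← ord_P5 (two_ne_zero_zmod h) (sq_eq_one_of_three hq)]; push_cast; ring_nf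

theorem dvd_PD (h : orderOf (q : ZMod r) = 3) : (r : ℤ) ∣ evalZ [1, -1, 0, -1, 1] q := by
  have h1 := pow_orderOf_eq_one (q : ZMod r)
  rw [h] at h1
  rw [dvd_evalZ_iff]; push_cast
  linear_combination ((q : ZMod r) - 1) * h1

end num

/-- The Weyl data of type `F₄` indexed by `Fin 4`. -/
noncomputable def wF4 : WeylData (Fin 4) ℕ := rootF4.weyl

theorem wF4_eq_1' : type_of% @wF4.eq_1 := @wF4.eq_1

theorem hasC_wF4 : wF4.HasC cartanF4 := hasC_F4 rootF4

theorem good_wF4 (w : wF4.W) : goodF4 (MW wF4 w) = true := treeChk_sound hasC_wF4 treeF4 w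

theorem det4_eq {M : List (List ℤ)} {a b c d e f g h i j k l m n o p : ℤ}
    (hM : M = [[a, b, c, d], [e, f, g, h], [i, j, k, l], [m, n, o, p]]) (q : ℤ) :
    (q • (1 : Matrix (Fin 4) (Fin 4) ℤ) - listMat 4 M).det =
      det4L [q - a, -b, -c, -d] [-e, q - f, -g, -h] [-i, -j, q - k, -l] [-m, -n, -o, q - p] := by
  have : q • (1 : Matrix (Fin 4) (Fin 4) ℤ) - listMat 4 M =
      !![q - a, -b, -c, -d; -e, q - f, -g, -h; -i, -j, q - k, -l; -m, -n, -o, q - p] := by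
    subst hM
    ext x y
    rw [Matrix.sub_apply, Matrix.smul_apply, Matrix.one_apply]
    fin_cases x <;> fin_cases y <;> simp [listMat]
  rw [this, Matrix.det_succ_row_zero]
  simp [Fin.sum_univ_succ, Matrix.det_fin_three, det4L, det3L, det2L, Fin.succAbove]
  ring

theorem det_word {ω : List (Fin 4)} {a b c d e f g h i j k l m n o p : ℤ}
    (hM : matL cartanF4 ω = [[a, b, c, d], [e, f, g, h], [i, j, k, l], [m, n, o, p]]) (q : ℤ) :
    (q • (1 : Matrix (Fin 4) (Fin 4) ℤ) - listMat 4 (MW wF4 (wprod wF4.s ω))).det =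
      det4L [q - a, -b, -c, -d] [-e, q - f, -g, -h] [-i, -j, q - k, -l] [-m, -n, -o, q - p] :=
  det4_eq ((MW_wprod hasC_wF4 ω).trans hM) q

theorem exists_word_F4 (P : List ℤ) (hP : P ∈ [[-1, 0, 0, 0, 1], [-1, -1, 0, 1, 1], [-1, 1, 0, -1, 1],
    [1, 0, 0, 0, 1], [1, 0, -1, 0, 1], [1, -1, 0, -1, 1]]) (q : ℤ) : ∃ w : wF4.W,
    (q • (1 : Matrix (Fin 4) (Fin 4) ℤ) - listMat 4 (MW wF4 w)).det = evalZ P q ∧
    (P ∈ [[-1, 0, 0, 0, 1], [-1, 1, 0, -1, 1], [1, -1, 0, -1, 1]] →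
      ∃ i, w • wF4.simple i = wF4.simple i) := by
  simp only [List.mem_cons, List.not_mem_nil, or_false] at hP
  rcases hP with rfl | rfl | rfl | rfl | rfl | rfl
  · refine ⟨wprod wF4.s [0, 1, 2, 3, 1, 2, 0, 1, 2, 3, 0, 1, 2], ?_, fun _ => ⟨3,
      smul_simple_of_MW (by rw [MW_wprod hasC_wF4]; decide +kernel)⟩⟩
    rw [det_word (show _ = [[-2, 1, 0, 0], [-3, 0, 2, 0], [-2, 0, 1, 0], [-1, 0, 0, 1]] by
      decide +kernel)]
    simp [det4L, det3L, det2L, evalZ_cons, evalZ_nil]; ring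
  · refine ⟨wprod wF4.s [2, 3, 0], ?_, fun h => absurd h (by decide)⟩
    rw [det_word (show _ = [[-1, 1, 0, 0], [0, 1, 0, 0], [0, 1, -1, 1], [0, 1, -1, 0]] by
      decide +kernel)]
    simp [det4L, det3L, det2L, evalZ_cons, evalZ_nil]; ring
  · refine ⟨wprod wF4.s [0, 1, 2, 3, 1, 2, 0, 1, 2], ?_, fun _ => ⟨1,
      smul_simple_of_MW (by rw [MW_wprod hasC_wF4]; decide +kernel)⟩⟩
    rw [det_word (show _ = [[-1, 0, 0, 2], [-3, 1, 0, 2], [-2, 0, 1, 1], [-1, 0, 1, 0]] by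
      decide +kernel)]
    simp [det4L, det3L, det2L, evalZ_cons, evalZ_nil]; ring
  · refine ⟨wprod wF4.s [0, 1, 2, 3, 1, 2], ?_, fun h => absurd h (by decide)⟩
    rw [det_word (show _ = [[-1, 1, 0, 0], [-2, 1, 0, 2], [-2, 1, 0, 1], [-1, 0, 1, 0]] by
      decide +kernel)]
    simp [det4L, det3L, det2L, evalZ_cons, evalZ_nil]; ring
  · refine ⟨wprod wF4.s [0, 1, 2, 3], ?_, fun h => absurd h (by decide)⟩
    rw [det_word (show _ = [[-1, 1, 0, 0], [-1, 0, 2, 0], [-1, 0, 1, 1], [-1, 0, 1, 0]] by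
      decide +kernel)]
    simp [det4L, det3L, det2L, evalZ_cons, evalZ_nil]; ring
  · refine ⟨wprod wF4.s [0, 1], ?_, fun _ => ⟨3,
      smul_simple_of_MW (by rw [MW_wprod hasC_wF4]; decide +kernel)⟩⟩
    rw [det_word (show _ = [[-1, 1, 0, 0], [-1, 0, 2, 0], [0, 0, 1, 0], [0, 0, 0, 1]] by
      decide +kernel)]
    simp [det4L, det3L, det2L, evalZ_cons, evalZ_nil]; ring

section tor
variable {M : Type*} [CommGroup M] {w : wF4.W} {c : Fin 4 → M} {q : ℕ}

theorem orderOf_torF4 (hw : wF4.tor M w c = c ^ q) : ∃ P ∈ [[-1, 0, 0, 0, 1], [-1, -1, 0, 1, 1],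
    [-1, 1, 0, -1, 1], [1, 0, 0, 0, 1], [1, 0, -1, 0, 1]], (orderOf c : ℤ) ∣ evalZ P q := by
  have h := good_wF4 w
  simp only [goodF4, Bool.or_eq_true, Bool.and_eq_true] at h
  rcases h with ((h | h) | h) | ⟨h | h, -⟩ <;> exact ⟨_, by simp, orderOf_dvd_of_ann hw h⟩

theorem orderOf_torF4_root (hw : wF4.tor M w c = c ^ q) {r : ℕ} (hr : r ∈ wF4.Φ)
    (h1 : chr c (wF4.rc r) = 1) : (∃ P ∈ [[-1, 0, 0, 0, 1], [-1, -1, 0, 1, 1],
    [-1, 1, 0, -1, 1]], (orderOf c : ℤ) ∣ evalZ P q) ∨ orderOf c ∣ 8 := by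
  obtain ⟨w, c, i, hw, e, h1⟩ := exists_simple_of_root hw hr h1
  rw [← e]
  have h := good_wF4 w
  simp only [goodF4, Bool.or_eq_true, Bool.and_eq_true] at h
  rcases h with ((h | h) | h) | ⟨-, h⟩
  · exact .inl ⟨_, by simp, orderOf_dvd_of_ann hw h⟩
  · exact .inl ⟨_, by simp, orderOf_dvd_of_ann hw h⟩
  · exact .inl ⟨_, by simp, orderOf_dvd_of_ann hw h⟩
  · have h2 := List.all_eq_true.1 h i (List.mem_finRange i)
    simp only [cycOK, forceL_eq, forceZ_eq, hornerK_eq, Bool.and_eq_true, decide_eq_true_eq, List.all_eq_true,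
      beq_iff_eq] at h2
    refine .inr (Int.natCast_dvd_natCast.1 (Dvd.dvd.trans ?_ h2.1))
    rw [orderOf_dvd_iff_zpow_eq_one]
    funext j
    have h3 := zpow_eq_of_horner hw (h2.2 j (List.mem_finRange j))
    rwa [h1, one_zpow] at h3

end tor

variable (F : Type u) [Field F] [Fintype F] (p : ℕ) [hp : Fact p.Prime] [CharP F p]

theorem snfF4 : ∃ d, CartanSNF chevF4 d ∧ ∀ i, 0 < d.getD i 1 := snf_of_mem (by simp)

theorem surjF4 : Function.Surjective (cartanHom chevF4 Fˣ) :=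
  cartanSNF_F4.surjective _ fun i a => ⟨a, by
    have : ∀ i : Fin 4, [1, 1, 1, 1].getD i 1 = 1 := by decide
    rw [this i, pow_one]⟩

theorem p_dvd_card' : p ∣ Fintype.card F := (CharP.cast_eq_zero_iff F p _).1 (by simp)

include hp in
theorem card_cast_alg : ((Fintype.card F : ℕ) : AlgebraicClosure F) = 0 :=
  (CharP.cast_eq_zero_iff _ p _).2 (p_dvd_card' F p)

variable {F} {r s : ℕ} [hr : Fact r.Prime] [hs : Fact s.Prime]

theorem not_dvd_card (h : r ≠ p) : ¬ r ∣ Fintype.card F := fun h' => by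
  obtain ⟨n, -, hn⟩ := FiniteField.card F p
  rw [hn] at h'
  exact h ((Nat.prime_dvd_prime_iff_eq hr.out hp.out).1 (hr.out.dvd_of_dvd_pow h'))

theorem pow_eq_self_iff {M : Type*} [Group M] {a : M} {q : ℕ}
    (h : orderOf a = s) : a = a ^ q ↔ orderOf (q : ZMod s) = 1 := by
  rw [orderOf_eq_one_iff, ← Nat.cast_one, ZMod.natCast_eq_natCast_iff, ← h, ← pow_eq_pow_iff_modEq,
    pow_one, eq_comm]

/-- Adjacency of two primes different from the characteristic. -/
theorem adj_F4_iff (hrs : r ≠ s) (h1 : r ≠ p) (h2 : s ≠ p) :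
    (∃ x : chevF4.group F, orderOf x = r * s) ↔ ∃ P ∈ [[-1, 0, 0, 0, 1], [-1, -1, 0, 1, 1],
      [-1, 1, 0, -1, 1], [1, 0, 0, 0, 1], [1, 0, -1, 0, 1]],
      (r : ℤ) ∣ evalZ P (Fintype.card F) ∧ (s : ℤ) ∣ evalZ P (Fintype.card F) := by
  constructor
  · rintro ⟨x, hx⟩
    obtain ⟨c, u, -, ⟨w, hw⟩, -, ⟨j, hj⟩, ho⟩ := exists_jordan certF4 rootF4 F p snfF4 x
    obtain ⟨P, hP, h⟩ := orderOf_torF4 hw
    have h3 : (r * s).Coprime (orderOf u) := Nat.Coprime.coprime_dvd_right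
      (orderOf_dvd_of_pow_eq_one hj) (Nat.Coprime.pow_right _ (Nat.Coprime.mul_left
        ((Nat.coprime_primes hr.out hp.out).2 h1) ((Nat.coprime_primes hs.out hp.out).2 h2)))
    have h4 : ((r * s : ℕ) : ℤ) ∣ evalZ P (Fintype.card F) := (Int.natCast_dvd_natCast.2
      (h3.dvd_of_dvd_mul_right (hx.symm.trans ho).dvd)).trans h
    push_cast at h4
    exact ⟨P, hP, (dvd_mul_right _ _).trans h4, (dvd_mul_left _ _).trans h4⟩
  · rintro ⟨P, hP, h3, h4⟩
    obtain ⟨w, hw, -⟩ := exists_word_F4 P (by simp only [List.mem_cons] at hP ⊢; tauto)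
      (Fintype.card F)
    rw [← hw] at h3 h4
    obtain ⟨c, hc, ho⟩ := exists_tor_mul (AlgebraicClosure F) Fintype.one_lt_card (card_cast_alg F p)
      w hr.out hs.out hrs h3 h4
    rw [← ho]
    exact exists_orderOf_tor certF4 rootF4 F p snfF4 (surjF4 F) hc

/-- Adjacency with the characteristic. -/
theorem adj_F4_char_iff (h2 : s ≠ p) (h3 : s ≠ 2) :
    (∃ x : chevF4.group F, orderOf x = p * s) ↔
      orderOf ((Fintype.card F : ℕ) : ZMod s) ∈ ({1, 2, 3, 4, 6} : Finset ℕ) := by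
  simp only [Finset.mem_insert, Finset.mem_singleton]
  constructor
  · rintro ⟨x, hx⟩
    obtain ⟨c, u, hu, ⟨w, hw⟩, hc, ⟨j, hj⟩, ho⟩ := exists_jordan certF4 rootF4 F p snfF4 x
    have h4 : s ∣ orderOf c := (Nat.Coprime.coprime_dvd_right (orderOf_dvd_of_pow_eq_one hj)
      (Nat.Coprime.pow_right _ ((Nat.coprime_primes hs.out hp.out).2 h2))).dvd_of_dvd_mul_right
      (by rw [← ho, hx]; exact dvd_mul_left _ _)
    rcases ({r | rootF4.weyl.Pos r} ∩ rootF4.weyl.psi {c}).eq_empty_or_nonempty with h0 | ⟨a, ha⟩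
    · rw [h0, spanX_empty, Subgroup.mem_bot] at hu
      rw [hu, orderOf_one, mul_one, hx] at ho
      exact absurd (ho ▸ dvd_mul_right p s) hc
    rcases orderOf_torF4_root hw ha.2.1 (ha.2.2 c rfl) with ⟨P, hP, h⟩ | h
    · have h5 := (Int.natCast_dvd_natCast.2 h4).trans h
      simp only [List.mem_cons, List.not_mem_nil, or_false] at hP
      rcases hP with rfl | rfl | rfl
      · have := dvd_P3.1 h5; simp only [Finset.mem_insert, Finset.mem_singleton] at this; omega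
      · have := dvd_P1.1 h5; simp only [Finset.mem_insert, Finset.mem_singleton] at this; omega
      · have := (dvd_P2 h3).1 h5; simp only [Finset.mem_insert, Finset.mem_singleton] at this; omega
    · exact absurd ((Nat.prime_dvd_prime_iff_eq hs.out Nat.prime_two).1
        (hs.out.dvd_of_dvd_pow (n := 3) (h4.trans h))) h3
  · intro h
    have hq : 1 ≤ Fintype.card F := Fintype.card_pos
    have hps : ¬ p ∣ s := fun e => h2 ((Nat.prime_dvd_prime_iff_eq hp.out hs.out).1 e).symm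
    rw [mul_comm]
    by_cases h1 : orderOf ((Fintype.card F : ℕ) : ZMod s) = 1
    · obtain ⟨z, hz, -⟩ := exists_unit_order (AlgebraicClosure F) (n := s)
        (by rwa [Int.cast_natCast, Ne, CharP.cast_eq_zero_iff _ p])
      rw [Int.natAbs_natCast] at hz
      have h4 : orderOf (Pi.mulSingle (0 : Fin 4) z : Fin 4 → (AlgebraicClosure F)ˣ) = s := by
        rw [← hz]
        exact orderOf_injective (MonoidHom.mulSingle (fun _ : Fin 4 => (AlgebraicClosure F)ˣ) 0)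
          (Pi.mulSingle_injective (M := fun _ : Fin 4 => (AlgebraicClosure F)ˣ) 0) z
      have h5 : chr (Pi.mulSingle (0 : Fin 4) z : Fin 4 → (AlgebraicClosure F)ˣ)
          (wF4.rc (wF4.simple 1)) = 1 := by
        rw [wF4.rc_simple, chr_single]
        rfl
      have h6 := (wF4.tor_one _).trans ((pow_eq_self_iff h4).2 h1)
      rw [← h4] at hps ⊢
      exact exists_orderOf_tor_mul certF4 rootF4 F p snfF4 (surjF4 F) (w := 1) h6 hps
        (r := wF4.simple 1) (rootF4.weyl_mem.1 (wF4.simple_mem 1)) (one_smul _ _) h5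
    obtain ⟨P, hP, h4⟩ : ∃ P ∈ [[-1, 0, 0, 0, 1], [-1, 1, 0, -1, 1], [1, -1, 0, -1, 1]],
        (s : ℤ) ∣ evalZ P (Fintype.card F) := by
      rcases h with h | h | h | h | h
      · exact absurd h h1
      · exact ⟨_, by simp, dvd_P3.2 (by simp [h])⟩
      · exact ⟨_, by simp, dvd_PD h⟩
      · exact ⟨_, by simp, dvd_P3.2 (by simp [h])⟩
      · exact ⟨_, by simp, (dvd_P2 h3).2 (by simp [h])⟩
    obtain ⟨w, hw, h5⟩ := exists_word_F4 P (by simp only [List.mem_cons] at hP ⊢; tauto)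
      (Fintype.card F)
    obtain ⟨i, hi⟩ := h5 hP
    rw [← hw] at h4
    obtain ⟨c, hc, ho⟩ := exists_tor_prime (AlgebraicClosure F) Fintype.one_lt_card
      (card_cast_alg F p) w hs.out h4
    suffices h6 : chr c (wF4.rc (wF4.simple i)) = 1 by
      rw [← ho] at hps ⊢
      exact exists_orderOf_tor_mul certF4 rootF4 F p snfF4 (surjF4 F) hc hps
        (r := wF4.simple i) (rootF4.weyl_mem.1 (wF4.simple_mem i)) hi h6
    rw [wF4.rc_simple, chr_single]
    have h6 : c i = c i ^ Fintype.card F := by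
      have := congrFun hc i
      rwa [wF4.tor_apply, inv_smul_eq_iff.2 hi.symm, wF4.rc_simple, chr_single] at this
    have h7 : orderOf (c i) ∣ s := orderOf_dvd_of_pow_eq_one (by
      rw [← ho, ← Pi.pow_apply, pow_orderOf_eq_one]; rfl)
    rcases (Nat.dvd_prime hs.out).1 h7 with h8 | h8
    · exact orderOf_eq_one_iff.1 h8
    · exact absurd ((pow_eq_self_iff h8).1 h6) h1

theorem ord_of_dvd_card_F4 (h1 : r ≠ p) (h : r ∣ Nat.card (chevF4.group F)) :
    orderOf ((Fintype.card F : ℕ) : ZMod r) ∈ ({1, 2, 3, 4, 6, 8, 12} : Finset ℕ) := by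
  have hq : 1 ≤ Fintype.card F := Fintype.card_pos
  have key : ∀ n, r ∣ Fintype.card F ^ n - 1 → orderOf ((Fintype.card F : ℕ) : ZMod r) ∣ n :=
    fun n h => by
      rw [← ZMod.natCast_eq_zero_iff, Nat.cast_sub (Nat.one_le_pow _ _ hq)] at h
      push_cast at h
      exact orderOf_dvd_of_pow_eq_one (sub_eq_zero.1 h)
  rw [Cfsg.Agent.S1062.result rfl] at h
  simp only [hr.out.dvd_mul] at h
  have h3 : ∀ e, e ∣ 2 ∨ e ∣ 6 ∨ e ∣ 8 ∨ e ∣ 12 → e ∈ ({1, 2, 3, 4, 6, 8, 12} : Finset ℕ) := by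
    intro e he
    have : e ≤ 12 := by
      rcases he with h | h | h | h <;> have := Nat.le_of_dvd (by norm_num) h <;> omega
    interval_cases e <;> simp_all
  rcases h with (((h | h) | h) | h) | h
  · exact absurd (hr.out.dvd_of_dvd_pow h) (not_dvd_card p h1)
  all_goals exact h3 _ (by have := key _ h; tauto)

end Cfsg.Lib.Known.WE
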