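import Cfsg.Agent.Known.WeylEnum
import Cfsg.Agent.Chev.WeylTypes
/-!
# Annihilating polynomials of the elements of the Weyl group of type `F₄`
-/
set_option autoImplicit false
set_option maxRecDepth 100000

namespace Cfsg.Lib.Known.WE

open Cfsg.Lib.Chev

def det2L (a b : List ℤ) : ℤ := a.getD 0 0 * b.getD 1 0 - a.getD 1 0 * b.getD 0 0

def det3L (a b c : List ℤ) : ℤ := a.getD 0 0 * det2L (b.eraseIdx 0) (c.eraseIdx 0) -
  a.getD 1 0 * det2L (b.eraseIdx 1) (c.eraseIdx 1) + a.getD 2 0 * det2L b c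

def det4L (a b c d : List ℤ) : ℤ :=
  a.getD 0 0 * det3L (b.eraseIdx 0) (c.eraseIdx 0) (d.eraseIdx 0) -
  a.getD 1 0 * det3L (b.eraseIdx 1) (c.eraseIdx 1) (d.eraseIdx 1) +
  a.getD 2 0 * det3L (b.eraseIdx 2) (c.eraseIdx 2) (d.eraseIdx 2) - a.getD 3 0 * det3L b c d

noncomputable def cycOK (M : List (List ℤ)) (i : Fin 4) : Bool :=
  forceL (omegaL i) fun a => forceL (mulL M a) fun b => forceL (mulL M b) fun c =>
    forceL (mulL M c) fun d => forceZ (det4L a b c d) fun δ =>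
      decide (δ ∣ 8) && (List.finRange 4).all fun j => forceL (omegaL j) fun e =>
        forceL [det4L e b c d, det4L a e c d, det4L a b e d, det4L a b c e] fun P =>
          hornerK M P a fun x => x == e.map (δ * ·)

noncomputable def goodF4 (M : List (List ℤ)) : Bool :=
  annChk 4 M [-1, 0, 0, 0, 1] || annChk 4 M [-1, -1, 0, 1, 1] || annChk 4 M [-1, 1, 0, -1, 1] ||
    ((annChk 4 M [1, 0, 0, 0, 1] || annChk 4 M [1, 0, -1, 0, 1]) && (List.finRange 4).all (cycOK M))

theorem det2L_eq_1' : type_of% @det2L.eq_1 := @det2L.eq_1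
theorem det3L_eq_1' : type_of% @det3L.eq_1 := @det3L.eq_1
theorem det4L_eq_1' : type_of% @det4L.eq_1 := @det4L.eq_1
theorem cycOK_eq_1' : type_of% @cycOK.eq_1 := @cycOK.eq_1
theorem goodF4_eq_1' : type_of% @goodF4.eq_1 := @goodF4.eq_1

theorem treeF4 : treeChk (l := 4) cartanF4 goodF4 25 (rhoL 4) (idL 4) = true := by
  decide +kernel

end Cfsg.Lib.Known.WE
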