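import Cfsg.Agent.Spor.FmTup

/-! Fischer model kit: derived series witnesses and maximality of a set stabiliser. -/

set_option autoImplicit false

namespace Cfsg.Lib.Known

open Cfsg.Lib.Spor.Bulk Cfsg.Lib.Spor.Fm
open scoped commutatorElement

/-- the commutator word of two products of words of `A` -/
noncomputable def comW (A : List (List ℕ)) (e : List ℕ × List ℕ) : List ℕ :=
  (mapL (getN [] A) e.1).flatten ++ ((mapL (getN [] A) e.2).flatten ++
    ((mapL (getN [] A) e.1).flatten.reverse ++ (mapL (getN [] A) e.2).flatten.reverse))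

/-- every word of `B` is a commutator of two products of words of `A` -/
noncomputable def comL (C : Cx) (A B : List (List ℕ)) : List (List ℕ × List ℕ) → Bool :=
  List.rec (fun _ => true) (fun W _ r E => List.rec false (fun e E' _ =>
    band (C.eqW W (comW A e)) (r E')) E) B

variable {G : Type*} [Group G] {D : Set G} {C : Cx} (M : Mdl G D C)

theorem fm_flat_mem {K : Subgroup G} {A : List (List ℕ)} (hA : ∀ W ∈ A, M.el W ∈ K) (I : List ℕ) :
    M.el (mapL (getN [] A) I).flatten ∈ K := by
  refine wv_flatten_mem fun V hV => ?_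
  rw [mapL_eq, List.mem_map] at hV
  obtain ⟨i, -, rfl⟩ := hV
  rcases getN_mem_or [] A i with h | h
  · exact hA _ h
  · rw [h]; exact one_mem _

theorem fm_comL {K : Subgroup G} {A B : List (List ℕ)} {E : List (List ℕ × List ℕ)}
    (hA : ∀ W ∈ A, M.el W ∈ K) (h : comL C A B E = true) : ∀ W ∈ B, M.el W ∈ ⁅K, K⁆ := by
  induction B generalizing E with
  | nil => exact forall_mem_nil'
  | cons W B ih =>
    cases E with
    | nil => exact absurd h (by simp [comL])
    | cons e E =>
      refine forall_mem_cons' ?_ (ih (band_right h))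
      have h1 := fm_flat_mem M hA e.1
      have h2 := fm_flat_mem M hA e.2
      have h3 : M.el (comW A e) = ⁅(M.el (mapL (getN [] A) e.2).flatten)⁻¹,
          (M.el (mapL (getN [] A) e.1).flatten)⁻¹⁆ := by
        rw [commutatorElement_def, inv_inv, inv_inv, ← M.el_reverse, ← M.el_reverse, comW]
        simp only [Mdl.el, wv_append]
      rw [M.el_eq_of_eqW (band_left h), h3]
      exact Subgroup.commutator_mem_commutator (inv_mem h2) (inv_mem h1)

theorem fm_der {H : Subgroup G} {i : ℕ} {A B : List (List ℕ)} {E : List (List ℕ × List ℕ)}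
    (hA : ∀ W ∈ A, M.el W ∈ (derivedSeries H i).map H.subtype) (h : comL C A B E = true) :
    ∀ W ∈ B, M.el W ∈ (derivedSeries H (i + 1)).map H.subtype := by
  rw [derivedSeries_succ, Subgroup.map_commutator]
  exact fm_comL M hA h

theorem fm_der_ne {H : Type*} [Group H] [Group.IsSolvable H] {i : ℕ} (h : derivedSeries H i ≠ ⊥) :
    derivedSeries H (i + 1) ≠ derivedSeries H i := by
  intro e
  obtain ⟨n, hn⟩ := (inferInstance : Group.IsSolvable H)
  have key : ∀ k, derivedSeries H (i + k) = derivedSeries H i := by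
    intro k
    induction k with
    | zero => rfl
    | succ k ih => rw [← add_assoc, derivedSeries_succ, ih, ← derivedSeries_succ, e]
  apply h
  rw [← key n, eq_bot_iff, ← hn]
  have : ∀ k, derivedSeries H (n + k) ≤ derivedSeries H n := by
    intro k
    induction k with
    | zero => exact le_rfl
    | succ k ih =>
      rw [← add_assoc, derivedSeries_succ]
      exact (Subgroup.commutator_le_left _ _).trans ih
  rw [add_comm]; exact this i

theorem fm_closure_top [IsSimpleGroup G] {r : ℕ} (hr : r < C.n) (h1 : M.t r ≠ 1) :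
    Subgroup.closure (M.tS (ones C.n)) = ⊤ := by
  have hD : M.tS (ones C.n) = D := by
    ext d
    rw [M.mem_D]
    exact ⟨fun ⟨q, hq, _, e⟩ => ⟨q, hq, e⟩, fun ⟨q, hq, e⟩ => ⟨q, hq, by simp [testBit_ones, hq], e⟩⟩
  rw [hD]
  have hn : (Subgroup.closure D).Normal := ⟨fun x hx g => by
    induction hx using Subgroup.closure_induction with
    | mem d hd => exact Subgroup.subset_closure ((M.conj_mem_iff g d).2 hd)
    | one => simp
    | mul a b _ _ ha hb => simpa using mul_mem ha hb
    | inv a _ ha => simpa [mul_assoc] using inv_mem ha⟩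
  refine (hn.eq_bot_or_eq_top).resolve_left fun e => h1 ?_
  have := Subgroup.subset_closure (k := D) (M.t_mem hr)
  rwa [e, SetLike.mem_coe, Subgroup.mem_bot] at this

/-- maximality of the stabiliser of a set which is an orbit of involutions of the stabiliser -/
theorem fm_coatom {s r : ℕ} {A : List (List ℕ)} {R : List ℕ} {o o' : Orb}
    (hA : allL (C.memB ⟨[], [], [s]⟩) A = true) (hr : M.t r ∈ M.grp ⟨[], [], [s]⟩) (hs : s.testBit r = true)
    (h1 : C.subB (ones C.n) (o.ev C A (setL (r :: R))) = true) (h2 : C.subB s (o'.ev C A (setL [r])) = true)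
    (h3 : ∀ p ∈ R, ∀ K : Subgroup G, M.grp ⟨[], [], [s]⟩ ≤ K → M.t p ∈ K → K = ⊤)
    (h4 : M.grp ⟨[], [], [s]⟩ ≠ ⊤) : IsCoatom (M.grp ⟨[], [], [s]⟩) := by
  refine ⟨h4, fun K hK => ?_⟩
  by_contra hT
  have hW := M.gW_le_grp hA
  refine hK.not_ge fun x hx => M.mem_grp_S.2 (forall_mem_cons' (M.inv_of_maps fun q hq hq' => ?_) forall_mem_nil')
  have hq1 : M.t q ∈ K := hK.le (M.closure_tS_le hW (forall_mem_cons' (fun _ => hr) forall_mem_nil') h2
    (Subgroup.subset_closure ⟨q, hq, hq', rfl⟩))
  have hp := M.act_lt' x hq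
  have hq2 : M.t (M.act x q) ∈ K := by
    rw [M.t_act x q hq]; exact mul_mem (mul_mem hx hq1) (inv_mem hx)
  obtain ⟨p, p1, p2, y, hy, e⟩ := M.of_orb o hp (Cx.of_subB h1 hp (by simp [testBit_ones, hp]))
  rcases List.mem_cons.1 ((testBit_setL _ _).1 p2) with rfl | p3
  · rw [← e, M.mem_grp_S.1 (hW hy) s List.mem_cons_self p p1, hs]
  · refine absurd (h3 p p3 K hK.le ?_) hT
    rw [← e, M.t_act y p p1] at hq2
    have hy' := hK.le (hW hy)
    simpa [mul_assoc] using mul_mem (mul_mem (inv_mem hy') hq2) hy'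

theorem fm_top [IsSimpleGroup G] {σ : Sp} {r p : ℕ} {A : List (List ℕ)} {W : List ℕ} {o : Orb}
    (hA : allL (C.memB σ) A = true) (hr : M.t r ∈ M.grp σ) (hr' : r < C.n) (h0 : M.t r ≠ 1)
    (hW : M.t p = M.el W) (h : C.subB (ones C.n) (o.ev C (W :: A) (setL [r])) = true)
    (K : Subgroup G) (hK : M.grp σ ≤ K) (hp : M.t p ∈ K) : K = ⊤ := by
  rw [eq_top_iff, ← fm_closure_top M hr' h0]
  refine M.closure_tS_le (gW_le (forall_mem_cons' (show M.el W ∈ K from hW ▸ hp) fun V hV =>
    hK (M.mem_of_memB (allL_iff.1 hA V hV)))) (forall_mem_cons' (fun _ => hK hr) forall_mem_nil') h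

end Cfsg.Lib.Known
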