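import Cfsg.Agent.Known.GenSp
import Cfsg.Agent.Chev.ESDGen

/-!
Generation of the classical groups by two elements.
-/

set_option autoImplicit false
set_option linter.unusedSectionVars false

namespace Cfsg.Lib.Known

open Cfsg.Lib.Chev Cfsg.Lib.Class Matrix Function ESD ESD.Pair
open scoped commutatorElement

theorem stein_mem {G : Type*} [Group G] {H : Subgroup G} {h x n : G} (hc : Commute h (n * h * n⁻¹)) (m1 : h ∈ H)
    (m2 : x * n ∈ H) : h * x * h⁻¹ * (h * (n * h * n⁻¹ * x * (n * h * n⁻¹)⁻¹) * h⁻¹)⁻¹ *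
      (n * h * n⁻¹ * x * (n * h * n⁻¹)⁻¹) * x⁻¹ ∈ H := by
  have m3 := mul_mem (mul_mem m2 m1) (inv_mem m2)
  convert mul_mem (mul_mem (mul_mem m1 m3) (inv_mem m1)) (inv_mem m3) using 1
  rw [show x * n * h * (x * n)⁻¹ = x * (n * h * n⁻¹) * x⁻¹ by group]
  generalize n * h * n⁻¹ = h' at hc
  calc _ = h * x * h' * x⁻¹ * (h * h')⁻¹ * h' * x * h'⁻¹ * x⁻¹ := by group
    _ = _ := by rw [hc.eq]; group

theorem mul_mem_of_gen {F : Type*} [Field F] [Finite F] {l : Fˣ} (hl : ∀ x, x ∈ Subgroup.zpowers l) {W : Set F}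
    (h0 : 0 ∈ W) {c : F} (hc : c ≠ 0) (h1 : c ∈ W) (h : ∀ c ∈ W, l * c ∈ W) (x : F) : x ∈ W := by
  rcases eq_or_ne x 0 with rfl | hx
  · exact h0
  obtain ⟨k, e⟩ := exists_pow_eq_of_generator hl (div_ne_zero hx hc)
  rw [← div_mul_cancel₀ x hc, ← e]
  clear e
  induction k with
  | zero => simpa
  | succ k ih => simpa [pow_succ', mul_assoc] using h _ ih

theorem exists_sl_gen (F : Type*) [Field F] [Finite F] (n : ℕ) : ∃ (a b k : Fin (n + 3))
    (s w : SpecialLinearGroup (Fin (n + 3)) F), a ≠ b ∧ a ≠ k ∧ b ≠ k ∧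
    (∀ T : Subgroup _, (∀ x, slE a b x ∈ T ∧ slE b a x ∈ T) → s ∈ T) ∧ Subgroup.closure {s, w} = ⊤ ∧
    s ^ (if Nat.card F = 2 then 2 else Nat.card F - 1) = 1 := by
  obtain ⟨W, hW⟩ := exists_isMono (F := F) (finRotate (n + 3))⁻¹
    (Pi.mulSingle 0 ((-1) ^ (n + 2))) (by
      rw [Finset.prod_pi_mulSingle', if_pos (Finset.mem_univ _), Equiv.Perm.sign_inv, sign_finRotate]
      simp [← mul_pow])
  have := Fintype.ofFinite F
  have h01 : (0 : Fin (n + 3)) ≠ 1 := by simp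
  have h02 : (0 : Fin (n + 3)) ≠ 2 := Fin.ne_of_val_ne (by rw [Fin.val_two]; simp)
  have h12 : (1 : Fin (n + 3)) ≠ 2 := Fin.ne_of_val_ne (by rw [Fin.val_two]; simp)
  have hx : IsAddMap (slE (0 : Fin (n + 3)) 1 : F → _) := stA_slE.add 0 1 h01
  split_ifs with hF
  · refine ⟨0, 1, 2, _, W, h01, h02, h12, fun T h => (h 1).1, closure_eq_top_of_card_le (by omega) hW, ?_⟩
    have := FiniteField.cast_card_eq_zero F
    rw [← Nat.card_eq_fintype_card, hF, Nat.cast_ofNat, ← one_add_one_eq_two] at this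
    rw [sq, hx, this, hx.zero]
  obtain ⟨l, hl⟩ := IsCyclic.exists_generator (α := Fˣ)
  have l1 : (l : F) ≠ 1 := fun e => by
    have := Nat.le_of_dvd one_pos (card_sub_one_dvd_of_generator hl (by rw [pow_one, e]))
    have := Finite.one_lt_card (α := F)
    omega
  obtain ⟨h, hh, h0⟩ : ∃ h, IsMono h 1 (fun i => if i = 0 then l.1 else if i = 2 then l.1⁻¹ else 1) ∧
      ∀ T : Subgroup (SpecialLinearGroup (Fin (n + 3)) F), (∀ x, slE 0 2 x ∈ T ∧ slE 2 0 x ∈ T) → h ∈ T :=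
    ⟨_, isMono_stH h02 l.ne_zero, fun T h => mul_mem
      (mul_mem (mul_mem (h _).1 (h _).2) (h _).1) (mul_mem (mul_mem (h _).1 (h _).2) (h _).1)⟩
  refine ⟨0, 2, 1, h, slE 0 1 1 * W, h02, h01, h12.symm, h0, ?_, ?_⟩
  swap
  · have : ∀ k : ℕ, IsMono (h ^ k) 1 fun i => (if i = 0 then l.1 else if i = 2 then l.1⁻¹ else 1) ^ k := fun k => by
      induction k with
      | zero => simpa using isMono_one
      | succ k ih => exact pow_succ h k ▸ (ih.mul hh).congr (by simp) fun i => (pow_succ _ _).symm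
    refine ((this _).congr rfl fun i => ?_).eq isMono_one
    rw [Nat.card_eq_fintype_card]
    exact FiniteField.pow_card_sub_one_eq_one _ (hh.ne_zero i)
  generalize hH : Subgroup.closure {h, slE 0 1 (1 : F) * W} = H
  have m1 : h ∈ H := hH ▸ Subgroup.subset_closure (by simp)
  have m2 : slE 0 1 (1 : F) * W ∈ H := hH ▸ Subgroup.subset_closure (by simp)
  have h1 := ((hW.mul hh).mul hW.inv).congr (σ' := 1)
    (ε' := fun i => if i + 1 = 0 then l.1 else if i + 1 = 2 then l.1⁻¹ else 1) (by simp) fun i : Fin (n + 3) => by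
      have := hW.ne_zero (i + 1)
      simp only [inv_inv, finRotate_succ_apply, Equiv.Perm.coe_one, id]
      field_simp
  have a1 : ∀ t : F, h * slE 0 1 t * h⁻¹ = slE 0 1 (l.1 * t) := fun t => by simpa [h12] using hh.conj_slE h01 t
  have a2 : ∀ t : F, W * h * W⁻¹ * slE 0 1 t * (W * h * W⁻¹)⁻¹ = slE 0 1 (l.1 * t) := fun t => by
    simpa [h12, h02.symm, show (1 : Fin (n + 3)) + 1 = 2 from rfl] using h1.conj_slE h01 t
  have m3 := stein_mem ((hh.mul h1).eq ((h1.mul hh).congr rfl fun i => mul_comm _ _)) m1 m2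
  simp only [a1, a2, hx.inv, hx _ _] at m3
  have m5 : ∀ t, slE 0 1 t ∈ H := mul_mem_of_gen hl (W := {t | slE 0 1 t ∈ H}) (by simp [hx.zero]) (fun e =>
    pow_ne_zero 2 (sub_ne_zero.2 l1) (by linear_combination -e)) m3 fun c hc =>
      show slE 0 1 _ ∈ H from a1 c ▸ mul_mem (mul_mem m1 hc) (inv_mem m1)
  exact eq_top_of_cyclic H hW (by simpa using mul_mem (inv_mem (m5 1)) m2) m5

variable {K V G : Type*} [Field K] {σ : K →+* K} [AddCommGroup V] [Module K V] [Group G] {D : ESD σ V G}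
  {H : Subgroup G} {P Q R : D.Pair} {x y : V} {g : G}

theorem comm_mem {a b : G} (ha : a ∈ H) (hb : b ∈ H) : ⁅a, b⁆ ∈ H :=
  mul_mem (mul_mem (mul_mem ha hb) (inv_mem ha)) (inv_mem hb)

/-- The vectors which occur in the unipotent radical. -/
def LV (H : Subgroup G) (R : D.Pair) : Submodule K V where
  carrier := {x | x ∈ R.perp ∧ ∀ s : K, ∃ a : D.Par, a.v = s • x ∧ R.t a ∈ H}
  zero_mem' := ⟨zero_mem _, fun s => ⟨1, by simp, by simp⟩⟩
  add_mem' := fun {x y} hx hy => ⟨add_mem hx.1 hy.1, fun s => by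
    obtain ⟨a, e, h⟩ := hx.2 s
    obtain ⟨b, e', h'⟩ := hy.2 s
    exact ⟨a * b, by simp [e, e'], t_mul (e ▸ R.perp.smul_mem s hx.1) (e' ▸ R.perp.smul_mem s hy.1) ▸ mul_mem h h'⟩⟩
  smul_mem' c x hx := ⟨R.perp.smul_mem c hx.1, fun s => smul_smul s c x ▸ hx.2 _⟩

theorem LV_conj (hg : g ∈ H) {s : K} (h1 : D.ρ g P.u = s • Q.u) (hs : s ≠ 0) (hx : x ∈ LV H P)
    (h2 : D.ρ g x ∈ Q.perp) : D.ρ g x ∈ LV H Q := ⟨h2, fun c => by
  obtain ⟨a, e, h⟩ := hx.2 ((σ s)⁻¹ * c)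
  exact ⟨(g • a).sc (σ s), by rw [Par.sc_v, Par.smul_v, e, map_smul, smul_smul, mul_inv_cancel_left₀ (by simpa)], conj_t h1 hs (a := a) (by simp [e, (mem_perp.1 hx.1).1]) ▸ mul_mem (mul_mem hg h) (inv_mem hg)⟩⟩

theorem LV_fix (hg : g ∈ H) (hf : g ∈ P.fix) (hx : x ∈ LV H P) : D.ρ g x ∈ LV H P :=
  LV_conj hg (s := 1) (by simpa using hf.1) one_ne_zero hx (ρ_mem_perp hf.1 hf.2 hx.1)

theorem LV_comm (o : P.Orth Q) (hx : x ∈ LV H Q) (hx' : x ∈ P.perp) (hy : y ∈ LV H P) (hy' : y ∈ Q.perp)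
    (h : D.h x y ≠ 0) : Q.u ∈ LV H P := ⟨o.u, fun s => by
  obtain ⟨a, e, k⟩ := hx.2 1
  obtain ⟨b, e', k'⟩ := hy.2 (-(D.ε * s / D.h x y))
  rw [one_smul] at e
  refine ⟨_, ?_, o.commutator_t (e ▸ hx') (e ▸ hx.1) (e' ▸ P.perp.smul_mem _ hy.1) (e' ▸ Q.perp.smul_mem _ hy') ▸
    comm_mem k k'⟩
  simp [e, e', div_mul_cancel₀ _ h]⟩

theorem LV_t (hm : ∀ l : D.Par, l.v = 0 → ∃ s, l = D.lam s) (hx : x ∈ LV H P) (hy : y ∈ LV H P) (h : D.h x y ≠ 0)
    {a : D.Par} (ha : a.v ∈ LV H P) : P.t a ∈ H := by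
  obtain ⟨b, e, k⟩ := ha.2 1
  rw [one_smul] at e
  obtain ⟨s, hs⟩ := hm (b⁻¹ * a) (by simp [e])
  obtain ⟨c, e1, k1⟩ := hx.2 1
  obtain ⟨d, e2, k2⟩ := hy.2 (s / D.h x y)
  rw [one_smul] at e1
  have := commutator_t (e1 ▸ hx.1) (e2 ▸ P.perp.smul_mem _ hy.1)
  rw [e1, e2, map_smul, smul_eq_mul, div_mul_cancel₀ _ h, ← hs, t_mul (neg_mem (e ▸ ha.1)) ha.1, t_inv (e ▸ ha.1)] at this
  exact (H.mul_mem_cancel_left (inv_mem k)).1 (this ▸ comm_mem k1 k2)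

theorem el_eq_t (o : P.Orth Q) (s : K) : el P Q s = P.t (Q.flip.x (-σ s)) := by
  rw [el, o.symm.flip'.t_x]; simp

theorem el_flip (o : P.Orth Q) (s : K) : el P.flip Q.flip s = el Q P (-σ s) := by
  rw [el, flip_flip_t (o.symm.flip.x_mem _), x_sc, el_eq_t o.symm]; simp [D.invol]

theorem nOne_mem {x y : K → G} (h : ∀ s, x s ∈ H) (h' : ∀ s, y s ∈ H) (s : K) : nOne x y s ∈ H :=
  mul_mem (mul_mem (h _) (h' _)) (h _)

theorem LV_el (o : P.Orth Q) (h : ∀ s, el P Q s ∈ H) : Q.u' ∈ LV H P :=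
  ⟨o.u', fun s => ⟨Q.flip.x s, rfl, by simpa [el_eq_t o, D.invol] using h (-σ s)⟩⟩

variable {m : ℕ} {F : D.Frame m}

theorem perp_le {i : Fin m} {L : Submodule K V} (h : ∀ j, j ≠ i → (F.P j).u ∈ L ∧ (F.P j).u' ∈ L) (hW : F.W m ≤ L) :
    (F.P i).perp ≤ L := fun x hx => by
  obtain ⟨w, hw, e⟩ := Frame.exists_decomp (F := F) x m
  have hw' := Frame.mem_W.1 hw i i.2
  have := e (L.comap (LinearMap.id - (D.ε • D.h (F.P i).u').smulRight (F.P i).u -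
    (D.h (F.P i).u).smulRight (F.P i).u')) fun j => by
      by_cases e : j = i
      · simp [e]
      · simpa [(F.orth e).hs] using h j e
  simpa using add_mem (show x - w ∈ L by simpa [mem_perp.1 hx, mem_perp.1 hw'] using this) (hW hw)

theorem frame_t_mem (hm : ∀ l : D.Par, l.v = 0 → ∃ s, l = D.lam s) {i j k : Fin m} (ij : i ≠ j) (ik : i ≠ k)
    (jk : j ≠ k) (hel : ∀ a b, a ≠ b → ∀ s, el (F.P a) (F.P b) s ∈ H) {t : G} (ht : t ∈ H) (fi : t ∈ (F.P i).fix)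
    (fj : t ∈ (F.P j).fix) (c1 : D.h (F.P k).u' (D.ρ t (F.P k).u') ≠ 0)
    (c2 : ∀ L : Submodule K V, (F.P k).u ∈ L → (F.P k).u' ∈ L → (∀ x ∈ L, D.ρ t x ∈ L) → F.W m ≤ L)
    {a : D.Par} (ha : a.v ∈ (F.P i).perp) : (F.P i).t a ∈ H := by
  have h1 : ∀ a b, a ≠ b → (F.P b).u' ∈ LV H (F.P a) := fun a b h => LV_el (F.orth h) (hel a b h)
  have h2 := LV_comm (F.orth ij) (h1 j k jk) (F.orth ik).u' (LV_fix ht fi (h1 i k ik))
    (ρ_mem_perp fj.1 fj.2 (F.orth jk).u') c1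
  have h3 : ∀ b, b ≠ i → (F.P b).u ∈ LV H (F.P i) := fun b hb => by
    by_cases e : j = b
    · exact e ▸ h2
    obtain ⟨k1, -, -, -, k2⟩ := (F.orth e).n_apply one_ne_zero
    simpa [k1] using LV_fix (nOne_mem (hel _ _ e) (hel _ _ (Ne.symm e)) 1)
      ⟨k2 _ (F.orth ij.symm).u (F.orth hb).u, k2 _ (F.orth ij.symm).u' (F.orth hb).u'⟩ h2
  exact LV_t hm h2 (h1 i j ij) (by simp) (perp_le (fun b hb => ⟨h3 b hb, h1 i b hb.symm⟩)
    (c2 _ (h3 k ik.symm) (h1 i k ik) fun _ => LV_fix ht fi) ha)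

/-- Generation by two opposite unipotent radicals. -/
def Gen (P : D.Pair) : Prop := ∀ H : Subgroup G, (∀ a : D.Par, a.v ∈ P.perp → P.t a ∈ H ∧ P.flip.t a ∈ H) → H = ⊤

theorem mem_fix_flip (h : g ∈ P.fix) : g ∈ P.flip.fix := ⟨h.2, by simp [h.1]⟩

theorem exists_levi (F : D.Frame (m + 1)) : ∃ ψ : SpecialLinearGroup (Fin (m + 1)) K →* G,
    ∀ a b, a ≠ b → ∀ s, ψ (slE a b s) = el (F.P a) (F.P b) s := by
  let b : Fin (m + 1) ⊕ Fin (m + 1) ⊕ Empty → V :=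
    Sum.elim (fun i => (F.P i).u) (Sum.elim (fun i => (F.P i).u') Empty.elim)
  let c : Fin (m + 1) ⊕ Fin (m + 1) ⊕ Empty → V →ₗ[K] K :=
    Sum.elim (fun i => D.ε • D.h (F.P i).u') (Sum.elim (fun i => D.h (F.P i).u) Empty.elim)
  obtain ⟨ι, hι⟩ : ∃ ι, ι = Fintype.linearCombination K b := ⟨_, rfl⟩
  obtain ⟨π, hπ⟩ : ∃ π, π = LinearMap.pi c := ⟨_, rfl⟩
  have h0 : ∀ v, π (ι v) = v := fun v => DFunLike.congr_fun (show π ∘ₗ ι = .id from LinearMap.pi_ext' fun x =>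
    LinearMap.ext_ring (funext fun z => by
      rcases x with i | i | i <;> rcases z with j | j | j <;> (try exact i.elim) <;> (try exact j.elim) <;>
        by_cases e : i = j <;> simp [hι, hπ, b, c, e, fun e : i ≠ j => (F.orth e).hs])) v
  let Ψ : Matrix _ _ K →* Module.End K V :=
    { toFun := fun M => 1 + ι ∘ₗ toLin' (M - 1) ∘ₗ π
      map_one' := by simp
      map_mul' := fun M N => LinearMap.ext fun v => by
        simp [h0, sub_mulVec, mulVec_sub, ← mulVec_mulVec]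
        abel }
  have e : ∀ a b, a ≠ b → ∀ s, D.ρ (el (F.P a) (F.P b) s) = Ψ (levM σ Empty (slE a b s)) := fun a a' h s =>
    LinearMap.ext fun v => by
      rw [(F.orth h).el_apply, levM_slE _ _ h]
      have : ∀ i (c : K), ι (update 0 i c) = c • b i := fun i c => hι ▸ Fintype.linearCombination_apply_single K b i c
      simp [Ψ, add_sub_assoc, sub_mulVec, single_mulVec, this, hπ, b, c, mul_assoc, mul_left_comm]
  obtain ⟨ψ, hψ⟩ := exists_hom_lift D.inj (Ψ.comp (levM σ Empty)) fun T hT =>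
    closure_slE T fun a b h s => hT _ ⟨_, e a b h s⟩
  exact ⟨ψ, fun a b h s => D.inj ((hψ _).trans (e a b h s).symm)⟩

theorem frame_two_gen [Finite K] (F : D.Frame (m + 3)) (hm : ∀ l : D.Par, l.v = 0 → ∃ s, l = D.lam s)
    (gen : ∀ i, Gen (F.P i)) (ht : ∀ k, ∃ t N, t ^ N = 1 ∧ (if Nat.card K = 2 then 2 else Nat.card K - 1).Coprime N ∧
      (∀ i, i ≠ k → t ∈ (F.P i).fix) ∧ D.h (F.P k).u (D.ρ t (F.P k).u) ≠ 0 ∧ D.h (F.P k).u' (D.ρ t (F.P k).u') ≠ 0 ∧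
      ∀ L : Submodule K V, (F.P k).u ∈ L → (F.P k).u' ∈ L → (∀ x ∈ L, D.ρ t x ∈ L) → F.W (m + 3) ≤ L) :
    ∃ a b : G, Subgroup.closure {a, b} = ⊤ := by
  obtain ⟨i, j, k, s, w, ij, ik, jk, s1, s2, s3⟩ := exists_sl_gen K m
  obtain ⟨t, N, t1, t2, t3, t4, t5, t6⟩ := ht k
  obtain ⟨ψ, hψ⟩ := exists_levi F
  refine ⟨t * ψ s, ψ w, ?_⟩
  generalize hH : Subgroup.closure {t * ψ s, ψ w} = H
  have key : ∀ a b, a ≠ b → a ≠ k → b ≠ k → ∀ x, slE a b x ∈ (Subgroup.centralizer {t}).comap ψ := fun a b h ha hb x => by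
    rw [Subgroup.mem_comap, hψ _ _ h, Subgroup.mem_centralizer_singleton_iff]
    exact (commute_t (t3 b hb).2 ((F.orth h).symm.flip'.x_mem _) (by simp [(t3 a ha).1])).symm
  obtain ⟨k1, k2⟩ := mem_of_mul_coprime (K := H) (Commute.symm (Subgroup.mem_centralizer_singleton_iff.1
    (s1 _ fun x => ⟨key _ _ ij ik jk x, key _ _ ij.symm jk ik x⟩))) t1 (by rw [← map_pow, s3, map_one]) t2
    (hH ▸ Subgroup.subset_closure (by simp))
  have hel : ∀ a b, a ≠ b → ∀ s, el (F.P a) (F.P b) s ∈ H := fun a b h x => by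
    rw [← hψ _ _ h]
    refine (s2.ge.trans ((Subgroup.closure_le (H.comap ψ)).2 ?_)) (Subgroup.mem_top _)
    rintro _ (rfl | rfl)
    exacts [k2, hH ▸ Subgroup.subset_closure (by simp)]
  refine gen i H fun a ha => ⟨frame_t_mem hm ij ik jk hel k1 (t3 i ik) (t3 j jk) t5 t6 ha,
    frame_t_mem (F := ⟨fun i => (F.P i).flip, fun h => (F.orth h).flip.flip'⟩) hm ij ik jk
      (fun a b h s => el_flip (F.orth h) s ▸ hel _ _ h.symm _) k1 (mem_fix_flip (t3 i ik)) (mem_fix_flip (t3 j jk))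
      (by simpa using t4) (fun L h h' h'' => ?_) (by simpa using ha)⟩
  exact fun v hv => t6 L (by simpa using L.smul_mem D.ε h') h h'' (by simpa [Frame.mem_W] using hv)

end Cfsg.Lib.Known
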