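import Cfsg.Agent.Known.GenESD
import Cfsg.Agent.Chev.ESDLine

/-!
Generation of the classical groups by two elements, the rank one elements.
-/

set_option autoImplicit false
set_option linter.unusedSectionVars false

namespace Cfsg.Lib.Known

open Cfsg.Lib.Chev Cfsg.Lib.Class Matrix Function ESD ESD.Pair

variable {K V G : Type*} [Field K] {σ : K →+* K} [AddCommGroup V] [Module K V] [Group G] {D : ESD σ V G}
  {H : Subgroup G} {P Q R : D.Pair} {x y : V} {g : G} {m : ℕ} {F : D.Frame m}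

theorem t_mem_conj (hg : g ∈ H) {s s' : K} (h1 : D.ρ g P.u = s • Q.u) (h2 : D.ρ g P.u' = s' • Q.u') (hs : s ≠ 0)
    (h : ∀ a : D.Par, a.v ∈ P.perp → P.t a ∈ H) {a : D.Par} (ha : a.v ∈ Q.perp) : Q.t a ∈ H := by
  have k : ((g⁻¹ • a).sc (σ s)⁻¹).v ∈ P.perp := P.perp.smul_mem _ (mem_perp.2 (by
    simp [← h_ρ_left, h1, h2, mem_perp.1 ha]))
  have := (map_ne_zero σ).2 hs
  have := conj_t h1 hs k.1
  rw [show (g • (g⁻¹ • a).sc (σ s)⁻¹).sc (σ s) = a by ext <;> simp [smul_smul, hs, D.invol]; field_simp] at this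
  exact this ▸ mul_mem (mul_mem hg (h _ k)) (inv_mem hg)

theorem gen_of_all (h : ∀ H : Subgroup G, (∀ i (a : D.Par), a.v ∈ (F.P i).perp →
    (F.P i).t a ∈ H ∧ (F.P i).flip.t a ∈ H) → H = ⊤) (i : Fin m) : Gen (F.P i) := fun H hH => h H fun j a ha => by
  by_cases e : i = j
  · exact e ▸ hH a (e ▸ ha)
  have o := F.orth e
  obtain ⟨k1, -, k2, -⟩ := o.n_apply one_ne_zero
  have hn := nOne_mem (H := H) (fun s => el_eq_t o s ▸ (hH _ (o.flip.x_mem _)).1) 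
    (y := el (F.P j) (F.P i)) (fun s => (hH _ (o.x_mem _)).2) 1
  exact ⟨t_mem_conj hn k1 k2 (by simp) (fun a ha => (hH a ha).1) ha, t_mem_conj (P := (F.P i).flip) (Q := (F.P j).flip)
    (s' := -1) hn k2
    (by simp [k1]) (by simp) (fun a ha => (hH a (by simpa using ha)).2) (by simpa using ha)⟩

theorem gen_of_hasGRD {I : Type*} [Fintype I] [DecidableEq I] {D : ESD σ (I → K) G} {M : D.MFrame m} {p : ℕ}
    {β : Fin m → Fin m → ℤ} (h : M.HasGRD p β) (hβ : ∀ i, 0 < β i i) : ∀ i, Gen (M.frame.P i) := gen_of_all fun H hH => by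
  obtain ⟨W, A, _, _, C, Y, -, top, -, -, hX, -⟩ := h
  refine eq_top_iff.2 (top.ge.trans ((grd_span_le Y).trans (iSup_le fun i => sup_le (fun g hg => ?_) fun g hg => ?_)))
  · obtain ⟨a, ha, rfl, -⟩ := MFrame.exists_t (x := .inl i) (by
      rintro _ ⟨k, hk, rfl⟩
      simpa using mul_pos hk (hβ i)) ((hX i).1 hg)
    exact (hH i a ha).1
  · obtain ⟨a, ha, rfl, -⟩ := MFrame.exists_t (x := .inr i) (by
      rintro _ ⟨k, hk, rfl⟩
      simpa using mul_pos hk (hβ i)) ((hX i).2 hg)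
    exact (hH i a ((flip_perp _).le ha)).2

theorem t_mem_fix {i k : Fin m} (h : i ≠ k) {a : D.Par} (ha : a.v ∈ F.W m) :
    (F.P k).t a ∈ (F.P i).fix ∧ (F.P k).flip.t a ∈ (F.P i).fix :=
  ⟨(F.orth h).t_mem_fix (Frame.mem_W.1 ha i i.2) (Frame.mem_W.1 ha k k.2),
    (F.orth h).flip.t_mem_fix (Frame.mem_W.1 ha i i.2) ((flip_perp _).ge (Frame.mem_W.1 ha k k.2))⟩

theorem frame_two_gen_of_ne [Finite K] (hK : Nat.card K ≠ 2) (F : D.Frame (m + 3))
    (hm : ∀ l : D.Par, l.v = 0 → ∃ s, l = D.lam s) (gen : ∀ i, Gen (F.P i)) {a b : D.Par} (ha : a.v ∈ F.W (m + 3))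
    (hb : b.v ∈ F.W (m + 3)) (ha' : a.c ≠ 0) (hb' : b.c ≠ 0) (h1 : D.ε * σ a.c * D.h a.v b.v = a.c * σ (D.h a.v b.v))
    (h2 : D.h a.v b.v ≠ 0 ∨ D.h b.v b.v ≠ 0 ∨ b.v = 0)
    (hW : ∀ L : Submodule K V, a.v ∈ L → b.v ∈ L → F.W (m + 3) ≤ L) : ∃ a b : G, Subgroup.closure {a, b} = ⊤ := by
  refine frame_two_gen F hm gen fun k => ?_
  have k1 := Frame.mem_W.1 ha k k.2
  have k2 := Frame.mem_W.1 hb k k.2
  have k3 : b.v ∈ (F.P k).flip.perp := by simpa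
  have k4 : a⁻¹.v ∈ (F.P k).perp := neg_mem k1
  obtain ⟨n, hn⟩ := (F.P k).flip.isPGroup_sub ⊤ (ringChar K) ⟨_, b, trivial, k3, rfl⟩
  have := Fintype.ofFinite K
  have e := D.eps_mul_self
  obtain ⟨t, ht⟩ : ∃ t, t = (F.P k).t a * (F.P k).flip.t b * ((F.P k).t a)⁻¹ := ⟨_, rfl⟩
  have key : ∀ x, D.ρ t x = x +
      D.h ((F.P k).u' + a.v - (D.ε * a.c) • (F.P k).u) x • (b.v - (D.ε * D.h a.v b.v) • (F.P k).u) -
      (D.ε * (D.h (b.v - (D.ε * D.h a.v b.v) • (F.P k).u) x + b.c * D.h ((F.P k).u' + a.v - (D.ε * a.c) • (F.P k).u) x)) •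
      ((F.P k).u' + a.v - (D.ε * a.c) • (F.P k).u) := fun x => by
    rw [ht, ρ_mul, ρ_mul, t_apply k3, map_sub, map_add, map_smul, map_smul, ρ_ρ_inv, ← h_ρ_left, ← h_ρ_left, flip_u,
      t_u' k1, t_perp k1 k2.1]
  refine ⟨t, ringChar K ^ n, ?_, ?_, fun i hi => ht ▸ mul_mem (mul_mem
    (t_mem_fix hi ha).1 (t_mem_fix hi hb).2) (inv_mem (t_mem_fix hi ha).1), ?_, ?_, fun L l1 l2 l3 => ?_⟩
  · rw [ht, conj_pow, show _ ^ _ = (1 : G) from congrArg Subtype.val hn, mul_one, mul_inv_cancel]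
  · rw [if_neg hK, Nat.card_eq_fintype_card]
    exact (coprime_card_sub_one K).pow_right _
  · simp [key, mem_perp.1 k1, mem_perp.1 k2, h_symm k1.1, h_symm k2.1, hb']
  · simp only [key, map_add, map_sub, map_smul, map_smulₛₗ, LinearMap.add_apply, LinearMap.sub_apply,
      LinearMap.smul_apply, mem_perp.1 k1, mem_perp.1 k2, h_symm k1.2, h_symm k2.2, u'u', u'u, Pair.one, smul_eq_mul,
      map_mul, map_eps]
    refine fun h => mul_ne_zero (mul_ne_zero ha' hb') ((map_ne_zero σ).2 ha') ?_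
    rcases D.eps with e | e <;> simp only [e] at h h1 <;> linear_combination h1 - h
  have l4 := l3 _ l1
  have l5 := l3 _ l2
  simp only [key, map_add, map_sub, map_smul, map_smulₛₗ, LinearMap.add_apply, LinearMap.sub_apply,
    LinearMap.smul_apply, h_symm k1.1, h_symm k2.1, h_symm k1.2, h_symm k2.2, u'u', u'u, uu, Pair.one, smul_eq_mul,
    map_mul, map_eps] at l4 l5
  have l6 : D.ε • b.v - b.c • a.v ∈ L := by
    convert add_mem (add_mem l4 (L.smul_mem b.c l2)) (L.smul_mem (D.h a.v b.v - 1 - D.ε * a.c * b.c) l1) using 1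
    match_scalars <;> rcases D.eps with e | e <;> (try simp only [e]) <;> ring
  have l7 : a.v ∈ L := by
    by_cases h : D.h a.v b.v = 0
    swap
    · rw [← L.smul_mem_iff ((map_ne_zero σ).2 h)]
      convert add_mem (add_mem (add_mem l5 (L.smul_mem (σ a.c) l6))
        (L.smul_mem (-1 - σ (D.h a.v b.v) - b.c * σ a.c) l2))
        (L.smul_mem (D.ε * a.c * (σ (D.h a.v b.v) + b.c * σ a.c) - σ a.c * D.h a.v b.v) l1) using 1
      match_scalars <;> rcases D.eps with e | e <;> (try simp only [e]) <;> ring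
    rcases h2 with h2 | h2 | h2
    · exact absurd h h2
    · have l8 := l3 _ l6
      simp only [key, map_add, map_sub, map_smul, map_smulₛₗ, LinearMap.add_apply, LinearMap.sub_apply,
        LinearMap.smul_apply, mem_perp.1 k1, mem_perp.1 k2, smul_eq_mul, h, h_symm h, map_mul, map_eps] at l8
      rw [← L.smul_mem_iff h2]
      convert sub_mem (sub_mem (L.smul_mem (1 - D.ε * b.c * D.h a.v a.v) l6) l8) (L.smul_mem
        (D.h b.v b.v - D.ε * b.c ^ 2 * D.h a.v a.v) (sub_mem l2 (L.smul_mem (D.ε * a.c) l1))) using 1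
      match_scalars <;> rcases D.eps with e | e <;> (try simp only [e]) <;> ring
    · simpa [h2, L.smul_mem_iff hb'] using l6
  exact hW L l7 (by simpa [L.smul_mem_iff D.eps_ne] using add_mem l6 (L.smul_mem b.c l7))

theorem frame_two_gen_of_eq [Finite K] (hK : Nat.card K = 2) {D : ESD (RingHom.id K) V G} (F : D.Frame (m + 3))
    (hm : ∀ l : D.Par, l.v = 0 → ∃ s, l = D.lam s) (gen : ∀ i, Gen (F.P i)) {a b : D.Par} (ha : a.v ∈ F.W (m + 3))
    (hb : b.v ∈ F.W (m + 3)) (ha' : a.c ≠ 0) (h1 : D.h a.v b.v ≠ 0)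
    (hW : ∀ L : Submodule K V, a.v ∈ L → b.v ∈ L → F.W (m + 3) ≤ L) : ∃ a b : G, Subgroup.closure {a, b} = ⊤ := by
  refine frame_two_gen F hm gen fun k => ?_
  have k1 := Frame.mem_W.1 ha k k.2
  have k2 := Frame.mem_W.1 hb k k.2
  have k3 : a.v ∈ (F.P k).flip.perp := by simpa
  have k4 : b.v ∈ (F.P k).flip.perp := by simpa
  have := Fintype.ofFinite K
  have two : (2 : K) = 0 := by simpa [← Nat.card_eq_fintype_card, hK] using FiniteField.cast_card_eq_zero K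
  have : CharP K 2 := CharTwo.of_one_ne_zero_of_two_eq_zero one_ne_zero two
  have h01 : ∀ x : K, x ≠ 0 → x = 1 := fun x hx => by
    simpa [← Nat.card_eq_fintype_card, hK] using FiniteField.pow_card_sub_one_eq_one x hx
  have e := h01 _ D.eps_ne
  have c1 := h01 _ ha'
  have c2 := h01 _ h1
  have c3 : D.h b.v a.v = 1 := by simp [D.sym b.v, e, c2]
  have c4 : ∀ a : D.Par, D.h a.v a.v = 0 := fun a => by simp [a.tr, e, CharTwo.add_self_eq_zero]
  have key : ∀ t : G, ∀ N, (∀ i, i ≠ k → t ∈ (F.P i).fix) → (∀ x ∈ [(F.P k).u, (F.P k).u', a.v, b.v],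
      D.ρ (t ^ N) x = x) → t ^ N = 1 := fun t N h h' => Frame.eq_one_of_fix (fun i => by
        by_cases e : i = k
        · exact e ▸ ⟨h' _ (by simp), h' _ (by simp)⟩
        · exact pow_mem (h i e) N)
      (hW (LinearMap.eqLocus (D.ρ (t ^ N)) .id) (h' _ (by simp)) (h' _ (by simp)))
  rw [if_pos hK]
  by_cases c5 : b.c = 0
  · obtain ⟨t, ht⟩ : ∃ t, t = (F.P k).t b * (F.P k).t a * (F.P k).flip.t a * (F.P k).t b := ⟨_, rfl⟩
    have f := fun i (hi : i ≠ k) => ht ▸ mul_mem (mul_mem (mul_mem (t_mem_fix hi hb).1 (t_mem_fix hi ha).1)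
      (t_mem_fix hi ha).2) (t_mem_fix hi hb).1
    obtain ⟨e1, e2, e3, e4⟩ : D.ρ t (F.P k).u = (F.P k).u' + b.v ∧ D.ρ t (F.P k).u' = (F.P k).u + b.v ∧
        D.ρ t a.v = (F.P k).u + (F.P k).u' + a.v + b.v ∧ D.ρ t b.v = (F.P k).u + (F.P k).u' + a.v := by
      simp only [ht, ρ_mul, t_apply k1, t_apply k2, t_apply k3, map_add, map_sub, map_smul, mem_perp.1 k1, mem_perp.1 k2,
        h_symm k1.1, h_symm k2.1, h_symm k1.2, h_symm k2.2, u'u', u'u, uu, Pair.one, flip_u, c1, c2, c3, c4, c5, e]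
      refine ⟨?_, ?_, ?_, ?_⟩ <;> match_scalars <;> ring_nf <;> reduce_mod_char!
    refine ⟨t, 3, key t 3 f ?_, by decide, f, by simp [e1, mem_perp.1 k2], by simp [e2, mem_perp.1 k2], fun L l1 l2 l3 => ?_⟩
    · simp only [List.forall_mem_cons, pow_succ, pow_zero, one_mul, ρ_mul, map_add, e1, e2, e3, e4]
      refine ⟨?_, ?_, ?_, ?_, by simp⟩ <;> refine (one_smul K _).symm.trans ?_ <;> match_scalars <;> ring_nf <;>
        reduce_mod_char!
    have l4 := (L.add_mem_iff_right l2).1 (e1 ▸ l3 _ l1)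
    exact hW L ((L.add_mem_iff_right (add_mem l1 l2)).1 (e4 ▸ l3 _ l4)) l4
  · replace c5 := h01 _ c5
    obtain ⟨t, ht⟩ : ∃ t, t = (F.P k).t a * (F.P k).flip.t b := ⟨_, rfl⟩
    have f := fun i (hi : i ≠ k) => ht ▸ mul_mem (t_mem_fix hi ha).1 (t_mem_fix hi hb).2
    obtain ⟨e1, e2, e3, e4⟩ : D.ρ t (F.P k).u = (F.P k).u + (F.P k).u' + a.v + b.v ∧
        D.ρ t (F.P k).u' = (F.P k).u + (F.P k).u' + a.v ∧
        D.ρ t a.v = (F.P k).u + (F.P k).u' ∧ D.ρ t b.v = (F.P k).u + b.v := by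
      simp only [ht, ρ_mul, t_apply k1, t_apply k4, map_add, map_sub, map_smul, mem_perp.1 k1, mem_perp.1 k2,
        h_symm k1.1, h_symm k2.1, h_symm k1.2, h_symm k2.2, u'u', u'u, uu, Pair.one, flip_u, c1, c2, c3, c4, c5, e]
      refine ⟨?_, ?_, ?_, ?_⟩ <;> match_scalars <;> ring_nf <;> reduce_mod_char!
    refine ⟨t, 5, key t 5 f ?_, by decide, f, by simp [e1, mem_perp.1 k1, mem_perp.1 k2],
      by simp [e2, mem_perp.1 k1], fun L l1 l2 l3 => ?_⟩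
    · simp only [List.forall_mem_cons, pow_succ, pow_zero, one_mul, ρ_mul, map_add, e1, e2, e3, e4]
      refine ⟨?_, ?_, ?_, ?_, by simp⟩ <;> refine (one_smul K _).symm.trans ?_ <;> match_scalars <;> ring_nf <;>
        reduce_mod_char!
    have l4 := (L.add_mem_iff_right (add_mem l1 l2)).1 (e2 ▸ l3 _ l2)
    exact hW L l4 ((L.add_mem_iff_right (add_mem (add_mem l1 l2) l4)).1 (e1 ▸ l3 _ l1))

theorem ρ_conj {n h : G} {c μ : K} (h1 : D.ρ n x = c • y) (hc : c ≠ 0) (h2 : D.ρ h x = μ • x) :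
    D.ρ (n * h * n⁻¹) y = μ • y := by
  rw [← inv_smul_smul₀ hc y, ← h1, ← map_smul, ρ_mul, ρ_inv_ρ, ρ_mul, map_smul, h2, smul_comm, map_smul]

theorem frame_two_gen_two [Finite K] (hσ : σ ≠ RingHom.id K) (F : D.Frame 2)
    (hm : ∀ l : D.Par, l.v = 0 → ∃ s, l = D.lam s) (gen : Gen (F.P 0)) {l : D.Par} (hl : l.v = 0) (hl' : l.c ≠ 0)
    {v : V} (hv : v ∈ F.W 2) (hv' : v = 0 ∨ D.h v v ≠ 0) (hW : ∀ L : Submodule K V, v ∈ L → F.W 2 ≤ L) :
    ∃ a b : G, Subgroup.closure {a, b} = ⊤ := by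
  have o := F.orth (show (0 : Fin 2) ≠ 1 by decide)
  have v0 := Frame.mem_W.1 hv 0 (by decide)
  have v1 := Frame.mem_W.1 hv 1 (by decide)
  obtain ⟨ζ, hζ⟩ := IsCyclic.exists_generator (α := Kˣ)
  have z0 := ζ.ne_zero
  have z1 : σ ζ ≠ 0 := by simpa
  have z2 : σ ζ ≠ ζ := fun e => hσ (RingHom.ext fun x => by
    rcases eq_or_ne x 0 with rfl | hx
    · simp
    obtain ⟨k, rfl⟩ := exists_pow_eq_of_generator hζ hx
    simp [e])
  have z3 : (ζ : K) ^ 2 ≠ 1 := fun e => z2 (by rcases sq_eq_one_iff.1 e with e | e <;> simp [e])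
  obtain ⟨n, n1, n2, n3, n4, n5⟩ : ∃ n : G, D.ρ n (F.P 0).u = (-1 : K) • (F.P 1).u ∧
      D.ρ n (F.P 1).u = -l.c • (F.P 0).u' ∧ D.ρ n (F.P 0).u' = (-1 : K) • (F.P 1).u' ∧
      D.ρ n (F.P 1).u' = -(D.ε * (σ l.c)⁻¹) • (F.P 0).u ∧ D.ρ n v = v := by
    obtain ⟨a1, a2, a3, a4, a5⟩ := o.n_apply one_ne_zero
    obtain ⟨b1, b2, b3⟩ := n_apply (P := F.P 1) (lam_mem hl) hl'
    exact ⟨nOne (el (F.P 0) (F.P 1)) (el (F.P 1) (F.P 0)) 1 * (F.P 1).n l, by simp [b3 _ o.symm.u, hl, a1], by simp [b1, a4],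
      by simp [b3 _ o.symm.u', hl, a3], by simp [b2, a2], by simp [b3 _ v1, hl, a5 _ v0 v1]⟩
  have c1 : -l.c ≠ 0 := by simpa
  have c2 : -(D.ε * (σ l.c)⁻¹) ≠ 0 := by simpa
  obtain ⟨a1, a2, a3, a4, a5⟩ := o.h_apply z0
  have a6 := o.sl2Rel.h_conj_x z0
  generalize hOne (el (F.P 0) (F.P 1)) (el (F.P 1) (F.P 0)) ζ.1 = h at a1 a2 a3 a4 a5 a6
  replace a5 := a5 _ v0 v1
  have b1 := ρ_conj n1 (by simp) a1
  have b2 := ρ_conj n2 c1 a2
  have b3 := ρ_conj n3 (by simp) a3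
  have b4 := ρ_conj n4 c2 a4
  have b5 := ρ_conj (n5.trans (one_smul K v).symm) one_ne_zero (a5.trans (one_smul K v).symm)
  rw [one_smul] at b5
  have hc : Commute h (n * h * n⁻¹) := by
    generalize n * h * n⁻¹ = h' at b1 b2 b3 b4 b5
    have key : ∀ x, D.ρ h (D.ρ h' x) = D.ρ h' (D.ρ h x) → D.ρ ((h' * h)⁻¹ * (h * h')) x = x := fun x e => by
      rw [ρ_mul, D.ρ_mul h, e, ← D.ρ_mul h', ρ_inv_ρ]
    exact (inv_mul_eq_one.1 (Frame.eq_one_of_fix (F := F) (Fin.forall_fin_two.2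
      ⟨⟨key _ (by simp [a1, b4, smul_smul, mul_comm]), key _ (by simp [a3, b2, smul_smul, mul_comm])⟩,
        key _ (by simp [a2, b1, smul_smul, mul_comm]), key _ (by simp [a4, b3, smul_smul, mul_comm])⟩)
      (hW (LinearMap.eqLocus (D.ρ _) .id) (key _ (by simp [a5, b5]))))).symm
  have fin : ∀ H : Subgroup G, (∀ R ∈ [F.P 0, (F.P 0).flip], (F.P 1).u ∈ LV H R ∧ (F.P 1).u' ∈ LV H R ∧ v ∈ LV H R) →
      H = ⊤ := fun H hH => gen H fun a ha => by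
    have := fun R hR => LV_t hm (hH R hR).1 (hH R hR).2.1 (by simp) (perp_le (F := F) (i := 0)
      (fun j hj => Fin.eq_one_of_ne_zero j hj ▸ ⟨(hH R hR).1, (hH R hR).2.1⟩) (hW _ (hH R hR).2.2) ha)
    exact ⟨this _ (by simp), this _ (by simp)⟩
  have cj : ∀ {H : Subgroup G}, n ∈ H → ∀ x, (x ∈ LV H (F.P 0) → D.ρ n x ∈ (F.P 1).perp → D.ρ n x ∈ LV H (F.P 1)) ∧
      (x ∈ LV H (F.P 1) → D.ρ n x ∈ (F.P 0).perp → D.ρ n x ∈ LV H (F.P 0).flip) ∧
      (x ∈ LV H (F.P 0).flip → D.ρ n x ∈ (F.P 1).perp → D.ρ n x ∈ LV H (F.P 1).flip) ∧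
      (x ∈ LV H (F.P 1).flip → D.ρ n x ∈ (F.P 0).perp → D.ρ n x ∈ LV H (F.P 0)) := fun hn x =>
    ⟨LV_conj hn n1 (by simp), fun h h' => LV_conj (Q := (F.P 0).flip) hn n2 c1 h (by simpa),
      fun h h' => LV_conj (P := (F.P 0).flip) (Q := (F.P 1).flip) hn n3 (by simp) h (by simpa),
      LV_conj (P := (F.P 1).flip) hn n4 c2⟩
  rcases hv' with rfl | hv'
  · refine ⟨h, el (F.P 0) (F.P 1) 1 * n, ?_⟩
    generalize hH : Subgroup.closure {h, el (F.P 0) (F.P 1) 1 * n} = H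
    have m1 : h ∈ H := hH ▸ Subgroup.subset_closure (by simp)
    have m2 : el (F.P 0) (F.P 1) 1 * n ∈ H := hH ▸ Subgroup.subset_closure (by simp)
    have hx : IsAddMap (el (F.P 0) (F.P 1)) := o.sl2Rel.addx
    have b6 : ∀ s, n * h * n⁻¹ * el (F.P 0) (F.P 1) s * (n * h * n⁻¹)⁻¹ = el (F.P 0) (F.P 1) (σ ζ / ζ * s) := fun s => by
      rw [el, conj_t (Q := (F.P 1).flip) b3 (inv_ne_zero z1) (o.symm.flip'.x_mem _).1, el]
      congr 1
      ext
      · simp only [Par.sc_v, Par.smul_v, x_v, map_smul, b4, map_inv₀, D.invol, smul_smul]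
        congr 1
        ring
      · simp
    have m3 := stein_mem hc m1 m2
    simp only [a6, b6, hx.inv, hx _ _] at m3
    have c0 : ((ζ : K) ^ 2 - 1) * (1 - σ ζ / ζ) ≠ 0 :=
      mul_ne_zero (sub_ne_zero.2 z3) (sub_ne_zero.2 fun e => z2 (by field_simp at e; exact e.symm))
    have m4 : ∀ s, el (F.P 0) (F.P 1) s ∈ H := fun s => by
      have := (eq_top_of_gen_sq hζ ((hx.mul_left (((ζ : K) ^ 2 - 1) * (1 - σ ζ / ζ))).comap H)
        (show el _ _ _ ∈ H by convert m3 using 2; ring) fun c hc => show el _ _ _ ∈ H by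
          rw [mul_left_comm, ← a6]; exact mul_mem (mul_mem m1 hc) (inv_mem m1)).ge
        (AddSubgroup.mem_top ((((ζ : K) ^ 2 - 1) * (1 - σ ζ / ζ))⁻¹ * s))
      exact mul_inv_cancel_left₀ c0 s ▸ this
    have hn := (H.mul_mem_cancel_left (m4 1)).1 m2
    have l1 := LV_el o m4
    have l2 := (cj hn _).1 l1 (n4 ▸ Submodule.smul_mem _ _ o.symm.u)
    have l3 := (cj hn _).2.1 l2 (by rw [n4, map_smul, n1]; exact Submodule.smul_mem _ _ (Submodule.smul_mem _ _ o.u))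
    have l4 : (F.P 0).u ∈ LV H (F.P 1).flip := ⟨o.symm.flip'.u, fun s => ⟨(F.P 0).x s, rfl, by
      simpa [el] using m4 (D.ε * s)⟩⟩
    have l5 := (cj hn _).2.2.2 l4 (n1 ▸ Submodule.smul_mem _ _ o.u)
    have l6 := (cj hn _).1 l5 (by rw [n1, map_smul, n2]; exact Submodule.smul_mem _ _ (Submodule.smul_mem _ _ o.symm.u'))
    have l7 := (cj hn _).2.1 l6 (by
      rw [n1, map_smul, n2, map_smul, map_smul, n3]
      exact Submodule.smul_mem _ _ (Submodule.smul_mem _ _ (Submodule.smul_mem _ _ o.u')))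
    simp only [n1, n2, n3, n4, map_smul, Submodule.smul_mem_iff _ c1, Submodule.smul_mem_iff _ c2,
      Submodule.smul_mem_iff _ (neg_ne_zero.2 (one_ne_zero' K))] at l3 l5 l7
    exact fin H (by simp [l1, l3, l5, l7])
  obtain ⟨b, rfl⟩ := exists_par (D := D) v
  refine ⟨h, (F.P 1).t b * n, ?_⟩
  generalize hH : Subgroup.closure {h, (F.P 1).t b * n} = H
  have m1 : h ∈ H := hH ▸ Subgroup.subset_closure (by simp)
  have m2 : (F.P 1).t b * n ∈ H := hH ▸ Subgroup.subset_closure (by simp)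
  have m3 := stein_mem hc m1 m2
  have p : ∀ s : K, s • b.v ∈ (F.P 1).perp := fun s => Submodule.smul_mem _ _ v1
  let T : G → K → Prop := fun g s => ∃ a : D.Par, a.v = σ s • b.v ∧ (F.P 1).t a = g
  have t1 : ∀ {g g' s s'}, T g s → T g' s' → T (g * g') (s + s') := by
    rintro _ _ s s' ⟨a, e, rfl⟩ ⟨a', e', rfl⟩
    exact ⟨a * a', by simp [e, e', add_smul], t_mul (e ▸ p _) (e' ▸ p _)⟩
  have t2 : ∀ {g s}, T g s → T g⁻¹ (-s) := by
    rintro _ s ⟨a, e, rfl⟩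
    exact ⟨a⁻¹, by simp [e], t_inv (e ▸ p _)⟩
  have t3 : ∀ {k g s c}, D.ρ k (F.P 1).u = c • (F.P 1).u → c ≠ 0 → D.ρ k b.v = b.v → T g s → T (k * g * k⁻¹) (c * s) := by
    rintro k _ s c h1 h2 h3 ⟨a, e, rfl⟩
    exact ⟨_, by simp [e, h3, smul_smul], (conj_t h1 h2 (e ▸ (p _).1)).symm⟩
  have t4 : T ((F.P 1).t b) 1 := ⟨b, by simp, rfl⟩
  have l1 : b.v ∈ LV H (F.P 1) := ⟨v1, fun s => by
    obtain ⟨_, hg, a, e, rfl⟩ := mul_mem_of_gen (l := ζ⁻¹) (by simpa using hζ) (W := {s | ∃ g ∈ H, T g s})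
      ⟨1, one_mem _, 1, by simp, by simp⟩ (fun e => mul_ne_zero (sub_ne_zero.2 fun e => z3 (by
        simp [inv_eq_one.1 e])) (sub_ne_zero.2 fun e => z3 (by simp [← e]))
          (show ((ζ : K)⁻¹ - 1) * (1 - ζ) = 0 by linear_combination e)) ⟨_, m3, t1 (t1 (t1 (t3 a2 (inv_ne_zero z0) a5 t4)
        (t2 (t3 a2 (inv_ne_zero z0) a5 (t3 b1 z0 b5 t4)))) (t3 b1 z0 b5 t4)) (t2 t4)⟩ (fun c ⟨g, hg, e⟩ =>
          ⟨_, mul_mem (mul_mem m1 hg) (inv_mem m1), by simpa using t3 a2 (inv_ne_zero z0) a5 e⟩) (σ s)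
    exact ⟨a, by rw [e, D.invol], hg⟩⟩
  have hn := (H.mul_mem_cancel_left (LV_t hm l1 l1 hv' l1)).1 m2
  have l2 := n5 ▸ (cj hn _).2.1 l1 (n5.symm ▸ v0)
  have l3 := n5 ▸ (cj hn _).2.2.1 l2 (n5.symm ▸ v1)
  have l4 := n5 ▸ (cj hn _).2.2.2 l3 (n5.symm ▸ v0)
  refine fin H ?_
  simp only [List.forall_mem_cons]
  exact ⟨⟨LV_comm o l1 v0 l4 v1 hv', LV_comm o.flip l3 v0 l4 l3.1 hv', l4⟩,
    ⟨LV_comm o.flip' l1 l2.1 l2 v1 hv', LV_comm o.flip.flip' l3 l2.1 l2 l3.1 hv', l2⟩, by simp⟩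

end Cfsg.Lib.Known
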