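import Cfsg.Agent.Known.LevFac

/-!
Powers of conjugacy classes of the special linear group: basic reductions.
-/

set_option autoImplicit false

namespace Cfsg.Lib.Known.Lev

open Module Polynomial CP
open scoped Pointwise

universe u

theorem mem_pow_rel {M N : Type*} [Monoid M] [Monoid N] {A : Set M} {B : Set N} (F : ℕ → M → N)
    (h0 : F 0 1 = 1) (hs : ∀ k y a, F (k + 1) (y * a) = F k y * F 1 a) (h : ∀ a ∈ A, F 1 a ∈ B)
    {k : ℕ} {y : M} (hy : y ∈ A ^ k) : F k y ∈ B ^ k := by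
  induction k generalizing y with
  | zero => rw [pow_zero, Set.mem_one] at hy ⊢; rw [hy, h0]
  | succ k ih =>
    rw [pow_succ] at hy ⊢
    obtain ⟨y, hy, a, ha, rfl⟩ := hy
    exact ⟨_, ih hy, _, h a ha, (hs k y a).symm⟩

variable {K : Type u} [Field K] {V Z E : Type u} [AddCommGroup V] [Module K V]
  [AddCommGroup Z] [Module K Z] [AddCommGroup E] [Module K E]

def Cl (x : End K V) : Set (End K V) := {y | SimS x y}

def ClG (x : End K V) : Set (End K V) := {y | Sim x y}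

def Full (x : End K V) : Prop :=
  ∀ d : K, d ≠ 0 → ∃ c : V ≃ₗ[K] V, LinearMap.det c.toLinearMap = d ∧ ∀ v, c (x v) = x (c v)

def Nsc (g : End K V) : Prop := ¬ ∃ c : K, ∀ v, g v = c • v

def NS (x : End K V) (k : ℕ) : Prop :=
  ∀ g, Nsc g → LinearMap.det g = LinearMap.det x ^ k → g ∈ Cl x ^ k

def All (x : End K V) (k : ℕ) : Prop := ∀ g, LinearMap.det g = LinearMap.det x ^ k → g ∈ Cl x ^ k

def Cov (x : End K V) : Prop :=
  ∀ g, LinearMap.det g = 1 → ∃ ζ : K, ζ ≠ 0 ∧ ζ • g ∈ Cl x ^ finrank K V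

theorem self_mem (x : End K V) : x ∈ Cl x := SimS.refl x

theorem conj_mem {x y : End K V} (hy : y ∈ Cl x) {c e : V ≃ₗ[K] V} (hc : ∀ v, c (x v) = x (c v))
    (h : LinearMap.det e.toLinearMap = LinearMap.det c.toLinearMap) : e.conj y ∈ Cl x := by
  obtain ⟨s, h1, h2⟩ := hy
  refine ⟨c.symm.trans (s.trans e), ?_, fun v => ?_⟩
  · rw [LinearEquiv.coe_trans, LinearEquiv.coe_trans, LinearMap.det_comp, LinearMap.det_comp, h1,
      h, mul_one, c.det_mul_det_symm]
  · obtain ⟨v, rfl⟩ := c.surjective v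
    simp [LinearEquiv.conj_apply, ← hc, h2]

theorem conj_eq {f : End K V} {g : End K Z} {e : V ≃ₗ[K] Z} (h : ∀ v, e (f v) = g (e v)) :
    e.conj f = g := LinearMap.ext fun v => by simp [LinearEquiv.conj_apply, h]

theorem Full.cl {x : End K V} (h : Full x) : Cl x = ClG x :=
  Set.ext fun _ => ⟨SimS.sim, fun ⟨e, he⟩ => by
    by_cases hd : FiniteDimensional K V
    · obtain ⟨c, h1, h2⟩ := h _ e.isUnit_det'.ne_zero
      exact conj_eq he ▸ conj_mem (self_mem x) h2 h1.symm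
    · exact ⟨e, LinearMap.det_eq_one_of_not_module_finite hd _, he⟩⟩

theorem Full.of_sim {x : End K V} {y : End K Z} (h : Full y) (s : Sim x y) : Full x := fun d hd => by
  obtain ⟨e, he⟩ := s
  obtain ⟨c, h1, h2⟩ := h d hd
  exact ⟨e.trans (c.trans e.symm), h1 ▸ Sim.det_eq ⟨e, fun _ => by simp⟩,
    fun v => e.injective (by simp [he, h2])⟩

theorem conj_pow {A : Set (End K V)} {B : Set (End K Z)}
    (e : V ≃ₗ[K] Z) (h : ∀ a ∈ A, e.conj a ∈ B) {k : ℕ} {y : End K V} (hy : y ∈ A ^ k) :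
    e.conj y ∈ B ^ k :=
  mem_pow_rel (fun _ a => e.conj a) e.conj_id (fun _ _ _ => e.conj_comp _ _) h hy

theorem mem_of_simS {x y y' : End K V} {k : ℕ} (hy : y ∈ Cl x ^ k) (h : SimS y y') :
    y' ∈ Cl x ^ k := by
  obtain ⟨e, h1, h2⟩ := h
  exact conj_eq h2 ▸ conj_pow (B := Cl x) e (fun a ha => conj_mem ha
    (c := LinearEquiv.refl K V) (fun _ => rfl) (by simp [h1])) hy

theorem mem_of_sim {x y : End K V} {x' y' : End K Z} {k : ℕ} (hy : y ∈ ClG x ^ k) (hx : Sim x x')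
    (h : Sim y y') : y' ∈ ClG x' ^ k := by
  obtain ⟨e, h2⟩ := h
  exact conj_eq h2 ▸ conj_pow (B := ClG x') e
    (fun a ha => (hx.symm.trans ha).trans (sim_conj e a)) hy

theorem det_of_mem {x y : End K V} {k : ℕ} (hy : y ∈ ClG x ^ k) :
    LinearMap.det y = LinearMap.det x ^ k := by
  have := mem_pow_rel (B := {LinearMap.det x}) (fun _ a => LinearMap.det a) (map_one _)
    (fun _ _ _ => map_mul _ _ _) (fun a ha => (Sim.det_eq ha).symm) hy
  simpa using this

theorem clG_of_cl {x y : End K V} {k : ℕ} (hy : y ∈ Cl x ^ k) : y ∈ ClG x ^ k :=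
  Set.pow_subset_pow_left (fun _ => SimS.sim) hy

theorem Cov.of_sim {x : End K V} {y : End K Z} (h : Cov y) (s : Sim x y) : Cov x := fun g hg => by
  obtain ⟨e, he⟩ := s.symm
  obtain ⟨ζ, h1, h2⟩ := h (e.symm.conj g) (by rw [← hg, ← (sim_conj _ _).det_eq])
  refine ⟨ζ, h1, ?_⟩
  have := conj_pow (B := Cl x) e (fun a ha => conj_eq he ▸ SimS.conj ha e) h2
  rwa [map_smul, e.conj_conj_symm, e.finrank_eq] at this

theorem Nsc.of_sim {x : End K V} {y : End K Z} (h : Nsc y) (s : Sim x y) : Nsc x := by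
  rintro ⟨c, hc⟩
  obtain ⟨e, he⟩ := s
  exact h ⟨c, fun v => by obtain ⟨v, rfl⟩ := e.surjective v; rw [← he, hc, map_smul]⟩

theorem Cy.of_sim {f : End K V} {g : End K Z} (h : ∃ v, Cy g v) (s : Sim f g) : ∃ v, Cy f v := by
  obtain ⟨e, he⟩ := s.symm
  exact h.elim fun v hv => ⟨_, Cy.map hv e he⟩

theorem exists_dual_pair {v w : V} (h : ∀ c : K, w ≠ c • v) : ∃ φ : Dual K V, φ v = 0 ∧ φ w = 1 := by
  obtain ⟨φ, h1, h2⟩ := (Submodule.span K {v}).exists_dual_map_eq_bot_of_notMem (x := w)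
    (by simpa [Submodule.mem_span_singleton, eq_comm] using h) inferInstance
  have h3 : φ v = 0 := by simpa [Submodule.map_span] using h2
  exact ⟨(φ w)⁻¹ • φ, by simp [h3], by simp [h1]⟩

variable [FiniteDimensional K V] [FiniteDimensional K Z] [FiniteDimensional K E]

theorem inj_of_det {g : End K V} (h : LinearMap.det g ≠ 0) (v : V) (hv : g v = 0) : v = 0 := by
  obtain ⟨g, rfl⟩ := exists_equiv h
  exact g.map_eq_zero_iff.1 hv

theorem All.succ {x : End K V} (x0 : LinearMap.det x ≠ 0) {k : ℕ} (h : All x k) : All x (k + 1) :=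
  fun g hg => by
    obtain ⟨x, rfl⟩ := exists_equiv x0
    refine pow_succ (Cl x.toLinearMap) k ▸ ⟨_, h (g * x.symm.toLinearMap) ?_, _, self_mem _,
      LinearMap.ext fun v => by simp⟩
    rw [map_mul, hg, pow_succ, mul_assoc, x.det_mul_det_symm, mul_one]

theorem NS.all {x : End K V} (x0 : LinearMap.det x ≠ 0) (hx : Nsc x) {k : ℕ} (h : NS x k) :
    All x (k + 1) := fun g hg => by
  have key : ∀ y ∈ Cl x, (¬ ∃ c : K, ∀ v, g v = c • y v) → g ∈ Cl x ^ (k + 1) := fun y hy hc => by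
    have h1 := hy.sim.det_eq
    obtain ⟨y, rfl⟩ := exists_equiv (h1 ▸ x0)
    refine pow_succ (Cl x) k ▸ ⟨_, h (g * y.symm.toLinearMap) (fun ⟨c, h2⟩ => hc ⟨c, fun v => by
      simpa using h2 (y v)⟩) ?_, _, hy, LinearMap.ext fun v => by simp⟩
    rw [map_mul, hg, pow_succ, mul_assoc, h1, y.det_mul_det_symm, mul_one]
  by_cases hc : ∃ c : K, ∀ v, g v = c • x v
  swap
  · exact key x (self_mem x) hc
  obtain ⟨c, hc⟩ := hc
  obtain ⟨v, hv⟩ := UC.exists_not_eig hx
  obtain ⟨φ, h1, h2⟩ := exists_dual_pair hv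
  let t := LinearEquiv.transvection h1
  refine key (t.conj x) ⟨t, by simp [t, h1], fun _ => by simp [LinearEquiv.conj_apply]⟩
    fun ⟨d, hd⟩ => ?_
  have h3 : t.symm v = v := t.symm_apply_eq.2 (by simp [t, LinearMap.transvection.apply, h1])
  have h4 := hd v
  rw [hc, LinearEquiv.conj_apply_apply, h3, LinearEquiv.transvection.apply, h2] at h4
  have h5 := congrArg φ h4
  simp only [map_smul, map_add, h1, h2, smul_eq_mul, mul_one, mul_zero, add_zero] at h5
  rw [h5, smul_add, left_eq_add, one_smul, smul_eq_zero] at h4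
  rcases h4 with h4 | h4
  · exact hv 0 (by simp [inj_of_det (hg ▸ pow_ne_zero _ x0) v (by simp [hc, h5, h4])])
  · exact hv 0 (by simp [h4])

theorem NS.cov_lt {x : End K V} (x1 : LinearMap.det x = 1) (hx : Nsc x) {k : ℕ} (h : NS x k)
    (hk : k < finrank K V) : Cov x := fun g hg => by
  have x0 : LinearMap.det x ≠ 0 := x1 ▸ one_ne_zero
  have : ∀ j, All x (k + 1 + j) := fun j => by
    induction j with
    | zero => exact h.all x0 hx
    | succ j ih => exact ih.succ x0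
  obtain ⟨j, hj⟩ := Nat.exists_eq_add_of_le hk
  exact ⟨1, one_ne_zero, hj ▸ this j _ (by simp [hg, x1])⟩

theorem NS.cov_eq {x : End K V} (x1 : LinearMap.det x = 1) (h : NS x (finrank K V)) {ζ : K}
    (h0 : ζ ≠ 0) (hζ : ζ • 1 ∈ Cl x ^ finrank K V) : Cov x := fun g hg => by
  by_cases hc : Nsc g
  · exact ⟨1, one_ne_zero, by simpa using h g hc (by simp [hg, x1])⟩
  obtain ⟨c, hc⟩ := not_not.1 hc
  rcases eq_or_ne c 0 with rfl | c0
  · refine ⟨ζ, h0, ?_⟩
    convert hζ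
    exact LinearMap.ext fun v => by simp [inj_of_det (hg ▸ one_ne_zero) v (by simp [hc])]
  · refine ⟨ζ / c, div_ne_zero h0 c0, ?_⟩
    convert hζ using 1
    exact LinearMap.ext fun v => by simp [hc, smul_smul, c0]

theorem exists_cy_on (Z : Type u) [AddCommGroup Z] [Module K Z] [FiniteDimensional K Z] {q : K[X]}
    (hq : q.Monic) (h0 : q.eval 0 ≠ 0) (hm : q.natDegree = finrank K Z) : ∃ (T : End K Z) (z : Z),
      Cy T z ∧ aeval T q = 0 ∧ LinearMap.det T = (-1) ^ finrank K Z * q.eval 0 := by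
  obtain ⟨T, z, h1, h2, h3⟩ := OC.exists_cyc' hq h0 hm
  let e := LinearEquiv.ofFinrankEq (R := K) (Fin (finrank K Z) → K) Z (by simp)
  have s := sim_conj e T.toLinearMap
  exact ⟨_, _, Cy.map h1 e fun _ => by simp [LinearEquiv.conj_apply],
    (s.aeval_eq_zero_iff q).1 h2, s.det_eq ▸ h3⟩

omit [FiniteDimensional K V] in
theorem no_eig {T : End K V} {q : K[X]} (h : aeval T q = 0) {c : K} (hc : q.eval c ≠ 0) (v : V)
    (hv : T v = c • v) : v = 0 := by
  simpa [h, hc] using (OC.aeval_eig hv q).symm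

theorem exists_cy_avoid (Z : Type u) [AddCommGroup Z] [Module K Z] [FiniteDimensional K Z]
    (h2 : 2 ≤ finrank K Z) {d : K} (hd : d ≠ 0) (c : K) : ∃ (T : End K Z) (z : Z),
      Cy T z ∧ LinearMap.det T = d ∧ ∀ v, T v = c • v → v = 0 := by
  set m := finrank K Z
  let a := 1 - (c ^ m + (-1) ^ m * d) / c
  have t : (C a * X + C ((-1) ^ m * d)).degree < (m : WithBot ℕ) :=
    degree_linear_lt.trans_le (by exact_mod_cast h2)
  have e : (X ^ m + (C a * X + C ((-1) ^ m * d))).eval 0 = (-1) ^ m * d := by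
    simp [show m ≠ 0 by omega]
  obtain ⟨T, z, h1, h3, h4⟩ := exists_cy_on Z (monic_X_pow_add t) (by rw [e]; simp [hd])
    (by rw [natDegree_add_eq_left_of_degree_lt (by rwa [degree_X_pow]), natDegree_X_pow])
  refine ⟨T, z, h1, by rw [h4, e, ← mul_assoc, ← mul_pow]; simp, no_eig h3 ?_⟩
  rcases eq_or_ne c 0 with rfl | h
  · rw [e]; simp [hd]
  · convert h using 1
    simp [a]; field_simp; ring

/-- `A` contains all block triangular maps with given diagonal blocks, the second one cyclic. -/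
def Abs (A : Set (End K V)) (d : K) : Prop :=
  ∃ (Z : Type u) (_ : AddCommGroup Z) (_ : Module K Z) (_ : FiniteDimensional K Z) (T : End K Z)
    (z : Z) (δ : K), finrank K V = finrank K Z + 1 ∧ Cy T z ∧ δ * LinearMap.det T = d ∧
      ∀ y ρ, Sim y (blk (δ • 1 : End K K) ρ T) → y ∈ A

theorem NS.of_abs {x H : End K V} (x0 : LinearMap.det x ≠ 0) (h3 : 3 ≤ finrank K V) {a b : ℕ}
    (h : Abs (Cl x ^ a) (LinearMap.det x ^ a)) (hH : H ∈ Cl x ^ b) (hc : ∃ v, Cy H v) :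
    NS x (a + b) := fun g hg hd => by
  obtain ⟨Z, _, _, _, T, z, δ, h1, h2, h4, h5⟩ := h
  obtain ⟨v, hv⟩ := hc
  obtain ⟨e, ρ, y, H', rfl, k1, k2, -⟩ := fac_blk (hd ▸ pow_ne_zero _ x0) hg
    (right_ne_zero_of_mul (h4 ▸ pow_ne_zero _ x0)) h2 h1 (by omega) hv
    (δ := δ) (by rw [hd, h4, det_of_mem (clG_of_cl hH), pow_add])
  exact pow_add (Cl x) a b ▸ ⟨y, h5 y ρ ⟨e, k2⟩, H', mem_of_simS hH k1, rfl⟩

theorem full_blk [Nontrivial E] (c : K) (T : End K Z) : Full (blk (c • 1 : End K E) 0 T) :=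
  fun d hd => by
    obtain ⟨v, hv⟩ := exists_ne (0 : E)
    obtain ⟨φ, h1⟩ := Projective.exists_dual_eq_one K hv
    have h2 : LinearMap.det (blk (LinearMap.transvection ((d - 1) • φ) v) 0 (1 : End K Z)) = d := by
      simp [det_blk, h1]
    obtain ⟨e, he⟩ := exists_equiv (h2 ▸ hd)
    exact ⟨e, he ▸ h2, fun p => by simp [← LinearEquiv.coe_coe, he]⟩

theorem simS_blk_of_no_eig {T : End K Z} {c : K} (h : ∀ v, T v = c • v → v = 0) (ρ : Z →ₗ[K] E) :
    SimS (blk (c • 1) 0 T) (blk (c • 1) ρ T) := by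
  let D := LinearEquiv.ofInjectiveEndo (T - c • 1) (by
    rw [injective_iff_map_eq_zero]
    exact fun a ha => h a (sub_eq_zero.1 ha))
  convert simS_blk (c • 1) 0 (ρ ∘ₗ D.symm.toLinearMap) T
  refine LinearMap.ext fun v => ?_
  conv_lhs => rw [← D.symm_apply_apply v]
  simp [show D v = T v - c • v from rfl]

omit [FiniteDimensional K V] in
theorem Abs.of_blk {x Y : End K V} {k : ℕ} (hY : Y ∈ Cl x ^ k) {T : End K Z} {z : Z} (hT : Cy T z)
    {δ : K} (h : ∀ v, T v = δ • v → v = 0) {ρ : Dual K Z} (s : Sim Y (blk (δ • 1 : End K K) ρ T)) :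
    Abs (Cl x ^ k) (LinearMap.det x ^ k) := by
  have s' := s.trans (simS_blk_of_no_eig h ρ).sim.symm
  refine ⟨Z, _, _, inferInstance, T, z, δ, by simp [s.finrank_eq, add_comm], hT, by
    simp [← det_of_mem (clG_of_cl hY), s.det_eq, det_blk], fun y ρ' hy => mem_of_simS hY ?_⟩
  exact (((full_blk δ T).of_sim s').cl ▸ (s'.trans (simS_blk_of_no_eig h ρ').sim).trans hy.symm :
    y ∈ Cl Y)

theorem Abs.of_cy {x H : End K V} (x0 : LinearMap.det x ≠ 0) (hx : Nsc x) (h3 : 3 ≤ finrank K V)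
    {b : ℕ} (hH : H ∈ Cl x ^ b) (hc : ∃ v, Cy H v) :
    Abs (Cl x ^ (b + 1)) (LinearMap.det x ^ (b + 1)) := by
  obtain ⟨v, hv⟩ := hc
  have h0 := det_of_mem (clG_of_cl hH)
  obtain ⟨H, rfl⟩ := exists_equiv (h0 ▸ pow_ne_zero _ x0)
  obtain ⟨T, z, h1, h2, h4⟩ := exists_cy_avoid (K := K) (Fin (finrank K V - 1) → K)
    (by simp; omega) (pow_ne_zero (b + 1) x0) 1
  obtain ⟨e, ρ, y, H', k0, ⟨c, k1, k2⟩, k3, -⟩ := fac_blk x0 hx (h2 ▸ pow_ne_zero _ x0) h1
    (by simp; omega) (by simp; omega) hv.symm (δ := 1)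
    (by rw [h2, pow_succ', ← h0, one_mul, mul_assoc, H.det_mul_det_symm, mul_one])
  refine Abs.of_blk (Y := y) (pow_succ' (Cl x) b ▸ ⟨x, self_mem x, c.conj H.toLinearMap,
    mem_of_simS hH ⟨c, k1, fun _ => by simp [LinearEquiv.conj_apply]⟩, ?_⟩) h1 h4 ⟨e, k3⟩
  exact LinearMap.ext fun w => by simp [k0, LinearEquiv.conj_apply, ← k2]

theorem NS.of_cy {x H : End K V} (x0 : LinearMap.det x ≠ 0) (hx : Nsc x) (h3 : 3 ≤ finrank K V)
    {b : ℕ} (hH : H ∈ Cl x ^ b) (hc : ∃ v, Cy H v) : NS x (b + 1 + b) :=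
  NS.of_abs x0 h3 (Abs.of_cy x0 hx h3 hH hc) hH hc

theorem one_mem_pow {x : End K V} (x1 : LinearMap.det x = 1) (hx : Nsc x) (h3 : 3 ≤ finrank K V)
    {c : V ≃ₗ[K] V} (hc : ∀ v, c (x v) = x (c v))
    (hd : LinearMap.det c.toLinearMap = (-1) ^ (finrank K V - 1)) : 1 ∈ Cl x ^ finrank K V := by
  obtain ⟨m, hm⟩ : ∃ m, finrank K V = m + 1 := ⟨finrank K V - 1, by omega⟩
  have m0 : m + 1 ≠ 0 := by omega
  have q0 : (∑ i ∈ Finset.range (m + 1), (X : K[X]) ^ i).eval 0 = 1 := by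
    simp [eval_finsetSum, Finset.sum_range_succ']
  obtain ⟨T, z, h1, h2, h4⟩ := exists_cy_on (K := K) (Fin m → K) (monic_geom_sum_X m0)
    (by simp [q0]) (by
      rw [finrank_fin_fun]
      have := congrArg natDegree (geom_sum_mul (X : K[X]) (m + 1))
      rw [← C_1, (monic_geom_sum_X m0).natDegree_mul (monic_X_sub_C 1), natDegree_X_pow_sub_C,
        natDegree_X_sub_C] at this
      omega)
  obtain ⟨B, v, h5, h6, h7⟩ := exists_cy_on V (monic_X_pow_sub_C (1 : K) m0) (by simp)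
    (by rw [natDegree_X_pow_sub_C, hm])
  rw [q0, finrank_fin_fun, mul_one] at h4
  obtain ⟨e, ρ, y, H, k0, k1, k2, -⟩ := fac_blk (x1 ▸ one_ne_zero) hx (by simp [h4]) h1
    (by simp [hm]) (by simp; omega) h5 (δ := 1) (by simp [x1, h4, h7, hm, pow_succ, ← mul_pow])
  have s : Sim y (blk ((1 : K) • 1 : End K K) ρ T) := ⟨e, k2⟩
  have y0 : LinearMap.det y = (-1) ^ m := by simp [s.det_eq, det_blk, h4]
  have y1 : y ^ (m + 1) = 1 := by
    have h8 : ∀ q : K[X], ∀ p, (aeval (blk ((1 : K) • 1 : End K K) ρ T) q p).2 = aeval T q p.2 :=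
      fun q p => intertwine_aeval (f := blk _ ρ T) (g := T) (LinearMap.snd K K _) (fun _ => rfl) q p
    have h9 : aeval (blk ((1 : K) • 1 : End K K) ρ T) (X ^ (m + 1) - 1 : K[X]) = 0 := by
      rw [← mul_geom_sum, map_mul]
      refine LinearMap.ext fun p => ?_
      have := h8 (∑ i ∈ Finset.range (m + 1), X ^ i) p
      rw [h2, LinearMap.zero_apply] at this
      rw [End.mul_apply]
      generalize aeval (blk ((1 : K) • 1 : End K K) ρ T)
        (∑ i ∈ Finset.range (m + 1), (X : K[X]) ^ i) p = p' at this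
      simp [this, Prod.ext_iff]
    simpa [sub_eq_zero] using (s.aeval_eq_zero_iff _).2 h9
  have H1 : H ^ (m + 1) = 1 := by simpa [sub_eq_zero] using (k1.sim.aeval_eq_zero_iff _).1 h6
  obtain ⟨y, rfl⟩ := exists_equiv (g := y) (by simp [y0])
  have : ∀ k, y.toLinearMap ^ k * H ^ k ∈ Cl x ^ k := fun k => by
    induction k with
    | zero => simp
    | succ k ih =>
      refine pow_succ (Cl x) k ▸ ⟨_, conj_pow y (fun a ha => conj_mem ha hc
        (by simp [y0, hd, hm])) ih, x, self_mem x, LinearMap.ext fun w => ?_⟩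
      simp [k0, LinearEquiv.conj_apply, pow_succ' y.toLinearMap, pow_succ H]
  simpa [hm, y1, H1] using this (m + 1)

theorem NS.cov_full {x : End K V} (x1 : LinearMap.det x = 1) (hx : Nsc x) (h3 : 3 ≤ finrank K V)
    (hf : Full x ∨ Odd (finrank K V)) {k : ℕ} (h : NS x k) (hk : k ≤ finrank K V) : Cov x := by
  rcases hk.lt_or_eq with hk | rfl
  · exact h.cov_lt x1 hx hk
  refine h.cov_eq x1 one_ne_zero ?_
  rw [one_smul]
  rcases hf with hf | ⟨m, hm⟩
  · obtain ⟨c, h1, h2⟩ := hf ((-1) ^ (finrank K V - 1)) (by simp)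
    exact one_mem_pow x1 hx h3 h2 h1
  · exact one_mem_pow x1 hx h3 (c := LinearEquiv.refl K V) (fun _ => rfl) (by simp [hm])

end Cfsg.Lib.Known.Lev
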