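import Cfsg.Agent.Known.UCommFac
import Cfsg.Agent.Known.RegProd

/-!
Factorisation of a non-scalar automorphism as a product of a block triangular one and a cyclic
one, with control of the class of the cyclic factor under the special linear group.
-/

set_option autoImplicit false

namespace Cfsg.Lib.Known.Lev

open Module Polynomial CP

universe u

variable {K : Type u} [Field K] {V Z : Type u} [AddCommGroup V] [Module K V]
  [AddCommGroup Z] [Module K Z] [FiniteDimensional K V] [FiniteDimensional K Z]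

theorem exists_nil_ker (A : End K Z) (hA : Function.Injective A) {w k : Z} (hw : w ≠ 0)
    {ψ : Dual K Z} (h1 : ψ w = 0) (h2 : ψ k = 1) (h3 : ψ (A k) ≠ 0) :
    ∃ (S : End K Z) (c : Dual K Z), IsNilpotent S ∧ S k = 0 ∧ c k = 1 ∧
      (∀ z, A z = w → c z = 0) ∧
      ∀ t : K, t ≠ 0 → Cy (A * LinearMap.transvection ((t - 1) • c) k * S) w := by
  let c : Dual K Z := (ψ (A k))⁻¹ • (ψ ∘ₗ A)
  have c1 : c k = 1 := by simp [c, h3]
  have c2 : ∀ z, ψ (A (z - c z • k)) = 0 := fun z => by simp [c]; field_simp; ring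
  let π : Z →ₗ[K] LinearMap.ker ψ :=
    LinearMap.codRestrict _ (1 - ψ.smulRight k) fun z => by simp [h2]
  have hπ : ∀ z, (π z : Z) = z - ψ z • k := fun _ => rfl
  let σ : LinearMap.ker ψ →ₗ[K] Z := (1 - c.smulRight k) ∘ₗ (LinearMap.ker ψ).subtype
  have hσ : ∀ z, σ z = z - c z • k := fun _ => rfl
  let A' : End K (LinearMap.ker ψ) := LinearMap.codRestrict _ (A ∘ₗ σ) fun z => c2 z
  have hA' : ∀ z, (A' z : Z) = A (σ z) := fun _ => rfl
  have πσ : ∀ z, π (σ z) = z := fun z => Subtype.ext (by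
    have : ψ z = 0 := z.2
    simp [hπ, hσ, this, h2])
  have πk : π k = 0 := Subtype.ext (by simp [hπ, h2])
  have πy : ∀ z : LinearMap.ker ψ, π z = z := fun z => Subtype.ext (by
    have : ψ z = 0 := z.2
    simp [hπ, this])
  have iA : Function.Injective A' := by
    rw [injective_iff_map_eq_zero]
    intro z hz
    have : σ z = 0 := hA (by rw [← hA', hz, map_zero]; rfl)
    rw [← πσ z, this, map_zero]
  obtain ⟨S, ⟨N, hN⟩, hS⟩ := exists_nil_cy _ rfl A' iA ⟨w, h1⟩
    fun e => absurd (congrArg Subtype.val e) hw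
  obtain ⟨m, hm⟩ : ∃ m, finrank K (LinearMap.ker ψ) = m + 1 := by
    have : Nontrivial (LinearMap.ker ψ) := ⟨⟨⟨w, h1⟩, 0, fun e => hw (congrArg Subtype.val e)⟩⟩
    exact Nat.exists_eq_add_one.2 finrank_pos
  obtain ⟨b, g, a, g0, -, g2, g3⟩ := exists_horner hS hm
  let η := b.coord (Fin.last m)
  let S' : End K Z := σ ∘ₗ S ∘ₗ π + (η ∘ₗ π).smulRight k
  have s1 : ∀ z, S' z = σ (S (π z)) + η (π z) • k := fun _ => rfl
  have s2 : S' k = 0 := by simp [s1, πk]
  refine ⟨S', c, ⟨N + 1, LinearMap.ext fun z => ?_⟩, s2, c1, fun z hz => by simp [c, hz, h1],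
    fun t ht W w1 w2 => ?_⟩
  · have : ∀ j z, π ((S' ^ j) z) = (S ^ j) (π z) := fun j => by
      induction j with
      | zero => simp
      | succ j ih => intro z; simp [pow_succ', s1, ih, πσ, πk]
    have h4 := congrArg Subtype.val (this N z)
    rw [hN, hπ, LinearMap.zero_apply, ZeroMemClass.coe_zero, sub_eq_zero] at h4
    rw [pow_succ', End.mul_apply, h4, map_smul, s2, smul_zero, LinearMap.zero_apply]
  have e1 : ∀ y : LinearMap.ker ψ, (A * LinearMap.transvection ((t - 1) • c) k * S') y =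
      A' (S y) + (t * η y) • A k := fun y => by
    have : c (σ (S y)) = 0 := by simp [hσ, c1]
    simp only [End.mul_apply, s1, πy, LinearMap.transvection.apply, hA', map_add, map_smul,
      LinearMap.smul_apply, this, c1]
    module
  have e2 : ∀ j ≤ m, (g j : Z) ∈ W := fun j => by
    induction j with
    | zero => intro _; rwa [g0]
    | succ j ih =>
      intro hj
      have h4 := w2 _ (ih (by omega))
      have h5 : η (g j) = 0 := by
        rw [← g2 ⟨j, by omega⟩]
        simp [η, Finsupp.single_apply, Fin.ext_iff]; omega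
      rw [e1, h5, ← End.mul_apply, g3 j (by omega)] at h4
      simpa using W.sub_mem h4 (W.smul_mem (a j) w1)
  have e3 : ∀ y : LinearMap.ker ψ, (y : Z) ∈ W := fun y => by
    rw [← b.sum_repr y, Submodule.coe_sum]
    exact W.sum_mem fun j _ => W.smul_mem _ (by rw [g2]; exact e2 j (by omega))
  have e4 : A k ∈ W := by
    have h4 := W.sub_mem (w2 _ (e3 (b (Fin.last m)))) (e3 (A' (S (b (Fin.last m)))))
    rw [e1] at h4
    simpa [η, W.smul_mem_iff ht] using h4
  refine eq_top_iff.2 fun z _ => ?_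
  simpa using W.add_mem (e3 ⟨z - (ψ z / ψ (A k)) • A k, by simp [h3]⟩)
    (W.smul_mem (ψ z / ψ (A k)) e4)

omit [FiniteDimensional K V] in
theorem det_tri {m : ℕ} (b : Basis (Fin m) K V) (g : ℕ → V) (hg : ∀ j : Fin m, b j = g j)
    {f : End K V} (h : ∀ j < m, f (g j) - g j ∈ Submodule.span K (g '' Set.Iio j)) :
    LinearMap.det f = 1 := by
  have k : ∀ i j : Fin m, j ≤ i → b.repr (f (b j)) i = b.repr (b j) i := fun i j hij => by
    rw [← sub_eq_zero, ← Finsupp.sub_apply, ← map_sub, hg]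
    refine (Submodule.span_le (p := LinearMap.ker (b.coord i))).2 ?_ (h j j.2)
    rintro _ ⟨l, hl, rfl⟩
    have hl : l < j := hl
    rw [← hg ⟨l, by omega⟩]
    simp [Finsupp.single_apply, Fin.ext_iff]; omega
  rw [← LinearMap.det_toMatrix b, Matrix.det_of_isUpperTriangular fun i j hij => by
    rw [LinearMap.toMatrix_apply, k i j (le_of_lt hij)]
    simpa [Finsupp.single_apply] using ne_of_lt hij]
  simp [LinearMap.toMatrix_apply, k _ _ le_rfl]

theorem det_place {f f' B : End K V} {w k v : V} (hf : Cy f w) (D : V ≃ₗ[K] V) (d1 : D w = w)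
    (d2 : ∀ p, ∃ a : K, D.symm p = p + a • k) (d3 : ∀ p, ∃ a : K, f' (D p) = f p + a • k)
    (d4 : f' w = D (f w)) (d5 : ∃ a : K, k = a • f w) {e e' : V ≃ₗ[K] V} {ρ ρ' : Dual K V}
    (e1 : e w = v) (e1' : e' w = v) (e2 : ∀ p, e (f p + ρ p • w) = B (e p))
    (e2' : ∀ p, e' (f' p + ρ' p • w) = B (e' p)) :
    LinearMap.det e.toLinearMap = LinearMap.det e'.toLinearMap * LinearMap.det D.toLinearMap := by
  obtain ⟨b, g, c, g0, -, g2, g3⟩ := exists_horner hf rfl
  let Y := e.trans (e'.symm.trans D.symm)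
  have y0 : ∀ p, e' (D (Y p)) = e p := fun p => by simp [Y]
  have y1 : Y w = w := D.injective (e'.injective (by rw [y0, d1, e1, e1']))
  have y2 : ∀ p, ∃ a : K, Y (f p) = D.symm (f' (D (Y p))) + a • w := fun p =>
    ⟨ρ' (D (Y p)) - ρ p, D.injective (e'.injective (by
      have h1 := e2 p
      rw [← y0 p, ← e2', map_add, map_add, map_smul, map_smul, e1, e1'] at h1
      rw [y0, map_add, map_add, map_smul, map_smul, d1, e1', LinearEquiv.apply_symm_apply,
        eq_sub_of_add_eq h1]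
      module))⟩
  have m0 : ∀ j, w ∈ Submodule.span K (g '' Set.Iio (j + 1)) := fun j =>
    Submodule.subset_span ⟨0, by simp, g0⟩
  have m1 : ∀ j < finrank K V, ∀ p ∈ Submodule.span K (g '' Set.Iio j),
      f p ∈ Submodule.span K (g '' Set.Iio (j + 1)) := fun j hj p hp => by
    refine Submodule.mem_comap.1 ((Submodule.span_le (p := Submodule.comap f _)).2 ?_ hp)
    rintro _ ⟨i, hi, rfl⟩
    have hi : i < j := hi
    rw [SetLike.mem_coe, Submodule.mem_comap, g3 i (by omega)]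
    exact add_mem (Submodule.subset_span ⟨i + 1, by simpa, rfl⟩) (Submodule.smul_mem _ _ (m0 j))
  have h : LinearMap.det Y.toLinearMap = 1 := det_tri b g g2 fun j => by
    induction j with
    | zero => intro _; simp [g0, y1]
    | succ j ih =>
      intro hj
      have ih := ih (by omega)
      obtain ⟨a, ha⟩ := y2 (g j)
      have h1 : Y (g (j + 1)) = Y (f (g j)) - c j • w := by rw [g3 j (by omega)]; simp [y1]
      rw [LinearEquiv.coe_coe] at ih ⊢
      rw [h1, ha]
      rcases j.eq_zero_or_pos with rfl | h0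
      · rw [g0, y1, d1, d4, LinearEquiv.symm_apply_apply, ← g0, g3 0 (by omega), g0]
        convert Submodule.smul_mem _ a (m0 0) using 1
        module
      · have mk : k ∈ Submodule.span K (g '' Set.Iio (j + 1)) := by
          obtain ⟨a, rfl⟩ := d5
          refine Submodule.smul_mem _ _ (Submodule.span_mono (Set.image_mono
            (Set.Iio_subset_Iio (by omega))) (m1 1 (by omega) w (m0 0)))
        obtain ⟨a1, h2⟩ := d2 (f' (D (Y (g j))))
        obtain ⟨a2, h3⟩ := d3 (Y (g j))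
        have h4 := m1 j (by omega) _ ih
        rw [map_sub, g3 j (by omega)] at h4
        rw [h2, h3]
        convert add_mem (add_mem h4 (Submodule.smul_mem _ (a1 + a2) mk))
          (Submodule.smul_mem _ a (m0 j)) using 1
        module
  rw [← mul_one (_ * _), ← h, ← LinearMap.det_comp, ← LinearMap.det_comp]
  congr 1
  exact LinearMap.ext fun p => (y0 p).symm

/-- The basic factorisation `g = y * H`, with `H` conjugate to `B` under the special linear
group. -/
theorem exists_fac' (g : (K × Z) ≃ₗ[K] (K × Z)) (hg : (g (1, 0)).2 ≠ 0) (T : Z ≃ₗ[K] Z) {z : Z}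
    (hT : Cy (T : End K Z) z) (hd : 2 ≤ finrank K Z) {B : End K (K × Z)} {v : K × Z}
    (hB : Cy B v) : ∃ (e : Z ≃ₗ[K] Z) (e' : (K × Z) ≃ₗ[K] (K × Z)),
      LinearMap.det e'.toLinearMap = 1 ∧ e' (1, 0) = v ∧
      ∀ p, e (g p).2 = T (e (e'.symm (B (e' p))).2) := by
  set w := (g (1, 0)).2
  obtain ⟨k, hk⟩ := g.surjective (1, 0)
  have hk2 : k.2 ≠ 0 := fun h => by
    have : k = k.1 • (1, 0) := by ext <;> simp [h]
    rw [this, map_smul] at hk
    have h1 := congrArg Prod.snd hk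
    have h2 := congrArg Prod.fst hk
    simp only [Prod.smul_snd, smul_eq_zero, hg, or_false, w] at h1
    simp [h1] at h2
  obtain ⟨η, hη⟩ := Projective.exists_dual_eq_one K hk2
  let A : End K Z := LinearMap.snd K K Z ∘ₗ g.toLinearMap ∘ₗ ((k.1 + 1) • η).prod 1
  have a1 : ∀ p : K × Z, (g p).2 = A p.2 + (p.1 - (k.1 + 1) * η p.2) • w := fun p => by
    have : p = ((k.1 + 1) * η p.2, p.2) + (p.1 - (k.1 + 1) * η p.2) • ((1, 0) : K × Z) := by
      ext <;> simp
    conv_lhs => rw [this, map_add, map_smul]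
    rfl
  have a2 : A k.2 = w := by
    have := a1 k
    rw [hk, hη] at this
    rw [← sub_eq_zero]
    refine Eq.trans ?_ this.symm
    module
  have hA : Function.Injective A := by
    rw [injective_iff_map_eq_zero]
    intro y hy
    have h1 : g ((k.1 + 1) * η y, y) = g ((g ((k.1 + 1) * η y, y)).1 • k) := by
      rw [map_smul, hk]
      exact Prod.ext (by simp) (by rw [a1]; simpa using hy)
    have h2 := g.injective h1
    generalize (g ((k.1 + 1) * η y, y)).1 = c at h2
    obtain ⟨h3, h4⟩ := Prod.ext_iff.1 h2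
    simp only [Prod.smul_snd, Prod.smul_fst, smul_eq_mul] at h3 h4
    rw [h4, map_smul, hη, smul_eq_mul] at h3
    rw [h4, show c = 0 by linear_combination h3, zero_smul]
  obtain ⟨k₀, ψ, p1, p2, p3⟩ : ∃ (k₀ : Z) (ψ : Dual K Z), ψ w = 0 ∧ ψ k₀ = 1 ∧ ψ (A k₀) ≠ 0 := by
    obtain ⟨a, ha⟩ := exists_smul_notMem_of_finrank (K := K) w hd
    obtain ⟨φ, h1, h2⟩ := (Submodule.span K {w}).exists_dual_map_eq_bot_of_notMem (x := a)
      (by simpa [Submodule.mem_span_singleton, eq_comm] using ha) inferInstance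
    have h3 : φ w = 0 := by simpa [Submodule.map_span] using h2
    have h4 : φ ≠ 0 := fun e => h1 (by simp [e])
    have h5 : φ ∘ₗ A ≠ 0 := fun e => h1 (by
      obtain ⟨a, rfl⟩ := LinearMap.injective_iff_surjective.1 hA a
      exact LinearMap.congr_fun e a)
    obtain ⟨κ, h6, h7⟩ := exists_dual_ne (K := K) h4 h5
    obtain ⟨k₀, rfl⟩ := (evalEquiv K Z).surjective κ
    exact ⟨k₀, φ, h3, h6, h7⟩
  obtain ⟨S, c, ⟨N, hN⟩, s1, s2, s3, s4⟩ := exists_nil_ker A hA hg p1 p2 p3
  have s5 := s3 _ a2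
  let D : K → End K Z := fun t => LinearMap.transvection ((t - 1) • c) k₀
  have hD : ∀ t y, D t y = y + ((t - 1) * c y) • k₀ := fun _ _ => rfl
  have key : ∀ t : K, t ≠ 0 → ∃ (ξ : Dual K Z) (T' : Z ≃ₗ[K] Z) (e : Z ≃ₗ[K] Z)
      (ρ : Dual K (K × Z)) (e' : (K × Z) ≃ₗ[K] (K × Z)), (∀ y, e (T' y) = T (e y)) ∧
      (∀ y, T' y = A (D t (S y)) + ξ y • w) ∧ T'.symm w = (ξ k₀)⁻¹ • k₀ ∧
      ξ k₀ * t * (LinearMap.det A * LinearMap.det (S + ψ.smulRight k.2)) =
        LinearMap.det T.toLinearMap ∧ Cy (LinearMap.inr K K Z ∘ₗ T'.symm.toLinearMap ∘ₗ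
        LinearMap.snd K K Z ∘ₗ g.toLinearMap) (1, 0) ∧ e' (1, 0) = v ∧
      ∀ p, e' ((0, T'.symm (g p).2) + ρ p • (1, 0)) = B (e' p) := fun t ht => by
    obtain ⟨ξ, e, -, he⟩ := (s4 t ht).place hT rfl
    let T' := e.trans (T.trans e.symm)
    have t1 : ∀ y, T' y = A (D t (S y)) + ξ y • w := fun y => e.symm_apply_eq.2 (he y).symm
    have t2 : T' k₀ = ξ k₀ • w := by simp [t1, s1]
    have t3 : ξ k₀ ≠ 0 := fun h => by
      rw [h, zero_smul, T'.map_eq_zero_iff] at t2
      simp [t2] at p2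
    have t4 : T'.symm w = (ξ k₀)⁻¹ • k₀ := by
      rw [LinearEquiv.symm_apply_eq, map_smul, t2, smul_smul, inv_mul_cancel₀ t3, one_smul]
    have t5 : T'.toLinearMap = A ∘ₗ D t ∘ₗ (S + ψ.smulRight k.2) ∘ₗ
        LinearMap.transvection (ξ - ψ) k₀ := LinearMap.ext fun y => by
      simp only [LinearEquiv.coe_coe, t1, hD, LinearMap.comp_apply, LinearMap.transvection.apply,
        LinearMap.add_apply, LinearMap.smulRight_apply, map_add, map_smul, s1, p2, a2, s5,
        LinearMap.sub_apply, map_zero]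
      module
    have hc : Cy (LinearMap.inr K K Z ∘ₗ T'.symm.toLinearMap ∘ₗ LinearMap.snd K K Z ∘ₗ
        g.toLinearMap) (1, 0) := fun W w1 w2 => by
      have k1 : ((0, T'.symm w) : K × Z) ∈ W := w2 _ w1
      have k0 : ((0, k₀) : K × Z) ∈ W := by simpa [t4, smul_smul, t3] using W.smul_mem (ξ k₀) k1
      have k2 : ∀ y, ((0, S y) : K × Z) ∈ W → ((0, y) : K × Z) ∈ W := fun y hy => by
        have h0 : ((0, D t (S y)) : K × Z) ∈ W := by
          simpa [hD] using W.add_mem hy (W.smul_mem ((t - 1) * c (S y)) k0)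
        have h1 : ((0, T'.symm (g (0, D t (S y))).2) : K × Z) ∈ W := w2 _ h0
        have h2 := W.add_mem h1 (W.smul_mem (ξ y - (0 - (k.1 + 1) * η (D t (S y)))) k1)
        convert h2 using 1
        refine Prod.ext (by simp) (T'.injective ?_)
        simp only [t1 y, a1, Prod.snd_add, Prod.smul_snd, map_add, map_smul,
          LinearEquiv.apply_symm_apply]
        module
      have k3 : ∀ j y, ((0, (S ^ j) y) : K × Z) ∈ W → ((0, y) : K × Z) ∈ W := fun j => by
        induction j with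
        | zero => simp
        | succ j ih => exact fun y hy => ih y (k2 _ (by simpa [pow_succ'] using hy))
      refine eq_top_iff.2 fun p _ => ?_
      simpa using W.add_mem (W.smul_mem p.1 w1) (k3 N p.2 (by rw [hN]; exact W.zero_mem))
    obtain ⟨ρ, e', h1, h2⟩ := hc.place hB rfl
    refine ⟨ξ, T', e, ρ, e', fun y => by simp [T'], t1, t4, ?_, hc, h1, h2⟩
    rw [← Sim.det_eq (f := T'.toLinearMap) (g := T.toLinearMap) ⟨e, fun _ => by simp [T']⟩, t5]
    simp only [LinearMap.det_comp, D, LinearMap.transvection.det, LinearMap.smul_apply, s2,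
      LinearMap.sub_apply, p2, smul_eq_mul]
    ring
  obtain ⟨ξ₁, T₁, -, ρ₁, e₁, -, b1, b2, b3, b4, b5, b6⟩ := key 1 one_ne_zero
  have ht := e₁.isUnit_det'.ne_zero
  set t := LinearMap.det e₁.toLinearMap with ht'
  obtain ⟨ξ, T', e, ρ, e', c0, c1, c2, c3, -, c5, c6⟩ := key t ht
  have d0 := T.isUnit_det'.ne_zero
  have d1 : ξ₁ k₀ = ξ k₀ * t :=
    mul_right_cancel₀ (right_ne_zero_of_mul (b3 ▸ d0)) (by rw [c3, ← b3, mul_one])
  have d2 : ξ k₀ ≠ 0 := fun h => d0 (by rw [← c3, h]; simp)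
  let D' : (K × Z) ≃ₗ[K] (K × Z) := LinearEquiv.ofLinearMap (LinearMap.prodMap 1 (D t))
    (LinearMap.prodMap 1 (D t⁻¹)) (LinearMap.ext fun p => Prod.ext rfl (by
      simp [hD, s2]; match_scalars <;> (field_simp; try ring))) (LinearMap.ext fun p => Prod.ext rfl (by
      simp [hD, s2]; match_scalars <;> (field_simp; try ring)))
  have h := det_place (f' := LinearMap.inr K K Z ∘ₗ T'.symm.toLinearMap ∘ₗ LinearMap.snd K K Z ∘ₗ
    g.toLinearMap) (k := (0, k₀)) b4 D' (by simp [D']) (fun p => ⟨_, Prod.ext (by simp [D'])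
      (hD _ _)⟩) (fun p => ?_) ?_ ⟨ξ₁ k₀, ?_⟩ b5 c5 b6 c6
  · refine ⟨e, e', mul_right_cancel₀ ht ?_, c5, fun p => ?_⟩
    · simpa [D', D, LinearMap.det_prodMap, s2] using h.symm
    · rw [← c6, ← c0]
      simp
  · obtain ⟨y, hy⟩ := T₁.surjective (g p).2
    have h1 := a1 p
    rw [← hy, b1, hD, ← a2, sub_self, zero_mul, zero_smul, add_zero, ← map_smul, ← map_smul,
      ← map_add, ← map_add] at h1
    have h2 : p.2 = S y + (ξ₁ y - (p.1 - (k.1 + 1) * η p.2)) • k.2 := by
      rw [sub_smul, ← add_sub_assoc, hA h1, add_sub_cancel_right]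
    refine ⟨((ξ₁ y - (p.1 - (k.1 + 1) * η p.2)) + (p.1 - (k.1 + 1) * η (D t p.2)) - ξ y) *
      (ξ k₀)⁻¹, Prod.ext (by simp) (T'.injective ?_)⟩
    have h3 : T' k₀ = ξ k₀ • w := by simp [c1, s1]
    have h4 : A (D t p.2) = A (D t (S y)) + (ξ₁ y - (p.1 - (k.1 + 1) * η p.2)) • w := by
      conv_lhs => rw [h2]
      simp [hD _ k.2, s5, a2]
    simp only [LinearMap.comp_apply, LinearEquiv.coe_coe, LinearMap.snd_apply, LinearMap.inr_apply,
      LinearEquiv.apply_symm_apply, ← hy, LinearEquiv.symm_apply_apply, Prod.snd_add,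
      Prod.smul_snd, map_add, map_smul, h3, c1 y]
    rw [a1, show (D' p).2 = D t p.2 from rfl, show (D' p).1 = p.1 from rfl, h4]
    match_scalars <;> (field_simp; try ring)
  · refine Prod.ext (by simp [D']) ?_
    change T'.symm w = D t (T₁.symm w)
    rw [c2, b2, d1, hD, map_smul, s2, smul_eq_mul]
    match_scalars; field_simp; ring
  · refine Prod.ext (by simp) ?_
    change k₀ = ξ₁ k₀ • T₁.symm w
    rw [b2, smul_smul, mul_inv_cancel₀ (d1 ▸ mul_ne_zero d2 ht), one_smul]

variable {E E' Z' : Type u} [AddCommGroup E] [Module K E] [AddCommGroup E'] [Module K E']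
  [AddCommGroup Z'] [Module K Z']

/-- Block triangular endomorphisms. -/
def blk (a : End K E) (ρ : Z →ₗ[K] E) (T : End K Z) : End K (E × Z) :=
  (a.coprod ρ).prod (T ∘ₗ LinearMap.snd K E Z)

omit [FiniteDimensional K Z] in
@[simp] theorem blk_apply (a : End K E) (ρ : Z →ₗ[K] E) (T : End K Z) (p : E × Z) :
    blk a ρ T p = (a p.1 + ρ p.2, T p.2) := rfl

omit [FiniteDimensional K Z] in
theorem blk_mul (a a' : End K E) (ρ ρ' : Z →ₗ[K] E) (T T' : End K Z) :
    blk a ρ T * blk a' ρ' T' = blk (a * a') (a ∘ₗ ρ' + ρ ∘ₗ T') (T * T') :=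
  LinearMap.ext fun p => by simp [add_assoc]

omit [FiniteDimensional K Z] in
theorem blk_zero (a : End K E) (T : End K Z) : blk a 0 T = a.prodMap T :=
  LinearMap.ext fun p => by simp

theorem det_blk [FiniteDimensional K E] (a : End K E) (ρ : Z →ₗ[K] E) (T : End K Z) :
    LinearMap.det (blk a ρ T) = LinearMap.det a * LinearMap.det T :=
  det_block (fun _ => by simp) fun _ => rfl

/-- Conjugacy under the special linear group. -/
def SimS (f g : End K V) : Prop :=
  ∃ e : V ≃ₗ[K] V, LinearMap.det e.toLinearMap = 1 ∧ ∀ v, e (f v) = g (e v)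

omit [FiniteDimensional K V] in
theorem SimS.sim {f g : End K V} (h : SimS f g) : Sim f g := h.imp fun _ h => h.2

omit [FiniteDimensional K V] in
theorem SimS.refl (f : End K V) : SimS f f := ⟨LinearEquiv.refl K V, by simp, fun _ => rfl⟩

omit [FiniteDimensional K V] in
theorem SimS.symm {f g : End K V} (h : SimS f g) : SimS g f := by
  obtain ⟨e, h1, h2⟩ := h
  refine ⟨e.symm, by simpa [h1] using e.det_mul_det_symm, fun v => e.injective ?_⟩
  simp [h2]

omit [FiniteDimensional K V] in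
theorem SimS.trans {f g k : End K V} (h : SimS f g) (h' : SimS g k) : SimS f k := by
  obtain ⟨e, h1, h2⟩ := h
  obtain ⟨e', h3, h4⟩ := h'
  exact ⟨e.trans e', by rw [LinearEquiv.coe_trans, LinearMap.det_comp, h1, h3, one_mul],
    fun v => by simp [h2, h4]⟩

omit [FiniteDimensional K V] [FiniteDimensional K Z] in
theorem SimS.conj {f g : End K V} (h : SimS f g) (e : V ≃ₗ[K] Z) : SimS (e.conj f) (e.conj g) := by
  obtain ⟨c, h1, h2⟩ := h
  exact ⟨e.symm.trans (c.trans e), h1 ▸ Sim.det_eq ⟨e.symm, fun _ => by simp⟩,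
    fun v => by simp [LinearEquiv.conj_apply, h2]⟩

theorem simS_blk [FiniteDimensional K E] (a : End K E) (ρ σ : Z →ₗ[K] E) (T : End K Z) :
    SimS (blk a ρ T) (blk a (ρ + σ ∘ₗ T - a ∘ₗ σ) T) :=
  ⟨LinearEquiv.ofLinearMap (blk 1 σ 1) (blk 1 (-σ) 1) (LinearMap.ext fun p => by simp)
    (LinearMap.ext fun p => by simp), by simp [det_blk], fun p => by simp; abel⟩

omit [FiniteDimensional K Z] in
theorem sim_blk {a : End K E} {a' : End K E'} {T : End K Z} {T' : End K Z'} (e : E ≃ₗ[K] E')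
    (e' : Z ≃ₗ[K] Z') (h : ∀ v, e (a v) = a' (e v)) (h' : ∀ v, e' (T v) = T' (e' v))
    (ρ : Z →ₗ[K] E) : Sim (blk a ρ T) (blk a' (e.toLinearMap ∘ₗ ρ ∘ₗ e'.symm.toLinearMap) T') :=
  ⟨e.prodCongr e', fun p => by simp [h, h']⟩

theorem exists_equiv {g : End K V} (h : LinearMap.det g ≠ 0) :
    ∃ e : V ≃ₗ[K] V, e.toLinearMap = g :=
  ⟨LinearMap.equivOfIsUnitDet h.isUnit, by simp⟩

omit [FiniteDimensional K V] [FiniteDimensional K Z] in
theorem Cy.map {f : End K V} {g : End K Z} {v : V} (h : Cy f v) (e : V ≃ₗ[K] Z)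
    (he : ∀ v, e (f v) = g (e v)) : Cy g (e v) := fun W w1 w2 => by
  have := h (W.comap e.toLinearMap) w1 fun a ha => by simpa [he] using w2 _ ha
  refine eq_top_iff.2 fun p _ => ?_
  simpa using this.ge (Submodule.mem_top (x := e.symm p))

theorem fac_blk {g : End K V} (g0 : LinearMap.det g ≠ 0) (hg : ¬ ∃ c : K, ∀ v, g v = c • v)
    {T : End K Z} (T0 : LinearMap.det T ≠ 0) {z : Z} (hT : Cy T z)
    (hd : finrank K V = finrank K Z + 1) (h2 : 2 ≤ finrank K Z) {B : End K V} {v : V}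
    (hB : Cy B v) {δ : K}
    (hdet : LinearMap.det g = δ * LinearMap.det T * LinearMap.det B) :
    ∃ (e : V ≃ₗ[K] K × Z) (ρ : Dual K Z) (y H : End K V), g = y * H ∧ SimS B H ∧
      (∀ p, e (y p) = blk (δ • 1) ρ T (e p)) ∧ Cy H (e.symm (1, 0)) := by
  obtain ⟨x, hx⟩ := UC.exists_not_eig hg
  have B0 : LinearMap.det B ≠ 0 := right_ne_zero_of_mul (hdet ▸ g0)
  obtain ⟨g, rfl⟩ := exists_equiv g0
  obtain ⟨T, rfl⟩ := exists_equiv T0
  obtain ⟨B, rfl⟩ := exists_equiv B0
  obtain ⟨E, hE⟩ := exists_equiv_prod (Z := Z) (x := x) (by rintro rfl; exact hx 0 (by simp)) hd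
  obtain ⟨e, e', h0, h1, he⟩ := exists_fac' (E.symm.trans (g.trans E))
    (fun h => hx (E (g x)).1 (by
      apply E.injective
      rw [map_smul, hE]
      simp only [← hE, LinearEquiv.trans_apply, LinearEquiv.symm_apply_apply] at h
      exact Prod.ext (by simp) (by simpa using h))) T hT h2
      (Cy.map hB E (g := E.conj B.toLinearMap) fun _ => by simp [LinearEquiv.conj_apply])
  let c := E.trans (e'.trans E.symm)
  let H := c.trans (B.trans c.symm)
  let y := H.symm.trans g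
  let E' := E.trans ((LinearEquiv.refl K K).prodCongr e)
  let y' := E'.symm.trans (y.trans E')
  have k1 : ∀ p, (y' p).2 = T p.2 := fun p => by
    simpa [y', y, E', H, c, LinearEquiv.conj_apply] using he (E (H.symm (E'.symm p)))
  have k2 : SimS B.toLinearMap H.toLinearMap := SimS.symm ⟨c, h0 ▸ Sim.det_eq
    ⟨E, fun _ => by simp [c]⟩, fun _ => by simp [H]⟩
  have k3 : g.toLinearMap = y.toLinearMap * H.toLinearMap := LinearMap.ext fun p => by simp [y]
  have k4 : (y' (1, 0)).1 = δ := by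
    rw [k3, map_mul, ← k2.sim.det_eq, Sim.det_eq (f := y.toLinearMap) (g := y'.toLinearMap)
      ⟨E', fun _ => by simp [y']⟩, det_of_snd y'.toLinearMap T k1] at hdet
    exact mul_right_cancel₀ T0 (mul_right_cancel₀ B0 hdet)
  refine ⟨E', LinearMap.fst K K Z ∘ₗ y'.toLinearMap ∘ₗ LinearMap.inr K K Z, y, H, k3, k2,
    fun p => ?_, ?_⟩
  · obtain ⟨p, rfl⟩ := E'.symm.surjective p
    refine Prod.ext ?_ (by simpa [y'] using k1 p)
    change (y' p).1 = _
    conv_lhs => rw [show p = p.1 • ((1, 0) : K × Z) + (0, p.2) by simp, map_add, map_smul]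
    simp [k4, mul_comm]
  · convert Cy.map hB c.symm (g := H.toLinearMap) fun _ => by simp [H]
    simp [E', c, ← h1, LinearEquiv.prodCongr_symm]

end Cfsg.Lib.Known.Lev
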