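import Cfsg.Agent.Known.LevGrow

/-!
Cyclic elements in the square of a class: gluing of blocks.
-/

set_option autoImplicit false

namespace Cfsg.Lib.Known.Lev

open Module Polynomial CP
open scoped Pointwise

universe u

variable {K : Type u} [Field K] {V Z E : Type u} [AddCommGroup V] [Module K V]
  [AddCommGroup Z] [Module K Z] [AddCommGroup E] [Module K E]

def Pr2 (x : End K V) (l : K) : Prop :=
  ∃ y y', SimS x y ∧ SimS x y' ∧ (∃ z, Cy (y * y') z) ∧ ∀ v, y v = l • v → y' v = l • v → v = 0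

def Top (x : End K V) : Prop :=
  LinearMap.det x ≠ 0 ∧ ∃ y y', SimS x y ∧ SimS x y' ∧ (∃ z, Cy (y * y') z) ∧
    (∀ (l : K) v, y v = l • v → y' v = l • v → v = 0) ∧
    (∃ (s : Finset K[X]) (N : ℕ), s.card ≤ 3 ∧ (∀ p ∈ s, Irreducible p) ∧
      aeval (y * y') ((∏ p ∈ s, p) ^ N) = 0) ∧
    ∀ U : Submodule K V, U ≠ ⊤ → (∀ v ∈ U, (y * y') v ∈ U) → ∀ h : K[X],
      ¬ ∀ w, y' w - aeval (y * y') h w ∈ U

theorem Cy.exists_aeval {f : End K V} {z : V} (h : Cy f z) (v : V) : ∃ p : K[X], aeval f p z = v :=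
  (h (LinearMap.range (LinearMap.applyₗ z ∘ₗ (aeval f).toLinearMap)) ⟨1, by simp⟩ (by
    rintro _ ⟨p, rfl⟩
    exact ⟨X * p, by simp⟩)).ge Submodule.mem_top

theorem Pr2.of_sim {x : End K V} {y : End K Z} {l : K} (h : Pr2 y l) (s : Sim x y) : Pr2 x l := by
  obtain ⟨e, he⟩ := s.symm
  obtain ⟨a, b, h1, h2, ⟨z, h3⟩, h4⟩ := h
  refine ⟨_, _, conj_eq he ▸ h1.conj e, conj_eq he ▸ h2.conj e, ⟨_, Cy.map h3 e fun _ => by
    simp [LinearEquiv.conj_apply]⟩, fun v k1 k2 => e.symm.map_eq_zero_iff.1 (h4 _ ?_ ?_)⟩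
  · simpa [LinearEquiv.conj_apply] using congrArg e.symm k1
  · simpa [LinearEquiv.conj_apply] using congrArg e.symm k2

variable [FiniteDimensional K V] [FiniteDimensional K Z] [FiniteDimensional K E]

theorem mem_of_map_mem {f : End K V} (f0 : LinearMap.det f ≠ 0) {U : Submodule K V}
    (h : ∀ v ∈ U, f v ∈ U) {v : V} (hv : f v ∈ U) : v ∈ U := by
  obtain ⟨w, h1, h2⟩ := OC.surj_of_inj h (fun x _ => inj_of_det f0 x) _ hv
  rwa [← sub_eq_zero.1 (inj_of_det f0 (w - v) (by simp [h2]))]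

theorem SimS.blk {x y : End K V} {x' y' : End K Z} (h : SimS x y) (h' : SimS x' y') :
    SimS (blk x 0 x') (blk y 0 y') := by
  obtain ⟨e, h1, h2⟩ := h
  obtain ⟨e', h3, h4⟩ := h'
  refine ⟨e.prodCongr e', ?_, fun p => by simp [h2, h4]⟩
  rw [show (e.prodCongr e').toLinearMap = Lev.blk e.toLinearMap 0 e'.toLinearMap from
    LinearMap.ext fun p => by simp, det_blk, h1, h3, one_mul]

theorem Top.glue [Fintype K] (h4 : 4 ≤ Fintype.card K) {x : End K V} {x' : End K Z} {l : K}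
    (h : Top x) (h' : Pr2 x' l) : Pr2 (blk x 0 x') l := by
  classical
  obtain ⟨x0, y, y', s1, s2, ⟨z, c1⟩, n1, ⟨s, N, p1, p2, p3⟩, gd⟩ := h
  obtain ⟨a, a', s3, s4, ⟨z', c2⟩, n2⟩ := h'
  have T0 : LinearMap.det (y * y') ≠ 0 := by
    rw [map_mul, ← s1.sim.det_eq, ← s2.sim.det_eq]; exact mul_ne_zero x0 x0
  set T := y * y' with hT
  let U : K[X] → Submodule K V := fun p => LinearMap.range (aeval T p)
  have hU : ∀ p, ∀ v ∈ U p, T v ∈ U p := by
    rintro p _ ⟨v, rfl⟩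
    exact ⟨T v, (intertwine_aeval T (fun _ => rfl) p v).symm⟩
  let S : K[X] → Submodule K (V × (Z →ₗ[K] V)) := fun p =>
    { carrier := {q | ∃ ψ : Z →ₗ[K] V, (∀ v, T (ψ v) + (y (q.2 (a' v)) - T (q.2 v)) -
        ψ (a (a' v)) ∈ U p) ∧ q.1 - ψ z' ∈ U p}
      zero_mem' := ⟨0, by simp⟩
      add_mem' := by
        rintro q q' ⟨ψ, h1, h2⟩ ⟨ψ', h3, h4⟩
        exact ⟨ψ + ψ', fun v => by convert add_mem (h1 v) (h3 v) using 1; simp; abel,
          by convert add_mem h2 h4 using 1; simp; abel⟩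
      smul_mem' := by
        rintro c q ⟨ψ, h1, h2⟩
        exact ⟨c • ψ, fun v => by simpa [smul_sub] using (U p).smul_mem c (h1 v),
          by simpa [smul_sub] using (U p).smul_mem c h2⟩ }
  have hS : ∀ p, U p ≠ ⊤ → S p ≠ ⊤ := fun p hp e => by
    obtain ⟨b, g, c, g0, g1, g2, g3⟩ := exists_horner c2 rfl
    rcases Nat.eq_zero_or_eq_succ_pred (finrank K Z) with hm | hm
    · refine hp (eq_top_iff.2 fun v _ => ?_)
      obtain ⟨ψ, -, h2⟩ := e.ge (Submodule.mem_top (x := (v, 0)))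
      simpa [← g0, ← hm, g1] using h2
    generalize (finrank K Z).pred = m at hm
    let η := b.coord ⟨m, by omega⟩
    have k0 : ∀ w (ψ : Z →ₗ[K] V), (∀ v, T (ψ v) + (y (η (a' v) • w) - T (η v • w)) -
        ψ (a (a' v)) ∈ U p) → ψ z' ∈ U p → ∀ j ≤ m, ∀ h : K[X], ψ (g j) - aeval T h (y w) ∈ U p →
        ψ (g (j + 1)) + η (g j) • T w - aeval T (X * h + C (η (a' (g j)))) (y w) ∈ U p :=
      fun w ψ h1 h2 j hj h h3 => by
        have h4 := h1 (g j)
        rw [← End.mul_apply a, g3 j (by omega), map_add, map_smul ψ] at h4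
        convert sub_mem (sub_mem (hU p _ h3) h4) ((U p).smul_mem (c j) h2) using 1
        simp; module
    have k1 : ∀ j ≤ m, ∃ h : K[X], ∀ w (ψ : Z →ₗ[K] V), (∀ v, T (ψ v) + (y (η (a' v) • w) -
        T (η v • w)) - ψ (a (a' v)) ∈ U p) → ψ z' ∈ U p → ψ (g j) - aeval T h (y w) ∈ U p :=
      fun j => by
        induction j with
        | zero => exact fun _ => ⟨0, fun w ψ _ h => by simpa [g0]⟩
        | succ j ih =>
          intro hj
          obtain ⟨h, hh⟩ := ih (by omega)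
          refine ⟨X * h + C (η (a' (g j))), fun w ψ h1 h2 => ?_⟩
          have := k0 w ψ h1 h2 j (by omega) h (hh w ψ h1 h2)
          rwa [show η (g j) = 0 by
            rw [← g2 ⟨j, by omega⟩]; simp [η, Finsupp.single_apply, Fin.ext_iff]; omega,
            zero_smul, add_zero] at this
    obtain ⟨h, hh⟩ := k1 m le_rfl
    refine gd (U p) hp (hU p) (X * h + C (η (a' (g m)))) fun w => mem_of_map_mem T0 (hU p) ?_
    obtain ⟨ψ, h1, h2⟩ := e.ge (Submodule.mem_top (x := (0, η.smulRight (y' w))))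
    have h3 : ψ z' ∈ U p := by simpa using h2
    have := k0 _ ψ h1 h3 m le_rfl h (hh _ ψ h1 h3)
    rw [show η (g m) = 1 by rw [← g2 ⟨m, by omega⟩]; simp [η], show m + 1 = finrank K Z by omega,
      g1, map_zero, zero_add, one_smul, ← End.mul_apply y, ← hT,
      ← intertwine_aeval T (fun _ => rfl)] at this
    rwa [map_sub]
  obtain ⟨⟨z₁, σ⟩, -, hq⟩ := Set.exists_of_ssubset
    (Submodule.iUnion_ssubset_of_forall_ne_top_of_card_lt (K := K) Finset.univ
      (fun p : {p // p ∈ s.filter fun p => U p ≠ ⊤} => S p)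
      (fun p => hS _ (Finset.mem_filter.1 p.2).2) (by
        rw [ENat.card_eq_coe_fintype_card, Finset.card_univ, Fintype.card_coe]
        exact_mod_cast ((Finset.card_filter_le _ _).trans p1).trans_lt h4))
  simp only [Finset.mem_univ, Set.iUnion_true, Set.mem_iUnion, not_exists, Subtype.forall,
    Finset.mem_filter, SetLike.mem_coe] at hq
  refine ⟨_, _, s1.blk s3, (s2.blk s4).trans (simS_blk _ 0 σ _), ⟨(z₁, z'), fun W w1 w2 => ?_⟩,
    fun v h1 h2 => ?_⟩
  swap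
  · have h3 := n2 v.2 (congrArg Prod.snd h1) (congrArg Prod.snd h2)
    exact Prod.ext (n1 l v.1 (by simpa using congrArg Prod.fst h1)
      (by simpa [h3] using congrArg Prod.fst h2)) h3
  have k1 := c2 (W.map (LinearMap.snd K V Z)) ⟨_, w1, rfl⟩ (by
    rintro _ ⟨p, hp, rfl⟩
    exact ⟨_, w2 p hp, rfl⟩)
  let U₀ := W.comap (LinearMap.inl K V Z)
  have k2 : ∀ v ∈ U₀, T v ∈ U₀ := fun v hv => by simpa [U₀, hT] using w2 _ hv
  suffices U₀ = ⊤ by
    refine eq_top_iff.2 fun q _ => ?_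
    obtain ⟨r, hr, h4⟩ := k1.ge (Submodule.mem_top (x := q.2))
    convert W.add_mem hr (this.ge (Submodule.mem_top (x := q.1 - r.1))) using 1
    exact Prod.ext (by simp) (by simpa using h4.symm)
  by_contra k3
  obtain ⟨p, hp, k4⟩ : ∃ p ∈ s, U₀ ⊔ U p ≠ ⊤ := by
    by_contra! k4
    have q1 : U₀ ⊔ U 1 = ⊤ := by simp [U, End.one_eq_id]
    have q2 : ∀ f g, U₀ ⊔ U f = ⊤ → U₀ ⊔ U g = ⊤ → U₀ ⊔ U (f * g) = ⊤ := fun f g hf hg => by
      refine eq_top_iff.2 fun v _ => ?_
      obtain ⟨u, hu, _, ⟨v, rfl⟩, rfl⟩ := Submodule.mem_sup.1 (hf.ge (Submodule.mem_top (x := v)))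
      obtain ⟨u', hu', _, ⟨v, rfl⟩, rfl⟩ := Submodule.mem_sup.1 (hg.ge (Submodule.mem_top (x := v)))
      rw [map_add, ← add_assoc]
      exact Submodule.add_mem_sup (add_mem hu (SC.aeval_mem k2 f _ hu')) ⟨v, by simp⟩
    have q3 : ∀ N, U₀ ⊔ U ((∏ p ∈ s, p) ^ N) = ⊤ := fun N => by
      induction N with
      | zero => simpa using q1
      | succ N ih => exact pow_succ (∏ p ∈ s, p) N ▸ q2 _ _ ih (Finset.prod_induction _ _ q2 q1 k4)
    exact k3 (by simpa only [U, p3, LinearMap.range_zero, sup_bot_eq] using q3 N)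
  have k5 : U₀ ≤ U p := fun v hv => by
    obtain ⟨f, rfl⟩ := Cy.exists_aeval c1 v
    by_contra k5
    obtain ⟨α, β, k6⟩ : IsCoprime p f := (p2 p hp).coprime_iff_not_dvd.2 fun ⟨r, hr⟩ =>
      k5 ⟨aeval T r z, by simp [hr]⟩
    refine k4 (c1 _ ?_ fun v hv => ?_)
    · have := congrArg (fun f => aeval T f z) k6
      simp only [map_add, map_one, LinearMap.add_apply, End.one_apply] at this
      rw [← this, add_comm, mul_comm α, map_mul, map_mul]
      exact Submodule.add_mem_sup (SC.aeval_mem k2 β _ hv) ⟨_, rfl⟩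
    · obtain ⟨u, hu, u', hu', rfl⟩ := Submodule.mem_sup.1 hv
      exact map_add T u u' ▸ Submodule.add_mem_sup (k2 u hu) (hU p u' hu')
  obtain ⟨τ, hτ⟩ := (LinearMap.snd K V Z ∘ₗ W.subtype).exists_rightInverse_of_surjective
    (by rw [LinearMap.range_comp, Submodule.range_subtype, k1])
  have k6 : ∀ v, ((τ v).1.1, v) ∈ W := fun v => by
    convert (τ v).2
    exact (LinearMap.congr_fun hτ v).symm
  refine hq p ⟨hp, fun e => k4 (by simp [e])⟩ ⟨LinearMap.fst K V Z ∘ₗ W.subtype ∘ₗ τ,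
    fun v => k5 ?_, k5 ?_⟩
  · simpa [U₀, hT, add_sub_assoc] using W.sub_mem (w2 _ (k6 v)) (k6 (a (a' v)))
  · simpa [U₀] using W.sub_mem w1 (k6 z')

theorem exists_ne_three [Fintype K] (h4 : 4 ≤ Fintype.card K) (a b c : K) :
    ∃ d, d ≠ a ∧ d ≠ b ∧ d ≠ c := by
  classical
  obtain ⟨d, -, hd⟩ := Finset.exists_mem_notMem_of_card_lt_card (s := ({a, b, c} : Finset K))
    (t := Finset.univ) (Finset.card_le_three.trans_lt h4)
  exact ⟨d, by simpa [not_or] using hd⟩

theorem exists_sq_ne [Fintype K] (h4 : 4 ≤ Fintype.card K) (b c : K) :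
    ∃ a, a ≠ 0 ∧ a ≠ b ∧ a ^ 2 ≠ c := by
  by_contra! h
  obtain ⟨a, h1, h2, -⟩ := exists_ne_three h4 0 b b
  obtain ⟨a', h3, h5, h6⟩ := exists_ne_three h4 0 b a
  obtain ⟨a'', h7, h8, h9⟩ := exists_ne_three h4 0 a a'
  have k : ∀ d, d ≠ 0 → d ≠ b → d = a ∨ d = -a := fun d e e' =>
    sq_eq_sq_iff_eq_or_eq_neg.1 ((h d e e').trans (h a h1 h2).symm)
  obtain rfl := (k a' h3 h5).resolve_left h6
  by_cases b0 : b = 0
  · exact (k a'' h7 (b0 ▸ h7)).elim h8 h9
  · have : (2 : K) ≠ 0 := fun e => h6 (by linear_combination -a * e)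
    exact (k (-b) (by simpa) fun e => mul_ne_zero this b0 (by linear_combination -e)).elim
      (fun e => h5 (by rw [← e, neg_neg])) fun e => h2 (neg_injective e).symm

theorem exists_no_root [Fintype K] {d : K} (hd : d ≠ 0) : ∃ t : K, ∀ c, c ^ 2 - t * c + d ≠ 0 := by
  classical
  obtain ⟨t, -, ht⟩ := Finset.exists_mem_notMem_of_card_lt_card
    (s := (Finset.univ.erase (0 : K)).image fun c => c + d / c) (t := Finset.univ)
    (Finset.card_image_le.trans_lt (Finset.card_erase_lt_of_mem (Finset.mem_univ _)))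
  refine ⟨t, fun c hc => ht (Finset.mem_image.2 ⟨c, ?_, ?_⟩)⟩
  · simp; rintro rfl; exact hd (by simpa using hc)
  · have : c ≠ 0 := by rintro rfl; exact hd (by simpa using hc)
    field_simp; linear_combination hc

omit [FiniteDimensional K V] in
theorem fac_three {T : End K V} {p q r f : K[X]} (hp : Irreducible p) (hq : Irreducible q)
    (hr : Irreducible r) {N : ℕ} (h : aeval T f = 0) (hf : f ∣ (p * q * r) ^ N) :
    ∃ (s : Finset K[X]) (N : ℕ), s.card ≤ 3 ∧ (∀ p ∈ s, Irreducible p) ∧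
      aeval T ((∏ p ∈ s, p) ^ N) = 0 := by
  classical
  refine ⟨{p, q, r}, 3 * N, Finset.card_le_three, by simp [hp, hq, hr], ?_⟩
  obtain ⟨g, hg⟩ : f ∣ (∏ p ∈ ({p, q, r} : Finset K[X]), p) ^ (3 * N) := by
    refine hf.trans ?_
    rw [pow_mul, pow_three']
    exact pow_dvd_pow_of_dvd (mul_dvd_mul (mul_dvd_mul (Finset.dvd_prod_of_mem _ (by simp))
      (Finset.dvd_prod_of_mem _ (by simp))) (Finset.dvd_prod_of_mem _ (by simp))) _
  rw [hg, map_mul, h, zero_mul]

theorem simS_mat {n : ℕ} (P : Matrix (Fin n) (Fin n) K) {A B : Matrix (Fin n) (Fin n) K}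
    (h1 : P.det = 1) (h2 : P * A = B * P) : SimS (Matrix.toLin' A) (Matrix.toLin' B) := by
  obtain ⟨e, he⟩ := exists_equiv (g := Matrix.toLin' P) (by simp [h1])
  exact ⟨e, by simp [he, h1], fun v => by
    change e.toLinearMap _ = Matrix.toLin' B (e.toLinearMap v)
    rw [he, ← Matrix.toLin'_mul_apply, h2, Matrix.toLin'_mul_apply]⟩

omit [FiniteDimensional K V] in
theorem aeval_quad (f : End K V) (t d : K) (v : V) :
    aeval f (X ^ 2 - C t * X + C d) v = f (f v) - t • f v + d • v := by simp [sq]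

theorem top_two [Fintype K] (h4 : 4 ≤ Fintype.card K) (a : K) {b : K} (hb : b ≠ 0) :
    Top (Matrix.toLin' !![a, b; 1, 0]) := by
  obtain ⟨α, h1, h2, h3⟩ := exists_sq_ne h4 (-a) (a ^ 2 + 4 * b)
  have h5 : a + α ≠ 0 := fun h => h2 (by linear_combination h)
  have s := simS_mat !![1, α; 0, 1] (A := !![a, b; 1, 0])
    (B := !![a + α, b - a * α - α ^ 2; 1, -α]) (by simp)
    (by ext i j; fin_cases i <;> fin_cases j <;> simp <;> ring)
  have d0 : LinearMap.det (Matrix.toLin' !![a, b; 1, 0]) ≠ 0 := by simp [hb]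
  have d1 := s.sim.det_eq ▸ d0
  have ne : ∀ (c c' : K) v, Matrix.toLin' !![a, b; 1, 0] v = c • v →
      Matrix.toLin' !![a + α, b - a * α - α ^ 2; 1, -α] v = c' • v → v = 0 := fun c c' v k k' => by
    have k1 := congrFun k 0
    have k2 := congrFun k 1
    have k3 := congrFun k' 0
    have k4 := congrFun k' 1
    simp [Matrix.vecHead, Matrix.vecTail] at k1 k2 k3 k4
    have : v 1 = 0 := by grind
    ext i; fin_cases i <;> simp [k2, this]
  refine ⟨d0, _, _, SimS.refl _, s, UC.cy_two (by simp) fun ⟨c, hc⟩ => h5 ?_,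
    fun l v => ne l l v, ?_, fun U hU hT h hh => ?_⟩
  · simpa [Matrix.vecHead] using congrFun (hc ![1, 0]) 1
  · have k : aeval (Matrix.toLin' !![a, b; 1, 0] * Matrix.toLin' !![a + α, b - a * α - α ^ 2; 1, -α])
        (X ^ 2 - C (a ^ 2 + 2 * b - α ^ 2) * X + C (b ^ 2)) = 0 := by
      refine LinearMap.ext fun v => funext fun i => ?_
      rw [aeval_quad]
      fin_cases i <;> simp [Matrix.vecHead, Matrix.vecTail] <;> ring
    generalize a ^ 2 + 2 * b - α ^ 2 = t at k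
    by_cases hr : ∀ c : K, c ^ 2 - t * c + b ^ 2 ≠ 0
    · have := UC.irreducible_quad hr
      exact fac_three this this this (N := 1) k (by simp [mul_assoc])
    · push Not at hr
      obtain ⟨c, hc⟩ := hr
      refine fac_three (irreducible_X_sub_C c) (irreducible_X_sub_C (t - c)) (irreducible_X_sub_C c)
        (N := 1) k ⟨X - C c, ?_⟩
      rw [show b ^ 2 = c * (t - c) by linear_combination hc, C_mul, C_sub]
      ring
  by_cases h0 : U = ⊥
  · have k : ∀ w, Matrix.toLin' !![a + α, b - a * α - α ^ 2; 1, -α] w = _ := fun w =>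
      sub_eq_zero.1 (by simpa only [h0, Submodule.mem_bot] using hh w)
    obtain ⟨w, hw⟩ := LinearMap.injective_iff_surjective.1 ((injective_iff_map_eq_zero _).2
      (inj_of_det d1)) ![0, 1]
    have := (k _).trans (intertwine_aeval _ (fun _ => rfl) h w).symm
    rw [← k w, End.mul_apply, End.mul_apply, hw] at this
    have := congrFun this 1
    simp [Matrix.vecHead, Matrix.vecTail] at this
    grind
  obtain ⟨v, hv, v0⟩ := (Submodule.ne_bot_iff _).1 h0
  have k : ∀ u ∈ U, ∃ c : K, u = c • v := fun u hu => by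
    have h1 : finrank K U = 1 := by
      have h1 := Submodule.finrank_lt hU
      have h2 := Submodule.one_le_finrank_iff.2 h0
      rw [finrank_fin_fun] at h1
      omega
    obtain ⟨c, hc⟩ := (finrank_eq_one_iff_of_nonzero' (⟨v, hv⟩ : U) (by simpa)).1 h1 ⟨u, hu⟩
    exact ⟨c, (congrArg Subtype.val hc).symm⟩
  obtain ⟨c, hc⟩ := k _ (sub_add_cancel (Matrix.toLin' _ v) _ ▸
    U.add_mem (hh v) (SC.aeval_mem hT h v hv))
  obtain ⟨c', hc'⟩ := k _ (hT v hv)
  have c0 : c ≠ 0 := fun e => v0 (inj_of_det d1 v (by simpa [e] using hc))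
  rw [End.mul_apply, hc, map_smul] at hc'
  exact v0 (ne (c⁻¹ * c') c v (by rw [mul_smul, ← hc', inv_smul_smul₀ c0]) hc)

theorem eig_of_mem {f : End K V} {c : K} {U : Submodule K V} (hU : U ≠ ⊤)
    (h : ∀ w, f w - c • w ∈ U) : ∃ v, v ≠ 0 ∧ f v = c • v := by
  by_contra! k
  refine hU (eq_top_iff.2 fun w _ => ?_)
  obtain ⟨w, rfl⟩ := LinearMap.injective_iff_surjective.1 ((injective_iff_map_eq_zero
    (f - c • 1)).2 fun v hv => by_contra fun e => k v e (sub_eq_zero.1 hv)) w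
  exact h w

omit [FiniteDimensional K Z] in
theorem aeval_blk {T : End K Z} {q : K[X]} (h : aeval T q = 0) (c : K) (ρ : Z →ₗ[K] E) :
    aeval (blk (c • 1) ρ T) ((X - C c) * q) = 0 := by
  refine LinearMap.ext fun p => ?_
  have : (aeval (blk (c • 1) ρ T) q p).2 = _ :=
    intertwine_aeval (f := blk _ ρ T) (g := T) (LinearMap.snd K E _) (fun _ => rfl) q p
  rw [h, LinearMap.zero_apply] at this
  rw [map_mul, End.mul_apply]
  generalize aeval (blk (c • 1) ρ T) q p = p' at this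
  simp [this, Prod.ext_iff]

/-- At most one eigenvalue. -/
def One (x : End K V) : Prop := ∃ α : K, ∀ c v, v ≠ 0 → x v = c • v → c = α

theorem top_three [Fintype K] (h4 : 4 ≤ Fintype.card K) {x : End K V} (x0 : LinearMap.det x ≠ 0)
    (hc : ∃ z, Cy x z) (h1 : One x) (h3 : 3 ≤ finrank K V) : Top x := by
  obtain ⟨z, hz⟩ := hc
  obtain ⟨α, hα⟩ := h1
  obtain ⟨m, hm⟩ := Nat.exists_eq_add_of_le' h3
  obtain ⟨δ, d0, d1, -⟩ := exists_ne_three h4 0 (α ^ 2) 0
  obtain ⟨ε, e0, e1, e2⟩ := exists_ne_three h4 0 (α ^ 2) δ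
  have d2 : LinearMap.det x ^ 2 / (δ * ε ^ m) ≠ 0 := by simp [x0, d0, e0]
  obtain ⟨t, ht⟩ := exists_no_root d2
  have mo : (X ^ 2 - C t * X + C (LinearMap.det x ^ 2 / (δ * ε ^ m))).Monic := by monicity!
  obtain ⟨T, z', t1, t2, t3⟩ := exists_cy_on (Fin (m + 2) → K)
    (mo.mul ((monic_X_sub_C ε).pow m)) (by simp [x0, d0, e0]) (by
      rw [mo.natDegree_mul ((monic_X_sub_C ε).pow m), natDegree_pow, natDegree_X_sub_C,
        finrank_fin_fun, mul_one, add_comm]
      congr 1; compute_degree!)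
  have t4 : δ * LinearMap.det T = LinearMap.det x ^ 2 := by
    simp only [t3, finrank_fin_fun, eval_mul, eval_pow, eval_sub, eval_X, eval_C, eval_add]
    rw [zero_sub, neg_pow ε, pow_add]
    have : ((-1 : K) ^ m) ^ 2 = 1 := by rw [← pow_mul, mul_comm, pow_mul]; simp
    field_simp
    rw [this]; ring
  have hx : Nsc x := fun ⟨c, hc⟩ => by
    have := finrank_span_le_card (R := K) {z}
    rw [hz (Submodule.span K {z}) (Submodule.mem_span_singleton_self z)
      fun v hv => hc v ▸ Submodule.smul_mem _ c hv] at this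
    simp at this; omega
  obtain ⟨x, rfl⟩ := exists_equiv x0
  obtain ⟨e, ρ, Y, H, k0, k1, k2, k3⟩ := fac_blk x0 hx (right_ne_zero_of_mul (t4 ▸ pow_ne_zero 2 x0))
    t1 (by simp [hm]) (by simp) hz.symm (δ := δ) (by rw [t4, sq, mul_assoc, x.det_mul_det_symm, mul_one])
  obtain ⟨H, rfl⟩ := exists_equiv (k1.sim.det_eq ▸ x.symm.isUnit_det'.ne_zero)
  have k4 : SimS x.toLinearMap H.symm.toLinearMap := k1.imp fun c hc => ⟨hc.1, fun v => by
    simpa [LinearEquiv.eq_symm_apply] using (hc.2 (x v)).symm⟩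
  have k5 : x.toLinearMap * H.symm.toLinearMap = Y := LinearMap.ext fun v => by simp [k0]
  have s : Sim Y (blk (δ • 1 : End K K) ρ T) := ⟨e, k2⟩
  have k6 := (s.aeval_eq_zero_iff _).2 (aeval_blk t2 δ ρ)
  have k7 := no_eig t2 (c := δ) (by simp [ht, sub_eq_zero, e2.symm])
  refine ⟨x0, _, _, SimS.refl _, k4, k5 ▸ Cy.of_sim ⟨_, t1.prod (LinearMap.injective_iff_surjective.1
    ((injective_iff_map_eq_zero _).2 fun a ha => k7 a (sub_eq_zero.1 ha)))⟩
    (s.trans (blk_zero (δ • 1 : End K K) T ▸ (simS_blk_of_no_eig k7 ρ).sim.symm)),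
    fun l v h1 h2 => ?_, k5 ▸ fac_three (irreducible_X_sub_C δ) (UC.irreducible_quad ht)
      (irreducible_X_sub_C ε) (N := m + 1) k6 ?_, fun U hU hT h hh => ?_⟩
  · by_contra v0
    obtain rfl := hα l v v0 h1
    exact v0 (no_eig k6 (c := l ^ 2) (by simp [ht, sub_eq_zero, d1.symm, e1.symm]) v
      (by rw [← k5, End.mul_apply, h2, map_smul, h1, smul_smul, sq]))
  · rw [mul_pow, mul_pow, mul_assoc]
    exact mul_dvd_mul (dvd_pow_self _ m.succ_ne_zero)
      (mul_dvd_mul (dvd_pow_self _ m.succ_ne_zero) (pow_dvd_pow _ m.le_succ))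
  rw [k5] at hT hh
  have u0 : Y (e.symm (1, 0)) = δ • e.symm (1, 0) := e.injective (by simp [k2])
  have u1 : ∀ u ∈ U, H.symm u ∈ U := fun u hu => by
    simpa using U.add_mem (hh u) (SC.aeval_mem hT h u hu)
  have u2 : H.symm (e.symm (1, 0)) - h.eval δ • e.symm (1, 0) ∈ U := OC.aeval_eig u0 h ▸ hh _
  have u3 := k3 (U ⊔ Submodule.span K {e.symm (1, 0)})
    (Submodule.mem_sup_right (Submodule.mem_span_singleton_self _)) fun v hv =>
      mem_of_map_mem H.symm.isUnit_det'.ne_zero (fun v hv => by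
        obtain ⟨u, hu, w, hw, rfl⟩ := Submodule.mem_sup.1 hv
        obtain ⟨c, rfl⟩ := Submodule.mem_span_singleton.1 hw
        convert Submodule.add_mem_sup (U.add_mem (u1 u hu) (U.smul_mem c u2))
          (Submodule.smul_mem _ (c * h.eval δ) (Submodule.mem_span_singleton_self _)) using 1
        simp; module) (by simpa)
  have u4 : ∀ w, H.symm w - h.eval δ • w ∈ U ∧ Y w - δ • w ∈ U := fun w => by
    obtain ⟨u, hu, w, hw, rfl⟩ := Submodule.mem_sup.1 (u3.ge (Submodule.mem_top (x := w)))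
    obtain ⟨c, rfl⟩ := Submodule.mem_span_singleton.1 hw
    constructor
    · convert U.add_mem (U.sub_mem (u1 u hu) (U.smul_mem (h.eval δ) hu)) (U.smul_mem c u2) using 1
      simp; module
    · convert U.sub_mem (hT u hu) (U.smul_mem δ hu) using 1
      simp [u0]; module
  obtain ⟨v, v0, hv⟩ := eig_of_mem (f := H.symm.toLinearMap) hU fun w => (u4 w).1
  obtain ⟨c, -, hc⟩ := k4
  obtain ⟨v, rfl⟩ := c.surjective v
  rw [← hc, ← map_smul, c.injective.eq_iff] at hv
  have v1 : v ≠ 0 := fun e => v0 (by simp [e])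
  have u5 := hα _ v v1 hv
  have u6 : α ≠ 0 := fun e => v1 (inj_of_det x0 v (by simp [hv, u5, e]))
  obtain ⟨w, w0, hw⟩ := eig_of_mem (f := x.toLinearMap) (c := δ / α) hU fun w => by
    have h1 : ∀ u ∈ U, x u ∈ U := fun u hu => by
      simpa [← k5] using hT (H u) (mem_of_map_mem H.symm.isUnit_det'.ne_zero u1 (by simpa))
    have h2 := U.smul_mem α⁻¹ (U.sub_mem (u4 w).2 (h1 _ (u4 w).1))
    convert h2 using 1
    simp only [← k5, u5, End.mul_apply, LinearEquiv.coe_coe, map_sub, map_smul]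
    match_scalars <;> field_simp <;> ring
  exact d1 (by rw [sq, ← div_eq_iff u6, hα _ w w0 hw])

end Cfsg.Lib.Known.Lev
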