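import Cfsg.Agent.Known.LevBase

/-!
Growth of cyclic elements in powers of the class of an automorphism with a large eigenspace.
-/

set_option autoImplicit false

namespace Cfsg.Lib.Known.Lev

open Module Polynomial CP
open scoped Pointwise

universe u

variable {K : Type u} [Field K] {V Z E : Type u} [AddCommGroup V] [Module K V]
  [AddCommGroup Z] [Module K Z] [AddCommGroup E] [Module K E]

theorem Cy.feedback {Y : End K V} {e : V} (h : Cy Y e) (φ : Dual K V) :
    Cy (Y + φ.smulRight e) e := fun W w1 w2 => h W w1 fun z hz => by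
  simpa using W.sub_mem (w2 z hz) (W.smul_mem (φ z) w1)

theorem exists_dual_three {w k k' : V} (h : ∀ c : K, k ≠ c • w) (h' : ∀ c : K, k' ≠ c • w) :
    ∃ ψ : Dual K V, ψ w = 0 ∧ ψ k = 1 ∧ ψ k' ≠ 0 := by
  obtain ⟨φ, h1, h2⟩ := exists_dual_pair h
  obtain ⟨φ', h3, h4⟩ := exists_dual_pair h'
  by_cases h5 : φ k' = 0
  · exact ⟨φ + φ' - φ' k • φ, by simp [h1, h3], by simp [h2], by simp [h4, h5]⟩
  · exact ⟨φ, h1, h2, h5⟩

variable [FiniteDimensional K V] [FiniteDimensional K Z] [FiniteDimensional K E]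

theorem Cy.eig {Y : End K V} {e v p : V} (h : Cy Y e) {c : K} (h0 : v ≠ 0) (hv : Y v = c • v)
    (hp : Y p = c • p) : ∃ a : K, p = a • v := by
  have h1 := h (LinearMap.range (Y - c • 1) ⊔ Submodule.span K {e})
    (Submodule.mem_sup_right (Submodule.mem_span_singleton_self e)) fun z hz => by
      have := add_mem (Submodule.mem_sup_left (T := Submodule.span K {e})
        (LinearMap.mem_range_self (Y - c • 1) z)) (Submodule.smul_mem _ c hz)
      simpa using this
  have h2 := Submodule.finrank_add_le_finrank_add_finrank (LinearMap.range (Y - c • 1))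
    (Submodule.span K {e})
  have h3 := LinearMap.finrank_range_add_finrank_ker (Y - c • 1)
  have h4 : finrank K (Submodule.span K {e}) ≤ 1 := by simpa using finrank_span_le_card (R := K) {e}
  rw [h1, finrank_top] at h2
  obtain ⟨a, ha⟩ := (finrank_eq_one_iff_of_nonzero' (K := K) (⟨v, by simp [hv]⟩ :
    LinearMap.ker (Y - c • 1)) (by simpa using h0)).1 (le_antisymm (by omega) (by
      have : Nontrivial (LinearMap.ker (Y - c • 1)) :=
        ⟨⟨⟨v, by simp [hv]⟩, 0, by simpa using h0⟩⟩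
      exact finrank_pos)) ⟨p, by simp [hp]⟩
  exact ⟨a, (congrArg Subtype.val ha).symm⟩

theorem Cy.avoid {Y : End K V} {e : V} (h : Cy Y e) (c : K) (L : V →ₗ[K] Z)
    (hL : ∀ v, Y v = c • v → L v = 0 → v = 0) :
    ∃ κ : Dual K Z, ∀ p, (Y + (κ ∘ₗ L).smulRight e) p = c • p → p = 0 := by
  by_cases h1 : ∀ v, Y v = c • v → v = 0
  · exact ⟨0, by simpa using h1⟩
  push Not at h1
  obtain ⟨v, hv, h0⟩ := h1
  obtain ⟨κ, hκ⟩ := Projective.exists_dual_eq_one K fun e => h0 (hL v hv e)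
  refine ⟨κ, fun p hp => ?_⟩
  simp only [LinearMap.add_apply, LinearMap.smulRight_apply, LinearMap.comp_apply] at hp
  have h2 : κ (L p) = 0 := by
    by_contra h2
    have := h (LinearMap.range (Y - c • 1)) ⟨-(κ (L p))⁻¹ • p, by
      simp [eq_sub_of_add_eq hp, smul_smul, smul_sub, h2, mul_comm]⟩ (by
      rintro _ ⟨z, rfl⟩
      exact ⟨Y z, by simp⟩)
    exact h0 ((LinearMap.injective_iff_surjective.2 (LinearMap.range_eq_top.1 this))
      (by simp [hv]))
  obtain ⟨a, rfl⟩ := Cy.eig h h0 hv (p := p) (by simpa [h2] using hp)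
  simp only [map_smul, hκ, smul_eq_mul, mul_one] at h2
  simp [h2]

omit [FiniteDimensional K E] in
theorem exists_equiv_inj {ι : E →ₗ[K] V} (h : Function.Injective ι)
    (hd : finrank K V = finrank K E + finrank K Z) : ∃ e : V ≃ₗ[K] E × Z, ∀ a, e (ι a) = (a, 0) := by
  obtain ⟨W, hW⟩ := (LinearMap.range ι).exists_isCompl
  have h1 := Submodule.finrank_add_eq_of_isCompl hW
  rw [LinearMap.finrank_range_of_inj h] at h1
  refine ⟨(Submodule.prodEquivOfIsCompl _ _ hW).symm.trans ((LinearEquiv.ofInjective ι h).symm.prodCongr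
    (LinearEquiv.ofFinrankEq W Z (by omega))), fun a => ?_⟩
  have := Submodule.prodEquivOfIsCompl_symm_apply_left _ _ hW
    (LinearEquiv.ofInjective ι h a)
  rw [LinearEquiv.ofInjective_apply] at this
  simp [this]

theorem exists_two (g : ((K × K) × Z) ≃ₗ[K] ((K × K) × Z)) {u u' : (K × K) × Z}
    (h1 : g u = ((1, 0), 0)) (h2 : g u' = ((0, 1), 0))
    (h3 : ∀ a b : K, a • u.2 + b • u'.2 = 0 → a = 0 ∧ b = 0)
    (h4 : ∀ c : K, u'.2 ≠ c • (g ((1, 0), 0)).2) (T : Z ≃ₗ[K] Z) {z : Z}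
    (hT : Cy T.toLinearMap z) {μ ν : K} (hμ : μ ≠ 0) (hν : ν ≠ 0) :
    ∃ (T' : End K Z) (ρ : Z →ₗ[K] K × K), Sim T' T.toLinearMap ∧
      Cy (blk (μ • 1) ρ T' * g.toLinearMap) ((1, 0), 0) ∧
      ∀ p, (blk (μ • 1) ρ T' * g.toLinearMap) p = ν • p → p = 0 := by
  set w := (g ((1, 0), 0)).2
  set w' := (g ((0, 1), 0)).2 with hw'
  obtain ⟨φ, f1, f2⟩ := exists_dual_pair (v := u'.2) (w := u.2) fun c hc =>
    one_ne_zero (h3 1 (-c) (by simp [hc])).1
  obtain ⟨φ', f3, f4⟩ := exists_dual_pair (v := u.2) (w := u'.2) fun c hc =>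
    one_ne_zero (h3 (-c) 1 (by simp [hc])).2
  let θ : Z →ₗ[K] K × K := φ.smulRight (u.1 + (1, 0)) + φ'.smulRight (u'.1 + (0, 1))
  let A : End K Z := LinearMap.snd K _ Z ∘ₗ g.toLinearMap ∘ₗ θ.prod 1
  have a0 : ∀ a : K × K, (g (a, 0)).2 = a.1 • w + a.2 • w' := fun a => by
    rw [show ((a, 0) : (K × K) × Z) = a.1 • ((1, 0), 0) + a.2 • ((0, 1), 0) by simp, map_add,
      map_smul, map_smul]
    rfl
  have a1 : ∀ p : (K × K) × Z, (g p).2 = A p.2 + (g (p.1 - θ p.2, 0)).2 := fun p => by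
    conv_lhs => rw [show p = (θ p.2, p.2) + (p.1 - θ p.2, 0) by simp, map_add]
    rfl
  have a2 : A u.2 = w := by
    have := a1 u
    rw [h1, a0] at this
    simpa [θ, f2, f3, ← sub_eq_add_neg, sub_eq_zero] using this.symm
  have a3 : A u'.2 = w' := by
    have := a1 u'
    rw [h2, a0] at this
    simpa [θ, f1, f4, ← sub_eq_add_neg, sub_eq_zero] using this.symm
  have hA : Function.Injective A := by
    rw [injective_iff_map_eq_zero]
    intro y hy
    have k1 : g (θ y, y) = g ((g (θ y, y)).1.1 • u + (g (θ y, y)).1.2 • u') := by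
      rw [map_add, map_smul, map_smul, h1, h2]
      exact Prod.ext (by simp) (hy.trans (by simp))
    have k2 := g.injective k1
    generalize (g (θ y, y)).1.1 = a at k2
    generalize (g (θ y, y)).1.2 = b at k2
    obtain ⟨k3, k4⟩ := Prod.ext_iff.1 k2
    simp only [Prod.smul_snd, Prod.smul_fst, Prod.fst_add, Prod.snd_add] at k3 k4
    rw [k4] at k3
    simp only [θ, map_add, map_smul, LinearMap.add_apply, LinearMap.smulRight_apply, f1, f2, f3,
      f4, Prod.ext_iff] at k3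
    simp at k3
    rw [k4, show a = 0 by linear_combination k3.1, show b = 0 by linear_combination k3.2]
    simp
  have i1 : ∀ a b : K, a • w + b • w' = 0 → a = 0 ∧ b = 0 := fun a b h =>
    h3 a b (hA (by simp [a2, a3, h]))
  have w0 : w ≠ 0 := fun h => one_ne_zero (i1 1 0 (by simp [h])).1
  obtain ⟨ψ, p1, p2, p3⟩ := exists_dual_three h4 (k' := w') fun c hc =>
    one_ne_zero (i1 (-c) 1 (by simp [hc])).2
  obtain ⟨S, c, ⟨N, hN⟩, s1, -, -, s4⟩ := exists_nil_ker A hA w0 p1 p2 (a3 ▸ p3)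
  obtain ⟨ξ, e, -, he⟩ := (s4 1 one_ne_zero).place hT.symm rfl
  let T' := e.trans (T.trans e.symm)
  have t1 : ∀ y, T' (A (S y) + ξ y • w) = y := fun y => by
    have := he y
    simp only [sub_self, zero_smul, LinearMap.transvection.of_left_eq_zero, End.mul_apply,
      LinearMap.id_apply] at this
    simp [T', -map_add, this]
  have t2 : ξ u'.2 • T' w = u'.2 := by simpa [s1] using t1 u'.2
  have t3 : ξ u'.2 ≠ 0 := fun h => h4 0 (by rw [← t2, h, zero_smul, zero_smul])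
  obtain ⟨η, hη⟩ := Projective.exists_dual_eq_one K w0
  let ρ := η.smulRight ((ξ u'.2)⁻¹ • u'.1 - μ • (g ((1, 0), 0)).1)
  have hc : Cy (blk (μ • 1) ρ T'.toLinearMap * g.toLinearMap) ((1, 0), 0) := fun W w1 w2 => by
    have k1 : u' ∈ W := by
      convert W.smul_mem (ξ u'.2) (w2 _ w1) using 1
      exact Prod.ext (by simp [ρ, show η (g _).2 = 1 from hη, smul_smul, t3]) t2.symm
    have k2 : (((0, 1), 0) : (K × K) × Z) ∈ W := by
      simpa [h2, smul_smul, hμ] using W.smul_mem μ⁻¹ (w2 _ k1)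
    have k3 : ∀ a : K × K, ((a, 0) : (K × K) × Z) ∈ W := fun a => by
      simpa using W.add_mem (W.smul_mem a.1 w1) (W.smul_mem a.2 k2)
    have k4 : ∀ p ∈ W, ((0, T' (g p).2) : (K × K) × Z) ∈ W := fun p hp => by
      simpa using W.sub_mem (w2 p hp) (k3 (μ • (g p).1 + ρ (g p).2))
    have k5 : ∀ y, ((0, S y) : (K × K) × Z) ∈ W → ((0, y) : (K × K) × Z) ∈ W := fun y hy => by
      convert W.add_mem (W.sub_mem (k4 _ hy) (k4 _ (k3 (0 - θ (S y)))))
        (W.smul_mem (ξ y) (k4 _ w1)) using 1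
      refine Prod.ext (by simp) ?_
      conv_lhs => rw [← t1 y]
      simp [a1 (0, S y), w]
    have k6 : ∀ j y, ((0, (S ^ j) y) : (K × K) × Z) ∈ W → ((0, y) : (K × K) × Z) ∈ W :=
      fun j => by
        induction j with
        | zero => simp
        | succ j ih => exact fun y hy => ih y (k5 _ (by simpa [pow_succ'] using hy))
    refine eq_top_iff.2 fun p _ => ?_
    simpa using W.add_mem (k3 p.1) (k6 N p.2 (by rw [hN]; exact W.zero_mem))
  obtain ⟨κ, hκ⟩ := Cy.avoid hc ν (LinearMap.snd K _ Z ∘ₗ g.toLinearMap) fun v hv hv' => by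
    have k1 : (g v).2 = 0 := hv'
    have k2 : v.2 = 0 := by simpa [k1, hν] using (congrArg Prod.snd hv).symm
    rw [show v = (v.1, 0) from Prod.ext rfl k2, a0] at k1
    exact Prod.ext (Prod.ext (i1 _ _ k1).1 (i1 _ _ k1).2) k2
  have : blk (μ • 1) (ρ + κ.smulRight (1, 0)) T'.toLinearMap * g.toLinearMap =
      blk (μ • 1) ρ T'.toLinearMap * g.toLinearMap +
        (κ ∘ₗ LinearMap.snd K _ Z ∘ₗ g.toLinearMap).smulRight ((1, 0), 0) :=
    LinearMap.ext fun p => by simp [add_assoc]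
  exact ⟨T', ρ + κ.smulRight (1, 0), ⟨e, fun _ => by simp [T']⟩, this ▸ Cy.feedback hc _,
    this ▸ hκ⟩

/-- Some cyclic `T` with all its extensions lies in the `a`-th power of the class. -/
def RR (x : End K V) (l : K) (a : ℕ) : Prop :=
  ∃ (T : End K V) (z : V), Cy T z ∧ LinearMap.det T = LinearMap.det x ^ a ∧
    ∀ (E : Type u) [AddCommGroup E] [Module K E] [FiniteDimensional K E] (ρ : V →ₗ[K] E),
      blk (l ^ a • 1) ρ T ∈ ClG (blk (l • 1 : End K E) 0 x) ^ a

omit [FiniteDimensional K V] [FiniteDimensional K Z] [FiniteDimensional K E] in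
theorem sim_pad {x : End K V} {y : End K Z} (h : Sim x y) (a : End K E) :
    Sim (blk a 0 x) (blk a 0 y) := by
  rw [blk_zero, blk_zero]; exact (Sim.refl a).prodMap h

theorem RR.of_no_eig {x Y : End K V} {l : K} {a : ℕ} (hY : Y ∈ ClG x ^ a) {z : V} (hc : Cy Y z)
    (h : ∀ v, Y v = l ^ a • v → v = 0) : RR x l a :=
  ⟨Y, z, hc, det_of_mem hY, fun E _ _ _ ρ => mem_of_sim (mem_pow_rel
    (B := ClG (blk (l • 1 : End K E) 0 x)) (fun k y => blk (l ^ k • 1 : End K E) 0 y)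
    (LinearMap.ext fun p => by simp) (fun k y a => LinearMap.ext fun p => by
      simp [pow_succ, smul_smul, mul_comm]) (fun a ha => by rw [pow_one]; exact sim_pad ha _) hY) (Sim.refl _)
    (simS_blk_of_no_eig h ρ).sim⟩

theorem RR.of_pair {x y y' : End K V} {l : K} (l0 : l ≠ 0) (x0 : LinearMap.det x ≠ 0)
    (hy : Sim x y) (hy' : Sim x y') {z : V} (hc : Cy (y * y') z)
    (h : ∀ v, y v = l • v → y' v = l • v → v = 0) : RR x l 2 := by
  refine ⟨_, z, hc, by rw [map_mul, ← hy.det_eq, ← hy'.det_eq, sq], fun E _ _ _ ρ => ?_⟩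
  obtain ⟨g, hg⟩ := (((y - l • 1) ∘ₗ y').prod (l • (y' - l • 1))).exists_leftInverse_of_injective
    (LinearMap.ker_eq_bot'.2 fun v hv => by
      obtain ⟨h1, h2⟩ := Prod.ext_iff.1 hv
      have h3 : y' v = l • v := by simpa [l0, sub_eq_zero] using h2
      exact h v (by simpa [h3, sub_eq_zero, l0] using h1) h3)
  refine sq (ClG (blk (l • 1 : End K E) 0 x)) ▸ ⟨_, (sim_pad hy _).trans (simS_blk _ 0
    (ρ ∘ₗ g ∘ₗ LinearMap.inl K V V) y).sim, _, (sim_pad hy' _).trans (simS_blk _ 0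
    (ρ ∘ₗ g ∘ₗ LinearMap.inr K V V) y').sim, LinearMap.ext fun p => Prod.ext ?_ rfl⟩
  have : ρ p.2 = ρ (g (y (y' p.2), 0)) - l • ρ (g (y' p.2, 0)) +
      (l • ρ (g (0, y' p.2)) - l • l • ρ (g (0, p.2))) := by
    simp only [← map_smul, ← map_sub, ← map_add]
    refine (congrArg ρ (LinearMap.congr_fun hg p.2)).symm.trans ?_
    exact congrArg ρ (congrArg g (by simp [smul_sub]))
  simp only [End.mul_apply, blk_apply, LinearMap.smul_apply, End.one_apply, zero_add,
    LinearMap.sub_apply, LinearMap.comp_apply, this, LinearMap.inl_apply, LinearMap.inr_apply]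
  module

omit [FiniteDimensional K V] [FiniteDimensional K Z] in
theorem RR.of_sim {x : End K V} {y : End K Z} {l : K} {a : ℕ} (h : RR y l a) (s : Sim x y) :
    RR x l a := by
  obtain ⟨T, z, h1, h2, h3⟩ := h
  obtain ⟨e, he⟩ := s.symm
  refine ⟨e.conj T, e z, Cy.map h1 e fun _ => by simp [LinearEquiv.conj_apply],
    by rw [s.det_eq, ← h2, ← (sim_conj e T).det_eq], fun E _ _ _ ρ =>
      mem_of_sim (h3 E (ρ ∘ₗ e.toLinearMap)) (sim_pad s.symm _) ?_⟩
  exact ⟨(LinearEquiv.refl K E).prodCongr e, fun p => by simp [LinearEquiv.conj_apply]⟩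

omit [FiniteDimensional K V] in
theorem RR.abs {x : End K V} {y : End K Z} {l : K} {a : ℕ} (h : RR y l a)
    (s : Sim x (blk (l • 1 : End K K) 0 y)) : Abs (ClG x ^ a) (LinearMap.det x ^ a) := by
  obtain ⟨T, z, h1, h2, h3⟩ := h
  exact ⟨Z, _, _, inferInstance, T, z, l ^ a, by simp [s.finrank_eq, add_comm], h1,
    by simp [s.det_eq, det_blk, h2, mul_pow], fun y ρ hy => mem_of_sim (h3 K ρ) s.symm hy.symm⟩

theorem exists_cy_blk {T : End K Z} {z : Z} (h : Cy T z) (c : K) :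
    ∃ ρ v, Cy (blk (c • 1 : End K K) ρ T) v := by
  by_cases h1 : ∀ v, T v = c • v → v = 0
  · exact ⟨0, _, blk_zero (c • 1 : End K K) T ▸ h.prod (LinearMap.injective_iff_surjective.1
      ((injective_iff_map_eq_zero _).2 fun a ha => h1 a (sub_eq_zero.1 ha)))⟩
  push Not at h1
  obtain ⟨v, hv, h0⟩ := h1
  obtain ⟨ρ, hρ⟩ := Projective.exists_dual_eq_one K h0
  refine ⟨ρ, (0, z), fun W w1 w2 => ?_⟩
  have h2 := h (W.map (LinearMap.snd K K Z)) ⟨_, w1, rfl⟩ (by
    rintro _ ⟨p, hp, rfl⟩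
    exact ⟨_, w2 p hp, rfl⟩)
  obtain ⟨p, hp, rfl⟩ := h2.ge (Submodule.mem_top (x := v))
  have h3 : ((1, 0) : K × Z) ∈ W := by
    simpa [show T p.2 = c • p.2 from hv, show ρ p.2 = 1 from hρ, Prod.smul_def] using
      W.sub_mem (w2 p hp) (W.smul_mem c hp)
  refine eq_top_iff.2 fun q _ => ?_
  obtain ⟨r, hr, h4⟩ := h2.ge (Submodule.mem_top (x := q.2))
  convert W.add_mem hr (W.smul_mem (q.1 - r.1) h3) using 1
  exact Prod.ext (by simp) (by simpa using h4.symm)

theorem RR.ns {x : End K V} {y : End K Z} {l : K} {a : ℕ} (h : RR y l a)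
    (s : Sim x (blk (l • 1 : End K K) 0 y)) (x0 : LinearMap.det x ≠ 0) (h3 : 3 ≤ finrank K V) :
    NS x (a + a) := by
  have h1 := h.abs s
  have h2 := ((full_blk l y).of_sim s).cl
  obtain ⟨Z, _, _, _, T, z, δ, k1, k2, -, k3⟩ := id h1
  obtain ⟨ρ, hρ⟩ := exists_cy_blk k2 δ
  let e := LinearEquiv.ofFinrankEq (R := K) (K × Z) V (by simp [k1, add_comm])
  have s' := (sim_conj e (blk (δ • 1) ρ T)).symm
  exact NS.of_abs x0 h3 (h2 ▸ h1) (h2 ▸ k3 _ ρ s') (Cy.of_sim hρ s')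

theorem RR.step_one {x : End K V} {y : End K Z} {l : K} {a : ℕ} (h : RR y l a)
    (s : Sim x (blk (l • 1 : End K K) 0 y)) (x0 : LinearMap.det x ≠ 0) (hx : Nsc x)
    (h3 : 3 ≤ finrank K V) : RR x l (a + 1) := by
  obtain ⟨Z, _, _, _, T, z, δ, k1, k2, k3, k4⟩ := h.abs s
  obtain ⟨B, v, b1, b2, b3⟩ := exists_cy_avoid V (by omega) (pow_ne_zero (a + 1) x0) (l ^ (a + 1))
  obtain ⟨B, rfl⟩ := exists_equiv (b2 ▸ pow_ne_zero _ x0)
  obtain ⟨x, rfl⟩ := exists_equiv x0
  obtain ⟨e, ρ, y, H, e0, ⟨c, -, e1⟩, e2, -⟩ := fac_blk (g := x.symm.toLinearMap)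
    x.symm.isUnit_det'.ne_zero (fun ⟨c, hc⟩ => hx ⟨c⁻¹, fun v => by
      rcases eq_or_ne c 0 with rfl | c0
      · simpa using hc v
      · rw [eq_inv_smul_iff₀ c0, ← hc]; simp⟩)
    (right_ne_zero_of_mul (k3 ▸ pow_ne_zero _ x0)) k2 k1 (by omega) b1.symm (δ := δ) (by
      refine mul_left_cancel₀ (pow_ne_zero (a + 1) x0) ?_
      rw [k3, mul_left_comm, ← b2, B.det_mul_det_symm, b2, pow_succ, mul_assoc, x.det_mul_det_symm])
  have s' : ∀ v, c (B v) = (x.toLinearMap * y) (c v) := fun v => by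
    have := LinearMap.congr_fun e0 (c (B v))
    rw [End.mul_apply, ← e1, LinearEquiv.coe_coe, LinearEquiv.coe_coe, B.symm_apply_apply] at this
    simp [← this]
  exact RR.of_no_eig (pow_succ' (ClG x.toLinearMap) a ▸ ⟨_, Sim.refl _, y, k4 y ρ ⟨e, e2⟩, rfl⟩)
    (Cy.map b1 c s') fun v hv => by
      obtain ⟨v, rfl⟩ := c.surjective v
      rw [← s', ← map_smul, c.injective.eq_iff] at hv
      simp [b3 v hv]

theorem RR.step_two {x : End K V} {y : End K Z} {l : K} {a : ℕ} (h : RR y l a)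
    (s : Sim x (blk (l • 1 : End K (K × K)) 0 y)) (x0 : LinearMap.det x ≠ 0) (hx : ¬ UC.Rk1 x)
    (h4 : 4 ≤ finrank K V) : RR x l (a + 1) := by
  obtain ⟨T, z, k1, k2, k3⟩ := h
  have d0 := s.det_eq ▸ x0
  simp only [det_blk, LinearMap.det_smul, map_one, mul_one, mul_ne_zero_iff] at d0
  have l0 : l ≠ 0 := fun e => d0.1 (by simp [e])
  obtain ⟨T, rfl⟩ := exists_equiv (k2 ▸ pow_ne_zero a d0.2)
  obtain ⟨u, u', h1, h2⟩ : ∃ u u', UC.Ind4 K u u' (x u) (x u') ∧
      ∀ c α β : K, u' ≠ c • x (x u) + α • x u + β • x u' := by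
    obtain ⟨u, u', h1⟩ := UC.exists_ind4 h4 hx
    by_cases h2 : ∀ c α β : K, u' ≠ c • x (x u) + α • x u + β • x u'
    · exact ⟨u, u', h1, h2⟩
    push Not at h2
    obtain ⟨c, α, β, h2⟩ := h2
    refine ⟨u, u + u', fun a b c d h => ?_, fun c' α' β' h => ?_⟩
    · obtain ⟨e1, e2, e3, e4⟩ := h1 (a + b) b (c + d) d (by rw [← h, map_add]; module)
      exact ⟨by simpa [e2] using e1, e2, by simpa [e4] using e3, e4⟩
    · obtain rfl := (h1 c (c - c') (c' * α - c * (α' + β')) (c' * β - c * β') (by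
        rw [map_add] at h
        linear_combination (norm := module) c • h - c' • h2)).1
      exact one_ne_zero (h1 0 1 (-α) (-β) (by linear_combination (norm := module) h2)).2.1
  obtain ⟨x, rfl⟩ := exists_equiv x0
  obtain ⟨e, he⟩ := exists_equiv_inj (Z := Z) (ι := (LinearMap.toSpanSingleton K V (x u)).coprod
    (LinearMap.toSpanSingleton K V (x u'))) ((injective_iff_map_eq_zero _).2 fun p hp =>
      have := h1 0 0 p.1 p.2 (by simpa using hp)
      Prod.ext this.2.2.1 this.2.2.2) (by simp [s.finrank_eq])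
  have e1 : e (x u) = ((1, 0), 0) := by simpa using he (1, 0)
  have e2 : e (x u') = ((0, 1), 0) := by simpa using he (0, 1)
  have e3 : ∀ v, (e v).2 = 0 → v = (e v).1.1 • x u + (e v).1.2 • x u' := fun v hv =>
    e.injective (by rw [map_add, map_smul, map_smul, e1, e2]; exact Prod.ext (by simp) (by simpa))
  obtain ⟨T', ρ, ⟨c, t1⟩, t2, t3⟩ := exists_two (e.symm.trans (x.trans e)) (u := e u) (u' := e u')
    (by simp [e1]) (by simp [e2]) (fun a b h => by
      have := h1 a b (-_) (-_) (by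
        linear_combination (norm := module) e3 (a • u + b • u') (by simpa using h))
      exact ⟨this.1, this.2.1⟩)
    (fun c hc => h2 c _ _ (by
      rw [add_assoc, ← sub_eq_iff_eq_add']
      exact e3 _ (by simp [hc, ← e1]))) T k1 (pow_ne_zero a l0) (pow_ne_zero (a + 1) l0)
  have s' : Sim x.toLinearMap (e.symm.trans (x.trans e)).toLinearMap := ⟨e, fun _ => by simp⟩
  refine (RR.of_no_eig (by rw [pow_succ]; exact ⟨_, mem_of_sim (k3 (K × K)
    (ρ ∘ₗ c.symm.toLinearMap)) (s.symm.trans s') (sim_blk (a' := l ^ a • 1) (LinearEquiv.refl K _) c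
      (fun _ => rfl) t1 ρ).symm, _, Sim.refl _, rfl⟩) t2 t3).of_sim s'

omit [FiniteDimensional K V] in
theorem sim_pad_add {E₁ E₂ : Type u} [AddCommGroup E₁] [Module K E₁] [AddCommGroup E₂] [Module K E₂]
    [FiniteDimensional K E₁] [FiniteDimensional K E₂]
    (h : finrank K E = finrank K E₁ + finrank K E₂) (l : K) (x : End K V) :
    Sim (blk (l • 1 : End K E) 0 x) (blk (l • 1 : End K E₁) 0 (blk (l • 1 : End K E₂) 0 x)) :=
  ⟨((LinearEquiv.ofFinrankEq E (E₁ × E₂) (by simp [h])).prodCongr (LinearEquiv.refl K V)).trans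
    (LinearEquiv.prodAssoc K E₁ E₂ V), fun p => by simp [LinearEquiv.prodAssoc]⟩

/-- `x - l` does not have rank at most one. -/
def NR (x : End K V) (l : K) : Prop := ¬ ∃ (φ : Dual K V) (w : V), ∀ v, x v = l • v + φ v • w

omit [FiniteDimensional K V] in
theorem NR.not_rk1 {x : End K V} {l : K} (h : NR x l) (h2 : 2 ≤ finrank K E) :
    ¬ UC.Rk1 (blk (l • 1 : End K E) 0 x) := by
  rintro ⟨c, φ, w, hw⟩
  obtain ⟨a, h0, ha⟩ : ∃ a : E, a ≠ 0 ∧ φ (a, 0) = 0 := by
    have := LinearMap.ker_ne_bot_of_finrank_lt (f := φ ∘ₗ LinearMap.inl K E V) (by simp; omega)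
    obtain ⟨a, h1, h2⟩ := (Submodule.ne_bot_iff _).1 this
    exact ⟨a, h2, h1⟩
  obtain rfl : l = c := by
    have := congrArg Prod.fst (hw (a, 0))
    simp only [ha, zero_smul, add_zero] at this
    exact smul_left_injective K h0 (by simpa using this)
  exact h ⟨φ ∘ₗ LinearMap.inr K E V, w.2, fun v => congrArg Prod.snd (hw (0, v))⟩

theorem RR.pad {x : End K V} {l : K} {a : ℕ} (h : RR x l a) (l0 : l ≠ 0)
    (x0 : LinearMap.det x ≠ 0) (hx : NR x l) (h2 : 2 ≤ finrank K V) (t : ℕ) :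
    RR (blk (l • 1 : End K (Fin t → K)) 0 x) l (a + (t + 1) / 2) := by
  induction t using Nat.twoStepInduction with
  | zero => exact h.of_sim ⟨LinearEquiv.uniqueProd, fun p => rfl⟩
  | one =>
    refine h.step_one ⟨(LinearEquiv.funUnique _ K K).prodCongr (LinearEquiv.refl K V),
      fun _ => by simp⟩ (by simp [det_blk, l0, x0]) ?_ (by simp; omega)
    rintro ⟨c, hc⟩
    obtain rfl : l = c := by simpa using congrFun (congrArg Prod.fst (hc (1, 0))) 0
    exact hx ⟨0, 0, fun v => by simpa using congrArg Prod.snd (hc (0, v))⟩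
  | more t ih _ =>
    rw [show a + (t + 2 + 1) / 2 = a + (t + 1) / 2 + 1 by omega]
    exact ih.step_two (sim_pad_add (by simp [add_comm]) l x) (by simp [det_blk, l0, x0])
      (hx.not_rk1 (by simp)) (by simp; omega)

theorem RR.cov {x : End K V} {y : End K Z} {l : K} {a t : ℕ} (h : RR y l a)
    (s : Sim x (blk (l • 1 : End K (Fin (t + 1) → K)) 0 y)) (x1 : LinearMap.det x = 1)
    (hy : NR y l) (h2 : 2 ≤ finrank K Z) (ha : 2 * (a + (t + 1) / 2) ≤ t + 1 + finrank K Z) :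
    Cov x := by
  have d0 := s.det_eq ▸ x1 ▸ one_ne_zero (α := K)
  simp only [det_blk, LinearMap.det_smul, map_one, mul_one, mul_ne_zero_iff] at d0
  have l0 : l ≠ 0 := fun e => d0.1 (by simp [e])
  have hd : finrank K V = t + 1 + finrank K Z := by simp [s.finrank_eq]
  refine ((h.pad l0 d0.2 hy h2 t).ns (s.trans (sim_pad_add (by simp [add_comm]) l y))
    (x1 ▸ one_ne_zero) (by omega)).cov_full x1 (Nsc.of_sim ?_ s) (by omega)
    (.inl ((full_blk l y).of_sim s)) (by omega)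
  rintro ⟨c, hc⟩
  obtain rfl : l = c := by simpa using congrFun (congrArg Prod.fst (hc (1, 0))) 0
  exact hy ⟨0, 0, fun v => by simpa using congrArg Prod.snd (hc (0, v))⟩

end Cfsg.Lib.Known.Lev
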