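import Cfsg.Agent.Known.LevSpec

/-!
Lev's theorem: the `n`-th power of a non-central class of `SL n` covers everything up to scalars.
-/

set_option autoImplicit false

namespace Cfsg.Lib.Known.Lev

open Module Polynomial CP
open scoped Pointwise

universe u

variable {K : Type u} [Field K] {V Z E : Type u} [AddCommGroup V] [Module K V]
  [AddCommGroup Z] [Module K Z] [AddCommGroup E] [Module K E]

def Blk (x : End K V) : Prop :=
  LinearMap.det x ≠ 0 ∧ (∃ z, Cy x z) ∧ (finrank K V = 2 ∨ 3 ≤ finrank K V ∧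
    ∀ (c : K) v, v ≠ 0 → x v = c • v → IsNilpotent (x - c • 1))

/-- Sums of `k` blocks. -/
def BS : ℕ → ∀ {V : Type u} [AddCommGroup V] [Module K V], End K V → Prop
  | 0, V, _, _, _ => finrank K V = 0
  | k + 1, _, _, _, x => ∃ (V₁ V₂ : Type u) (_ : AddCommGroup V₁) (_ : Module K V₁)
      (_ : FiniteDimensional K V₁) (_ : AddCommGroup V₂) (_ : Module K V₂)
      (_ : FiniteDimensional K V₂) (x₁ : End K V₁) (x₂ : End K V₂),
      Blk x₁ ∧ BS k x₂ ∧ Sim x (blk x₁ 0 x₂)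

theorem sim_smul_one [FiniteDimensional K V] [FiniteDimensional K Z]
    (h : finrank K V = finrank K Z) (c : K) : Sim (c • 1 : End K V) (c • 1 : End K Z) :=
  ⟨LinearEquiv.ofFinrankEq V Z h, by simp⟩

theorem sim_blk_triv [FiniteDimensional K Z] (h : finrank K Z = 0) (x : End K V) (y : End K Z) :
    Sim (blk x 0 y) x :=
  have := finrank_zero_iff.1 h
  have : Unique Z := uniqueOfSubsingleton 0
  ⟨LinearEquiv.prodUnique, fun _ => by simp⟩

theorem blk_cycX {p : K[X]} (hp : p.Monic) (hp' : Irreducible p) {e : ℕ}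
    (h0 : LinearMap.det (cycX (p ^ e)) ≠ 0) (h : 2 ≤ finrank K (Cyc (p ^ e))) :
    Blk (cycX (p ^ e)) := by
  refine ⟨h0, ⟨_, cy_cycX _⟩, h.eq_or_lt.imp Eq.symm fun h => ⟨h, fun c v v0 hv => ⟨e, ?_⟩⟩⟩
  have h1 : aeval (cycX (p ^ e)) (p ^ e) = 0 := by rw [aeval_cycX, cycMul_eq_zero_iff]
  have h2 : (p ^ e).eval c = 0 := by_contra fun h => v0 (no_eig h1 h v hv)
  rw [eval_pow, pow_eq_zero_iff', ← IsRoot, ← dvd_iff_isRoot] at h2
  rw [← eq_of_monic_of_associated (monic_X_sub_C c) hp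
    ((irreducible_X_sub_C c).associated_of_dvd hp' h2.1)] at h1 ⊢
  simpa [Algebra.algebraMap_eq_smul_one] using h1

theorem exists_dec (n : ℕ) : ∀ {V : Type u} [AddCommGroup V] [Module K V] [FiniteDimensional K V]
    (x : End K V), finrank K V = n → LinearMap.det x ≠ 0 → ∃ (l : K) (t k : ℕ) (Z : Type u)
      (_ : AddCommGroup Z) (_ : Module K Z) (_ : FiniteDimensional K Z) (y : End K Z),
      BS k y ∧ Sim x (blk (l • 1 : End K (Fin t → K)) 0 y) := by
  induction n using Nat.strong_induction_on with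
  | _ n ih =>
  intro V _ _ _ x hn x0
  by_cases h0 : elDiv x = 0
  · exact ⟨1, 0, 0, V, _, _, inferInstance, x, (elDiv_eq_zero_iff x).1 h0,
      ((sim_blk_comm _ _).trans (sim_blk_triv (by simp) _ _)).symm⟩
  obtain ⟨⟨p, e⟩, hm⟩ := Multiset.exists_mem_of_ne_zero h0
  obtain ⟨s, hs⟩ := Multiset.exists_cons_of_mem hm
  obtain ⟨⟨p1, p2, p3⟩, p4⟩ := isElDivs_cons.1 (hs ▸ isElDivs_elDiv x)
  obtain ⟨x', hx'⟩ := exists_elDiv_eq (V := Fin (elDeg s) → K) p4 (by simp)
  have := finite_cyc (p1.pow e).ne_zero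
  have s1 : Sim x (blk (cycX (p ^ e)) 0 x') := by
    rw [blk_zero]
    exact sim_of_elDiv_eq (by rw [elDiv_prodMap, elDiv_cycX_pow p1 p2 p3, hx', hs]; rfl)
  have d0 := s1.det_eq ▸ x0
  rw [det_blk, mul_ne_zero_iff] at d0
  have d1 : 0 < finrank K (Cyc (p ^ e)) := by
    rw [finrank_cyc, p1.natDegree_pow]; exact Nat.mul_pos p3 p2.natDegree_pos
  obtain ⟨l, t, k, Z, _, _, _, y, h1, s2⟩ := ih _ (by
    rw [← hn, s1.finrank_eq, finrank_prod]; omega) x' rfl d0.2
  have s3 := s1.trans (sim_blk_zero (Sim.refl _) s2)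
  by_cases h2 : 2 ≤ finrank K (Cyc (p ^ e))
  · exact ⟨l, t, k + 1, _, _, _, inferInstance, _, ⟨_, _, _, _, inferInstance, _, _, inferInstance, _, _,
      blk_cycX p1 p2 d0.1 h2, h1, Sim.refl _⟩, s3.trans (sim_blk_left_comm _ _ _)⟩
  have d2 : finrank K (Cyc (p ^ e)) = 1 := by omega
  obtain ⟨c, hc, -⟩ := LinearMap.existsUnique_eq_smul_id_of_finrank_eq_one d2 (cycX (p ^ e))
  rw [hc, ← End.one_eq_id] at s3 d0
  rcases t with - | t
  · exact ⟨c, 1, k, Z, _, _, inferInstance, y, h1, s3.trans (sim_blk_zero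
      (sim_smul_one (by simp [d2]) c) ((sim_blk_comm _ _).trans (sim_blk_triv (by simp) _ _)))⟩
  by_cases hl : c = l
  · exact ⟨l, t + 2, k, Z, _, _, inferInstance, y, h1,
      s3.trans (hl ▸ (sim_pad_add (by simp [d2]; omega) c y).symm)⟩
  have l0 : l ≠ 0 := by
    have := s2.det_eq ▸ d0.2
    rintro rfl
    simp [det_blk] at this
  refine ⟨l, t, k + 1, _, _, _, inferInstance, blk (blk (c • 1 : End K K) 0 (l • 1 : End K K)) 0 y,
    ⟨_, _, _, _, inferInstance, _, _, inferInstance, _, _, ⟨?_, UC.cy_two (by simp)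
      fun ⟨a, ha⟩ => hl (by
        simpa using (congrArg Prod.fst (ha (1, 1))).trans (congrArg Prod.snd (ha (1, 1))).symm),
      .inl (by simp)⟩, h1, Sim.refl _⟩, ?_⟩
  · simpa [det_blk, d2, l0] using d0.1
  · exact ((s3.trans (sim_blk_zero (sim_smul_one (Z := K) (by simp [d2]) c) (sim_pad_add (E₂ := K)
      (E₁ := Fin t → K) (by simp) l y))).trans (sim_blk_left_comm _ _ _)).trans
      (sim_blk_zero (Sim.refl _) (sim_blk_assoc _ _ _).symm)

variable [FiniteDimensional K V] [FiniteDimensional K Z] [FiniteDimensional K E]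

theorem exists_mat_two {x : End K V} (x0 : LinearMap.det x ≠ 0) (hc : ∃ z, Cy x z)
    (h : finrank K V = 2) : ∃ a b : K, b ≠ 0 ∧ Sim x (Matrix.toLin' !![a, b; 1, 0]) := by
  obtain ⟨z, hz⟩ := hc
  obtain ⟨a, b, s⟩ := UC.sim_horner2 hz h
  exact ⟨a, b, by simpa [s.det_eq] using x0, s⟩

omit [FiniteDimensional K V] in
theorem BS.cases {k : ℕ} {x : End K V} (h : BS k x) : 2 * k ≤ finrank K V ∧
    (k = 0 → finrank K V = 0) ∧ (k = 1 → Blk x) := by
  induction k generalizing V with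
  | zero => exact ⟨by simp, fun _ => h, by simp⟩
  | succ k ih =>
    obtain ⟨V₁, V₂, _, _, _, _, _, _, x₁, x₂, h1, h2, s⟩ := h
    have h3 := s.finrank_eq
    rw [finrank_prod] at h3
    refine ⟨by have := (ih h2).1; have := h1.2.2; omega, by simp, fun hk => ?_⟩
    have s' := s.trans (sim_blk_triv ((ih h2).2.1 (by omega)) _ _)
    refine ⟨s'.det_eq ▸ h1.1, Cy.of_sim h1.2.1 s', s'.finrank_eq ▸ h1.2.2.imp_right fun h =>
      ⟨h.1, fun c v v0 hv => ?_⟩⟩
    obtain ⟨e, he⟩ := s'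
    obtain ⟨N, hN⟩ := h.2 c (e v) (by simpa) (by rw [← he, hv, map_smul])
    exact ⟨N, (Sim.pow (f := x - c • 1) ⟨e, fun _ => by simp [he]⟩ N).eq_zero_iff.2 hN⟩

variable [Fintype K] (h4 : 4 ≤ Fintype.card K)
include h4

theorem Blk.glue {x : End K V} {x' : End K Z} {l : K} (h : Blk x) (h' : Pr2 x' l) :
    Pr2 (blk x 0 x') l := by
  obtain ⟨h1, h2, h3 | ⟨h3, h5⟩⟩ := h
  · obtain ⟨a, b, hb, s⟩ := exists_mat_two h1 h2 h3
    exact ((top_two h4 a hb).glue h4 h').of_sim (sim_blk_zero s (Sim.refl _))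
  refine (top_three h4 h1 h2 ?_ h3).glue h4 h'
  by_cases h : ∃ (c : K) (v : V), v ≠ 0 ∧ x v = c • v
  · obtain ⟨c, v, v0, hv⟩ := h
    obtain ⟨N, hN⟩ := h5 c v v0 hv
    refine ⟨c, fun d w w0 hw => by_contra fun e => w0 (no_eig (q := (X - C c) ^ N)
      (by simpa [Algebra.algebraMap_eq_smul_one] using hN) (by simp [sub_eq_zero, e]) w hw)⟩
  · exact ⟨0, fun c v v0 hv => absurd ⟨c, v, v0, hv⟩ h⟩

theorem BS.pr2 {k : ℕ} {x : End K V} (h : BS k x) (l : K) : Pr2 x l := by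
  induction k generalizing V with
  | zero =>
    have := finrank_zero_iff.1 h
    exact ⟨x, x, SimS.refl x, SimS.refl x, ⟨0, fun _ _ _ => Subsingleton.elim _ _⟩,
      fun _ _ _ => Subsingleton.elim _ _⟩
  | succ k ih =>
    obtain ⟨V₁, V₂, _, _, _, _, _, _, x₁, x₂, h1, h2, s⟩ := h
    exact (h1.glue h4 (ih h2)).of_sim s

omit h4 [Fintype K] in
theorem Pr2.rr {x : End K V} {l : K} (h : Pr2 x l) (l0 : l ≠ 0) (x0 : LinearMap.det x ≠ 0) :
    RR x l 2 := by
  obtain ⟨y, y', h1, h2, ⟨z, h3⟩, h4⟩ := h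
  exact RR.of_pair l0 x0 h1.sim h2.sim h3 h4

theorem cov_split {a b l n : K} (hl : l ≠ n) {x : End K V} (x1 : LinearMap.det x = 1) (hx : Nsc x)
    (s : Sim x (blk (Matrix.toLin' !![l + n, -(l * n); 1, 0]) 0 (Matrix.toLin' !![a, b; 1, 0]))) :
    Cov x := by
  have s1 : Sim (Matrix.toLin' !![l + n, -(l * n); 1, 0])
      (blk (l • 1 : End K K) 0 (n • 1 : End K K)) :=
    ⟨LinearMap.linearEquivOfInjective (LinearMap.prod (LinearMap.proj 0 - n • LinearMap.proj 1)
      (LinearMap.proj 0 - l • LinearMap.proj 1) : (Fin 2 → K) →ₗ[K] K × K)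
      ((injective_iff_map_eq_zero _).2 fun v hv => by
        simp [Prod.ext_iff, sub_eq_zero] at hv
        ext i; fin_cases i <;> simp <;> grind) (by simp),
      fun v => by simp [Matrix.vecHead, Matrix.vecTail]; constructor <;> ring⟩
  have s2 := ((s.trans (sim_blk_zero s1 (Sim.refl _))).trans (sim_blk_assoc _ _ _)).trans
    (sim_blk_zero (Sim.refl _) (sim_blk_comm _ _))
  have d0 := s2.det_eq ▸ x1 ▸ one_ne_zero (α := K)
  have d1 : finrank K V = 4 := by simp [s.finrank_eq]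
  rw [det_blk, mul_ne_zero_iff] at d0
  have b0 : b ≠ 0 := by rintro rfl; simp [det_blk] at d0
  exact ((Pr2.rr (Blk.glue h4 ⟨by simpa, UC.cy_two (by simp) fun ⟨c, hc⟩ => by
    simpa [Matrix.vecHead] using congrFun (hc ![1, 0]) 1, .inl (by simp)⟩
    ⟨_, _, SimS.refl _, SimS.refl _, ⟨1, fun W w1 _ => (Ideal.eq_top_iff_one W).2 w1⟩,
      fun v hv _ => by simpa [hl.symm] using hv⟩) (by simpa using d0.1) d0.2).ns s2
    (x1 ▸ one_ne_zero) (by omega)).cov_full x1 hx (by omega)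
    (.inl ((full_blk _ _).of_sim s2)) (by omega)

theorem cov_four {a b c d : K} {x : End K V} (x1 : LinearMap.det x = 1) (hx : Nsc x)
    (s : Sim x (blk (Matrix.toLin' !![a, b; 1, 0]) 0 (Matrix.toLin' !![c, d; 1, 0]))) : Cov x := by
  have d1 : finrank K V = 4 := by simp [s.finrank_eq]
  by_cases h : a = c ∧ b = d
  · obtain ⟨rfl, rfl⟩ := h
    exact (cov_double h4 (by simpa [s.det_eq, det_blk, sq] using x1)).of_sim s
  by_cases h' : ∃ r, r ^ 2 - a * r - b = 0 ∧ r ^ 2 - c * r - d = 0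
  · obtain ⟨r, h1, h2⟩ := h'
    by_cases h3 : r = a - r
    · refine cov_split h4 (a := a) (b := b) (l := r) (n := c - r) (by grind) x1 hx
        ((s.trans (sim_blk_comm _ _)).trans ?_)
      rw [show r + (c - r) = c by ring, show -(r * (c - r)) = d by linear_combination h2]
      exact Sim.refl _
    · refine cov_split h4 (a := c) (b := d) h3 x1 hx (s.trans ?_)
      rw [show r + (a - r) = a by ring, show -(r * (a - r)) = b by linear_combination h1]
      exact Sim.refl _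
  have k : ∀ a b : K, (∃ z, Cy (Matrix.toLin' !![a, b; 1, 0]) z) ∧
      aeval (Matrix.toLin' !![a, b; 1, 0]) (X ^ 2 - C a * X + C (-b)) = 0 := fun a b =>
    ⟨UC.cy_two (by simp) fun ⟨c, hc⟩ => by simpa [Matrix.vecHead] using congrFun (hc ![1, 0]) 1,
      LinearMap.ext fun v => _root_.funext fun i => by
        rw [aeval_quad]
        fin_cases i <;> simp [Matrix.vecHead, Matrix.vecTail] <;> ring⟩
  obtain ⟨⟨z, hz⟩, k1⟩ := k a b
  obtain ⟨⟨z', hz'⟩, k2⟩ := k c d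
  refine (NS.of_cy (b := 1) (x1 ▸ one_ne_zero) hx (by omega) (by simpa using self_mem x)
    (Cy.of_sim ⟨_, UC.cy_prod hz hz' k1 k2 ?_⟩ (by rwa [← blk_zero]))).cov_lt x1 hx (by omega)
  rw [show X ^ 2 - C c * X + C (-d) = C (a - c) * X + C (b - d) + (X ^ 2 - C a * X + C (-b)) * 1 by
    simp; ring, IsCoprime.add_mul_left_right_iff]
  by_cases h1 : a = c
  · have : b - d ≠ 0 := fun e => h ⟨h1, sub_eq_zero.1 e⟩
    simpa [h1] using (isCoprime_one_right.mul_right (isCoprime_mul_unit_left_right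
      (isUnit_C.2 this.isUnit) _ _ |>.2 isCoprime_one_right))
  · have h2 : a - c ≠ 0 := sub_ne_zero.2 h1
    rw [show C (a - c) * X + C (b - d) = C (a - c) * (X - C ((d - b) / (a - c))) by
      rw [mul_sub, ← C_mul, mul_div_cancel₀ _ h2]; simp; ring,
      isCoprime_mul_unit_left_right (isUnit_C.2 h2.isUnit)]
    refine ((irreducible_X_sub_C _).coprime_iff_not_dvd.2 fun e => h' ⟨(d - b) / (a - c), ?_⟩).symm
    have e := dvd_iff_isRoot.1 e
    simp only [IsRoot, eval_add, eval_sub, eval_pow, eval_X, eval_mul, eval_C] at e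
    exact ⟨by linear_combination e, by linear_combination e + mul_div_cancel₀ (d - b) h2⟩

theorem cov {x : End K V} (x1 : LinearMap.det x = 1) (hx : Nsc x) (h3 : 3 ≤ finrank K V) :
    Cov x := by
  have x0 : LinearMap.det x ≠ 0 := x1 ▸ one_ne_zero
  obtain ⟨l, t, k, Z, _, _, _, y, h1, s⟩ := exists_dec _ x rfl x0
  obtain ⟨b1, b2, b3⟩ := h1.cases
  have hd : finrank K V = t + finrank K Z := by simp [s.finrank_eq]
  rcases t with - | t
  · have s' := (s.trans (sim_blk_comm _ _)).trans (sim_blk_triv (by simp) _ _)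
    by_cases h5 : 5 ≤ finrank K V
    · obtain ⟨a, a', k1, k2, k3, -⟩ := (h1.pr2 h4 0).of_sim s'
      have := NS.of_cy (b := 2) x0 hx h3 ((sq (Cl x)).ge ⟨_, k1, _, k2, rfl⟩) k3
      rcases h5.eq_or_lt with h | h
      · exact this.cov_full x1 hx h3 (.inr (h ▸ by decide)) h5
      · exact this.cov_lt x1 hx h
    by_cases k1 : k = 1
    · have := NS.of_cy (b := 1) x0 hx h3 (by simpa using self_mem x) (Cy.of_sim (b3 k1).2.1 s')
      rcases h3.eq_or_lt with h | h
      · exact this.cov_full x1 hx h3 (.inr (h ▸ by decide)) h3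
      · exact this.cov_lt x1 hx h
    obtain rfl : k = 2 := by omega
    obtain ⟨V₁, V₂, _, _, _, _, _, _, x₁, x₂, h1, h2, s₁⟩ := h1
    have h6 := h2.cases.2.2 rfl
    have h7 := s₁.finrank_eq
    rw [finrank_prod] at h7
    have h8 := h1.2.2
    have h9 := h6.2.2
    obtain ⟨a, b, -, s₂⟩ := exists_mat_two h1.1 h1.2.1 (by omega)
    obtain ⟨c, d, -, s₃⟩ := exists_mat_two h6.1 h6.2.1 (by omega)
    exact cov_four h4 x1 hx ((s'.trans s₁).trans (sim_blk_zero s₂ s₃))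
  have d0 := s.det_eq ▸ x0
  simp only [det_blk, LinearMap.det_smul, map_one, mul_one, mul_ne_zero_iff] at d0
  have l0 : l ≠ 0 := fun e => d0.1 (by simp [e])
  by_cases hy : NR y l
  swap
  · obtain ⟨φ, w, h⟩ := not_not.1 hy
    exact (cov_rk1 h4 (s.det_eq ▸ x1) (hx.of_sim s.symm) (s.finrank_eq ▸ h3) (full_blk l y) l0
      (φ := φ ∘ₗ LinearMap.snd K _ Z) (w := (0, w)) fun v => by simp [h, Prod.ext_iff]).of_sim s
  have k0 : k ≠ 0 := fun e => hy ⟨0, 0, fun _ => have := finrank_zero_iff.1 (b2 e)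
    Subsingleton.elim _ _⟩
  have r := (h1.pr2 h4 l).rr l0 d0.2
  by_cases h5 : 2 * (2 + (t + 1) / 2) ≤ t + 1 + finrank K Z
  · exact r.cov s x1 hy (by omega) h5
  obtain ⟨-, ⟨z, hz⟩, h6⟩ := b3 (by omega)
  by_cases h7 : ∀ v, y v = l • v → v = 0
  · exact (RR.of_no_eig (a := 1) (by rw [pow_one]; exact Sim.refl y) hz (by simpa using h7)).cov s x1 hy
      (by omega) (by omega)
  push Not at h7
  obtain ⟨v, hv, v0⟩ := h7
  rcases h6 with h6 | ⟨h6, h7⟩
  · refine absurd ?_ hy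
    obtain ⟨w, hw⟩ := exists_smul_notMem_of_finrank (K := K) v h6.ge
    obtain ⟨φ, f1, f2⟩ := exists_dual_pair hw
    refine ⟨φ, y w - l • w, fun u => ?_⟩
    have h8 : LinearIndependent K ![v, w] := (LinearIndependent.pair_iff' v0).2 fun c => (hw c).symm
    obtain ⟨a, b, rfl⟩ := Submodule.mem_span_pair.1 ((h8.span_eq_top_of_card_eq_finrank'
      (by simp [h6])).ge.trans (by simp [Set.pair_comm]) (Submodule.mem_top (x := u)) : u ∈ Submodule.span K {v, w})
    simp [hv, f1, f2]; module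
  obtain ⟨t, rfl⟩ : ∃ t', t = t' + 1 := ⟨t - 1, by omega⟩
  refine (rr_jordan l0 ⟨z, hz⟩ (by omega) (h7 l v v0 hv)).cov (t := t)
    (s.trans (sim_pad_add (by simp) l y)) x1 (fun ⟨φ, w, h⟩ => hy ⟨φ ∘ₗ LinearMap.inr K K Z, w.2,
      fun v => congrArg Prod.snd (h (0, v))⟩) (by simp; omega) (by simp; omega)

end Cfsg.Lib.Known.Lev
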