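import Cfsg.Agent.Known.LevGlue

/-!
Special classes: rank one perturbations of scalars, and two small cases in dimension four.
-/

set_option autoImplicit false

namespace Cfsg.Lib.Known.Lev

open Module Polynomial CP
open scoped Pointwise

universe u

variable {K : Type u} [Field K] {V Z E : Type u} [AddCommGroup V] [Module K V]
  [AddCommGroup Z] [Module K Z] [AddCommGroup E] [Module K E]
  [FiniteDimensional K V] [FiniteDimensional K Z] [FiniteDimensional K E]

/-- Dilations and transvections of determinant `c`, possibly trivial. -/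
def Tv (V : Type u) [AddCommGroup V] [Module K V] (c : K) : Set (End K V) :=
  {t | ∃ (φ : Dual K V) (v : V), v ≠ 0 ∧ 1 + φ v = c ∧ t = LinearMap.transvection φ v}

theorem mem_tv_pow {c : K} (c0 : c ≠ 0) (k : ℕ) : ∀ (U : Submodule K V) (g : End K V),
    finrank K U = k → LinearMap.det g = c ^ k → (∀ v, g v - v ∈ U) →
      (2 ≤ k → ∃ u ∈ U, ∀ a : K, g u ≠ a • u) → g ∈ Tv V c ^ k := by
  induction k with
  | zero =>
    intro U g h1 _ h3 _
    rw [Submodule.finrank_eq_zero.1 h1] at h3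
    exact LinearMap.ext fun v => sub_eq_zero.1 (h3 v)
  | succ k ih =>
    intro U g h1 h2 h3 h4
    rcases k.eq_zero_or_pos with rfl | k0
    · obtain ⟨⟨y, hy⟩, y0, h5⟩ := finrank_eq_one_iff'.1 h1
      have y1 : y ≠ 0 := fun e => y0 (Subtype.ext e)
      obtain ⟨η, hη⟩ := Projective.exists_dual_eq_one K y1
      have : g = LinearMap.transvection (η ∘ₗ g - η) y := LinearMap.ext fun v => by
        obtain ⟨a, ha⟩ := h5 ⟨_, h3 v⟩
        have ha : a • y = g v - v := congrArg Subtype.val ha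
        simp [LinearMap.transvection.apply, ← map_sub, ← ha, hη, eq_add_of_sub_eq' ha.symm]
      rw [zero_add, pow_one] at h2 ⊢
      exact ⟨_, y, y1, by rw [← LinearMap.transvection.det, ← this, h2], this⟩
    obtain ⟨y, hy, h5⟩ := h4 (by omega)
    have y1 : y ≠ 0 := by rintro rfl; exact h5 0 (by simp)
    have hy' : g y ∈ U := by simpa using U.add_mem (h3 y) hy
    have key : ∀ η : Dual K V, η y = 1 → η (g y) = c → (2 ≤ k → ∃ u ∈ U, η u = 0 ∧
        ∀ a : K, g u - (c⁻¹ * η (g u)) • g y ≠ a • u) → g ∈ Tv V c ^ (k + 1) := fun η e1 e2 e3 => by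
      have e4 : g * LinearMap.transvection (-c⁻¹ • (η ∘ₗ g - η)) y *
          LinearMap.transvection (η ∘ₗ g - η) y = g := LinearMap.ext fun v => by
        simp only [End.mul_apply, LinearMap.transvection.apply, map_add, map_smul, e1, e2,
          LinearMap.smul_apply, LinearMap.sub_apply, LinearMap.comp_apply, smul_eq_mul]
        match_scalars <;> field_simp <;> ring
      refine pow_succ (Tv V c) k ▸ ⟨_, ih (U ⊓ LinearMap.ker η) _ ?_ ?_ (fun v => ⟨?_, ?_⟩)
        fun h => ?_, _, ⟨_, y, y1, by simp [e1, e2], rfl⟩, e4⟩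
      · have := Dual.finrank_ker_add_one_of_ne_zero (f := η.domRestrict U)
          fun e => by simpa [e1] using LinearMap.congr_fun e ⟨y, hy⟩
        rw [← Submodule.map_comap_subtype, Submodule.finrank_map_subtype_eq,
          ← LinearMap.ker_domRestrict]
        omega
      · simp [h2, e1, e2]; field_simp; ring
      · simpa [LinearMap.transvection.apply, add_sub_right_comm] using
          U.add_mem (h3 v) (U.smul_mem (-c⁻¹ * (η (g v) - η v)) hy')
      · simp [LinearMap.transvection.apply, e2]; field_simp; ring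
      · obtain ⟨u, u1, u2, u3⟩ := e3 h
        exact ⟨u, ⟨u1, u2⟩, by simpa [LinearMap.transvection.apply, u2, sub_eq_add_neg] using u3⟩
    obtain ⟨φ, f1, f2⟩ := exists_dual_pair h5
    obtain ⟨ψ, f3, f4⟩ := exists_dual_pair (v := g y) (w := y) fun a ha => by
      have := congrArg φ ha
      rw [f1, map_smul, f2, smul_eq_mul, mul_one] at this
      exact y1 (by rw [ha, ← this, zero_smul])
    by_cases k2 : 2 ≤ k
    swap
    · exact key (ψ + c • φ) (by simp [f1, f4]) (by simp [f2, f3]) fun h => absurd h k2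
    obtain ⟨z, hz, h6⟩ : ∃ z ∈ U, z ∉ Submodule.span K {y, g y} := by
      by_contra! h
      have := (Submodule.finrank_mono h).trans (UC.finrank_pair_le y (g y))
      omega
    obtain ⟨θ', t1, t2⟩ := Submodule.exists_dual_map_eq_bot_of_notMem h6 inferInstance
    obtain ⟨θ, t3, t4, t5⟩ : ∃ θ : Dual K V, θ y = 0 ∧ θ (g y) = 0 ∧ θ z = 1 := by
      simp only [Submodule.map_span, Submodule.span_eq_bot, Set.image_pair, Set.mem_insert_iff,
        Set.mem_singleton_iff, forall_eq_or_imp, forall_eq] at t2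
      exact ⟨(θ' z)⁻¹ • θ', by simp [t2.1], by simp [t2.2], by simp [t1]⟩
    let η : K → Dual K V := fun s => ψ + c • φ + (s - ψ z - c * φ z) • θ
    by_contra hg
    have k3 : ∀ s, ∃ a : K, g (z - s • y) - (c⁻¹ * η s (g (z - s • y))) • g y = a • (z - s • y) :=
      fun s => by
        by_contra! h
        exact hg (key (η s) (by simp [η, f1, f4, t3]) (by simp [η, f2, f3, t4]) fun _ =>
          ⟨_, U.sub_mem hz (U.smul_mem s hy), by simp [η, f1, f4, t3, t5], h⟩)
    obtain ⟨a, ha⟩ := k3 0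
    obtain ⟨b, hb⟩ := k3 1
    have k4 := congrArg (ψ - ψ z • θ) ha
    have k5 := congrArg (ψ - ψ z • θ) hb
    simp only [map_sub, map_smul, LinearMap.sub_apply, LinearMap.smul_apply, f3, f4, t3, t4, t5,
      smul_eq_mul] at k4 k5
    rw [show b = 0 by linear_combination k5 - k4, zero_smul, ← map_smul, ← map_sub] at hb
    simpa [t3, t5] using congrArg θ (inj_of_det (h2 ▸ pow_ne_zero _ c0) _ hb)

theorem cov_rk1 [Fintype K] (h4 : 4 ≤ Fintype.card K) {x : End K V} (x1 : LinearMap.det x = 1)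
    (hx : Nsc x) (h3 : 3 ≤ finrank K V) (hf : Full x) {l : K} (l0 : l ≠ 0) {φ : Dual K V} {w : V}
    (h : ∀ v, x v = l • v + φ v • w) : Cov x := by
  refine NS.cov_full x1 hx h3 (.inl hf) (fun g g1 g2 => ?_) le_rfl
  have d := (UC.det_rk1 l0 h).symm.trans x1
  have w0 : w ≠ 0 := fun e => hx ⟨l, by simp [h, e]⟩
  have f0 : l⁻¹ • φ ≠ 0 := smul_ne_zero (inv_ne_zero l0) fun e => hx ⟨l, by simp [h, e]⟩
  set c := 1 + l⁻¹ * φ w with hc
  let C := ClG (LinearMap.transvection (l⁻¹ • φ) w)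
  have k1 : ∀ (ψ : Dual K V) v, v ≠ 0 → ψ ≠ 0 → 1 + ψ v = c → LinearMap.transvection ψ v ∈ C :=
    fun ψ v v0 p0 e => by
      obtain ⟨E, e1, e2⟩ := UC.exists_equiv_pair rfl w0 f0 v0 p0 (add_left_cancel e)
      exact ⟨E, fun u => by simp [LinearMap.transvection.apply, e1, e2]⟩
  obtain ⟨u, hu⟩ := UC.exists_not_eig g1
  have k2 := mem_tv_pow (right_ne_zero_of_mul (d ▸ one_ne_zero)) _ ⊤ (l⁻¹ ^ finrank K V • g)
    (finrank_top K V) (by
      rw [LinearMap.det_smul, g2, x1, one_pow, mul_one, inv_pow, eq_inv_of_mul_eq_one_right d])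
    (fun _ => trivial) fun _ => ⟨u, trivial, fun a ha => hu (l ^ finrank K V * a) (by
      simp [mul_smul, ← ha, smul_smul, l0])⟩
  have k3 : l⁻¹ ^ finrank K V • g ∈ C ^ finrank K V := by
    by_cases c1 : c = 1
    swap
    · refine Set.pow_subset_pow_left ?_ k2
      rintro _ ⟨ψ, v, v0, e, rfl⟩
      exact k1 ψ v v0 (fun e' => c1 (by simp [← e, e'])) e
    obtain ⟨a, a0, a1, -⟩ := exists_ne_three h4 0 1 0
    have k3 : C ⊆ C * C := by
      rintro _ ⟨E, e⟩
      have f1 : φ w = 0 := by simpa [hc, l0] using c1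
      rw [← sq]
      refine mem_of_sim ((sq C).ge ⟨_, k1 (a • l⁻¹ • φ) w w0 (smul_ne_zero a0 f0)
        (by simp [f1, c1]), _, k1 ((1 - a) • l⁻¹ • φ) w w0
        (smul_ne_zero (sub_ne_zero.2 a1.symm) f0) (by simp [f1, c1]), rfl⟩) (Sim.refl _)
        ⟨E, fun v => ?_⟩
      rw [← e]
      congr 1
      simp only [End.mul_apply, LinearMap.transvection.apply, map_add, map_smul, f1,
        LinearMap.smul_apply]
      module
    have k4 : ∀ j, C ^ (j + 1) ⊆ C ^ (j + 2) := fun j => by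
      rw [pow_succ _ (j + 1), pow_succ, mul_assoc]
      exact Set.mul_subset_mul_left k3
    have k5 : ∀ j, C ⊆ C ^ (j + 1) := fun j => by
      induction j with
      | zero => simp
      | succ j ih => exact ih.trans (k4 j)
    have k6 : ∀ j, ∀ y ∈ Tv V c ^ j, y = 1 ∨ y ∈ C ^ j := fun j => by
      induction j with
      | zero => simp
      | succ j ih =>
        rw [pow_succ]
        rintro _ ⟨y, hy, _, ⟨ψ, v, v0, e, rfl⟩, rfl⟩
        by_cases p0 : ψ = 0
        · rcases j.eq_zero_or_eq_succ_pred with rfl | hj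
          · exact .inl (by simpa [p0, ← End.one_eq_id] using hy)
          · simpa [p0, ← End.one_eq_id] using (ih y hy).imp_right fun h => hj ▸ k4 _ (hj ▸ h)
        · rcases ih y hy with rfl | h
          · exact .inr (by simpa using k5 j (k1 ψ v v0 p0 e))
          · exact .inr (pow_succ C j ▸ ⟨_, h, _, k1 ψ v v0 p0 e, rfl⟩)
    refine (k6 _ _ k2).resolve_left fun e => hu (l ^ finrank K V) ?_
    simpa [inv_smul_eq_iff₀, l0] using LinearMap.congr_fun e u
  have := mem_pow_rel (B := Cl x) (fun k y => l ^ k • y) (by simp)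
    (fun k y a => by simp [pow_succ, smul_smul, mul_comm]) (fun a ha => by
      rw [hf.cl, pow_one]
      exact Sim.trans ⟨LinearEquiv.refl K V, fun v => by
        simp [h, LinearMap.transvection.apply, smul_smul, l0]⟩ (Sim.smul ha l)) k3
  simpa [smul_smul, l0] using this

omit [FiniteDimensional K V] [FiniteDimensional K Z] in
theorem sim_blk_zero {V' Z' : Type u} [AddCommGroup V'] [Module K V'] [AddCommGroup Z'] [Module K Z']
    {a : End K V} {b : End K Z} {a' : End K V'} {b' : End K Z'} (h : Sim a a') (h' : Sim b b') :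
    Sim (blk a 0 b) (blk a' 0 b') := by
  rw [blk_zero, blk_zero]; exact h.prodMap h'

omit [FiniteDimensional K V] [FiniteDimensional K Z] in
theorem sim_blk_comm (a : End K V) (b : End K Z) : Sim (blk a 0 b) (blk b 0 a) :=
  ⟨LinearEquiv.prodComm K V Z, fun _ => by simp⟩

omit [FiniteDimensional K V] [FiniteDimensional K Z] [FiniteDimensional K E] in
theorem sim_blk_assoc (a : End K V) (b : End K Z) (c : End K E) :
    Sim (blk (blk a 0 b) 0 c) (blk a 0 (blk b 0 c)) :=
  ⟨LinearEquiv.prodAssoc K V Z E, fun _ => by simp [LinearEquiv.prodAssoc]⟩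

omit [FiniteDimensional K V] [FiniteDimensional K Z] [FiniteDimensional K E] in
theorem sim_blk_left_comm (a : End K V) (b : End K Z) (c : End K E) :
    Sim (blk a 0 (blk b 0 c)) (blk b 0 (blk a 0 c)) :=
  ((sim_blk_assoc a b c).symm.trans (sim_blk_zero (sim_blk_comm a b) (Sim.refl c))).trans
    (sim_blk_assoc b a c)

theorem rr_jordan {x : End K V} {l : K} (l0 : l ≠ 0) (hc : ∃ z, Cy x z) (h3 : finrank K V = 3)
    (hn : IsNilpotent (x - l • 1)) : RR (blk (l • 1 : End K K) 0 x) l 2 := by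
  obtain ⟨z, hz⟩ := hc
  obtain ⟨a, b, c, s⟩ := UC.sim_horner3 (f := x - l • 1) (w := z) (fun W w1 w2 => hz W w1
    fun v hv => by simpa using W.add_mem (w2 v hv) (W.smul_mem l hv)) h3
  have h1 : (x - l • 1) ^ 3 = 0 := by
    simpa [(LinearMap.isNilpotent_iff_charpoly _).1 hn, h3] using (x - l • 1).aeval_self_charpoly
  have h2 : Matrix.toLin' !![a, b, c; 1, 0, 0; 0, 1, 0] ^ 3 = 0 := (s.pow 3).eq_zero_iff.1 h1
  have h4 : ∀ v, (Matrix.toLin' !![a, b, c; 1, 0, 0; 0, 1, 0] ^ 3) v 2 = 0 := fun v => by simp [h2]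
  obtain rfl : a = 0 := by simpa [pow_succ, Matrix.vecHead, Matrix.vecTail] using h4 ![1, 0, 0]
  obtain rfl : b = 0 := by simpa [pow_succ, Matrix.vecHead, Matrix.vecTail] using h4 ![0, 1, 0]
  obtain rfl : c = 0 := by simpa [pow_succ, Matrix.vecHead, Matrix.vecTail] using h4 ![0, 0, 1]
  have s1 : Sim (blk (l • 1 : End K K) 0 x)
      (Matrix.toLin' !![l, 0, 0, 0; 0, l, 0, 0; 0, 1, l, 0; 0, 0, 1, l]) := by
    obtain ⟨e, he⟩ := s
    let E := ((LinearEquiv.refl K K).prodCongr e).trans (Fin.consLinearEquiv K fun _ : Fin 4 => K)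
    have hE : ∀ p, E p = ![p.1, e p.2 0, e p.2 1, e p.2 2] := fun p =>
      funext fun i => by fin_cases i <;> rfl
    refine ⟨E, fun p => funext fun i => ?_⟩
    have := fun j => congrFun (he p.2) j
    simp only [LinearMap.sub_apply, map_sub, LinearMap.smul_apply, map_smul, End.one_apply,
      Pi.sub_apply, sub_eq_iff_eq_add] at this
    fin_cases i <;> simp [hE, this, Matrix.vecHead, Matrix.vecTail, mul_comm]
  refine RR.of_sim (RR.of_pair l0 (by simp [Matrix.det_succ_row_zero, Fin.sum_univ_succ, Fin.succAbove, l0]) (Sim.refl _)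
    (y' := Matrix.toLin' !![l, 0, 0, 1; 1, l, 0, 0; 0, 0, l, 0; 0, 0, 0, l])
    (simS_mat !![0, 0, 1, 0; 0, 0, 0, 1; 1, 0, 0, 0; 0, 1, 0, 0] ?_ ?_).sim (z := ![0, 1, 0, 0])
    (fun W w1 w2 => ?_) fun v k1 k2 => ?_) s1
  · simp [Matrix.det_succ_row_zero, Fin.sum_univ_succ, Fin.succAbove]
  · ext i j; fin_cases i <;> fin_cases j <;> simp
  · have k : ∀ v ∈ W, ∀ w, (∀ i, (Matrix.toLin' !![l, 0, 0, 0; 0, l, 0, 0; 0, 1, l, 0; 0, 0, 1, l] *
        Matrix.toLin' !![l, 0, 0, 1; 1, l, 0, 0; 0, 0, l, 0; 0, 0, 0, l]) v i =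
        l ^ 2 * v i + l * w i) → w ∈ W := fun v hv w h => by
      convert W.smul_mem l⁻¹ (W.sub_mem (w2 v hv) (W.smul_mem (l ^ 2) hv))
      ext i; simp [-End.mul_apply, h, l0]
    have w3 := k _ w1 ![0, 0, 1, 0] fun i => by fin_cases i <;> simp [sq, Matrix.vecHead, Matrix.vecTail]
    have w4 := k _ w3 ![0, 0, 0, 1] fun i => by fin_cases i <;> simp [sq, Matrix.vecHead, Matrix.vecTail]
    have w5 := k _ w4 ![1, 0, 0, 0] fun i => by fin_cases i <;> simp [sq, Matrix.vecHead, Matrix.vecTail]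
    refine eq_top_iff.2 fun v _ => ?_
    convert W.add_mem (W.add_mem (W.smul_mem (v 0) w5) (W.smul_mem (v 1) w1))
      (W.add_mem (W.smul_mem (v 2) w3) (W.smul_mem (v 3) w4))
    ext i; fin_cases i <;> simp
  · have k3 := congrFun k1 2
    have k4 := congrFun k1 3
    have k5 := congrFun k2 0
    have k6 := congrFun k2 1
    simp [Matrix.vecHead, Matrix.vecTail] at k3 k4 k5 k6
    ext i; fin_cases i <;> simp [*]

theorem cy_blk_of_no_eig {T : End K Z} {z : Z} (h : Cy T z) {c : K}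
    (hc : ∀ v, T v = c • v → v = 0) (ρ : Dual K Z) : ∃ v, Cy (blk (c • 1 : End K K) ρ T) v :=
  Cy.of_sim ⟨_, h.prod (LinearMap.injective_iff_surjective.1
    ((injective_iff_map_eq_zero _).2 fun a ha => hc a (sub_eq_zero.1 ha)))⟩
    (blk_zero (c • 1 : End K K) T ▸ (simS_blk_of_no_eig hc ρ).sim.symm)

theorem cov_double [Fintype K] (h4 : 4 ≤ Fintype.card K) {a b : K} (hb : b ^ 2 = 1) :
    Cov (blk (Matrix.toLin' !![a, b; 1, 0]) 0 (Matrix.toLin' !![a, b; 1, 0])) := by
  have b0 : b ≠ 0 := by rintro rfl; simp at hb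
  let A : K → K → End K (Fin 2 → K) := fun α γ =>
    Matrix.toLin' !![a + α, (b - a * α - α ^ 2) / γ; γ, -α]
  have k1 : ∀ α β γ : K, γ ≠ 0 → blk (A α γ) 0 (A β γ) ∈
      Cl (blk (Matrix.toLin' !![a, b; 1, 0]) 0 (Matrix.toLin' !![a, b; 1, 0])) := fun α β γ h => by
    obtain ⟨e, he⟩ := exists_equiv (g := blk (Matrix.toLin' !![γ⁻¹, γ⁻¹ * α; 0, 1]) 0
      (Matrix.toLin' !![1, β; 0, γ])) (by simp [det_blk, h])
    refine ⟨e, by simp [he, det_blk, h], fun p => ?_⟩
    change e.toLinearMap _ = blk _ _ _ (e.toLinearMap p)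
    rw [he]
    refine Prod.ext (funext fun i => ?_) (funext fun i => ?_) <;> fin_cases i <;>
      simp [A, Matrix.vecHead, Matrix.vecTail] <;> field_simp <;> ring
  set x := blk (Matrix.toLin' !![a, b; 1, 0]) 0 (Matrix.toLin' !![a, b; 1, 0]) with hx
  have x1 : LinearMap.det x = 1 := by simp [hx, det_blk, ← sq, hb]
  have d : finrank K ((Fin 2 → K) × (Fin 2 → K)) = 2 + 2 := by simp
  obtain ⟨γ, g0, g1, g2⟩ := exists_ne_three h4 0 1 (-1)
  obtain ⟨α, a1, a2, -⟩ := exists_ne_three h4 (-a) (a * γ) 0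
  have hY : x * blk (A (-a) γ) 0 (A α γ) ∈ Cl x ^ 2 := (sq (Cl x)).ge ⟨_, self_mem x, _, k1 _ _ _ g0, rfl⟩
  obtain ⟨z, hz⟩ := UC.cy_two (g := Matrix.toLin' !![a, b; 1, 0] * A α γ) (by simp)
    fun ⟨c, hc⟩ => a1 (by
      have := congrFun (hc ![1, 0]) 1
      simp [A, Matrix.vecHead] at this
      linear_combination this)
  have n1 : ∀ c : K, c = b * γ ∨ c = b / γ → ∀ v,
      (Matrix.toLin' !![a, b; 1, 0] * A α γ) v = c • v → v = 0 := fun c hc =>
    no_eig (q := X ^ 2 - C (a * (a + α) + b * γ + (b - a * α - α ^ 2) / γ) * X + C (b ^ 2))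
      (LinearMap.ext fun v => _root_.funext fun i => by
        rw [aeval_quad]
        fin_cases i <;> simp [A, Matrix.vecHead, Matrix.vecTail] <;> field_simp <;> ring) (by
      have : (a + α) * (a * γ - α) * c ≠ 0 := mul_ne_zero (mul_ne_zero
        (fun h => a1 (by linear_combination h)) (sub_ne_zero.2 a2.symm))
        (by rcases hc with rfl | rfl <;> simp [b0, g0])
      intro h
      simp only [eval_add, eval_sub, eval_pow, eval_X, eval_mul, eval_C] at h
      refine this (Eq.trans ?_ (mul_eq_zero_of_right (-γ) h))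
      rcases hc with rfl | rfl <;> field_simp <;> ring)
  obtain ⟨z', hz'⟩ := cy_blk_of_no_eig hz (n1 _ (.inr rfl)) 0
  have n2 : ∀ v, blk ((b / γ) • 1 : End K K) 0 (Matrix.toLin' !![a, b; 1, 0] * A α γ) v =
      (b * γ) • v → v = 0 := fun v hv => by
    refine Prod.ext ?_ (n1 _ (.inl rfl) _ (congrArg Prod.snd hv))
    have := congrArg Prod.fst hv
    simp only [blk_apply, LinearMap.smul_apply, End.one_apply, LinearMap.zero_apply, add_zero,
      Prod.smul_fst, smul_eq_mul] at this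
    have h : (γ - 1) * (γ + 1) * v.1 = 0 := by field_simp at this; linear_combination -this
    simpa [sub_eq_zero, add_eq_zero_iff_eq_neg, g1, g2] using h
  have s : Sim (x * blk (A (-a) γ) 0 (A α γ)) (blk ((b * γ) • 1 : End K K)
      ((a * b / γ + a * b) • LinearMap.fst K K _)
      (blk ((b / γ) • 1 : End K K) 0 (Matrix.toLin' !![a, b; 1, 0] * A α γ))) :=
    ⟨((LinearEquiv.finTwoArrow K K).prodCongr (LinearEquiv.refl K _)).trans
      (LinearEquiv.prodAssoc K K K _), fun p => by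
        simp [hx, A, LinearEquiv.prodAssoc, Matrix.vecHead, Matrix.vecTail]
        exact ⟨by ring, .inl (by ring)⟩⟩
  refine NS.cov_eq x1 (d ▸ NS.of_abs (x1 ▸ one_ne_zero) (by omega) (Abs.of_blk hY hz' n2 s) hY
    (Cy.of_sim (cy_blk_of_no_eig hz' n2 _) s)) one_ne_zero ?_
  have h2 : (-b) • 1 ∈ Cl x ^ 2 := (sq (Cl x)).ge ⟨_, self_mem x, _, k1 (-a) (-a) (-1) (by simp),
    LinearMap.ext fun p => by
      refine Prod.ext (funext fun i => ?_) (funext fun i => ?_) <;> fin_cases i <;>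
        simp [hx, A, Matrix.vecHead, Matrix.vecTail] <;> ring⟩
  rw [d, pow_add]
  exact ⟨_, h2, _, h2, by simp [← sq, ← neg_smul, _root_.smul_pow, hb]⟩

end Cfsg.Lib.Known.Lev
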