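import Cfsg.Agent.Known.OCommNeg
import Cfsg.Agent.Known.OCommTab

/-!
Commutators in `Ω`: Witt index three over the field of two elements, and the general theorem.
-/

set_option autoImplicit false

namespace Cfsg.Lib.Known.OC

open Module Polynomial QuadraticMap Cfsg.Lib.Class Cfsg.Lib.Class.Orth Cfsg.Lib.Known.SC

variable {F V : Type*} [Field F] [Fintype F] [AddCommGroup V] [Module F V]
  {Q : QuadraticForm F V} [FiniteDimensional F V]

omit [Fintype F] in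
theorem exists_ker_notMem (f : Dual F (Fin (2 + 1) → F)) (a : Fin (2 + 1) → F) :
    ∃ x, f x = 0 ∧ x ∉ Submodule.span F {a} := by
  by_contra! t
  have := Submodule.finrank_mono (s := LinearMap.ker f) t
  have := finrank_span_singleton_le (F := F) a
  have := f.finrank_range_add_finrank_ker
  have := (LinearMap.range f).finrank_le
  simp at *; omega

theorem two_eq_zero (hF : Fintype.card F = 2) : (2 : F) = 0 := by
  simpa [hF] using FiniteField.cast_card_eq_zero F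

theorem eq_one_of_two (hF : Fintype.card F = 2) {a : F} (ha : a ≠ 0) : a = 1 := by
  simpa [hF] using FiniteField.pow_card_sub_one_eq_one a ha

omit [Fintype F] in
theorem gd_seven (h2 : (2 : F) = 0) {A : (Fin 3 → F) ≃ₗ[F] Fin 3 → F}
    (h : ∀ x, A (A (A x)) + A x + x = 0) : Gd A (X ^ 3 + (X + 1)) 0 0 0 := by
  refine ⟨coprime_reverse (monic_X_pow_add (by
    exact (degree_add_le _ _).trans_lt (by simp))) fun a ha k1 k2 => ?_, by simp, by simp,
    fun x => by simpa [pow_succ, add_assoc] using h x, .inr ⟨rfl, rfl, rfl⟩⟩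
  have t : (2 : AlgebraicClosure F) = 0 := by rw [← map_ofNat (algebraMap F _), h2, map_zero]
  simp only [map_add, map_pow, aeval_X, map_one] at k1 k2
  field_simp at k2
  obtain rfl : a = 1 := mul_left_cancel₀ ha (by linear_combination k2 - k1)
  exact one_ne_zero (by linear_combination k1 - t)

namespace Fr

variable (hQ : (polarBilin Q).Nondegenerate) (hE : ¬ Exc Q) (φ : Fr Q (Fin (2 + 1)))
  (hF : Fintype.card F = 2)

theorem exists_flip : ∃ w : O Q, (∀ x, w.1 (φ.E x) = φ.E' x) ∧ (∀ x, w.1 (φ.E' x) = φ.E x) ∧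
    (∀ n ∈ φ.V₀, w.1 n = n) ∧ (ab hQ hE w).1 = -1 := by
  have q : ∀ i, Q (φ.E (Pi.single i 1) - φ.E' (Pi.single i 1)) = -1 := fun i => by
    simp [Q_sub, φ.qE, φ.qE', φ.pol]
  have e : ∀ x : Fin (2 + 1) → F, x = x 0 • Pi.single 0 1 + x 1 • Pi.single 1 1 +
      x 2 • Pi.single 2 1 := fun x => by ext i; fin_cases i <;> simp
  refine ⟨refl Q (φ.E (Pi.single 0 1) - φ.E' (Pi.single 0 1)) * refl Q (φ.E (Pi.single 1 1) -
    φ.E' (Pi.single 1 1)) * refl Q (φ.E (Pi.single 2 1) - φ.E' (Pi.single 2 1)), fun x => ?_,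
    fun x => ?_, fun n hn => ?_, by simp [ab_refl, q]⟩
  · rw [e x]
    simp [refl_apply, q, polar_sub_right, polar_sub_left, polar_add_left, φ.pol, pol', φ.qE]
    module
  · rw [e x]
    simp [refl_apply, q, polar_sub_right, polar_sub_left, polar_add_left, φ.pol, pol', φ.qE']
    module
  · simp [refl_apply, polar_comm Q n, (φ.mem_V₀.1 hn).1, (φ.mem_V₀.1 hn).2]

include hF

omit φ in
theorem ab_snd (g : O Q) : (ab hQ hE g).2 = 1 := by
  induction g using refl_induction hQ hE with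
  | h1 => simp
  | hmul g v hv h => simp [h, ab_refl hQ hE hv, eq_one_of_two hF hv]

theorem cmD_gm (hV : φ.V₀ ≠ ⊥) {g : O Q} (hg : ab hQ hE g = 1) {A₀ C₀ : Matrix (Fin 3) (Fin 3) F}
    (hd : LinearMap.det (φ.l g) = 1) (H : Gm (LinearMap.toMatrix' (φ.l g)) A₀ C₀) : CmD g := by
  have one : ∀ x : O Q, (ab hQ hE x).1 = 1 → ab hQ hE x = 1 := fun x hx =>
    Prod.ext hx (ab_snd hQ hE hF x)
  obtain ⟨l, hl⟩ : ∃ l : (Fin 3 → F) ≃ₗ[F] Fin 3 → F, l.toLinearMap = φ.l g :=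
    ⟨_, LinearMap.coe_equivOfIsUnitDet (hd ▸ isUnit_one)⟩
  obtain ⟨A, rfl⟩ : ∃ A : (Fin 3 → F) ≃ₗ[F] Fin 3 → F, LinearMap.toMatrix' A.toLinearMap = A₀ :=
    ⟨LinearMap.equivOfIsUnitDet (f := Matrix.toLin' A₀) (by
      rw [LinearMap.det_toLin', Matrix.det_fin_three]; exact (H.1 ▸ isUnit_one : IsUnit (det3 _))), by simp⟩
  obtain ⟨C, rfl⟩ : ∃ A : (Fin 3 → F) ≃ₗ[F] Fin 3 → F, LinearMap.toMatrix' A.toLinearMap = C₀ :=
    ⟨LinearMap.equivOfIsUnitDet (f := Matrix.toLin' C₀) (by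
      rw [LinearMap.det_toLin', Matrix.det_fin_three]; exact (H.2.1 ▸ isUnit_one : IsUnit (det3 _))), by simp⟩
  obtain rfl : l = A * (C * trE A * C⁻¹) := by
    rw [← mul_assoc, eq_mul_inv_iff_mul_eq]
    refine LinearEquiv.ext fun x => ?_
    simpa [← hl, ← Matrix.mulVec_mulVec, trE, tr] using congrArg (·.mulVec x) H.2.2.2
  have G := gd_seven (two_eq_zero hF) (A := A) fun x => by
    simpa [← Matrix.mulVec_mulVec, Matrix.add_mulVec] using congrArg (·.mulVec x) H.2.2.1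
  obtain ⟨u', hu', h, hh, u, hu, e, e'⟩ := φ.ab_decomp hQ hE le_rfl (g := g)
    fun x => (LinearMap.congr_fun hl x).symm
  rw [hg, hl, hd, map_one, ← Prod.one_eq_mk, one_mul] at e'
  obtain ⟨h₁, k1, c, k2, rfl, k3, k4⟩ : ∃ h₁ ∈ φ.M, ∃ c ∈ φ.M, h = h₁ * (c * h₁⁻¹ * c⁻¹) ∧
      ab hQ hE h₁ = 1 ∧ (ab hQ hE c).1 = -1 := by
    obtain ⟨h₁, k1, c, k2, δ, -, k3, -, k4, rfl | k5⟩ := φ.rot hQ hE hh e'.symm
    · obtain ⟨n, hn, n0⟩ := Submodule.exists_mem_ne_zero_of_ne_bot hV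
      exact ⟨1, one_mem _, _, φ.refl_mem_M hn, by simp, map_one _, by
        rw [ab_refl _ _ fun t => n0 (an' hn t)]⟩
    · exact ⟨h₁, k1, c, k2, k3, one _ (by rw [k4]), k5⟩
  obtain ⟨w, w1, w2, w3, w4⟩ := φ.exists_flip hQ hE
  have cw : ∀ h ∈ φ.M, Commute w h := fun h hh => φ.ext3 (fun x => by
    simp [w1, (φ.mem_M.1 hh).1, (φ.mem_M.1 hh).2]) (fun x => by
    simp [w2, (φ.mem_M.1 hh).1, (φ.mem_M.1 hh).2]) fun n hn => by
    simp [w3 n hn, w3 _ (φ.M_mem hh hn)]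
  have fl : w * (φ.lev hQ A)⁻¹ = φ.lev hQ (trE A) * w := by
    rw [← symm_lev]
    exact φ.ext3 (fun x => ((congrArg w.1 (φ.symm.lev_E' hQ _ x)).trans (w1 _)).trans (by
      simp [w1, lev_E'])) (fun x => ((congrArg w.1 (φ.symm.lev_E hQ _ x)).trans (w2 _)).trans (by
      simp [w2, lev_E]))
      fun n hn => by simp [w3 n hn, φ.lev_V₀ hQ _ hn, φ.symm.lev_V₀ hQ _ (φ.symm_V₀ ▸ hn)]
  have lv : ∀ B, ab hQ hE (φ.lev hQ B) = 1 := fun B => one _ (by rw [φ.ab_lev hQ hE le_rfl])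
  have := φ.cmD_core hQ hE le_rfl G k1 (fun n _ t => by simpa using t) (by simp [lv, k3]) (u := u)
    (c := φ.lev hQ C * w * c) hu' (.inr ?_) (Commute.one_left _) (one _ (by simp [lv, w4, k4]))
  · rwa [← comm_mul (φ.lev_comm hQ A k1) (φ.lev_comm hQ A k2) ((φ.lev_comm hQ C k1).mul_left
      (cw _ k1)) ((φ.lev_comm hQ C k2).mul_left (cw _ k2)), mul_assoc _ w (φ.lev hQ A)⁻¹, fl,
      show φ.lev hQ C * (φ.lev hQ (trE A) * w) * (φ.lev hQ C * w)⁻¹ =
        φ.lev hQ (C * trE A * C⁻¹) by simp [mul_assoc], ← map_mul, ← e] at this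
  · have hk := φ.conj_mem_U hQ C k2 u hu
    rw [mul_assoc _ w, (cw _ k2).eq, ← mul_assoc _ c, mul_inv_rev _ w, mul_assoc w⁻¹,
      mul_assoc w⁻¹, ← mul_assoc _ _ w]
    generalize (φ.lev hQ C * c)⁻¹ * u * (φ.lev hQ C * c) = k at hk
    refine ⟨fun x => O_inv_apply_of_eq ((w2 x).trans ?_), fun n hn => ?_⟩
    · exact ((congrArg k.1 (w2 x)).trans (hk.1 x)).symm
    · rw [symm_V₀] at hn
      obtain ⟨x, hx⟩ := hk.2 n hn
      exact ⟨x, O_inv_apply_of_eq (by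
        erw [O_mul_apply k]; rw [w3 n hn, hx, map_add, w3 n hn]; exact congrArg _ (w2 x))⟩

theorem cmD_two (hn : 3 ≤ finrank F V) (hV : φ.V₀ ≠ ⊥) {g : O Q} (hg : ab hQ hE g = 1)
    (h1 : g ≠ 1) : CmD g := by
  have h2 := two_eq_zero hF
  obtain ⟨g, a1, hs, hd⟩ := φ.exists_good hQ hE le_rfl hn hg h1
    (negO_eq_one_of_char_two (Q := Q) h2 ▸ h1)
  rw [ab_conj hQ hE a1] at hg
  refine .of_isConj a1 (by_contra fun hc => ?_)
  obtain ⟨A, C, H⟩ | H := cover_two hF _ ((LinearMap.det_toMatrix' _).trans hd)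
  · exact hc (φ.cmD_gm hQ hE hF hV hg hd H)
  obtain ⟨R, hR⟩ : ∃ R : End F (Fin (2 + 1) → F), ∀ x, φ.N g x = 0 → ∀ n ∈ φ.V₀, n ≠ 0 →
      (∀ w, (polar Q (φ.N g w) n - φ.l g x ⬝ᵥ φ.s g w) • x = 0) ∨
      ∀ w, (polar Q (φ.N g w) n - φ.l g x ⬝ᵥ φ.s g w) • x = R w := by
    refine ⟨φ.l g * φ.l g + 1, fun x hx n hn n0 => ?_⟩
    obtain ⟨g', b1, -, b2, -, b3⟩ := φ.var1 g x hn
    simp only [eq_one_of_two hF fun t => n0 (an' hn t), one_mul] at b2
    let α : Dual F (Fin (2 + 1) → F) := (polarBilin Q).flip n ∘ₗ φ.N g -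
      dotProductBilin F F (φ.l g x) ∘ₗ φ.s g
    have e : ∀ w, (fun i => α (Pi.single i 1)) ⬝ᵥ w = α w := fun w => by
      conv_rhs => rw [pi_eq_sum_univ' w, map_sum]
      simp only [dotProduct, map_smul, smul_eq_mul, mul_comm]
    have e' : ∀ w, (Matrix.vecMulVec x fun i => α (Pi.single i 1)).mulVec w =
        (polar Q (φ.N g w) n - φ.l g x ⬝ᵥ φ.s g w) • x := fun w => by
      rw [Matrix.vecMulVec_mulVec, e, op_smul_eq_smul]; simp [α]
    rcases H x _ ((e x).trans (by simp [α, ls, hx])) with t | t | ⟨A, C, t⟩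
    · exact .inl fun w => by rw [← e', t, Matrix.zero_mulVec]
    · exact .inr fun w => by simp [← e', t, Matrix.add_mulVec, ← Matrix.mulVec_mulVec]
    · refine (hc (.of_isConj b1 (φ.cmD_gm hQ hE hF hV (ab_conj hQ hE b1 ▸ hg)
        (by simp [b3, hd, hx]) (A₀ := A) (C₀ := C) ?_))).elim
      convert t
      refine Matrix.toLin'.injective (LinearMap.ext fun w => ?_)
      simp [b2, e']
  have hl : Function.Injective (φ.l g) := (φ.l g).isUnit_iff_ker_eq_bot.1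
    ((φ.l g).isUnit_iff_isUnit_det.2 (hd ▸ isUnit_one)) |> LinearMap.ker_eq_bot.1
  have pair : ∀ n ∈ φ.V₀, n ≠ 0 → ∃ n' ∈ φ.V₀, polar Q n' n ≠ 0 ∧
      ∀ v ∈ φ.V₀, polar Q v n = 0 → polar Q v n' = 0 → v = 0 := fun n hn n0 => by
    obtain ⟨b, hb, h4⟩ : ∃ b ∈ φ.V₀, polar Q b n ≠ 0 := by
      by_contra! t; exact n0 (φ.nondeg_V₀ hQ hn t)
    refine ⟨b, hb, h4, fun v hv k1 k2 => φ.nondeg_V₀ hQ hv fun m hm => ?_⟩
    rw [← φ.span_pair hn hb ((LinearIndependent.pair_iff' n0).2 fun c hc => h4 (by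
      rw [← hc, polar_smul_left', polar_self', h2, zero_mul, mul_zero]))] at hm
    obtain ⟨s, t, rfl⟩ := Submodule.mem_span_pair.1 hm
    simp [polar_add_left, polar_comm Q n, polar_comm Q b, k1, k2]
  obtain ⟨a, ha, a0⟩ := Submodule.exists_mem_ne_zero_of_ne_bot hV
  obtain ⟨b, hb, hab, h⟩ := pair a ha a0
  have b0 : b ≠ 0 := by rintro rfl; simp at hab
  have c0 : a + b ≠ 0 := fun t => hab (by
    rw [eq_neg_of_add_eq_zero_right t, polar_neg_left, polar_self', h2, zero_mul, neg_zero])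
  by_cases hθ : ∃ n ∈ φ.V₀, n ≠ 0 ∧ ∀ w, polar Q (φ.N g w) n = 0
  · obtain ⟨n, hn, n0, hθ⟩ := hθ
    obtain ⟨n', -, -, h'⟩ := pair n hn n0
    obtain ⟨x₀, h₀⟩ : ∃ x₀, ∀ (x) (α : _ → F), (∀ w, α w • x = R w) →
        ∀ w, R w ∈ Submodule.span F {x₀} := by
      by_cases t : ∃ (x : _) (α : _ → F), ∀ w, α w • x = R w
      · obtain ⟨x, α, t⟩ := t
        exact ⟨x, fun _ _ _ w => Submodule.mem_span_singleton.2 ⟨_, t w⟩⟩
      · exact ⟨0, fun x α k => (t ⟨x, α, k⟩).elim⟩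
    obtain ⟨x, x1, x2⟩ := exists_ker_notMem ((polarBilin Q).flip n' ∘ₗ φ.N g) x₀
    have k : ∀ m ∈ φ.V₀, m ≠ 0 → ∀ w, polar Q (φ.N g w) m = φ.l g x ⬝ᵥ φ.s g w :=
      fun m hm m0 w => by_contra fun t => x2 (by
        rw [← Submodule.smul_mem_iff _ (sub_ne_zero.2 t)]
        rcases hR x (h' _ (φ.N_mem _ _) (hθ x) x1) m hm m0 with r | r <;> rw [r]
        exacts [zero_mem _, h₀ _ _ r w])
    have k' : ∀ w, φ.l g x ⬝ᵥ φ.s g w = 0 := fun w => by
      have := k _ (add_mem ha hb) c0 w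
      rw [polar_add_right, k a ha a0, k b hb b0] at this
      exact add_eq_left.1 this
    have hN : ∀ w, φ.N g w = 0 := fun w =>
      h _ (φ.N_mem _ _) ((k a ha a0 w).trans (k' w)) ((k b hb b0 w).trans (k' w))
    obtain ⟨w, y, hy⟩ := φ.exists_dot hl hs
    have hw : φ.l g w ⬝ᵥ φ.s g y = -1 := by simp [φ.ls' g w y, hy, hN]
    have y0 : y ≠ 0 := by rintro rfl; simp at hy
    have w0 : w ≠ 0 := by rintro rfl; simp at hy
    have r1 := ((hR y (hN y) a ha a0).resolve_left fun t => y0 (by simpa [hN, hy] using t w)) y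
    have r2 := ((hR w (hN w) a ha a0).resolve_left fun t => w0 (by simpa [hN, hw] using t y)) y
    exact w0 (by simpa [hN, hw, ls] using r2.trans r1.symm)
  push Not at hθ
  obtain ⟨x, x0, hx⟩ := φ.exists_ker_N le_rfl (g := g)
  have k : ∀ m ∈ φ.V₀, ∀ m' ∈ φ.V₀, m ≠ m' → ∀ r : _ → Fin (2 + 1) → F,
      (∀ w, (polar Q (φ.N g w) m - φ.l g x ⬝ᵥ φ.s g w) • x = r w) →
      (∀ w, (polar Q (φ.N g w) m' - φ.l g x ⬝ᵥ φ.s g w) • x = r w) → False :=
    fun m hm m' hm' t r r1 r2 => by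
      obtain ⟨w, hw⟩ := hθ _ (sub_mem hm hm') (sub_ne_zero.2 t)
      exact hw (by
        simpa [polar_sub_right, sub_eq_zero] using smul_left_injective F x0 ((r1 w).trans (r2 w).symm))
  have hc := add_mem ha hb
  have n1 : a ≠ b := fun t => hab (by rw [t, polar_self', h2, zero_mul])
  have n2 : a ≠ a + b := by simpa using b0
  have n3 : b ≠ a + b := by simpa using a0
  rcases hR x hx a ha a0 with r1 | r1 <;> rcases hR x hx b hb b0 with r2 | r2 <;>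
    rcases hR x hx _ hc c0 with r3 | r3 <;> first
      | exact k a ha b hb n1 _ r1 r2 | exact k a ha _ hc n2 _ r1 r3 | exact k b hb _ hc n3 _ r2 r3

end Fr

theorem cmD_omega (hQ : (polarBilin Q).Nondegenerate) (hn : 7 ≤ finrank F V) (g : O Q)
    (hg : g ∈ commutator (O Q)) : CmD g :=
  have hE : ¬ Exc Q := not_exc_of_finrank (by omega)
  cmD_of hQ hn hg fun hF h1 φ hV => φ.cmD_two hQ hE hF (by omega) hV ((mem_iff_ab hQ hE).1 hg) h1

end Cfsg.Lib.Known.OC
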