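import Cfsg.Agent.Known.OCommFac

/-!
The abelianisation of an orthogonal group on parabolic subgroups and the generic case of the
commutator factorisation.
-/

set_option autoImplicit false

namespace Cfsg.Lib.Known.OC

open Module Polynomial QuadraticMap Cfsg.Lib.Class Cfsg.Lib.Class.Orth Cfsg.Lib.Known.SC

theorem comm_mem {G : Type*} [Group G] (a b : G) : a * b * a⁻¹ * b⁻¹ ∈ commutator G :=
  Subgroup.commutator_mem_commutator (Subgroup.mem_top a) (Subgroup.mem_top b)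

theorem comm_mul {G : Type*} [Group G] {a c h d : G} (h1 : Commute a h) (h2 : Commute a d)
    (h3 : Commute c h) (h4 : Commute c d) : a * (c * a⁻¹ * c⁻¹) * (h * (d * h⁻¹ * d⁻¹)) =
      a * h * (c * d * (a * h)⁻¹ * (c * d)⁻¹) := by
  calc _ = a * ((c * a⁻¹ * c⁻¹) * h) * (d * h⁻¹ * d⁻¹) := by group
    _ = a * h * c * a⁻¹ * (c⁻¹ * (d * h⁻¹ * d⁻¹)) := by
      rw [((h3.mul_left h1.inv_left).mul_left h3.inv_left).eq]; group
    _ = a * h * c * (a⁻¹ * (d * h⁻¹)) * d⁻¹ * c⁻¹ := by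
      rw [((h4.mul_right h3.inv_right).mul_right h4.inv_right).inv_left.eq]; group
    _ = _ := by rw [(h2.mul_right h1.inv_right).inv_left.eq]; group

theorem CmD.conj {G : Type*} [Group G] {g : G} (h : CmD g) (k : G) : CmD (k * g * k⁻¹) := by
  obtain ⟨a, ha, b, hb, rfl⟩ := h
  have N : (commutator G).Normal := inferInstance
  exact ⟨_, N.conj_mem _ ha k, _, N.conj_mem _ hb k, by group⟩

variable {F V : Type*} [Field F] [Fintype F] [AddCommGroup V] [Module F V]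
  {Q : QuadraticForm F V} [FiniteDimensional F V]

open Classical in
/-- The quadratic character. -/
noncomputable def χ : F →* ℤ := (quadraticChar F).toMonoidHom

open Classical in
theorem χ_eq_one {t : F} (ht : t ≠ 0) : χ t = 1 ↔ IsSquare t := quadraticChar_one_iff_isSquare ht

open Classical in
theorem χ_eq_neg_one {t : F} : χ t = -1 ↔ ¬ IsSquare t := quadraticChar_neg_one_iff_not_isSquare

theorem χ_or {t : F} (ht : t ≠ 0) : χ t = 1 ∨ χ t = -1 := by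
  rw [χ_eq_one ht, χ_eq_neg_one]; exact em _

theorem χ_mul_self {t : F} (ht : t ≠ 0) : χ t * χ t = 1 := by
  rcases χ_or ht with h | h <;> simp [h]

theorem exists_ab (hQ : (polarBilin Q).Nondegenerate) (hE : ¬ Exc Q) : ∃ ab : O Q →* ℤ × ℤ,
    (∀ g, g ∈ commutator (O Q) ↔ ab g = 1) ∧ ∀ v, Q v ≠ 0 → ab (refl Q v) = (-1, χ (Q v)) := by
  by_cases h2 : (2 : F) = 0
  · exact ⟨((Units.coeHom ℤ).comp (dickHom hQ hE)).prod 1, fun g => by
      simp [mem_commutator_iff_even hQ hE h2, Prod.ext_iff], fun v hv => by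
      simp [dick_refl hQ hv, (χ_eq_one hv).2 (isSquare_of_char_two h2 _)]⟩
  refine ⟨((Units.coeHom ℤ).comp (dickHom hQ hE)).prod ((Units.coeHom ℤ).comp (spin hQ h2)),
    fun g => by simp [mem_commutator_iff_odd hQ h2, Prod.ext_iff], fun v hv => ?_⟩
  by_cases h : IsSquare (Q v)
  · simp [dick_refl hQ hv, spin_refl_of_isSquare hQ h2 hv h, (χ_eq_one hv).2 h]
  · simp [dick_refl hQ hv, spin_refl_of_not_isSquare hQ h2 h, χ_eq_neg_one.2 h]

variable (hQ : (polarBilin Q).Nondegenerate) (hE : ¬ Exc Q)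

/-- Dickson invariant and spinor norm. -/
noncomputable def ab : O Q →* ℤ × ℤ := (exists_ab hQ hE).choose

theorem mem_iff_ab {g : O Q} : g ∈ commutator (O Q) ↔ ab hQ hE g = 1 :=
  (exists_ab hQ hE).choose_spec.1 g

theorem ab_refl {v : V} (hv : Q v ≠ 0) : ab hQ hE (refl Q v) = (-1, χ (Q v)) :=
  (exists_ab hQ hE).choose_spec.2 v hv

theorem ab_mul_self (g : O Q) : ab hQ hE g * ab hQ hE g = 1 := by
  induction g using refl_induction hQ hE with
  | h1 => simp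
  | hmul g v hv h => rw [map_mul, mul_mul_mul_comm, h, ← map_mul]; simp

theorem ab_eq_iff {g h : O Q} : ab hQ hE (g * h) = 1 ↔ ab hQ hE g = ab hQ hE h :=
  ⟨fun k => by rw [← mul_one (ab hQ hE g), ← k, map_mul, ← mul_assoc, ab_mul_self, one_mul],
    fun k => by rw [map_mul, k, ab_mul_self]⟩

theorem ab_inv (g : O Q) : ab hQ hE g⁻¹ = ab hQ hE g := (ab_eq_iff hQ hE).1 (by simp)

theorem surj_of_refl {H : Subgroup (O Q)} (h : ∀ t : F, t ≠ 0 → ∃ v, Q v = t ∧ refl Q v ∈ H)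
    (x : O Q) : ∃ z ∈ H, ab hQ hE (x * z) = 1 := by
  induction x using refl_induction hQ hE with
  | h1 => exact ⟨1, one_mem _, by simp⟩
  | hmul g v hv k =>
    obtain ⟨z, hz, k⟩ := k
    obtain ⟨w, h1, h2⟩ := h _ hv
    refine ⟨_, mul_mem h2 hz, ?_⟩
    simp only [map_mul] at k ⊢
    rw [mul_assoc, ← mul_assoc _ _ (ab hQ hE z), ab_refl hQ hE hv, ab_refl hQ hE (h1 ▸ hv), h1]
    simpa [χ_mul_self hv, ← Prod.one_eq_mk] using k

omit [Fintype F] [FiniteDimensional F V] in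
theorem refl_comm {y : O Q} {v : V} {δ : F} (h : y.1 v = δ • v) : Commute (refl Q v) y := by
  by_cases hδ : δ = 0
  · rw [refl_of_eq_zero (by rw [← O_map y, h, hδ]; simp)]; exact Commute.one_left _
  · rw [Commute, SemiconjBy, mul_refl, h, refl_smul hδ]

namespace Fr

section
variable {ι : Type*} [Fintype ι] [DecidableEq ι] (φ : Fr Q ι)

theorem M_cases {h : O Q} (hh : h ∈ φ.M) : h = 1 ∨ (∃ a ∈ φ.V₀, a ≠ 0 ∧ h = refl Q a) ∨
    ∃ a ∈ φ.V₀, ∃ b ∈ φ.V₀, LinearIndependent F ![a, b] ∧ h = refl Q a * refl Q b := by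
  have k : ∀ h ∈ φ.M, h ≠ 1 → ∃ n ∈ φ.V₀, h.1 n - n ∈ φ.V₀ ∧ h.1 n - n ≠ 0 ∧
      (refl Q (h.1 n - n) * h).1 n = n := fun h hh h1 => by
    obtain ⟨n, hn, e⟩ : ∃ n ∈ φ.V₀, h.1 n ≠ n := by
      by_contra! t
      exact h1 (φ.ext3 (φ.mem_M.1 hh).1 (φ.mem_M.1 hh).2 t)
    have m := sub_mem (φ.M_mem hh hn) hn
    exact ⟨n, hn, m, sub_ne_zero.2 e, refl_sub_apply (O_map _ _) fun t => e (sub_eq_zero.1 (an' m t))⟩
  refine or_iff_not_imp_left.2 fun h1 => ?_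
  obtain ⟨n, hn, ha, a0, e⟩ := k h hh h1
  have n0 : n ≠ 0 := by rintro rfl; simp at a0
  generalize h.1 n - n = a at ha a0 e
  obtain ⟨h', rfl⟩ : ∃ h', h = refl Q a * h' := ⟨refl Q a * h, by rw [← mul_assoc]; simp⟩
  have hh' : h' ∈ φ.M := (mul_mem_cancel_left (φ.refl_mem_M ha)).1 hh
  by_cases h2 : h' = 1
  · exact .inl ⟨a, ha, a0, by simp [h2]⟩
  obtain ⟨n', hn', hb, b0, e'⟩ := k h' hh' h2
  simp only [O_mul_apply, refl_refl_apply] at e
  have li : LinearIndependent F ![n, n'] := (LinearIndependent.pair_iff' n0).2 fun c hc => b0 (by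
    rw [← hc, map_smul, e, sub_self])
  have : refl Q (h'.1 n' - n') * h' = 1 := φ.ext3 (φ.mem_M.1 (mul_mem (φ.refl_mem_M hb) hh')).1
    (φ.mem_M.1 (mul_mem (φ.refl_mem_M hb) hh')).2 fun m hm => by
      rw [← φ.span_pair hn hn' li] at hm
      obtain ⟨s, t, rfl⟩ := Submodule.mem_span_pair.1 hm
      rw [map_add, map_smul, map_smul, e', O_mul_apply, e, refl_apply_of_orth (by
        rw [polar_sub_right, ← O_polar h' n n', e, sub_self])]; rfl
  generalize h'.1 n' - n' = b at hb b0 this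
  obtain rfl : h' = refl Q b := by rw [← refl_inv, eq_inv_iff_mul_eq_one, mul_eq_one_comm, this]
  refine .inr ⟨a, ha, b, hb, (LinearIndependent.pair_iff' a0).2 fun c hc => h1 ?_, rfl⟩
  rw [← hc, refl_smul (by rintro rfl; exact b0 (by simpa using hc.symm)), refl_mul_self]

include hQ in
theorem fix_rr {a b n : V} (ha : a ∈ φ.V₀) (hb : b ∈ φ.V₀) (li : LinearIndependent F ![a, b])
    (hn : n ∈ φ.V₀) (h : (refl Q a * refl Q b).1 n = n) : n = 0 := by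
  have e : (refl Q b).1 n = (refl Q a).1 n :=
    (refl_refl_apply a _).symm.trans (congrArg (refl Q a).1 h)
  rw [refl_apply, refl_apply, sub_right_inj] at e
  have := LinearIndependent.pair_iff.1 li _ _ (by rw [← e, neg_smul, add_neg_cancel] :
    _ • a + (-((Q b)⁻¹ * polar Q n b)) • b = 0)
  have a0 : Q a ≠ 0 := fun t => li.ne_zero 0 (an' ha t)
  have b0 : Q b ≠ 0 := fun t => li.ne_zero 1 (an' hb t)
  refine φ.nondeg_V₀ hQ hn fun m hm => ?_
  rw [← φ.span_pair ha hb li] at hm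
  obtain ⟨s, t, rfl⟩ := Submodule.mem_span_pair.1 hm
  simp [polar_add_left, polar_comm Q a, polar_comm Q b, show polar Q n a = 0 by simpa [a0] using this.1,
    show polar Q n b = 0 by simpa [b0] using this.2]

omit [FiniteDimensional F V] [DecidableEq ι] in
theorem χ_orth (h2 : (2 : F) ≠ 0) {c c' : V} (hc : c ∈ φ.V₀) (hc' : c' ∈ φ.V₀) (c0 : Q c ≠ 0)
    (c0' : Q c' ≠ 0) (o : polar Q c c' = 0) : -(χ (Q c) * χ (Q c')) = χ (-1 : F) := by
  have : χ (-1 * (Q c * Q c')) = -1 := χ_eq_neg_one.2 fun ⟨s, hs⟩ => by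
    have := congrArg (polar Q c') (an' (add_mem (φ.V₀.smul_mem s hc) (φ.V₀.smul_mem (Q c) hc')) (by
      qsimp; rw [o]; linear_combination (-Q c) * hs))
    simp [polar_add_right, polar_comm Q c' c, o, h2, c0, c0'] at this
  rw [map_mul, map_mul] at this
  linear_combination (χ (Q c) * χ (Q c')) * χ_mul_self (t := (-1 : F)) (by simp) - χ (-1 : F) * this

theorem rot {h : O Q} (hh : h ∈ φ.M) (h1 : ab hQ hE h = 1) : ∃ h₁ ∈ φ.M, ∃ c ∈ φ.M, ∃ δ : F,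
    δ * δ = 1 ∧ h = h₁ * (c * h₁⁻¹ * c⁻¹) ∧ (∀ n ∈ φ.V₀, h₁.1 n = δ • n → n = 0) ∧
      ab hQ hE h₁ = (1, χ (-δ)) ∧ (h = 1 ∨ (ab hQ hE c).1 = -1) := by
  have q : ∀ {a}, a ∈ φ.V₀ → a ≠ 0 → Q a ≠ 0 := fun h1 h2 h3 => h2 (an' h1 h3)
  rcases φ.M_cases hh with rfl | ⟨a, ha, a0, rfl⟩ | ⟨a, ha, b, hb, li, rfl⟩
  · by_cases t : ∀ n ∈ φ.V₀, n = (-1 : F) • n → n = 0
    · exact ⟨1, one_mem _, 1, one_mem _, -1, by simp, by simp, t, by simp [Prod.ext_iff], .inl rfl⟩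
    push Not at t
    obtain ⟨a, ha, h3, a0⟩ := t
    have h2 : (2 : F) = 0 := (smul_eq_zero_iff_left a0).1 (by rw [two_smul]; nth_rw 2 [h3]; simp)
    obtain ⟨b, hb, h4⟩ : ∃ b ∈ φ.V₀, polar Q b a ≠ 0 := by
      by_contra! t; exact a0 (φ.nondeg_V₀ hQ ha t)
    have li : LinearIndependent F ![a, b] := (LinearIndependent.pair_iff' a0).2 fun c hc => h4 (by
      rw [← hc, polar_smul_left', polar_self', h2, zero_mul, mul_zero])
    have s : ∀ t : F, t ≠ 0 → χ t = 1 := fun t ht => (χ_eq_one ht).2 (isSquare_of_char_two h2 t)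
    have b0 := q hb (li.ne_zero 1)
    exact ⟨_, mul_mem (φ.refl_mem_M ha) (φ.refl_mem_M hb), 1, one_mem _, 1, by simp, by group,
      fun n hn k => φ.fix_rr hQ ha hb li hn (by rw [k, one_smul]), by
      simp [ab_refl _ _ (q ha a0), ab_refl _ _ b0, s _ (q ha a0), s _ b0, s (-1)], .inl rfl⟩
  · simp [ab_refl _ _ (q ha a0), Prod.ext_iff] at h1
  have a0 := q ha (li.ne_zero 0)
  have b0 := q hb (li.ne_zero 1)
  rw [ab_eq_iff, ab_refl _ _ a0, ab_refl _ _ b0] at h1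
  obtain ⟨t, ht, e⟩ := exists_sq_mul_of_isSquare_iff b0 a0 (by
    rw [← χ_eq_one a0, ← χ_eq_one b0, show χ (Q a) = χ (Q b) from (Prod.ext_iff.1 h1).2])
  have key : ∀ s δ : F, s * s = 1 → δ * δ = 1 → χ (Q a) * χ (Q (a - (s * t) • b)) = χ (-δ) →
      ∃ h₁ ∈ φ.M, ∃ c ∈ φ.M, ∃ δ : F, δ * δ = 1 ∧ refl Q a * refl Q b = h₁ * (c * h₁⁻¹ * c⁻¹) ∧
      (∀ n ∈ φ.V₀, h₁.1 n = δ • n → n = 0) ∧ ab hQ hE h₁ = (1, χ (-δ)) ∧
      (refl Q a * refl Q b = 1 ∨ (ab hQ hE c).1 = -1) := fun s δ hs hδ k => by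
    have hc := sub_mem ha (φ.V₀.smul_mem (s * t) hb)
    have c0 := q hc fun z => one_ne_zero (LinearIndependent.pair_iff.1 li 1 (-(s * t)) (by
      rw [← z]; module)).1
    have r := conj_refl (refl Q (a - (s * t) • b)) a
    rw [refl_sub_apply (by rw [Q_smul, e, mul_pow, pow_two s, hs, one_mul]) c0, refl_smul
      (mul_ne_zero (left_ne_zero_of_mul_eq_one hs) ht), refl_inv] at r
    refine ⟨_, mul_mem (φ.refl_mem_M ha) (φ.refl_mem_M hc), _, φ.refl_mem_M ha, δ, hδ, by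
      simp [← r, mul_assoc], fun n hn z => φ.fix_rr hQ ha hb li hn ?_, by
      simp [ab_refl _ _ a0, ab_refl _ _ c0, k], .inr (by rw [ab_refl _ _ a0])⟩
    rw [← r, ← mul_assoc, ← mul_assoc, mul_assoc, O_mul_apply, z, map_smul, z, smul_smul, hδ, one_smul]
  by_cases z : χ (Q a) * χ (Q (a - (1 * t) • b)) = 1
  · exact key 1 (-1) (by simp) (by simp) (by simpa using z)
  refine key (-1) 1 (by simp) (by simp) ?_
  have hc : ∀ s : F, a - (s * t) • b ∈ φ.V₀ := fun s => sub_mem ha (φ.V₀.smul_mem (s * t) hb)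
  have c0 : ∀ s : F, Q (a - (s * t) • b) ≠ 0 := fun s => q (hc s) fun z =>
    one_ne_zero (LinearIndependent.pair_iff.1 li 1 (-(s * t)) (by rw [← z]; module)).1
  have h2 : (2 : F) ≠ 0 := fun h2 => z (by
    rw [← map_mul, χ_eq_one (mul_ne_zero a0 (c0 1))]; exact isSquare_of_char_two h2 _)
  have := φ.χ_orth h2 (hc 1) (hc (-1)) (c0 1) (c0 (-1)) (by qsimp; rw [e, polar_comm Q b a]; ring)
  rw [← this]
  rcases χ_or a0 with h | h <;> rcases χ_or (c0 1) with h' | h' <;> simp only [h, h'] at z ⊢ <;>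
    simp at z ⊢

end

variable {m : ℕ} (φ : Fr Q (Fin (m + 1))) (hm : 2 ≤ m)
include hm

theorem ab_U {u : O Q} (hu : u ∈ φ.U) : ab hQ hE u = 1 := by
  obtain ⟨A, p, G⟩ := exists_gd_zero (F := F) (k := m + 1) (by omega)
  obtain ⟨k, -, hk⟩ := φ.conj_left hQ G (one_mem _) (by simp) hu
  rw [← mem_iff_ab, eq_inv_mul_iff_mul_eq.2 hk]
  simpa [mul_assoc] using comm_mem (φ.lev hQ A) k⁻¹

theorem ab_lev (A : (Fin (m + 1) → F) ≃ₗ[F] Fin (m + 1) → F) :
    ab hQ hE (φ.lev hQ A) = (1, χ (LinearMap.det A.toLinearMap)) := by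
  have ht : LinearMap.det A.toLinearMap ≠ 0 := A.isUnit_det'.ne_zero
  generalize hd : LinearMap.det A.toLinearMap = t at ht
  let e : Fin (m + 1) → F := Pi.single 0 1
  have ee : e ⬝ᵥ e = 1 := by simp [e]
  let D := LinearEquiv.dilatransvection (f := (t - 1) • dotProductBilin F F e) (v := e)
    (by simpa [ee] using ht)
  have d : LinearMap.det D.toLinearMap = t := by simp [D, ee]
  obtain ⟨a, b, -, -, h⟩ := CP.isComm_of_det (A * D⁻¹) (by
    rw [show (A * D⁻¹).toLinearMap = A.toLinearMap * D.symm.toLinearMap from rfl, map_mul, hd, ← d]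
    exact D.det_mul_det_symm) (by simp; omega) (by simp; omega)
  have he := φ.qE e
  have hf := φ.qE' e
  have hef : polar Q (φ.E e) (φ.E' e) = 1 := by rw [φ.pol, ee]
  have := φ.ab_U hQ hE hm (u := (φ.lev hQ D)⁻¹ * tor Q (φ.E e) (φ.E' e) t) ⟨fun x =>
    O_inv_apply_of_eq ?_, fun n hn => ⟨0, O_inv_apply_of_eq ?_⟩⟩
  · have k := (mem_iff_ab hQ hE).1 (map_mem_commutator (φ.lev hQ) (h ▸ comm_mem a b))
    have q : ∀ s : F, Q (φ.E e + s • φ.E' e) = s := fun s => by simpa using Q_hyp he hf hef 1 s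
    rw [map_mul, map_inv, ab_eq_iff, (ab_eq_iff hQ hE).1 this, tor, map_mul, ab_refl _ _ (by
      simpa using (q 1).trans_ne one_ne_zero), ab_refl _ _ (by rwa [q])] at k
    simpa [q, show Q (φ.E e + φ.E' e) = 1 by simpa using q 1] using k
  · erw [lev_E]
    have := tor_apply_orth (Q := Q) (e := φ.E e) (f := φ.E' e) t (u := φ.E (x - (e ⬝ᵥ x) • e))
      (φ.pEE _ _) (by simp [pol', ee])
    rw [map_sub, map_sub, map_smul, map_smul, tor_apply_left he hf hef ht, sub_eq_iff_eq_add] at this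
    refine Eq.trans ?_ this.symm
    simp [D, LinearEquiv.dilatransvection.apply]
    module
  · rw [map_zero, add_zero]
    exact (φ.lev_V₀ hQ D hn).trans (tor_apply_orth t ((φ.mem_V₀.1 hn).1 _) ((φ.mem_V₀.1 hn).2 _)).symm

theorem cmD_core {A : (Fin (m + 1) → F) ≃ₗ[F] Fin (m + 1) → F} {p : F[X]} {δ : F}
    {e f : Fin (m + 1) → F} (G : Gd A p δ e f) {h : O Q} (hh : h ∈ φ.M)
    (hδ : ∀ n ∈ φ.V₀, h.1 n = δ • n → n = 0) (hy : ab hQ hE (φ.lev hQ A * h) = 1) {u u' c z : O Q}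
    (hu' : u' ∈ φ.symm.U) (hu : c⁻¹ * u * c ∈ φ.U ∨ c⁻¹ * u * c ∈ φ.symm.U)
    (hz : Commute z (φ.lev hQ A * h)) (hz' : ab hQ hE (c * z) = 1) :
    CmD (u' * (φ.lev hQ A * h * (c * (φ.lev hQ A * h)⁻¹ * c⁻¹)) * u) := by
  obtain ⟨k₁, h1, e1⟩ := φ.conj_right hQ G hh hδ (inv_mem hu')
  obtain ⟨k₂, h2, e2⟩ : ∃ k₂, ab hQ hE k₂ = 1 ∧
      (φ.lev hQ A * h)⁻¹ * (c⁻¹ * u * c) = k₂⁻¹ * (φ.lev hQ A * h)⁻¹ * k₂ := by
    rcases hu with t | t
    · exact (φ.conj_left hQ G hh hδ t).imp fun k hk => ⟨φ.ab_U hQ hE hm hk.1, hk.2⟩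
    · exact (φ.conj_right hQ G hh hδ t).imp fun k hk => ⟨φ.symm.ab_U hQ hE hm hk.1, hk.2⟩
  exact cmD_of_fac ((mem_iff_ab hQ hE).2 hy) e1 e2 hz ((mem_iff_ab hQ hE).2 (by
    simpa [ab_inv, h2, φ.symm.ab_U hQ hE hm h1] using hz'))

theorem ab_decomp {g : O Q} {l : (Fin (m + 1) → F) ≃ₗ[F] Fin (m + 1) → F}
    (hl : ∀ x, φ.c (g.1 (φ.E x)) = l x) : ∃ u' ∈ φ.symm.U, ∃ h ∈ φ.M, ∃ u ∈ φ.U,
      g = u' * (φ.lev hQ l * h) * u ∧
        ab hQ hE g = (1, χ (LinearMap.det l.toLinearMap)) * ab hQ hE h := by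
  obtain ⟨u', hu', h, hh, u, hu, e⟩ := φ.decomp hQ g l hl
  exact ⟨u', hu', h, hh, u, hu, e, by
    simp [e, φ.ab_U hQ hE hm hu, φ.symm.ab_U hQ hE hm hu', φ.ab_lev hQ hE hm]⟩

theorem main_case (h2 : Fintype.card F = 2 → 3 ≤ m) {g : O Q} (hg : ab hQ hE g = 1)
    {l : (Fin (m + 1) → F) ≃ₗ[F] Fin (m + 1) → F} (hl : ∀ x, φ.c (g.1 (φ.E x)) = l x)
    (hd : LinearMap.det l.toLinearMap = 1) (hs : ¬ ∃ c : F, ∀ x, l x = c • x) : CmD g := by
  obtain ⟨u', hu', h, hh, u, hu, rfl, e⟩ := φ.ab_decomp hQ hE hm hl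
  rw [hg, hd, map_one, ← Prod.one_eq_mk, one_mul] at e
  obtain ⟨h₁, k1, c₀, k2, δ, hδ, rfl, k3, k4, -⟩ := φ.rot hQ hE hh e.symm
  obtain ⟨p, p1, p2, p3, p4, p5⟩ := exists_gp (F := F) hm h2
  obtain ⟨A, c, e, f, G, ef, rfl, hA⟩ := exists_gd_fac l hd hs p1 p2 p3 p4 hδ
  obtain ⟨z, hz, hz'⟩ := surj_of_refl hQ hE (H := Subgroup.centralizer {φ.lev hQ A * h₁})
    (fun t _ => ⟨φ.E e + t • φ.E' f, by
      simpa using Q_hyp (φ.qE e) (φ.qE' f) (by rw [φ.pol, ef]) 1 t,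
      Subgroup.mem_centralizer_singleton_iff.2 (refl_comm (δ := δ) (by
      simp [(φ.mem_M.1 k1).1, (φ.mem_M.1 k1).2, lev_E, lev_E', G.he, smul_comm t δ, show
        (trE A).symm f = δ • f from (LinearEquiv.symm_apply_eq _).2 (by
          simp [G.tr.he, smul_smul, hδ])]))⟩) (φ.lev hQ c * c₀)
  have := φ.cmD_core hQ hE hm G k1 k3 (by
    rw [ab_eq_iff, φ.ab_lev hQ hE hm, hA, k4, ← neg_mul_neg, map_mul,
      (χ_eq_one (by simp [p4])).2 p5, mul_one]) (u := u) (c := φ.lev hQ c * c₀) hu'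
    (.inl (φ.conj_mem_U hQ c k2 u hu)) (Subgroup.mem_centralizer_singleton_iff.1 hz) hz'
  rwa [map_mul, map_mul, map_mul, map_inv, map_inv, comm_mul (φ.lev_comm hQ A k1)
    (φ.lev_comm hQ A k2) (φ.lev_comm hQ c k1) (φ.lev_comm hQ c k2)]

end Fr

end Cfsg.Lib.Known.OC
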