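import Cfsg.Agent.Known.OCommVar

/-!
The element `-1` as a commutator in `Ω`, and existence of hyperbolic frames.
-/

set_option autoImplicit false

namespace Cfsg.Lib.Known.OC

open Module Polynomial QuadraticMap Cfsg.Lib.Class Cfsg.Lib.Class.Orth Cfsg.Lib.Known.SC

variable {F V : Type*} [Field F] [Fintype F] [AddCommGroup V] [Module F V]
  {Q : QuadraticForm F V} [FiniteDimensional F V] (hQ : (polarBilin Q).Nondegenerate)
include hQ

theorem cmD_neg_of {W : Type*} [AddCommGroup W] [Module F W] {Q₁ : QuadraticForm F W}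
    (h2 : (2 : F) ≠ 0) {e f : Fin 2 → W} (H : IsHyp Q₁ e f) (T : (W × W) ≃ₗ[F] V)
    (hT : ∀ x, Q (T x) = Q₁.prod Q₁ x) : CmD (Orth.negO Q) := by
  have hE : ¬ Exc Q := not_exc_of_two_ne_zero h2
  obtain ⟨a, ha⟩ := exists_O_of_linear hQ (T.conj (LinearMap.prodMap (-1) 1)) fun v => by
    obtain ⟨v, rfl⟩ := T.surjective v
    simp [LinearEquiv.conj_apply, hT]
  obtain ⟨b, hb⟩ := exists_O_of_linear hQ (T.conj (LinearEquiv.prodComm F W W).toLinearMap)
    fun v => by
      obtain ⟨v, rfl⟩ := T.surjective v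
      simp [LinearEquiv.conj_apply, hT, add_comm]
  have q : ∀ i t, Q₁ (e i + t • f i) = t := fun i t => by
    simpa using Q_hyp (H.qe i) (H.qf i) (by simpa using H.ef i i) 1 t
  obtain ⟨z, ⟨hz1, hz2⟩, hz⟩ := surj_of_refl hQ hE (H := Subgroup.centralizer {b} ⊓
    fixG Q (Submodule.span F (Set.range fun t : F => T (e 1 + t • f 1, 0)))) (fun t _ =>
      ⟨T (e 0 + (t / 2) • f 0, -(e 0 + (t / 2) • f 0)), by
        rw [hT, prod_apply, QuadraticMap.map_neg, q]; field_simp; ring,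
        Subgroup.mem_centralizer_singleton_iff.2 (refl_comm (δ := -1) (by
          simp [hb, LinearEquiv.conj_apply, ← map_neg])),
        mem_fixG_span.2 (by
          rintro _ ⟨s, rfl⟩
          refine refl_apply_of_orth ?_
          refine (polar_map_of_map (Q := Q₁.prod Q₁) T.toLinearMap hT _ _).trans ?_
          rw [polar_prod_mk]
          simp [polar_add_left, polar_add_right, H.ee, H.ff, H.ef, H.fe])⟩) a
  obtain ⟨y, hy, hy'⟩ := surj_of_refl hQ hE (H := Subgroup.centralizer {(a * z)⁻¹}) (fun t _ =>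
    ⟨T (e 1 + t • f 1, 0), by simp [hT, q], Subgroup.mem_centralizer_singleton_iff.2
      (Commute.inv_right (refl_comm (δ := -1) (by
        rw [O_mul_apply, hz2 _ (Submodule.subset_span ⟨t, rfl⟩)]
        simp [ha, LinearEquiv.conj_apply, ← map_neg])))⟩) b
  refine ⟨_, (mem_iff_ab hQ hE).2 hz, _, (mem_iff_ab hQ hE).2 hy', ?_⟩
  have k : Orth.negO Q * (b * a) = a * b := O_ext fun v => by
    obtain ⟨v, rfl⟩ := T.surjective v
    simp [ha, hb, LinearEquiv.conj_apply, ← map_neg]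
  calc _ = Orth.negO Q * (b * a) * a⁻¹ * b⁻¹ := by group
    _ = a * (b * z) * (a * z)⁻¹ * y * (b * y)⁻¹ := by rw [k]; group
    _ = _ := by
      rw [← Subgroup.mem_centralizer_singleton_iff.1 hz1, mul_assoc _ _ y,
        ← Subgroup.mem_centralizer_singleton_iff.1 hy]; group

theorem cmD_neg (hn : 7 ≤ finrank F V) (h : Orth.negO Q ∈ commutator (O Q)) (h2 : (2 : F) ≠ 0) :
    CmD (Orth.negO Q) := by
  obtain ⟨n, hV⟩ : Even (finrank F V) :=
    Nat.not_odd_iff_even.1 fun t => negO_notMem_commutator hQ h2 t h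
  let Q₀ : QuadraticForm F (Fin (n - 4) → F) := weightedSumSquares F fun _ => (1 : F)
  have h0 : (polarBilin Q₀).Nondegenerate := nondeg_of fun u hu => funext fun i => by
    have := hu (Pi.single i 1)
    simp [polar, Q₀, Pi.single_apply, add_mul, mul_add, Finset.sum_add_distrib] at this
    exact mul_left_cancel₀ h2 (by rw [Pi.zero_apply]; linear_combination this)
  have h1 := nondegenerate_prod (quadPlus_nondegenerate (F := F) 2) h0
  have hd := (spin_negO_eq_one_iff hQ h2).1 ((mem_commutator_iff_odd hQ h2).1 h).2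
  obtain ⟨T, hT⟩ := exists_equiv_of_sqEq_disc h2 (nondegenerate_prod h1 h1) hQ (by simp; omega)
    ((sqEq_disc_prod _ _).trans ((sqEq_iff_isSquare_iff (mul_self_ne_zero.2 (disc_ne_zero h1))
      (disc_ne_zero hQ)).2 (iff_of_true ⟨_, rfl⟩ (by
        rwa [hV, pow_add, (sqEq_mul_self_mul (pow_ne_zero _ h2) _).isSquare_iff] at hd))))
  exact cmD_neg_of hQ h2 ((isHyp_quadPlus 2).map (LinearMap.inl F _ _) (by simp)) T hT

theorem exists_frame (hn : 7 ≤ finrank F V) :
    ∃ m, 2 ≤ m ∧ ∃ φ : Fr Q (Fin (m + 1)), finrank F φ.V₀ + 2 * (m + 1) = finrank F V := by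
  obtain ⟨k, e, f, H, h⟩ := exists_isHyp_anisotropic hQ
  let φ : Fr Q (Fin k) := ⟨Fintype.linearCombination F e, Fintype.linearCombination F f,
    fun x => quad_sum_smul_eq_zero Q Finset.univ e H.qe H.ee x,
    fun x => quad_sum_smul_eq_zero Q Finset.univ f H.qf H.ff x, fun x y => by
      simp [Fintype.linearCombination_apply, polar_sum_left, polar_sum_right, H.ef, dotProduct,
        mul_comm],
    fun n h1 h2 => h n (mem_hypPerp.2 ⟨fun i => by simpa using h1 (Pi.single i 1),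
      fun i => by simpa using h2 (Pi.single i 1)⟩)⟩
  have h1 : φ.V₀ = hypPerp Q e f := Submodule.ext fun n => by
    rw [φ.mem_V₀, mem_hypPerp]
    exact ⟨fun t => ⟨fun i => by simpa [φ] using t.1 (Pi.single i 1),
      fun i => by simpa [φ] using t.2 (Pi.single i 1)⟩, fun t => by
      simp [φ, Fintype.linearCombination_apply, polar_sum_left, t.1, t.2]⟩
  have h2 := H.finrank_perp
  have h3 := φ.finrank_V₀
  rw [← h1, Fintype.card_fin] at h2
  obtain ⟨m, rfl⟩ : ∃ m, k = m + 1 := ⟨k - 1, by omega⟩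
  exact ⟨m, by omega, φ, h2⟩

theorem cmD_of (hn : 7 ≤ finrank F V) {g : O Q} (hg : g ∈ commutator (O Q))
    (hq : Fintype.card F = 2 → g ≠ 1 → ∀ φ : Fr Q (Fin (2 + 1)), φ.V₀ ≠ ⊥ → CmD g) : CmD g := by
  have hE : ¬ Exc Q := not_exc_of_finrank (by omega)
  by_cases h1 : g = 1
  · exact ⟨1, one_mem _, 1, one_mem _, by simp [h1]⟩
  by_cases h2 : g = Orth.negO Q
  · exact h2 ▸ cmD_neg hQ hn (h2 ▸ hg) fun t => h1 (h2.trans (negO_eq_one_of_char_two t))
  obtain ⟨m, hm, φ, h⟩ := exists_frame hQ hn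
  by_cases t : Fintype.card F = 2 → 3 ≤ m
  · exact φ.cmD_generic hQ hE hm t (by omega) ((mem_iff_ab hQ hE).1 hg) h1 h2
  push Not at t
  obtain rfl : m = 2 := by omega
  exact hq t.1 h1 φ fun k => by rw [k, finrank_bot] at h; omega

omit hQ [Fintype F] in
theorem omega_comm {ι : Type} [Fintype ι] [DecidableEq ι] {Q : QuadraticForm F (ι → F)}
    (h : ∀ g ∈ commutator (O Q), CmD g) (g : Omega F Q) :
    ∃ a b : Omega F Q, g = a * b * a⁻¹ * b⁻¹ := by
  obtain ⟨a, ha, b, hb, e⟩ := h _ (omegaEquiv Q g).2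
  exact ⟨(omegaEquiv Q).symm ⟨a, ha⟩, (omegaEquiv Q).symm ⟨b, hb⟩,
    (omegaEquiv Q).injective (Subtype.ext (by simpa using e))⟩

end Cfsg.Lib.Known.OC
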