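import Cfsg.Agent.Known.OCommMain

/-!
Conjugating an isometry into the big cell of a maximal parabolic subgroup with prescribed Levi part.
-/

set_option autoImplicit false

namespace Cfsg.Lib.Known.OC

open Module Polynomial QuadraticMap Cfsg.Lib.Class Cfsg.Lib.Class.Orth Cfsg.Lib.Known.SC

variable {F V ι : Type*} [Field F] [AddCommGroup V] [Module F V] {Q : QuadraticForm F V}
  [Fintype ι] [DecidableEq ι]

theorem exists_dot_one {u : ι → F} (h : u ≠ 0) : ∃ x, x ⬝ᵥ u = 1 := by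
  obtain ⟨i, hi⟩ := Function.ne_iff.1 h
  exact ⟨Pi.single i (u i)⁻¹, by simpa using inv_mul_cancel₀ hi⟩

theorem CmD.of_isConj {G : Type*} [Group G] {g g' : G} (h : IsConj g g') (h' : CmD g') : CmD g := by
  obtain ⟨k, rfl⟩ := isConj_iff.1 h.symm
  exact h'.conj k

theorem ab_conj [Fintype F] [FiniteDimensional F V] (hQ : (polarBilin Q).Nondegenerate)
    (hE : ¬ Exc Q) {g g' : O Q} (h : IsConj g g') : ab hQ hE g = ab hQ hE g' := by
  obtain ⟨k, rfl⟩ := isConj_iff.1 h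
  rw [map_mul, map_mul, mul_right_comm, ← map_mul]; simp

namespace Fr

variable (φ : Fr Q ι)

/-- First block of an isometry. -/
def l (g : O Q) : End F (ι → F) := φ.c ∘ₗ g.1.toLinearMap ∘ₗ φ.E

/-- Middle block of an isometry. -/
def N (g : O Q) : (ι → F) →ₗ[F] V := φ.ρ ∘ₗ g.1.toLinearMap ∘ₗ φ.E

/-- Last block of an isometry. -/
def s (g : O Q) : End F (ι → F) := φ.symm.c ∘ₗ g.1.toLinearMap ∘ₗ φ.E

variable (g : O Q)

theorem N_mem (w : ι → F) : φ.N g w ∈ φ.V₀ := φ.ρ_mem _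

theorem ls (w : ι → F) : φ.l g w ⬝ᵥ φ.s g w = -Q (φ.N g w) :=
  eq_neg_of_add_eq_zero_left ((φ.Q_eq _).symm.trans ((O_map g _).trans (φ.qE w)))

theorem ls' (w w' : ι → F) :
    φ.l g w ⬝ᵥ φ.s g w' = -(φ.l g w' ⬝ᵥ φ.s g w) - polar Q (φ.N g w) (φ.N g w') := by
  have := φ.ls g (w + w')
  simp only [map_add, add_dotProduct, dotProduct_add, ls, Q_add] at this
  linear_combination this

variable {g}

theorem N_of_l {w : ι → F} (h : φ.l g w = 0) : φ.N g w = 0 :=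
  an' (φ.N_mem g w) (by simpa [h] using (φ.ls g w).symm)

theorem dot_s_of_l {w : ι → F} (h : φ.l g w = 0) (w' : ι → F) : φ.l g w' ⬝ᵥ φ.s g w = 0 := by
  simp [φ.ls' g w' w, h, φ.N_of_l h]

theorem eq_zero_of_l {w : ι → F} (h : φ.l g w = 0) (h' : φ.s g w = 0) : w = 0 := by
  have : φ.E (φ.l g w) + φ.N g w + φ.E' (φ.s g w) = _ := φ.dec (g.1 (φ.E w))
  exact φ.E_inj (by simpa [h, h', φ.N_of_l h] using this.symm)

variable (g)

theorem var (x a : ι → F) {n : V} (hn : n ∈ φ.V₀) : ∃ g', IsConj g g' ∧ φ.s g' = φ.s g ∧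
    (∀ w, φ.l g' w = φ.l g w + (a ⬝ᵥ φ.s g w + polar Q (φ.N g w) n - Q n * (x ⬝ᵥ φ.s g w)) • x -
      (x ⬝ᵥ φ.s g w) • a) ∧ ∀ w, φ.N g' w = φ.N g w - (x ⬝ᵥ φ.s g w) • n := by
  have h1 : ∀ y, polar Q (φ.E y) (φ.E a + n) = 0 := fun y => by
    simp [polar_add_right, (φ.mem_V₀.1 hn).1]
  have h2 : ∀ w, (eich Q (φ.E x) (φ.E a + n) * g * (eich Q (φ.E x) (φ.E a + n))⁻¹).1 (φ.E w) =
      g.1 (φ.E w) + (a ⬝ᵥ φ.s g w + polar Q (φ.N g w) n - Q n * (x ⬝ᵥ φ.s g w)) • φ.E x -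
        (x ⬝ᵥ φ.s g w) • (φ.E a + n) := fun w => by
    have k : ∀ y, polar Q (g.1 (φ.E w)) (φ.E y) = y ⬝ᵥ φ.s g w := fun y => by
      rw [polar_comm, ← dot_c']; rfl
    rw [O_mul_apply, O_mul_apply, O_inv_apply_of_eq (eich_apply_of_orth_orth (φ.pEE _ _) (h1 w)),
      eich_apply (φ.qE x) (h1 x), polar_add_right, k, k, Q_add, φ.qE, (φ.mem_V₀.1 hn).1,
      ← φ.dec (g.1 (φ.E w)), polar_add_left, polar_add_left, (φ.mem_V₀.1 hn).1, (φ.mem_V₀.1 hn).2]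
    simp [N]
  refine ⟨_, isConj_iff.2 ⟨eich Q (φ.E x) (φ.E a + n), rfl⟩, LinearMap.ext fun w => ?_,
    fun w => ?_, fun w => ?_⟩
  · exact (congrArg φ.symm.c (h2 w)).trans (by simp [c'_V₀ hn, s])
  · exact (congrArg φ.c (h2 w)).trans (by simp [c_V₀ hn, l])
  · exact (congrArg φ.ρ (h2 w)).trans (by simp [ρ_V₀ hn, N])

theorem var1 (x : ι → F) {n : V} (hn : n ∈ φ.V₀) : ∃ g', IsConj g g' ∧ φ.s g' = φ.s g ∧
    (∀ w, φ.l g' w = φ.l g (w + (polar Q (φ.N g w) n - Q n * (φ.l g x ⬝ᵥ φ.s g w)) • x)) ∧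
    (∀ w, φ.N g' w = φ.N g w - (φ.l g x ⬝ᵥ φ.s g w) • n) ∧ LinearMap.det (φ.l g') =
      LinearMap.det (φ.l g) * (1 + polar Q (φ.N g x) n + Q n * Q (φ.N g x)) := by
  obtain ⟨g', h1, h2, h3, h4⟩ := φ.var g (φ.l g x) 0 hn
  refine ⟨g', h1, h2, fun w => by simp [h3], h4, ?_⟩
  rw [show φ.l g' = φ.l g * LinearMap.transvection ((polarBilin Q).flip n ∘ₗ φ.N g -
    Q n • dotProductBilin F F (φ.l g x) ∘ₗ φ.s g) x from LinearMap.ext fun w => by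
      simp [h3, LinearMap.transvection.apply], map_mul, LinearMap.transvection.det]
  simp [ls, add_assoc]

theorem var2 (x : ι → F) {a : ι → F} (ha : φ.N g a = 0) : ∃ g', IsConj g g' ∧ φ.s g' = φ.s g ∧
    (∀ w, φ.l g' w = φ.l g (w + (φ.l g a ⬝ᵥ φ.s g w) • x - (φ.l g x ⬝ᵥ φ.s g w) • a)) ∧
    LinearMap.det (φ.l g') = LinearMap.det (φ.l g) * (1 + φ.l g a ⬝ᵥ φ.s g x) ^ 2 := by
  obtain ⟨g', h1, h2, h3, -⟩ := φ.var g (φ.l g x) (φ.l g a) (zero_mem _)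
  refine ⟨g', h1, h2, fun w => by simp [h3], ?_⟩
  rw [show φ.l g' = φ.l g * (LinearMap.transvection (dotProductBilin F F (φ.l g a) ∘ₗ φ.s g) x *
    LinearMap.transvection (-dotProductBilin F F (φ.l g x) ∘ₗ φ.s g) a) from
      LinearMap.ext fun w => by simp [h3, LinearMap.transvection.apply, ls, ha]; abel,
    map_mul, map_mul, LinearMap.transvection.det, LinearMap.transvection.det]
  simp [φ.ls' g x a, ha, pow_two]

variable [FiniteDimensional F V] (hQ : (polarBilin Q).Nondegenerate)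

include hQ in
theorem exists_s_ne [Nontrivial ι] (hn : 3 ≤ finrank F V) (h1 : g ≠ 1) (h2 : g ≠ negO Q) :
    ∃ g', IsConj g g' ∧ φ.s g' ≠ 0 := by
  obtain ⟨i⟩ : Nonempty ι := inferInstance
  have e0 : φ.E (Pi.single i 1) ≠ 0 := (map_ne_zero_iff _ φ.E_inj).2 (by simp)
  obtain ⟨v, hv, h⟩ : ∃ v, Q v = 0 ∧ ∀ a : F, a • v ≠ g.1 v := by
    by_contra! t
    exact (eq_one_or_negO_of_fix hQ hn e0 (φ.qE _) t).elim h1 h2
  obtain ⟨k, hk⟩ := exists_O_apply_eq hQ (x := v) (by rintro rfl; simpa using h 0) e0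
    (hv.trans (φ.qE _).symm)
  generalize (Pi.single i 1 : ι → F) = e at e0 hk
  have h3 : ∀ a : F, a • φ.E e ≠ (k * g * k⁻¹).1 (φ.E e) := fun a t => h a (k.1.injective (by
    simpa [← hk] using t))
  have h4 : IsConj g (k * g * k⁻¹) := isConj_iff.2 ⟨k, rfl⟩
  generalize k * g * k⁻¹ = g' at h3 h4
  by_cases h5 : φ.s g' = 0
  swap
  · exact ⟨g', h4, h5⟩
  have h6 : g'.1 (φ.E e) = φ.E (φ.l g' e) := φ.eq_E (fun x => by
    rw [← dot_c', show φ.symm.c (g'.1 (φ.E e)) = φ.s g' e from rfl, h5]; simp) (by simp [φ.qE])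
  obtain ⟨w, w1, w2⟩ := exists_polar_pair hQ (u := φ.E e) (v := φ.E (φ.l g' e))
    ((LinearIndependent.pair_iff' e0).2 (h6 ▸ h3)) 0 1
  rw [← dot_c'] at w1 w2
  generalize φ.symm.c w = f at w1 w2
  refine ⟨_, h4.trans (isConj_iff.2 ⟨refl Q (φ.E (φ.l g' e) - φ.E' f), rfl⟩), fun t => ?_⟩
  have := LinearMap.congr_fun t e
  simp only [s, LinearMap.comp_apply, LinearEquiv.coe_coe, O_mul_apply, refl_inv] at this
  rw [refl_apply_of_orth (x := φ.E e) (by simp [polar_sub_right, φ.pol, w1]), h6, refl_sub_apply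
    (by rw [φ.qE, φ.qE']) (by simp [Q_sub, φ.qE, φ.qE', φ.pol, w2]), c'_E'] at this
  simp [show f = 0 from this] at w2

end Fr

namespace Fr

variable [Fintype F] [FiniteDimensional F V] (hQ : (polarBilin Q).Nondegenerate) (hE : ¬ Exc Q)
  {m : ℕ} (φ : Fr Q (Fin (m + 1))) (hm : 2 ≤ m) {g : O Q}
include hm

theorem ab_of_inj (hl : Function.Injective (φ.l g)) :
    ∃ h ∈ φ.M, ab hQ hE g = (1, χ (LinearMap.det (φ.l g))) * ab hQ hE h := by
  obtain ⟨-, -, h, hh, -, -, -, e⟩ := φ.ab_decomp hQ hE hm (g := g)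
    (l := LinearEquiv.ofInjectiveEndo _ hl) fun _ => rfl
  exact ⟨h, hh, e⟩

theorem ker_lt (hg : ab hQ hE g = 1) {w₀ : Fin (m + 1) → F} (h0 : w₀ ≠ 0) (h : φ.l g w₀ = 0) :
    ∃ g', IsConj g g' ∧ φ.s g' = φ.s g ∧ LinearMap.ker (φ.l g') < LinearMap.ker (φ.l g) := by
  have s0 : φ.s g w₀ ≠ 0 := fun t => h0 (φ.eq_zero_of_l h t)
  obtain ⟨e, he⟩ := exists_dot_one s0
  by_cases hV : ∃ n ∈ φ.V₀, n ≠ 0
  · obtain ⟨n, hn, n0⟩ := hV
    obtain ⟨g', h1, h2, h3, -⟩ := φ.var g e 0 hn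
    refine ⟨g', h1, h2, SetLike.lt_iff_le_and_exists.2 ⟨fun w hw => ?_, w₀, h, fun t => ?_⟩⟩
    · have hw := (h3 w).symm.trans (LinearMap.mem_ker.1 hw)
      have := congrArg (· ⬝ᵥ φ.s g w₀) hw
      simp only [smul_zero, sub_zero, add_dotProduct, φ.dot_s_of_l h, smul_dotProduct, he] at this hw
      simpa [show _ = (0 : F) by simpa using this] using hw
    · have := congrArg (· ⬝ᵥ φ.s g w₀) ((h3 w₀).symm.trans t)
      exact n0 (an' hn (by simpa [h, he, φ.N_of_l h] using this))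
  by_cases hw : ∃ w₁, φ.l g w₁ = 0 ∧ ∀ c : F, c • φ.s g w₀ ≠ φ.s g w₁
  · obtain ⟨w₁, h', hw⟩ := hw
    have li : LinearIndependent F ![φ.E' (φ.s g w₀), φ.E' (φ.s g w₁)] :=
      (LinearIndependent.pair_iff' ((map_ne_zero_iff _ φ.symm.E_inj).2 s0)).2 fun c t =>
        hw c (φ.symm.E_inj (by rw [map_smul]; exact t))
    obtain ⟨x, x1, x2⟩ := exists_polar_pair hQ li 1 0
    obtain ⟨a, a1, a2⟩ := exists_polar_pair hQ li 0 1
    rw [← dot_c, dotProduct_comm] at x1 x2 a1 a2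
    obtain ⟨g', h1, h2, h3, -⟩ := φ.var g (φ.c x) (φ.c a) (zero_mem _)
    refine ⟨g', h1, h2, SetLike.lt_iff_le_and_exists.2 ⟨fun w hw => ?_, w₀, h, fun t => ?_⟩⟩
    · have hw := (h3 w).symm.trans (LinearMap.mem_ker.1 hw)
      have k1 := congrArg (· ⬝ᵥ φ.s g w₀) hw
      have k2 := congrArg (· ⬝ᵥ φ.s g w₁) hw
      simp [φ.dot_s_of_l h, φ.dot_s_of_l h', x1, x2, a1, a2] at k1 k2
      simpa [k1, k2] using hw
    · simpa [h, h', x1, x2, a1, a2] using congrArg (· ⬝ᵥ φ.s g w₁) ((h3 w₀).symm.trans t)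
  push Not at hV hw
  have q : Q (φ.E e - φ.E' (φ.s g w₀)) = -1 := by simp [Q_sub, φ.qE, φ.qE', φ.pol, he]
  obtain ⟨h', hh, k⟩ := φ.ab_of_inj hQ hE hm (g := refl Q (φ.E e - φ.E' (φ.s g w₀)) * g)
    ((injective_iff_map_eq_zero _).2 fun w hw' => by
      have t : φ.l g w + (e ⬝ᵥ φ.s g w) • e = 0 := by
        have k := φ.dot_s_of_l h w
        rw [dotProduct_comm, l, LinearMap.comp_apply, dot_c, polar_comm] at k
        have k' : polar Q (g.1 (φ.E w)) (φ.E e) = e ⬝ᵥ φ.s g w := by rw [polar_comm, ← dot_c']; rfl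
        simpa [l, refl_apply, q, polar_sub_right, k',
          show polar Q (g.1 (φ.E w)) _ = 0 from k] using hw'
      have t' : e ⬝ᵥ φ.s g w = 0 := by
        simpa [φ.dot_s_of_l h, he] using congrArg (· ⬝ᵥ φ.s g w₀) t
      rw [t', zero_smul, add_zero] at t
      obtain ⟨c, hc⟩ := hw w t
      exact φ.eq_zero_of_l t (by rw [← hc, show c = 0 by simpa [← hc, he] using t', zero_smul]))
  rw [φ.ext3 (h := 1) (φ.mem_M.1 hh).1 (φ.mem_M.1 hh).2 fun n hn => by simp [hV n hn], map_mul,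
    ab_refl _ _ (by simp [q]), hg] at k
  simp [Prod.ext_iff] at k

theorem exists_inj (hg : ab hQ hE g = 1) :
    ∃ g', IsConj g g' ∧ φ.s g' = φ.s g ∧ Function.Injective (φ.l g') := by
  induction h : LinearMap.ker (φ.l g) using WellFoundedLT.induction generalizing g with
  | ind K ih =>
    subst h
    by_cases t : Function.Injective (φ.l g)
    · exact ⟨g, .refl _, rfl, t⟩
    rw [injective_iff_map_eq_zero] at t
    push Not at t
    obtain ⟨w, h1, h0⟩ := t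
    obtain ⟨g', h2, h3, h4⟩ := φ.ker_lt hQ hE hm hg h0 h1
    obtain ⟨g'', h5, h6, h7⟩ := ih _ h4 (ab_conj hQ hE h2 ▸ hg) rfl
    exact ⟨g'', h2.trans h5, h6.trans h3, h7⟩

omit hm [Fintype F] [FiniteDimensional F V] in
theorem exists_dot (hl : Function.Injective (φ.l g)) (hs : φ.s g ≠ 0) :
    ∃ w x, φ.l g x ⬝ᵥ φ.s g w = 1 := by
  obtain ⟨w, hw⟩ := DFunLike.ne_iff.1 hs
  obtain ⟨x, hx⟩ := exists_dot_one hw
  obtain ⟨x, rfl⟩ := LinearMap.injective_iff_surjective.1 hl x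
  exact ⟨w, x, hx⟩

theorem exists_det (hg : ab hQ hE g = 1) (hl : Function.Injective (φ.l g)) (hs : φ.s g ≠ 0) :
    ∃ g', IsConj g g' ∧ φ.s g' = φ.s g ∧ LinearMap.det (φ.l g') = 1 := by
  have d0 : LinearMap.det (φ.l g) ≠ 0 := (LinearEquiv.ofInjectiveEndo _ hl).isUnit_det'.ne_zero
  obtain ⟨h, hh, e⟩ := φ.ab_of_inj hQ hE hm hl
  obtain ⟨w, x, hx⟩ := φ.exists_dot hl hs
  by_cases hV : ∃ n ∈ φ.V₀, n ≠ 0
  swap
  · push Not at hV
    rw [φ.ext3 (h := 1) (φ.mem_M.1 hh).1 (φ.mem_M.1 hh).2 fun n hn => by simp [hV n hn], hg] at e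
    obtain ⟨d, hd⟩ := (χ_eq_one d0).1 (by simpa [Prod.ext_iff] using e.symm)
    obtain ⟨g', h1, h2, -, h3⟩ := φ.var2 g w (a := (d⁻¹ - 1) • x) (hV _ (φ.N_mem _ _))
    refine ⟨g', h1, h2, ?_⟩
    have : d ≠ 0 := by rintro rfl; simp [hd] at d0
    rw [h3, map_smul, smul_dotProduct, hx, hd]
    simp; field_simp
  obtain ⟨g₁, h1, h2, h3, y, hy⟩ : ∃ g₁, IsConj g g₁ ∧ φ.s g₁ = φ.s g ∧
      LinearMap.det (φ.l g₁) = LinearMap.det (φ.l g) ∧ ∃ y, φ.N g₁ y ≠ 0 := by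
    by_contra! t
    obtain ⟨n, hn, n0⟩ := hV
    obtain ⟨g', h1, h2, -, h3, h4⟩ := φ.var1 g x hn
    have := t g (.refl _) rfl rfl
    exact n0 (by simpa [h3, this, hx] using t g' h1 h2 (by simp [h4, this]) w)
  have q : ∀ {a}, a ∈ φ.V₀ → a ≠ 0 → Q a ≠ 0 := fun h1 h2 h3 => h2 (an' h1 h3)
  have y0 := q (φ.N_mem _ _) hy
  obtain ⟨v, hv, v0, k⟩ : ∃ v ∈ φ.V₀, Q v ≠ 0 ∧
      χ (LinearMap.det (φ.l g)) * (χ (Q (φ.N g₁ y)) * χ (Q v)) = 1 := by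
    rcases χ_or d0 with t | t
    · exact ⟨_, φ.N_mem _ _, y0, by rw [t, χ_mul_self y0, one_mul]⟩
    rw [hg, t] at e
    rcases φ.M_cases hh with rfl | ⟨a, ha, a0, rfl⟩ | ⟨a, ha, b, hb, li, rfl⟩
    · simp [Prod.ext_iff] at e
    · simp [Prod.ext_iff, ab_refl _ _ (q ha a0)] at e
    have a0 := q ha (li.ne_zero 0)
    have b0 := q hb (li.ne_zero 1)
    simp only [map_mul, ab_refl _ _ a0, ab_refl _ _ b0, Prod.ext_iff, Prod.mk_mul_mk] at e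
    by_cases z : χ (Q (φ.N g₁ y)) * χ (Q a) = -1
    · exact ⟨a, ha, a0, by simp [t, z]⟩
    · refine ⟨b, hb, b0, ?_⟩
      rcases χ_or a0 with i | i <;> rcases χ_or b0 with j | j <;> rcases χ_or y0 with k | k <;>
        simp only [i, j, k, t] at e z ⊢ <;> simp at e z ⊢
  rw [← map_mul, ← map_mul, χ_eq_one (by simp [d0, y0, v0])] at k
  obtain ⟨d, hd⟩ := k
  have : d ≠ 0 := by rintro rfl; simp [d0, y0, v0] at hd
  obtain ⟨g', h4, h5, -, -, h6⟩ := φ.var1 g₁ y (n := d⁻¹ • v - (Q (φ.N g₁ y))⁻¹ • φ.N g₁ y)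
    (sub_mem (φ.V₀.smul_mem _ hv) (φ.V₀.smul_mem _ (φ.N_mem _ _)))
  refine ⟨g', h1.trans h4, h5.trans h2, ?_⟩
  rw [h6, h3]
  qsimp
  rw [polar_comm Q v]
  field_simp
  linear_combination hd

omit hQ in
theorem exists_ker_N : ∃ a ≠ 0, φ.N g a = 0 := by
  by_contra! t
  have := LinearMap.finrank_le_finrank_of_injective (f := (φ.N g).codRestrict φ.V₀ (φ.N_mem g))
    ((injective_iff_map_eq_zero _).2 fun a ha => by_contra fun h => t a h (congrArg Subtype.val ha))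
  have := φ.finrank_V₀
  simp at *; omega

omit hQ in
theorem exists_nonscalar (hd : LinearMap.det (φ.l g) = 1) (hs : φ.s g ≠ 0) :
    ∃ g', IsConj g g' ∧ LinearMap.det (φ.l g') = 1 ∧ ¬ ∃ c : F, ∀ x, φ.l g' x = c • x := by
  by_cases h : ∃ c : F, ∀ x, φ.l g x = c • x
  swap
  · exact ⟨g, .refl _, hd, h⟩
  obtain ⟨c, hc⟩ := h
  have hl : Function.Injective (φ.l g) := (φ.l g).isUnit_iff_ker_eq_bot.1
    ((φ.l g).isUnit_iff_isUnit_det.2 (hd ▸ isUnit_one)) |> LinearMap.ker_eq_bot.1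
  obtain ⟨a, a0, ha⟩ := φ.exists_ker_N hm (g := g)
  obtain ⟨x, w, h1, h2⟩ : ∃ x w, φ.l g a ⬝ᵥ φ.s g x = 0 ∧
      (φ.l g a ⬝ᵥ φ.s g w) • x ≠ (φ.l g x ⬝ᵥ φ.s g w) • a := by
    by_cases t : ∀ w, φ.l g a ⬝ᵥ φ.s g w = 0
    · obtain ⟨w, x, hx⟩ := φ.exists_dot hl hs
      exact ⟨x, w, t x, by simpa [t, hx] using a0.symm⟩
    push Not at t
    obtain ⟨w, hw⟩ := t
    by_contra! t
    let f : (Fin (m + 1) → F) →ₗ[F] F := dotProductBilin F F (φ.l g a) ∘ₗ φ.s g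
    have := Submodule.finrank_mono (s := LinearMap.ker f) (t := Submodule.span F {a}) fun x hx =>
      Submodule.mem_span_singleton.2 ⟨_, by rw [mul_smul, ← t x w hx, inv_smul_smul₀ hw]⟩
    have := finrank_span_singleton_le (F := F) a
    have := f.finrank_range_add_finrank_ker
    have := (LinearMap.range f).finrank_le
    simp at *; omega
  obtain ⟨g', k1, -, k2, k3⟩ := φ.var2 g x ha
  refine ⟨g', k1, by simp [k3, hd, h1], fun ⟨d, k⟩ => h2 ?_⟩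
  have := (k a).symm.trans (k2 a)
  rw [φ.ls, φ.ls' g x a, h1, ha] at this
  obtain rfl : d = c := smul_left_injective F a0 (by simpa [hc] using this)
  have := hl ((k2 w).symm.trans ((k w).trans (hc w).symm))
  rwa [add_sub_assoc, add_eq_left, sub_eq_zero] at this

theorem exists_good (hn : 3 ≤ finrank F V) (hg : ab hQ hE g = 1) (h1 : g ≠ 1) (h2 : g ≠ negO Q) :
    ∃ g', IsConj g g' ∧ φ.s g' ≠ 0 ∧ LinearMap.det (φ.l g') = 1 := by
  have : Nontrivial (Fin (m + 1)) := Fin.nontrivial_iff_two_le.2 (by omega)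
  obtain ⟨g₁, a1, a2⟩ := φ.exists_s_ne g hQ hn h1 h2
  obtain ⟨g₂, b1, b2, b3⟩ := φ.exists_inj hQ hE hm (ab_conj hQ hE a1 ▸ hg)
  obtain ⟨g₃, c1, c2, c3⟩ := φ.exists_det hQ hE hm (ab_conj hQ hE (a1.trans b1) ▸ hg) b3 (b2 ▸ a2)
  exact ⟨g₃, (a1.trans b1).trans c1, c2 ▸ b2 ▸ a2, c3⟩

include φ in
theorem cmD_generic (hq : Fintype.card F = 2 → 3 ≤ m) (hn : 3 ≤ finrank F V) (hg : ab hQ hE g = 1)
    (h1 : g ≠ 1) (h2 : g ≠ negO Q) : CmD g := by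
  obtain ⟨g₁, a1, a2, a3⟩ := φ.exists_good hQ hE hm hn hg h1 h2
  obtain ⟨g₂, b1, b2, b3⟩ := φ.exists_nonscalar hm a3 a2
  exact .of_isConj (a1.trans b1) (φ.main_case hQ hE hm hq (ab_conj hQ hE (a1.trans b1) ▸ hg)
    (l := LinearMap.equivOfIsUnitDet (b2 ▸ isUnit_one : IsUnit (LinearMap.det (φ.l g₂))))
    (fun _ => by simp [l]) (by simpa using b2) (by simpa using b3))

end Fr

end Cfsg.Lib.Known.OC
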