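import Cfsg.Prelude.Def_CaseTheorems
import Cfsg.Agent.Spor.O7920D
import Cfsg.Agent.Spor.M24Sub

/-!
Two small configurations of elements; `E1` occurs in `PSL₃(q)` (`q` odd) and `M₁₁`, `E2` occurs in
`A₇` and in `PSU₃(q)` (`q ≡ 1 mod 4`).
-/

set_option autoImplicit false

namespace Cfsg.Lib.Known.OvalCfg

open Matrix Equiv

/-- `ρ` is centralized by `σ` and `c`, inverted by `τ`; `σ` does not commute with `c σ c⁻¹`. -/
def E1 (G : Type*) [Group G] : Prop :=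
  ∃ ρ σ τ c : G, σ * σ = 1 ∧ τ * τ = 1 ∧ σ * τ = τ * σ ∧ σ * ρ = ρ * σ ∧ τ * ρ * τ = ρ⁻¹ ∧
    ρ * ρ ≠ 1 ∧ c * ρ = ρ * c ∧ σ * (c * σ * c⁻¹) ≠ (c * σ * c⁻¹) * σ

/-- `ρ` of odd prime order centralizes the four-group `⟨σ₁, σ₃⟩` and is inverted by `τ`, which
commutes with `σ₃`. -/
def E2 (G : Type*) [Group G] : Prop :=
  ∃ (r : ℕ) (ρ σ₁ σ₃ τ : G), r.Prime ∧ r ≠ 2 ∧ ρ ^ r = 1 ∧ ρ ≠ 1 ∧ σ₁ * σ₁ = 1 ∧ σ₃ * σ₃ = 1 ∧
    σ₁ ≠ 1 ∧ σ₃ ≠ 1 ∧ σ₁ ≠ σ₃ ∧ σ₁ * σ₃ = σ₃ * σ₁ ∧ ρ * σ₁ = σ₁ * ρ ∧ ρ * σ₃ = σ₃ * ρ ∧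
    τ * τ = 1 ∧ τ * ρ * τ = ρ⁻¹ ∧ τ * σ₃ = σ₃ * τ

theorem E1.of_equiv {G K : Type*} [Group G] [Group K] (e : G ≃* K) (h : E1 K) : E1 G := by
  obtain ⟨a, b, c, d, h⟩ := h
  refine ⟨e.symm a, e.symm b, e.symm c, e.symm d, ?_⟩
  simpa only [← map_mul, ← map_inv, ne_eq, map_eq_one_iff _ e.symm.injective,
    EmbeddingLike.apply_eq_iff_eq] using h

theorem E2.of_equiv {G K : Type*} [Group G] [Group K] (e : G ≃* K) (h : E2 K) : E2 G := by
  obtain ⟨r, a, b, c, d, h⟩ := h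
  refine ⟨r, e.symm a, e.symm b, e.symm c, e.symm d, ?_⟩
  simpa only [← map_mul, ← map_inv, ← map_pow, ne_eq, map_eq_one_iff _ e.symm.injective,
    EmbeddingLike.apply_eq_iff_eq] using h

theorem two_ne_zero_of_odd (F : Type) [Field F] [Fintype F] (h : Odd (Fintype.card F)) :
    (2 : F) ≠ 0 :=
  Ring.two_ne_zero fun e => by
    have := FiniteField.even_card_of_char_two e
    rw [Nat.odd_iff] at h
    omega

theorem e1_PSL3 (F : Type) [Field F] [Fintype F] (h : Odd (Fintype.card F)) :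
    E1 (Matrix.ProjectiveSpecialLinearGroup (Fin 3) F) := by
  have h2 := two_ne_zero_of_odd F h
  obtain ⟨a, ha⟩ : ∃ a : SpecialLinearGroup (Fin 3) F, a.1 = !![1, 0, 1; 0, 1, 0; 0, 0, 1] :=
    ⟨⟨_, by simp [det_fin_three]⟩, rfl⟩
  obtain ⟨s, hs⟩ : ∃ a : SpecialLinearGroup (Fin 3) F, a.1 = !![-1, 0, 0; 0, 1, 0; 0, 0, -1] :=
    ⟨⟨_, by simp [det_fin_three]⟩, rfl⟩
  obtain ⟨t, ht⟩ : ∃ a : SpecialLinearGroup (Fin 3) F, a.1 = !![-1, 0, 0; 0, -1, 0; 0, 0, 1] :=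
    ⟨⟨_, by simp [det_fin_three]⟩, rfl⟩
  obtain ⟨c, hc⟩ : ∃ a : SpecialLinearGroup (Fin 3) F, a.1 = !![1, 1, 0; 0, 1, 0; 0, 0, 1] :=
    ⟨⟨_, by simp [det_fin_three]⟩, rfl⟩
  have hn : ∀ (x : SpecialLinearGroup (Fin 3) F) (j : Fin 3), 0 ≠ j → x.1 0 j ≠ 0 →
      (x : ProjectiveSpecialLinearGroup (Fin 3) F) ≠ 1 := fun x j hj hx h => by
    obtain ⟨r, -, hr⟩ := Matrix.SpecialLinearGroup.mem_center_iff.1 ((QuotientGroup.eq_one_iff x).1 h)
    simp [← hr, hj] at hx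
  have ss : s * s = 1 := Subtype.ext (by simp [hs, one_fin_three])
  have cs : c⁻¹ = s * c * s := inv_eq_of_mul_eq_one_right (Subtype.ext (by simp [hs, hc, one_fin_three]))
  refine ⟨a, s, t, c, ?_, ?_, ?_, ?_, eq_inv_of_mul_eq_one_left ?_,
    hn (a * a) 2 (by decide) (by simpa [ha, one_add_one_eq_two] using h2), ?_, fun e => ?_⟩
  rotate_right
  · refine hn (s * (c * s * c⁻¹) * (s * (c * s * c⁻¹))) 1 (by decide) ?_ ?_
    · simpa [cs, hs, hc, show (-1 + -1 + (-1 + -1) : F) = -(2 * 2) by ring] using h2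
    · simp only [QuotientGroup.mk_mul, QuotientGroup.mk_inv]
      nth_rewrite 2 [e]
      rw [mul_assoc, ← mul_assoc (_ * _ * _), conj_mul, ← QuotientGroup.mk_mul, ss]
      simp [← QuotientGroup.mk_mul, ss]
  all_goals
    simp only [← QuotientGroup.mk_mul, ← QuotientGroup.mk_one]
    exact congrArg _ (Subtype.ext (by simp [ha, hs, ht, hc, one_fin_three]))

open Cfsg.Lib.Spor Cfsg.Lib.Spor.MP in
theorem e1_M11 {G : Type*} [Group G] [Finite G] (hG : Cfsg.IsM11 G) : E1 G := by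
  have := hG.1
  obtain ⟨e⟩ := O7920.isoM11 hG.2
  have a := inSub_of_isM11 (t := 984534996141977609297800625156032544) (by decide +kernel)
  have s := inSub_of_isM11 (t := 944399194160754855699880035276293184) (by decide +kernel)
  have t := inSub_of_isM11 (t := 944538627742660781242037951888164896) (by decide +kernel)
  have c := inSub_of_isM11 (t := 928952864966028496604741530750814240) (by decide +kernel)
  exact E1.of_equiv e ⟨⟨_, a.2⟩, ⟨_, s.2⟩, ⟨_, t.2⟩, ⟨_, c.2⟩,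
    Subtype.ext ((s.rep.mul s.rep).eq_of_peq rep_one (by decide +kernel)),
    Subtype.ext ((t.rep.mul t.rep).eq_of_peq rep_one (by decide +kernel)),
    Subtype.ext ((s.rep.mul t.rep).eq_of_peq (t.rep.mul s.rep) (by decide +kernel)),
    Subtype.ext ((s.rep.mul a.rep).eq_of_peq (a.rep.mul s.rep) (by decide +kernel)),
    Subtype.ext (((t.rep.mul a.rep).mul t.rep).eq_of_peq a.rep.inv (by decide +kernel)),
    fun h => (a.rep.mul a.rep).ne_of_peq rep_one (by decide +kernel) (congrArg Subtype.val h),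
    Subtype.ext ((c.rep.mul a.rep).eq_of_peq (a.rep.mul c.rep) (by decide +kernel)),
    fun h => (s.rep.mul (c.rep.conj s.rep)).ne_of_peq ((c.rep.conj s.rep).mul s.rep)
      (by decide +kernel) (congrArg Subtype.val h)⟩

theorem e2_A7 : E2 (alternatingGroup (Fin 7)) :=
  ⟨3, ⟨swap 0 1 * swap 1 2, by simp⟩, ⟨swap 3 5 * swap 4 6, by simp⟩,
    ⟨swap 3 4 * swap 5 6, by simp⟩, ⟨swap 0 1 * swap 3 4, by simp⟩, Nat.prime_three,
    by decide +kernel⟩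

theorem e2_PSU3 (F : Type) [Field F] [Fintype F] (q : ℕ) (hF : Fintype.card F = q ^ 2)
    (hq : q % 4 = 1) : E2 (Cfsg.PSU 3 F q) := by
  classical
  have ho : Odd q := by rw [Nat.odd_iff]; omega
  have h2 := two_ne_zero_of_odd F (hF ▸ ho.pow)
  have h1 : q ≠ 1 := fun e => Fintype.one_lt_card.ne' (hF.trans (by rw [e]; rfl))
  obtain ⟨r, hr, k, hk⟩ := Nat.exists_prime_and_dvd (n := (q + 1) / 2) (by omega)
  have r2 : r ≠ 2 := by rintro rfl; omega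
  have := Fact.mk hr
  obtain ⟨x, hx⟩ := exists_prime_orderOf_dvd_card (G := Fˣ) r (by
    rw [Fintype.card_units, hF, ← one_pow 2, Nat.sq_sub_sq, show q + 1 = r * (2 * k) by
      rw [mul_left_comm]; omega, mul_assoc]
    exact dvd_mul_right _ _)
  have xr : (x : F) ^ r = 1 := by rw [← Units.val_pow_eq_pow_val, ← hx, pow_orderOf_eq_one, Units.val_one]
  have xq : (x : F) ^ q = (x : F)⁻¹ := eq_inv_of_mul_eq_one_left (by
    rw [← pow_succ, show q + 1 = r * (2 * k) by rw [mul_left_comm]; omega, pow_mul, xr, one_pow])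
  let μ : SU 3 F q →* Matrix (Fin 3) (Fin 3) F := (slToMat 3 F).comp (Subgroup.subtype _)
  have hμ : Function.Injective μ := Subtype.val_injective.comp Subtype.val_injective
  have hm : ∀ {g : SpecialLinearGroup (Fin 3) F},
      (∀ u v, hermForm 3 F q (g.1 *ᵥ u) (g.1 *ᵥ v) = hermForm 3 F q u v) → g ∈ SU 3 F q := id
  obtain ⟨a, ha⟩ : ∃ g, μ g = !![x.1, 0, 0; 0, x.1⁻¹, 0; 0, 0, 1] :=
    ⟨⟨⟨!![x.1, 0, 0; 0, x.1⁻¹, 0; 0, 0, 1], by simp [det_fin_three]⟩, hm fun u v => by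
      simp [hermForm, Fin.sum_univ_three, vecHead, vecTail, mul_pow, xq]
      field_simp⟩, rfl⟩
  obtain ⟨b, hb⟩ : ∃ g, μ g = !![1, 0, 0; 0, -1, 0; 0, 0, -1] :=
    ⟨⟨⟨!![1, 0, 0; 0, -1, 0; 0, 0, -1], by simp [det_fin_three]⟩, hm fun u v => by
      simp [hermForm, Fin.sum_univ_three, vecHead, vecTail, ho.neg_pow]⟩, rfl⟩
  obtain ⟨c, hc⟩ : ∃ g, μ g = !![-1, 0, 0; 0, -1, 0; 0, 0, 1] :=
    ⟨⟨⟨!![-1, 0, 0; 0, -1, 0; 0, 0, 1], by simp [det_fin_three]⟩, hm fun u v => by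
      simp [hermForm, Fin.sum_univ_three, vecHead, vecTail, ho.neg_pow]⟩, rfl⟩
  obtain ⟨t, ht⟩ : ∃ g, μ g = !![0, -1, 0; -1, 0, 0; 0, 0, -1] :=
    ⟨⟨⟨!![0, -1, 0; -1, 0, 0; 0, 0, -1], by simp [det_fin_three]⟩, hm fun u v => by
      simp [hermForm, Fin.sum_univ_three, vecHead, vecTail, ho.neg_pow]; ring⟩, rfl⟩
  obtain ⟨p, hp⟩ : ∃ g, μ g = !![0, 0, 1; 1, 0, 0; 0, 1, 0] :=
    ⟨⟨⟨!![0, 0, 1; 1, 0, 0; 0, 1, 0], by simp [det_fin_three]⟩, hm fun u v => by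
      simp [hermForm, Fin.sum_univ_three, vecHead, vecTail]; ring⟩, rfl⟩
  have hn : ∀ g : SU 3 F q, μ (p * g) ≠ μ (g * p) → (g : PSU 3 F q) ≠ 1 := fun g hg h =>
    hg (congrArg μ (Subgroup.mem_center_iff.1 ((QuotientGroup.eq_one_iff g).1 h) p))
  have h3 : (1 : F) ≠ -1 := fun e => h2 (by linear_combination e)
  have ar : ∀ n : ℕ, μ (a ^ n) = !![x.1 ^ n, 0, 0; 0, x.1⁻¹ ^ n, 0; 0, 0, 1] := fun n => by
    induction n with
    | zero => simp [one_fin_three]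
    | succ n ih => rw [pow_succ, map_mul, ih, ha]; simp [pow_succ, mul_comm]
  have cc : c * c = 1 := hμ (by simp [hc, one_fin_three])
  refine ⟨r, a, b, c, t, hr, r2, ?_, hn _ fun e => ?_, ?_, ?_, hn _ fun e => ?_, hn _ fun e => ?_,
    fun e => hn (b * c) (fun e => ?_) (by rw [QuotientGroup.mk_mul, e, ← QuotientGroup.mk_mul, cc]; rfl),
    ?_, ?_, ?_, ?_, eq_inv_of_mul_eq_one_left ?_, ?_⟩
  · rw [← QuotientGroup.mk_pow, show a ^ r = 1 from hμ (by simp [ar, xr, one_fin_three])]; rfl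
  · have : (1 : F) = x := by simpa [ha, hp] using congrArg (· 0 2) e
    rw [show x = 1 from Units.ext this.symm, orderOf_one] at hx
    exact hr.one_lt.ne hx
  rotate_left 2
  · exact h3 (by simpa [hb, hp] using congrArg (· 1 0) e)
  · exact h3 (by simpa [hc, hp] using congrArg (· 0 2) e)
  · exact h3 (by simpa [hb, hc, hp] using congrArg (· 2 1) e)
  all_goals
    simp only [← QuotientGroup.mk_mul, ← QuotientGroup.mk_one]
    exact congrArg _ (hμ (by simp [ha, hb, hc, ht, one_fin_three]))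

end Cfsg.Lib.Known.OvalCfg
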