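import Cfsg.Agent.Known.PSL2Klein
import Cfsg.Agent.Known.SL2Unip

/-!
# Pairs of involutions of `PSL₂(q)` with product of odd order
-/

set_option autoImplicit false

namespace Cfsg.Lib.Known.GL2

open Matrix Polynomial

variable {F : Type*} [Field F]

theorem exists_ne_zero_quadratic [Fintype F] (hq : 3 < Fintype.card F) (a b : F) :
    ∃ r : F, r ≠ 0 ∧ r ^ 2 + a * r + b ≠ 0 := by
  have h0 : (C 1 * X ^ 3 + C a * X ^ 2 + C b * X + C 0 : F[X]).natDegree = 3 :=
    natDegree_cubic one_ne_zero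
  obtain ⟨r, hr⟩ := exists_eval_ne_zero_of_natDegree_lt_card
    (C 1 * X ^ 3 + C a * X ^ 2 + C b * X + C 0 : F[X]) (fun h => by rw [h] at h0; simp at h0)
    (by rw [h0, Cardinal.mk_fintype]; exact_mod_cast hq)
  simp only [eval_add, eval_mul, eval_C, eval_pow, eval_X] at hr
  exact ⟨r, fun h => hr (by simp [h]), fun h => hr (by linear_combination r * h)⟩

theorem exists_pair_isSquare [Fintype F] (h2 : (2 : F) ≠ 0) (hm : ¬ IsSquare (-1 : F))
    (hq : 3 < Fintype.card F) {τ : F} (hτ : τ ^ 2 ≠ 4) : ∃ u v : F, u ≠ 0 ∧ v ≠ 0 ∧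
      IsSquare (u * v) ∧ IsSquare (-((u ^ 2 + τ * u + 1) * (v ^ 2 + τ * v + 1))) := by
  classical
  by_contra H
  push Not at H
  let χ := quadraticChar F
  have hm' : χ (-1) = -1 := quadraticChar_neg_one_iff_not_isSquare.2 hm
  have H' : ∀ u v : F, u ≠ 0 → v ≠ 0 → χ u = χ v →
      χ (u ^ 2 + τ * u + 1) * χ (v ^ 2 + τ * v + 1) = 1 := by
    intro u v hu hv h
    have h1 := quadraticChar_neg_one_iff_not_isSquare.2 (H u v hu hv
      ((quadraticChar_one_iff_isSquare (mul_ne_zero hu hv)).1 (by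
        rw [map_mul, ← h, ← sq, quadraticChar_sq_one hu])))
    rw [neg_eq_neg_one_mul, map_mul, map_mul, hm'] at h1
    linear_combination -h1
  have hne : ∀ u : F, u ≠ 0 → u ^ 2 + τ * u + 1 ≠ 0 := fun u hu h => by
    have := H' u u hu hu rfl
    rw [h, MulChar.map_zero, mul_zero] at this
    exact zero_ne_one this
  obtain ⟨u, hu, hu'⟩ : ∃ u : F, u ≠ 0 ∧ χ (u ^ 2 + τ * u + 1) = 1 := by
    obtain ⟨r, hr, hr'⟩ := exists_ne_zero_quadratic hq (-2 * τ) (τ ^ 2 - 4)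
    have h4 : (r ^ 2 + -2 * τ * r + (τ ^ 2 - 4)) / (2 * 2 * r) ≠ 0 :=
      div_ne_zero hr' (mul_ne_zero (mul_ne_zero h2 h2) hr)
    refine ⟨_, h4, (quadraticChar_one_iff_isSquare (hne _ h4)).2
      ⟨(r ^ 2 - (τ ^ 2 - 4)) / (2 * 2 * r), ?_⟩⟩
    field_simp
    ring
  obtain ⟨v, hv, hv'⟩ : ∃ v : F, v ≠ 0 ∧ χ (v ^ 2 + τ * v + 1) = -1 := by
    obtain ⟨a, b, h⟩ := exists_norm_eq (t := (0 : F)) (d := 1)
      (by rw [sq, zero_mul, zero_sub, neg_ne_zero, mul_one, show (4 : F) = 2 * 2 by norm_num]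
          exact mul_ne_zero h2 h2) (τ ^ 2 - 4)
    have e : ((a - τ) / 2) ^ 2 + τ * ((a - τ) / 2) + 1 = -1 * (b / 2) ^ 2 := by
      field_simp
      linear_combination h
    have h0 : (a - τ) / 2 ≠ 0 := fun h' => hm ⟨b / 2, by rw [h'] at e; linear_combination -e⟩
    refine ⟨_, h0, ?_⟩
    have := hne _ h0
    rw [e] at this ⊢
    rw [map_mul, hm', quadraticChar_sq_one' (fun h' => this (by rw [h']; simp)), mul_one]
  have key : ∀ a b : F, a ≠ 0 → b ≠ 0 → a ^ 2 + τ * a + 1 = b ^ 2 + τ * b + 1 → χ a = χ b := by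
    intro a b ha hb h
    have e1 := H' u v hu hv
    have e2 := H' u a hu ha
    have e3 := H' u b hu hb
    have e4 := H' v a hv ha
    have e5 := H' v b hv hb
    rw [h] at e2 e4
    rw [hu'] at e1 e2 e3
    rw [hv'] at e1 e4 e5
    have a1 : χ u = 1 ∨ χ u = -1 := quadraticChar_dichotomy hu
    have a2 : χ v = 1 ∨ χ v = -1 := quadraticChar_dichotomy hv
    have a3 : χ a = 1 ∨ χ a = -1 := quadraticChar_dichotomy ha
    have a4 : χ b = 1 ∨ χ b = -1 := quadraticChar_dichotomy hb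
    omega
  by_cases h0 : τ = 0
  · have := key 1 (-1) one_ne_zero (neg_ne_zero.2 one_ne_zero) (by rw [h0]; ring)
    rw [hm', map_one] at this
    omega
  · obtain ⟨s, hs, hs'⟩ := exists_ne_zero_quadratic hq 0 (-1)
    rw [zero_mul, add_zero] at hs'
    have h1 := key (τ / (s ^ 2 + -1)) (-1 * s ^ 2 * (τ / (s ^ 2 + -1))) (div_ne_zero h0 hs')
      (mul_ne_zero (mul_ne_zero (by simp) (pow_ne_zero _ hs)) (div_ne_zero h0 hs'))
      (by field_simp; ring)
    rw [map_mul, map_mul, hm', quadraticChar_sq_one' hs] at h1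
    rcases quadraticChar_dichotomy (div_ne_zero h0 hs') with h | h <;>
      simp only [χ, h] at h1 <;> omega

theorem exists_trace_zero_of_isSquare {i j : SL2 F} (hi : ((slLin F).ρ i).trace = 0)
    (hj : ((slLin F).ρ j).trace = 0) (hτ : ((slLin F).ρ (i * j)).trace ^ 2 ≠ 4) {a b : F}
    (h : IsSquare (4 - ((slLin F).ρ (i * j)).trace ^ 2 - a ^ 2 - b ^ 2 -
      ((slLin F).ρ (i * j)).trace * a * b)) :
    ∃ k : SL2 F, ((slLin F).ρ k).trace = 0 ∧ ((slLin F).ρ (i * k)).trace = a ∧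
      ((slLin F).ρ (k * j)).trace = b := by
  obtain ⟨w, hw⟩ := h
  have d1 := det_SL' i
  have d2 := det_SL' j
  have hτ' := sub_ne_zero.2 hτ
  set τ := ((slLin F).ρ (i * j)).trace with e
  rw [map_mul, trace_fin_two, mul00, mul11] at e
  rw [trace_fin_two, add_eq_zero_iff_neg_eq] at hi hj
  have hd : (((2 * a + τ * b) / (τ ^ 2 - 4)) • (slLin F).ρ i + ((τ * a + 2 * b) / (τ ^ 2 - 4)) •
      (slLin F).ρ j + (w / (τ ^ 2 - 4)) • ((slLin F).ρ i * (slLin F).ρ j -
        (slLin F).ρ j * (slLin F).ρ i)).det = 1 := by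
    have gen : ∀ α β γ : F, (α • (slLin F).ρ i + β • (slLin F).ρ j + γ •
        ((slLin F).ρ i * (slLin F).ρ j - (slLin F).ρ j * (slLin F).ρ i)).det =
        α ^ 2 + β ^ 2 - α * β * τ + γ ^ 2 * (4 - τ ^ 2) := by
      intro α β γ
      rw [det_fin_two, e]
      simp only [Matrix.add_apply, Matrix.smul_apply, Matrix.sub_apply, mul00, mul01, mul10, mul11,
        smul_eq_mul]
      rw [← hi] at d1 ⊢
      rw [← hj] at d2 ⊢
      linear_combination (α ^ 2 + 4 * γ ^ 2) * d1 + (β ^ 2 + 4 * γ ^ 2 * (-(slLin F).ρ i 0 0 ^ 2 -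
        (slLin F).ρ i 0 1 * (slLin F).ρ i 1 0)) * d2
    rw [gen]
    field_simp
    linear_combination (τ ^ 2 - 4) * hw
  refine ⟨(slLin F).mk1 _ hd, ?_, ?_, ?_⟩
  · rw [Lin2.ρ_mk1, trace_add, trace_add, trace_smul, trace_smul, trace_smul, trace_sub,
      trace_mul_comm, sub_self, trace_fin_two, trace_fin_two, ← hi, ← hj]
    simp
  · rw [map_mul, Lin2.ρ_mk1, trace_fin_two]
    simp only [Matrix.add_apply, Matrix.smul_apply, Matrix.sub_apply, mul00, mul01, mul10, mul11,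
      smul_eq_mul]
    rw [← hi] at d1 e ⊢
    rw [← hj] at e ⊢
    field_simp
    linear_combination (-2 * (2 * a + τ * b)) * d1 - (τ * a + 2 * b) * e
  · rw [map_mul, Lin2.ρ_mk1, trace_fin_two]
    simp only [Matrix.add_apply, Matrix.smul_apply, Matrix.sub_apply, mul00, mul01, mul10, mul11,
      smul_eq_mul]
    rw [← hi] at e ⊢
    rw [← hj] at d2 e ⊢
    field_simp
    linear_combination (-2 * (τ * a + 2 * b)) * d2 - (2 * a + τ * b) * e

theorem odd_orderOf_piSL_of_disc [Finite F] (h2 : (2 : F) ≠ 0) {g : SL2 F}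
    (h : ((slLin F).ρ g).trace ^ 2 = 4) : Odd (orderOf (piSL F g)) := by
  by_cases hg : g ∈ (slLin F).Z
  · rw [piSL_eq_one_iff.2 hg, orderOf_one]; exact odd_one
  obtain ⟨p, hp⟩ := CharP.exists F
  have := Fact.mk (CharP.char_is_prime F p)
  obtain ⟨z, hz, b, hb, h'⟩ := exists_isConj_Z_mul_u (slLin F) hg (by rw [disc_SL, h, sub_self])
  rw [← orderOf_eq_of_isConj (isConj_piSL_iff.2 (Or.inl h')), orderOf_piSL_Z_mul_u p hz hb]
  refine this.out.odd_of_ne_two ?_
  rintro rfl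
  exact h2 (CharP.cast_eq_zero F 2)

theorem odd_orderOf_piSL_of_not_isEll [Fintype F] (hq : Fintype.card F % 4 = 3) {g : SL2 F}
    (h : ¬ IsEll ((slLin F).ρ g)) : Odd (orderOf (piSL F g)) := by
  have h2 : (2 : F) ≠ 0 := two_ne_zero_of_odd (Nat.odd_iff.2 (by omega))
  by_cases hd : disc ((slLin F).ρ g) = 0
  · exact odd_orderOf_piSL_of_disc h2 (by rwa [disc_SL, sub_eq_zero] at hd)
  obtain ⟨t, ht, -, h'⟩ := ((slLin F).isConj_T_or_isEll hd).resolve_right h
  rw [← orderOf_eq_of_isConj (isConj_piSL_iff.2 (Or.inl h'))]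
  have := orderOf_piSL_dvd_of_mem (slLin F).Z_le_T ht
  rw [card_T_SL, ← card_Z_SL_eq_gcd, card_Z_SL h2] at this
  exact Odd.of_dvd_nat (Nat.odd_iff.2 (by omega)) this

theorem odd_orderOf_piSL_char_two [Fintype F] (h2 : (2 : F) = 0) {g : SL2 F}
    (h : ((slLin F).ρ g).trace ≠ 0) : Odd (orderOf (piSL F g)) := by
  have hd : disc ((slLin F).ρ g) ≠ 0 := fun h' => h (pow_eq_zero_iff two_ne_zero |>.1 (by
    rw [disc_SL] at h'; linear_combination h' + 2 * h2))
  have h1 := Nat.even_iff.1 (even_card_of_two_eq_zero h2)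
  have h3 := Fintype.one_lt_card (α := F)
  have h4 := (orderOf_map_dvd (piSL F) g).trans (Subgroup.orderOf_dvd_natCard _
    (Subgroup.mem_centralizer_singleton_iff.2 (rfl : g * g = g * g)))
  rcases (centralizer_SL_cases hd).2 with ⟨-, e⟩ | ⟨-, e⟩ <;> rw [e] at h4 <;>
    exact Odd.of_dvd_nat (Nat.odd_iff.2 (by omega)) h4

theorem exists_odd_orderOf_mul [Fintype F] (hq : 4 ≤ Fintype.card F) {x y : PSL2 F}
    (hx : orderOf x = 2) (hy : orderOf y = 2) :
    ∃ z : PSL2 F, orderOf z = 2 ∧ Odd (orderOf (x * z)) ∧ Odd (orderOf (z * y)) := by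
  obtain ⟨i, rfl⟩ := piSL_surjective x
  obtain ⟨j, rfl⟩ := piSL_surjective y
  obtain ⟨hi', hi⟩ := orderOf_piSL_eq_two_iff.1 hx
  obtain ⟨hj', hj⟩ := orderOf_piSL_eq_two_iff.1 hy
  by_cases h2 : (2 : F) = 0
  · have n : ∀ {i : SL2 F}, i ∉ (slLin F).Z → ((slLin F).ρ i).trace = 0 →
        ¬ ((slLin F).ρ i 0 1 = 0 ∧ (slLin F).ρ i 1 0 = 0) := fun {i} h ht h' => h ⟨h'.1, h'.2, by
      rw [trace_fin_two] at ht; linear_combination ht - (slLin F).ρ i 1 1 * h2⟩
    obtain ⟨b, c, h3, h4⟩ : ∃ b c : F, (slLin F).ρ i 0 1 * c + (slLin F).ρ i 1 0 * b ≠ 0 ∧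
        (slLin F).ρ j 0 1 * c + (slLin F).ρ j 1 0 * b ≠ 0 := by
      have n1 := n hi' hi
      have n2 := n hj' hj
      by_contra H
      push Not at H
      have a1 := H 1 0
      have a2 := H 0 1
      have a3 := H 1 1
      simp only [mul_zero, mul_one, zero_add, add_zero] at a1 a2 a3
      grind
    obtain ⟨a, ha⟩ := FiniteField.isSquare_of_char_two (by
      by_contra h; exact (Ring.two_ne_zero h) h2) (1 + b * c)
    have hd : (!![a, b; c, a] : M2 F).det = 1 := by rw [det_fin_two_of, ← ha]; ring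
    rw [trace_fin_two] at hi hj
    refine ⟨piSL F ((slLin F).mk1 _ hd), orderOf_piSL_eq_two_iff.2 ⟨fun h => h3 ?_, ?_⟩, ?_, ?_⟩
    · rw [Lin2.mem_Z, Lin2.ρ_mk1] at h
      rw [show b = 0 from h.1, show c = 0 from h.2.1]; simp
    · rw [Lin2.ρ_mk1, trace_fin_two_of, ← two_mul, h2, zero_mul]
    · rw [← map_mul]
      refine odd_orderOf_piSL_char_two h2 fun h => h3 ?_
      rw [map_mul, Lin2.ρ_mk1, trace_fin_two, mul00, mul11] at h
      simp at h
      linear_combination h - a * hi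
    · rw [← map_mul]
      refine odd_orderOf_piSL_char_two h2 fun h => h4 ?_
      rw [map_mul, Lin2.ρ_mk1, trace_fin_two, mul00, mul11] at h
      simp at h
      linear_combination h - a * hj
  by_cases hτ : ((slLin F).ρ (i * j)).trace ^ 2 = 4
  · refine ⟨piSL F i, hx, ?_, by rw [← map_mul]; exact odd_orderOf_piSL_of_disc h2 hτ⟩
    rw [piSL_mul_self_eq_one_iff.2 (Or.inr hi), orderOf_one]; exact odd_one
  by_cases hm : IsSquare (-1 : F)
  · obtain ⟨r, hr⟩ := hm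
    obtain ⟨k, hk, h3, h4⟩ := exists_trace_zero_of_isSquare hi hj hτ (a := 2) (b := 2)
      ⟨r * (((slLin F).ρ (i * j)).trace + 2), by
        linear_combination (((slLin F).ρ (i * j)).trace + 2) ^ 2 * hr⟩
    refine ⟨piSL F k, orderOf_piSL_eq_two_iff.2 ⟨not_mem_Z_of_trace_SL h2 hk, hk⟩, ?_, ?_⟩ <;>
      rw [← map_mul] <;> refine odd_orderOf_piSL_of_disc h2 ?_
    · rw [h3]; norm_num
    · rw [h4]; norm_num
  · have hq3 : Fintype.card F % 4 = 3 := by rwa [FiniteField.isSquare_neg_one_iff, not_not] at hm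
    obtain ⟨u, v, hu, hv, ⟨l, hl⟩, ⟨w, hw⟩⟩ := exists_pair_isSquare h2 hm (by omega) hτ
    have hl0 : l ≠ 0 := fun h => mul_ne_zero hu hv (by rw [hl, h, mul_zero])
    obtain rfl : v = l * l / u := by rw [← hl]; field_simp
    obtain ⟨k, hk, h3, h4⟩ := exists_trace_zero_of_isSquare hi hj hτ (a := l + l⁻¹)
      (b := u / l + (u / l)⁻¹) ⟨w / l, by
        field_simp
        field_simp at hw
        linear_combination hw⟩
    refine ⟨piSL F k, orderOf_piSL_eq_two_iff.2 ⟨not_mem_Z_of_trace_SL h2 hk, hk⟩, ?_, ?_⟩ <;>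
      rw [← map_mul] <;> refine odd_orderOf_piSL_of_not_isEll hq3 fun h => ?_
    · exact isEll_iff.1 h l (by rw [h3, det_SL]; field_simp; ring)
    · exact isEll_iff.1 h (u / l) (by rw [h4, det_SL]; field_simp; ring)

theorem exists_isFourPair_PSL [Fintype F] (hq : 3 ≤ Fintype.card F) :
    ∃ a b : PSL2 F, IsFourPair a b := by
  by_cases h2 : (2 : F) = 0
  · obtain ⟨b, hb0, hb1⟩ : ∃ b : F, b ≠ 0 ∧ b ≠ 1 := by
      classical
      by_contra H
      push Not at H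
      have : (Finset.univ : Finset F) ⊆ {0, 1} := fun b _ => by
        by_cases h : b = 0 <;> simp [h, H b]
      have h1 := Finset.card_le_card this
      have h3 := Finset.card_le_two (a := (0 : F)) (b := 1)
      rw [Finset.card_univ] at h1
      omega
    have e : ∀ b : F, piSL F ((slLin F).u b) * piSL F ((slLin F).u b) = 1 := fun b => by
      rw [← map_mul, ← Lin2.u_add, ← two_mul, h2, zero_mul, Lin2.u_zero, map_one]
    refine ⟨piSL F ((slLin F).u 1), piSL F ((slLin F).u b), e 1, e b, ?_, ?_, ?_, fun h => ?_⟩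
    · rw [← map_mul, ← map_mul, ← Lin2.u_add, ← Lin2.u_add, add_comm]
    · rw [Ne, piSL_eq_one_iff, Lin2.u_mem_Z_iff]; exact one_ne_zero
    · rwa [Ne, piSL_eq_one_iff, Lin2.u_mem_Z_iff]
    · exact hb1 ((slLin F).u_injective (piSL_injective h2 h)).symm
  · obtain ⟨y, hy, hy'⟩ := (isTorus_of_trace h2 trace_w_SL).exists_mem_normalizer
      (exists_not_mem_Z_of_trace h2 trace_w_SL)
    exact ⟨_, _, (isFourPair_piSL_iff h2 trace_w_SL).2 ⟨hy, hy'⟩⟩

theorem _root_.Cfsg.Lib.Known.connected_diam_two {V : Type*} {G : SimpleGraph V}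
    (h : ∀ u v, ∃ w, (G.Adj u w ∨ u = w) ∧ (G.Adj w v ∨ w = v)) {a b : V} (hab : a ≠ b)
    (hab' : ¬ G.Adj a b) : G.Connected ∧ G.diam = 2 := by
  have : Nonempty V := ⟨a⟩
  have h1 : G.ediam ≤ 2 := SimpleGraph.ediam_le_of_edist_le fun u v => by
    obtain ⟨w, h1, h2⟩ := h u v
    exact SimpleGraph.edist_triangle.trans (add_le_add
      (SimpleGraph.edist_le_one_iff_adj_or_eq.2 h1) (SimpleGraph.edist_le_one_iff_adj_or_eq.2 h2))
  have h2 : G.ediam = 2 := le_antisymm h1 (le_trans (Order.add_one_le_of_lt (lt_of_not_ge fun h' =>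
    (SimpleGraph.edist_le_one_iff_adj_or_eq.1 h').elim hab' hab)) SimpleGraph.edist_le_ediam)
  exact ⟨SimpleGraph.connected_of_ediam_ne_top (by rw [h2]; simp), by
    rw [SimpleGraph.diam, h2]; rfl⟩

end Cfsg.Lib.Known.GL2
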