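import Cfsg.Agent.Class.PSL2MaxList
import Cfsg.Agent.Class.Triangle

/-!
# Solubilizers in `PSL₂(q)` for `q = 2^r`, `3^r`: general part
-/

set_option autoImplicit false

namespace Cfsg.Lib.Class.Sol

section General

variable {G : Type*} [Group G]

theorem isSolvable_closure_invol {a b : G} (ha : a * a = 1) (hb : b * b = 1) :
    Group.IsSolvable (Subgroup.closure ({a, b} : Set G)) := by
  have ha' : a⁻¹ = a := inv_eq_of_mul_eq_one_left ha
  have hb' : b⁻¹ = b := inv_eq_of_mul_eq_one_left hb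
  set r := a * b with hr
  have har : ∀ n : ℤ, r ^ n * a = a * r ^ (-n) := by
    intro n
    have h1 : a * r⁻¹ * a⁻¹ = r := by rw [hr, mul_inv_rev, ha', hb', mul_assoc, mul_assoc, ha, mul_one]
    have h2 : a * r⁻¹ ^ n * a⁻¹ = r ^ n := by rw [← conj_zpow, h1]
    rw [← h2, zpow_neg, inv_zpow]; simp
  have key : ∀ h ∈ Subgroup.closure ({a, b} : Set G), ∃ n : ℤ, h = r ^ n ∨ h = a * r ^ n := by
    intro h hh
    induction hh using Subgroup.closure_induction with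
    | mem x hx =>
      rcases hx with rfl | rfl
      · exact ⟨0, Or.inr (by simp)⟩
      · exact ⟨1, Or.inr (by rw [zpow_one, hr, ← mul_assoc, ha, one_mul])⟩
    | one => exact ⟨0, Or.inl (by simp)⟩
    | mul x y _ _ hx hy =>
      obtain ⟨m, rfl | rfl⟩ := hx <;> obtain ⟨n, rfl | rfl⟩ := hy
      · exact ⟨m + n, Or.inl (zpow_add _ _ _).symm⟩
      · exact ⟨-m + n, Or.inr (by rw [← mul_assoc, har, zpow_add, mul_assoc])⟩
      · exact ⟨m + n, Or.inr (by rw [zpow_add, mul_assoc])⟩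
      · refine ⟨-m + n, Or.inl ?_⟩
        rw [mul_assoc, ← mul_assoc (r ^ m), har, ← mul_assoc, ← mul_assoc, ha, one_mul, zpow_add]
    | inv x _ hx =>
      obtain ⟨m, rfl | rfl⟩ := hx
      · exact ⟨-m, Or.inl (zpow_neg _ _).symm⟩
      · exact ⟨m, Or.inr (by rw [mul_inv_rev, ha', ← zpow_neg, har, neg_neg])⟩
  have hc : ∀ x ∈ Subgroup.closure ({a, b} : Set G), ∀ y ∈ Subgroup.closure ({a, b} : Set G),
      ∃ n : ℤ, x * y * x⁻¹ * y⁻¹ = r ^ n := by
    intro x hx y hy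
    have hinv : ∀ m : ℤ, (a * r ^ m)⁻¹ = a * r ^ m := fun m => by
      rw [mul_inv_rev, ha', ← zpow_neg, har, neg_neg]
    have har' : ∀ (n : ℤ) (z : G), r ^ n * (a * z) = a * (r ^ (-n) * z) := fun n z => by
      rw [← mul_assoc, har, mul_assoc]
    have haa : ∀ z : G, a * (a * z) = z := fun z => by rw [← mul_assoc, ha, one_mul]
    obtain ⟨m, rfl | rfl⟩ := key x hx <;> obtain ⟨n, rfl | rfl⟩ := key y hy <;>
      simp only [hinv, ← zpow_neg, mul_assoc, har', haa, ← zpow_add] <;> exact ⟨_, rfl⟩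
  refine isSolvable_of_commutators_commute fun x y z w => Subtype.ext ?_
  obtain ⟨m, hm⟩ := hc x x.2 y y.2
  obtain ⟨n, hn⟩ := hc z z.2 w w.2
  simp only [Subgroup.coe_mul, Subgroup.coe_inv, hm, hn, ← zpow_add, add_comm]

theorem ncard_conj (k : G) (P : G → Prop) :
    {z | P z}.ncard = {z | P (k * z * k⁻¹)}.ncard := by
  refine (Set.ncard_congr (fun z _ => k * z * k⁻¹) (fun _ h => h) (fun a b _ _ h => ?_)
    fun z hz => ⟨k⁻¹ * z * k, show P _ by
      rw [show k * (k⁻¹ * z * k) * k⁻¹ = z by group]; exact hz, by simp [mul_assoc]⟩).symm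
  simpa using h

theorem ncard_mul_left (k : G) (P : G → Prop) :
    {z | P z}.ncard = {z | P (k * z)}.ncard := by
  refine (Set.ncard_congr (fun z _ => k * z) (fun _ h => h) (fun a b _ _ h => ?_)
    fun z hz => ⟨k⁻¹ * z, show P _ by rw [mul_inv_cancel_left]; exact hz, by simp⟩).symm
  simpa using h

theorem A4_invol (e : Nonempty (G ≃* alternatingGroup (Fin 4))) {g y : G} (hg : g * g = 1)
    (hg1 : g ≠ 1) : y * y = 1 ∨ (y ^ 3 = 1 ∧ (g * y) ^ 3 = 1) := by
  obtain ⟨e⟩ := e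
  have key : ∀ g y : alternatingGroup (Fin 4), g * g = 1 → g ≠ 1 →
      y * y = 1 ∨ (y ^ 3 = 1 ∧ (g * y) ^ 3 = 1) := by decide +kernel
  simpa only [← map_mul, ← map_pow, MulEquiv.map_eq_one_iff] using
    key (e g) (e y) (by rw [← map_mul, hg, map_one]) (by simpa using hg1)

theorem A4_three (e : Nonempty (G ≃* alternatingGroup (Fin 4))) {g y : G} (hg : g ^ 3 = 1)
    (hg1 : g ≠ 1) : y * g = g * y ∨ ∃ k : Fin 3, (y * g ^ (k : ℕ)) * (y * g ^ (k : ℕ)) = 1 ∧
      (y * g ^ (k : ℕ) * g) ^ 3 = 1 ∧ y * g ^ (k : ℕ) ≠ 1 := by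
  obtain ⟨e⟩ := e
  have key : ∀ g y : alternatingGroup (Fin 4), g ^ 3 = 1 → g ≠ 1 →
      y * g = g * y ∨ ∃ k : Fin 3, (y * g ^ (k : ℕ)) * (y * g ^ (k : ℕ)) = 1 ∧
      (y * g ^ (k : ℕ) * g) ^ 3 = 1 ∧ y * g ^ (k : ℕ) ≠ 1 := by decide +kernel
  simpa only [← map_mul, ← map_pow, MulEquiv.map_eq_one_iff, ne_eq, EmbeddingLike.apply_eq_iff_eq]
    using key (e g) (e y) (by rw [← map_pow, hg, map_one]) (by simpa using hg1)

end General

open Matrix P1 MulAction Cfsg.Lib.Known.GL2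
open scoped MatrixGroups

variable {F : Type*} [Field F]

/-- The solubilizer of `g` inside `PSL₂(F) ≤ PGL₂(F)`. -/
def sol (g : PGL(2, F)) : Set PGL(2, F) :=
  {y | y ∈ psl2 F ∧ Group.IsSolvable (Subgroup.closure ({g, y} : Set PGL(2, F)))}

theorem isSolvable_map_iff (x y : PSL(2, F)) :
    Group.IsSolvable (Subgroup.closure ({x, y} : Set PSL(2, F))) ↔
      Group.IsSolvable (Subgroup.closure ({pslι x, pslι y} : Set PGL(2, F))) := by
  have e : (Subgroup.closure ({x, y} : Set PSL(2, F))).map pslι =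
      Subgroup.closure ({pslι x, pslι y} : Set PGL(2, F)) := by
    rw [MonoidHom.map_closure, Set.image_pair]
  rw [← e]
  exact ⟨isSolvable_of_equiv ⟨(mapPslιEquiv _).symm⟩, isSolvable_of_equiv ⟨mapPslιEquiv _⟩⟩

theorem card_sol (x : PSL(2, F)) :
    Nat.card {y : PSL(2, F) // Group.IsSolvable (Subgroup.closure ({x, y} : Set PSL(2, F)))} =
      (sol (pslι x)).ncard := by
  refine Set.ncard_congr (s := {y : PSL(2, F) | Group.IsSolvable
    (Subgroup.closure ({x, y} : Set PSL(2, F)))}) (fun y _ => pslι y)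
    (fun y hy => ⟨psl_toPGL_mem_psl2 y, (isSolvable_map_iff x y).1 hy⟩)
    (fun a b _ _ h => pslι_injective h) fun z hz => ?_
  have hz' := hz.1
  rw [← range_psl_toPGL] at hz'
  obtain ⟨y, rfl⟩ := hz'
  exact ⟨y, (isSolvable_map_iff x y).2 hz.2, rfl⟩

theorem ncard_sol_conj (k g : PGL(2, F)) : (sol (k * g * k⁻¹)).ncard = (sol g).ncard := by
  unfold sol
  rw [ncard_conj k]
  congr 1
  ext y
  simp only [Set.mem_ofPred_eq]
  refine and_congr ⟨fun h => ?_, fun h => psl2_normal.conj_mem _ h _⟩ ?_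
  · simpa [mul_assoc] using psl2_normal.conj_mem _ h k⁻¹
  · rw [← map_conj_closure_pair]
    exact ⟨isSolvable_of_equiv ⟨conjEquiv _ k⟩, isSolvable_of_equiv ⟨(conjEquiv _ k).symm⟩⟩

/-- the solvable subgroups of `PSL₂(F)` are reducible, imprimitive or (characteristic `3`) `A₄` -/
def Min (F : Type*) [Field F] (p : ℕ) : Prop :=
  ∀ M ≤ psl2 F, Group.IsSolvable M → (∃ x : P1 F, M ≤ stabilizer PGL(2, F) x) ∨
    (∃ x y : P1 (Kb F), TorusPair x y ∧ M ≤ stabPair x y) ∨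
    (p = 3 ∧ Nonempty (M ≃* alternatingGroup (Fin 4)))

variable [Finite F]

theorem not_le_of_solvable (h4 : 4 ≤ Nat.card F) {M : Subgroup PGL(2, F)}
    (hM : Group.IsSolvable M) : ¬ psl2 F ≤ M := fun h =>
  not_isSolvable_psl2 h4 (isSolvable_of_equiv ⟨pslEquivPsl2 F⟩ (isSolvable_of_le h hM))

theorem min_two [CharP F 2] {r : ℕ} (hr : r.Prime) (hq : Nat.card F = 2 ^ r) : Min F 2 := by
  intro M _ hM
  have h4 : 4 ≤ Nat.card F := by
    rw [hq]; exact Nat.pow_le_pow_right (n := 2) (i := 2) (by norm_num) hr.two_le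
  rcases dickson_of_not_le 2 (not_le_of_solvable h4 hM) with h | ⟨x, y, hT, _, hxy⟩ | ⟨h2, e⟩ |
    ⟨h, -⟩ | ⟨F₀, c, hF₀, h3, -⟩
  · exact Or.inl h
  · exact Or.inr (Or.inl ⟨x, y, hT, hxy⟩)
  · have := e.card
    omega
  · omega
  · have hb : Nat.card (⊥ : Subfield F) = 2 := Subfield.card_bot F 2
    rw [subfield_eq_of_prime (F₀ := ⊥) hr (by rw [hb, hq]) bot_le hF₀, hb] at h3
    omega

theorem min_three [CharP F 3] {r : ℕ} (hr : r.Prime) (ho : Odd r) (hq : Nat.card F = 3 ^ r) :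
    Min F 3 := by
  intro M hle hM
  have : Fact (Nat.Prime 3) := ⟨Nat.prime_three⟩
  have h4 : 4 ≤ Nat.card F := by
    rw [hq]
    exact le_trans (by norm_num) (Nat.pow_le_pow_right (n := 3) (i := 2) (by norm_num) hr.two_le)
  have h2 : (2 : F) ≠ 0 := (two_ne_zero_iff_char 3).2 (by norm_num)
  rcases dickson_of_not_le 3 (not_le_of_solvable h4 hM) with h | ⟨x, y, hT, _, hxy⟩ | ⟨h2, e⟩ |
    ⟨-, e⟩ | ⟨F₀, c, hF₀, h3, h⟩
  · exact Or.inl h
  · exact Or.inr (Or.inl ⟨x, y, hT, hxy⟩)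
  · have := e.card
    omega
  · exact absurd (isSolvable_of_equiv (e.map fun e => e.symm) hM) not_isSolvable_A5
  · have hb : Nat.card (⊥ : Subfield F) = 3 := Subfield.card_bot F 3
    have h0 : Nat.card F₀ = 3 := by
      rw [subfield_eq_of_prime (F₀ := ⊥) hr (by rw [hb, hq]) bot_le hF₀, hb]
    rcases h with h | h
    · rw [h, pglSub_conj_le_psl2_iff] at hle
      exact absurd (even_of_pglSub_le_psl2 h2 (by rw [h0, hq]) hle) (Nat.not_even_iff_odd.2 ho)
    · refine Or.inr (Or.inr ⟨rfl, ?_⟩)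
      obtain ⟨S, e⟩ := exists_A4 (F := F₀) (two_ne_zero_subfield h2 F₀)
      have hS : S = psl2 F₀ := by
        refine Subgroup.eq_of_le_of_card_ge (le_psl2_of_A4 e) ?_
        have := two_mul_card_psl2 (two_ne_zero_subfield h2 F₀)
        rw [h0] at this
        rw [card_of_equiv_A4 e]
        omega
      subst hS h
      obtain ⟨e⟩ := e
      exact ⟨(conjEquiv _ c).symm.trans ((pslSubEquiv F₀).symm.trans ((pslEquivPsl2 F₀).trans e))⟩

variable {p : ℕ} [hp : Fact p.Prime] [CharP F p]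

theorem Min.cases (h : Min F p) {g y : PGL(2, F)} (hg : g ∈ psl2 F) (hy : y ∈ sol g) :
    (∃ c : P1 F, g • c = c ∧ y • c = c) ∨
    (∃ a b : P1 (Kb F), TorusPair a b ∧ g ∈ stabPair a b ∧ y ∈ stabPair a b) ∨
    (p = 3 ∧ Nonempty (Subgroup.closure ({g, y} : Set PGL(2, F)) ≃* alternatingGroup (Fin 4))) := by
  rcases h _ (closure_pair_le hg hy.1) hy.2 with ⟨c, h⟩ | ⟨a, b, hT, h⟩ | h
  · exact Or.inl ⟨c, h (left_mem_closure_pair _ _), h (right_mem_closure_pair _ _)⟩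
  · exact Or.inr (Or.inl ⟨a, b, hT, h (left_mem_closure_pair _ _), h (right_mem_closure_pair _ _)⟩)
  · exact Or.inr (Or.inr h)

omit [Finite F] in
theorem mem_sol_of_fix (p : ℕ) [Fact p.Prime] [CharP F p] {g y : PGL(2, F)} (hy : y ∈ psl2 F) {c : P1 F} (h1 : g • c = c)
    (h2 : y • c = c) : y ∈ sol g :=
  ⟨hy, isSolvable_of_le (closure_pair_le (H := stabilizer PGL(2, F) c) h1 h2)
    (isSolvable_stabilizer p c)⟩

omit [Finite F] in
theorem mem_sol_of_stabPair {g y : PGL(2, F)} (hy : y ∈ psl2 F) {a b : P1 (Kb F)} (hab : a ≠ b)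
    (h1 : g ∈ stabPair a b) (h2 : y ∈ stabPair a b) : y ∈ sol g :=
  ⟨hy, isSolvable_of_le (closure_pair_le h1 h2) (isSolvable_stabPair hab)⟩

omit [Finite F] in
theorem mem_sol_of_invol {g y : PGL(2, F)} (hy : y ∈ psl2 F) (hg : g * g = 1)
    (h : y * y = 1 ∨ g * y * (g * y) = 1) : y ∈ sol g := by
  refine ⟨hy, ?_⟩
  rcases h with h | h
  · exact isSolvable_closure_invol hg h
  · refine isSolvable_of_le (closure_pair_le (left_mem_closure_pair g (g * y)) ?_)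
      (isSolvable_closure_invol hg h)
    have := Subgroup.mul_mem _ (left_mem_closure_pair g (g * y)) (right_mem_closure_pair g (g * y))
    rwa [← mul_assoc, hg, one_mul] at this

omit [Finite F] in
theorem pow_char_ne_one {g : PGL(2, F)} (hg1 : g ≠ 1) {a b : P1 (Kb F)} (hab : a ≠ b)
    (hg : g ∈ fixPair a b) : g ^ p ≠ 1 := by
  intro h
  have : CharP (Kb F) p := charP_of_injective_algebraMap (algebraMap F (Kb F)).injective p
  exact pgl2_pow_char_ne_one_of_two_fixed p (g := bar g) (by rwa [Ne, bar_eq_one_iff]) hab hg.1 hg.2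
    (by rw [← map_pow, h, map_one])

omit [Finite F] hp [CharP F p] in
theorem barPt_eq_or {g : PGL(2, F)} (hg1 : g ≠ 1) {a b : P1 (Kb F)} (hab : a ≠ b)
    (hg : g ∈ fixPair a b) {c : P1 F} (hc : g • c = c) : barPt c = a ∨ barPt c = b :=
  pgl2_fixed_eq_or (t := bar g) (by rwa [Ne, bar_eq_one_iff]) hab hg.1 hg.2
    ((bar_smul_barPt_eq_iff _ _ _).2 hc)

theorem Min.torus_cases (h : Min F p) {g y : PGL(2, F)} (hg : g ∈ psl2 F) (hg2 : g * g ≠ 1)
    {a b : P1 (Kb F)} (hT : TorusPair a b) (hab : g ∈ fixPair a b) (hy : y ∈ sol g) :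
    y ∈ stabPair a b ∨ ∃ c : P1 F, (barPt c = a ∨ barPt c = b) ∧ y • c = c := by
  have hg1 : g ≠ 1 := by rintro rfl; exact hg2 (mul_one _)
  rcases h.cases hg hy with ⟨c, h1, h2⟩ | ⟨a', b', hT', h1, h2⟩ | ⟨rfl, e⟩
  · exact Or.inr ⟨c, barPt_eq_or hg1 hT.ne hab h1, h2⟩
  · left
    rwa [← stabPair_eq_of_mem hT.ne hT'.ne hg1 hab (mem_fixPair_of_mul_self_ne hT'.ne h1 hg2)]
  · rcases pow_of_equiv_A4 e ⟨g, left_mem_closure_pair _ _⟩ with h1 | h1
    · exact absurd (by simpa [sq] using congrArg Subtype.val h1) hg2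
    · exact absurd (congrArg Subtype.val h1) (pow_char_ne_one hg1 hT.ne hab)

theorem Min.nonsplit (h : Min F p) {g : PGL(2, F)} (hg : g ∈ psl2 F) (hg2 : g * g ≠ 1)
    {a b : P1 (Kb F)} (hT : TorusPair a b) (hab : g ∈ fixPair a b)
    (ha : a ∉ Set.range (barPt : P1 F → P1 (Kb F))) :
    Nat.gcd 2 (Nat.card F - 1) * (sol g).ncard = 2 * (Nat.card F + 1) := by
  have e : sol g = ↑(psl2 F ⊓ stabPair a b : Subgroup PGL(2, F)) := by
    ext y
    refine ⟨fun hy => ⟨hy.1, ?_⟩, fun hy =>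
      mem_sol_of_stabPair hy.1 hT.ne (fixPair_le_stabPair _ _ hab) hy.2⟩
    rcases h.torus_cases hg hg2 hT hab hy with h1 | ⟨c, h1 | h1, -⟩
    · exact h1
    · exact absurd ⟨c, h1⟩ ha
    · exact absurd (hT.mem_range_iff.2 ⟨c, h1⟩) ha
  rw [e, ← Nat.card_coe_set_eq, SetLike.coe_sort_coe, hT.card_inf_stabPair, mul_left_comm,
    hT.gcd_mul_card_inf, hT.card_fixPair_of_not_mem ha]

theorem Min.split (h : Min F p) {g : PGL(2, F)} (hg : g ∈ psl2 F) (hg2 : g * g ≠ 1)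
    {a b : P1 (Kb F)} (hT : TorusPair a b) (hab : g ∈ fixPair a b)
    (ha : a ∈ Set.range (barPt : P1 F → P1 (Kb F))) :
    Nat.gcd 2 (Nat.card F - 1) * (sol g).ncard = 2 * (Nat.card F * (Nat.card F - 1)) := by
  obtain ⟨d, rfl⟩ := hT.mem_range ha
  obtain ⟨c, rfl⟩ := ha
  set B₁ : Set PGL(2, F) := ↑(psl2 F ⊓ stabilizer PGL(2, F) c : Subgroup PGL(2, F)) with hB₁
  set B₂ : Set PGL(2, F) := ↑(psl2 F ⊓ stabilizer PGL(2, F) d : Subgroup PGL(2, F)) with hB₂
  set S : Set PGL(2, F) := ↑(psl2 F ⊓ stabPair (barPt c) (barPt d) : Subgroup PGL(2, F)) with hS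
  set T : Set PGL(2, F) := ↑(psl2 F ⊓ fixPair (barPt c) (barPt d) : Subgroup PGL(2, F)) with hTT
  have hgcd := mem_fixPair_barPt.1 hab
  have e : sol g = (B₁ ∪ B₂) ∪ S := by
    ext y
    constructor
    · intro hy
      rcases h.torus_cases hg hg2 hT hab hy with h1 | ⟨c', h1 | h1, h2⟩
      · exact Or.inr ⟨hy.1, h1⟩
      · obtain rfl := barPt_injective h1
        exact Or.inl (Or.inl ⟨hy.1, h2⟩)
      · obtain rfl := barPt_injective h1
        exact Or.inl (Or.inr ⟨hy.1, h2⟩)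
    · rintro ((hy | hy) | hy)
      · exact mem_sol_of_fix p hy.1 hgcd.1 hy.2
      · exact mem_sol_of_fix p hy.1 hgcd.2 hy.2
      · exact mem_sol_of_stabPair hy.1 hT.ne (fixPair_le_stabPair _ _ hab) hy.2
  have e1 : B₁ ∩ B₂ = T := by
    ext y
    exact ⟨fun hy => ⟨hy.1.1, mem_fixPair_barPt.2 ⟨hy.1.2, hy.2.2⟩⟩, fun hy =>
      ⟨⟨hy.1, (mem_fixPair_barPt.1 hy.2).1⟩, hy.1, (mem_fixPair_barPt.1 hy.2).2⟩⟩
  have e2 : (B₁ ∪ B₂) ∩ S = T := by
    ext y
    refine ⟨fun hy => ⟨hy.2.1, ?_⟩, fun hy => ⟨Or.inl ⟨hy.1, (mem_fixPair_barPt.1 hy.2).1⟩, hy.1,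
      fixPair_le_stabPair _ _ hy.2⟩⟩
    by_contra hn
    obtain ⟨h1, h2⟩ := swap_of_not_mem_fixPair hy.2.2 hn
    rw [bar_smul_barPt_eq_iff] at h1 h2
    have hcd : c ≠ d := fun h => hT.ne (congrArg _ h)
    rcases hy.1 with h3 | h3
    · exact hcd (h3.2.symm.trans h1)
    · exact hcd (h2.symm.trans h3.2)
  have c1 := Set.ncard_union_add_ncard_inter B₁ B₂
  have c2 := Set.ncard_union_add_ncard_inter (B₁ ∪ B₂) S
  rw [e1] at c1
  rw [e2, ← e] at c2
  have c3 : S.ncard = 2 * T.ncard := hT.card_inf_stabPair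
  have c4 : Nat.gcd 2 (Nat.card F - 1) * B₁.ncard = _ := gcd_mul_card_inf_stabilizer c
  have c5 : Nat.gcd 2 (Nat.card F - 1) * B₂.ncard = _ := gcd_mul_card_inf_stabilizer d
  have c6 : (sol g).ncard = B₁.ncard + B₂.ncard := by omega
  rw [c6, mul_add, c4, c5, two_mul]

/-- elements of order dividing `q ± 1` -/
theorem Min.torus (h : Min F p) {g : PGL(2, F)} (hg : g ∈ psl2 F) (hg2 : g * g ≠ 1) :
    (orderOf g ∣ Nat.card F - 1 → Nat.gcd 2 (Nat.card F - 1) * (sol g).ncard =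
      2 * (Nat.card F * (Nat.card F - 1))) ∧
    (orderOf g ∣ Nat.card F + 1 → Nat.gcd 2 (Nat.card F - 1) * (sol g).ncard =
      2 * (Nat.card F + 1)) := by
  have hq := two_le_card_field F
  have hboth : orderOf g ∣ Nat.card F - 1 → orderOf g ∣ Nat.card F + 1 → False := fun a b => by
    have := Nat.dvd_sub b a
    rw [show Nat.card F + 1 - (Nat.card F - 1) = 2 by omega, orderOf_dvd_iff_pow_eq_one, sq] at this
    exact hg2 this
  have hgp : orderOf g ∣ Nat.card F - 1 ∨ orderOf g ∣ Nat.card F + 1 → g ^ p ≠ 1 := by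
    intro h1 h2
    have hg1 : g ≠ 1 := by rintro rfl; exact hg2 (mul_one _)
    rw [orderOf_eq_prime h2 hg1] at h1
    obtain ⟨n, hn, hqn⟩ := card_eq_char_pow (F := F) p
    have h3 : p ∣ Nat.card F := hqn ▸ dvd_pow_self p hn.ne'
    apply hp.out.not_dvd_one
    rcases h1 with h1 | h1
    · have := Nat.dvd_sub h3 h1
      rwa [show Nat.card F - (Nat.card F - 1) = 1 by omega] at this
    · exact (Nat.dvd_add_right h3).1 h1
  constructor
  · intro ho
    obtain ⟨a, b, hT, hab⟩ := exists_torusPair p (hgp (Or.inl ho))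
    refine h.split hg hg2 hT hab (by_contra fun ha => hboth ho ?_)
    rw [← hT.card_fixPair_of_not_mem ha]
    exact Subgroup.orderOf_dvd_natCard _ hab
  · intro ho
    obtain ⟨a, b, hT, hab⟩ := exists_torusPair p (hgp (Or.inr ho))
    refine h.nonsplit hg hg2 hT hab fun ha => hboth ?_ ho
    rw [← hT.card_fixPair_of_mem ha]
    exact Subgroup.orderOf_dvd_natCard _ hab

end Cfsg.Lib.Class.Sol
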