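import Cfsg.Agent.Known.PSL2Sol

/-!
# Solubilizers in `PSL₂(q)` for `q = 2^r`, `3^r`: involutions and elements of order `3`
-/

set_option autoImplicit false

namespace Cfsg.Lib.Class.Sol

section General

variable {G : Type*} [Group G] [Finite G]

theorem ncard_CI {g : G} (C : Subgroup G) (hg : g ∈ C) (I : Set G)
    (hI : ∀ y ∈ I, g * y ∈ I → y ∈ C) :
    ((C : Set G) ∪ I ∪ {y | g * y ∈ I}).ncard = Nat.card C + 2 * (I \ C).ncard := by
  have e : (C : Set G) ∪ I ∪ {y | g * y ∈ I} = ((C : Set G) ∪ (I \ (C : Set G))) ∪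
      {y | g * y ∈ I \ (C : Set G)} := by
    ext y
    simp only [Set.mem_union, SetLike.mem_coe, Set.mem_ofPred_eq, Set.mem_sdiff,
      C.mul_mem_cancel_left hg]
    tauto
  rw [e, Set.ncard_union_eq, Set.ncard_union_eq Set.disjoint_sdiff_right,
    ← ncard_mul_left g (fun y => y ∈ I \ (C : Set G)), two_mul, add_assoc]
  · rfl
  · rw [Set.disjoint_left]
    rintro y (hy | hy) h
    · exact h.2 (C.mul_mem hg hy)
    · exact hy.2 (hI y hy.1 h.1)

theorem eq_of_cyclic' [IsCyclic G] {x y : G} (hx : orderOf x = 2) (hy : orderOf y = 2) :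
    x = y := by
  classical
  have := Fintype.ofFinite G
  have h := IsCyclic.card_orderOf_eq_totient (α := G) (d := 2)
    (by rw [← hx, ← Nat.card_eq_fintype_card]; exact orderOf_dvd_natCard x)
  rw [Nat.totient_two, Finset.card_eq_one] at h
  obtain ⟨a, ha⟩ := h
  have h1 : x ∈ ({a} : Finset G) := by rw [← ha]; simpa using hx
  have h2 : y ∈ ({a} : Finset G) := by rw [← ha]; simpa using hy
  rw [Finset.mem_singleton] at h1 h2
  rw [h1, h2]

omit [Finite G] in
theorem comm_of_invol {g y : G} (hg : g * g = 1) (hy : y * y = 1) (h : g * y * (g * y) = 1) :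
    g * y = y * g := by
  rw [eq_inv_of_mul_eq_one_left h, mul_inv_rev, inv_eq_of_mul_eq_one_left hg,
    inv_eq_of_mul_eq_one_left hy]

omit [Finite G] in
theorem eq_one_of_two_three {y : G} (h2 : y * y = 1) (h3 : y ^ 3 = 1) : y = 1 := by
  rwa [pow_three, h2, mul_one] at h3

end General

open Matrix P1 MulAction Cfsg.Lib.Known.GL2
open scoped MatrixGroups

variable {F : Type*} [Field F]

theorem det_ne (u : Fˣ) (v : F) : v * -v - (-v ^ 2 - u) * 1 ≠ 0 := fun h =>
  u.ne_zero (by linear_combination h)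

theorem det_eq (u v : F) : v * -v - (-v ^ 2 - u) * 1 = u := by ring

theorem exists_mob_of_invol {z : PGL(2, F)} (hz : z * z = 1) (h : z • inf F ≠ inf F) :
    ∃ (u : Fˣ) (v : F), z = mob v (-v ^ 2 - u) 1 (-v) (det_ne u v) := by
  have h1 : z ≠ 1 := by rintro rfl; exact h (one_smul _ _)
  have h0 := rho_of_mul_self hz h1
  obtain ⟨a, b, c, d, hd, rfl⟩ := exists_mob z
  rw [Ne, mob_smul_inf_eq_inf_iff] at h
  rw [rho_mob, div_eq_zero_iff, or_iff_left hd, pow_eq_zero_iff two_ne_zero] at h0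
  have hd' : d = -a := by linear_combination h0
  subst hd'
  refine ⟨Units.mk0 ((a * -a - b * c) / c ^ 2) (div_ne_zero hd (pow_ne_zero _ h)), a / c,
    mob_congr _ _ c⁻¹ (inv_ne_zero h) ?_ ?_ ?_ ?_⟩
  · field_simp
  · simp only [Units.val_mk0]; field_simp; ring
  · field_simp
  · field_simp

theorem invol_count_inf : {z : PGL(2, F) | z ∈ psl2 F ∧ z * z = 1 ∧ z • inf F ≠ inf F}.ncard =
    Nat.card (psl2 F ⊓ stabilizer PGL(2, F) (inf F) : Subgroup _) := by
  have e1 : {x : Fˣ × F | IsSquare (x.1 : F)}.ncard =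
      {z : PGL(2, F) | z ∈ psl2 F ∧ z * z = 1 ∧ z • inf F ≠ inf F}.ncard := by
    refine Set.ncard_congr (fun x _ => mob x.2 (-x.2 ^ 2 - x.1) 1 (-x.2) (det_ne _ _))
      (fun x hx => ⟨?_, ?_, ?_⟩) (fun x y _ _ h => ?_) fun z hz => ?_
    · rw [mob_mem_psl2_iff, det_eq]
      exact hx
    · exact mul_self_of_rho (by rw [rho_mob]; simp)
    · rw [Ne, mob_smul_inf_eq_inf_iff]; exact one_ne_zero
    · obtain ⟨u, -, h1, h2, h3, -⟩ := (mob_eq_mob_iff _ _).1 h
      have hu : u = 1 := by simpa using h3.symm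
      subst hu
      rw [mul_one] at h1 h2
      refine Prod.ext (Units.ext ?_) h1.symm
      rw [h1] at h2
      linear_combination h2
    · obtain ⟨u, v, rfl⟩ := exists_mob_of_invol hz.2.1 hz.2.2
      refine ⟨(u, v), ?_, rfl⟩
      have := (mob_mem_psl2_iff _).1 hz.1
      rwa [det_eq] at this
  rw [← e1]
  refine Set.ncard_congr (s := {x : Fˣ × F | IsSquare (x.1 : F)})
    (t := SetLike.coe (psl2 F ⊓ stabilizer PGL(2, F) (inf F))) (fun x _ => aff x.1 x.2)
    (fun x hx => ?_) (fun x y _ _ h => ?_) fun z hz => ?_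
  · exact ⟨(aff_mem_psl2_iff _ _).2 hx, aff_smul_inf _ _⟩
  · exact Prod.ext (aff_inj.1 h).1 (aff_inj.1 h).2
  obtain ⟨a, b, rfl⟩ := exists_aff_of_smul_inf hz.2
  exact ⟨(a, b), (aff_mem_psl2_iff _ _).1 hz.1, rfl⟩

theorem fib_inf (p : ℕ) [Fact p.Prime] [CharP F p] (h2 : (2 : F) ≠ 0) {h : PGL(2, F)}
    (hh : h ∈ psl2 F) (hh2 : h * h = 1) (hc : h • inf F ≠ inf F) :
    {y | y ∈ unip p (inf F) ∧ (h * y) ^ 3 = 1}.ncard = 2 := by
  obtain ⟨u, v, rfl⟩ := exists_mob_of_invol hh2 hc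
  obtain ⟨s, hs⟩ := (mob_mem_psl2_iff _).1 hh
  have hs' : (u : F) = s * s := by linear_combination hs
  have hs0 : s ≠ 0 := fun h => u.ne_zero (by rw [hs', h, mul_zero])
  have key : ∀ t : F, (mob v (-v ^ 2 - u) 1 (-v) (det_ne u v) * aff 1 t) ^ 3 = 1 ↔
      t = s ∨ t = -s := by
    intro t
    rw [aff, mob_mul, ← sq_eq_sq_iff_eq_or_eq_neg]
    constructor
    · intro h
      have := rho_of_pow_three h (by rw [Ne, mob_eq_one_iff]; simp)
      rw [rho_mob, div_eq_one_iff_eq (mob_mul_det_ne (det_ne u v) (by simp))] at this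
      simp only [Units.val_one] at this
      linear_combination this + hs'
    · intro h
      apply pow_three_of_rho
      rw [rho_mob, div_eq_one_iff_eq (mob_mul_det_ne (det_ne u v) (by simp))]
      simp only [Units.val_one]
      linear_combination h - hs'
  refine Eq.trans ?_ (Set.ncard_pair (a := aff 1 s) (b := aff 1 (-s)) fun h => hs0 (by
    have := (aff_inj.1 h).2
    exact (mul_eq_zero.1 (show 2 * s = 0 by linear_combination this)).resolve_left h2))
  congr 1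
  ext y
  simp only [Set.mem_ofPred_eq, mem_unip_inf, Set.mem_insert_iff, Set.mem_singleton_iff]
  constructor
  · rintro ⟨⟨t, rfl⟩, h⟩
    rcases (key t).1 h with rfl | rfl <;> simp
  · rintro (rfl | rfl)
    · exact ⟨⟨_, rfl⟩, (key _).2 (Or.inl rfl)⟩
    · exact ⟨⟨_, rfl⟩, (key _).2 (Or.inr rfl)⟩

theorem fib (p : ℕ) [Fact p.Prime] [CharP F p] (h2 : (2 : F) ≠ 0) {h : PGL(2, F)}
    (hh : h ∈ psl2 F) (hh2 : h * h = 1) {c : P1 F} (hc : h • c ≠ c) :
    {y | y ∈ unip p c ∧ (h * y) ^ 3 = 1}.ncard = 2 := by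
  obtain ⟨k, rfl⟩ := pgl2_exists_smul_inf_eq c
  rw [ncard_conj k]
  refine Eq.trans ?_ (fib_inf p h2 (h := k⁻¹ * h * k)
    (by simpa using psl2_normal.conj_mem _ hh k⁻¹)
    (by rw [show k⁻¹ * h * k * (k⁻¹ * h * k) = k⁻¹ * (h * h) * k by group, hh2]; simp)
    (by rwa [Ne, conj_smul_eq_iff]))
  congr 1
  ext y
  simp only [Set.mem_ofPred_eq, conj_mem_unip_iff]
  rw [show h * (k * y * k⁻¹) = k * (k⁻¹ * h * k * y) * k⁻¹ by group, conj_pow, conj_eq_one_iff]

theorem Z_count {t : F} (ht : t ≠ 0) :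
    {z : PGL(2, F) | z ∈ psl2 F ∧ z * z = 1 ∧ z • inf F ≠ inf F ∧ (z * aff 1 t) ^ 3 = 1}.ncard =
      Nat.card F := by
  have key : ∀ (u : Fˣ) (v : F), (mob v (-v ^ 2 - u) 1 (-v) (det_ne u v) * aff 1 t) ^ 3 = 1 ↔
      (u : F) = t ^ 2 := by
    intro u v
    rw [aff, mob_mul]
    constructor
    · intro h
      have := rho_of_pow_three h (by rw [Ne, mob_eq_one_iff]; simp)
      rw [rho_mob, div_eq_one_iff_eq (mob_mul_det_ne (det_ne u v) (by simp))] at this
      simp only [Units.val_one] at this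
      linear_combination -this
    · intro h
      apply pow_three_of_rho
      rw [rho_mob, div_eq_one_iff_eq (mob_mul_det_ne (det_ne u v) (by simp))]
      simp only [Units.val_one]
      linear_combination -h
  let u : Fˣ := Units.mk0 (t ^ 2) (pow_ne_zero _ ht)
  rw [← Set.ncard_univ]
  symm
  refine Set.ncard_congr (fun v _ => mob v (-v ^ 2 - (u : F)) 1 (-v) (det_ne u v))
    (fun v _ => ⟨?_, ?_, ?_, (key u v).2 rfl⟩) (fun x y _ _ h => ?_) fun z hz => ?_
  · rw [mob_mem_psl2_iff]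
    exact ⟨t, by simp only [u, Units.val_mk0]; ring⟩
  · exact mul_self_of_rho (by rw [rho_mob]; simp)
  · rw [Ne, mob_smul_inf_eq_inf_iff]; exact one_ne_zero
  · obtain ⟨w, -, h1, -, h3, -⟩ := (mob_eq_mob_iff _ _).1 h
    have hu : w = 1 := by simpa using h3.symm
    rw [h1, hu, mul_one]
  · obtain ⟨w, v, rfl⟩ := exists_mob_of_invol hz.2.1 hz.2.2.1
    obtain rfl : w = u := Units.ext ((key w v).1 hz.2.2.2)
    exact ⟨v, trivial, rfl⟩

variable [Finite F]

theorem Min.invol_two [CharP F 2] (h : Min F 2) {g : PGL(2, F)} (hg2 : g * g = 1) (hg1 : g ≠ 1) :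
    (sol g).ncard = 3 * (Nat.card F * (Nat.card F - 1)) := by
  have htop : psl2 F = ⊤ := psl2_eq_top (ringChar.eq F 2)
  have hmem : ∀ y : PGL(2, F), y ∈ psl2 F := fun y => by rw [htop]; trivial
  obtain ⟨c, hc⟩ := pgl2_exists_fixed_of_pow_char 2 (g := g) (by rwa [sq])
  obtain ⟨k, rfl⟩ := pgl2_exists_smul_inf_eq c
  rw [← ncard_sol_conj k⁻¹, inv_inv]
  rw [← conj_smul_eq_iff] at hc
  have hg2' : k⁻¹ * g * k * (k⁻¹ * g * k) = 1 := by
    rw [show k⁻¹ * g * k * (k⁻¹ * g * k) = k⁻¹ * (g * g) * k by group, hg2]; simp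
  have hg1' : k⁻¹ * g * k ≠ 1 := fun h => hg1 (by
    rw [show g = k * (k⁻¹ * g * k) * k⁻¹ by group, h]; simp)
  generalize k⁻¹ * g * k = x at hc hg2' hg1'
  have hu : x ∈ unip 2 (inf F) := (mem_unip 2).2 ⟨hc, by rwa [sq]⟩
  set B := psl2 F ⊓ stabilizer PGL(2, F) (inf F) with hB
  have e : sol x = (B : Set PGL(2, F)) ∪ {y | y * y = 1} ∪ {y | x * y ∈ {y | y * y = 1}} := by
    ext y
    constructor
    · intro hy
      rcases h.cases (hmem x) hy with ⟨c, h1, h2⟩ | ⟨a, b, hT, h1, h2⟩ | ⟨h3, -⟩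
      · obtain rfl := eq_of_mem_unip 2 hu hg1' h1
        exact Or.inl (Or.inl ⟨hy.1, h2⟩)
      · have hn : x ∉ fixPair a b := fun h => pow_char_ne_one (p := 2) hg1' hT.ne h (by rwa [sq])
        by_cases hf : y ∈ fixPair a b
        · exact Or.inr (mul_self_of_not_mem_fixPair hT.ne (Subgroup.mul_mem _ h1 h2)
            fun h => hn ((Subgroup.mul_mem_cancel_right _ hf).1 h))
        · exact Or.inl (Or.inr (mul_self_of_not_mem_fixPair hT.ne h2 hf))
      · omega
    · rintro ((hy | hy) | hy)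
      · exact mem_sol_of_fix 2 hy.1 hc hy.2
      · exact mem_sol_of_invol (hmem y) hg2' (Or.inl hy)
      · exact mem_sol_of_invol (hmem y) hg2' (Or.inr hy)
  rw [e, ncard_CI B ⟨hmem x, hc⟩]
  · have e2 : {y : PGL(2, F) | y * y = 1} \ B =
        {z : PGL(2, F) | z ∈ psl2 F ∧ z * z = 1 ∧ z • inf F ≠ inf F} := by
      ext y
      exact ⟨fun hy => ⟨hmem y, hy.1, fun h => hy.2 ⟨hmem y, h⟩⟩, fun hy => ⟨hy.2.1,
        fun h => hy.2.2 h.2⟩⟩
    have c := gcd_mul_card_inf_stabilizer (inf F)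
    rw [gcd_two_card_eq_one (ringChar.eq F 2), one_mul] at c
    rw [e2, invol_count_inf, ← hB, c]
    ring
  · intro y hy hy'
    refine ⟨hmem y, eq_of_mem_unip 2 hu hg1' ?_⟩
    rw [← mul_smul, comm_of_invol hg2' hy hy', mul_smul, hc]

theorem not_fix_of_invol (hq : Nat.card F % 4 = 3) {z : PGL(2, F)} (hz : z ∈ psl2 F)
    (hz2 : z * z = 1) (hz1 : z ≠ 1) (c : P1 F) : z • c ≠ c := by
  intro hc
  have h2 : (2 : F) ≠ 0 := two_ne_zero_iff_odd.2 (Nat.odd_iff.2 (by omega))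
  have c1 := gcd_mul_card_inf_stabilizer c
  rw [gcd_two_card_eq_two' h2] at c1
  have c2 : orderOf z ∣ Nat.card (psl2 F ⊓ stabilizer PGL(2, F) c : Subgroup _) :=
    Subgroup.orderOf_dvd_natCard _ ⟨hz, hc⟩
  rw [orderOf_eq_prime (p := 2) (by rwa [sq]) hz1] at c2
  obtain ⟨m, hm⟩ := c2
  obtain ⟨n, hn⟩ : ∃ n, Nat.card F = 4 * n + 3 := ⟨Nat.card F / 4, by omega⟩
  rw [hm, hn, show 4 * n + 3 - 1 = 4 * n + 2 from rfl] at c1
  have : 4 * m = 4 * (4 * n * n + 5 * n + 1) + 2 := by linarith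
  omega

theorem Min.invol_three [CharP F 3] (h : Min F 3) (hq : Nat.card F % 4 = 3) {g : PGL(2, F)}
    (hg : g ∈ psl2 F) (hg2 : g * g = 1) (hg1 : g ≠ 1) :
    (sol g).ncard = Nat.card F * (Nat.card F + 1) := by
  have : Fact (Nat.Prime 3) := ⟨Nat.prime_three⟩
  have h2 : (2 : F) ≠ 0 := two_ne_zero_iff_odd.2 (Nat.odd_iff.2 (by omega))
  have hg3 : g ^ 3 ≠ 1 := fun h => hg1 (eq_one_of_two_three hg2 h)
  obtain ⟨a, b, hT, hab⟩ := exists_torusPair 3 hg3
  have hnf := not_fix_of_invol hq hg hg2 hg1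
  have ha : a ∉ Set.range (barPt : P1 F → P1 (Kb F)) := by
    rintro ⟨c, rfl⟩
    exact hnf c ((bar_smul_barPt_eq_iff _ _ _).1 hab.1)
  set C := psl2 F ⊓ stabPair a b with hC
  set T := psl2 F ⊓ fixPair a b with hTT
  set I : Set PGL(2, F) := {y | y ∈ psl2 F ∧ y * y = 1} with hI
  set A : Set PGL(2, F) := {y | y ∈ psl2 F ∧ y ^ 3 = 1 ∧ (g * y) ^ 3 = 1} with hA
  have hgC : g ∈ C := ⟨hg, fixPair_le_stabPair _ _ hab⟩
  have e : sol g = ((C : Set PGL(2, F)) ∪ I ∪ {y | g * y ∈ I}) ∪ A := by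
    ext y
    constructor
    · intro hy
      rcases h.cases hg hy with ⟨c, h1, -⟩ | ⟨a', b', hT', h1, h2⟩ | ⟨-, e⟩
      · exact absurd h1 (hnf c)
      · by_cases hn : g ∈ fixPair a' b'
        · refine Or.inl (Or.inl (Or.inl ⟨hy.1, ?_⟩))
          rwa [← stabPair_eq_of_mem hT.ne hT'.ne hg1 hab hn]
        by_cases hf : y ∈ fixPair a' b'
        · exact Or.inl (Or.inr ⟨Subgroup.mul_mem _ hg hy.1, mul_self_of_not_mem_fixPair hT'.ne
            (Subgroup.mul_mem _ h1 h2) fun h => hn ((Subgroup.mul_mem_cancel_right _ hf).1 h)⟩)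
        · exact Or.inl (Or.inl (Or.inr ⟨hy.1, mul_self_of_not_mem_fixPair hT'.ne h2 hf⟩))
      · rcases A4_invol e (g := ⟨g, left_mem_closure_pair _ _⟩) (y := ⟨y, right_mem_closure_pair _ _⟩)
          (Subtype.ext hg2) (fun h => hg1 (congrArg Subtype.val h)) with h1 | ⟨h1, h3⟩
        · exact Or.inl (Or.inl (Or.inr ⟨hy.1, congrArg Subtype.val h1⟩))
        · exact Or.inr ⟨hy.1, congrArg Subtype.val h1, congrArg Subtype.val h3⟩
    · rintro (((hy | hy) | hy) | hy)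
      · exact mem_sol_of_stabPair hy.1 hT.ne hgC.2 hy.2
      · exact mem_sol_of_invol hy.1 hg2 (Or.inl hy.2)
      · exact mem_sol_of_invol ((Subgroup.mul_mem_cancel_left _ hg).1 hy.1) hg2 (Or.inr hy.2)
      · exact ⟨hy.1, isSolvable_of_equiv (Tri.closure_equiv_A4 hg2 hy.2.1 hy.2.2 hg1) isSolvable_A4⟩
  have cT : 2 * Nat.card T = Nat.card F + 1 := by
    rw [← hT.card_fixPair_of_not_mem ha, ← hT.gcd_mul_card_inf, gcd_two_card_eq_two' h2]
  have cC : Nat.card C = 2 * Nat.card T := hT.card_inf_stabPair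
  have hdis : Disjoint ((C : Set PGL(2, F)) ∪ I ∪ {y | g * y ∈ I}) A := by
    rw [Set.disjoint_left]
    rintro y ((hy | hy) | hy) ⟨-, h1, h3⟩
    · have hy2 : y * y ≠ 1 := fun h => by
        rw [eq_one_of_two_three h h1, mul_one] at h3
        exact hg3 h3
      have hc : Commute g y := commute_of_mem_fixPair hT.ne hab
        (mem_fixPair_of_mul_self_ne hT.ne hy.2 hy2)
      rw [hc.mul_pow, h1, mul_one] at h3
      exact hg3 h3
    · rw [eq_one_of_two_three hy.2 h1, mul_one] at h3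
      exact hg3 h3
    · have h4 := eq_one_of_two_three hy.2 h3
      rw [eq_inv_of_mul_eq_one_right h4, inv_pow, inv_eq_one] at h1
      exact hg3 h1
  have cA : A.ncard = 2 * (Nat.card F + 1) := by
    have := Fintype.ofFinite (P1 F)
    have e : A = ⋃ c : P1 F, {y | y ∈ unip 3 c ∧ (g * y) ^ 3 = 1} := by
      ext y
      rw [Set.mem_iUnion]
      constructor
      · rintro ⟨-, h1, h3⟩
        obtain ⟨c, hc⟩ := pgl2_exists_fixed_of_pow_char 3 h1
        exact ⟨c, (mem_unip 3).2 ⟨hc, h1⟩, h3⟩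
      · rintro ⟨c, h1, h3⟩
        exact ⟨unip_le_psl2 3 c h1, ((mem_unip 3).1 h1).2, h3⟩
    rw [e, Set.ncard_iUnion_of_finite (fun _ => Set.toFinite _), finsum_eq_sum_of_fintype,
      Finset.sum_congr rfl fun c _ => fib 3 h2 hg hg2 (hnf c), Finset.sum_const, Finset.card_univ,
      ← Nat.card_eq_fintype_card, P1.card_eq, smul_eq_mul, mul_comm]
    intro c d hcd
    rw [Function.onFun, Set.disjoint_left]
    rintro y ⟨h1, h3⟩ ⟨h4, -⟩
    refine hcd (eq_of_mem_unip 3 h4 ?_ ((mem_unip 3).1 h1).1)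
    rintro rfl
    exact hg3 (by rwa [mul_one] at h3)
  have cI : 2 * I.ncard = Nat.card F * (Nat.card F - 1) + 2 := by
    have e : I = insert 1 {z : PGL(2, F) | z ∈ psl2 F ∧ z * z = 1 ∧ z • inf F ≠ inf F} := by
      ext y
      rw [Set.mem_insert_iff]
      constructor
      · intro hy
        by_cases h1 : y = 1
        · exact Or.inl h1
        · exact Or.inr ⟨hy.1, hy.2, not_fix_of_invol hq hy.1 hy.2 h1 _⟩
      · rintro (rfl | hy)
        · exact ⟨Subgroup.one_mem _, mul_one _⟩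
        · exact ⟨hy.1, hy.2.1⟩
    have c1 := gcd_mul_card_inf_stabilizer (inf F)
    rw [gcd_two_card_eq_two' h2] at c1
    rw [e, Set.ncard_insert_of_notMem (fun h => h.2.2 (one_smul _ _)), invol_count_inf, mul_add, c1]
  have cJ : (I ∩ C).ncard = Nat.card T + 2 := by
    have e : I ∩ C = ((C : Set PGL(2, F)) \ T) ∪ {1, g} := by
      ext y
      constructor
      · rintro ⟨hy, hyC⟩
        by_cases hyT : y ∈ T
        · right
          by_cases h1 : y = 1
          · exact Or.inl h1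
          · have := isCyclic_fixPair (F := F) hT.ne
            have := eq_of_cyclic' (G := fixPair a b) (x := ⟨y, hyT.2⟩) (y := ⟨g, hab⟩)
              (by rw [← Subgroup.orderOf_coe]; exact orderOf_eq_prime (by rw [sq]; exact hy.2) h1)
              (by rw [← Subgroup.orderOf_coe]; exact orderOf_eq_prime (by rw [sq]; exact hg2) hg1)
            exact Or.inr (congrArg Subtype.val this)
        · exact Or.inl ⟨hyC, hyT⟩
      · rintro (⟨h1, h3⟩ | rfl | rfl)
        · exact ⟨⟨h1.1, mul_self_of_not_mem_fixPair hT.ne h1.2 fun h => h3 ⟨h1.1, h⟩⟩, h1⟩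
        · exact ⟨⟨Subgroup.one_mem _, mul_one _⟩, Subgroup.one_mem _⟩
        · exact ⟨⟨hg, hg2⟩, hgC⟩
    have c1 := Set.ncard_sdiff_add_ncard_of_subset (s := (T : Set PGL(2, F))) (t := C)
      (inf_le_inf_left _ (fixPair_le_stabPair a b))
    have c2 : (C : Set PGL(2, F)).ncard = 2 * Nat.card T := cC
    have c3 : (T : Set PGL(2, F)).ncard = Nat.card T := rfl
    rw [e, Set.ncard_union_eq, Set.ncard_pair hg1.symm]
    · omega
    · rw [Set.disjoint_right]
      rintro y (rfl | rfl) h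
      · exact h.2 (Subgroup.one_mem _)
      · exact h.2 ⟨hg, hab⟩
  have c4 := Set.ncard_inter_add_ncard_sdiff_eq_ncard I C
  rw [e, Set.ncard_union_eq hdis, ncard_CI C hgC I, cA, cC]
  · obtain ⟨n, hn⟩ : ∃ n, Nat.card F = n + 1 := ⟨Nat.card F - 1, by omega⟩
    rw [hn] at cI cT ⊢
    rw [Nat.add_sub_cancel] at cI
    nlinarith
  · intro y hy hy'
    exact ⟨hy.1, mem_stabPair_of_commute hT.ne hg1 hab (comm_of_invol hg2 hy.2 hy'.2)⟩

theorem Min.order_three [CharP F 3] (h : Min F 3) (hq : Nat.card F % 4 = 3) {g : PGL(2, F)}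
    (hg3 : g ^ 3 = 1) (hg1 : g ≠ 1) : 2 * (sol g).ncard = Nat.card F * (Nat.card F + 5) := by
  have : Fact (Nat.Prime 3) := ⟨Nat.prime_three⟩
  have h2 : (2 : F) ≠ 0 := two_ne_zero_iff_odd.2 (Nat.odd_iff.2 (by omega))
  obtain ⟨c, hc⟩ := pgl2_exists_fixed_of_pow_char 3 hg3
  obtain ⟨k, rfl⟩ := pgl2_exists_smul_inf_eq c
  obtain ⟨t, rfl⟩ := exists_aff_one_of_pow_char 3 hc hg3
  rw [ncard_sol_conj]
  have ht : t ≠ 0 := by rintro rfl; exact hg1 (by rw [aff_one]; simp)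
  set x : PGL(2, F) := aff 1 t with hx
  have hu : x ∈ unip 3 (inf F) := (mem_unip_inf 3).2 ⟨t, rfl⟩
  have hx1 : x ≠ 1 := fun h => ht (aff_eq_one_iff.1 h).2
  have hx3 : x ^ 3 = 1 := ((mem_unip 3).1 hu).2
  have hxc : x • inf F = inf F := ((mem_unip 3).1 hu).1
  have hxP : x ∈ psl2 F := unip_le_psl2 3 _ hu
  set B := psl2 F ⊓ stabilizer PGL(2, F) (inf F) with hB
  set Z : Set PGL(2, F) :=
    {z | z ∈ psl2 F ∧ z * z = 1 ∧ z • inf F ≠ inf F ∧ (z * x) ^ 3 = 1} with hZ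
  have hxB : ∀ n : ℕ, x ^ n ∈ B := fun n => B.pow_mem ⟨hxP, hxc⟩ n
  have e : sol x = (B : Set PGL(2, F)) ∪ ⋃ k : Fin 3, {y | y * x ^ (k : ℕ) ∈ Z} := by
    ext y
    rw [Set.mem_union, Set.mem_iUnion]
    constructor
    · intro hy
      rcases h.cases hxP hy with ⟨c, h1, h3⟩ | ⟨a', b', hT', h1, -⟩ | ⟨-, e⟩
      · obtain rfl := eq_of_mem_unip 3 hu hx1 h1
        exact Or.inl ⟨hy.1, h3⟩
      · exact absurd hx3 (pow_char_ne_one hx1 hT'.ne (mem_fixPair_of_mul_self_ne hT'.ne h1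
          fun h => hx1 (eq_one_of_two_three h hx3)))
      · rcases A4_three e (g := ⟨x, left_mem_closure_pair _ _⟩) (y := ⟨y, right_mem_closure_pair _ _⟩)
          (Subtype.ext hx3) (fun h => hx1 (congrArg Subtype.val h)) with h1 | ⟨k, h1, h3, h4⟩
        · refine Or.inl ⟨hy.1, eq_of_mem_unip 3 hu hx1 ?_⟩
          have h1' : y * x = x * y := congrArg Subtype.val h1
          rw [← mul_smul, ← h1', mul_smul, hxc]
        · have hP := Subgroup.mul_mem _ hy.1 (hxB k).1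
          have h1' : y * x ^ (k : ℕ) * (y * x ^ (k : ℕ)) = 1 := congrArg Subtype.val h1
          exact Or.inr ⟨k, hP, h1', not_fix_of_invol hq hP h1' (fun h => h4 (Subtype.ext h)) _,
            congrArg Subtype.val h3⟩
    · rintro (hy | ⟨k, hy⟩)
      · exact mem_sol_of_fix 3 hy.1 hxc hy.2
      · refine ⟨(Subgroup.mul_mem_cancel_right _ (hxB k).1).1 hy.1, isSolvable_of_le
          (closure_pair_le (right_mem_closure_pair _ _) ?_) (isSolvable_of_equiv
          (Tri.closure_equiv_A4 hy.2.1 hx3 hy.2.2.2 fun h => hy.2.2.1 (by rw [h, one_smul]))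
          isSolvable_A4)⟩
        exact (Subgroup.mul_mem_cancel_right _ (Subgroup.pow_mem _ (right_mem_closure_pair _ _) k)).1
          (left_mem_closure_pair _ _)
  have cZ : ∀ k : Fin 3, {y | y * x ^ (k : ℕ) ∈ Z}.ncard = Nat.card F := by
    intro k
    rw [← Z_count ht]
    exact Set.ncard_congr (fun y _ => y * x ^ (k : ℕ)) (fun _ h => h)
      (fun a b _ _ h => mul_right_cancel h) fun z hz => ⟨z * (x ^ (k : ℕ))⁻¹, by
        change _ ∈ Z; rwa [inv_mul_cancel_right], inv_mul_cancel_right _ _⟩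
  have c1 := gcd_mul_card_inf_stabilizer (inf F)
  rw [gcd_two_card_eq_two' h2] at c1
  rw [e, Set.ncard_union_eq, Set.ncard_iUnion_of_finite (fun _ => Set.toFinite _),
    finsum_eq_sum_of_fintype, Finset.sum_congr rfl fun k _ => cZ k, Finset.sum_const,
    Finset.card_univ, Fintype.card_fin, smul_eq_mul, mul_add]
  · rw [show (B : Set PGL(2, F)).ncard = Nat.card B from rfl, c1]
    obtain ⟨n, hn⟩ : ∃ n, Nat.card F = n + 1 := ⟨Nat.card F - 1, by omega⟩
    rw [hn, Nat.add_sub_cancel]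
    ring
  · intro i j hij
    rw [Function.onFun, Set.disjoint_left]
    intro y h1 h3
    set z := y * x ^ (i : ℕ) with hz
    set w := (x ^ (i : ℕ))⁻¹ * x ^ (j : ℕ) with hw
    have hwu : w ∈ unip 3 (inf F) :=
      Subgroup.mul_mem _ (Subgroup.inv_mem _ (Subgroup.pow_mem _ hu _)) (Subgroup.pow_mem _ hu _)
    have hw1 : w ≠ 1 := by
      intro h
      rw [hw, inv_mul_eq_one] at h
      refine hij (Fin.ext (pow_injOn_Iio_orderOf ?_ ?_ h)) <;>
        simp [orderOf_eq_prime hx3 hx1]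
    have h4 : z * w * (z * w) = 1 := by
      have := h3.2.1
      rwa [show y * x ^ (j : ℕ) = z * w by rw [hz, hw]; group] at this
    have h5 : w * z = z * w⁻¹ := by
      have h6 : z⁻¹ = z := inv_eq_of_mul_eq_one_left h1.2.1
      rw [eq_mul_inv_iff_mul_eq, ← h6]
      exact eq_inv_of_mul_eq_one_right (by rw [← h4, h6]; group)
    refine h1.2.2.1 (eq_of_mem_unip 3 hwu hw1 ?_)
    rw [← mul_smul, h5, mul_smul, ((mem_unip 3).1 (Subgroup.inv_mem _ hwu)).1]
  · rw [Set.disjoint_left]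
    intro y hy h1
    obtain ⟨k, hk⟩ := Set.mem_iUnion.1 h1
    exact hk.2.2.1 (B.mul_mem hy (hxB k)).2

end Cfsg.Lib.Class.Sol
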