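import Cfsg.Agent.Known.PronBasic
import Cfsg.Agent.Chev.ClsSU
import Cfsg.Agent.Chev.AutBN

/-! Subgroups of odd index of linear and unitary groups in characteristic two are pronormal. -/

set_option autoImplicit false

namespace Cfsg.Lib.Known.Pron

open Cfsg Cfsg.Lib.Chev Cfsg.Lib.Class Cfsg.Lib.Class.Form Matrix

section
variable {ι A : Type} [Fintype ι] [DecidableEq ι] [DecidableEq A] {G : Type*} [Group G]
  {R : WeylData ι A} {Y : RGD R G}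

theorem oddPron_of_rgd (K : Subgroup G) [Finite K] (hU : IsPGroup 2 Y.U)
    (hH : ∀ h ∈ Y.H, ∀ k : ℕ, h ^ 2 ^ k = 1 → h = 1)
    (hc : ∀ a ∈ Y.H, ∀ b ∈ Y.H, a * b = b * a)
    (nf : ∀ g ∈ K, ∃ u ∈ Y.U ⊓ K, ∃ m ∈ Y.N ⊓ K, ∃ u' ∈ Y.U ⊓ K, g = u * m * u')
    (hB : ∀ g ∈ K, (∀ u ∈ Y.U ⊓ K, g * u * g⁻¹ ∈ Y.U) →
      ∃ u ∈ Y.U ⊓ K, ∃ h ∈ Y.H ⊓ K, g = u * h) : OddPron K := by
  have hU' : IsPGroup 2 (Y.U.subgroupOf K) := hU.comap_of_injective K.subtype K.subtype_injective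
  let P : Sylow 2 K := ⟨_, hU', fun {Q} hQ hle => by
    by_contra hne
    obtain ⟨g, hg, h1, h2⟩ := exists_mem_normalizer_of_lt hQ (lt_of_le_of_ne hle (Ne.symm hne))
    obtain ⟨u, hu, h, hh, e⟩ := hB g g.2 fun u hu => h2 ⟨u, hu.2⟩ hu.1
    have h4 : (⟨h, hh.2⟩ : K) ∈ Q := by
      have : (⟨h, hh.2⟩ : K) = (⟨u, hu.2⟩ : K)⁻¹ * g := Subtype.ext (by simp [e])
      rw [this]
      exact mul_mem (Subgroup.inv_mem _ (hle hu.1)) hg
    obtain ⟨k, hk⟩ := hQ ⟨_, h4⟩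
    have h5 := hH h hh.1 k (congrArg (fun y : Q => ((y : K) : G)) hk)
    exact h1 (show (g : G) ∈ Y.U by simpa [e, h5] using hu.1)⟩
  have hP : ∀ x : K, x ∈ (P : Subgroup K) ↔ (x : G) ∈ Y.U := fun x => Iff.rfl
  refine OddPron.of_sylow P fun H hH' => isPronormal_of_split P (Y.H.subgroupOf K)
    (Y.N.subgroupOf K) (fun a ha b hb => Subtype.ext (hc _ ha _ hb)) (fun t ht u hu => ?_)
    (fun n hn t ht => ?_) (fun g hg => ?_) (fun g => ?_) hH'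
  · exact (Subgroup.mem_normalizer_iff.1 (Y.H_le_normalizer_U ht) u).1 hu
  · have := (Subgroup.mem_normalizer_iff.1 (Y.N_le_normalizer_H (inv_mem hn)) t).1 ht
    rw [inv_inv] at this
    exact this
  · obtain ⟨u, hu, h, hh, e⟩ := hB g g.2 fun u hu =>
      (Subgroup.mem_normalizer_iff.1 hg ⟨u, hu.2⟩).1 hu.1
    exact ⟨⟨u, hu.2⟩, hu.1, ⟨h, hh.2⟩, hh.1, Subtype.ext e⟩
  · obtain ⟨u, hu, m, hm, u', hu', e⟩ := nf g g.2
    exact ⟨⟨u, hu.2⟩, hu.1, ⟨m, hm.2⟩, hm.1, ⟨u', hu'.2⟩, hu'.1, Subtype.ext e⟩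

end

variable {F : Type*} [Field F] [Fintype F]

theorem slGr_H_odd [CharP F 2] {n : ℕ} (h : SpecialLinearGroup (Fin (n + 1)) F)
    (hh : h ∈ (slGr n F).rgd.H) (k : ℕ) (e : h ^ 2 ^ k = 1) : h = 1 := by
  refine eq_one_of_odd_of_two (Odd.of_dvd_nat ?_ (orderOf_dvd_of_pow_eq_one
    ((slGr n F).H_pow slGr_wt_injective hh))) e
  obtain ⟨m, -, hm⟩ := FiniteField.card F 2
  rw [hm]
  exact Nat.Even.sub_odd Nat.one_le_two_pow ((Nat.even_pow' m.ne_zero).2 even_two) odd_one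

theorem oddPron_SL_even [CharP F 2] (n : ℕ) : OddPron (SpecialLinearGroup (Fin (n + 1)) F) := by
  have hY := (slGr n F).faithful
  refine OddPron.of_surjective (⊤ : Subgroup _).subtype (fun g => ⟨⟨g, trivial⟩, rfl⟩)
    (oddPron_of_rgd (Y := (slGr n F).rgd) ⊤ ((slGr n F).isPGroup_U 2) slGr_H_odd
      (fun a ha b hb => (slGr n F).H_comm slGr_wt_injective ha hb) (fun g _ => ?_) fun g _ h => ?_)
  · obtain ⟨w, hw⟩ := RGD.mem_G0_iff.1 (slGr_G0.ge (Subgroup.mem_top g))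
    obtain ⟨u, hu, m, hm, u', hu', e⟩ := RGD.exists_normal_form' hw
    exact ⟨u, ⟨hu, trivial⟩, m, ⟨hm.mem_N, trivial⟩, u', ⟨RGD.Uneg_le_U _ w hu', trivial⟩, e⟩
  · have h1 : g ∈ (slGr n F).rgd.B := by
      rw [← RGD.P_empty]
      exact hY.mem_P_of_conj_U (slGr_G0.ge (Subgroup.mem_top g)) fun u hu => by
        rw [RGD.P_empty]; exact RGD.U_le_B _ (h u ⟨hu, trivial⟩)
    obtain ⟨u, hu, t, ht, e⟩ := (RGD.mem_B_iff _).1 h1
    exact ⟨u, ⟨hu, trivial⟩, t, ⟨ht, trivial⟩, e⟩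

theorem oddPron_SU_even [CharP F 2] {q : ℕ} (hF : Fintype.card F = q ^ 2) (n : ℕ) :
    OddPron (SU (n + 1) F q) := by
  have hY := (slGr n F).faithful
  obtain ⟨e⟩ := nonempty_suTw_F_equiv (n := n) hF
  set T := suTw n (frobq_ne_id hF) (frobq_frobq hF)
  refine OddPron.of_surjective e.toMonoidHom e.surjective
    (oddPron_of_rgd (Y := (slGr n F).rgd) T.F ((slGr n F).isPGroup_U 2) slGr_H_odd
      (fun a ha b hb => (slGr n F).H_comm slGr_wt_injective ha hb) (fun g hg => ?_)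
      fun g hg h => ?_)
  · obtain ⟨w, -, u, hu, m, hm, hl, u', hu', e⟩ := T.exists_normal_form_F hY hg
    exact ⟨u, hu, m, ⟨hl.mem_N, hm⟩, u', ⟨RGD.Uneg_le_U _ w hu'.1, hu'.2⟩, e⟩
  · obtain ⟨u, hu, t, ht, e⟩ := (RGD.mem_B_iff _).1
      (T.mem_B_of_conj hY hg fun u hu => RGD.U_le_B _ (h u hu))
    obtain ⟨h1, h2⟩ := T.split_B hY hu ht (e ▸ hg)
    exact ⟨u, ⟨hu, h1⟩, t, ⟨ht, h2⟩, e⟩

end Cfsg.Lib.Known.Pron
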