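import Cfsg.Agent.Known.RUBase

/-!
`SL₃(q)` is generated by two conjugate regular unipotent elements.
-/

set_option autoImplicit false

namespace Cfsg.Lib.Known.RU

open Module Cfsg.Lib.Class Matrix
open scoped MatrixGroups

variable {F : Type*} [Field F]

theorem lin3 (U : SL(3, F)) (z : Fin 3 → F) : U.toLin' z =
    ![U 0 0 * z 0 + U 0 1 * z 1 + U 0 2 * z 2, U 1 0 * z 0 + U 1 1 * z 1 + U 1 2 * z 2,
      U 2 0 * z 0 + U 2 1 * z 1 + U 2 2 * z 2] := by
  ext i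
  fin_cases i <;> simp [SpecialLinearGroup.toLin'_apply, mulVec, dotProduct, Fin.sum_univ_three]

omit [Field F] in
theorem vec3_ext {x y : Fin 3 → F} (h0 : x 0 = y 0) (h1 : x 1 = y 1) (h2 : x 2 = y 2) : x = y := by
  ext i; fin_cases i; exacts [h0, h1, h2]

theorem top3 {W : Submodule F (Fin 3 → F)} (h0 : ![1, 0, 0] ∈ W) (h1 : ![0, 1, 0] ∈ W)
    (h2 : ![0, 0, 1] ∈ W) : W = ⊤ := eq_top_iff.2 fun z _ => by
  have := W.add_mem (W.add_mem (W.smul_mem (z 0) h0) (W.smul_mem (z 1) h1)) (W.smul_mem (z 2) h2)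
  convert this using 1
  apply vec3_ext <;> simp

/-- First generator, odd characteristic. -/
def u3 (a : F) : SL(3, F) := ⟨!![a, (a + 1) ^ 3, -(a ^ 2 + 3); 0, -a, 1; 1, 0, 3], by
  simp [det_fin_three]; ring⟩

/-- Quotient of the two generators, odd characteristic. -/
def g3 (a : F) : SL(3, F) := ⟨!![-1, -2 * (a ^ 2 + 3), 0; 0, -1, 0; 0, 0, 1], by
  simp [det_fin_three]⟩

/-- Conjugating element, odd characteristic. -/
def h3 (a : F) : SL(3, F) := ⟨!![1, 4 * a ^ 2 + 6 * a + 6, -2 * a; 0, -1, 0; 0, 2 * a, -1], by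
  simp [det_fin_three]⟩

theorem u3_apply (a : F) (z : Fin 3 → F) : (u3 a).toLin' z =
    ![a * z 0 + (a + 1) ^ 3 * z 1 - (a ^ 2 + 3) * z 2, -a * z 1 + z 2, z 0 + 3 * z 2] := by
  rw [lin3]; apply vec3_ext <;> simp [u3]
  ring

theorem g3_apply (a : F) (z : Fin 3 → F) : (g3 a).toLin' z =
    ![-z 0 - 2 * (a ^ 2 + 3) * z 1, -z 1, z 2] := by
  rw [lin3]; apply vec3_ext <;> simp [g3]
  ring

theorem h3_conj (a : F) : h3 a * u3 a * (h3 a)⁻¹ = u3 a * g3 a := by
  rw [mul_inv_eq_iff_eq_mul]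
  apply SpecialLinearGroup.toLin'_injective
  ext1 z
  simp only [map_mul, LinearEquiv.mul_apply, u3_apply, g3_apply, lin3 (h3 a)]
  apply vec3_ext <;> simp [h3] <;> ring

theorem reg_u3 (a : F) : IsNilpotent ((u3 a : Matrix (Fin 3) (Fin 3) F) - 1) ∧
    ((u3 a : Matrix (Fin 3) (Fin 3) F) - 1) ^ (3 - 1) ≠ 0 := by
  have e : (u3 a : Matrix (Fin 3) (Fin 3) F) - 1 =
      !![a - 1, (a + 1) ^ 3, -(a ^ 2 + 3); 0, -a - 1, 1; 1, 0, 2] := by
    ext i j
    fin_cases i <;> fin_cases j <;> simp [u3]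
    norm_num
  rw [e]
  refine ⟨⟨3, ?_⟩, fun h => ?_⟩
  · ext i j
    fin_cases i <;> fin_cases j <;> simp [pow_succ, mul_apply, Fin.sum_univ_three] <;> ring
  · simpa [pow_succ, mul_apply, Fin.sum_univ_three] using congrFun (congrFun h 1) 0

theorem gen3_odd [Finite F] (h2 : (2 : F) ≠ 0) {a : F} (ha : a ^ 2 + 3 ≠ 0)
    (hgen : ∀ R : Subring F, a ∈ R → R = ⊤) (M : Subgroup ((Fin 3 → F) ≃ₗ[F] (Fin 3 → F)))
    (hu : (u3 a).toLin' ∈ M) (hg : (g3 a).toLin' ∈ M) : SLV F (Fin 3 → F) ≤ M := by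
  set s := 4 * (a ^ 2 + 3) with hs
  have hs0 : s ≠ 0 := mul_ne_zero (by rw [show (4 : F) = 2 * 2 by norm_num]; simp [h2]) ha
  let f : Dual F (Fin 3 → F) := LinearMap.proj 1
  have hf : ∀ z, f z = z 1 := fun _ => rfl
  have t : TvIn M ![s, 0, 0] f := by
    refine ⟨by simp [hf], _, M.mul_mem hg hg, fun z => ?_⟩
    apply vec3_ext <;> simp [g3_apply, hf, hs]
    ring
  have e1 : f ((u3 a).toLin' ![s, 0, 0]) = 0 := by simp [hf, u3_apply]
  have e2 : f ((u3 a).toLin'.symm ![s, 0, 0]) = s := by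
    have : (u3 a).toLin'.symm ![s, 0, 0] = ![-3 * a * s, s, a * s] := by
      rw [LinearEquiv.symm_apply_eq]
      apply vec3_ext <;> simp [u3_apply] <;> ring
    rw [this]; rfl
  have r1 := mulRing_cycle hu t e1
  have r2 := mulRing_neg hu hg t e1 (r := -2 * a) (by simp [hf, g3_apply]) (by
    apply vec3_ext <;> simp [u3_apply, g3_apply]
    ring)
  rw [e2] at r1 r2
  rw [show f ((u3 a).toLin' ((u3 a).toLin' ![s, 0, 0])) = s by simp [hf, u3_apply]] at r1
  set R := mulRing M ![s, 0, 0] f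
  have k2 : (2 : F) ∈ R := by exact_mod_cast natCast_mem R 2
  have k3 : (3 : F) ∈ R := by exact_mod_cast natCast_mem R 3
  have r3 : a * s ∈ R := mem_of_mul_mem R (b := -2) (by convert r2 using 1; ring) (R.neg_mem k2)
    (neg_ne_zero.2 h2)
  have r4 : a ^ 3 ∈ R := mem_of_mul_mem R (b := s * s ^ 2) (by
    convert R.pow_mem r3 3 using 1; ring) r1 (by simp [hs0])
  have r5 : a ∈ R := by
    by_cases h3 : (3 : F) = 0
    · exact mem_of_pow_char R Nat.prime_three (by exact_mod_cast h3) r4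
    · refine mem_of_mul_mem R (b := 2 * 2 * 3) ?_ (R.mul_mem (R.mul_mem k2 k2) k3) (by simp [h2, h3])
      convert R.sub_mem r3 (R.mul_mem (R.mul_mem k2 k2) r4) using 1
      rw [hs]; ring
  refine SLV_le_of_edge hu (cen_of_mulRing t (hgen _ r5)) e1 (by rwa [e2]) (fun W h0 hW => ?_)
    fun z hz => ?_
  · have w0 : ![1, 0, 0] ∈ W := by
      convert W.smul_mem s⁻¹ h0 using 1
      apply vec3_ext <;> simp [hs0]
    have w2 : ![0, 0, 1] ∈ W := by
      convert W.sub_mem (hW _ w0) (W.smul_mem a w0) using 1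
      apply vec3_ext <;> simp [u3_apply]
    refine top3 w0 ?_ w2
    convert W.sub_mem (W.add_mem (hW _ w2) (W.smul_mem (a ^ 2 + 3) w0)) (W.smul_mem 3 w2) using 1
    apply vec3_ext <;> simp [u3_apply]
  · have z1 := hz 1 M.one_mem
    have z2 := hz _ hu
    have z3 := hz _ (M.mul_mem hu hu)
    simp [hf, u3_apply] at z1 z2 z3
    simp [z1] at z2
    simp [z1, z2] at z3
    apply vec3_ext <;> simp [z1, z2, z3]

/-- First generator, characteristic two. -/
def u3' (c : F) : SL(3, F) := ⟨!![1, 1, c; 0, 1, 1; 0, 0, 1], by simp [det_fin_three]⟩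

/-- Second generator, characteristic two. -/
def v3' : SL(3, F) := ⟨!![0, 0, 1; 1, 0, -3; 0, 1, 3], by simp [det_fin_three]⟩

/-- Conjugating element, characteristic two. -/
def h3' (c : F) : SL(3, F) := ⟨!![-1, 1 + c, -1; 2, -1 - 2 * c, 0; -1, c, 0], by
  simp [det_fin_three]⟩

theorem u3'_apply (c : F) (z : Fin 3 → F) : (u3' c).toLin' z =
    ![z 0 + z 1 + c * z 2, z 1 + z 2, z 2] := by
  rw [lin3]; apply vec3_ext <;> simp [u3']

theorem v3'_apply (z : Fin 3 → F) : v3'.toLin' z = ![z 2, z 0 - 3 * z 2, z 1 + 3 * z 2] := by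
  rw [lin3]; apply vec3_ext <;> simp [v3']
  ring

theorem h3'_conj (c : F) : h3' c * u3' c * (h3' c)⁻¹ = v3' := by
  rw [mul_inv_eq_iff_eq_mul]
  apply SpecialLinearGroup.toLin'_injective
  ext1 z
  simp only [map_mul, LinearEquiv.mul_apply, u3'_apply, v3'_apply, lin3 (h3' c)]
  apply vec3_ext <;> simp [h3'] <;> ring

theorem reg_u3' (c : F) : IsNilpotent ((u3' c : Matrix (Fin 3) (Fin 3) F) - 1) ∧
    ((u3' c : Matrix (Fin 3) (Fin 3) F) - 1) ^ (3 - 1) ≠ 0 := by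
  have e : (u3' c : Matrix (Fin 3) (Fin 3) F) - 1 = !![0, 1, c; 0, 0, 1; 0, 0, 0] := by
    ext i j
    fin_cases i <;> fin_cases j <;> simp [u3']
  rw [e]
  refine ⟨⟨3, ?_⟩, fun h => ?_⟩
  · ext i j
    fin_cases i <;> fin_cases j <;> simp [pow_succ, mul_apply, Fin.sum_univ_three]
  · simpa [pow_succ, mul_apply, Fin.sum_univ_three] using congrFun (congrFun h 0) 2

theorem gen3_even (h2 : (2 : F) = 0) {c : F}
    (hgen : ∀ R : Subring F, c ∈ R → R = ⊤) (M : Subgroup ((Fin 3 → F) ≃ₗ[F] (Fin 3 → F)))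
    (hu : (u3' c).toLin' ∈ M) (hv : v3'.toLin' ∈ M) : SLV F (Fin 3 → F) ≤ M := by
  let f : Dual F (Fin 3 → F) := LinearMap.proj 2
  have hf : ∀ z, f z = z 2 := fun _ => rfl
  have t : TvIn M ![1, 0, 0] f := by
    refine ⟨by simp [hf], _, M.mul_mem hu hu, fun z => ?_⟩
    apply vec3_ext <;> simp [u3'_apply, hf]
    · linear_combination (z 1 + c * z 2) * h2
    · linear_combination (z 2) * h2
  have e0 : (v3' (F := F)).toLin' ![1, 0, 0] = ![0, 1, 0] := by
    apply vec3_ext <;> simp [v3'_apply]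
  have e1 : f (v3'.toLin' ![1, 0, 0]) = 0 := by simp [hf, e0]
  have e2 : f (v3'.toLin'.symm ![1, 0, 0]) = 1 := by
    have : (v3' (F := F)).toLin'.symm ![1, 0, 0] = ![3, -3, 1] := by
      rw [LinearEquiv.symm_apply_eq]
      apply vec3_ext <;> simp [v3'_apply]
    rw [this]; rfl
  have t' : TvIn M ((1 : F) • ![1, 0, 0]) f := by rwa [one_smul]
  have t1 := chain1 hv e1 t' t'
  rw [e2, one_mul, one_mul, one_smul] at t1
  have t2 := t1.conj (M.inv_mem hv) (ψ := f ∘ₗ (v3' (F := F)).toLin'.toLinearMap) (by simp)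
  rw [LinearEquiv.coe_inv, LinearEquiv.symm_apply_apply] at t2
  have t3 : TvIn M (c • ![1, 0, 0]) f := by
    obtain ⟨-, k, hk, ek⟩ := t1
    obtain ⟨-, k', hk', ek'⟩ := t2
    refine ⟨by simp [hf], _, M.mul_mem hk' (M.mul_mem hu hk), fun z => ?_⟩
    apply vec3_ext <;> simp [ek, ek', e0, u3'_apply, v3'_apply, hf, vecHead, vecTail]
    · linear_combination (z 1 + 3 * z 2) * h2
    · linear_combination (z 2) * h2
  have r := mulRing_fix hv hu t3 e1 (r := 1) (by simp [hf, u3'_apply]) (by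
    apply vec3_ext <;> simp [e0, u3'_apply])
  rw [e2, one_mul, one_mul] at r
  refine SLV_le_of_edge hv (cen_of_mulRing t (hgen _ r)) e1 (by simp [e2]) (fun W h0 hW => ?_)
    fun z hz => ?_
  · have w1 := hW _ h0
    rw [e0] at w1
    refine top3 h0 w1 ?_
    convert hW _ w1 using 1
    apply vec3_ext <;> simp [v3'_apply]
  · have z1 := hz 1 M.one_mem
    have z2 := hz _ hv
    have z3 := hz _ (M.mul_mem hv hv)
    simp [hf, v3'_apply] at z1 z2 z3
    simp [z1] at z2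
    simp [z1, z2] at z3
    apply vec3_ext <;> simp [z1, z2, z3]

theorem exists_gen_sq [Finite F] (h2 : (2 : F) ≠ 0) :
    ∃ a : F, a ^ 2 + 3 ≠ 0 ∧ ∀ R : Subring F, a ∈ R → R = ⊤ := by
  obtain ⟨θ, -, h⟩ := exists_gen (F := F)
  by_contra hn
  push Not at hn
  have k : ∀ b : F, (∀ R : Subring F, b ∈ R) → (θ + b) ^ 2 + 3 = 0 := fun b hb => by
    by_contra e
    obtain ⟨R, h1, h3⟩ := hn _ e
    exact h3 (h R (by simpa using R.sub_mem h1 (hb R)))
  have k0 := k 0 fun R => R.zero_mem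
  have k1 := k 1 fun R => R.one_mem
  have k2 := k (-1) fun R => R.neg_mem R.one_mem
  exact h2 (by linear_combination k1 + k2 - 2 * k0)

theorem two_gen3 [Finite F] : ∃ u g : SL(3, F), IsNilpotent ((u : Matrix (Fin 3) (Fin 3) F) - 1) ∧
    ((u : Matrix (Fin 3) (Fin 3) F) - 1) ^ (3 - 1) ≠ 0 ∧
    Subgroup.closure ({u, g * u * g⁻¹} : Set SL(3, F)) = ⊤ := by
  by_cases h2 : (2 : F) = 0
  · obtain ⟨c, -, h⟩ := exists_gen (F := F)
    refine ⟨u3' c, h3' c, (reg_u3' c).1, (reg_u3' c).2, eq_top_of_SLV_le _ (gen3_even h2 h _ ?_ ?_)⟩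
    · exact ⟨_, Subgroup.subset_closure (by simp), rfl⟩
    · exact ⟨_, Subgroup.subset_closure (by simp [h3'_conj]), rfl⟩
  · obtain ⟨a, ha, h⟩ := exists_gen_sq h2
    refine ⟨u3 a, h3 a, (reg_u3 a).1, (reg_u3 a).2, eq_top_of_SLV_le _ (gen3_odd h2 ha h _ ?_ ?_)⟩
    · exact ⟨_, Subgroup.subset_closure (by simp), rfl⟩
    · refine ⟨_, ?_, rfl⟩
      rw [h3_conj, show g3 a = (u3 a)⁻¹ * (u3 a * g3 a) by group]
      refine mul_mem (inv_mem (Subgroup.subset_closure (by simp))) (Subgroup.subset_closure ?_)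
      simp

end Cfsg.Lib.Known.RU
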