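import Cfsg.Agent.Known.RUJordan

/-!
Generation of `SL_n(q)`, `n ≥ 4`, by two regular unipotent elements.
-/

set_option autoImplicit false

namespace Cfsg.Lib.Known.RU

open Module Cfsg.Lib.Class Matrix

section
variable {F V : Type*} [Field F] [AddCommGroup V] [Module F V] {M : Subgroup (V ≃ₗ[F] V)}

/-- Two unipotent elements `u` and `u g` whose flags are in Coxeter position. -/
structure Cox (M : Subgroup (V ≃ₗ[F] V)) (u g : V ≃ₗ[F] V) (y l : V) (η : Dual F V) (c : F) :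
    Prop where
  hu : u ∈ M
  hg : g ∈ M
  eg : ∀ z, g z = z + η z • c • u y - (η (u z) - η z) • l
  ul : u l = l
  el : η l = 1
  e2 : η (u (u y)) = 0
  e1 : c * η (u y) = -4

variable {u g : V ≃ₗ[F] V} {y l : V} {η : Dual F V} {c : F}

namespace Cox

variable (h : Cox M u g y l η c)
include h

theorem eta_g (z : V) : η (g z) = -2 * η z - η (u z) := by
  rw [h.eg]
  simp only [map_sub, map_add, map_smul, smul_eq_mul, h.e1, h.el]
  ring

theorem eta_ug (z : V) : η (u (g z)) = η z := by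
  rw [h.eg]
  simp only [map_sub, map_add, map_smul, smul_eq_mul, h.e2, h.el, h.ul]
  ring

theorem tv : TvIn M (c • u y + (2 : F) • l) (-(η ∘ₗ (u : V →ₗ[F] V) + η)) := by
  refine ⟨?_, _, M.mul_mem h.hg h.hg, fun z => ?_⟩
  · simp only [LinearMap.neg_apply, LinearMap.add_apply, LinearMap.comp_apply, LinearEquiv.coe_coe,
      map_add, map_smul, smul_eq_mul, h.e2, h.el, h.ul]
    linear_combination (-1) * h.e1
  · rw [LinearEquiv.mul_apply, h.eg, h.eta_g, h.eta_ug, h.eg]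
    simp only [LinearMap.neg_apply, LinearMap.add_apply, LinearMap.comp_apply, LinearEquiv.coe_coe]
    module

theorem f_g (z : V) : (-(η ∘ₗ (u : V →ₗ[F] V) + η)) (g z) = -(-(η ∘ₗ (u : V →ₗ[F] V) + η)) z := by
  simp only [LinearMap.neg_apply, LinearMap.add_apply, LinearMap.comp_apply, LinearEquiv.coe_coe,
    h.eta_g, h.eta_ug]
  ring

theorem symm_x : u.symm (c • u y + (2 : F) • l) = c • y + (2 : F) • l := by
  rw [LinearEquiv.symm_apply_eq, map_add, map_smul, map_smul, h.ul]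

theorem f_symm : (-(η ∘ₗ (u : V →ₗ[F] V) + η)) (u.symm (c • u y + (2 : F) • l)) = -(c * η y) := by
  rw [h.symm_x]
  simp only [LinearMap.neg_apply, LinearMap.add_apply, LinearMap.comp_apply, LinearEquiv.coe_coe,
    map_add, map_smul, smul_eq_mul, h.el, h.ul]
  linear_combination (-1) * h.e1

theorem f_u (e3 : c * η (u (u (u y))) = -4) :
    (-(η ∘ₗ (u : V →ₗ[F] V) + η)) (u (c • u y + (2 : F) • l)) = 0 := by
  simp only [LinearMap.neg_apply, LinearMap.add_apply, LinearMap.comp_apply, LinearEquiv.coe_coe,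
    map_add, map_smul, smul_eq_mul, h.e2, h.el, h.ul]
  linear_combination (-1) * e3

theorem mul_odd (e3 : c * η (u (u (u y))) = -4) :
    2 * -(c * η y) ∈ mulRing M (c • u y + (2 : F) • l) (-(η ∘ₗ (u : V →ₗ[F] V) + η)) := by
  rw [← h.f_symm]
  refine mulRing_neg h.hu h.hg h.tv (h.f_u e3) h.f_g ?_
  rw [h.eg]
  simp only [map_add, map_smul, smul_eq_mul, h.e2, h.el, h.ul, e3]
  module

theorem mul_even (h2 : (2 : F) = 0) (e3 : c * η (u (u (u y))) = -4) :
    (c * η y) ^ 3 * (c * η (u (u (u (u y))))) ∈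
      mulRing M (c • u y + (2 : F) • l) (-(η ∘ₗ (u : V →ₗ[F] V) + η)) := by
  have h4 : (-4 : F) = 0 := by linear_combination (-2) * h2
  have e1 := h.e1
  have t := h.tv
  have fs := h.f_symm
  have fu := h.f_u e3
  rw [h4] at e1 e3
  rw [h2, zero_smul, add_zero] at t fs fu ⊢
  set f := -(η ∘ₗ (u : V →ₗ[F] V) + η) with hf
  have ef : ∀ z, f z = -(η (u z) + η z) := fun _ => rfl
  intro d hd
  have gx : g (u (c • u y)) = u (c • u y) := by
    rw [h.eg]; simp [h.e2, e3]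
  have a1 := hd.conj' h.hu
  have a2 := a1.conj (M.inv_mem h.hg) (ψ := f ∘ₗ (u.symm : V →ₗ[F] V) ∘ₗ (g : V →ₗ[F] V)) (by simp)
  rw [map_smul, map_smul, ← gx, LinearEquiv.coe_inv, LinearEquiv.symm_apply_apply] at a2
  rw [map_smul] at a1
  have a3 := a2.sub_right a1
  have ul' : u.symm l = l := by rw [LinearEquiv.symm_apply_eq, h.ul]
  have e4 : f ∘ₗ (u.symm : V →ₗ[F] V) ∘ₗ (g : V →ₗ[F] V) - f ∘ₗ (u.symm : V →ₗ[F] V) =
      (-(c * η y)) • η := by
    ext z
    simp only [LinearMap.sub_apply, LinearMap.comp_apply, LinearEquiv.coe_coe, h.eg z, map_sub,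
      map_add, map_smul, ul', LinearEquiv.symm_apply_apply, LinearMap.smul_apply, smul_eq_mul, ef,
      h.ul, h.el]
    linear_combination (-η z) * e1 + (η (u z) - η z) * h2
  rw [e4, ← TvIn.smul_iff] at a3
  have e5 : η (u (u (c • u y))) = 0 := by simp [e3]
  have e6 : η (u (u (u (c • u y)))) = c * η (u (u (u (u y)))) := by simp
  generalize c • u y = x at *
  have a4 := a3.comm ((t.conj' h.hu).conj' h.hu) e5
  have a5 := (a4.conj (M.inv_mem h.hu) (ψ := η ∘ₗ (u : V →ₗ[F] V)) (by simp)).conj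
    (M.inv_mem h.hu) (ψ := η ∘ₗ (u : V →ₗ[F] V) ∘ₗ (u : V →ₗ[F] V)) (by simp)
  have t' : TvIn M ((1 : F) • x) f := by rwa [one_smul]
  have a6 := (chain1 h.hu fu t' t').comm a5 (by simp [t.1])
  simp only [map_smul, LinearMap.comp_apply, LinearEquiv.coe_coe, LinearEquiv.coe_inv,
    LinearEquiv.symm_apply_apply, fs, e6, smul_eq_mul, smul_smul] at a6
  convert a6.neg_left using 1
  rw [← neg_smul]
  congr 1
  ring

end Cox
end

variable {F : Type*} [Field F] {n : ℕ}

theorem exists_shift (hn : 0 < n) {c : F} (hc : c ≠ 0) :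
    ∃ P : (Fin n → F) ≃ₗ[F] (Fin n → F), (c = -1 → P ∈ SLV F (Fin n → F)) ∧
      P (E F n 0) = E F n (n - 1) ∧ ∀ k, k + 1 < n → P (E F n (k + 1)) = c • E F n k := by
  obtain ⟨m, rfl⟩ : ∃ m, n = m + 1 := ⟨n - 1, by omega⟩
  let d : ℕ → F := fun i => if i = 0 then 1 else c
  let A : Matrix (Fin (m + 1)) (Fin (m + 1)) F :=
    (diagonal fun i : Fin (m + 1) => d i).submatrix (finRotate (m + 1)) id
  have hA : A.det = (-c) ^ m := by
    rw [det_permute, det_diagonal, Fin.prod_univ_succ, sign_finRotate, neg_pow c]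
    simp [d]
  have hE : ∀ i : Fin (m + 1), A *ᵥ E F (m + 1) i =
      fun j : Fin (m + 1) => if (if (j : ℕ) = m then 0 else (j : ℕ) + 1) = i then d i else 0 := by
    intro i
    rw [mulVec_E]
    ext j
    simp only [A, submatrix_apply, id, diagonal_apply, Fin.ext_iff, coe_finRotate, Fin.val_last]
    split_ifs with h1 h2 h3 <;> simp_all
  refine ⟨glLin _ F (GeneralLinearGroup.mkOfDetNeZero A (by simp [hA, hc])), fun h => ?_, ?_,
    fun k hk => ?_⟩
  · rw [MonoidHom.mem_ker, det_glLin]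
    ext
    simp [hA, h]
  · refine (hE 0).trans (funext fun j => ?_)
    by_cases h : (j : ℕ) = m <;> simp [E, h, d]
  · refine (hE ⟨k + 1, hk⟩).trans (funext fun j => ?_)
    by_cases h : (j : ℕ) = m
    · simp [E, h]; omega
    · simp [E, h, d]

theorem exists_cox (hn : 2 ≤ n) {c : F} (hc : c ≠ 0) {η : Dual F (Fin n → F)}
    (h0 : η (E F n 0) = 0) (h1 : η (E F n (n - 1)) = 1) :
    ∃ h : (Fin n → F) ≃ₗ[F] (Fin n → F), (c = -1 → h ∈ SLV F (Fin n → F)) ∧
      ∀ z, (h * uJ F n * h⁻¹) z =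
        uJ F n z + η z • c • E F n 0 - (η (uJ F n z) - η z) • E F n (n - 1) := by
  obtain ⟨P, hP, p0, p1⟩ := exists_shift (F := F) (n := n) (by omega) hc
  have hb : (fL F n - η) (E F n (n - 1)) = 0 := by simp [fL_E (F := F) (n := n) (by omega), h1]
  let T := LinearEquiv.transvection hb
  have hT : ∀ z, T z = z + (fL F n - η) z • E F n (n - 1) := fun _ => rfl
  have q0 : T (P (E F n 0)) = E F n (n - 1) := by rw [p0, hT, hb, zero_smul, add_zero]
  have q1 : ∀ k, T (P (E F n (k + 1))) = c • (E F n k - η (E F n k) • E F n (n - 1)) := fun k => by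
    rcases lt_trichotomy (k + 1) n with h | h | h
    · rw [p1 k h, map_smul, hT, LinearMap.sub_apply, fL_E (by omega), if_neg (by omega)]
      module
    · rw [E_of_le (by omega), show k = n - 1 by omega, h1]; simp
    · rw [E_of_le (by omega), E_of_le (i := k) (by omega)]; simp
  refine ⟨T * P, fun h => mul_mem (mem_SLV_of_tv hb hT) (hP h), fun z => ?_⟩
  obtain ⟨z, rfl⟩ := (T * P).surjective z
  let u := (uJ F n).toLinearMap
  have key : (T * P).toLinearMap ∘ₗ u = (u + η.smulRight (c • E F n 0) -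
      (η ∘ₗ u - η).smulRight (E F n (n - 1))) ∘ₗ (T * P).toLinearMap := lin_ext fun i _ => by
    simp only [LinearMap.comp_apply, LinearEquiv.coe_coe, LinearEquiv.mul_apply, u, uJ_E, map_add,
      LinearMap.sub_apply, LinearMap.add_apply, LinearMap.smulRight_apply]
    rcases i with _ | i
    · rw [q0, q1, h0, uJ_last, h1]; module
    · rw [q1, q1]
      simp only [map_smul, map_sub, map_add, uJ_last, uJ_E i, h1, smul_eq_mul]
      module
  have := LinearMap.congr_fun key z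
  simpa [u] using this

theorem cox_of (hn : 2 ≤ n) {c : F} (hc : c ≠ 0) (κ : ℕ → F) (h1 : κ (n - 1) = 1)
    (hκ : ∀ i, n ≤ i → κ i = 0) (h2 : κ 0 + 2 * κ 1 + κ 2 = 0) (h3 : c * (κ 0 + κ 1) = -4) :
    ∃ h : (Fin n → F) ≃ₗ[F] (Fin n → F), (c = -1 → h ∈ SLV F (Fin n → F)) ∧
      ∃ y, ∃ η : Dual F (Fin n → F), uJ F n (uJ F n y) = E F n 0 ∧ η y = κ 0 ∧
      η (uJ F n (uJ F n (uJ F n y))) = κ 0 + 3 * κ 1 + 3 * κ 2 + κ 3 ∧
      η (uJ F n (uJ F n (uJ F n (uJ F n y)))) = κ 0 + 4 * κ 1 + 6 * κ 2 + 4 * κ 3 + κ 4 ∧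
      ∀ M : Subgroup ((Fin n → F) ≃ₗ[F] (Fin n → F)), uJ F n ∈ M → h * uJ F n * h⁻¹ ∈ M →
        ∃ g, Cox M (uJ F n) g y (E F n (n - 1)) η c := by
  let η' : Dual F (Fin n → F) := dotProductBilin F F fun j : Fin n => κ j
  have e : ∀ i, η' (E F n i) = κ i := fun i => by
    by_cases h : i < n
    · exact dot_E κ h
    · rw [E_of_le (by omega), map_zero, hκ i (by omega)]
  let η : Dual F (Fin n → F) := η' ∘ₗ (uJ F n).toLinearMap ∘ₗ (uJ F n).toLinearMap
  have e' : ∀ z, η z = η' (uJ F n (uJ F n z)) := fun _ => rfl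
  have k0 : η (E F n 0) = 0 := by
    simp only [e', uJ_E, map_add, e]; linear_combination h2
  have k1 : η (E F n (n - 1)) = 1 := by rw [e', uJ_last, uJ_last, e, h1]
  obtain ⟨h, hh, ev⟩ := exists_cox hn hc k0 k1
  refine ⟨h, hh, (uJ F n).symm ((uJ F n).symm (E F n 0)), η, by simp, by simp [e', e], ?_, ?_,
    fun M m1 m2 => ⟨(uJ F n)⁻¹ * (h * uJ F n * h⁻¹), m1, M.mul_mem (M.inv_mem m1) m2, fun z => ?_,
      uJ_last, k1, by simpa using k0, ?_⟩⟩
  · simp only [e', LinearEquiv.apply_symm_apply, uJ_E, map_add, e]; ring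
  · simp only [e', LinearEquiv.apply_symm_apply, uJ_E, map_add, e]; ring
  · rw [LinearEquiv.mul_apply, ev, LinearEquiv.coe_inv, LinearEquiv.symm_apply_eq]
    simp [uJ_last]
  · simp only [e', LinearEquiv.apply_symm_apply, uJ_E, map_add, e]; exact h3

theorem Cox.finish {M : Subgroup ((Fin n → F) ≃ₗ[F] (Fin n → F))} {g w : (Fin n → F) ≃ₗ[F] (Fin n → F)}
    {y : Fin n → F} {η : Dual F (Fin n → F)} {c : F}
    (h : Cox M (uJ F n) g y (E F n (n - 1)) η c) (hc : c ≠ 0) (hy : uJ F n (uJ F n y) = E F n 0)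
    (hw : w ∈ M) (hR : mulRing M (c • uJ F n y + (2 : F) • E F n (n - 1))
      (-(η ∘ₗ (uJ F n).toLinearMap + η)) = ⊤)
    (h1 : (-(η ∘ₗ (uJ F n).toLinearMap + η)) (w (c • uJ F n y + (2 : F) • E F n (n - 1))) = 0)
    (h2 : (-(η ∘ₗ (uJ F n).toLinearMap + η)) (w.symm (c • uJ F n y + (2 : F) • E F n (n - 1))) ≠ 0)
    (hW : ∀ W : Submodule F (Fin n → F), (∀ z ∈ W, w z ∈ W) → ∀ z ∈ W, uJ F n z ∈ W) :
    SLV F (Fin n → F) ≤ M := by
  have k : ∀ W : Submodule F (Fin n → F), (∀ z ∈ W, uJ F n z ∈ W) → c • uJ F n y ∈ W → W = ⊤ :=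
    fun W h1 h2 => cyc_E0 W (hy ▸ h1 _ ((W.smul_mem_iff hc).1 h2)) h1
  refine SLV_le_of_edge hw (cen_of_mulRing h.tv hR) h1 h2 (fun W m1 m2 => ?_) fun z hz => ?_
  · have m3 := hW W m2
    have := last_mem m3 m1 (fun e => h2 (by rw [e]; simp))
    exact k W m3 (by simpa using W.sub_mem m1 (W.smul_mem 2 this))
  · by_contra h0
    have m3 := kerAll_inv (f := -(η ∘ₗ (uJ F n).toLinearMap + η)) h.hu
    have m4 := last_mem m3 hz h0
    have m5 := Submodule.sub_mem _ (kerAll_inv h.hg _ m4) m4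
    rw [h.eg, h.ul, h.el] at m5
    have := k _ m3 (by simpa using m5)
    exact h2 ((this ▸ Submodule.mem_top : _ ∈ kerAll M _) _ (M.inv_mem hw))

theorem uJ_four (z : Fin 4 → F) : uJ F 4 (uJ F 4 (uJ F 4 (uJ F 4 z))) =
    (4 : F) • uJ F 4 (uJ F 4 (uJ F 4 z)) - (6 : F) • uJ F 4 (uJ F 4 z) + (4 : F) • uJ F 4 z - z := by
  have : Nm F 4 *ᵥ Nm F 4 *ᵥ Nm F 4 *ᵥ Nm F 4 *ᵥ z = 0 := by
    rw [sum_E z]
    simp only [mulVec_sum, mulVec_smul, Nm_E]
    exact Finset.sum_eq_zero fun i _ => by rw [E_of_le (by omega), smul_zero]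
  simp only [uJ_apply, mulVec_add, this]
  module

theorem two_gen_odd (hn : 4 ≤ n) {c μ : F} (hc : c ≠ 0) (hμ : μ ≠ 0)
    (h4 : n = 4 → c = μ - 16) (hgen : ∀ R : Subring F, 2 * μ ∈ R → R = ⊤) :
    ∃ h : (Fin n → F) ≃ₗ[F] (Fin n → F), (c = -1 → h ∈ SLV F (Fin n → F)) ∧
      ∀ M : Subgroup ((Fin n → F) ≃ₗ[F] (Fin n → F)), uJ F n ∈ M → h * uJ F n * h⁻¹ ∈ M →
        SLV F (Fin n → F) ≤ M := by
  let κ : ℕ → F := fun i => if i = 0 then -μ / c else if i = 1 then (μ - 4) / c else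
    if i = 2 then (8 - μ) / c else if i = 3 then (μ - 16) / c else if i < n then 1 else 0
  obtain ⟨h, hh, y, η, hy, e0, e3, -, H⟩ := cox_of (n := n) (by omega) hc κ (by
    by_cases h : n = 4
    · simp [κ, h, ← h4 h, hc]
    · simp only [κ]
      rw [if_neg (by omega), if_neg (by omega), if_neg (by omega), if_neg (by omega),
        if_pos (by omega)]) (fun i hi => by
      simp only [κ]
      rw [if_neg (by omega), if_neg (by omega), if_neg (by omega), if_neg (by omega),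
        if_neg (by omega)]) (by simp [κ]; ring) (by simp [κ]; field_simp; ring)
  refine ⟨h, hh, fun M m1 m2 => ?_⟩
  obtain ⟨g, H⟩ := H M m1 m2
  have e3' : c * η (uJ F n (uJ F n (uJ F n y))) = -4 := by rw [e3]; simp [κ]; field_simp; ring
  have e0' : -(c * η y) = μ := by rw [e0]; simp [κ]; field_simp
  exact H.finish hc hy m1 (hgen _ (e0' ▸ H.mul_odd e3')) (H.f_u e3') (by rwa [H.f_symm, e0'])
    fun _ h => h

theorem two_gen_even (hn : 4 ≤ n) (h2 : (2 : F) = 0) {c k : F} (hc : c ≠ 0) (hk : k ≠ 0)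
    (h4 : n = 4 → k = 1)
    (hgen : ∀ R : Subring F, (c * k) ^ 3 * (c * (k + if n = 4 then 0 else 1)) ∈ R → R = ⊤) :
    ∃ h : (Fin n → F) ≃ₗ[F] (Fin n → F), (c = -1 → h ∈ SLV F (Fin n → F)) ∧
      ∀ M : Subgroup ((Fin n → F) ≃ₗ[F] (Fin n → F)), uJ F n ∈ M → h * uJ F n * h⁻¹ ∈ M →
        SLV F (Fin n → F) ≤ M := by
  let κ : ℕ → F := fun i => if i < 4 then k else if i < n then 1 else 0
  obtain ⟨h, hh, y, η, hy, e0, e3, e4, H⟩ := cox_of (n := n) (by omega) hc κ (by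
    by_cases h : n = 4
    · simp [κ, h, h4 h]
    · simp only [κ]
      rw [if_neg (by omega), if_pos (by omega)]) (fun i hi => by
      simp only [κ]
      rw [if_neg (by omega), if_neg (by omega)]) (by
      simp only [κ]; norm_num; linear_combination (2 * k) * h2) (by
      simp only [κ]; norm_num; linear_combination (c * k + 2) * h2)
  refine ⟨h, hh, fun M m1 m2 => ?_⟩
  obtain ⟨g, H⟩ := H M m1 m2
  have e3' : c * η (uJ F n (uJ F n (uJ F n y))) = -4 := by
    rw [e3]; simp only [κ]; norm_num; linear_combination (4 * c * k + 2) * h2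
  have e0' : η y = k := by rw [e0]; simp [κ]
  have e4' : η (uJ F n (uJ F n (uJ F n (uJ F n y)))) = k + if n = 4 then 0 else 1 := by
    rw [e4]; simp only [κ]
    by_cases h : n = 4
    · simp only [h]; norm_num; linear_combination (7 * k) * h2
    · rw [if_neg h, if_pos (show 4 < n by omega)]; norm_num; linear_combination (7 * k) * h2
  have := H.mul_even h2 e3'
  rw [e0', e4'] at this
  exact H.finish hc hy m1 (hgen _ this) (H.f_u e3') (by rw [H.f_symm, e0']; simp [hc, hk])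
    fun _ h => h

theorem two_gen_four (h2 : (2 : F) ≠ 0) (h15 : (15 : F) = 0) (hgen : ∀ R : Subring F, R = ⊤) :
    ∃ h ∈ SLV F (Fin 4 → F),
      ∀ M : Subgroup ((Fin 4 → F) ≃ₗ[F] (Fin 4 → F)), uJ F 4 ∈ M → h * uJ F 4 * h⁻¹ ∈ M →
        SLV F (Fin 4 → F) ≤ M := by
  let κ : ℕ → F := fun i => if i = 0 then 7 else if i = 1 then -3 else
    if i = 2 then -1 else if i = 3 then 1 else 0
  obtain ⟨h, hh, y, η, hy, e0, e3, e4, H⟩ := cox_of (n := 4) (c := -1) (by omega) (by simp) κ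
    (by simp [κ]) (fun i hi => by
      simp only [κ]
      rw [if_neg (by omega), if_neg (by omega), if_neg (by omega), if_neg (by omega)])
    (by simp only [κ]; norm_num) (by simp only [κ]; norm_num)
  refine ⟨h, hh rfl, fun M m1 m2 => ?_⟩
  obtain ⟨g, H⟩ := H M m1 m2
  simp only [κ] at e0 e3 e4
  norm_num at e0 e3 e4
  refine H.finish (by simp) hy (M.mul_mem m1 m1) (hgen _) ?_ (fun e => ?_) fun W hW z hz => ?_
  · simp only [LinearMap.neg_apply, LinearMap.add_apply, LinearMap.comp_apply, LinearEquiv.coe_coe,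
      map_add, map_smul, smul_eq_mul, H.el, H.ul, LinearEquiv.mul_apply, e3, e4]
    linear_combination (-1) * h15
  · have k : (uJ F 4 * uJ F 4).symm ((-1 : F) • uJ F 4 y + (2 : F) • E F 4 (4 - 1)) =
        (-1 : F) • (uJ F 4).symm y + (2 : F) • E F 4 (4 - 1) := by
      rw [LinearEquiv.symm_apply_eq]
      simp only [LinearEquiv.mul_apply, map_add, map_smul, H.ul, LinearEquiv.apply_symm_apply]
    have k' := congrArg η (uJ_four ((uJ F 4).symm y))
    have e1 := H.e1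
    rw [k] at e
    simp only [LinearMap.neg_apply, LinearMap.add_apply, LinearMap.comp_apply, LinearEquiv.coe_coe,
      map_add, map_sub, map_smul, smul_eq_mul, H.el, H.ul, e3, e0, H.e2,
      LinearEquiv.apply_symm_apply] at e k'
    have : (11 : F) = 0 := by linear_combination e - k' - 6 * e1
    exact one_ne_zero (α := F) (by linear_combination 11 * this - 8 * h15)
  · have a1 := hW z hz
    have a2 := hW _ a1
    have a3 := hW _ a2
    have b1 := uJ_four z
    have b2 := uJ_four (uJ F 4 z)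
    have b3 := uJ_four (uJ F 4 (uJ F 4 z))
    simp only [LinearEquiv.mul_apply] at a1 a2 a3
    rw [b3, b2] at a3
    rw [b1] at a2 a3
    have h16 : (16 : F) ≠ 0 := by rw [show (16 : F) = 2 ^ 4 by norm_num]; simp [h2]
    rw [← W.smul_mem_iff h16]
    convert W.add_mem (W.add_mem (W.smul_mem 5 hz) (W.smul_mem 15 a1))
      (W.add_mem (W.smul_mem (-5) a2) a3) using 1
    module

theorem two_gen [Fintype F] (hn : 4 ≤ n) :
    ∃ h : (Fin n → F) ≃ₗ[F] (Fin n → F), ((Fintype.card F).Prime → h ∈ SLV F (Fin n → F)) ∧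
      ∀ M : Subgroup ((Fin n → F) ≃ₗ[F] (Fin n → F)), uJ F n ∈ M → h * uJ F n * h⁻¹ ∈ M →
        SLV F (Fin n → F) ≤ M := by
  by_cases hp : ∀ R : Subring F, R = ⊤
  · suffices ∃ h ∈ SLV F (Fin n → F), ∀ M : Subgroup ((Fin n → F) ≃ₗ[F] (Fin n → F)), uJ F n ∈ M →
        h * uJ F n * h⁻¹ ∈ M → SLV F (Fin n → F) ≤ M by
      obtain ⟨h, h1, h2⟩ := this
      exact ⟨h, fun _ => h1, h2⟩
    by_cases h2 : (2 : F) = 0
    · obtain ⟨h, h1, h3⟩ := two_gen_even (c := -1) (k := 1) hn h2 (by simp) (by simp) (by simp)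
        fun R _ => hp R
      exact ⟨h, h1 rfl, h3⟩
    by_cases h15 : (15 : F) = 0
    · by_cases h4 : n = 4
      · subst h4; exact two_gen_four h2 h15 hp
      · obtain ⟨h, h1, h3⟩ := two_gen_odd (c := -1) (μ := 1) hn (by simp) (by simp)
          (fun h => absurd h h4) fun R _ => hp R
        exact ⟨h, h1 rfl, h3⟩
    · obtain ⟨h, h1, h3⟩ := two_gen_odd (c := -1) (μ := 15) hn (by simp) h15
        (fun _ => by norm_num) fun R _ => hp R
      exact ⟨h, h1 rfl, h3⟩
  suffices ∃ h : (Fin n → F) ≃ₗ[F] (Fin n → F), ∀ M : Subgroup ((Fin n → F) ≃ₗ[F] (Fin n → F)),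
      uJ F n ∈ M → h * uJ F n * h⁻¹ ∈ M → SLV F (Fin n → F) ≤ M by
    obtain ⟨h, h2⟩ := this
    exact ⟨h, fun h1 => absurd (subring_eq_top_of_prime h1) hp, h2⟩
  obtain ⟨θ, hθ, hgen⟩ := exists_gen (F := F)
  have hθ' : ∀ a : F, (∀ R : Subring F, a ∈ R) → θ ≠ a := fun a ha e =>
    hp fun R => hgen R (e ▸ ha R)
  by_cases h2 : (2 : F) = 0
  · by_cases h4 : n = 4
    · obtain ⟨h, -, h3⟩ := two_gen_even (c := θ) (k := 1) hn h2 hθ (by simp) (by simp)
        fun R hR => hgen R (by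
          refine mem_of_pow_char R Nat.prime_two (by exact_mod_cast h2)
            (mem_of_pow_char R Nat.prime_two (by exact_mod_cast h2) ?_)
          rw [if_pos h4] at hR
          convert hR using 1; ring)
      exact ⟨h, h3⟩
    · have hc : θ - 1 ≠ 0 := sub_ne_zero.2 (hθ' 1 fun R => R.one_mem)
      obtain ⟨h, -, h3⟩ := two_gen_even (c := θ - 1) (k := (θ - 1)⁻¹) hn h2 hc (inv_ne_zero hc)
        (fun h => absurd h h4) fun R hR => hgen R (by
          rw [if_neg h4] at hR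
          convert hR using 1; field_simp; ring)
      exact ⟨h, h3⟩
  · have hc : θ - 16 ≠ 0 := sub_ne_zero.2 (hθ' 16 fun R => by exact_mod_cast natCast_mem R 16)
    obtain ⟨h, -, h3⟩ := two_gen_odd (c := θ - 16) (μ := θ) hn hc hθ (fun _ => rfl)
      fun R hR => hgen R (mem_of_mul_mem R (b := 2) (by rwa [mul_comm])
        (by exact_mod_cast natCast_mem R 2) h2)
    exact ⟨h, h3⟩

end Cfsg.Lib.Known.RU
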