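/-
Small Ree groups: the trace separates the regular semisimple classes.
-/
import Cfsg.Agent.Known.ReeDeg
import Cfsg.Agent.Known.ClassCount
import Cfsg.Agent.Char.PermLemma

set_option autoImplicit false

namespace Cfsg.Lib.Known.Ree

open Cfsg Cfsg.Lib.Char

/-- The number of conjugacy classes whose element order satisfies `P`. -/
noncomputable def ccl (G : Type*) [Group G] (P : ℕ → Prop) : ℕ := {C : ConjClasses G | P (orderOf C.out)}.ncard

theorem isConj_out {G : Type*} [Group G] (g : G) : IsConj g (ConjClasses.mk g).out :=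
  ConjClasses.mk_eq_mk_iff_isConj.1 (Quotient.out_eq _).symm

theorem orderOf_eq_of_isConj {G : Type*} [Group G] {a b : G} (h : IsConj a b) : orderOf a = orderOf b := by
  obtain ⟨k, rfl⟩ := isConj_iff.1 h
  exact (ReeModel.orderOf_conj a k).symm

theorem ccl_mul {G : Type*} [Group G] [Finite G] (P : ℕ → Prop) {n : ℕ}
    (h : ∀ g : G, P (orderOf g) → Nat.card (Subgroup.centralizer ({g} : Set G)) = n) :
    Nat.card G * ccl G P = Nat.card {g : G // P (orderOf g)} * n := by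
  classical
  have := Fintype.ofFinite G
  have := Fintype.ofFinite (ConjClasses G)
  have h1 := sum_card_centralizer_mul (G := G) fun C => if P (orderOf C.out) then 1 else 0
  rw [Finset.sum_congr rfl (g := fun g => (if P (orderOf g) then 1 else 0) * (n : ℂ)) fun g _ => by
    rw [← orderOf_eq_of_isConj (isConj_out g)]
    split_ifs with hg
    · rw [h g hg, mul_comm]
    · simp, ← Finset.sum_mul, Finset.sum_boole, Finset.sum_boole] at h1
  rw [ccl, Set.ncard_eq_toFinset_card', Set.toFinset_ofPred, Nat.card_eq_fintype_card (α := {g : G // _}),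
    Fintype.card_subtype]
  exact_mod_cast h1.symm

theorem IsTor.card_centralizer {G : Type*} [Group G] {T A : Subgroup G} (h : IsTor T A) {g : G}
    (h2 : g * g ≠ 1) (hg : ∃ k : G, k⁻¹ * g * k ∈ T) :
    Nat.card (Subgroup.centralizer ({g} : Set G)) = Nat.card T := by
  obtain ⟨k, hk⟩ := hg
  rw [← h.cent _ hk (conj_mul_self_ne_one' h2)]
  exact card_centralizer_eq_of_isConj' (isConj_iff.2 ⟨k⁻¹, by rw [inv_inv]⟩)

theorem IsTor.ccl_eq {G : Type*} [Group G] [Finite G] {T : Subgroup G} (h : IsTor T T)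
    (hN : Nat.card (Subgroup.normalizer (T : Set G)) = 6 * Nat.card T) :
    6 * ccl G (fun d => 1 < d ∧ d ∣ Nat.card T) = Nat.card T - 1 := by
  have h1 := ccl_mul (G := G) (fun d => 1 < d ∧ d ∣ Nat.card T) fun g hg => h.card_centralizer
    (mul_self_ne_one_of_odd (h.odd_card.of_dvd_nat hg.2) fun e => by simp [e] at hg) (h.exists_conj_mem_A hg.2)
  have h2 := h.cnt_mul
  rw [hN] at h2
  apply Nat.eq_of_mul_eq_mul_left (Nat.card_pos (α := G))
  rw [← h2, mul_left_comm, h1, mul_left_comm]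
  rfl

theorem ncard_roots_le {K : Type*} [Field K] {r : ℕ} (hr : 3 ≤ r) (α γ δ : K) {β : K} (hβ : β ≠ 0) :
    Nat.card {c : K // α * c ^ r + β * c ^ 2 + γ * c + δ = 0} ≤ r := by
  classical
  open Polynomial in
  let p : K[X] := C α * X ^ r + C β * X ^ 2 + C γ * X + C δ
  have h0 : p ≠ 0 := fun h => hβ (by
    have := congrArg (Polynomial.coeff · 2) h
    simpa [p, Polynomial.coeff_X_pow, show 2 ≠ r by omega, Polynomial.coeff_X, Polynomial.coeff_C] using this)
  have h1 : p.natDegree ≤ r := by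
    simp only [p]
    compute_degree
    omega
  refine le_trans ?_ ((Multiset.toFinset_card_le _).trans ((Polynomial.card_roots' p).trans h1))
  rw [← Fintype.card_coe, ← Nat.card_eq_fintype_card]
  exact Nat.card_le_card_of_injective (fun c => ⟨c.1, by
    simpa [Polynomial.mem_roots h0, p] using c.2⟩) fun a b h => Subtype.ext (congrArg Subtype.val h :)

namespace ReeModel

variable {K : Type*} [Field K] [Fintype K] {τ : RTw K} {m : ℕ} {G : Type*} [Group G] (M : ReeModel τ m G)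

/-- The trace in the seven dimensional representation. -/
def tr (g : G) : K := (M.ρ g).trace

theorem tr_eq_of_isConj {a b : G} (h : IsConj a b) : M.tr a = M.tr b := by
  obtain ⟨k, rfl⟩ := isConj_iff.1 h
  rw [tr, tr, map_mul, Matrix.trace_mul_comm, ← map_mul, inv_mul_cancel_left]

theorem tr_xh (a b c : K) (l : Kˣ) : M.tr (M.x a b c * M.h l) = (l : K) ^ 2 * τ.σ l + l * τ.σ l + l + 1 + (l : K)⁻¹ +
    (l : K)⁻¹ * (τ.σ l)⁻¹ + (l : K)⁻¹ ^ 2 * (τ.σ l)⁻¹ := by
  rw [tr, map_mul, M.ρ_x, ρ_h]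
  exact trace_UD ..

theorem tr_x (a b c : K) : M.tr (M.x a b c) = 1 := by
  have := M.tr_xh a b c 1
  simp only [map_one, mul_one, Units.val_one, one_pow, inv_one] at this
  linear_combination this + 2 * τ.three

theorem tr_xt (a b c : K) : M.tr (M.x a b c * M.t) = -1 := by
  rw [t, tr_xh]
  simp

theorem tr_hwx (l : Kˣ) (a b c : K) : M.tr (M.h l * M.w * M.x a b c) =
    -1 + (l : K)⁻¹ * a ^ 2 - (l : K)⁻¹ * (τ.σ l)⁻¹ * (τ.σ a * a * b + τ.σ a * c - b ^ 2) - (l : K)⁻¹ ^ 2 * (τ.σ l)⁻¹ *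
      (-τ.σ a * a ^ 3 * b + τ.σ a ^ 2 * a ^ 4 - τ.σ b * b + τ.σ c * a - a * b * c - c ^ 2) := by
  rw [tr, map_mul, map_mul, M.ρ_x, ρ_h, M.ρ_w]
  exact trace_DWU ..

/-- Regular semisimple elements. -/
def Reg (g : G) : Prop := 2 < orderOf g ∧ ¬ 3 ∣ orderOf g

theorem reg_of_tr {g : G} (h1 : M.tr g ≠ 1) (h2 : M.tr g ≠ -1) : Reg g := by
  have := M.finite
  have key : ∀ k : G, M.tr (k⁻¹ * g * k) = M.tr g := fun k =>
    (M.tr_eq_of_isConj (isConj_iff.2 ⟨k⁻¹, by rw [inv_inv]⟩)).symm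
  refine ⟨by_contra fun h => ?_, fun h => ?_⟩
  · have := orderOf_pos g
    rcases (show orderOf g = 1 ∨ orderOf g = 2 by omega) with h | h
    · exact h1 (by rw [orderOf_eq_one_iff.1 h, ← M.x_zero, tr_x])
    · exact h2 (by rw [← M.tr_eq_of_isConj (M.isConj_t h), ← M.tr_xt 0 0 0, x_zero, one_mul])
  · rcases M.cases_of_three_dvd h with ⟨k, a, b, c, hk⟩ | ⟨k, b, -, hk⟩
    · exact h1 (by rw [← key k, hk, tr_x])
    · exact h2 (by rw [← key k, hk, tr_xt])

theorem exists_tr_eq {s : K} (h : s ≠ -1) : ∃ l, M.tr (M.h l * M.w * M.x 0 0 1) = s := by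
  obtain ⟨l, hl⟩ := τ.exists_unit_sq_mul_σ (c := s + 1) fun e => h (eq_neg_of_add_eq_zero_left e)
  refine ⟨l⁻¹, ?_⟩
  rw [tr_hwx]
  simp only [Units.val_inv_eq_inv_val, map_inv₀, inv_inv, map_zero, map_one]
  linear_combination hl

include M in
theorem Reg.cases (hm : 1 ≤ m) {g : G} (h : Reg g) : (2 < orderOf g ∧ orderOf g ∣ Fintype.card K - 1) ∨
    (2 < orderOf g ∧ orderOf g ∣ Fintype.card K + 1) ∨
    (1 < orderOf g ∧ orderOf g ∣ Fintype.card K - 3 ^ (m + 1) + 1) ∨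
    (1 < orderOf g ∧ orderOf g ∣ Fintype.card K + 3 ^ (m + 1) + 1) := by
  have := M.finite
  obtain ⟨h1, h2⟩ := h
  obtain ⟨T, T', h, h', e, e', -⟩ := M.exists_pi_tori hm
  rcases M.orderOf_cases g with h1 | h1 | h1 | h1 | h1 | h1 | h1 | h1
  iterate 5 omega
  · exact Or.inl h1
  · exact Or.inr (Or.inl h1)
  · obtain ⟨p, hp, h2⟩ := Nat.exists_prime_and_dvd h1.1.ne'
    rcases hp.dvd_mul.1 (M.N_eq ▸ h2.trans h1.2) with h3 | h3
    · exact Or.inr (Or.inr (Or.inl ⟨h1.1, e ▸ h.orderOf_dvd_of_prime hp (e ▸ h3) h2⟩))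
    · exact Or.inr (Or.inr (Or.inr ⟨h1.1, e' ▸ h'.orderOf_dvd_of_prime hp (e' ▸ h3) h2⟩))

include M in
theorem card_centralizer_reg_le (hm : 1 ≤ m) {g : G} (h : Reg g) :
    Nat.card (Subgroup.centralizer ({g} : Set G)) ≤ Fintype.card K + 3 ^ (m + 1) + 1 := by
  have := M.finite
  obtain ⟨T, T', h1, h2, e, e', -⟩ := M.exists_pi_tori hm
  have h3 := mul_self_ne_one_iff.2 h.1
  have := Nat.zero_le (3 ^ (m + 1))
  rcases h.cases M hm with h | h | h | h
  · rw [M.isTor_H.card_centralizer h3 (M.exists_conj_mem_H h.1 h.2), card_H]; omega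
  · rw [M.isTor_T₁.card_centralizer h3 (M.exists_conj_mem_T₁ h.1 h.2), card_T₁]; omega
  · rw [h1.card_centralizer h3 (h1.exists_conj_mem_A (e ▸ h.2)), e]; omega
  · rw [h2.card_centralizer h3 (h2.exists_conj_mem_A (e' ▸ h.2)), e']

include M in
theorem ncard_reg_le (hm : 1 ≤ m) : {C : ConjClasses G | Reg C.out}.ncard ≤ Fintype.card K - 2 := by
  have := M.finite
  obtain ⟨T, T', h1, h2, e, e', f, f'⟩ := M.exists_pi_tori hm
  have h3 := h1.ccl_eq f
  have h4 := h2.ccl_eq f'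
  have h5 := ccl_mul (G := G) (fun d => 2 < d ∧ d ∣ Fintype.card K - 1) fun g hg =>
    M.isTor_H.card_centralizer (mul_self_ne_one_iff.2 hg.1) (M.exists_conj_mem_H hg.1 hg.2)
  have h6 := ccl_mul (G := G) (fun d => 2 < d ∧ d ∣ Fintype.card K + 1) fun g hg =>
    M.isTor_T₁.card_centralizer (mul_self_ne_one_iff.2 hg.1) (M.exists_conj_mem_T₁ hg.1 hg.2)
  have h7 : 2 * ccl G (fun d => 2 < d ∧ d ∣ Fintype.card K - 1) = Fintype.card K - 3 := by
    apply Nat.eq_of_mul_eq_mul_left (Nat.card_pos (α := G))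
    rw [← M.card_split hm, mul_left_comm, h5, M.card_H, mul_left_comm]
  have h8 : 6 * ccl G (fun d => 2 < d ∧ d ∣ Fintype.card K + 1) = Fintype.card K - 3 := by
    apply Nat.eq_of_mul_eq_mul_left (Nat.card_pos (α := G))
    rw [← M.card_nonsplit hm, mul_left_comm, h6, M.card_T₁, mul_left_comm]
  rw [e] at h3
  rw [e'] at h4
  have h9 : {C : ConjClasses G | Reg C.out}.ncard ≤ ccl G (fun d => 2 < d ∧ d ∣ Fintype.card K - 1) +
      (ccl G (fun d => 2 < d ∧ d ∣ Fintype.card K + 1) +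
      (ccl G (fun d => 1 < d ∧ d ∣ Fintype.card K - 3 ^ (m + 1) + 1) +
      ccl G (fun d => 1 < d ∧ d ∣ Fintype.card K + 3 ^ (m + 1) + 1))) :=
    (Set.ncard_le_ncard fun C hC => Reg.cases M hm hC).trans ((Set.ncard_union_le _ _).trans
      (Nat.add_le_add_left ((Set.ncard_union_le _ _).trans (Nat.add_le_add_left (Set.ncard_union_le _ _) _)) _))
  have := M.fin.r_le
  have := M.fin.three_le
  omega

theorem isConj_of_tr (hm : 1 ≤ m) {x : G} (hx : Reg x) :
    M.tr x ≠ -1 ∧ ∀ y, M.tr y = M.tr x → IsConj x y := by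
  classical
  have := M.finite
  have hout : ∀ g : G, M.tr (ConjClasses.mk g).out = M.tr g := fun g => (M.tr_eq_of_isConj (isConj_out g)).symm
  have hreg : ∀ g : G, Reg g → Reg (ConjClasses.mk g).out := fun g hg => by
    rwa [Reg, ← orderOf_eq_of_isConj (isConj_out g)]
  have h1 : ({1, -1}ᶜ : Set K) ⊆ (fun C => M.tr C.out) '' {C : ConjClasses G | Reg C.out} := fun s hs => by
    simp only [Set.mem_compl_iff, Set.mem_insert_iff, Set.mem_singleton_iff, not_or] at hs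
    obtain ⟨l, hl⟩ := M.exists_tr_eq hs.2
    exact ⟨ConjClasses.mk _, hreg _ (M.reg_of_tr (hl ▸ hs.1) (hl ▸ hs.2)), (hout _).trans hl⟩
  have h2 : ({1, -1}ᶜ : Set K).ncard = Fintype.card K - 2 := by
    rw [Set.ncard_compl, Set.ncard_pair τ.neg_one_ne_one.symm, Nat.card_eq_fintype_card]
  have h3 := M.ncard_reg_le hm
  have h4 := Set.ncard_image_le (f := fun C : ConjClasses G => M.tr C.out) (s := {C : ConjClasses G | Reg C.out})
  have h5 := Set.eq_of_subset_of_ncard_le h1 (by omega)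
  have h6 := Set.injOn_of_ncard_image_eq (f := fun C : ConjClasses G => M.tr C.out)
    (s := {C : ConjClasses G | Reg C.out}) (by rw [← h5] at h4 ⊢; omega)
  have h7 : M.tr x ∈ ({1, -1}ᶜ : Set K) := h5 ▸ ⟨_, hreg x hx, hout x⟩
  simp only [Set.mem_compl_iff, Set.mem_insert_iff, Set.mem_singleton_iff, not_or] at h7
  exact ⟨h7.2, fun y hy => ConjClasses.mk_eq_mk_iff_isConj.1 (h6 (hreg x hx)
    (hreg y (M.reg_of_tr (hy ▸ h7.1) (hy ▸ h7.2))) (by simp only [hout, hy]))⟩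

theorem exists_isConj_hwz (hm : 1 ≤ m) {x : G} (hx : Reg x) : ∃ l, IsConj x (M.h l * M.w * M.x 0 0 1) := by
  obtain ⟨h1, h2⟩ := M.isConj_of_tr hm hx
  obtain ⟨l, hl⟩ := M.exists_tr_eq h1
  exact ⟨l, h2 _ hl⟩

theorem t_conj_hwz (l : Kˣ) (c : K) : M.t * (M.h l * M.w * M.x 0 0 c) * M.t⁻¹ = M.h l * M.w * M.x 0 0 (-c) := by
  rw [← mul_assoc, ← mul_assoc, t_mul_h, mul_assoc (M.h l), t_mul_w, t_inv, mul_assoc, mul_assoc, mul_assoc,
    ← mul_assoc M.t, t_conj_x, neg_zero, mul_assoc]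

include M in
theorem isConj_inv (hm : 1 ≤ m) {x : G} (hx : Reg x) : IsConj x x⁻¹ := by
  obtain ⟨l, h⟩ := M.exists_isConj_hwz hm hx
  obtain ⟨k, hk⟩ := isConj_iff.1 h
  refine h.trans ((isConj_iff.2 ⟨_, M.t_conj_hwz l 1⟩).trans (isConj_iff.2 ⟨k⁻¹ * M.x 0 0 (-1), ?_⟩))
  have h1 : (M.h l * M.w * M.x 0 0 1)⁻¹ = M.x 0 0 (-1) * (M.h l * M.w) := by
    rw [mul_inv_rev, x_inv_E, neg_zero, inv_eq_of_mul_eq_one_right (M.hw_mul_self l)]
  calc _ = k⁻¹ * (M.x 0 0 (-1) * (M.h l * M.w)) * k := by group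
    _ = _ := by rw [← h1, ← hk]; group

end ReeModel

end Cfsg.Lib.Known.Ree
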