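/-
Small Ree groups: the Steinberg character and products of two regular semisimple elements.
-/
import Cfsg.Agent.Known.ReeTrace
import Cfsg.Agent.Block.OneBlock
import Cfsg.Agent.Block.FirstMain
import Cfsg.Agent.Block.PairCount
import Cfsg.Agent.Char.IndTransport
import Cfsg.Agent.S0157

set_option autoImplicit false

namespace Cfsg.Lib.Known.Ree

open Cfsg Cfsg.Lib.Char Cfsg.Lib.Block
open scoped ComplexConjugate

namespace ReeModel

variable {K : Type*} [Field K] [Fintype K] {τ : RTw K} {m : ℕ} {G : Type*} [Group G] (M : ReeModel τ m G)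

include M in
theorem exists_le_U {D : Subgroup G} (hD : IsPGroup 3 D) : ∃ M' : ReeModel τ m G, D ≤ M'.U := by
  have := M.finite
  obtain ⟨P, hP⟩ := hD.exists_le_sylow
  obtain ⟨k, hk⟩ := M.exists_sylow_three_eq P
  refine ⟨M.conj k, fun g hg => ?_⟩
  obtain ⟨_, ⟨a, b, c, rfl⟩, rfl⟩ := hk ▸ hP hg
  exact ⟨a, b, c, (M.conj_x k a b c).symm⟩

include M in
theorem eq_bot_of_radical {D : Subgroup G} (hD : IsPGroup 3 D)
    (h : (pCore 3 (Subgroup.normalizer (D : Set G))).map (Subgroup.normalizer (D : Set G)).subtype = D) {c : G}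
    (hc : orderOf c = 2) (hc' : c ∈ Subgroup.centralizer (D : Set G)) : D = ⊥ := by
  obtain ⟨M, hU⟩ := M.exists_le_U hD
  by_contra h1
  obtain ⟨⟨d, hd⟩, hd1⟩ := Subgroup.ne_bot_iff_exists_ne_one.1 h1
  have h2 : (M.U.subgroupOf (Subgroup.normalizer (D : Set G))).Normal := ⟨fun n hn g =>
    M.conj_mem_U (M.mem_B_of_conj' (hU hd) (fun e => hd1 (Subtype.ext e))
      (M.U_le_B (hU ((Subgroup.mem_normalizer_iff.1 g.2 d).1 hd)))) hn⟩
  have h3 : M.x 0 0 1 ∈ Subgroup.normalizer (D : Set G) := Subgroup.centralizer_le_normalizer _ fun g hg => by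
    obtain ⟨a, b, c, rfl⟩ := hU hg
    rw [x_mul_Z, Z_mul_x]
  have h4 : M.x 0 0 1 ∈ D := h ▸ ⟨⟨_, h3⟩, le_pCore_of_normal h2 M.isPGroup_U.comap_subtype (M.x_mem_U 0 0 1), rfl⟩
  have h5 : c ∈ M.U := M.centralizer_Z one_ne_zero ▸ Subgroup.mem_centralizer_singleton_iff.2 (hc' _ h4).symm
  have := M.orderOf_U_cases h5 fun e => by simp [e] at hc
  omega

/-- The Steinberg character. -/
noncomputable def St (g : G) : ℂ := Nat.card (MulAction.fixedBy M.Pt g) - 1

theorem St_irr : IsIrrCharacter G M.St := by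
  have := M.finite
  refine (Cfsg.Agent.S0157.result M.Pt (by rw [card_Pt]; exact Nat.succ_le_succ (pow_pos Fintype.card_pos 3))).2 ?_
  exact MulAction.is_two_pretransitive_iff.2 M.two_transitive

theorem St_one : M.St 1 = Fintype.card K ^ 3 := by simp [St, M.card_Pt]

theorem St_t : M.St M.t = Fintype.card K := by
  have := M.finite
  have h1 : MulAction.fixedBy M.Pt M.t = insert M.inf (Set.range fun b => M.pt 0 b 0) := by
    ext p
    rcases M.pt_cases p with rfl | ⟨a, b, c, rfl⟩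
    · simpa [t] using M.h_smul_inf _
    · simp [M.t_smul_pt_iff, M.pt_ne_inf, eq_comm]
  rw [St, h1, Nat.card_coe_set_eq, Set.ncard_insert_of_notMem (by simp [M.pt_ne_inf]),
    Set.ncard_range_of_injective fun a b h => by simpa using h]
  simp

theorem St_mul_self {x : G} (hx : Reg x) : M.St x * M.St x = 1 := by
  by_cases h : ∃ p : M.Pt, x • p = p
  · obtain ⟨p, hp⟩ := h
    obtain ⟨k, l, hk⟩ := M.exists_conj_h_of_fix hp hx.2
    have h1 : 2 < orderOf (M.h l) := by rw [← hk, orderOf_conj']; exact hx.1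
    have h2 : MulAction.fixedBy M.Pt (M.h l) = {M.inf, M.pt 0 0 0} := by
      ext p
      refine ⟨M.eq_or_eq_of_h_smul (by rintro rfl; simp at h1) (by
        rintro rfl; exact absurd (M.orderOf_t ▸ h1) (lt_irrefl _)), ?_⟩
      rintro (rfl | rfl)
      exacts [M.h_smul_inf l, M.h_smul_zero l]
    rw [M.St_irr.isClassFunction.eq_of_isConj (isConj_iff.2 ⟨k⁻¹, by rw [inv_inv, hk]⟩), St, h2, Nat.card_coe_set_eq,
      Set.ncard_pair (M.inf_ne_pt 0 0 0)]
    norm_num
  · rw [St, show MulAction.fixedBy M.Pt x = ∅ from Set.eq_empty_of_forall_notMem fun p hp => h ⟨p, hp⟩]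
    simp

theorem commutator_B_le : commutator M.B ≤ M.U.subgroupOf M.B := by
  rw [commutator_def, Subgroup.commutator_le]
  rintro ⟨_, a, b, c, l, rfl⟩ - ⟨_, a', b', c', k, rfl⟩ -
  have h1 : M.x a b c * M.h l * (M.x a' b' c' * M.h k) * (M.x a b c * M.h l)⁻¹ * (M.x a' b' c' * M.h k)⁻¹ =
      M.x a b c * (M.h l * M.x a' b' c' * (M.h l)⁻¹) * (M.h k * (M.x a b c)⁻¹ * (M.h k)⁻¹) * (M.x a' b' c')⁻¹ := by
    calc _ = M.x a b c * M.h l * M.x a' b' c' * (M.h k * (M.h l)⁻¹) * (M.x a b c)⁻¹ * (M.h k)⁻¹ *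
          (M.x a' b' c')⁻¹ := by group
      _ = _ := by rw [← map_inv, h_comm, map_inv]; group
  change _ ∈ M.U
  simp only [commutatorElement_def, Subgroup.coe_subtype, Subgroup.coe_mul, Subgroup.coe_inv]
  rw [h1]
  exact M.U.mul_mem (M.U.mul_mem (M.U.mul_mem (M.x_mem_U ..) (M.conj_mem_U (M.h_mem_B l) (M.x_mem_U ..)))
    (M.conj_mem_U (M.h_mem_B k) (M.U.inv_mem (M.x_mem_U ..)))) (M.U.inv_mem (M.x_mem_U ..))

theorem eq_St [IsSimpleGroup G] {χ : G → ℂ} (hχ : IsIrrCharacter G χ) (h : ∀ g, 3 ∣ orderOf g → χ g = 0) :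
    χ = M.St := by
  have := M.finite
  have := Fintype.ofFinite G
  have := Fintype.ofFinite M.B
  have := Fintype.ofFinite (M.U.subgroupOf M.B)
  have : (M.U.subgroupOf M.B).Normal := ⟨fun n hn g => M.conj_mem_U g.2 hn⟩
  have hq := M.fin.three_le
  have hθ := hχ.isCharacter.res M.B
  obtain ⟨n, hn⟩ := (hθ.res (M.U.subgroupOf M.B)).exists_nat_classInner isCharacter_one
  have h1 := card_mul_classInner (fun u : M.U.subgroupOf M.B => χ u) (fun _ => 1)
  rw [hn, Nat.card_congr (Subgroup.subgroupOfEquivOfLe M.U_le_B).toEquiv, M.card_U,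
    Finset.sum_eq_single 1 (fun u _ hu => by
      rw [h _ (by
        have := M.orderOf_U_cases (u := u) u.2 fun e => hu (Subtype.ext (Subtype.ext e))
        omega), zero_mul]) (by simp)] at h1
  simp only [OneMemClass.coe_one, map_one, mul_one] at h1
  have h2 : n ≠ 0 := by
    rintro rfl
    exact hχ.apply_one_ne_zero (by rw [← h1]; simp)
  obtain ⟨φ, hφ, h3, h4⟩ := hθ.exists_common_constituent (isCharacter_indFun_one (M.U.subgroupOf M.B)) (by
    rw [classInner_indFun_right _ _ hθ.isClassFunction, hn]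
    exact Nat.cast_ne_zero.2 h2)
  rw [classInner_indFun_left _ _ hφ.isClassFunction, Ne, classInner_eq_zero_comm] at h4
  have h5 := hφ.commutator_le_charKer_iff.1
    (M.commutator_B_le.trans (hφ.le_charKer_of_classInner_res_one_ne_zero _ h4))
  have h6 := (isCharacter_indFun hφ.isCharacter).sub_of_classInner_ne_zero hχ (by
    rwa [classInner_indFun_left _ _ hχ.isClassFunction, Ne, classInner_eq_zero_comm])
  obtain ⟨j, hj⟩ := h6.exists_nat_degree
  have h7 : Fintype.card K ^ 3 + 1 = Fintype.card K ^ 3 * n + j := by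
    rw [Pi.sub_apply, indFun_one, h5, M.index_B, ← h1] at hj
    exact_mod_cast (by linear_combination hj : ((Fintype.card K ^ 3 + 1 : ℕ) : ℂ) = (Fintype.card K ^ 3 : ℕ) * n + j)
  have h8 : 3 ≤ Fintype.card K ^ 3 := hq.trans (Nat.le_self_pow three_ne_zero _)
  obtain rfl : n = 1 := by
    by_contra h9
    have : Fintype.card K ^ 3 * 2 ≤ Fintype.card K ^ 3 * n := Nat.mul_le_mul_left _ (by omega)
    omega
  obtain rfl : j = 1 := by omega
  obtain ⟨lam, hlam⟩ := h6.exists_monoidHom_of_apply_one (by rw [hj, Nat.cast_one])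
  have h9 : indFun M.B φ - χ = fun _ => 1 := by
    by_contra h9
    have := M.degree_ge (hlam ▸ isIrrCharacter_monoidHom lam) h9 hj
    have : Fintype.card K < Fintype.card K ^ 2 := by nlinarith
    omega
  have h10 : φ = fun _ => 1 := hφ.eq_of_classInner_ne_zero isIrrCharacter_one (by
    rw [← classInner_indFun_left M.B φ (χ := fun _ => 1) (isClassFunction_const 1), sub_eq_iff_eq_add.1 h9,
      classInner_add_left, classInner_one_one, hχ.classInner_of_ne isIrrCharacter_one fun e => by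
        rw [e, Nat.cast_one, mul_one] at h1
        have : Fintype.card K ^ 3 = 1 := Nat.cast_eq_one.1 h1
        omega]
    norm_num)
  funext g
  have := congrFun h9 g
  rw [h10, Pi.sub_apply, indFun_one_eq_card_fixedBy] at this
  rw [St, ← this, sub_sub_cancel]

theorem ideal_centralChar [IsSimpleGroup G] {P : Ideal AlgInt} (hP : IsPModular 3 P) {χ : G → ℂ}
    (hχ : IsIrrCharacter G χ) (h : χ ≠ M.St) : MemLocalIdeal P (centralChar χ M.t) := by
  have := M.finite
  by_contra h1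
  have hB := isPBlock_blockOf_irr (M := P) hχ
  have hm := mem_blockOf_self hP ⟨χ, hχ⟩
  obtain ⟨D, hD⟩ := exists_isDefectGroup (p := 3) hP hB
  obtain ⟨c, h2, h3⟩ := exists_isConj_of_lamB_classSum hP hB ((lamB_classSum_ne_zero_iff hP hB hm).2 h1)
    (defect_isPGroup hD) (defect_brC_ne_zero hP hB hD)
  exact h (M.eq_St hχ fun g => apply_eq_zero_of_blockDefect_eq_zero hP hB ((blockDefect_eq_zero_iff hP hB hD).2
    (M.eq_bot_of_radical (defect_isPGroup hD) (pCore_normalizer_defect hP hB hD)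
      (orderOf_eq_of_isConj h2 ▸ M.orderOf_t) h3)) hm)

theorem cover_t [IsSimpleGroup G] {x : G} (hx : Reg x) : ∃ y z, IsConj x y ∧ IsConj x z ∧ y * z = M.t := by
  classical
  have := M.finite
  by_contra! hc
  obtain ⟨P, hP⟩ := Princ.exists_isPModular Nat.prime_three
  have h1 : ∑ χ : IrrCharacter G, (χ : G → ℂ) x * (χ : G → ℂ) x * centralChar χ M.t = 0 := by
    have := congrArg (((Subgroup.centralizer ({M.t} : Set G)).index : ℂ) * ·) (sum_irr_mul_mul_conj_div_eq_zero hc)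
    simp only [Finset.mul_sum, mul_zero] at this
    rw [← this]
    refine Finset.sum_congr rfl fun χ _ => ?_
    rw [← χ.2.isCharacter.apply_inv, t_inv, centralChar]
    ring
  rw [← Finset.add_sum_erase _ _ (Finset.mem_univ ⟨_, M.St_irr⟩), add_eq_zero_iff_eq_neg] at h1
  have h2 := Loc.ideal_neg hP (Loc.ideal_sum hP (Finset.univ.erase (⟨_, M.St_irr⟩ : IrrCharacter G))
    (f := fun χ => (χ : G → ℂ) x * (χ : G → ℂ) x * centralChar χ M.t) fun χ hχ =>
      Loc.ideal_mul_left hP (Loc.ring_of_isIntegral hP ((IsCharacter_isIntegral χ.2.isCharacter x).mul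
        (IsCharacter_isIntegral χ.2.isCharacter x))) (M.ideal_centralChar hP χ.2 fun e => Finset.ne_of_mem_erase hχ (Subtype.ext e)))
  have h3 : (Subgroup.centralizer ({M.t} : Set G)).index =
      Fintype.card K ^ 2 * (Fintype.card K ^ 2 - Fintype.card K + 1) := by
    have hq := M.fin.three_le
    apply Nat.eq_of_mul_eq_mul_left (Nat.card_pos (α := Subgroup.centralizer ({M.t} : Set G)))
    rw [Subgroup.card_mul_index, M.card_G'', M.card_centralizer_t]
    ring
  have h4 : M.St x * M.St x * centralChar M.St M.t = (Fintype.card K ^ 2 - Fintype.card K + 1 : ℕ) := by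
    have hq : (Fintype.card K : ℂ) ≠ 0 := by simp
    rw [M.St_mul_self hx, centralChar, h3, St_t, St_one, Nat.cast_mul, Nat.cast_pow]
    field_simp
  rw [← h1, h4, Loc.ideal_natCast_iff hP] at h2
  exact absurd (M.coprime_N_six.coprime_dvd_left h2) (by norm_num)

include M in
theorem cover_small [IsSimpleGroup G] (hm : 1 ≤ m) {x g : G} (hx : Reg x)
    (hg : Nat.card (Subgroup.centralizer ({g} : Set G)) ≤ 3 * Fintype.card K) :
    ∃ y z, IsConj x y ∧ IsConj x z ∧ y * z = g := by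
  classical
  have := M.finite
  by_contra! hc
  have h1 := sum_irr_mul_mul_conj_div_eq_zero hc
  rw [← Finset.add_sum_erase _ _ (Finset.mem_univ ⟨_, isIrrCharacter_one⟩), add_eq_zero_iff_eq_neg] at h1
  have h2 := sum_irr_normSq x
  rw [← Finset.add_sum_erase _ _ (Finset.mem_univ ⟨_, isIrrCharacter_one⟩)] at h2
  obtain ⟨d, hd⟩ : ∃ d, d = Fintype.card K ^ 2 - Fintype.card K + 1 := ⟨_, rfl⟩
  have hd0 : (0 : ℝ) < d := by rw [hd]; positivity
  have h3 : ∀ χ ∈ Finset.univ.erase (⟨_, isIrrCharacter_one⟩ : IrrCharacter G),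
      ‖(χ : G → ℂ) x * (χ : G → ℂ) x * conj ((χ : G → ℂ) g) / (χ : G → ℂ) 1‖ ≤
        ‖(χ : G → ℂ) x‖ ^ 2 * ((3 ^ (m + 1) : ℕ) / d) := fun χ hχ => by
    obtain ⟨k, hk⟩ := χ.2.isCharacter.exists_nat_degree
    have h4 : (d : ℝ) ≤ k := by
      exact_mod_cast hd ▸ M.degree_ge χ.2 (fun e => Finset.ne_of_mem_erase hχ (Subtype.ext e)) hk
    have h5 : ‖(χ : G → ℂ) g‖ ≤ (3 ^ (m + 1) : ℕ) := by
      refine le_of_sq_le_sq ?_ (by positivity)
      refine (Finset.single_le_sum (f := fun χ : IrrCharacter G => ‖(χ : G → ℂ) g‖ ^ 2) (fun _ _ => sq_nonneg _)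
        (Finset.mem_univ χ)).trans ?_
      rw [sum_irr_normSq g]
      exact_mod_cast M.fin.r_sq ▸ hg
    rw [norm_div, norm_mul, norm_mul, Complex.norm_conj, hk, Complex.norm_natCast, mul_div_assoc, sq]
    gcongr
  have h4 := (norm_sum_le _ _).trans (Finset.sum_le_sum h3)
  rw [← norm_neg, ← h1, ← Finset.sum_mul, eq_sub_of_add_eq' h2, ← mul_div_assoc, le_div_iff₀ hd0] at h4
  simp only [mul_one, map_one, div_one, norm_one, one_pow, one_mul] at h4
  have h5 : (Nat.card (Subgroup.centralizer ({x} : Set G)) : ℝ) ≤ (Fintype.card K + 3 ^ (m + 1) + 1 : ℕ) := by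
    exact_mod_cast M.card_centralizer_reg_le hm hx
  have h6 : (d : ℝ) ≤ ((Fintype.card K + 3 ^ (m + 1)) * 3 ^ (m + 1) : ℕ) := h4.trans (by
    push_cast at h5 ⊢
    gcongr
    linarith)
  have h7 := M.fin.three_mul_r_le hm
  have h8 := M.fin.le_card hm
  have h9 := M.fin.r_sq
  rw [Nat.cast_le, hd] at h6
  generalize 3 ^ (m + 1) = r at *
  zify [Nat.le_self_pow two_ne_zero (Fintype.card K)] at *
  nlinarith

include M in
theorem isConj_inv' (hm : 1 ≤ m) {x y : G} (hx : Reg x) (h : IsConj x y) : IsConj x y⁻¹ := by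
  obtain ⟨k, rfl⟩ := isConj_iff.1 h
  exact (M.isConj_inv hm hx).trans (isConj_iff.2 ⟨k, by group⟩)

theorem cover_Z (hm : 1 ≤ m) {x : G} (hx : Reg x) : ∃ y z, IsConj x y ∧ IsConj x z ∧ y * z = M.x 0 0 1 := by
  obtain ⟨l, h⟩ := M.exists_isConj_hwz hm hx
  refine ⟨_, _, M.isConj_inv' hm hx h, h.trans (isConj_iff.2 ⟨_, M.t_conj_hwz l 1⟩), ?_⟩
  rw [mul_inv_rev, mul_assoc, inv_mul_cancel_left, x_inv_E, x_mul_E]
  exact M.x_congr rfl (by simp) (by linear_combination -τ.three)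

theorem exists_pair_E (hm : 1 ≤ m) {x : G} (hx : Reg x) : ∃ l a b c b' c', b ≠ b' ∧
    IsConj x (M.h l * M.w * M.x a b c) ∧ IsConj x (M.h l * M.w * M.x a b' c') := by
  have := M.finite
  by_contra! hc
  let S := {p : (Kˣ × K) × K × K // IsConj x (M.h p.1.1 * M.w * M.x p.1.2 p.2.1 p.2.2)}
  have hr : 3 ≤ 3 ^ (m + 1) := Nat.le_self_pow (by omega) 3
  have h1 : Nat.card S ≤ 3 ^ (m + 1) * Nat.card (Kˣ × K) := natCard_le_mul_of_fiber (fun p : S => p.1.1) _ (by
    rintro ⟨⟨⟨l, a⟩, b, c⟩, hp⟩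
    have key : ∀ p : S, p.1.1 = (l, a) → p.1.2.1 = b := by
      rintro ⟨⟨_, b', c'⟩, hp'⟩ rfl
      by_contra h
      exact hc l a b' c' b c h hp' hp
    refine le_trans ?_ (ncard_roots_le hr (-((l : K)⁻¹ ^ 2 * (τ.σ l)⁻¹ * a))
      ((l : K)⁻¹ ^ 2 * (τ.σ l)⁻¹ * (a * b) - (l : K)⁻¹ * (τ.σ l)⁻¹ * τ.σ a) (M.tr (M.h l * M.w * M.x a b 0) - M.tr x)
      (β := (l : K)⁻¹ ^ 2 * (τ.σ l)⁻¹) (by simp [τ.σ_unit_ne_zero]))
    refine Nat.card_le_card_of_injective (fun p => ⟨p.1.1.2.2, ?_⟩) fun p p' h => Subtype.ext (Subtype.ext (Prod.ext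
      (p.2.trans p'.2.symm) (Prod.ext ((key _ p.2).trans (key _ p'.2).symm) (congrArg Subtype.val h :))))
    have h1 := p.1.2
    rw [key _ p.2, p.2] at h1
    rw [M.tr_eq_of_isConj h1, tr_hwx, tr_hwx, ← M.fin.σ_eq, map_zero]
    ring)
  have h2 : Nat.card {y : G // IsConj x y} ≤ Nat.card (M.B ⊕ M.U × S) := by
    refine Nat.card_le_card_of_surjective (β := {y : G // IsConj x y}) (fun p => by
      classical exact p.elim (fun b : M.B => if h : IsConj x b then ⟨b, h⟩ else ⟨x, IsConj.refl x⟩) fun p : M.U × S =>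
        ⟨_, p.2.2.trans (isConj_iff.2 ⟨p.1, rfl⟩)⟩) ?_
    rintro ⟨y, hy⟩
    by_cases h : y ∈ M.B
    · exact ⟨Sum.inl ⟨y, h⟩, dif_pos hy⟩
    · obtain ⟨a, b, c, l, a', b', c', rfl⟩ := M.exists_of_not_mem_B h
      obtain ⟨a'', b'', c'', e⟩ := M.U.mul_mem (M.x_mem_U a' b' c') (M.x_mem_U a b c)
      have h3 : M.x a b c * (M.h l * M.w * M.x a'' b'' c'') * (M.x a b c)⁻¹ =
          M.x a b c * M.h l * M.w * M.x a' b' c' := by rw [← e]; group
      exact ⟨Sum.inr (⟨_, M.x_mem_U a b c⟩, ⟨((l, a''), b'', c''),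
        hy.trans (IsConj.symm (isConj_iff.2 ⟨_, h3⟩))⟩), Subtype.ext h3⟩
  have h3 := (Subgroup.centralizer ({x} : Set G)).card_mul_index
  rw [card_isConj_eq_index, Nat.card_sum, Nat.card_prod, card_B, card_U] at h2
  rw [Nat.card_prod, Nat.card_units, Nat.card_eq_fintype_card (α := K)] at h1
  have h4 := Nat.mul_le_mul (M.card_centralizer_reg_le hm hx) (h2.trans (Nat.add_le_add_left (Nat.mul_le_mul_left _ h1) _))
  have h7 := M.fin.three_mul_r_le hm
  have h8 := M.fin.le_card hm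
  rw [h3, M.card_G] at h4
  generalize 3 ^ (m + 1) = r at *
  generalize Fintype.card K = q at *
  have h5 : q ^ 3 + 1 ≤ (q + r + 1) * (1 + r * q) := Nat.le_of_mul_le_mul_left (h4.trans (le_of_eq (by ring)))
    (Nat.mul_pos (by positivity) (by omega))
  have h6 : 9 * ((q + r + 1) * (1 + r * q)) ≤ (4 * q + 3) * (3 + q * q) := by
    rw [show 9 * ((q + r + 1) * (1 + r * q)) = (3 * q + 3 * r + 3) * (3 + 3 * r * q) by ring]
    gcongr
    omega
  nlinarith

theorem cover_E (hm : 1 ≤ m) {x : G} (hx : Reg x) {β : K} (hβ : β ≠ 0) :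
    ∃ g, IsConj g (M.x 0 β 0) ∧ ∃ y z, IsConj x y ∧ IsConj x z ∧ y * z = g := by
  obtain ⟨l, a, b, c, b', c', h, h1, h2⟩ := M.exists_pair_E hm hx
  have key : ∀ {b c b' c'} (k : Kˣ), k * τ.σ k * (b' - b) = β → IsConj x (M.h l * M.w * M.x a b c) →
      IsConj x (M.h l * M.w * M.x a b' c') →
      ∃ g, IsConj g (M.x 0 β 0) ∧ ∃ y z, IsConj x y ∧ IsConj x z ∧ y * z = g := fun {b c b' c'} k hk h1 h2 => by
    refine ⟨_, ?_, _, _, M.isConj_inv' hm hx h1, h2, rfl⟩
    rw [mul_inv_rev, mul_assoc, inv_mul_cancel_left, x_inv, x_mul, neg_add_cancel]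
    refine (isConj_iff.2 ⟨_, M.h_conj_x k _ _ _⟩).trans ?_
    rw [mul_zero, show -b - a * τ.σ a + b' - -a * τ.σ a = b' - b by ring, hk]
    exact (M.isConj_E hβ _).symm
  have h3 := sub_ne_zero.2 h.symm
  obtain ⟨k, hk | hk⟩ := τ.exists_mul_σ_eq_or (div_ne_zero hβ h3)
  · exact key k (by rw [hk, div_mul_cancel₀ _ h3]) h1 h2
  · exact key k (by rw [hk, ← neg_sub b', neg_mul_neg, div_mul_cancel₀ _ h3]) h2 h1

include M in
theorem cover [IsSimpleGroup G] (hm : 1 ≤ m) {x g : G} (hx : Reg x) (hg : g ≠ 1) :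
    ∃ u v : G, g = u * x * u⁻¹ * (v * x * v⁻¹) := by
  have := M.finite
  obtain ⟨_, h, y, z, hy, hz, rfl⟩ : ∃ g', IsConj g' g ∧ ∃ y z, IsConj x y ∧ IsConj x z ∧ y * z = g' := by
    have h0 : ∀ k : G, IsConj (k⁻¹ * g * k) g := fun k => isConj_iff.2 ⟨k, by group⟩
    by_cases h3 : 3 ∣ orderOf g
    · rcases M.cases_of_three_dvd h3 with ⟨k, a, b, c, hk⟩ | ⟨k, b, hb, hk⟩
      · have h1 := hk ▸ h0 k
        by_cases ha : a = 0
        · subst ha
          by_cases hb : b = 0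
          · subst hb
            exact ⟨_, (M.isConj_Z fun e => hg (isConj_one_right.1 (by simpa [e] using h1))).trans h1, M.cover_Z hm hx⟩
          · obtain ⟨g', h4, h5⟩ := M.cover_E hm hx hb
            exact ⟨g', (h4.trans (M.isConj_E hb c)).trans h1, h5⟩
        · exact ⟨_, h1, M.cover_small hm hx (M.card_centralizer_x_le ha b c)⟩
      · exact ⟨_, hk ▸ h0 k, M.cover_small hm hx ((M.card_centralizer_Q_mul_t_le hb).trans (by omega))⟩
    · by_cases h2 : orderOf g = 2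
      · exact ⟨_, M.isConj_t h2, M.cover_t hx⟩
      · have h1 : orderOf g ≠ 1 := by simpa using hg
        have := orderOf_pos g
        have := M.fin.three_mul_r_le hm
        have := M.fin.le_card hm
        exact ⟨_, IsConj.refl g, M.cover_small hm hx ((M.card_centralizer_reg_le hm ⟨by omega, h3⟩).trans (by omega))⟩
  obtain ⟨k, rfl⟩ := isConj_iff.1 h
  obtain ⟨u, rfl⟩ := isConj_iff.1 hy
  obtain ⟨v, rfl⟩ := isConj_iff.1 hz
  exact ⟨k * u, k * v, by group⟩

end ReeModel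

end Cfsg.Lib.Known.Ree
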