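/-
Small Ree groups: arbitrarily large groups with the element orders of the cube.
-/
import Cfsg.Agent.Known.ReeLocal

set_option autoImplicit false

namespace Cfsg.Lib.Known.Ree

open GL2 Matrix

theorem sdp_pow_eq {N Y : Type*} [CommGroup N] [Group Y] {ψ : Y →* MulAut N} (x : N ⋊[ψ] Y) {k : ℕ}
    (h : x.right ^ k = 1) : ∃ n, x ^ k = SemidirectProduct.inl n ∧ ψ x.right n = n := by
  obtain ⟨n, hn⟩ : x ^ k ∈ (SemidirectProduct.inl : N →* N ⋊[ψ] Y).range := by
    rw [SemidirectProduct.range_inl_eq_ker_rightHom, MonoidHom.mem_ker, map_pow]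
    exact h
  refine ⟨n, hn.symm, ?_⟩
  have h1 := congrArg SemidirectProduct.left ((Commute.refl x).pow_right k).eq
  rw [← hn] at h1
  simpa [mul_comm n] using h1

theorem lcm_three {P Q : ℕ → Prop} {e f : ℕ} (h1 : Q 1) (h2 : ∀ n, P n → Q n ∨ n ∣ e ∨ n ∣ f)
    (he : ∀ n, n ∣ e → P n) (hf : ∀ n, n ∣ f → P n) {a b c : ℕ} (ha : P a) (hb : P b) (hc : P c) :
    ∃ a' b' c', P a' ∧ P b' ∧ Q c' ∧ a'.lcm (b'.lcm c') = a.lcm (b.lcm c) := by
  have key : ∀ {a b c : ℕ}, P a → (b ∣ e ∧ c ∣ e) ∨ (b ∣ f ∧ c ∣ f) →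
      ∃ a' b' c', P a' ∧ P b' ∧ Q c' ∧ a'.lcm (b'.lcm c') = a.lcm (b.lcm c) := fun {a b c} ha h =>
    ⟨a, b.lcm c, 1, ha, h.elim (fun h => he _ (Nat.lcm_dvd h.1 h.2)) fun h => hf _ (Nat.lcm_dvd h.1 h.2), h1,
      by simp⟩
  have e1 : b.lcm (a.lcm c) = a.lcm (b.lcm c) := by rw [← Nat.lcm_assoc, Nat.lcm_comm b, Nat.lcm_assoc]
  have e2 : c.lcm (a.lcm b) = a.lcm (b.lcm c) := by rw [Nat.lcm_comm c, Nat.lcm_assoc]
  rcases h2 c hc with hc' | hc'
  · exact ⟨a, b, c, ha, hb, hc', rfl⟩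
  rcases h2 b hb with hb' | hb'
  · exact ⟨c, a, b, hc, ha, hb', e2⟩
  rcases h2 a ha with ha' | ha'
  · exact ⟨b, c, a, hb, hc, ha', by rw [Nat.lcm_comm c, e1]⟩
  by_cases h3 : (b ∣ e ∧ c ∣ e) ∨ (b ∣ f ∧ c ∣ f)
  · exact key ha h3
  by_cases h4 : (a ∣ e ∧ c ∣ e) ∨ (a ∣ f ∧ c ∣ f)
  · exact e1 ▸ key hb h4
  · exact e2 ▸ key hc (by tauto)

section Module

variable {K : Type*} [Field K]

theorem trace_eq_of_fixed {y z : SL2 K} {A : M2 K} (hA : A ≠ 0) (h : (slLin K).ρ y * A = A * (slLin K).ρ z) :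
    ((slLin K).ρ y).trace = ((slLin K).ρ z).trace := by
  have h1 : (slLin K).ρ (y * y) * A = A * (slLin K).ρ (z * z) := by
    rw [map_mul, map_mul, mul_assoc, h, ← mul_assoc, h, mul_assoc]
  rw [mul_self_SL, mul_self_SL, sub_mul, mul_sub, one_mul, mul_one, sub_left_inj, smul_mul_assoc, mul_smul_comm, h,
    ← sub_eq_zero, ← sub_smul, smul_eq_zero, sub_eq_zero] at h1
  refine h1.resolve_right fun h2 => hA ?_
  rw [← mul_one A, ← map_one (slLin K).ρ, ← mul_inv_cancel z, map_mul, ← mul_assoc, h2, zero_mul]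

theorem cube_eq_one_or {y : SL2 K} (h : ((slLin K).ρ y).trace ^ 2 = 1) : y ^ 3 = 1 ∨ y ^ 3 = -1 := by
  have h1 : (slLin K).ρ (y ^ 3) = -((slLin K).ρ y).trace • 1 := by
    rw [pow_succ, sq, map_mul, mul_self_SL, sub_mul, smul_mul_assoc, ← map_mul, mul_self_SL, smul_sub, smul_smul, ← sq,
      h, one_smul, one_mul, neg_smul]
    abel
  rcases sq_eq_one_iff.1 h with h | h
  · exact Or.inr ((slLin K).inj (by rw [h1, h, ρ_neg_SL]; simp))
  · exact Or.inl ((slLin K).inj (by rw [h1, h]; simp))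

variable [CharP K 3]

/-- The Frobenius twist on `SL₂`. -/
noncomputable def frSL : SL2 K →* SL2 K := SpecialLinearGroup.map (frobenius K 3)

theorem trace_frSL (y : SL2 K) : ((slLin K).ρ (frSL y)).trace = ((slLin K).ρ y).trace ^ 3 := by
  change (frSL y).1.trace = y.1.trace ^ 3
  simp [frSL, trace_fin_two, frobenius_def, add_pow_char]

theorem frSL_neg_one : frSL (-1 : SL2 K) = -1 := by
  ext i j
  fin_cases i <;> fin_cases j <;> simp [frSL]

theorem frSL_u : frSL ((slLin K).u 1) = (slLin K).u 1 := by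
  apply (slLin K).inj
  change (((slLin K).ρ ((slLin K).u 1)).map (frobenius K 3)) = _
  rw [Lin2.ρ_u]
  ext i j
  fin_cases i <;> fin_cases j <;> simp

/-- The module: `n` copies of the twisted tensor square. -/
abbrev Md (K : Type*) (n : ℕ) := Multiplicative (Fin n → M2 K)

/-- The action of `SL₂` on the module. -/
@[reducible] noncomputable def actI (n : ℕ) : MulDistribMulAction (SL2 K) (Md K n) where
  smul y A := Multiplicative.ofAdd fun i => (slLin K).ρ y * A.toAdd i * (slLin K).ρ (frSL y⁻¹)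
  one_smul A := funext fun i => by
    change (slLin K).ρ 1 * A.toAdd i * (slLin K).ρ (frSL 1⁻¹) = A.toAdd i
    simp
  mul_smul y z A := funext fun i => by
    change (slLin K).ρ (y * z) * A.toAdd i * (slLin K).ρ (frSL (y * z)⁻¹) =
      (slLin K).ρ y * ((slLin K).ρ z * A.toAdd i * (slLin K).ρ (frSL z⁻¹)) * (slLin K).ρ (frSL y⁻¹)
    simp only [_root_.mul_inv_rev, map_mul, mul_assoc]
  smul_mul y A B := funext fun i => by
    change (slLin K).ρ y * (A.toAdd i + B.toAdd i) * (slLin K).ρ (frSL y⁻¹) =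
      (slLin K).ρ y * A.toAdd i * (slLin K).ρ (frSL y⁻¹) + (slLin K).ρ y * B.toAdd i * (slLin K).ρ (frSL y⁻¹)
    rw [mul_add, add_mul]
  smul_one y := funext fun i => by
    change (slLin K).ρ y * 0 * (slLin K).ρ (frSL y⁻¹) = 0
    simp

/-- The action of `SL₂` on the module. -/
noncomputable def act₀ (n : ℕ) : SL2 K →* MulAut (Md K n) := @MulDistribMulAction.toMulAut _ _ _ _ (actI n)

theorem act₀_apply {n : ℕ} (y : SL2 K) (A : Md K n) (i : Fin n) :
    (act₀ n y A).toAdd i = (slLin K).ρ y * A.toAdd i * (slLin K).ρ (frSL y⁻¹) := rfl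

/-- The action of `PSL₂` on the module. -/
noncomputable def act₁ (n : ℕ) : PSL2 K →* MulAut (Md K n) :=
  QuotientGroup.lift _ (act₀ n) fun y hy => by
    rcases mem_center_SL.1 hy with rfl | rfl
    · exact map_one _
    · refine MulEquiv.ext fun A => funext fun i => (act₀_apply _ A i).trans ?_
      rw [inv_neg, inv_one, frSL_neg_one, ρ_neg_SL]
      simp
      rfl

theorem inv_mul_inv_aut {N : Type*} [CommGroup N] : (MulEquiv.inv N : MulAut N) * MulEquiv.inv N = 1 :=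
  MulEquiv.ext fun a => inv_inv a

/-- The action of `2 × PSL₂` on the module. -/
noncomputable def act (n : ℕ) : Multiplicative (ZMod 2) × PSL2 K →* MulAut (Md K n) :=
  (inv2 (MulEquiv.inv _) inv_mul_inv_aut).noncommCoprod (act₁ n) fun a _ =>
    commute_inv2 _ (MulEquiv.ext fun A => by simp) a

theorem md_pow_three {n : ℕ} (A : Md K n) : A ^ 3 = 1 := funext fun i => by
  change 3 • A.toAdd i = 0
  rw [← Nat.cast_smul_eq_nsmul K, CharP.cast_eq_zero, zero_smul]

theorem cases_of_fixed (hi : ∀ i : K, i ^ 2 ≠ -1) {n : ℕ} {g : Multiplicative (ZMod 2) × PSL2 K} {A : Md K n}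
    (hA : A ≠ 1) (h : act n g A = A) : g ^ 2 = 1 ∨ g ^ 3 = 1 := by
  obtain ⟨a, b⟩ := g
  obtain ⟨y, rfl⟩ := piSL_surjective b
  obtain ⟨i, hi'⟩ : ∃ i, A.toAdd i ≠ 0 := Function.ne_iff.1 hA
  have h0 : ((slLin K).ρ y).trace = 0 → ((a, piSL K y) : Multiplicative (ZMod 2) × PSL2 K) ^ 2 = 1 := fun h => by
    refine Prod.ext (show a ^ 2 = 1 by rcases z2_cases a with rfl | rfl <;> rfl) ?_
    rw [Prod.pow_snd, ← map_pow, sq, mul_self_eq_neg_one_iff_SL.2 h]
    exact piSL_eq_one_iff.2 neg_one_mem_Z_SL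
  have h1 : (inv2 (MulEquiv.inv _) inv_mul_inv_aut a (act₀ n y A)).toAdd i = A.toAdd i := congrFun h i
  have h2 : ∀ z : SL2 K, (slLin K).ρ z * A.toAdd i * (slLin K).ρ (frSL y⁻¹) = A.toAdd i →
      ((slLin K).ρ z).trace = ((slLin K).ρ y).trace ^ 3 := fun z hz => by
    rw [← trace_frSL]
    refine trace_eq_of_fixed hi' ?_
    conv_rhs => rw [← hz, mul_assoc, ← map_mul, ← map_mul, inv_mul_cancel, map_one, map_one, mul_one]
  rcases z2_cases a with rfl | rfl
  · rw [map_one] at h1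
    have h3 : ((slLin K).ρ y).trace * (((slLin K).ρ y).trace ^ 2 - 1) = 0 := by linear_combination -h2 y h1
    rcases mul_eq_zero.1 h3 with h3 | h3
    · exact Or.inl (h0 h3)
    · refine Or.inr (Prod.ext (one_pow _) ?_)
      rw [Prod.pow_snd, ← map_pow]
      exact piSL_eq_one_iff.2 (mem_Z_SL.2 (cube_eq_one_or (sub_eq_zero.1 h3)))
  · rw [inv2_gen] at h1
    have h3 := h2 (-y) (by rw [ρ_neg_SL, neg_mul, neg_mul]; exact h1)
    rw [ρ_neg_SL, trace_neg] at h3
    have h4 : ((slLin K).ρ y).trace * (((slLin K).ρ y).trace ^ 2 + 1) = 0 := by linear_combination -h3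
    exact Or.inl (h0 ((mul_eq_zero.1 h4).resolve_right fun h5 => hi _ (eq_neg_of_add_eq_zero_left h5)))

/-- The extension of `2 × PSL₂` by the module. -/
abbrev XX (K : Type*) [Field K] [CharP K 3] (n : ℕ) := Md K n ⋊[act n] (Multiplicative (ZMod 2) × PSL2 K)

theorem orderOf_XX [Finite K] (hi : ∀ i : K, i ^ 2 ≠ -1) {n : ℕ} (x : XX K n) :
    orderOf x ∣ 6 ∨ orderOf x ∣ 9 ∨ orderOf x = orderOf x.right := by
  have key : ∀ k, x.right ^ k = 1 → orderOf x ∣ k * 3 := fun k hk => by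
    obtain ⟨A, hA, -⟩ := sdp_pow_eq x hk
    exact orderOf_dvd_of_pow_eq_one (by rw [pow_mul, hA, ← map_pow, md_pow_three, map_one])
  obtain ⟨A, hA, h⟩ := sdp_pow_eq x (pow_orderOf_eq_one _)
  by_cases h1 : A = 1
  · exact Or.inr (Or.inr (Nat.dvd_antisymm (orderOf_dvd_of_pow_eq_one (by rw [hA, h1, map_one]))
      (orderOf_map_dvd SemidirectProduct.rightHom x)))
  · exact (cases_of_fixed hi h1 h).imp (key 2) fun h => Or.inl (key 3 h)

theorem exists_orderOf_XX (n : ℕ) : ∃ x : XX K (n + 1), orderOf x = 9 := by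
  let A : Md K (n + 1) := Multiplicative.ofAdd fun _ => !![0, 0; 1, 0]
  let g : Multiplicative (ZMod 2) × PSL2 K := (1, piSL K ((slLin K).u 1))
  have hg : g ^ 3 = 1 := Prod.ext (one_pow _) (by rw [Prod.pow_snd, ← map_pow, Lin2.u_pow_char, map_one]; rfl)
  obtain ⟨B, hB, -⟩ := sdp_pow_eq (⟨A, g⟩ : XX K (n + 1)) hg
  refine ⟨⟨A, g⟩, orderOf_eq_prime_pow (p := 3) (n := 1) (fun h => ?_) (by
    rw [pow_succ, pow_mul, pow_one, hB, ← map_pow, md_pow_three, map_one])⟩
  have h1 : ∀ C : Md K (n + 1), (act _ g C).toAdd 0 = !![1, 1; 0, 1] * C.toAdd 0 * !![1, -1; 0, 1] := fun C => by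
    change (inv2 (MulEquiv.inv _) inv_mul_inv_aut 1 (act₀ _ _ C)).toAdd 0 = _
    rw [map_one, MulAut.one_apply, act₀_apply, map_inv, frSL_u, ← Lin2.u_neg, Lin2.ρ_u, Lin2.ρ_u]
  have h2 := congrArg (fun x : XX K (n + 1) => x.left.toAdd 0 0 1) h
  simp only [pow_succ', pow_zero, mul_one, SemidirectProduct.mul_left, toAdd_mul, Pi.add_apply, h1,
    SemidirectProduct.one_left, A] at h2
  simp at h2
  exact one_ne_zero (α := K) (by linear_combination h2 + 2 * (CharP.cast_eq_zero K 3))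

end Module

theorem ReeModel.exists_large_spectrum {K : Type*} [Field K] [Fintype K] {τ : RTw K} {m : ℕ} {G : Type*} [Group G]
    (M : ReeModel τ m G) (hm : 1 ≤ m) (N : ℕ) : ∃ (H : Type) (_ : Group H) (_ : Fintype H), N < Fintype.card H ∧
      Set.range (orderOf : H → ℕ) = Set.range (orderOf : G × G × G → ℕ) := by
  have := M.finite
  have := τ.charP
  have : Finite (XX K (N + 1)) := Finite.of_equiv _ SemidirectProduct.equivProd.symm
  obtain ⟨e⟩ := M.nonempty_centralizer_t_equiv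
  have h1 : ∀ x : XX K (N + 1), ∃ g : G, orderOf g = orderOf x := fun x => by
    rcases orderOf_XX τ.sq_ne_neg_one x with h | h | h
    · exact (M.exists_orderOf_iff hm _).2 (Or.inl h)
    · exact (M.exists_orderOf_iff hm _).2 (Or.inr (Or.inl h))
    · exact ⟨e.symm x.right, by rw [h, Subgroup.orderOf_coe, MulEquiv.orderOf_eq]⟩
  have h2 : ∀ {d}, (∃ x : XX K (N + 1), d ∣ orderOf x) → ∃ x : XX K (N + 1), orderOf x = d := fun ⟨x, hx⟩ =>
    ⟨_, orderOf_pow_orderOf_div (orderOf_pos x).ne' hx⟩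
  have h3 : ∀ {d} (g : G), Commute g M.t → d ∣ orderOf g → ∃ x : XX K (N + 1), orderOf x = d := fun g hg hd =>
    h2 ⟨SemidirectProduct.inr (e ⟨g, Subgroup.mem_centralizer_singleton_iff.2 hg⟩), by
      rwa [orderOf_injective _ SemidirectProduct.inr_injective, MulEquiv.orderOf_eq, Subgroup.orderOf_mk]⟩
  have h4 : ∀ {d} {C : Subgroup G}, IsCyclic C → (∀ g ∈ C, Commute g M.t) → d ∣ Nat.card C →
      ∃ x : XX K (N + 1), orderOf x = d := fun hC h hd => by
    obtain ⟨a, ha⟩ := hC.exists_ofOrder_eq_natCard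
    exact h3 a (h a a.2) (by rwa [Subgroup.orderOf_coe, ha])
  let f := Shrink.mulEquiv.{0} (α := G × G × XX K (N + 1))
  refine ⟨Shrink.{0} (G × G × XX K (N + 1)), inferInstance, Fintype.ofFinite _, ?_, ?_⟩
  · rw [← @Nat.card_eq_fintype_card _ (Fintype.ofFinite _), Nat.card_congr f.toEquiv]
    have h5 : Nat.card (Fin (N + 1) → K) ≤ Nat.card (G × G × XX K (N + 1)) :=
      Nat.card_le_card_of_injective (fun v => (1, 1, SemidirectProduct.inl (Multiplicative.ofAdd fun i => v i • 1)))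
        fun v w h => funext fun i => by
          simpa using congrArg (fun p : G × G × XX K (N + 1) => p.2.2.left.toAdd i 0 0) h
    rw [Nat.card_fun, Nat.card_eq_fintype_card, Nat.card_eq_fintype_card, Fintype.card_fin] at h5
    exact (Nat.lt_succ_self N).trans ((Nat.lt_pow_self Fintype.one_lt_card).trans_le h5)
  · ext d
    constructor
    · rintro ⟨x, rfl⟩
      obtain ⟨g, hg⟩ := h1 (f x).2.2
      exact ⟨((f x).1, (f x).2.1, g), by rw [← f.orderOf_eq, Prod.orderOf, Prod.orderOf, hg, Prod.orderOf, Prod.orderOf]⟩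
    · rintro ⟨⟨a, b, c⟩, rfl⟩
      obtain ⟨_, _, _, ⟨a', rfl⟩, ⟨b', rfl⟩, ⟨c', rfl⟩, h⟩ := lcm_three (P := fun d => ∃ g : G, orderOf g = d)
        (Q := fun d => ∃ x : XX K (N + 1), orderOf x = d) (e := Fintype.card K - 3 ^ (m + 1) + 1)
        (f := Fintype.card K + 3 ^ (m + 1) + 1) ⟨1, orderOf_one⟩ (fun d hd => by
          rcases (M.exists_orderOf_iff hm d).1 hd with h | h | h | h | h
          · exact Or.inl (h3 _ ((M.commute_t_Q 1).mul_left (Commute.refl _)) (M.orderOf_Q_mul_t one_ne_zero ▸ h))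
          · obtain ⟨x, hx⟩ := exists_orderOf_XX (K := K) N
            exact Or.inl (h2 ⟨x, hx ▸ h⟩)
          · exact Or.inl (h4 M.isCyclic_H (fun g hg => M.H_comm g hg _ M.t_mem_H) (M.card_H ▸ h))
          · exact Or.inl (h4 M.isCyclic_map_C₁ (by rintro _ ⟨y, -, rfl⟩; exact (M.commute_t_φ y).symm)
              (M.card_map_C₁ ▸ h))
          · exact Or.inr h)
        (fun d hd => (M.exists_orderOf_iff hm d).2 (by simp [hd]))
        (fun d hd => (M.exists_orderOf_iff hm d).2 (by simp [hd])) ⟨a, rfl⟩ ⟨b, rfl⟩ ⟨c, rfl⟩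
      exact ⟨f.symm (a', b', c'), by rw [f.symm.orderOf_eq, Prod.orderOf, Prod.orderOf, h, Prod.orderOf, Prod.orderOf]⟩

end Cfsg.Lib.Known.Ree
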