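import Cfsg.Agent.Known.SpDecomp
import Cfsg.Agent.Known.StarNorm

/-!
Every element of a finite symplectic group is a commutator, apart from three small groups.
-/

set_option autoImplicit false

namespace Cfsg.Lib.Known.SC

open Module Polynomial Cfsg.Lib.Class Cfsg.Lib.Class.Form

universe u

variable {F : Type*} {V : Type u} [Field F] [AddCommGroup V] [Module F V]
  {B : LinearMap.BilinForm F V}

theorem exists_of_family [FiniteDimensional F V] (hB : B.Nondegenerate) {ι : Type*} {x y : ι → V}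
    (hx : Submodule.span F (Set.range x) = ⊤) (h : ∀ i j, B (y i) (y j) = B (x i) (x j)) :
    ∃ T : SpB B, ∀ i, T.1 (x i) = y i := by
  have e : ∀ a b, B (Finsupp.linearCombination F y a) (Finsupp.linearCombination F y b) =
      B (Finsupp.linearCombination F x a) (Finsupp.linearCombination F x b) := fun a b => by
    simp [Finsupp.linearCombination_apply, Finsupp.sum, LinearMap.sum_apply, h]
  obtain ⟨ρ, hρ⟩ := (Finsupp.linearCombination F x).exists_rightInverse_of_surjective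
    (by rw [Finsupp.range_linearCombination, hx])
  have hρ : ∀ v, Finsupp.linearCombination F x (ρ v) = v := LinearMap.congr_fun hρ
  obtain ⟨T, hT, k⟩ := exists_SpB_of_linear hB (Finsupp.linearCombination F y ∘ₗ ρ) fun u v => by
    simp [e, hρ]
  refine ⟨⟨T, hT⟩, fun i => sub_eq_zero.1 (hB.1 _ fun z => ?_)⟩
  obtain ⟨z, rfl⟩ := T.surjective z
  simpa [k, hρ, e, sub_eq_zero] using (e (Finsupp.single i 1) (ρ z)).symm

section
variable {c : End F V} (hA : B.IsAlt) (hc : ∀ x y, B (c x) y = -B x (c y))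
include hc

theorem skew_pow (i : ℕ) (x y : V) : B ((c ^ i) x) y = (-1) ^ i * B x ((c ^ i) y) := by
  induction i generalizing y with
  | zero => simp
  | succ i ih => rw [pow_succ', End.mul_apply, hc, ih, ← End.mul_apply, ← pow_succ, ← pow_succ']; ring

theorem skew_pow' (i j : ℕ) (x y : V) :
    B ((c ^ i) x) ((c ^ j) y) = (-1) ^ j * B ((c ^ (i + j)) x) y := by
  rw [add_comm, pow_add, End.mul_apply, skew_pow hc j, ← mul_assoc, ← mul_pow]; simp

include hA

theorem skew_even {i : ℕ} (hi : Even i) (x : V) : B ((c ^ i) x) x = 0 := by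
  obtain ⟨i, rfl⟩ := hi
  rw [pow_add, End.mul_apply, skew_pow hc, hA, mul_zero]

theorem iso_fix (h2 : (2 : F) ≠ 0) {k : ℕ} {x y : V} (hx : (c ^ (2 * k + 1)) x = 0)
    (hy : (c ^ (2 * k + 1)) y = 0) (h : B ((c ^ (2 * k)) x) y ≠ 0) :
    ∃ t ∈ cyc c (c y), ∀ j, B ((c ^ j) (x + t)) (x + t) = 0 := by
  have big : ∀ {z}, (c ^ (2 * k + 1)) z = 0 → ∀ j, 2 * k + 1 ≤ j → (c ^ j) z = 0 := fun hz j hj => by
    obtain ⟨j, rfl⟩ := Nat.exists_eq_add_of_le' hj
    rw [pow_add, End.mul_apply, hz, map_zero]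
  have kill : ∀ t ∈ cyc c (c y), (c ^ (2 * k)) t = 0 := fun t ht =>
    cyc_le (W := LinearMap.ker (c ^ (2 * k))) (fun z hz => by
      rw [LinearMap.mem_ker, ← comm_pow (fun _ => rfl), hz, map_zero]) hy ht
  suffices ∀ d ≤ k, ∃ t ∈ cyc c (c y), ∀ j, 2 * k + 1 ≤ j + 2 * d →
      B ((c ^ j) (x + t)) (x + t) = 0 by
    obtain ⟨t, ht, e⟩ := this k le_rfl
    refine ⟨t, ht, fun j => ?_⟩
    rcases j with _ | j
    exacts [hA _, e _ (by omega)]
  intro d
  induction d with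
  | zero => exact fun _ => ⟨0, zero_mem _, fun j hj => by simp [big hx j hj]⟩
  | succ d ih =>
    intro hd
    obtain ⟨t, ht, e⟩ := ih (by omega)
    have hz : (c ^ (2 * k + 1)) (x + t) = 0 := by
      rw [map_add, hx, pow_succ', End.mul_apply, kill t ht]; simp
    have h' : B ((c ^ (2 * k)) (x + t)) y ≠ 0 := by rwa [map_add, kill t ht, add_zero]
    refine ⟨t + (B ((c ^ (2 * k - 2 * d - 1)) (x + t)) (x + t) /
      (2 * B ((c ^ (2 * k)) (x + t)) y)) • (c ^ (2 * d + 1)) y,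
      add_mem ht (Submodule.smul_mem _ _ (pow_mem cyc_inv (2 * d) _ (mem_cyc _ _))), fun j hj => ?_⟩
    rcases j.even_or_odd with hj' | hj'
    · exact skew_even hA hc hj' _
    rw [← add_assoc]
    generalize x + t = z at *
    have i1 := skew_pow' hc j (2 * d + 1) z y
    have i2 := skew_pow' hc (j + (2 * d + 1)) (2 * d + 1) y y
    have i3 : B ((c ^ (j + (2 * d + 1))) y) z = -B ((c ^ (j + (2 * d + 1))) z) y := by
      rw [skew_pow hc, (hj'.add_odd (odd_two_mul_add_one d)).neg_one_pow, one_mul, hA.neg_eq]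
    rw [big hy (_ + _ + _) (by omega), LinearMap.map_zero₂, mul_zero] at i2
    simp only [map_add, map_smul, LinearMap.add_apply, LinearMap.smul_apply, ← End.mul_apply,
      ← pow_add, i1, i2, i3, (odd_two_mul_add_one d).neg_one_pow, smul_eq_mul]
    by_cases hj0 : j = 2 * k - 2 * d - 1
    · rw [← hj0, show j + (2 * d + 1) = 2 * k by omega]
      field_simp; ring
    · obtain ⟨i, rfl⟩ := hj'
      simp [e _ (show 2 * k + 1 ≤ 2 * i + 1 + 2 * d by omega), big hz _
        (show 2 * k + 1 ≤ 2 * i + 1 + (2 * d + 1) by omega)]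

end

theorem exists_poly_aux {A : Type*} [CommRing A] [Algebra F A] (h2 : (2 : F) ≠ 0) {g g' : A}
    (h : g * g' = 1) (D : ℕ) :
    ∃ (f : F[X]) (t : A), g + 1 = aeval (g - g') f + t * (g + 1) ^ (D + 1) := by
  induction D with
  | zero => exact ⟨0, 1, by simp⟩
  | succ D ih =>
    obtain ⟨f, t, e⟩ := ih
    have i : algebraMap F A 2⁻¹ * 2 = 1 := by
      rw [← map_ofNat (algebraMap F A), ← map_mul, inv_mul_cancel₀ h2, map_one]
    refine ⟨C 2⁻¹ * (X + f * (f - X)), algebraMap F A 2⁻¹ * t *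
      (2 - (g - 1) * g' - t * (g + 1) ^ D), ?_⟩
    simp only [map_mul, map_add, map_sub, aeval_X, aeval_C, eq_sub_of_add_eq e.symm]
    linear_combination -(g + 1) * i + algebraMap F A 2⁻¹ * (t * (g + 1) ^ (D + 1) * g - 1) * h

open scoped IsMulCommutative in
theorem exists_poly (h2 : (2 : F) ≠ 0) (g : V ≃ₗ[F] V) (D : ℕ) : ∃ f : F[X], ∀ x,
    ((g.toLinearMap + 1) ^ D) x = 0 → g x = aeval (cc g) f x := by
  have := Algebra.isMulCommutative_adjoin F (s := {g.toLinearMap, g.symm.toLinearMap}) (by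
    rintro _ (rfl | rfl) _ (rfl | rfl) <;> ext <;> simp)
  obtain ⟨f, t, e⟩ := exists_poly_aux (A := Algebra.adjoin F {g.toLinearMap, g.symm.toLinearMap}) h2
    (g := ⟨g.toLinearMap, Algebra.subset_adjoin (by simp)⟩)
    (g' := ⟨g.symm.toLinearMap, Algebra.subset_adjoin (by simp)⟩) (by ext; simp) D
  refine ⟨f - 1, fun x hx => ?_⟩
  have := LinearMap.congr_fun (congrArg (Subalgebra.val _) e) x
  rw [map_add, map_add, ← aeval_algHom_apply] at this
  simpa [pow_succ', hx, cc, NN, eq_sub_iff_add_eq] using this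

theorem span_pow (c : End F V) (v w : V) : Submodule.span F (Set.range
    (Sum.elim (fun i : ℕ => (c ^ i) v) fun i : ℕ => (c ^ i) w)) = cyc c v ⊔ cyc c w := by
  have : ∀ v, Submodule.span F (Set.range fun i : ℕ => (c ^ i) v) = cyc c v := fun v =>
    le_antisymm (Submodule.span_le.2 (by rintro _ ⟨i, rfl⟩; exact pow_mem cyc_inv i _ (mem_cyc _ _)))
      (by
        rintro _ ⟨r, rfl⟩
        rw [aeval_eq_sum_range, LinearMap.sum_apply]
        exact sum_mem fun i _ => Submodule.smul_mem _ _ (Submodule.subset_span ⟨i, rfl⟩))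
  rw [Set.Sum.elim_range, Submodule.span_union, this, this]

theorem isCm_W [Fintype F] [FiniteDimensional F V] (hB : B.Nondegenerate) (hA : B.IsAlt)
    (h2 : (2 : F) ≠ 0) (g : SpB B) {c : End F V} (hc : ∀ x y, B (c x) y = -B x (c y)) {f : F[X]}
    (hf : ∀ x, g.1 x = aeval c f x) {v w : V} (h : cyc c v ⊔ cyc c w = ⊤)
    (hv : ∀ j, B ((c ^ j) v) v = 0) (hw : ∀ j, B ((c ^ j) w) w = 0)
    (hvw : ∀ j, Odd j → B ((c ^ j) v) w = 0) {D : ℕ} (hD : (g.1.toLinearMap + 1) ^ D = 0) :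
    IsCm g := by
  rw [← span_pow] at h
  have a1 : ∀ i j, B ((c ^ i) v) ((c ^ j) v) = 0 := fun i j => by rw [skew_pow' hc, hv, mul_zero]
  have a2 : ∀ i j, B ((c ^ i) w) ((c ^ j) w) = 0 := fun i j => by rw [skew_pow' hc, hw, mul_zero]
  have a3 : ∀ i j, (-1) ^ i * ((-1) ^ j * B ((c ^ i) v) ((c ^ j) w)) = B ((c ^ i) v) ((c ^ j) w) :=
    fun i j => by
      rcases (i + j).even_or_odd with e | e
      · rw [← mul_assoc, ← pow_add, e.neg_one_pow, one_mul]
      · simp [skew_pow' hc, hvw _ e]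
  have a4 : ∀ i j, B ((c ^ i) w) ((c ^ j) v) = -B ((c ^ i) v) ((c ^ j) w) := fun i j => by
    rw [← hA.neg_eq, ← a3 i j, skew_pow' hc, skew_pow' hc, add_comm j, ← mul_assoc ((-1) ^ j),
      ← mul_pow]
    simp
  obtain ⟨x, y, hxy⟩ := exists_binary_quad_eq (k := F) (t := 0) (n := 1) (by
    simpa using fun t : (4 : F) = 0 => h2 (mul_self_eq_zero.1 (by linear_combination t))) (-1)
  obtain ⟨i, hi⟩ := exists_of_family hB h (y := Sum.elim (fun i : ℕ => (c ^ i) (x • v + y • w))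
      fun i : ℕ => (c ^ i) (y • v - x • w)) (by
    rintro (i | i) (j | j) <;> simp [a1, a2, a4] <;>
      first | ring1 | linear_combination (-B ((c ^ i) v) ((c ^ j) w)) * hxy
            | linear_combination (B ((c ^ i) v) ((c ^ j) w)) * hxy)
  obtain ⟨b, hb⟩ := exists_of_family hB h (y := Sum.elim (fun i : ℕ => (-1 : F) ^ i • (c ^ i) w)
      fun i : ℕ => -((-1 : F) ^ i • (c ^ i) v)) (by
    rintro (i | i) (j | j) <;> simp [a1, a2, a4, mul_left_comm ((-1 : F) ^ j), a3])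
  have i1 := fun j => hi (.inl j)
  have i2 := fun j => hi (.inr j)
  have b1 := fun j => hb (.inl j)
  have b2 := fun j => hb (.inr j)
  simp only [Sum.elim_inl, Sum.elim_inr] at i1 i2 b1 b2
  have cp : ∀ j z, c ((c ^ j) z) = (c ^ (j + 1)) z := fun j z => by rw [pow_succ', End.mul_apply]
  have ic : ∀ z, i.1.toLinearMap (c z) = c (i.1 z) := LinearMap.congr_fun (LinearMap.ext_on_range
    (f := i.1.toLinearMap ∘ₗ c) (g := c ∘ₗ i.1.toLinearMap) h (by
      rintro (j | j) <;> simp [cp, i1, i2]))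
  have bc : ∀ z, b.1.toLinearMap (c z) = (-c) (b.1 z) := LinearMap.congr_fun (LinearMap.ext_on_range
    (f := b.1.toLinearMap ∘ₗ c) (g := (-c) ∘ₗ b.1.toLinearMap) h (by
      rintro (j | j) <;> simp [cp, b1, b2, pow_succ' (-1 : F)]))
  have ig : Commute i g := Subtype.ext (LinearEquiv.ext fun z => by
    simpa [hf] using comm_aeval ic f z)
  have bg : b * g = g⁻¹ * b := Subtype.ext (LinearEquiv.ext fun z => by
    refine (congrArg b.1 (hf z)).trans ((intertwine_aeval _ bc f z).trans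
      (sub_eq_zero.1 (hB.2 _ fun t => ?_)))
    rw [map_sub, ← adj_aeval (f := c) (fun a b => by simp [hc]), ← hf, sub_eq_zero]
    exact (SpB_symm_right g.2 _ _).symm)
  have ii : i * i = negSp B := Subtype.ext (LinearEquiv.toLinearMap_injective
    (LinearMap.ext_on_range h (by
      rintro (j | j) <;> simp [i1, i2] <;> match_scalars <;> first | ring1 | linear_combination hxy)))
  have bi : b * i = negSp B * i * b := Subtype.ext (LinearEquiv.toLinearMap_injective
    (LinearMap.ext_on_range h (by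
      rintro (j | j) <;> simp [i1, i2, b1, b2] <;> module)))
  obtain ⟨p, hp⟩ := CharP.exists F
  obtain ⟨_, pp, -⟩ := FiniteField.card F p
  have := Fact.mk pp
  have hu : ∃ n, Odd n ∧ (negSp B * g) ^ n = 1 := by
    rcases subsingleton_or_nontrivial V with t | t
    · exact ⟨1, odd_one, Subtype.ext (LinearEquiv.ext fun _ => Subsingleton.elim _ _)⟩
    have : CharP (End F V) p := charP_of_injective_algebraMap (algebraMap F _).injective p
    obtain ⟨k, hk⟩ := exists_pow_eq_one_of_nilpotent p (IsNilpotent.neg ⟨D, hD⟩)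
    refine ⟨p ^ k, (pp.odd_of_ne_two (by rintro rfl; exact h2 (CharP.cast_eq_zero F 2))).pow,
      Subtype.ext (LinearEquiv.toLinearMap_injective ?_)⟩
    rw [show 1 + -(g.1.toLinearMap + 1) = (negSp B * g).1.toLinearMap by ext; simp] at hk
    exact (map_pow (LinearEquiv.automorphismGroup.toLinearMapMonoidHom) _ _).trans hk
  obtain ⟨n, hn, hu⟩ := hu
  obtain ⟨r, hr⟩ := exists_pow_mul_self_eq_of_odd hn hu
  have cen : ∀ t, Commute (negSp B) t := fun t => by ext; simp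
  have nn : negSp B * negSp B = 1 := by ext; simp
  have iu : Commute i ((negSp B * g) ^ r) := ((cen i).symm.mul_right ig).pow_right r
  have bu : b * (negSp B * g) ^ r * b⁻¹ = ((negSp B * g) ^ r)⁻¹ := by
    rw [← conj_pow, ← inv_pow, ← mul_assoc, ← (cen b).eq, mul_assoc, mul_assoc, ← mul_assoc b, bg,
      mul_inv_cancel_right, (cen g).eq, mul_inv_rev, inv_eq_of_mul_eq_one_right nn]
  generalize (negSp B * g) ^ r = s at *
  refine ⟨i * s, b, ?_⟩
  have e1 : b * i * b⁻¹ = i⁻¹ := by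
    rw [bi, mul_inv_cancel_right, eq_inv_iff_mul_eq_one, mul_assoc, ii, nn]
  calc g = (i * i) * (s * s) := by rw [ii, hr, ← mul_assoc, nn, one_mul]
    _ = i * s * ((b * i * b⁻¹) * (b * s * b⁻¹))⁻¹ := by
      rw [e1, bu, mul_inv_rev, inv_inv, inv_inv, ← iu.eq, mul_assoc i s, ← mul_assoc s, ← iu.eq]
      group
    _ = _ := by group

variable [FiniteDimensional F V]

theorem finrank_cyc_nil {c : End F V} (e : ℕ) : ∀ v, (c ^ (e + 1)) v = 0 → (c ^ e) v ≠ 0 →
    finrank F (cyc c v) = e + 1 := by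
  have sp : ∀ v, cyc c v = cyc c (c v) ⊔ Submodule.span F {v} := fun v => le_antisymm (by
    rintro _ ⟨r, rfl⟩
    rw [← r.divX_mul_X_add]
    simpa using Submodule.add_mem_sup (S := cyc c (c v)) ⟨r.divX, rfl⟩ (Submodule.smul_mem _ _
      (Submodule.mem_span_singleton_self v))) (sup_le (cyc_le cyc_inv (cyc_inv _ (mem_cyc _ _)))
      ((Submodule.span_singleton_le_iff_mem _ _).2 (mem_cyc _ _)))
  have nm : ∀ e v, (c ^ (e + 1)) v = 0 → (c ^ e) v ≠ 0 → v ∉ cyc c (c v) := fun e v h h' t => h' <|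
    cyc_le (W := LinearMap.ker (c ^ e)) (fun z hz => by
      rw [LinearMap.mem_ker, ← comm_pow (fun _ => rfl), hz, map_zero]) h t
  induction e with
  | zero =>
    intro v h h'
    rw [sp, Submodule.finrank_sup_span_singleton (nm _ v h h'), show c v = 0 from h,
      (le_bot_iff.1 (cyc_le (by simp) (zero_mem _)) : cyc c 0 = ⊥), finrank_bot]
  | succ e ih =>
    intro v h h'
    rw [sp, Submodule.finrank_sup_span_singleton (nm _ v h h'), ih _ h h']

theorem exists_W [Fintype F] (hB : B.Nondegenerate) (hA : B.IsAlt) (g : SpB B)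
    (h : WD B g ⊤) : ∃ (U : Submodule F V) (hU : g ∈ stab B U) (k D : ℕ), NondegOn B U ∧
      finrank F U = 2 * (2 * k + 1) ∧ IsCm (stabRestrict B U ⟨g, hU⟩) ∧
        ∀ x ∈ U, ((g.1.toLinearMap + 1) ^ D) x = 0 := by
  obtain ⟨h2, W, -, hn, hW, k, D, h0, ⟨v₀, hv₀, h1⟩, hD⟩ := h
  have hc : ∀ x y, B (cc g.1 x) y = -B x (cc g.1 y) := fun x y => by
    simp [cc, NN_apply, SpB_symm_left g.2, SpB_symm_right g.2]
  have mc : ∀ x ∈ W, cc g.1 x ∈ W := fun x hx =>
    sub_mem (sub_mem (hW x hx) hx) (sub_mem (symm_mem hW x hx) hx)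
  obtain ⟨f, hf⟩ := exists_poly h2 g.1 D
  generalize cc g.1 = c at *
  have kill : ∀ y ∈ W, ∀ t ∈ cyc c (c y), (c ^ (2 * k)) t = 0 := fun y hy t ht =>
    cyc_le (W := LinearMap.ker (c ^ (2 * k))) (fun z hz => by
      rw [LinearMap.mem_ker, ← comm_pow (fun _ => rfl), hz, map_zero]) (h0 y hy) ht
  obtain ⟨w₀, hw₀, h3⟩ : ∃ w ∈ W, B ((c ^ (2 * k)) v₀) w ≠ 0 := by
    by_contra! t
    exact h1 (hn _ (pow_mem mc _ _ hv₀) t)
  obtain ⟨t, ht, iv⟩ := iso_fix hA hc h2 (h0 _ hv₀) (h0 _ hw₀) h3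
  have hv : v₀ + t ∈ W := add_mem hv₀ (cyc_le mc (mc _ hw₀) ht)
  have h1 : (c ^ (2 * k)) (v₀ + t) ≠ 0 := by rwa [map_add, kill _ hw₀ t ht, add_zero]
  generalize v₀ + t = v at *
  obtain ⟨w₁, hw₁, h4, h5⟩ := exists_orth_in hB hA hn (cyc_le (pow_mem mc 2) (mc v hv))
    (pow_mem mc _ v hv) fun t => h1 <| parity (N := c) (n := c ^ 2) (comm_pow (fun _ => rfl) 2)
      (fun i x => by rw [pow_add, End.mul_apply]) k _ (h0 v hv) (by
        rcases k with _ | k
        exacts [.inl rfl, .inr h1]) _ t (by rw [← End.mul_apply, ← pow_succ', h0 v hv])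
  have sw : ∀ x y, B ((c ^ (2 * k)) x) y = -B ((c ^ (2 * k)) y) x := fun x y => by
    rw [skew_pow hc, (even_two_mul k).neg_one_pow, one_mul, hA.neg_eq]
  obtain ⟨s, hs, iw⟩ := iso_fix hA hc h2 (h0 _ hw₁) (h0 _ hv) (by rwa [sw, neg_ne_zero])
  have iso : ∀ {v}, (∀ j, B ((c ^ j) v) v = 0) → ∀ x ∈ cyc c v, ∀ y ∈ cyc c v, B x y = 0 := by
    rintro v hv _ ⟨r, rfl⟩ _ ⟨r', rfl⟩
    simp [aeval_eq_sum_range, LinearMap.sum_apply, skew_pow' hc, hv]
  have e : ∀ j, B ((c ^ j) v) (w₁ + s) = B ((c ^ j) v) w₁ := fun j => by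
    rw [map_add, iso iv _ (pow_mem cyc_inv j _ (mem_cyc _ _)) _
      (cyc_le cyc_inv (cyc_inv _ (mem_cyc _ _)) hs), add_zero]
  have hw : w₁ + s ∈ W := add_mem hw₁ (cyc_le mc (mc _ hv) hs)
  have h4 : ∀ j, Odd j → B ((c ^ j) v) (w₁ + s) = 0 := by
    rintro _ ⟨j, rfl⟩
    rw [e, pow_succ, pow_mul]
    exact h4 _ (pow_mem cyc_inv j _ (mem_cyc _ _))
  rw [← e] at h5
  generalize w₁ + s = w at *
  have le : cyc c v ⊔ cyc c w ≤ W := sup_le (cyc_le mc hv) (cyc_le mc hw)
  have ci := sup_inv' (T := c) (cyc_inv (v := v)) (cyc_inv (v := w))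
  have mv : v ∈ cyc c v ⊔ cyc c w := Submodule.mem_sup_left (mem_cyc _ _)
  have mw : w ∈ cyc c v ⊔ cyc c w := Submodule.mem_sup_right (mem_cyc _ _)
  have nd : NondegOn B (cyc c v ⊔ cyc c w) := nondeg_two (N := c) (e := 2 * k) mv mw (fun y hy => by
      obtain ⟨_, ⟨r, rfl⟩, _, ⟨r', rfl⟩, rfl⟩ := Submodule.mem_sup.1 hy
      refine ⟨r.coeff 0, r'.coeff 0, _, Submodule.add_mem_sup ⟨r.divX, rfl⟩ ⟨r'.divX, rfl⟩, ?_⟩
      conv_lhs => rw [← r.X_mul_divX_add, ← r'.X_mul_divX_add]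
      simp only [map_add, map_mul, aeval_X, aeval_C, LinearMap.add_apply, End.mul_apply,
        Module.algebraMap_end_apply]
      abel)
    (fun y hy => ⟨_, neg_mem (ci y hy), fun x => by simp [hc]⟩) (fun y hy => h0 y (le hy))
    (iv _) (iw _) h5 (by rwa [sw, neg_ne_zero])
  have hU : g ∈ stab B (cyc c v ⊔ cyc c w) := mem_stab_of_forall_mem fun x hx => by
    rw [hf x (hD x (le hx))]; exact aeval_mem ci f x hx
  refine ⟨_, hU, k, D, nd, ?_, ?_, fun x hx => hD x (le hx)⟩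
  · have := Submodule.finrank_sup_add_finrank_inf_eq (cyc c v) (cyc c w)
    rw [(Submodule.eq_bot_iff (cyc c v ⊓ cyc c w)).2 fun x hx => nd x (Submodule.mem_sup_left hx.1) fun y hy => by
      obtain ⟨a, ha, b, hb, rfl⟩ := Submodule.mem_sup.1 hy
      rw [map_add, iso iv x hx.1 a ha, iso iw x hx.2 b hb, add_zero], finrank_bot,
      finrank_cyc_nil _ v (h0 v hv) h1, finrank_cyc_nil _ w (h0 w hw) fun t => h5 (by
        rw [sw, t]; simp)] at this
    omega
  · have G := (good_of_isAlt B hB hA).restrict nd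
    have i := intertwine_aeval (f := c.restrict ci) (g := c) (Submodule.subtype _) fun _ => rfl
    have i' : ∀ j x, (((c.restrict ci ^ j) x : ↥(cyc c v ⊔ cyc c w)) : V) = (c ^ j) x := fun j x => by
      simpa using i (X ^ j) x
    refine isCm_W (B := restr B _) ⟨G.sep, G.sep'⟩ (fun x => hA x.1) h2 _ (c := c.restrict ci)
      (fun x y => hc x y) (f := f) (fun x => Subtype.ext ((hf x (hD x (le x.2))).trans (i f x).symm))
      (v := ⟨v, mv⟩) (w := ⟨w, mw⟩) (eq_top_iff.2 fun x _ => ?_) 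
      (fun j => by rw [restr_apply, i']; exact iv j)
      (fun j => by rw [restr_apply, i']; exact iw j)
      (fun j hj => by rw [restr_apply, i']; exact h4 j hj) (D := D)
      (LinearMap.ext fun x => Subtype.ext ?_)
    · obtain ⟨_, ⟨r, rfl⟩, _, ⟨r', rfl⟩, e⟩ := Submodule.mem_sup.1 x.2
      exact Submodule.mem_sup.2 ⟨_, ⟨r, rfl⟩, _, ⟨r', rfl⟩, Subtype.ext
        ((congrArg₂ (· + ·) (i r _) (i r' _)).trans e)⟩
    · have := intertwine_aeval (f := (stabRestrict B _ ⟨g, hU⟩).1.toLinearMap)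
        (g := g.1.toLinearMap) (Submodule.subtype _) (fun _ => rfl) ((X + 1) ^ D) x
      simpa [hD x (le x.2)] using this

theorem PP_neg_two (hB : B.Nondegenerate) (hA : B.IsAlt) (g : SpB B) (h : finrank F V = 2) :
    IsCm g ∨ PP B (negSp B * g).1 ⊤ := by
  have iso : ∀ v, ∀ x ∈ Submodule.span F {v}, ∀ y ∈ Submodule.span F {v}, B x y = 0 := by
    simp only [Submodule.mem_span_singleton]
    rintro v _ ⟨a, rfl⟩ _ ⟨b, rfl⟩
    simp [hA v]
  have top : ∀ v w : V, v ≠ 0 → w ∉ Submodule.span F {v} →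
      Submodule.span F {v} ⊔ Submodule.span F {w} = ⊤ := fun v w hv hw =>
    Submodule.eq_top_of_finrank_eq (by
      rw [Submodule.finrank_sup_span_singleton hw, finrank_span_singleton hv, h])
  by_cases! hs : ∃ v, (negSp B * g).1 v - v ∉ Submodule.span F {v}
  · obtain ⟨v, hv⟩ := hs
    refine .inr ⟨_, _, top v _ (by rintro rfl; simp at hv) hv, iso _, iso _, fun x hx => ?_⟩
    obtain ⟨a, rfl⟩ := Submodule.mem_span_singleton.1 hx
    rw [map_smul, ← smul_sub]
    exact Submodule.smul_mem _ _ (Submodule.mem_span_singleton_self _)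
  obtain ⟨a, ha⟩ := LinearMap.exists_eq_smul_id_of_forall_notLinearIndependent
    (f := g.1.toLinearMap) fun v hv => by
      obtain ⟨a, ha⟩ := Submodule.mem_span_singleton.1 (hs v)
      refine one_ne_zero (LinearIndependent.pair_iff.1 hv (a + 1) 1 ?_).2
      rw [add_smul, ha]
      simp
  have ha : ∀ x, g.1 x = a • x := LinearMap.congr_fun ha
  have := Module.nontrivial_of_finrank_eq_succ h
  obtain ⟨v, hv⟩ := exists_ne (0 : V)
  obtain ⟨w, hw⟩ : ∃ w, B v w ≠ 0 := by by_contra! t; exact hv (hB.1 v t)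
  have := mem_SpB.1 g.2 v w
  simp only [ha, map_smul, LinearMap.smul_apply, smul_eq_mul, ← mul_assoc] at this
  rcases mul_self_eq_one_iff.1 (mul_right_cancel₀ hw (this.trans (one_mul _).symm)) with rfl | rfl
  · exact .inl ⟨1, 1, by ext; simp [ha]⟩
  · exact .inr ⟨_, _, top v w hv fun t => hw (iso v v (Submodule.mem_span_singleton_self v) w t),
      iso _, iso _, fun x _ => by simp [ha]⟩

theorem isCm_or [Fintype F] (h2 : (2 : F) ≠ 0) (d : ℕ) : ∀ {V : Type u} [AddCommGroup V]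
    [Module F V] [FiniteDimensional F V] {B : LinearMap.BilinForm F V}, B.Nondegenerate → B.IsAlt →
      finrank F V = d → ∀ g : SpB B, IsCm g ∨
        (Fintype.card F = 3 ∧ d = 2 ∧ PP B (negSp B * g).1 ⊤) := by
  induction d using Nat.strong_induction_on with | _ d ih =>
  intro V _ _ _ B hB hA hd g
  by_cases h3 : Fintype.card F = 3 ∧ d = 2
  · exact (PP_neg_two hB hA g (hd.trans h3.2)).imp_right fun t => ⟨h3.1, h3.2, t⟩
  left
  rcases PP_or_WD hB hA g.2 ⊤ (fun u _ h => hB.1 u fun v => h v trivial) (fun _ _ => trivial) with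
    h | h
  · refine isCm_of_PP hB hA g h (fun t => absurd ?_ h2) fun t e => h3 ⟨t, hd ▸ e⟩
    simpa [t] using FiniteField.cast_card_eq_zero F
  obtain ⟨U, hU, k, D, hn, hk, hc, hD⟩ := exists_W hB hA g h
  have G := good_of_isAlt B hB hA
  have G' := G.restrict (G.nondegOn_orth hn)
  have r := G.finrank_orth U
  rcases ih _ (by omega) (B := restr B (orth B U)) ⟨G'.sep, G'.sep'⟩ (fun x => hA x.1) rfl
    (stabRestrict B _ ⟨g, mem_stab_orth hU⟩) with ⟨a', b', e'⟩ | ⟨-, e, L, L', l1, l2, l3, l4⟩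
  · obtain ⟨a, b, e⟩ := hc
    have : IsCm (G.stabEquivProd hn ⟨g, hU⟩) := ⟨(a, a'), (b, b'), Prod.ext e e'⟩
    simpa using (this.map (G.stabEquivProd hn).symm.toMonoidHom).map (stab B U).subtype
  refine isCm_of_PP_neg hB hA g ?_ h2 (j := k + 1) (by omega)
  rw [← (G.isCompl_orth hn).sup_eq_top]
  refine PP.sup hA ((PP_or_WD hB hA (negSp B * g).2 U hn fun x hx =>
    neg_mem ((hU x).1 hx)).resolve_right ?_) ⟨L.map (Submodule.subtype _),
      L'.map (Submodule.subtype _), by rw [← Submodule.map_sup, l1]; simp, ?_, ?_, ?_⟩ (map_add _)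
    fun x hx y hy => hy x hx
  · rintro ⟨-, W, le, -, -, k', D', -, ⟨x, hx, h1⟩, h0⟩
    refine h1 ?_
    rw [show (negSp B * g).1.toLinearMap = -g.1.toLinearMap from rfl] at h0
    rw [eq_zero_of_coprime (s := g.1.toLinearMap) (p := (X + 1) ^ D) (q := (-X + 1) ^ D') (x := x)
      (IsCoprime.pow ⟨C 2⁻¹, C 2⁻¹, ?_⟩) (by simpa using hD x (le hx)) (by simpa using h0 x hx),
      map_zero]
    rw [← mul_add, show (X + 1 + (-X + 1) : F[X]) = C 2 by simp [map_ofNat]; ring, ← C_mul,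
      inv_mul_cancel₀ h2, C_1]
  · rintro _ ⟨x, hx, rfl⟩ _ ⟨y, hy, rfl⟩; exact l2 x hx y hy
  · rintro _ ⟨x, hx, rfl⟩ _ ⟨y, hy, rfl⟩; exact l3 x hx y hy
  · rintro _ ⟨x, hx, rfl⟩; exact ⟨_, l4 x hx, rfl⟩

theorem isCm_sp [Fintype F] (hB : B.Nondegenerate) (hA : B.IsAlt)
    (h2 : Fintype.card F = 2 → finrank F V ≠ 2 ∧ finrank F V ≠ 4)
    (h3 : Fintype.card F = 3 → finrank F V ≠ 2) (g : SpB B) : IsCm g := by
  by_cases h : (2 : F) = 0
  · exact isCm_of_PP hB hA g ((PP_or_WD hB hA g.2 ⊤ (fun u _ h => hB.1 u fun v => h v trivial)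
      (fun _ _ => trivial)).resolve_right fun t => t.1 h) h2 h3
  · exact (isCm_or h _ hB hA rfl g).resolve_right fun t => h3 t.1 t.2.1

end Cfsg.Lib.Known.SC
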