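import Mathlib
import Cfsg.Agent.Class.SpCore
import Cfsg.Agent.Class.FormWitt

/-!
Vector stabilisers in symplectic groups are generated by transvections; Eichler elements;
the Siegel parabolic in coordinates.
-/

namespace Cfsg.Lib.Known.WG

open Module Cfsg.Lib.Class Matrix

section Abstract

variable {F V : Type*} [Field F] [AddCommGroup V] [Module F V] {B : LinearMap.BilinForm F V}

theorem spT_apply (hA : B.IsAlt) (w : V) (c : F) (x : V) :
    (spT hA w c).1 x = x + (c * B x w) • w := rfl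

theorem spB_form (g : SpB B) (u v : V) : B (g.1 u) (g.1 v) = B u v := g.2 u v

theorem spB_mul_apply (g h : SpB B) (v : V) : (g * h).1 v = g.1 (h.1 v) := rfl

theorem spB_inv_apply (g : SpB B) (v : V) : (g⁻¹).1 (g.1 v) = v := by
  rw [← spB_mul_apply, inv_mul_cancel]; rfl

theorem spB_apply_inv (g : SpB B) (v : V) : g.1 ((g⁻¹).1 v) = v := by
  rw [← spB_mul_apply, mul_inv_cancel]; rfl

theorem spB_ext {g h : SpB B} (H : ∀ v, g.1 v = h.1 v) : g = h :=
  Subtype.ext (LinearEquiv.ext H)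

theorem exists_step_spT [FiniteDimensional F V] (hB : B.Nondegenerate) (hA : B.IsAlt)
    (M : Subgroup (SpB B)) (H : Submodule F V)
    (hT : ∀ w c, (∀ h ∈ H, B h w = 0) → spT hA w c ∈ M) {x y : V} (hx : x ∉ H) (hy : y ∉ H)
    (hH : ∀ h ∈ H, B h y = B h x) :
    ∃ t ∈ M, (∀ h ∈ H, t.1 h = h) ∧ t.1 x = y := by
  have key : ∀ x y : V, (∀ h ∈ H, B h y = B h x) → B x y ≠ 0 →
      ∃ t ∈ M, (∀ h ∈ H, t.1 h = h) ∧ t.1 x = y := fun x y hH hd => by
    have h0 : ∀ h ∈ H, B h (y - x) = 0 := fun h hh => by rw [map_sub, hH h hh, sub_self]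
    refine ⟨spT hA (y - x) (B x y)⁻¹, hT _ _ h0, fun h hh => ?_, ?_⟩
    · rw [spT_apply, h0 h hh]; simp
    · rw [spT_apply, map_sub, hA.self_eq_zero x, sub_zero, inv_mul_cancel₀ hd]; simp
  by_cases hd : B x y = 0
  · obtain ⟨w, hw, hwx, hwy⟩ := (Form.good_of_isAlt B hB hA).exists_orth_of_notMem₂ hx hy
    have hw' : ∀ h ∈ H, B h w = 0 := fun h hh => by rw [← hA.neg_eq, hw h hh, neg_zero]
    obtain ⟨t₁, m₁, f₁, e₁⟩ := key x (x + w) (fun h hh => by rw [map_add, hw' h hh, add_zero])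
      (by rw [map_add, hA.self_eq_zero x, zero_add, ← hA.neg_eq]; exact neg_ne_zero.2 hwx)
    obtain ⟨t₂, m₂, f₂, e₂⟩ := key (x + w) y
      (fun h hh => by rw [map_add, hw' h hh, add_zero, hH h hh])
      (by rw [map_add, LinearMap.add_apply, hd, zero_add]; exact hwy)
    exact ⟨t₂ * t₁, mul_mem m₂ m₁, fun h hh => by rw [spB_mul_apply, f₁ h hh, f₂ h hh],
      by rw [spB_mul_apply, e₁, e₂]⟩
  · exact key x y hH hd

/-- The stabiliser of a vector is generated by the transvections fixing it. -/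
theorem mem_of_fix_of_spT [FiniteDimensional F V] (hB : B.Nondegenerate) (hA : B.IsAlt)
    (M : Subgroup (SpB B)) (u : V) (hT : ∀ w c, B u w = 0 → spT hA w c ∈ M) (g : SpB B)
    (hg : g.1 u = u) : g ∈ M := by
  let fx : SpB B → Submodule F V := fun g => LinearMap.ker (g.1.toLinearMap - LinearMap.id)
  have hfx : ∀ g v, v ∈ fx g ↔ g.1 v = v := fun g v => by
    simp [fx, LinearMap.mem_ker, sub_eq_zero]
  suffices H : ∀ k, ∀ g : SpB B, g.1 u = u → finrank F V ≤ finrank F (fx g) + k → g ∈ M from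
    H _ g hg (Nat.le_add_left _ _)
  have top : ∀ g : SpB B, fx g = ⊤ → g ∈ M := fun g h => by
    have : g = 1 := spB_ext fun v => (hfx g v).1 (h ▸ Submodule.mem_top)
    rw [this]; exact one_mem M
  intro k
  induction k with
  | zero =>
    intro g _ h
    exact top g (Submodule.eq_top_of_finrank_eq (le_antisymm (Submodule.finrank_le _) h))
  | succ k ih =>
    intro g hg h
    by_cases ht : fx g = ⊤
    · exact top g ht
    obtain ⟨x, hx⟩ : ∃ x, x ∉ fx g := by
      by_contra! h'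
      exact ht (eq_top_iff.2 fun x _ => h' x)
    have hy : g.1 x ∉ fx g := fun h' => hx ((hfx g x).2 (g.1.injective ((hfx g _).1 h')))
    obtain ⟨t, htM, htH, htx⟩ := exists_step_spT hB hA M (fx g)
      (fun w c hw => hT w c (hw u ((hfx g u).2 hg))) hx hy (fun h hh => by
        rw [← spB_form g h x, (hfx g h).1 hh])
    have h1 : ∀ v, t.1 v = g.1 v → v ∈ fx (t⁻¹ * g) := fun v hv => by
      rw [hfx, spB_mul_apply, ← hv, spB_inv_apply]
    have hlt : fx g < fx (t⁻¹ * g) := by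
      refine lt_of_le_of_ne (fun v hv => h1 v (by rw [htH v hv, (hfx g v).1 hv])) fun h' => hx ?_
      rw [h']; exact h1 x htx
    have := Submodule.finrank_lt_finrank_of_lt hlt
    have h2 := ih (t⁻¹ * g) ((hfx _ _).1 (hlt.le ((hfx g u).2 hg))) (by omega)
    simpa using mul_mem htM h2

/-- An isometry of a non-degenerate form as an element of the symplectic group. -/
noncomputable def mkSp [FiniteDimensional F V] (hB : B.Nondegenerate) (f : V →ₗ[F] V)
    (hf : ∀ u v, B (f u) (f v) = B u v) : SpB B :=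
  ⟨LinearEquiv.ofInjectiveEndo f (by
    refine (injective_iff_map_eq_zero f).2 fun u hu => hB.1 u fun v => ?_
    rw [← hf, hu]; simp), hf⟩

theorem mkSp_apply [FiniteDimensional F V] (hB : B.Nondegenerate) (f : V →ₗ[F] V)
    (hf : ∀ u v, B (f u) (f v) = B u v) (v : V) : (mkSp hB f hf).1 v = f v := rfl

/-- Eichler elements `v ↦ v + B(v,u) w + B(v,w) u` (for `u ⊥ w`). -/
def eich (hA : B.IsAlt) (u w : V) : SpB B :=
  spT hA (u + w) 1 * spT hA u (-1) * spT hA w (-1)

theorem eich_apply (hA : B.IsAlt) {u w : V} (h : B u w = 0) (v : V) :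
    (eich hA u w).1 v = v + B v u • w + B v w • u := by
  have h' : B w u = 0 := by rw [← hA.neg_eq, h, neg_zero]
  simp only [eich, spB_mul_apply, spT_apply, map_add, map_smul, LinearMap.add_apply,
    LinearMap.smul_apply, smul_eq_mul, h, h', hA.self_eq_zero u, hA.self_eq_zero w]
  module

theorem eich_conj (hA : B.IsAlt) (g : SpB B) (u w : V) :
    g * eich hA u w * g⁻¹ = eich hA (g.1 u) (g.1 w) := by
  rw [eich, eich, ← map_add, ← spT_conj hA g, ← spT_conj hA g, ← spT_conj hA g]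
  group

theorem eich_mul (h2 : (2 : F) ≠ 0) (hA : B.IsAlt) {u w w' : V} (h : B u w = 0) (h' : B u w' = 0) :
    eich hA u w * eich hA u w' = eich hA u (w + w' + (2⁻¹ * B w' w) • u) := by
  have h1 : B w' u = 0 := by rw [← hA.neg_eq, h', neg_zero]
  refine spB_ext fun v => ?_
  rw [spB_mul_apply, eich_apply hA h, eich_apply hA h', eich_apply hA (by
    simp [h, h', hA.self_eq_zero u])]
  simp only [map_add, map_smul, LinearMap.add_apply, LinearMap.smul_apply, smul_eq_mul, h, h1,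
    hA.self_eq_zero u]
  match_scalars <;> field_simp <;> ring

theorem eich_zero (hA : B.IsAlt) (u : V) : eich hA u 0 = 1 :=
  spB_ext fun v => by rw [eich_apply hA (by simp)]; simp

theorem eich_fix (hA : B.IsAlt) {u w : V} (h : B u w = 0) : (eich hA u w).1 u = u := by
  rw [eich_apply hA h, h, hA.self_eq_zero u]; simp

end Abstract

section Coord

variable {F : Type*} [Field F] {n : ℕ}

/-- The vector with `inl`-part `y`. -/
def inL (y : Fin n → F) : Fin n ⊕ Fin n → F := Sum.elim y 0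

/-- The vector with `inr`-part `x`. -/
def inR (x : Fin n → F) : Fin n ⊕ Fin n → F := Sum.elim 0 x

@[simp] theorem inL_inl (y : Fin n → F) : inL y ∘ Sum.inl = y := rfl
@[simp] theorem inL_inr (y : Fin n → F) : inL y ∘ Sum.inr = 0 := rfl
@[simp] theorem inR_inl (y : Fin n → F) : inR y ∘ Sum.inl = 0 := rfl
@[simp] theorem inR_inr (y : Fin n → F) : inR y ∘ Sum.inr = y := rfl

@[simp] theorem add_inl (u v : Fin n ⊕ Fin n → F) : (u + v) ∘ Sum.inl = u ∘ Sum.inl + v ∘ Sum.inl := rfl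
@[simp] theorem add_inr (u v : Fin n ⊕ Fin n → F) : (u + v) ∘ Sum.inr = u ∘ Sum.inr + v ∘ Sum.inr := rfl
@[simp] theorem smul_inl (c : F) (v : Fin n ⊕ Fin n → F) : (c • v) ∘ Sum.inl = c • v ∘ Sum.inl := rfl
@[simp] theorem smul_inr (c : F) (v : Fin n ⊕ Fin n → F) : (c • v) ∘ Sum.inr = c • v ∘ Sum.inr := rfl
@[simp] theorem neg_inl (v : Fin n ⊕ Fin n → F) : (-v) ∘ Sum.inl = -(v ∘ Sum.inl) := rfl
@[simp] theorem neg_inr (v : Fin n ⊕ Fin n → F) : (-v) ∘ Sum.inr = -(v ∘ Sum.inr) := rfl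

omit [Field F] in
theorem vec_ext {u v : Fin n ⊕ Fin n → F} (h1 : u ∘ Sum.inl = v ∘ Sum.inl)
    (h2 : u ∘ Sum.inr = v ∘ Sum.inr) : u = v := by
  ext (i | i)
  exacts [congrFun h1 i, congrFun h2 i]

theorem smul_inL (c : F) (y : Fin n → F) : c • inL y = inL (c • y) := vec_ext rfl (by simp)
theorem smul_inR (c : F) (y : Fin n → F) : c • inR y = inR (c • y) := vec_ext (by simp) rfl
theorem inL_add (y z : Fin n → F) : inL y + inL z = inL (y + z) := vec_ext rfl (by simp)
theorem inR_add (y z : Fin n → F) : inR y + inR z = inR (y + z) := vec_ext (by simp) rfl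
theorem neg_inL (y : Fin n → F) : -inL y = inL (-y) := vec_ext rfl (by simp)
theorem neg_inR (y : Fin n → F) : -inR y = inR (-y) := vec_ext (by simp) rfl
@[simp] theorem inL_zero : inL (0 : Fin n → F) = 0 := vec_ext rfl rfl
@[simp] theorem inR_zero : inR (0 : Fin n → F) = 0 := vec_ext rfl rfl
theorem inL_add_inR (v : Fin n ⊕ Fin n → F) : inL (v ∘ Sum.inl) + inR (v ∘ Sum.inr) = v :=
  vec_ext (by simp) (by simp)
theorem inL_ne_zero {y : Fin n → F} (h : y ≠ 0) : inL y ≠ 0 := fun h' =>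
  h (by simpa using congrArg (· ∘ Sum.inl) h')
theorem inR_ne_zero {y : Fin n → F} (h : y ≠ 0) : inR y ≠ 0 := fun h' =>
  h (by simpa using congrArg (· ∘ Sum.inr) h')
theorem eq_inL {v : Fin n ⊕ Fin n → F} (h : v ∘ Sum.inr = 0) : v = inL (v ∘ Sum.inl) :=
  vec_ext rfl h

theorem symp_dot (v w : Fin n ⊕ Fin n → F) :
    sympBilin n F v w = w ∘ .inl ⬝ᵥ v ∘ .inr - v ∘ .inl ⬝ᵥ w ∘ .inr := by
  simp [sympForm_eq, dotProduct, mul_comm]

theorem sympForm_dot (v w : Fin n ⊕ Fin n → F) :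
    sympForm n F v w = w ∘ .inl ⬝ᵥ v ∘ .inr - v ∘ .inl ⬝ᵥ w ∘ .inr := by
  simp [sympForm_eq, dotProduct, mul_comm]

/-- The symplectic group in coordinates. -/
noncomputable abbrev SpG (n : ℕ) (F : Type*) [Field F] :
    Subgroup ((Fin n ⊕ Fin n → F) ≃ₗ[F] (Fin n ⊕ Fin n → F)) := SpB (sympBilin n F)

theorem hAl (n : ℕ) (F : Type*) [Field F] : (sympBilin n F).IsAlt := sympBilin_isAlt n
theorem hNd (n : ℕ) (F : Type*) [Field F] : (sympBilin n F).Nondegenerate :=
  sympBilin_nondegenerate n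

/-- Elements of the Siegel unipotent radical. -/
noncomputable def sieg (M : Matrix (Fin n) (Fin n) F) : SpG n F :=
  mkSp (hNd n F) (Matrix.toLin' (fromBlocks 1 (M + Mᵀ) 0 1)) fun u v => by
    simp only [symp_dot, toLin'_apply, fromBlocks_mulVec, Sum.elim_comp_inl, Sum.elim_comp_inr,
      one_mulVec, zero_mulVec, zero_add, add_dotProduct, add_mulVec, mulVec_transpose,
      ← dotProduct_mulVec, dotProduct_comm (M *ᵥ _)]
    ring

theorem sieg_inl (M : Matrix (Fin n) (Fin n) F) (v : Fin n ⊕ Fin n → F) :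
    (sieg M).1 v ∘ Sum.inl = v ∘ Sum.inl + (M + Mᵀ) *ᵥ (v ∘ Sum.inr) := by
  simp [sieg, mkSp_apply, fromBlocks_mulVec]

theorem sieg_inr (M : Matrix (Fin n) (Fin n) F) (v : Fin n ⊕ Fin n → F) :
    (sieg M).1 v ∘ Sum.inr = v ∘ Sum.inr := by
  simp [sieg, mkSp_apply, fromBlocks_mulVec]

theorem sieg_inL (M : Matrix (Fin n) (Fin n) F) (y : Fin n → F) : (sieg M).1 (inL y) = inL y :=
  vec_ext (by simp [sieg_inl]) (by simp [sieg_inr])

theorem sieg_add (M N : Matrix (Fin n) (Fin n) F) : sieg (M + N) = sieg M * sieg N :=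
  spB_ext fun v => vec_ext (by
    simp only [spB_mul_apply, sieg_inl, sieg_inr, transpose_add, add_mulVec]; abel)
    (by simp only [spB_mul_apply, sieg_inr])

theorem sieg_zero : sieg (0 : Matrix (Fin n) (Fin n) F) = 1 :=
  spB_ext fun v => vec_ext (by simp [sieg_inl]) (by simp [sieg_inr])

theorem sieg_neg (M : Matrix (Fin n) (Fin n) F) : sieg (-M) = (sieg M)⁻¹ :=
  eq_inv_of_mul_eq_one_left (by rw [← sieg_add, neg_add_cancel, sieg_zero])

theorem sieg_transpose (M : Matrix (Fin n) (Fin n) F) : sieg Mᵀ = sieg M :=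
  spB_ext fun v => vec_ext (by simp [sieg_inl, add_comm]) (by simp [sieg_inr])

theorem exists_sieg (h2 : (2 : F) ≠ 0) (g : SpG n F) (hg : ∀ y, g.1 (inL y) = inL y) :
    ∃ M, g = sieg M := by
  let R : (Fin n → F) →ₗ[F] (Fin n ⊕ Fin n → F) :=
    { toFun := inR, map_add' := fun x y => (inR_add x y).symm
      map_smul' := fun c x => (smul_inR c x).symm }
  let a : Matrix (Fin n) (Fin n) F :=
    LinearMap.toMatrix' (LinearMap.funLeft F F Sum.inl ∘ₗ g.1.toLinearMap ∘ₗ R)
  have ha : ∀ x, a *ᵥ x = g.1 (inR x) ∘ Sum.inl := fun x => by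
    rw [← toLin'_apply, Matrix.toLin'_toMatrix']; rfl
  have hr : ∀ x, g.1 (inR x) ∘ Sum.inr = x := fun x => by
    refine (dotProduct_eq_iff (R := F)).1 fun y => ?_
    have := spB_form g (inR x) (inL y)
    rw [hg, symp_dot, symp_dot] at this
    simpa [dotProduct_comm] using this
  have hs : aᵀ = a := by
    ext i j
    have := spB_form g (inR (Pi.single i 1)) (inR (Pi.single j 1))
    rw [symp_dot, symp_dot, ← ha, ← ha, hr, hr] at this
    simp at this
    rw [transpose_apply]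
    linear_combination -this
  refine ⟨(2⁻¹ : F) • a, spB_ext fun v => ?_⟩
  have h1 : (2⁻¹ : F) • a + ((2⁻¹ : F) • a)ᵀ = a := by
    rw [transpose_smul, hs, ← add_smul, ← two_mul, mul_inv_cancel₀ h2, one_smul]
  nth_rewrite 1 [← inL_add_inR v]
  rw [map_add, hg]
  exact vec_ext (by rw [sieg_inl, h1, ha]; rfl) (by rw [sieg_inr, Pi.add_comp, hr]; simp)

theorem eich_inL (y z : Fin n → F) : eich (hAl n F) (inL y) (inL z) = sieg (vecMulVec y z) :=
  spB_ext fun v => by
    rw [eich_apply _ (by simp [sympForm_dot])]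
    refine vec_ext ?_ (by simp [sieg_inr])
    simp only [sieg_inl, symp_dot, Pi.add_comp, Pi.smul_comp, inL_inl, inL_inr, dotProduct_zero,
      sub_zero, transpose_vecMulVec, add_mulVec, vecMulVec_mulVec, op_smul_eq_smul]
    abel

theorem spT_inL (h2 : (2 : F) ≠ 0) (y : Fin n → F) (c : F) :
    spT (hAl n F) (inL y) c = sieg (vecMulVec y ((2⁻¹ * c) • y)) :=
  spB_ext fun v => by
    rw [spT_apply]
    refine vec_ext ?_ (by simp [sieg_inr])
    simp only [sieg_inl, symp_dot, Pi.add_comp, Pi.smul_comp, inL_inl, inL_inr, dotProduct_zero,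
      sub_zero, transpose_vecMulVec, add_mulVec, vecMulVec_mulVec, op_smul_eq_smul,
      smul_dotProduct, smul_eq_mul]
    match_scalars <;> field_simp <;> ring

theorem eich_inR_inL {u w : Fin n → F} (h : u ⬝ᵥ w = 0) (y : Fin n → F) :
    (eich (hAl n F) (inL u) (inR w)).1 (inL y) = inL (y - (y ⬝ᵥ w) • u) := by
  rw [eich_apply _ (by simp [sympForm_dot, h])]
  exact vec_ext (by simp [sympForm_dot, sub_eq_add_neg]) (by simp [sympForm_dot])

theorem eich_inR_inR {u w : Fin n → F} (h : u ⬝ᵥ w = 0) (x : Fin n → F) :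
    (eich (hAl n F) (inL u) (inR w)).1 (inR x) = inR (x + (u ⬝ᵥ x) • w) := by
  rw [eich_apply _ (by simp [sympForm_dot, h])]
  exact vec_ext (by simp [sympForm_dot]) (by simp [sympForm_dot])

/-- Elements of the Levi factor of the Siegel parabolic. -/
noncomputable def levi (g h : Matrix (Fin n) (Fin n) F) (H : gᵀ * h = 1) : SpG n F :=
  mkSp (hNd n F) (Matrix.toLin' (fromBlocks g 0 0 h)) fun u v => by
    have : ∀ a b, g *ᵥ a ⬝ᵥ h *ᵥ b = a ⬝ᵥ b := fun a b => by
      rw [← vecMul_transpose, ← dotProduct_mulVec, mulVec_mulVec, H, one_mulVec]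
    simp only [symp_dot, toLin'_apply, fromBlocks_mulVec, Sum.elim_comp_inl, Sum.elim_comp_inr,
      zero_mulVec, zero_add, add_zero, this]

theorem levi_inl (g h : Matrix (Fin n) (Fin n) F) (H : gᵀ * h = 1) (v : Fin n ⊕ Fin n → F) :
    (levi g h H).1 v ∘ Sum.inl = g *ᵥ (v ∘ Sum.inl) := by
  simp [levi, mkSp_apply, fromBlocks_mulVec]

theorem levi_inr (g h : Matrix (Fin n) (Fin n) F) (H : gᵀ * h = 1) (v : Fin n ⊕ Fin n → F) :
    (levi g h H).1 v ∘ Sum.inr = h *ᵥ (v ∘ Sum.inr) := by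
  simp [levi, mkSp_apply, fromBlocks_mulVec]

theorem levi_mul_sieg (g h : Matrix (Fin n) (Fin n) F) (H : gᵀ * h = 1)
    (M : Matrix (Fin n) (Fin n) F) :
    levi g h H * sieg M = sieg (g * M * gᵀ) * levi g h H :=
  spB_ext fun v => vec_ext (by
    simp only [spB_mul_apply, sieg_inl, levi_inl, levi_inr, mulVec_add, mulVec_mulVec,
      transpose_mul, transpose_transpose, add_mul, mul_add, Matrix.mul_assoc, H, Matrix.mul_one])
    (by simp only [spB_mul_apply, sieg_inr, levi_inr])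

end Coord

end Cfsg.Lib.Known.WG
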