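import Mathlib
import Cfsg.Agent.Known.Weil
import Cfsg.Agent.Known.WeilGen

/-!
The Weil representation on the Siegel parabolic; eigenspaces of the Siegel radical.
-/

namespace Cfsg.Lib.Known.WG

open Module Cfsg.Lib.Class Matrix

variable {F : Type*} [Field F] [Fintype F] [DecidableEq F] {n : ℕ} {ψ : AddChar F ℂ}

omit [Fintype F] [DecidableEq F] in
theorem addChar_ne_zero (ψ : AddChar F ℂ) (a : F) : ψ a ≠ 0 := (ψ.val_isUnit _).ne_zero

omit [Fintype F] [DecidableEq F] in
theorem eq_of_addChar (hψ : ψ ≠ 1) {a b : F} (h : ∀ t, ψ (t * a) = ψ (t * b)) : a = b := by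
  by_contra hab
  obtain ⟨s, hs⟩ := AddChar.ne_one_iff.mp hψ
  have hd : a - b ≠ 0 := sub_ne_zero.2 hab
  have := h (s / (a - b))
  apply hs
  have h2 : ψ (s / (a - b) * a) = ψ s * ψ (s / (a - b) * b) := by
    rw [← AddChar.map_add_eq_mul]; congr 1; field_simp; ring
  rw [h2] at this
  exact mul_right_cancel₀ (addChar_ne_zero ψ _) (this.trans (one_mul _).symm)

theorem sum_addChar_mul (hψ : ψ ≠ 1) (a : F) :
    ∑ t, ψ (t * a) = if a = 0 then (Fintype.card F : ℂ) else 0 := by
  split_ifs with h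
  · simp [h]
  · rw [← AddChar.sum_eq_zero_of_ne_one hψ]
    exact Fintype.sum_equiv (Equiv.mulRight₀ a h) _ _ fun t => rfl

theorem card_ne (F : Type*) [Field F] [Fintype F] : (Fintype.card F : ℂ) ≠ 0 :=
  Nat.cast_ne_zero.mpr Fintype.card_ne_zero

omit [Fintype F] [DecidableEq F] in
theorem heis_inL (y : Fin n → F) (f : (Fin n → F) → ℂ) (x : Fin n → F) :
    heis ψ (inL y) f x = ψ (y ⬝ᵥ x) * f x := by simp [heis_apply]

omit [Fintype F] [DecidableEq F] in
theorem heis_inR (w : Fin n → F) (f : (Fin n → F) → ℂ) (x : Fin n → F) :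
    heis ψ (inR w) f x = f (x + w) := by simp [heis_apply]

omit [Fintype F] [DecidableEq F] in
theorem heis_comm (h2 : (2 : F) ≠ 0) {u v : Fin n ⊕ Fin n → F} (h : sympBilin n F u v = 0) :
    heis ψ u * heis ψ v = heis ψ v * heis ψ u := by
  rw [sympBilin_apply] at h
  rw [heis_mul h2, heis_mul h2, sympForm_skew n v u, h, add_comm u v, neg_zero]

/-- The delta functions. -/
abbrev dl (x : Fin n → F) : (Fin n → F) → ℂ := Pi.single x 1

omit [Field F] [Fintype F] in
theorem dl_apply (x z : Fin n → F) : dl x z = if z = x then 1 else 0 := Pi.single_apply _ _ _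

theorem eq_sum_dl (f : (Fin n → F) → ℂ) : f = ∑ x, f x • dl x := by
  ext y; simp [Finset.sum_apply, Pi.single_apply]

theorem ext_dl {V : Type*} [AddCommGroup V] [Module ℂ V] {S T : ((Fin n → F) → ℂ) →ₗ[ℂ] V}
    (h : ∀ x, S (dl x) = T (dl x)) : S = T :=
  LinearMap.ext fun f => by rw [eq_sum_dl f]; simp only [map_sum, map_smul, h]

section Weil

variable (h2 : (2 : F) ≠ 0) (hψ : ψ ≠ 1)

theorem weil_supp (g : SpG n F) {y y' : Fin n → F} (hg : g.1 (inL y) = inL y') {c : F}
    {f : (Fin n → F) → ℂ} (hf : ∀ x, f x ≠ 0 → y ⬝ᵥ x = c) (x : Fin n → F)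
    (hx : weil h2 hψ g f x ≠ 0) : y' ⬝ᵥ x = c := by
  refine eq_of_addChar hψ fun t => ?_
  have h1 : heis ψ (inL (t • y)) f = ψ (t * c) • f := by
    ext z
    rw [heis_inL, Pi.smul_apply, smul_eq_mul]
    by_cases hz : f z = 0
    · simp [hz]
    · rw [smul_dotProduct, hf z hz, smul_eq_mul]
  have h3 := congrFun (LinearMap.congr_fun (weil_mul_heis h2 hψ g (inL (t • y))) f) x
  rw [End.mul_apply, End.mul_apply, h1, map_smul, ← smul_inL, map_smul, hg, smul_inL, heis_inL,
    smul_dotProduct] at h3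
  exact (mul_right_cancel₀ hx h3).symm

theorem weil_dl (g : SpG n F) (hg : ∀ y, g.1 (inL y) ∘ Sum.inr = 0) (x : Fin n → F) :
    ∃ c : ℂ, c ≠ 0 ∧ weil h2 hψ g (dl x) = c • dl (g.1 (inR x) ∘ Sum.inr) := by
  have hs : Function.Surjective fun y : Fin n → F => g.1 (inL y) ∘ Sum.inl :=
    Finite.injective_iff_surjective.1 fun y z h => by
      have : g.1 (inL y) = g.1 (inL z) := vec_ext h (by rw [hg, hg])
      simpa using congrArg (· ∘ Sum.inl) (g.1.injective this)
  have h1 : ∀ z, weil h2 hψ g (dl x) z ≠ 0 → z = g.1 (inR x) ∘ Sum.inr := fun z hz => by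
    refine (dotProduct_eq_iff (R := F)).1 fun y' => ?_
    obtain ⟨y, rfl⟩ := hs y'
    have h3 := weil_supp h2 hψ g (eq_inL (hg y)) (c := y ⬝ᵥ x) (f := dl x) (fun w hw => by
      by_contra h
      exact hw (Pi.single_eq_of_ne (by rintro rfl; exact h rfl) _)) z hz
    have h4 := spB_form g (inR x) (inL y)
    rw [symp_dot, symp_dot, hg] at h4
    simp only [dotProduct_zero, sub_zero, inL_inl, inR_inr, inR_inl, zero_dotProduct] at h4
    rw [dotProduct_comm z, dotProduct_comm (g.1 (inR x) ∘ Sum.inr), h3, h4]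
  have h5 : weil h2 hψ g (dl x) =
      weil h2 hψ g (dl x) (g.1 (inR x) ∘ Sum.inr) • dl (g.1 (inR x) ∘ Sum.inr) := by
    ext z
    by_cases hz : z = g.1 (inR x) ∘ Sum.inr
    · simp [hz]
    · rw [Pi.smul_apply, dl_apply, if_neg hz, smul_zero]
      by_contra h
      exact hz (h1 z h)
  refine ⟨_, fun h0 => ?_, h5⟩
  rw [h0, zero_smul] at h5
  have := congrArg (weil h2 hψ g⁻¹) h5
  rw [← End.mul_apply, ← map_mul, inv_mul_cancel, map_one, map_zero] at this
  simpa using congrFun this x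

theorem weil_sieg_dl_aux (M : Matrix (Fin n) (Fin n) F) (x : Fin n → F) :
    weil h2 hψ (sieg M) (dl x) =
      (weil h2 hψ (sieg M) (dl 0) 0 * ψ (-(x ⬝ᵥ M *ᵥ x))) • dl x := by
  obtain ⟨c, -, hc⟩ := weil_dl h2 hψ (sieg M) (fun y => by rw [sieg_inL]; rfl) 0
  rw [sieg_inr, inR_inr] at hc
  have h1 : heis ψ (inR (-x)) (dl 0) = dl x := by
    ext z; simp [heis_inR, Pi.single_apply, add_neg_eq_zero]
  have h3 := LinearMap.congr_fun (weil_mul_heis h2 hψ (sieg M) (inR (-x))) (dl 0)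
  rw [End.mul_apply, End.mul_apply, h1, hc, map_smul] at h3
  rw [h3, hc]
  ext z
  simp only [Pi.smul_apply, heis_apply, sieg_inl, sieg_inr, inR_inl, inR_inr, zero_add,
    Pi.single_apply, add_neg_eq_zero, smul_eq_mul, if_true, mul_one]
  split_ifs with h
  · subst h
    rw [mul_one, mul_one]
    congr 2
    simp only [add_mulVec, mulVec_neg, add_dotProduct, neg_dotProduct, dotProduct_neg,
      mulVec_transpose, ← dotProduct_mulVec, dotProduct_comm (M *ᵥ _), neg_add_rev]
    field_simp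
    ring
  · simp

theorem weil_sieg_zero (hn : 2 ≤ n) (M : Matrix (Fin n) (Fin n) F) :
    weil h2 hψ (sieg M) (dl 0) 0 = 1 := by
  set θ : Matrix (Fin n) (Fin n) F → ℂ := fun M => weil h2 hψ (sieg M) (dl 0) 0 with hθ
  have h0 : ∀ M, weil h2 hψ (sieg M) (dl 0) = θ M • dl 0 := fun M => by
    rw [weil_sieg_dl_aux]; simp [θ]
  have hadd : ∀ M N, θ (M + N) = θ M * θ N := fun M N => by
    have := congrFun (h0 (M + N)) 0
    rw [sieg_add, map_mul, End.mul_apply, h0, map_smul, h0] at this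
    simpa [mul_comm] using this.symm
  have hz : θ 0 = 1 := by simp [θ, sieg_zero]
  have hne : ∀ M, θ M ≠ 0 := fun M h => by
    have := hadd M (-M)
    rw [add_neg_cancel, hz, h, zero_mul] at this
    exact one_ne_zero this
  have hconj : ∀ g k : Matrix (Fin n) (Fin n) F, k * g = 1 → ∀ M, θ (g * M * gᵀ) = θ M :=
      fun g k hk M => by
    have H : gᵀ * kᵀ = 1 := by rw [← transpose_mul, hk, transpose_one]
    obtain ⟨c, hc0, hc⟩ := weil_dl h2 hψ (levi _ _ H) (fun y => by simp [levi_inr]) 0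
    have h1 := LinearMap.congr_fun (congrArg (weil h2 hψ) (levi_mul_sieg _ _ H M)) (dl 0)
    rw [levi_inr, inR_inr, mulVec_zero] at hc
    rw [map_mul, map_mul, End.mul_apply, End.mul_apply, h0, map_smul, hc, map_smul, h0] at h1
    have := congrFun h1 0
    simp only [Pi.smul_apply, Pi.single_eq_same, smul_eq_mul, mul_one] at this
    exact mul_left_cancel₀ hc0 (by rw [← this, mul_comm])
  have hoff : ∀ i j, i ≠ j → ∀ t, θ (single i j t) = 1 := fun i j hij t => by
    have key : ∀ t, θ (single i j (-t)) = θ (single i j t) := fun t => by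
      let d : Fin n → F := fun k => if k = i then -1 else 1
      have hd : diagonal d * diagonal d = 1 := by
        rw [diagonal_mul_diagonal, ← diagonal_one]
        congr 1; ext k; simp only [d]; split_ifs <;> simp
      rw [← hconj _ _ hd (single i j t)]
      congr 1
      ext a b
      simp only [diagonal_transpose, mul_diagonal, diagonal_mul, d, single_apply]
      by_cases h : i = a ∧ j = b
      · obtain ⟨rfl, rfl⟩ := h
        simp [hij.symm]
      · simp [h]
    have h1 : single i j t = single i j (2⁻¹ * t) + single i j (2⁻¹ * t) := by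
      rw [← single_add]; congr 1; field_simp; ring
    rw [h1, hadd]
    nth_rewrite 1 [← key]
    rw [← hadd, ← single_add, neg_add_cancel, single_zero, hz]
  have hdiag : ∀ k t, θ (single k k t) = 1 := fun k t => by
    obtain ⟨i, hi⟩ : ∃ i : Fin n, k ≠ i := by
      haveI : Nontrivial (Fin n) := Fin.nontrivial_iff_two_le.2 hn
      obtain ⟨i, hi⟩ := exists_ne k
      exact ⟨i, hi.symm⟩
    have hm' : transvection k i (-1 : F) * transvection k i 1 = 1 := by
      rw [transvection_mul_transvection_same _ _ hi]; simp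
    have h1 := hconj _ _ hm' (single i i t)
    have h3 : transvection k i (1 : F) * single i i t * (transvection k i (1 : F))ᵀ =
        single i i t + single k i t + single i k t + single k k t := by
      simp only [transvection, transpose_add, transpose_one, transpose_single, add_mul, mul_add,
        one_mul, mul_one, single_mul_single_same]
      abel
    rw [h3, hadd, hadd, hadd, hoff k i hi, hoff i k hi.symm, mul_one, mul_one] at h1
    exact mul_left_cancel₀ (hne _) (h1.trans (mul_one _).symm)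
  change θ M = 1
  induction M using Matrix.induction_on' with
  | h_zero => exact hz
  | h_add p q hp hq => rw [hadd, hp, hq, mul_one]
  | h_std_basis i j t =>
    by_cases h : i = j
    · subst h; exact hdiag i t
    · exact hoff i j h t

theorem weil_sieg_dl (hn : 2 ≤ n) (M : Matrix (Fin n) (Fin n) F) (x : Fin n → F) :
    weil h2 hψ (sieg M) (dl x) = ψ (-(x ⬝ᵥ M *ᵥ x)) • dl x := by
  rw [weil_sieg_dl_aux, weil_sieg_zero h2 hψ hn, one_mul]

theorem weil_sieg (hn : 2 ≤ n) (M : Matrix (Fin n) (Fin n) F) (f : (Fin n → F) → ℂ)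
    (x : Fin n → F) : weil h2 hψ (sieg M) f x = ψ (-(x ⬝ᵥ M *ᵥ x)) * f x := by
  nth_rewrite 1 [eq_sum_dl f]
  simp [map_sum, weil_sieg_dl h2 hψ hn, Finset.sum_apply, Pi.single_apply, mul_comm]

theorem sum_weil_spT (hn : 2 ≤ n) {v : Fin n ⊕ Fin n → F} (hv : v ≠ 0) :
    ∑ c, weil h2 hψ (spT (hAl n F) v c) = ∑ t : F, heis ψ (t • v) := by
  let y : Fin n → F := Pi.single ⟨0, by omega⟩ 1
  have hy : y ≠ 0 := fun h => by simpa [y] using congrFun h ⟨0, by omega⟩
  have h1 : ∑ c, weil h2 hψ (spT (hAl n F) (inL y) c) = ∑ t : F, heis ψ (t • inL y) := by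
    refine LinearMap.ext fun f => funext fun x => ?_
    simp only [LinearMap.sum_apply, Finset.sum_apply, spT_inL h2, weil_sieg h2 hψ hn, smul_inL,
      heis_inL, ← Finset.sum_mul, vecMulVec_mulVec, smul_dotProduct, smul_eq_mul,
      op_smul_eq_smul, dotProduct_smul]
    congr 1
    rw [sum_addChar_mul hψ, show ∑ c, ψ (-(2⁻¹ * c * y ⬝ᵥ x * x ⬝ᵥ y)) =
      ∑ c, ψ (c * (-(2⁻¹ * (y ⬝ᵥ x) ^ 2))) from
        Finset.sum_congr rfl fun c _ => by rw [dotProduct_comm x]; ring_nf, sum_addChar_mul hψ]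
    simp [h2]
  obtain ⟨g, hg, hgv⟩ := SpB_exists_apply_eq (hNd n F) (hAl n F) (inL_ne_zero hy) hv
  have h3 := congrArg (fun T => weil h2 hψ ⟨g, hg⟩ * T * weil h2 hψ ⟨g, hg⟩⁻¹) h1
  simp only [Finset.mul_sum, Finset.sum_mul, ← map_mul, spT_conj, weil_mul_heis, mul_assoc,
    mul_inv_cancel, map_one, mul_one, map_smul, hgv] at h3
  simpa only [← mul_assoc, ← map_mul, spT_conj, hgv] using h3

end Weil

/-- The projection on the `ψ`-eigenspace of the Heisenberg operators along `u`. -/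
noncomputable def hp (ψ : AddChar F ℂ) (u : Fin n ⊕ Fin n → F) : End ℂ ((Fin n → F) → ℂ) :=
  (Fintype.card F : ℂ)⁻¹ • ∑ t : F, ψ (-t) • heis ψ (t • u)

theorem hp_inL (hψ : ψ ≠ 1) (y : Fin n → F) (f : (Fin n → F) → ℂ) (x : Fin n → F) :
    hp ψ (inL y) f x = if y ⬝ᵥ x = 1 then f x else 0 := by
  simp only [hp, LinearMap.smul_apply, LinearMap.sum_apply, Pi.smul_apply, Finset.sum_apply,
    smul_inL, heis_inL, smul_eq_mul, ← mul_assoc, ← AddChar.map_add_eq_mul, ← Finset.sum_mul,
    smul_dotProduct]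
  rw [show ∑ t, ψ (-t + t * y ⬝ᵥ x) = ∑ t, ψ (t * (y ⬝ᵥ x - 1)) from
    Finset.sum_congr rfl fun t _ => by ring_nf, sum_addChar_mul hψ]
  simp only [sub_eq_zero]
  split_ifs
  · rw [inv_mul_cancel₀ (card_ne F), one_mul]
  · simp

theorem hp_inL_dl (hψ : ψ ≠ 1) (y x : Fin n → F) :
    hp ψ (inL y) (dl x) = if y ⬝ᵥ x = 1 then dl x else 0 := by
  ext z
  rw [hp_inL hψ]
  by_cases h : z = x
  · subst h; split_ifs <;> simp
  · split_ifs <;> simp [h]

omit [DecidableEq F] in
theorem hp_zero (hψ : ψ ≠ 1) : hp ψ (0 : Fin n ⊕ Fin n → F) = 0 := by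
  simp only [hp, smul_zero, heis_zero, ← Finset.sum_smul]
  rw [show ∑ t, ψ (-t) = ∑ t, ψ t from Fintype.sum_equiv (Equiv.neg F) _ _ fun t => rfl,
    AddChar.sum_eq_zero_of_ne_one hψ]
  simp

theorem weil_mul_hp (h2 : (2 : F) ≠ 0) (hψ : ψ ≠ 1) (g : SpG n F) (u : Fin n ⊕ Fin n → F) :
    weil h2 hψ g * hp ψ u = hp ψ (g.1 u) * weil h2 hψ g := by
  simp only [hp, mul_smul_comm, smul_mul_assoc, Finset.mul_sum, Finset.sum_mul, weil_mul_heis,
    map_smul]

omit [DecidableEq F] in
theorem heis_mul_hp (h2 : (2 : F) ≠ 0) {u v : Fin n ⊕ Fin n → F} (h : sympBilin n F u v = 0) :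
    heis ψ u * hp ψ v = hp ψ v * heis ψ u := by
  simp only [hp, mul_smul_comm, smul_mul_assoc, Finset.mul_sum, Finset.sum_mul]
  congr 1
  exact Finset.sum_congr rfl fun t _ => by rw [heis_comm h2 (by rw [map_smul, h, smul_zero])]

omit [DecidableEq F] in
theorem hp_comm (h2 : (2 : F) ≠ 0) {u v : Fin n ⊕ Fin n → F} (h : sympBilin n F u v = 0) :
    hp ψ u * hp ψ v = hp ψ v * hp ψ u := by
  rw [show hp ψ u = (Fintype.card F : ℂ)⁻¹ • ∑ t : F, ψ (-t) • heis ψ (t • u) from rfl]
  simp only [mul_smul_comm, smul_mul_assoc, Finset.mul_sum, Finset.sum_mul]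
  congr 1
  exact Finset.sum_congr rfl fun t _ => by
    rw [heis_mul_hp h2 (by rw [map_smul, LinearMap.smul_apply, h, smul_zero])]

omit [DecidableEq F] in
theorem hp_mul_hp (h2 : (2 : F) ≠ 0) (u : Fin n ⊕ Fin n → F) : hp ψ u * hp ψ u = hp ψ u := by
  have h1 : ∀ s : F, ψ (-s) • (heis ψ (s • u) * hp ψ u) = hp ψ u := fun s => by
    simp only [hp, mul_smul_comm, Finset.mul_sum, heis_mul h2, Finset.smul_sum, smul_smul]
    refine Fintype.sum_equiv (Equiv.addLeft s) _ _ fun t => ?_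
    have : sympForm n F (s • u) (t • u) = 0 := by
      rw [← sympBilin_apply, map_smul, map_smul, LinearMap.smul_apply, (hAl n F).self_eq_zero u]
      simp
    simp only [this, mul_zero, AddChar.map_zero_eq_one, mul_one, Equiv.coe_addLeft, add_smul,
      neg_add, AddChar.map_add_eq_mul]
    congr 1
    ring
  nth_rewrite 1 [show hp ψ u = (Fintype.card F : ℂ)⁻¹ • ∑ t : F, ψ (-t) • heis ψ (t • u) from rfl]
  simp only [smul_mul_assoc, Finset.sum_mul, h1, Finset.sum_const, Finset.card_univ,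
    ← Nat.cast_smul_eq_nsmul ℂ, smul_smul, inv_mul_cancel₀ (card_ne F), one_smul]

theorem sum_hp (h2 : (2 : F) ≠ 0) (hψ : ψ ≠ 1) :
    ∑ u : Fin n ⊕ Fin n → F, hp ψ u = ((Fintype.card F : ℂ)⁻¹ * (Fintype.card F : ℂ) ^ n) •
      ((Fintype.card F : ℂ) ^ n • (1 : End ℂ ((Fin n → F) → ℂ)) - parity F n) := by
  have h1 : ∀ t : F, ∑ u : Fin n ⊕ Fin n → F, heis ψ (t • u) = (Fintype.card F : ℂ) ^ n • parity F n +
      if t = 0 then (Fintype.card F : ℂ) ^ n •
        ((Fintype.card F : ℂ) ^ n • (1 : End ℂ ((Fin n → F) → ℂ)) - parity F n) else 0 := fun t => by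
    split_ifs with h
    · subst h
      simp only [zero_smul, heis_zero, Finset.sum_const, Finset.card_univ, Fintype.card_fun,
        Fintype.card_sum, Fintype.card_fin, ← Nat.cast_smul_eq_nsmul ℂ, smul_sub, smul_smul,
        Nat.cast_pow, pow_add, Nat.cast_mul]
      abel
    · rw [add_zero, ← sum_heis h2 hψ]
      exact Fintype.sum_equiv (MulAction.toPerm (Units.mk0 t h)) _ _ fun u => rfl
  simp only [hp, ← Finset.smul_sum]
  rw [Finset.sum_comm]
  simp only [← Finset.smul_sum, h1, smul_add, Finset.sum_add_distrib, ← Finset.sum_smul]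
  rw [show ∑ t, ψ (-t) = ∑ t, ψ t from Fintype.sum_equiv (Equiv.neg F) _ _ fun t => rfl,
    AddChar.sum_eq_zero_of_ne_one hψ]
  simp [smul_smul]

section Eig

variable {V : Type*} [AddCommGroup V] [Module ℂ V]

/-- The trace pairing on matrices. -/
def mp (b M : Matrix (Fin n) (Fin n) F) : F := trace (bᵀ * M)

omit [Fintype F] [DecidableEq F] in
theorem mp_comm (b M : Matrix (Fin n) (Fin n) F) : mp b M = mp M b := by
  rw [mp, mp, ← trace_transpose, transpose_mul, transpose_transpose]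

omit [Fintype F] [DecidableEq F] in
theorem mp_add (b M N : Matrix (Fin n) (Fin n) F) : mp b (M + N) = mp b M + mp b N := by
  rw [mp, mp, mp, mul_add, trace_add]

omit [Fintype F] [DecidableEq F] in
theorem mp_smul (b M : Matrix (Fin n) (Fin n) F) (c : F) : mp b (c • M) = c * mp b M := by
  rw [mp, mp, mul_smul_comm, trace_smul, smul_eq_mul]

omit [Fintype F] [DecidableEq F] in
theorem mp_neg (b M : Matrix (Fin n) (Fin n) F) : mp b (-M) = -mp b M := by
  rw [mp, mp, mul_neg, trace_neg]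

omit [Fintype F] [DecidableEq F] in
theorem mp_sub_left (b c M : Matrix (Fin n) (Fin n) F) : mp (b - c) M = mp b M - mp c M := by
  rw [mp, mp, mp, transpose_sub, sub_mul, trace_sub]

omit [Fintype F] [DecidableEq F] in
theorem mp_vecMulVec (b : Matrix (Fin n) (Fin n) F) (y z : Fin n → F) :
    mp b (vecMulVec y z) = y ⬝ᵥ b *ᵥ z := by
  rw [mp, mul_vecMulVec, trace_vecMulVec, mulVec_transpose, dotProduct_mulVec]

omit [Fintype F] [DecidableEq F] in
theorem mp_conj (b M g : Matrix (Fin n) (Fin n) F) : mp b (g * M * gᵀ) = mp (gᵀ * b * g) M := by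
  rw [mp, mp, ← Matrix.mul_assoc, trace_mul_comm]
  simp [transpose_mul, Matrix.mul_assoc]

omit [Fintype F] [DecidableEq F] in
theorem mp_transpose (b M : Matrix (Fin n) (Fin n) F) : mp bᵀ M = mp b Mᵀ := by
  rw [mp, mp, ← transpose_mul, trace_transpose, transpose_transpose, trace_mul_comm]

omit [Fintype F] [DecidableEq F] in
theorem mp_single (b : Matrix (Fin n) (Fin n) F) (i j : Fin n) (t : F) :
    mp b (single i j t) = t * b i j := by
  rw [mp, trace_mul_single]; simp [mul_comm]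

omit [Fintype F] [DecidableEq F] in
theorem eq_of_mp (hψ : ψ ≠ 1) {b c : Matrix (Fin n) (Fin n) F} (h : ∀ M, ψ (mp b M) = ψ (mp c M)) :
    b = c := by
  ext i j
  exact eq_of_addChar hψ fun t => by rw [← mp_single, ← mp_single, h]

theorem sum_mp (hψ : ψ ≠ 1) (b : Matrix (Fin n) (Fin n) F) :
    ∑ M, ψ (mp b M) = if b = 0 then (Fintype.card (Matrix (Fin n) (Fin n) F) : ℂ) else 0 := by
  split_ifs with h
  · simp [h, mp]
  · refine AddChar.sum_eq_zero_of_ne_one (ψ := ψ.compAddMonoidHom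
      ⟨⟨fun M => mp b M, by simp [mp]⟩, fun M N => mp_add b M N⟩) fun h1 => h ?_
    refine eq_of_mp hψ fun M => ?_
    have := DFunLike.congr_fun h1 M
    simpa [mp] using this

/-- Eigenvectors of the Siegel radical. -/
def IsEig (σ : Representation ℂ (SpG n F) V) (ψ : AddChar F ℂ) (b : Matrix (Fin n) (Fin n) F)
    (v : V) : Prop := ∀ M, σ (sieg M) v = ψ (mp b M) • v

/-- The projections on the eigenspaces of the Siegel radical. -/
noncomputable def eigP (σ : Representation ℂ (SpG n F) V) (ψ : AddChar F ℂ)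
    (b : Matrix (Fin n) (Fin n) F) : End ℂ V :=
  (Fintype.card (Matrix (Fin n) (Fin n) F) : ℂ)⁻¹ • ∑ M, ψ (-mp b M) • σ (sieg M)

variable {σ : Representation ℂ (SpG n F) V}

theorem card_mat_ne (F : Type*) [Field F] [Fintype F] [DecidableEq F] (n : ℕ) :
    (Fintype.card (Matrix (Fin n) (Fin n) F) : ℂ) ≠ 0 :=
  Nat.cast_ne_zero.mpr Fintype.card_ne_zero

theorem sieg_mul_eigP (b N : Matrix (Fin n) (Fin n) F) :
    σ (sieg N) * eigP σ ψ b = ψ (mp b N) • eigP σ ψ b := by
  simp only [eigP, mul_smul_comm, Finset.mul_sum, Finset.smul_sum, ← map_mul, ← sieg_add, smul_smul]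
  refine Fintype.sum_equiv (Equiv.addLeft N) _ _ fun M => ?_
  simp only [Equiv.coe_addLeft, mp_add]
  congr 1
  rw [mul_left_comm, ← AddChar.map_add_eq_mul]
  congr 2
  ring

theorem eigP_mul_sieg (b N : Matrix (Fin n) (Fin n) F) :
    eigP σ ψ b * σ (sieg N) = ψ (mp b N) • eigP σ ψ b := by
  rw [← sieg_mul_eigP]
  simp only [eigP, mul_smul_comm, smul_mul_assoc, Finset.mul_sum, Finset.sum_mul, ← map_mul,
    ← sieg_add, add_comm]

theorem isEig_eigP (b : Matrix (Fin n) (Fin n) F) (v : V) : IsEig σ ψ b (eigP σ ψ b v) :=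
  fun N => by rw [← End.mul_apply, sieg_mul_eigP]; rfl

theorem IsEig.eigP (hψ : ψ ≠ 1) {b : Matrix (Fin n) (Fin n) F} {v : V} (h : IsEig σ ψ b v)
    (c : Matrix (Fin n) (Fin n) F) : eigP σ ψ c v = if b = c then v else 0 := by
  simp only [WG.eigP, LinearMap.smul_apply, LinearMap.sum_apply, h _, smul_smul,
    ← AddChar.map_add_eq_mul, ← Finset.sum_smul]
  rw [show ∑ M, ψ (-mp c M + mp b M) = ∑ M, ψ (mp (b - c) M) from
    Finset.sum_congr rfl fun M _ => by rw [mp_sub_left]; ring_nf, sum_mp hψ]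
  simp only [sub_eq_zero]
  split_ifs
  · rw [inv_mul_cancel₀ (card_mat_ne F n), one_smul]
  · simp

theorem sum_eigP (hψ : ψ ≠ 1) (v : V) : ∑ b, eigP σ ψ b v = v := by
  simp only [eigP, LinearMap.smul_apply, LinearMap.sum_apply, ← Finset.smul_sum]
  rw [Finset.sum_comm]
  simp only [← Finset.sum_smul]
  have : ∀ M : Matrix (Fin n) (Fin n) F, ∑ b, ψ (-mp b M) =
      if M = 0 then (Fintype.card (Matrix (Fin n) (Fin n) F) : ℂ) else 0 := fun M => by
    rw [show ∑ b, ψ (-mp b M) = ∑ b, ψ (mp (-M) b) from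
      Finset.sum_congr rfl fun b _ => by rw [← mp_neg, mp_comm], sum_mp hψ]
    simp
  simp [this, sieg_zero, smul_smul]

omit [Fintype F] [DecidableEq F] in
theorem IsEig.symm (hψ : ψ ≠ 1) {b : Matrix (Fin n) (Fin n) F} {v : V} (h : IsEig σ ψ b v)
    (hv : v ≠ 0) : bᵀ = b :=
  eq_of_mp hψ fun M => smul_left_injective ℂ hv (by
    simp only [mp_transpose, ← h _, sieg_transpose])

omit [Fintype F] [DecidableEq F] in
theorem IsEig.levi {b : Matrix (Fin n) (Fin n) F} {v : V} (h : IsEig σ ψ b v)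
    (g k : Matrix (Fin n) (Fin n) F) (H : gᵀ * k = 1) :
    IsEig σ ψ (k * b * kᵀ) (σ (levi g k H) v) := fun M => by
  have H' : k * gᵀ = 1 := mul_eq_one_comm.1 H
  have H'' : g * kᵀ = 1 := by rw [← transpose_transpose g, ← transpose_mul, H', transpose_one]
  have h1 : M = g * (kᵀ * M * k) * gᵀ := by
    simp only [← Matrix.mul_assoc, H'', Matrix.one_mul]
    rw [Matrix.mul_assoc, H', Matrix.mul_one]
  nth_rewrite 1 [h1]
  rw [← End.mul_apply, ← map_mul, ← levi_mul_sieg, map_mul, End.mul_apply, h, map_smul]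
  congr 2
  nth_rewrite 2 [← transpose_transpose k]
  rw [mp_conj, transpose_transpose]

omit [Fintype F] [DecidableEq F] in
theorem IsEig.sum {ι : Type*} (s : Finset ι) {b : Matrix (Fin n) (Fin n) F} {v : ι → V}
    (h : ∀ i ∈ s, IsEig σ ψ b (v i)) : IsEig σ ψ b (∑ i ∈ s, v i) := fun M => by
  rw [map_sum, Finset.smul_sum]
  exact Finset.sum_congr rfl fun i hi => h i hi M

omit [Fintype F] [DecidableEq F] in
theorem isEig_zero (b : Matrix (Fin n) (Fin n) F) : IsEig σ ψ b 0 := fun M => by simp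

omit [Fintype F] [DecidableEq F] in
theorem IsEig.smul {b : Matrix (Fin n) (Fin n) F} {v : V} (h : IsEig σ ψ b v) (c : ℂ) :
    IsEig σ ψ b (c • v) := fun M => by rw [map_smul, h, smul_comm]

omit [Fintype F] [DecidableEq F] in
theorem mp_neg_vecMulVec (x : Fin n → F) (M : Matrix (Fin n) (Fin n) F) :
    mp (-vecMulVec x x) M = -(x ⬝ᵥ M *ᵥ x) := by
  rw [mp_comm, mp_neg, mp_vecMulVec]

theorem card_le_finrank [FiniteDimensional ℂ V] (hψ : ψ ≠ 1)
    (O : Finset (Matrix (Fin n) (Fin n) F)) (hO : ∀ b ∈ O, ∃ v, v ≠ 0 ∧ IsEig σ ψ b v) :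
    O.card ≤ finrank ℂ V := by
  choose! v hv0 hv using hO
  have : LinearIndependent ℂ fun b : O => v b := by
    refine Fintype.linearIndependent_iff.2 fun c hc b => ?_
    have := congrArg (eigP σ ψ b) hc
    rw [map_sum, map_zero, Finset.sum_eq_single b] at this
    · rw [map_smul, (hv b b.2).eigP hψ, if_pos rfl] at this
      exact (smul_eq_zero.1 this).resolve_right (hv0 b b.2)
    · intro b' _ hb'
      rw [map_smul, (hv b' b'.2).eigP hψ, if_neg (fun h => hb' (Subtype.ext h)), smul_zero]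
    · simp
  simpa using this.fintype_card_le_finrank

end Eig

end Cfsg.Lib.Known.WG
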