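import Mathlib
import Cfsg.Agent.Known.WeilAct

/-!
Representations of `Sp_{2n}(q)` of rank one: intertwiners for the stabiliser of a vector.
-/

namespace Cfsg.Lib.Known.WG

open Module Cfsg.Lib.Class Matrix

variable {F : Type*} [Field F] [Fintype F] [DecidableEq F] {n : ℕ} {ψ : AddChar F ℂ}
  {V : Type*} [AddCommGroup V] [Module ℂ V]

/-- All characters of the Siegel radical occurring in `σ` have rank at most one. -/
def R1 (σ : Representation ℂ (SpG n F) V) (ψ : AddChar F ℂ) : Prop :=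
  ∀ b v, v ≠ 0 → IsEig σ ψ b v → ∀ y z, (y ⬝ᵥ b *ᵥ y) * (z ⬝ᵥ b *ᵥ z) = (y ⬝ᵥ b *ᵥ z) ^ 2

omit [Fintype F] [DecidableEq F] in
theorem eq_zero_of_quad (h2 : (2 : F) ≠ 0) {c : Matrix (Fin n) (Fin n) F} (hc : cᵀ = c)
    (h : ∀ z, z ⬝ᵥ c *ᵥ z = 0) : c = 0 := by
  ext i j
  have h1 := h (Pi.single i 1 + Pi.single j 1)
  have h3 := h (Pi.single i 1)
  have h4 := h (Pi.single j 1)
  have h5 : c j i = c i j := by rw [← transpose_apply c, hc]
  simp only [mulVec_add, add_dotProduct, dotProduct_add, mulVec_single_one, single_dotProduct,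
    one_mul, col_apply] at h1 h3 h4
  apply mul_left_cancel₀ h2
  rw [Matrix.zero_apply]
  linear_combination h1 - h3 - h4 - h5

omit [Fintype F] [DecidableEq F] in
theorem exists_frame (hn : 2 ≤ n) {e : Fin n → F} (he : e ≠ 0) :
    ∃ u x y : Fin n → F, u ⬝ᵥ e = 1 ∧ y ⬝ᵥ x = 1 ∧ y ⬝ᵥ e = 0 ∧ u ⬝ᵥ x = 0 := by
  obtain ⟨i, hi⟩ := Function.ne_iff.1 he
  haveI : Nontrivial (Fin n) := Fin.nontrivial_iff_two_le.2 hn
  obtain ⟨j, hj⟩ := exists_ne i
  have hi' : e i ≠ 0 := hi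
  refine ⟨Pi.single i (e i)⁻¹, Pi.single j 1, Pi.single j 1 - Pi.single i (e j / e i), ?_, ?_, ?_,
    ?_⟩
  · simp [hi']
  · simp [hj]
  · simp [hi']
  · simp [hj.symm]

omit [Fintype F] [DecidableEq F] in
theorem exists_dot {b e : Fin n → F} (h : e ∉ Submodule.span F {b}) :
    ∃ y : Fin n → F, y ⬝ᵥ b = 0 ∧ y ⬝ᵥ e = 1 := by
  obtain ⟨φ, h1, h3⟩ := Submodule.exists_dual_map_eq_bot_of_notMem h inferInstance
  have h4 : ∀ x, (fun i => φ (Pi.single i 1)) ⬝ᵥ x = φ x := fun x => by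
    rw [LinearMap.pi_apply_eq_sum_univ φ x, dotProduct]
    refine Finset.sum_congr rfl fun i _ => ?_
    rw [smul_eq_mul, mul_comm]
    congr 2
    ext k; simp [Pi.single_apply, eq_comm]
  have h5 : φ b = 0 := by
    have : φ b ∈ (Submodule.span F {b}).map φ :=
      Submodule.mem_map_of_mem (Submodule.mem_span_singleton_self b)
    rwa [h3, Submodule.mem_bot] at this
  exact ⟨(φ e)⁻¹ • fun i => φ (Pi.single i 1), by rw [smul_dotProduct, h4, h5, smul_zero],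
    by rw [smul_dotProduct, h4, smul_eq_mul, inv_mul_cancel₀ h1]⟩

omit [Fintype F] [DecidableEq F] in
theorem inL_notMem {u e y : Fin n → F} (hue : u ⬝ᵥ e = 1) (hy : y ≠ 0) (hye : y ⬝ᵥ e = 0) :
    inL y ∉ Submodule.span F {inL u} := fun h => by
  obtain ⟨a, ha⟩ := Submodule.mem_span_singleton.1 h
  have h1 : a • u = y := by simpa using congrArg (· ∘ Sum.inl) ha
  rw [← h1, smul_dotProduct, hue, smul_eq_mul, mul_one] at hye
  exact hy (by rw [← h1, hye, zero_smul])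

omit [Fintype F] [DecidableEq F] in
theorem ne_zero_of_dot {u e : Fin n → F} (hue : u ⬝ᵥ e = 1) : u ≠ 0 ∧ e ≠ 0 :=
  ⟨by rintro rfl; simp at hue, by rintro rfl; simp at hue⟩

theorem unip_fix {G W : Type*} [Group G] [AddCommGroup W] [Module ℂ W] (h2 : (2 : F) ≠ 0)
    (τ : Representation ℂ G W) (S : Set W) (k : G) (g : F → G) (hg : ∀ s t, g (s + t) = g s * g t)
    (hk : ∀ t, k * g t = g (-t) * k) (hS : ∀ t, ∀ m ∈ S, τ (g t) m ∈ S) {κ : ℂ} (hκ : κ ≠ 0)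
    (hκ' : ∀ m ∈ S, τ k m = κ • m) (t : F) {m : W} (hm : m ∈ S) : τ (g t) m = m := by
  have h0 : g 0 = 1 := by
    have := hg 0 0
    rw [add_zero] at this
    exact mul_eq_left.1 this.symm
  have h1 : ∀ s, τ (g s) m = τ (g (-s)) m := fun s => by
    have := LinearMap.congr_fun (congrArg τ (hk s)) m
    rw [map_mul, map_mul, End.mul_apply, End.mul_apply, hκ' _ (hS s m hm), hκ' m hm,
      map_smul] at this
    exact smul_right_injective W hκ this
  have h3 : t = 2⁻¹ * t + 2⁻¹ * t := by field_simp; ring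
  rw [h3, hg, map_mul, End.mul_apply, h1 (2⁻¹ * t), ← End.mul_apply, ← map_mul, ← hg,
    add_neg_cancel, h0, map_one, End.one_apply]

variable {σ : Representation ℂ (SpG n F) V}

theorem R1.isEig (h2 : (2 : F) ≠ 0) (hψ : ψ ≠ 1) (hR : R1 σ ψ) {u e : Fin n → F}
    (hue : u ⬝ᵥ e = 1) {v : V} (h : ∀ y, σ (sieg (vecMulVec u y)) v = ψ (-(y ⬝ᵥ e)) • v) :
    IsEig σ ψ (-vecMulVec e e) v := by
  rw [← sum_eigP (σ := σ) hψ v]
  refine IsEig.sum _ fun b _ => ?_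
  by_cases h0 : eigP σ ψ b v = 0
  · rw [h0]; exact isEig_zero _
  have hb := isEig_eigP (σ := σ) (ψ := ψ) b v
  have h1 : ∀ y, u ⬝ᵥ b *ᵥ y = -(y ⬝ᵥ e) := fun y => eq_of_addChar hψ fun t => by
    have := LinearMap.congr_fun (eigP_mul_sieg (σ := σ) (ψ := ψ) b (vecMulVec u (t • y))) v
    rw [End.mul_apply, h, map_smul, LinearMap.smul_apply, mp_vecMulVec] at this
    have := smul_left_injective ℂ h0 this
    simpa [mulVec_smul] using this.symm
  have h3 : b + vecMulVec e e = 0 := by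
    refine eq_zero_of_quad h2 (by rw [transpose_add, hb.symm hψ h0, transpose_vecMulVec]) fun z => ?_
    have := hR b _ h0 hb u z
    rw [h1, h1, hue] at this
    rw [add_mulVec, dotProduct_add, vecMulVec_mulVec, dotProduct_smul, dotProduct_comm e z]
    simp only [op_smul_eq_smul, smul_eq_mul]
    linear_combination -this
  rwa [← eq_neg_of_add_eq_zero_left h3]

variable (h2 : (2 : F) ≠ 0) (hψ : ψ ≠ 1)

/-- The conjugation action on linear maps from the Weil representation to `σ`. -/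
noncomputable def tau (σ : Representation ℂ (SpG n F) V) :
    Representation ℂ (SpG n F) (((Fin n → F) → ℂ) →ₗ[ℂ] V) :=
  Representation.linHom (weil h2 hψ) σ

theorem tau_apply (g : SpG n F) (T : ((Fin n → F) → ℂ) →ₗ[ℂ] V) (f : (Fin n → F) → ℂ) :
    tau h2 hψ σ g T f = σ g (T (weil h2 hψ g⁻¹ f)) := rfl

theorem tau_weil (g : SpG n F) (T : ((Fin n → F) → ℂ) →ₗ[ℂ] V) (f : (Fin n → F) → ℂ) :
    tau h2 hψ σ g T (weil h2 hψ g f) = σ g (T f) := by
  rw [tau_apply, ← End.mul_apply, ← map_mul, inv_mul_cancel, map_one, End.one_apply]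

theorem tau_mul (g h : SpG n F) (T : ((Fin n → F) → ℂ) →ₗ[ℂ] V) :
    tau h2 hψ σ (g * h) T = tau h2 hψ σ g (tau h2 hψ σ h T) := by rw [map_mul, End.mul_apply]

theorem tau_hp (g : SpG n F) (T : ((Fin n → F) → ℂ) →ₗ[ℂ] V) (u : Fin n ⊕ Fin n → F) :
    tau h2 hψ σ g T ∘ₗ hp ψ (g.1 u) = tau h2 hψ σ g (T ∘ₗ hp ψ u) := by
  refine LinearMap.ext fun f => ?_
  rw [LinearMap.comp_apply, tau_apply, tau_apply, LinearMap.comp_apply, ← End.mul_apply _ (hp ψ _),
    weil_mul_hp, spB_inv_apply, End.mul_apply]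

/-- Maps intertwining the unipotent radical of the stabiliser of `u`. -/
def QHom (σ : Representation ℂ (SpG n F) V) (u : Fin n ⊕ Fin n → F)
    (T : ((Fin n → F) → ℂ) →ₗ[ℂ] V) : Prop :=
  T ∘ₗ hp ψ u = T ∧ ∀ w, sympBilin n F u w = 0 → tau h2 hψ σ (eich (hAl n F) u w) T = T

variable {h2 hψ}

theorem QHom.tau {u : Fin n ⊕ Fin n → F} {T : ((Fin n → F) → ℂ) →ₗ[ℂ] V}
    (hT : QHom h2 hψ σ u T) {g : SpG n F} (hg : g.1 u = u) : QHom h2 hψ σ u (tau h2 hψ σ g T) := by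
  have hg' : (g⁻¹).1 u = u := by nth_rewrite 1 [← hg]; rw [spB_inv_apply]
  refine ⟨?_, fun w hw => ?_⟩
  · nth_rewrite 1 [← hg]
    rw [tau_hp, hT.1]
  · have h1 : eich (hAl n F) u w * g = g * eich (hAl n F) u ((g⁻¹).1 w) := by
      nth_rewrite 2 [← hg']
      rw [← eich_conj]; group
    rw [← tau_mul, h1, tau_mul, hT.2 _ (by rw [← spB_form g, hg, spB_apply_inv, hw])]

theorem weil_eich_dl {u e w : Fin n → F} (hue : u ⬝ᵥ e = 1) (hw : u ⬝ᵥ w = 0) :
    ∃ c : ℂ, c ≠ 0 ∧ weil h2 hψ (eich (hAl n F) (inL u) (inR w)) (dl e) = c • dl (e + w) := by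
  obtain ⟨c, hc0, hc⟩ := weil_dl h2 hψ (eich (hAl n F) (inL u) (inR w))
    (fun y => by rw [eich_inR_inL hw]; rfl) e
  rw [eich_inR_inR hw, hue, one_smul, inR_inr] at hc
  exact ⟨c, hc0, hc⟩

theorem apply_dl_eq_zero {y x : Fin n → F} {T : ((Fin n → F) → ℂ) →ₗ[ℂ] V} (hψ : ψ ≠ 1)
    (hT : T ∘ₗ hp ψ (inL y) = T) (h : y ⬝ᵥ x ≠ 1) : T (dl x) = 0 := by
  rw [← hT, LinearMap.comp_apply, hp_inL_dl hψ, if_neg h, map_zero]

theorem apply_dl_eq {u e x : Fin n → F} (hue : u ⬝ᵥ e = 1) (hx : u ⬝ᵥ x = 1)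
    {S T : ((Fin n → F) → ℂ) →ₗ[ℂ] V}
    (hS : tau h2 hψ σ (eich (hAl n F) (inL u) (inR (x - e))) S = S)
    (hT : tau h2 hψ σ (eich (hAl n F) (inL u) (inR (x - e))) T = T) (h : S (dl e) = T (dl e)) :
    S (dl x) = T (dl x) := by
  obtain ⟨c, hc0, hc⟩ := weil_eich_dl (h2 := h2) (hψ := hψ) (w := x - e) hue
    (by rw [dotProduct_sub, hx, hue, sub_self])
  have h1 := tau_weil (σ := σ) h2 hψ (eich (hAl n F) (inL u) (inR (x - e))) S (dl e)
  have h3 := tau_weil (σ := σ) h2 hψ (eich (hAl n F) (inL u) (inR (x - e))) T (dl e)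
  rw [hc, add_sub_cancel, map_smul] at h1 h3
  rw [hS, h] at h1
  rw [hT] at h3
  exact smul_right_injective V hc0 (h1.trans h3.symm)

theorem QHom.ext {u e : Fin n → F} (hue : u ⬝ᵥ e = 1) {S T : ((Fin n → F) → ℂ) →ₗ[ℂ] V}
    (hS : QHom h2 hψ σ (inL u) S) (hT : QHom h2 hψ σ (inL u) T) (h : S (dl e) = T (dl e)) :
    S = T := by
  refine ext_dl fun x => ?_
  by_cases hx : u ⬝ᵥ x = 1
  · have hw : sympBilin n F (inL u) (inR (x - e)) = 0 := by simp [sympForm_dot, hx, hue]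
    exact apply_dl_eq hue hx (hS.2 _ hw) (hT.2 _ hw) h
  · rw [apply_dl_eq_zero hψ hS.1 hx, apply_dl_eq_zero hψ hT.1 hx]

theorem tau_sieg_dl (hn : 2 ≤ n) (M : Matrix (Fin n) (Fin n) F) (T : ((Fin n → F) → ℂ) →ₗ[ℂ] V)
    (x : Fin n → F) :
    tau h2 hψ σ (sieg M) T (dl x) = ψ (x ⬝ᵥ M *ᵥ x) • σ (sieg M) (T (dl x)) := by
  rw [tau_apply, ← sieg_neg, weil_sieg_dl h2 hψ hn, map_smul, map_smul, neg_mulVec,
    dotProduct_neg, neg_neg]

theorem exists_qHom (hn : 2 ≤ n) {u e : Fin n → F} (hue : u ⬝ᵥ e = 1) {m : V}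
    (hm : IsEig σ ψ (-vecMulVec e e) m) : ∃ T, QHom h2 hψ σ (inL u) T ∧ T (dl e) = m := by
  let T0 : ((Fin n → F) → ℂ) →ₗ[ℂ] V := (LinearMap.proj e : _ →ₗ[ℂ] ℂ).smulRight m
  have hT0 : ∀ f, T0 f = f e • m := fun f => rfl
  have hA : ∀ M, tau h2 hψ σ (sieg M) T0 = T0 := fun M => ext_dl fun x => by
    rw [tau_sieg_dl hn, hT0, map_smul, hm, dl_apply]
    split_ifs with h
    · subst h
      rw [one_smul, one_smul, smul_smul, ← AddChar.map_add_eq_mul, mp_neg_vecMulVec]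
      simp
    · simp
  have hp0 : T0 ∘ₗ hp ψ (inL u) = T0 := LinearMap.ext fun f => by
    rw [LinearMap.comp_apply, hT0, hT0, hp_inL hψ, if_pos hue]
  let E : (Fin n → F) → SpG n F := fun w => eich (hAl n F) (inL u) (inR w)
  have hB : ∀ w, u ⬝ᵥ w = 0 → sympBilin n F (inL u) (inR w) = 0 := fun w hw => by
    simp [sympForm_dot, hw]
  have hE : ∀ w w', u ⬝ᵥ w = 0 → u ⬝ᵥ w' = 0 → E w * E w' = E (w + w') := fun w w' hw hw' => by
    simp only [E]
    rw [eich_mul h2 _ (hB w hw) (hB w' hw'), inR_add]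
    simp [sympForm_dot]
  have hE0 : E 0 = 1 := by simp only [E, inR_zero, eich_zero]
  let K : Finset (Fin n → F) := Finset.univ.filter fun w => u ⬝ᵥ w = 0
  have hK : ∀ w, w ∈ K ↔ u ⬝ᵥ w = 0 := fun w => by simp [K]
  refine ⟨∑ w ∈ K, tau h2 hψ σ (E w) T0, ⟨?_, fun w hw => ?_⟩, ?_⟩
  · refine LinearMap.ext fun f => ?_
    rw [LinearMap.comp_apply, LinearMap.sum_apply, LinearMap.sum_apply]
    refine Finset.sum_congr rfl fun w hw => ?_
    rw [← LinearMap.comp_apply]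
    nth_rewrite 1 [← eich_fix (hAl n F) (hB w ((hK w).1 hw))]
    rw [tau_hp, hp0]
  · have hb : u ⬝ᵥ w ∘ Sum.inr = 0 := by simpa [sympForm_dot] using hw
    have h1 : eich (hAl n F) (inL u) w = sieg (vecMulVec u (w ∘ Sum.inl -
        (2⁻¹ * (w ∘ Sum.inl ⬝ᵥ w ∘ Sum.inr)) • u)) * E (w ∘ Sum.inr) := by
      rw [← eich_inL, eich_mul h2 _ (by simp [sympForm_dot]) (hB _ hb)]
      congr 1
      exact vec_ext (by simp [sympForm_dot, hb]) (by simp)
    have h3 : tau h2 hψ σ (E (w ∘ Sum.inr)) (∑ w ∈ K, tau h2 hψ σ (E w) T0) =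
        ∑ w ∈ K, tau h2 hψ σ (E w) T0 := by
      rw [map_sum]
      refine Finset.sum_equiv (Equiv.addLeft (w ∘ Sum.inr)) (fun x => ?_) fun x hx => ?_
      · simp [hK, hb]
      · rw [← tau_mul, hE _ _ hb ((hK x).1 hx)]; rfl
    rw [h1, tau_mul, h3, map_sum]
    refine Finset.sum_congr rfl fun x hx => ?_
    generalize vecMulVec u _ = M
    obtain ⟨M', hM'⟩ := exists_sieg h2 ((E x)⁻¹ * sieg M * E x) fun y => by
      rw [spB_mul_apply, spB_mul_apply, eich_inR_inL ((hK x).1 hx), sieg_inL,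
        ← eich_inR_inL ((hK x).1 hx), spB_inv_apply]
    rw [← tau_mul, show sieg M * E x = E x * sieg M' by rw [← hM']; group, tau_mul, hA]
  · rw [LinearMap.sum_apply, Finset.sum_eq_single 0]
    · rw [hE0, map_one, End.one_apply, hT0, dl_apply, if_pos rfl, one_smul]
    · intro w hw hw0
      have hw' := (hK w).1 hw
      have hw'' : u ⬝ᵥ (-w) = 0 := by rw [dotProduct_neg, hw', neg_zero]
      have h1 : (E w)⁻¹ = E (-w) :=
        inv_eq_of_mul_eq_one_right (by rw [hE _ _ hw' hw'', add_neg_cancel, hE0])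
      obtain ⟨c, -, hc⟩ := weil_eich_dl (h2 := h2) (hψ := hψ) hue hw''
      rw [tau_apply, h1, hc, hT0, Pi.smul_apply, dl_apply, if_neg (by simpa using hw0)]
      simp
    · intro h
      exact absurd ((hK 0).2 (by simp)) h

theorem QHom.isEig (hn : 2 ≤ n) (hR : R1 σ ψ) {u e : Fin n → F} (hue : u ⬝ᵥ e = 1)
    {T : ((Fin n → F) → ℂ) →ₗ[ℂ] V} (hT : QHom h2 hψ σ (inL u) T) :
    IsEig σ ψ (-vecMulVec e e) (T (dl e)) := by
  refine hR.isEig h2 hψ hue fun y => ?_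
  have h1 := hT.2 (inL y) (by simp [sympForm_dot])
  rw [eich_inL] at h1
  rw [← tau_weil h2 hψ, h1, weil_sieg_dl h2 hψ hn, map_smul, vecMulVec_mulVec, dotProduct_smul,
    dotProduct_comm e u, hue]
  simp

theorem QHom.fix (hn : 2 ≤ n) (hR : R1 σ ψ) {u e : Fin n → F} (hue : u ⬝ᵥ e = 1)
    {T : ((Fin n → F) → ℂ) →ₗ[ℂ] V} (hT : QHom h2 hψ σ (inL u) T) {g : SpG n F}
    (hg : g.1 (inL u) = inL u) : WG.tau h2 hψ σ g T = T := by
  let N : Subgroup (SpG n F) :=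
    { carrier := {g | ∀ T, QHom h2 hψ σ (inL u) T → WG.tau h2 hψ σ g T = T}
      one_mem' := fun T _ => by rw [map_one, End.one_apply]
      mul_mem' := fun {a b} ha hb T hT => by rw [tau_mul, hb T hT, ha T hT]
      inv_mem' := fun {a} ha T hT => by
        nth_rewrite 1 [← ha T hT]
        rw [← tau_mul, inv_mul_cancel, map_one, End.one_apply] }
  have hA : ∀ M, sieg M ∈ N := fun M T hT => QHom.ext hue (hT.tau (sieg_inL M u)) hT (by
    rw [tau_sieg_dl hn, hT.isEig hn hR hue, smul_smul, ← AddChar.map_add_eq_mul, mp_neg_vecMulVec]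
    simp)
  have hC : ∀ h k : SpG n F, h.1 (inL u) = inL u → k ∈ N → h * k * h⁻¹ ∈ N := fun h k hh hk T hT => by
    have hh' : (h⁻¹).1 (inL u) = inL u := by nth_rewrite 1 [← hh]; rw [spB_inv_apply]
    rw [tau_mul, tau_mul, hk _ (hT.tau hh'), ← tau_mul, mul_inv_cancel, map_one, End.one_apply]
  refine mem_of_fix_of_spT (hNd n F) (hAl n F) N (inL u) (fun w c hw => ?_) g hg T hT
  by_cases h : w ∈ Submodule.span F {inL u}
  · obtain ⟨a, rfl⟩ := Submodule.mem_span_singleton.1 h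
    rw [smul_inL, spT_inL h2]
    exact hA _
  · obtain ⟨-, x, y, -, hyx, hye, -⟩ := exists_frame hn (ne_zero_of_dot hue).2
    have hu := inL_ne_zero (ne_zero_of_dot hue).1
    obtain ⟨k, hk, hk1, hk2⟩ := SpB_exists_pair (hNd n F) (hAl n F) hu hu
      (inL_notMem hue (ne_zero_of_dot hyx).1 hye) h (by rw [hw]; simp [sympForm_dot])
    have := hC ⟨k, hk⟩ _ hk1 (spT_inL h2 y c ▸ hA _)
    rwa [spT_conj, hk2] at this

theorem IsEig.map (hn : 2 ≤ n) (h2 : (2 : F) ≠ 0) (hψ : ψ ≠ 1) {e : Fin n → F} {m : V}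
    (hm : IsEig σ ψ (-vecMulVec e e) m) {g : SpG n F} (hg : ∀ y, g.1 (inL y) ∘ Sum.inr = 0)
    (he : g.1 (inR e) ∘ Sum.inr = e) : IsEig σ ψ (-vecMulVec e e) (σ g m) := fun M => by
  obtain ⟨M', hM'⟩ := exists_sieg h2 (g⁻¹ * sieg M * g) fun y => by
    rw [spB_mul_apply, spB_mul_apply, eq_inL (hg y), sieg_inL, ← eq_inL (hg y), spB_inv_apply]
  have h1 : sieg M * g = g * sieg M' := by rw [← hM']; group
  obtain ⟨c, hc0, hc⟩ := weil_dl h2 hψ g hg e
  have h3 := congrFun (LinearMap.congr_fun (congrArg (weil h2 hψ) h1) (dl e)) e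
  rw [map_mul, map_mul, End.mul_apply, End.mul_apply, weil_sieg_dl h2 hψ hn, map_smul, hc, he,
    map_smul, weil_sieg_dl h2 hψ hn] at h3
  simp only [Pi.smul_apply, Pi.single_eq_same, smul_eq_mul, mul_one] at h3
  rw [← End.mul_apply, ← map_mul, h1, map_mul, End.mul_apply, hm, map_smul, mp_neg_vecMulVec,
    mp_neg_vecMulVec, mul_left_cancel₀ hc0 (h3.trans (mul_comm _ _))]

theorem exists_shift (hn : 2 ≤ n) (hR : R1 σ ψ) {u e a : Fin n → F} (hue : u ⬝ᵥ e = 1)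
    (ha : a ⬝ᵥ e = 0) {m : V} (hm : IsEig σ ψ (-vecMulVec e e) m) :
    ∃ g : SpG n F, g.1 (inL u) = inL (u + a) ∧ σ g m = m ∧ weil h2 hψ g (dl e) = dl e := by
  let g : F → SpG n F := fun t => eich (hAl n F) (inR e) (inL (t • a))
  have hB : ∀ t : F, sympBilin n F (inR e) (inL (t • a)) = 0 := fun t => by simp [sympForm_dot, ha]
  have hg : ∀ s t, g (s + t) = g s * g t := fun s t => by
    simp only [g]
    rw [eich_mul h2 _ (hB s) (hB t), inL_add, add_smul]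
    simp [sympForm_dot]
  have hgL : ∀ t y, (g t).1 (inL y) = inL (y - (y ⬝ᵥ e) • t • a) := fun t y => by
    rw [eich_apply _ (hB t)]
    exact vec_ext (by simp [sympForm_dot, sub_eq_add_neg]) (by simp [sympForm_dot])
  have hgR : ∀ t, (g t).1 (inR e) = inR e := fun t => eich_fix _ (hB t)
  let k0 : Matrix (Fin n) (Fin n) F := -1 + (2 : F) • vecMulVec u e
  have hk0 : k0 * k0 = 1 := by
    simp only [k0, add_mul, mul_add, neg_mul, mul_neg, one_mul, mul_one, smul_mul_assoc,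
      mul_smul_comm, vecMulVec_mul_vecMulVec, dotProduct_comm e u, hue, one_smul]
    module
  have H : k0ᵀ * k0ᵀ = 1 := by rw [← transpose_mul, hk0, transpose_one]
  let k := levi k0 k0ᵀ H
  have hkL : ∀ y, k.1 (inL y) = inL (-y + (2 * (e ⬝ᵥ y)) • u) := fun y =>
    vec_ext (by simp [k, k0, levi_inl, add_mulVec, neg_mulVec, smul_mulVec, vecMulVec_mulVec,
      smul_smul]) (by simp [k, levi_inr])
  have hkR : k.1 (inR e) = inR e :=
    vec_ext (by simp [k, levi_inl]) (by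
      simp only [k, k0, levi_inr, inR_inr, transpose_add, transpose_neg, transpose_one,
        transpose_smul, transpose_vecMulVec, add_mulVec, neg_mulVec, one_mulVec, smul_mulVec,
        vecMulVec_mulVec, hue, op_smul_eq_smul]
      module)
  have hku : k.1 (inL u) = inL u := by
    rw [hkL, dotProduct_comm e u, hue]; congr 1; module
  have hk : ∀ t, k * g t = g (-t) * k := fun t => by
    rw [← mul_inv_eq_iff_eq_mul, eich_conj, hkR, hkL, dotProduct_smul, dotProduct_comm e a, ha]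
    simp [g]
  obtain ⟨κ, hκ0, hκ⟩ := weil_dl h2 hψ k (fun y => by rw [hkL]; rfl) e
  rw [hkR, inR_inr] at hκ
  refine ⟨g (-1), by rw [hgL, hue]; congr 1; module, ?_, ?_⟩
  · refine unip_fix h2 σ {m | IsEig σ ψ (-vecMulVec e e) m} k g hg hk (fun t m hm => ?_) hκ0
      (fun m hm => ?_) _ hm
    · exact IsEig.map hn h2 hψ hm (fun y => by rw [hgL]; rfl) (by rw [hgR]; rfl)
    · obtain ⟨T, hT, rfl⟩ := exists_qHom (h2 := h2) (hψ := hψ) hn hue hm
      rw [← tau_weil h2 hψ, hT.fix hn hR hue hku, hκ, map_smul]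
  · refine unip_fix h2 (weil h2 hψ) {f | ∃ c : ℂ, f = c • dl e} k g hg hk ?_ hκ0 ?_ _
      ⟨1, (one_smul _ _).symm⟩
    · rintro t _ ⟨c, rfl⟩
      obtain ⟨d, -, hd⟩ := weil_dl h2 hψ (g t) (fun y => by rw [hgL]; rfl) e
      rw [hgR, inR_inr] at hd
      exact ⟨c * d, by rw [map_smul, hd, smul_smul]⟩
    · rintro _ ⟨c, rfl⟩
      rw [map_smul, hκ, smul_comm]

theorem QHom.compat (hn : 2 ≤ n) (hR : R1 σ ψ) {u e a : Fin n → F} (hue : u ⬝ᵥ e = 1)
    (ha : a ⬝ᵥ e = 0) {T : ((Fin n → F) → ℂ) →ₗ[ℂ] V} (hT : QHom h2 hψ σ (inL u) T) {g : SpG n F}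
    (hg : g.1 (inL u) = inL (u + a)) :
    T ∘ₗ hp ψ (inL (u + a)) = WG.tau h2 hψ σ g T ∘ₗ hp ψ (inL u) := by
  obtain ⟨g', hg', h1, h3⟩ := exists_shift (h2 := h2) (hψ := hψ) hn hR hue ha (hT.isEig hn hR hue)
  have hfix : ∀ h : SpG n F, h.1 (inL (u + a)) = inL (u + a) →
      WG.tau h2 hψ σ h (WG.tau h2 hψ σ g' T) = WG.tau h2 hψ σ g T := fun h hh => by
    rw [← tau_mul, show h * g' = g * (g⁻¹ * h * g') by group, tau_mul, hT.fix hn hR hue (by
      rw [spB_mul_apply, spB_mul_apply, hg', hh, ← hg, spB_inv_apply])]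
  have h4 : WG.tau h2 hψ σ g' T = WG.tau h2 hψ σ g T := by
    rw [← hfix 1 rfl, map_one, End.one_apply]
  have h5 : WG.tau h2 hψ σ g T ∘ₗ hp ψ (inL (u + a)) = WG.tau h2 hψ σ g T := by
    rw [← hg, tau_hp, hT.1]
  refine ext_dl fun x => ?_
  rw [LinearMap.comp_apply, LinearMap.comp_apply, hp_inL_dl hψ, hp_inL_dl hψ]
  by_cases hx : u ⬝ᵥ x = 1 <;> by_cases hx' : (u + a) ⬝ᵥ x = 1
  · rw [if_pos hx, if_pos hx']
    have hw : u ⬝ᵥ (x - e) = 0 := by rw [dotProduct_sub, hx, hue, sub_self]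
    refine apply_dl_eq hue hx (hT.2 _ (by simp [sympForm_dot, hx, hue])) ?_ ?_
    · nth_rewrite 1 [← h4]
      refine hfix _ ?_
      rw [eich_inR_inL hw, dotProduct_sub, hx', add_dotProduct, hue, ha]
      simp
    · rw [← h4, ← h3, tau_weil, h3, h1]
  · rw [if_pos hx, if_neg hx', map_zero, apply_dl_eq_zero hψ h5 hx']
  · rw [if_neg hx, if_pos hx', map_zero, apply_dl_eq_zero hψ hT.1 hx]
  · rw [if_neg hx, if_neg hx', map_zero, map_zero]

/-- An equivariant compatible family of partial intertwiners. -/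
structure Fam (h2 : (2 : F) ≠ 0) (hψ : ψ ≠ 1) (σ : Representation ℂ (SpG n F) V)
    (T : (Fin n ⊕ Fin n → F) → ((Fin n → F) → ℂ) →ₗ[ℂ] V) : Prop where
  equiv : ∀ (g : SpG n F) v, tau h2 hψ σ g (T v) = T (g.1 v)
  proj : ∀ v, T v ∘ₗ hp ψ v = T v
  compat : ∀ v v', v ≠ 0 → v' ∉ Submodule.span F {v} → sympBilin n F v v' = 0 →
    T v ∘ₗ hp ψ v' = T v' ∘ₗ hp ψ v

theorem exists_fam (hn : 2 ≤ n) (hR : R1 σ ψ) {u e : Fin n → F} (hue : u ⬝ᵥ e = 1) {m : V}
    (hm : IsEig σ ψ (-vecMulVec e e) m) : ∃ T, Fam h2 hψ σ T ∧ T (inL u) (dl e) = m := by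
  classical
  obtain ⟨T0, hT0, h0⟩ := exists_qHom (h2 := h2) (hψ := hψ) hn hue hm
  have hu := inL_ne_zero (ne_zero_of_dot hue).1
  have hex : ∀ v : Fin n ⊕ Fin n → F, v ≠ 0 → ∃ g : SpG n F, g.1 (inL u) = v := fun v hv => by
    obtain ⟨g, hg, h⟩ := SpB_exists_apply_eq (hNd n F) (hAl n F) hu hv
    exact ⟨⟨g, hg⟩, h⟩
  choose! gs hgs using hex
  let T : (Fin n ⊕ Fin n → F) → ((Fin n → F) → ℂ) →ₗ[ℂ] V := fun v =>
    if v = 0 then 0 else tau h2 hψ σ (gs v) T0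
  have hT : ∀ g : SpG n F, T (g.1 (inL u)) = tau h2 hψ σ g T0 := fun g => by
    have h1 : g.1 (inL u) ≠ 0 := fun h => hu (g.1.injective (h.trans (map_zero _).symm))
    simp only [T, if_neg h1]
    rw [show gs (g.1 (inL u)) = g * (g⁻¹ * gs (g.1 (inL u))) by group, tau_mul,
      hT0.fix hn hR hue (by rw [spB_mul_apply, hgs _ h1, spB_inv_apply])]
  have hz : T 0 = 0 := by simp [T]
  have hE : ∀ (g : SpG n F) v, tau h2 hψ σ g (T v) = T (g.1 v) := fun g v => by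
    by_cases hv : v = 0
    · rw [hv, map_zero, hz, map_zero]
    · rw [← hgs v hv, ← spB_mul_apply, hT, hT, tau_mul]
  have hu0 : T (inL u) = T0 := by
    have := hT 1
    rwa [map_one, End.one_apply] at this
  refine ⟨T, ⟨hE, fun v => ?_, fun v v' hv hv' hB => ?_⟩, by rw [hu0, h0]⟩
  · by_cases hv : v = 0
    · rw [hv, hz, LinearMap.zero_comp]
    · rw [← hgs v hv, hT, tau_hp, hT0.1]
  · obtain ⟨-, x, y, -, hyx, hye, -⟩ := exists_frame hn (ne_zero_of_dot hue).2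
    have hy : inL (u + y) ∉ Submodule.span F {inL u} := fun h =>
      inL_notMem hue (ne_zero_of_dot hyx).1 hye (by
        have := Submodule.sub_mem _ h (Submodule.mem_span_singleton_self _)
        rwa [← inL_add, add_sub_cancel_left] at this)
    obtain ⟨k, hk, hk1, hk2⟩ := SpB_exists_pair (hNd n F) (hAl n F) hu hv hy hv'
      (by rw [hB]; simp [sympForm_dot])
    have huy : inL (u + y) ≠ 0 := fun h => hy (h ▸ Submodule.zero_mem _)
    have h1 := hT0.compat hn hR hue hye (hgs _ huy)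
    rw [← hT, hgs _ huy, ← hu0] at h1
    have h3 := congrArg (tau h2 hψ σ ⟨k, hk⟩) h1
    rwa [← tau_hp, ← tau_hp, hE, hE, hk1, hk2] at h3

end Cfsg.Lib.Known.WG
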