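import Mathlib
import Cfsg.Agent.Known.WeilQ

/-!
A lower bound for the size of a congruence class of symmetric matrices of rank at least two.
-/

namespace Cfsg.Lib.Known.WG

open Module Matrix Finset

variable {F : Type*} [Field F] [Fintype F] [DecidableEq F] {n : ℕ}

/-- Common annihilator of two vectors. -/
def ann (a a' : Fin n → F) : Finset (Fin n → F) := univ.filter fun v => a ⬝ᵥ v = 0 ∧ a' ⬝ᵥ v = 0

theorem mem_ann {a a' v : Fin n → F} : v ∈ ann a a' ↔ a ⬝ᵥ v = 0 ∧ a' ⬝ᵥ v = 0 := by simp [ann]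

theorem card_ann (a a' : Fin n → F) : ∃ r ≤ 2, (ann a a').card * Fintype.card F ^ r =
    Fintype.card F ^ n ∧ ((∀ s t : F, ∃ v, a ⬝ᵥ v = s ∧ a' ⬝ᵥ v = t) → r = 2) := by
  let φ : (Fin n → F) →ₗ[F] F × F :=
    { toFun := fun v => (a ⬝ᵥ v, a' ⬝ᵥ v)
      map_add' := fun v w => by simp
      map_smul' := fun c v => by simp }
  have h1 := LinearMap.finrank_range_add_finrank_ker φ
  rw [finrank_fin_fun] at h1
  have h2 : finrank F (F × F) = 2 := by simp
  refine ⟨finrank F (LinearMap.range φ), (Submodule.finrank_le _).trans h2.le, ?_, fun h => ?_⟩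
  · have h3 : (ann a a').card = Fintype.card F ^ finrank F (LinearMap.ker φ) := by
      rw [← Nat.card_eq_fintype_card, ← Module.natCard_eq_pow_finrank (K := F),
        ← Nat.card_eq_finsetCard]
      exact Nat.card_congr (Equiv.subtypeEquivRight fun v => by simp [mem_ann, φ])
    rw [h3, ← pow_add, add_comm, h1]
  · rw [LinearMap.range_eq_top.2 fun p => ?_, finrank_top, h2]
    obtain ⟨v, hv, hv'⟩ := h p.1 p.2
    exact ⟨v, Prod.ext hv hv'⟩

theorem le_card_ann {k : ℕ} (a a' : Fin (k + 2) → F) : Fintype.card F ^ k ≤ (ann a a').card := by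
  obtain ⟨r, hr, h, -⟩ := card_ann a a'
  have hq : 0 < Fintype.card F := Fintype.card_pos
  refine Nat.le_of_mul_le_mul_right ?_ (pow_pos hq 2)
  rw [← pow_add, ← h]
  exact Nat.mul_le_mul_left _ (Nat.pow_le_pow_right hq hr)

theorem card_ann_eq {k : ℕ} {a a' : Fin (k + 2) → F} (h : ∀ s t : F, ∃ v, a ⬝ᵥ v = s ∧ a' ⬝ᵥ v = t) :
    (ann a a').card = Fintype.card F ^ k := by
  obtain ⟨r, -, h1, h3⟩ := card_ann a a'
  rw [h3 h, pow_add] at h1
  exact Nat.eq_of_mul_eq_mul_right (pow_pos Fintype.card_pos 2) h1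

omit [Fintype F] [DecidableEq F] in
theorem sym_dot {b : Matrix (Fin n) (Fin n) F} (hb : bᵀ = b) (y z : Fin n → F) :
    y ⬝ᵥ b *ᵥ z = z ⬝ᵥ b *ᵥ y := by
  rw [dotProduct_mulVec, ← mulVec_transpose, hb, dotProduct_comm]

omit [Fintype F] [DecidableEq F] in
theorem exists_orth_aniso (h2 : (2 : F) ≠ 0) {b : Matrix (Fin n) (Fin n) F} (hb : bᵀ = b)
    (hr : ∃ y z, (y ⬝ᵥ b *ᵥ y) * (z ⬝ᵥ b *ᵥ z) ≠ (y ⬝ᵥ b *ᵥ z) ^ 2) {x : Fin n → F}
    (hx : x ⬝ᵥ b *ᵥ x ≠ 0) : ∃ z, x ⬝ᵥ b *ᵥ z = 0 ∧ z ⬝ᵥ b *ᵥ z ≠ 0 := by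
  by_contra! h
  obtain ⟨y, z, hyz⟩ := hr
  have h1 : ∀ y, (y ⬝ᵥ b *ᵥ y) * (x ⬝ᵥ b *ᵥ x) = (x ⬝ᵥ b *ᵥ y) ^ 2 := fun y => by
    have := h (y - ((x ⬝ᵥ b *ᵥ y) / (x ⬝ᵥ b *ᵥ x)) • x) (by
      rw [mulVec_sub, mulVec_smul, dotProduct_sub, dotProduct_smul, smul_eq_mul,
        div_mul_cancel₀ _ hx, sub_self])
    simp only [mulVec_sub, mulVec_smul, dotProduct_sub, dotProduct_smul, smul_eq_mul,
      sub_dotProduct, smul_dotProduct, sym_dot hb y x] at this
    field_simp at this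
    linear_combination this
  have h3 := h1 (y + z)
  simp only [mulVec_add, dotProduct_add, add_dotProduct, sym_dot hb z y] at h3
  have h4 : (y ⬝ᵥ b *ᵥ z) * (x ⬝ᵥ b *ᵥ x) = (x ⬝ᵥ b *ᵥ y) * (x ⬝ᵥ b *ᵥ z) :=
    mul_left_cancel₀ h2 (by linear_combination h3 - h1 y - h1 z)
  refine hyz (mul_right_cancel₀ (pow_ne_zero 2 hx) ?_)
  linear_combination (z ⬝ᵥ b *ᵥ z * (x ⬝ᵥ b *ᵥ x)) * h1 y + (x ⬝ᵥ b *ᵥ y) ^ 2 * h1 z -
    ((y ⬝ᵥ b *ᵥ z) * (x ⬝ᵥ b *ᵥ x) + (x ⬝ᵥ b *ᵥ y) * (x ⬝ᵥ b *ᵥ z)) * h4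

omit [DecidableEq F] in
theorem exists_binary (hq : Odd (Fintype.card F)) {a a' : F} (ha : a ≠ 0) (ha' : a' ≠ 0) (c : F) :
    ∃ s t, a * s ^ 2 + a' * t ^ 2 = c := by
  obtain ⟨s, t, h⟩ := FiniteField.exists_root_sum_quadratic
    (f := Polynomial.C a * Polynomial.X ^ 2) (g := Polynomial.C a' * Polynomial.X ^ 2 - Polynomial.C c)
    (by compute_degree!) (by compute_degree!) (Nat.odd_iff.1 hq)
  refine ⟨s, t, ?_⟩
  simp at h
  linear_combination h

omit [Fintype F] [DecidableEq F] in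
theorem exists_mat_pair {x x' y y' : Fin n → F} (hx : LinearIndependent F ![x, x'])
    (hy : LinearIndependent F ![y, y']) :
    ∃ g k : Matrix (Fin n) (Fin n) F, gᵀ * k = 1 ∧ kᵀ *ᵥ x = y ∧ kᵀ *ᵥ x' = y' := by
  have q0 {D D' : Fin n → F} (hD : LinearIndependent F ![D, D']) :
    hD.linearCombinationEquiv (Finsupp.single 0 1) = D := by simp
  have q1 {D D' : Fin n → F} (hD : LinearIndependent F ![D, D']) :
    hD.linearCombinationEquiv (Finsupp.single 1 1) = D' := by simp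
  let f := hx.linearCombinationEquiv.symm ≪≫ₗ hy.linearCombinationEquiv
  obtain ⟨e, he⟩ := Submodule.exists_linearEquiv_restrict_eq f
  refine ⟨LinearMap.toMatrix' (e.symm : _ →ₗ[F] _), (LinearMap.toMatrix' (e : _ →ₗ[F] _))ᵀ, ?_, ?_,
    ?_⟩
  · rw [← transpose_mul, ← LinearMap.toMatrix'_comp]; simp
  · rw [transpose_transpose, LinearMap.toMatrix'_mulVec, LinearEquiv.coe_coe]
    nth_rewrite 1 [← q0 hx]
    rw [← he]; simp [f]
  · rw [transpose_transpose, LinearMap.toMatrix'_mulVec, LinearEquiv.coe_coe]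
    nth_rewrite 1 [← q1 hx]
    rw [← he]; simp [f]

omit [Fintype F] [DecidableEq F] in
theorem cong_dot (b k : Matrix (Fin n) (Fin n) F) (v w : Fin n → F) :
    v ⬝ᵥ (k * b * kᵀ) *ᵥ w = (kᵀ *ᵥ v) ⬝ᵥ b *ᵥ (kᵀ *ᵥ w) := by
  rw [← mulVec_mulVec, ← mulVec_mulVec, dotProduct_mulVec, mulVec_transpose k v]

open Classical in
/-- The congruence class of a matrix. -/
noncomputable def cong (b : Matrix (Fin n) (Fin n) F) : Finset (Matrix (Fin n) (Fin n) F) :=
  univ.filter fun c => ∃ g k : Matrix (Fin n) (Fin n) F, gᵀ * k = 1 ∧ c = k * b * kᵀ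

theorem mem_cong {b c : Matrix (Fin n) (Fin n) F} :
    c ∈ cong b ↔ ∃ g k : Matrix (Fin n) (Fin n) F, gᵀ * k = 1 ∧ c = k * b * kᵀ := by simp [cong]

theorem exists_small_value {k : ℕ} (hq : Odd (Fintype.card F))
    {b : Matrix (Fin (k + 2)) (Fin (k + 2)) F} (hb : bᵀ = b) {y z : Fin (k + 2) → F}
    (hy : y ⬝ᵥ b *ᵥ y ≠ 0) (hz : z ⬝ᵥ b *ᵥ z ≠ 0) (hyz : y ⬝ᵥ b *ᵥ z = 0) :
    ∃ x, x ⬝ᵥ b *ᵥ x ≠ 0 ∧ (univ.filter fun v => v ⬝ᵥ b *ᵥ v = x ⬝ᵥ b *ᵥ x).card ≤
      (Fintype.card F + 1) * Fintype.card F ^ k := by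
  set q := Fintype.card F
  have hq1 : 1 < q := Fintype.one_lt_card
  have hval : ∀ w, (b *ᵥ y) ⬝ᵥ w = 0 → (b *ᵥ z) ⬝ᵥ w = 0 → ∀ s t : F,
      (w + s • y + t • z) ⬝ᵥ b *ᵥ (w + s • y + t • z) =
        w ⬝ᵥ b *ᵥ w + (y ⬝ᵥ b *ᵥ y) * s ^ 2 + (z ⬝ᵥ b *ᵥ z) * t ^ 2 := fun w h1 h3 s t => by
    rw [dotProduct_comm] at h1 h3
    simp only [mulVec_add, mulVec_smul, dotProduct_add, add_dotProduct, dotProduct_smul,
      smul_dotProduct, smul_eq_mul, sym_dot hb y w, sym_dot hb z w, sym_dot hb z y, h1, h3, hyz]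
    ring
  let N : F → ℕ := fun c => (univ.filter fun v : Fin (k + 2) → F => v ⬝ᵥ b *ᵥ v = c).card
  have h0 : q ^ k ≤ N 0 := by
    choose s t hst using fun c => exists_binary hq hy hz c
    refine (le_card_ann (b *ᵥ y) (b *ᵥ z)).trans (card_le_card_of_injOn
      (fun w => w + s (-(w ⬝ᵥ b *ᵥ w)) • y + t (-(w ⬝ᵥ b *ᵥ w)) • z) (fun w hw => ?_)
      fun w hw w' hw' h => ?_)
    · rw [mem_coe, mem_ann] at hw
      simp only [coe_filter, mem_univ, true_and, Set.mem_setOf_eq]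
      rw [hval w hw.1 hw.2, add_assoc, hst, add_neg_cancel]
    · rw [mem_coe, mem_ann] at hw hw'
      simp only at h
      have h1 := congrArg ((b *ᵥ y) ⬝ᵥ ·) h
      have h3 := congrArg ((b *ᵥ z) ⬝ᵥ ·) h
      simp only [dotProduct_add, dotProduct_smul, hw.1, hw.2, hw'.1, hw'.2, smul_eq_mul,
        zero_add] at h1 h3
      simp only [dotProduct_comm (b *ᵥ _), sym_dot hb z y, hyz, mul_zero, zero_add,
        add_zero] at h1 h3
      rw [mul_right_cancel₀ hy h1, mul_right_cancel₀ hz h3] at h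
      simpa using h
  have hsum : ∑ c, N c = q ^ (k + 2) := by
    rw [← card_eq_sum_card_fiberwise (s := univ) (t := univ) fun _ _ => mem_univ _]
    simp [q]
  obtain ⟨c, hc0, hc⟩ : ∃ c, c ≠ 0 ∧ N c ≤ (q + 1) * q ^ k := by
    by_contra! h
    have h1 : ∑ c ∈ univ.erase (0 : F), ((q + 1) * q ^ k + 1) ≤ ∑ c ∈ univ.erase 0, N c :=
      sum_le_sum fun c hc => h c (ne_of_mem_erase hc)
    rw [← add_sum_erase _ _ (mem_univ 0)] at hsum
    rw [sum_const, card_erase_of_mem (mem_univ _), card_univ, smul_eq_mul] at h1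
    obtain ⟨r, hr⟩ : ∃ r, q = r + 1 := ⟨q - 1, by omega⟩
    change (q - 1) * _ ≤ _ at h1
    rw [hr] at h0 h1 hsum hq1
    rw [Nat.add_sub_cancel] at h1
    have : (r + 1) ^ (k + 2) = r * ((r + 1 + 1) * (r + 1) ^ k) + (r + 1) ^ k := by ring
    nlinarith
  obtain ⟨s, t, hst⟩ := exists_binary hq hy hz c
  have h1 := hval 0 (by simp) (by simp) s t
  rw [zero_dotProduct, zero_add, zero_add, hst] at h1
  exact ⟨_, by rwa [h1], by rwa [h1]⟩

theorem card_orth_value {k : ℕ} {b : Matrix (Fin (k + 2)) (Fin (k + 2)) F} (hb : bᵀ = b)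
    {y z : Fin (k + 2) → F} (hy : y ⬝ᵥ b *ᵥ y ≠ 0) (hz : z ⬝ᵥ b *ᵥ z ≠ 0) (hyz : y ⬝ᵥ b *ᵥ z = 0)
    (c : F) : (univ.filter fun v => v ⬝ᵥ b *ᵥ v = c ∧ y ⬝ᵥ b *ᵥ v = 0).card ≤
      2 * Fintype.card F ^ k := by
  rw [← card_ann_eq (a := b *ᵥ y) (a' := b *ᵥ z) fun s t =>
    ⟨(s / (y ⬝ᵥ b *ᵥ y)) • y + (t / (z ⬝ᵥ b *ᵥ z)) • z, by
      simp [dotProduct_comm (b *ᵥ _), sym_dot hb z y, hyz, hy], by
      simp [dotProduct_comm (b *ᵥ _), hyz, hz]⟩]
  let f : (Fin (k + 2) → F) → Fin (k + 2) → F := fun v => v - ((z ⬝ᵥ b *ᵥ v) / (z ⬝ᵥ b *ᵥ z)) • z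
  refine card_le_mul_card_image_of_maps_to (f := f) (fun v hv => ?_) 2 fun w hw => ?_
  · simp only [mem_filter, mem_univ, true_and] at hv
    rw [mem_ann]
    simp only [f, dotProduct_sub, dotProduct_smul]
    simp only [dotProduct_comm (b *ᵥ _), sym_dot hb v y, sym_dot hb v z,
      sym_dot hb z y, hv.2, hyz, smul_eq_mul, div_mul_cancel₀ _ hz, mul_zero, sub_self, and_self]
  · rw [mem_ann, dotProduct_comm, dotProduct_comm (b *ᵥ z)] at hw
    let p : Polynomial F := Polynomial.C (z ⬝ᵥ b *ᵥ z) * Polynomial.X ^ 2 +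
      Polynomial.C (w ⬝ᵥ b *ᵥ w - c)
    have hp : p.natDegree = 2 := by simp only [p]; compute_degree!
    have hp0 : p ≠ 0 := by rintro h; rw [h] at hp; simp at hp
    refine le_trans (card_le_card_of_injOn (t := p.roots.toFinset)
      (fun v => (z ⬝ᵥ b *ᵥ v) / (z ⬝ᵥ b *ᵥ z)) (fun v hv => ?_) fun v hv v' hv' h => ?_)
      ((Multiset.toFinset_card_le _).trans (hp ▸ Polynomial.card_roots' p))
    · simp only [coe_filter, mem_filter, mem_univ, true_and, Set.mem_setOf_eq] at hv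
      obtain ⟨⟨h1, -⟩, h3⟩ := hv
      have h4 : v = w + ((z ⬝ᵥ b *ᵥ v) / (z ⬝ᵥ b *ᵥ z)) • z := by rw [← h3]; simp [f]
      simp only [mem_coe, Multiset.mem_toFinset, Polynomial.mem_roots hp0, Polynomial.IsRoot.def, p]
      generalize (z ⬝ᵥ b *ᵥ v) / (z ⬝ᵥ b *ᵥ z) = t at h4
      rw [h4] at h1
      simp only [mulVec_add, mulVec_smul, dotProduct_add, add_dotProduct, dotProduct_smul,
        smul_dotProduct, smul_eq_mul, sym_dot hb z w, hw.2] at h1
      simp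
      linear_combination h1
    · simp only [coe_filter, mem_filter, mem_univ, true_and, Set.mem_setOf_eq] at hv hv'
      have h1 := hv.2.trans hv'.2.symm
      simp only [f] at h1 h
      rw [h] at h1
      simpa using h1

theorem card_cong_ge {k : ℕ} (hq : Odd (Fintype.card F)) (h2 : (2 : F) ≠ 0)
    {b : Matrix (Fin (k + 2)) (Fin (k + 2)) F} (hb : bᵀ = b)
    (hr : ∃ y z, (y ⬝ᵥ b *ᵥ y) * (z ⬝ᵥ b *ᵥ z) ≠ (y ⬝ᵥ b *ᵥ z) ^ 2) :
    (Fintype.card F ^ (k + 2) - 1) * (Fintype.card F ^ (k + 2) - Fintype.card F) ≤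
      (cong b).card * (2 * (Fintype.card F + 1)) := by
  classical
  set q := Fintype.card F
  have hq0 : 0 < q := Fintype.card_pos
  obtain ⟨y₀, hy₀⟩ : ∃ y, y ⬝ᵥ b *ᵥ y ≠ 0 := by
    by_contra! h
    obtain ⟨y, z, hyz⟩ := hr
    rw [eq_zero_of_quad h2 hb h] at hyz
    simp at hyz
  obtain ⟨z₀, hyz₀, hz₀⟩ := exists_orth_aniso h2 hb hr hy₀
  obtain ⟨y, hy, hN⟩ := exists_small_value hq hb hy₀ hz₀ hyz₀
  obtain ⟨z, hyz, hz⟩ := exists_orth_aniso h2 hb hr hy
  have hind : LinearIndependent F ![y, z] := by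
    rw [LinearIndependent.pair_iff' (by rintro rfl; simp at hy)]
    rintro a rfl
    rw [mulVec_smul, dotProduct_smul, smul_eq_mul] at hyz
    rw [(mul_eq_zero.1 hyz).resolve_right hy] at hz
    simp at hz
  let I : Finset ((Fin (k + 2) → F) × (Fin (k + 2) → F)) :=
    univ.filter fun p => p.1 ≠ 0 ∧ ∀ a : F, a • p.1 ≠ p.2
  let r : (Fin (k + 2) → F) × (Fin (k + 2) → F) → Matrix (Fin (k + 2)) (Fin (k + 2)) F → Prop :=
    fun p c => p.1 ⬝ᵥ c *ᵥ p.1 = y ⬝ᵥ b *ᵥ y ∧ p.2 ⬝ᵥ c *ᵥ p.2 = z ⬝ᵥ b *ᵥ z ∧ p.1 ⬝ᵥ c *ᵥ p.2 = 0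
  have hI : (q ^ (k + 2) - 1) * (q ^ (k + 2) - q) ≤ I.card := by
    have h1 : (univ.erase (0 : Fin (k + 2) → F)).card = q ^ (k + 2) - 1 := by
      rw [card_erase_of_mem (mem_univ _)]; simp [q]
    rw [← h1, card_eq_sum_card_fiberwise (f := Prod.fst) (s := I) (t := univ.erase 0)
      (fun p hp => by simp only [I, coe_filter, mem_univ, true_and, Set.mem_setOf_eq] at hp
                      simpa using hp.1), ← smul_eq_mul, ← sum_const]
    refine sum_le_sum fun x hx => ?_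
    have hx0 := ne_of_mem_erase hx
    have h3 : (univ \ univ.image fun a : F => a • x).card ≤ (I.filter fun p => p.1 = x).card :=
      card_le_card_of_injOn (fun v => (x, v)) (fun v hv => by
        simp only [coe_sdiff, coe_univ, coe_image, Set.image_univ, Set.mem_diff, Set.mem_univ,
          Set.mem_range, not_exists, true_and] at hv
        simp [I, hx0, hv]) fun v _ w _ h => (Prod.ext_iff.1 h).2
    refine le_trans ?_ h3
    rw [card_sdiff_of_subset (subset_univ _)]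
    have h4 : (univ.image fun a : F => a • x).card ≤ q := card_image_le
    have h5 : (univ : Finset (Fin (k + 2) → F)).card = q ^ (k + 2) := by simp [q]
    omega
  have key := card_mul_le_card_mul (s := I) (t := cong b) r (m := q ^ k * q ^ k)
    (n := (q + 1) * q ^ k * (2 * q ^ k)) (fun p hp => ?_) (fun c hc => ?_)
  · refine Nat.le_of_mul_le_mul_right ?_ (Nat.mul_pos (pow_pos hq0 k) (pow_pos hq0 k))
    calc _ ≤ I.card * (q ^ k * q ^ k) := Nat.mul_le_mul_right _ hI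
      _ ≤ _ := key
      _ = _ := by ring
  · obtain ⟨x, x'⟩ := p
    simp only [I, mem_filter, mem_univ, true_and] at hp
    obtain ⟨g, l, H, hl, hl'⟩ := exists_mat_pair ((LinearIndependent.pair_iff' hp.1).2 hp.2) hind
    let sh : (Fin (k + 2) → F) × (Fin (k + 2) → F) → Matrix (Fin (k + 2)) (Fin (k + 2)) F :=
      fun f => 1 + vecMulVec f.1 x + vecMulVec f.2 x'
    have hsh : ∀ f v, (sh f)ᵀ *ᵥ v = v + (f.1 ⬝ᵥ v) • x + (f.2 ⬝ᵥ v) • x' := fun f v => by
      simp [sh, add_mulVec, vecMulVec_mulVec]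
    have hval : ∀ f v w, v ⬝ᵥ (sh f * l * b * (sh f * l)ᵀ) *ᵥ w =
        (lᵀ *ᵥ v + (f.1 ⬝ᵥ v) • y + (f.2 ⬝ᵥ v) • z) ⬝ᵥ
          b *ᵥ (lᵀ *ᵥ w + (f.1 ⬝ᵥ w) • y + (f.2 ⬝ᵥ w) • z) := fun f v w => by
      rw [cong_dot, transpose_mul, ← mulVec_mulVec, ← mulVec_mulVec, hsh, hsh]
      simp only [mulVec_add, mulVec_smul, hl, hl']
    refine le_trans (Nat.mul_le_mul (le_card_ann x x') (le_card_ann x x')) ?_
    rw [← card_product]
    refine card_le_card_of_injOn (fun f => sh f * l * b * (sh f * l)ᵀ) (fun f hf => ?_)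
      fun f hf f' hf' h => ?_
    · simp only [coe_product, Set.mem_prod, mem_coe, mem_ann, dotProduct_comm x,
        dotProduct_comm x'] at hf
      obtain ⟨⟨a1, a2⟩, a3, a4⟩ := hf
      simp only [mem_coe, mem_bipartiteAbove, r, hval, a1, a2, a3, a4, hl, hl', zero_smul,
        add_zero, hyz, and_self, and_true]
      refine mem_cong.2 ⟨(1 - vecMulVec x f.1 - vecMulVec x' f.2) * g, _, ?_, rfl⟩
      have : (1 - vecMulVec x f.1 - vecMulVec x' f.2)ᵀ * sh f = 1 := by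
        simp only [sh, transpose_sub, transpose_one, transpose_vecMulVec, sub_mul, mul_add,
          one_mul, mul_one, vecMulVec_mul_vecMulVec, dotProduct_comm x, dotProduct_comm x',
          a1, a2, a3, a4, zero_smul, vecMulVec_zero]
        abel
      rw [transpose_mul, Matrix.mul_assoc, ← Matrix.mul_assoc _ (sh f), this, Matrix.one_mul, H]
    · simp only [coe_product, Set.mem_prod, mem_coe, mem_ann, dotProduct_comm x,
        dotProduct_comm x'] at hf hf'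
      obtain ⟨⟨a1, a2⟩, a3, a4⟩ := hf
      obtain ⟨⟨b1, b2⟩, b3, b4⟩ := hf'
      simp only at h
      refine Prod.ext ((dotProduct_eq_iff (R := F)).1 fun v => ?_)
        ((dotProduct_eq_iff (R := F)).1 fun v => ?_)
      · have h1 := hval f x v
        rw [h, hval] at h1
        simp only [a1, a3, b1, b3, hl, zero_smul, add_zero, mulVec_add, mulVec_smul,
          dotProduct_add, dotProduct_smul, hyz, smul_eq_mul, mul_zero] at h1
        exact mul_right_cancel₀ hy (add_left_cancel h1).symm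
      · have h1 := hval f x' v
        rw [h, hval] at h1
        simp only [a2, a4, b2, b4, hl', zero_smul, add_zero, mulVec_add, mulVec_smul,
          dotProduct_add, dotProduct_smul, sym_dot hb z y, hyz, smul_eq_mul, mul_zero] at h1
        exact mul_right_cancel₀ hz (add_left_cancel h1).symm
  · obtain ⟨g, l, H, rfl⟩ := mem_cong.1 hc
    have hinj : Function.Injective fun v => lᵀ *ᵥ v := by
      intro v w h
      have H' : g * lᵀ = 1 := by
        rw [← transpose_transpose g, ← transpose_mul, mul_eq_one_comm.1 H, transpose_one]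
      have := congrArg (g *ᵥ ·) h
      simpa [H'] using this
    let P : Finset ((Fin (k + 2) → F) × (Fin (k + 2) → F)) := univ.filter fun p => r p b
    have h1 : (I.bipartiteBelow r (l * b * lᵀ)).card ≤ P.card :=
      card_le_card_of_injOn (fun p => (lᵀ *ᵥ p.1, lᵀ *ᵥ p.2)) (fun p hp => by
        simp only [mem_coe, mem_bipartiteBelow, r, cong_dot] at hp
        simpa [P, r, -mulVec_mulVec] using hp.2) fun p _ p' _ h =>
        Prod.ext (hinj (Prod.ext_iff.1 h).1) (hinj (Prod.ext_iff.1 h).2)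
    refine h1.trans (le_trans (card_le_mul_card_image_of_maps_to (f := Prod.fst)
      (t := univ.filter fun v => v ⬝ᵥ b *ᵥ v = y ⬝ᵥ b *ᵥ y) (fun p hp => ?_) (2 * q ^ k)
      fun x hx => ?_) ?_)
    · simp only [P, r, mem_filter, mem_univ, true_and] at hp ⊢
      exact hp.1
    · simp only [mem_filter, mem_univ, true_and] at hx
      obtain ⟨z', h3, h4⟩ := exists_orth_aniso h2 hb hr (x := x) (by rwa [hx])
      refine le_trans (card_le_card_of_injOn Prod.snd (fun p hp => ?_) fun p hp p' hp' h => ?_)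
        (card_orth_value hb (by rwa [hx]) h4 h3 (z ⬝ᵥ b *ᵥ z))
      · simp only [P, r, coe_filter, mem_filter, mem_univ, true_and, Set.mem_setOf_eq] at hp ⊢
        obtain ⟨⟨-, h5, h6⟩, rfl⟩ := hp
        exact ⟨h5, h6⟩
      · simp only [coe_filter, Set.mem_setOf_eq] at hp hp'
        exact Prod.ext (hp.2.trans hp'.2.symm) h
    · rw [mul_comm]
      exact Nat.mul_le_mul_right _ hN

end Cfsg.Lib.Known.WG
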