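/-
Automorphisms of the Sylow 2-subgroup of a Suzuki group, field part: an additive map compatible with
the squaring map `a ↦ θ a * a` is a semilinear monomial.
-/
import Cfsg.Agent.Chev.SuzukiAut

set_option autoImplicit false

namespace Cfsg.Lib.Known.SzAut

open Cfsg.Lib.Chev Cfsg.Lib.Chev.FieldAut

variable {F : Type*} [Field F] [Finite F] [CharP F 2]

/-- An alternating combination of products of automorphisms has symmetric coefficients with zero
diagonal. -/
theorem alt_coeff [Fintype (F ≃+* F)] (e : (F ≃+* F) × (F ≃+* F) → F)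
    (h : ∀ x, ∑ p, e p * (p.1 x * p.2 x) = 0) :
    (∀ α β, e (α, β) = e (β, α)) ∧ ∀ α, e (α, α) = 0 := by
  classical
  have h2 : ∀ z : F, z + z = 0 := CharTwo.add_self_eq_zero
  have hsymm : ∀ α β, e (α, β) = e (β, α) := by
    have key : e = fun p => e p.swap := by
      apply sum_aut₂_inj
      intro x y
      have h1 := h (x + y)
      have hx := h x
      have hy := h y
      have e1 : ∑ p : (F ≃+* F) × (F ≃+* F), e p.swap * (p.1 x * p.2 y)
          = ∑ p : (F ≃+* F) × (F ≃+* F), e p * (p.1 y * p.2 x) := by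
        refine Fintype.sum_equiv (Equiv.prodComm _ _) _ _ fun p => ?_
        simp only [Equiv.prodComm_apply, Prod.fst_swap, Prod.snd_swap]
        ring
      have e2 : ∑ p : (F ≃+* F) × (F ≃+* F), e p * (p.1 (x + y) * p.2 (x + y))
          = ∑ p : (F ≃+* F) × (F ≃+* F), e p * (p.1 x * p.2 x)
            + ∑ p : (F ≃+* F) × (F ≃+* F), e p * (p.1 y * p.2 y)
            + (∑ p : (F ≃+* F) × (F ≃+* F), e p * (p.1 x * p.2 y)
            + ∑ p : (F ≃+* F) × (F ≃+* F), e p * (p.1 y * p.2 x)) := by
        simp only [← Finset.sum_add_distrib, map_add]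
        refine Finset.sum_congr rfl fun p _ => ?_
        ring
      rw [e2, hx, hy, zero_add, zero_add] at h1
      rw [e1]
      exact CharTwo.add_eq_zero.1 h1
    intro α β
    exact congrFun key (α, β)
  refine ⟨hsymm, ?_⟩
  have hoff : ∀ x, ∑ p ∈ (Finset.univ : Finset (F ≃+* F)).offDiag, e p * (p.1 x * p.2 x) = 0 := by
    intro x
    refine Finset.sum_involution (fun p _ => p.swap) ?_ ?_ ?_ ?_
    · intro p _
      have : e p.swap = e p := (hsymm p.1 p.2).symm
      simp only [Prod.fst_swap, Prod.snd_swap, this, mul_comm (p.2 x)]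
      exact h2 _
    · intro p hp _ hs
      have h1 := (Finset.mem_offDiag.1 hp).2.2
      exact h1 (congrArg Prod.snd hs)
    · intro p hp
      have h1 := (Finset.mem_offDiag.1 hp).2.2
      exact Finset.mem_offDiag.2 ⟨Finset.mem_univ _, Finset.mem_univ _, h1.symm⟩
    · intro p _
      exact Prod.swap_swap p
  have hdiag : ∀ x, ∑ α, e (α, α) * (α x * α x) = 0 := by
    intro x
    have := h x
    rw [← Finset.univ_product_univ, ← Finset.diag_union_offDiag,
      Finset.sum_union (Finset.disjoint_diag_offDiag _), hoff, add_zero, Finset.sum_diag] at this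
    exact this
  have hz : (fun α => e (α, α)) = fun _ => 0 := by
    apply sum_aut_inj
    intro y
    obtain ⟨x, rfl⟩ := (Fr F).surjective y
    simp only [Fr_apply, map_mul, zero_mul, Finset.sum_const_zero]
    exact hdiag x
  intro α
  exact congrFun hz α

theorem Fr_sq_ne_one (h4 : 4 < Nat.card F) : Fr F ^ 2 ≠ 1 := by
  intro h
  have := pow_inj_of_lt (F := F) (s := 2 ^ 2) (t := 1) (by omega) (by omega) fun x => by
    rw [← Fr_pow_apply, h, pow_one]; rfl
  omega

/-- The key lemma. -/
theorem monomial (h4 : 4 < Nat.card F) {t : F ≃+* F} (ht : t * t = Fr F) (φ ψ : F →+ F)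
    (h1 : φ 1 ≠ 0) (h : ∀ a, ψ (t a * a) = t (φ a) * φ a) :
    ∃ (l : F) (σ : F ≃+* F), ∀ x, φ x = l * σ x := by
  classical
  have := finite_aut (F := F)
  let _ : Fintype (F ≃+* F) := Fintype.ofFinite _
  obtain ⟨c, hc⟩ := exists_sum_aut φ
  obtain ⟨d, hd⟩ := exists_sum_aut ψ
  have ht4 : t * t * (t * t) ≠ 1 := by rw [ht, ← sq]; exact Fr_sq_ne_one h4
  have ht1 : t ≠ 1 := by rintro rfl; exact ht4 (by simp)
  let u : (F ≃+* F) → F := fun α => t (c (t⁻¹ * α))
  have hu : ∀ x, t (φ x) = ∑ α, u α * α x := by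
    intro x
    rw [hc, map_sum]
    refine Fintype.sum_equiv (Equiv.mulLeft t) _ _ fun σ => ?_
    simp only [u, Equiv.coe_mulLeft, inv_mul_cancel_left, map_mul]
    rfl
  let e : (F ≃+* F) × (F ≃+* F) → F := fun p =>
    u p.1 * c p.2 + if p.1 = p.2 * t then d p.2 else 0
  have he : ∀ x, ∑ p, e p * (p.1 x * p.2 x) = 0 := by
    intro x
    have e1 : ∑ p : (F ≃+* F) × (F ≃+* F), u p.1 * c p.2 * (p.1 x * p.2 x)
        = t (φ x) * φ x := by
      rw [hu, hc x, Finset.sum_mul_sum, Fintype.sum_prod_type]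
      refine Finset.sum_congr rfl fun α _ => Finset.sum_congr rfl fun β _ => ?_
      ring
    have e2 : ∑ p : (F ≃+* F) × (F ≃+* F), (if p.1 = p.2 * t then d p.2 else 0) * (p.1 x * p.2 x)
        = ψ (t x * x) := by
      rw [hd, Fintype.sum_prod_type_right]
      refine Finset.sum_congr rfl fun β _ => ?_
      simp only [ite_mul, zero_mul, Finset.sum_ite_eq', Finset.mem_univ, if_true, map_mul]
      rfl
    simp only [e, add_mul, Finset.sum_add_distrib]
    rw [e1, e2, h]
    exact CharTwo.add_self_eq_zero _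
  obtain ⟨hs, hdg⟩ := alt_coeff e he
  have hdg' : ∀ α, u α * c α = 0 := by
    intro α
    have := hdg α
    have hne : ¬ α = α * t := fun h => ht1 (by simpa using h)
    simpa only [e, hne, if_false, add_zero] using this
  have hpair : ∀ γ β, c γ ≠ 0 → c β ≠ 0 → γ = β ∨ β = γ * (t * t) := by
    intro γ β hγ hβ
    by_contra hcon
    push Not at hcon
    have hut : u (t * γ) ≠ 0 := by
      simp only [u, inv_mul_cancel_left]
      exact (map_ne_zero t).2 hγ
    have hc0 : c (t * γ) = 0 := (mul_eq_zero.1 (hdg' (t * γ))).resolve_left hut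
    have n1 : ¬ t * γ = β * t := fun h => hcon.1 (by
      rw [aut_comm β t] at h; exact mul_left_cancel h)
    have n2 : ¬ β = t * γ * t := fun h => hcon.2 (by
      rw [h, aut_comm t γ, mul_assoc])
    have := hs (t * γ) β
    simp only [e, n1, n2, if_false, add_zero, hc0, mul_zero] at this
    exact mul_ne_zero hut hβ this
  have hex : ∃ γ, c γ ≠ 0 := by
    by_contra hcon
    push Not at hcon
    exact h1 (by rw [hc]; simp [hcon])
  obtain ⟨γ, hγ⟩ := hex
  refine ⟨c γ, γ, fun x => ?_⟩
  rw [hc, Finset.sum_eq_single γ]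
  · intro β _ hβ
    by_contra hne
    have hcβ : c β ≠ 0 := fun h => hne (by rw [h, zero_mul])
    rcases hpair γ β hγ hcβ with h' | h'
    · exact hβ h'.symm
    rcases hpair β γ hcβ hγ with h'' | h''
    · exact hβ h''
    rw [h', mul_assoc] at h''
    exact ht4 (by simpa using h'')
  · intro h; exact absurd (Finset.mem_univ _) h

end Cfsg.Lib.Known.SzAut
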