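/-
Automorphisms of the Sylow 2-subgroup of a Suzuki group, group part.
-/
import Cfsg.Agent.Known.SzAutF
import Cfsg.Agent.Solv.Cores
import Cfsg.Prelude.Def_Transfer

set_option autoImplicit false

namespace Cfsg.Lib.Known.SzAut

open Cfsg.Lib.Chev Cfsg.Lib.Chev.FieldAut

/-- A coordinate description of a Suzuki 2-group of type A. -/
structure Crd {F : Type*} [Field F] (τ : Tw F) (S : Type*) [Group S] where
  /-- the coordinates -/
  e : F × F ≃ S
  mul : ∀ a b c d, e (a, b) * e (c, d) = e (a + c, b + d + τ.θ a * c)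

namespace Crd

variable {F : Type*} [Field F] {τ : Tw F} {S : Type*} [Group S] (C : Crd τ S)

theorem add_self (τ : Tw F) (x : F) : x + x = 0 := by rw [← two_mul, τ.two, zero_mul]

theorem e_zero : C.e (0, 0) = 1 := by
  have := C.mul 0 0 0 0
  simp only [add_zero, mul_zero] at this
  exact mul_eq_left.1 this

theorem e_inj {a b c d : F} (h : C.e (a, b) = C.e (c, d)) : a = c ∧ b = d :=
  Prod.mk.inj (C.e.injective h)

theorem e_sq (a b : F) : C.e (a, b) * C.e (a, b) = C.e (0, τ.θ a * a) := by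
  rw [C.mul, add_self τ, add_self τ, zero_add]

theorem eq_zero_of_sq {a b : F} (h : C.e (a, b) * C.e (a, b) = 1) : a = 0 := by
  rw [C.e_sq, ← C.e_zero] at h
  rcases mul_eq_zero.1 (C.e_inj h).2 with h | h
  · exact (map_eq_zero τ.θ).1 h
  · exact h

theorem e_split (a b : F) : C.e (a, b) = C.e (a, 0) * C.e (0, b) := by
  rw [C.mul]; simp

/-- The automorphism with the given data. -/
noncomputable def mk' [Fintype F] (f : F →+ F) (l : Fˣ) (σ : F ≃+* F) : MulAut S :=
  MulEquiv.ofBijective (MonoidHom.mk' (fun x => C.e (l * σ (C.e.symm x).1,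
      f (C.e.symm x).1 + τ.θ l * l * σ (C.e.symm x).2)) (by
        intro x y
        obtain ⟨⟨a, b⟩, rfl⟩ := C.e.surjective x
        obtain ⟨⟨c, d⟩, rfl⟩ := C.e.surjective y
        have h := τ.aut_θ σ a
        simp only [RingHom.coe_coe] at h
        simp only [C.mul, Equiv.symm_apply_apply, map_add, map_mul, h]
        congr 2 <;> ring)) (by
    have : Finite S := Finite.of_equiv _ C.e
    refine Finite.injective_iff_bijective.1 ?_
    rw [injective_iff_map_eq_one]
    intro x hx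
    obtain ⟨⟨a, b⟩, rfl⟩ := C.e.surjective x
    simp only [MonoidHom.mk'_apply, Equiv.symm_apply_apply] at hx
    rw [← C.e_zero] at hx
    obtain ⟨h1, h2⟩ := C.e_inj hx
    have ha : a = 0 := by simpa using h1
    subst ha
    have hb : b = 0 := by simpa using h2
    rw [hb, C.e_zero])

theorem mk'_apply [Fintype F] (f : F →+ F) (l : Fˣ) (σ : F ≃+* F) (a b : F) :
    C.mk' f l σ (C.e (a, b)) = C.e (l * σ a, f a + τ.θ l * l * σ b) := by
  simp [mk']

theorem mk'_inj [Fintype F] {f f' : F →+ F} {l l' : Fˣ} {σ σ' : F ≃+* F}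
    (h : C.mk' f l σ = C.mk' f' l' σ') : f = f' ∧ l = l' ∧ σ = σ' := by
  have key : ∀ a, (l : F) * σ a = l' * σ' a ∧ f a = f' a := by
    intro a
    have := DFunLike.congr_fun h (C.e (a, 0))
    rw [C.mk'_apply, C.mk'_apply] at this
    simpa using C.e_inj this
  have hl : l = l' := Units.ext (by simpa using (key 1).1)
  subst hl
  refine ⟨AddMonoidHom.ext fun a => (key a).2, rfl, RingEquiv.ext fun a => ?_⟩
  exact mul_left_cancel₀ l.ne_zero (key a).1

theorem mk'_surj [Fintype F] (h4 : 4 < Fintype.card F) (α : MulAut S) :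
    ∃ f l σ, α = C.mk' f l σ := by
  have := τ.charP
  let φ : F → F := fun a => (C.e.symm (α (C.e (a, 0)))).1
  let f : F → F := fun a => (C.e.symm (α (C.e (a, 0)))).2
  let ψ : F → F := fun b => (C.e.symm (α (C.e (0, b)))).2
  have h1 : ∀ a, α (C.e (a, 0)) = C.e (φ a, f a) := fun a => by simp [φ, f]
  have h2 : ∀ b, α (C.e (0, b)) = C.e (0, ψ b) := by
    intro b
    have h3 : α (C.e (0, b)) = C.e ((C.e.symm (α (C.e (0, b)))).1, ψ b) := by simp [ψ]
    have h4 : (C.e.symm (α (C.e (0, b)))).1 = 0 := by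
      apply C.eq_zero_of_sq (b := ψ b)
      rw [← h3, ← map_mul, C.e_sq, mul_zero, C.e_zero, map_one]
    rw [h3, h4]
  have h3 : ∀ a b, α (C.e (a, b)) = C.e (φ a, f a + ψ b) := by
    intro a b
    rw [C.e_split, map_mul, h1, h2, C.mul]; simp
  have hψ : ∀ b d, ψ (b + d) = ψ b + ψ d := by
    intro b d
    have := C.mul 0 b 0 d
    apply_fun α at this
    rw [map_mul, h2, h2, C.mul] at this
    simp only [add_zero, mul_zero, h2] at this
    exact (C.e_inj this).2.symm
  have hφf : ∀ a c, φ (a + c) = φ a + φ c ∧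
      f (a + c) + ψ (τ.θ a * c) = f a + f c + τ.θ (φ a) * φ c := by
    intro a c
    have := C.mul a 0 c 0
    apply_fun α at this
    rw [map_mul, h1, h1, C.mul, h3] at this
    simp only [add_zero, zero_add] at this
    exact ⟨(C.e_inj this).1.symm, (C.e_inj this).2.symm⟩
  have hsq : ∀ a, ψ (τ.θ a * a) = τ.θ (φ a) * φ a := by
    intro a
    have := C.e_sq a 0
    apply_fun α at this
    rw [map_mul, h1, C.e_sq, h2] at this
    exact (C.e_inj this).2.symm
  have hne : φ 1 ≠ 0 := by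
    intro h
    have : C.e (1, 0) * C.e (1, 0) = 1 := by
      apply α.injective
      rw [map_mul, h1, h, C.e_sq, mul_zero, C.e_zero, map_one]
    exact one_ne_zero (C.eq_zero_of_sq this)
  let t : F ≃+* F := RingEquiv.ofBijective τ.θ ⟨τ.θ.injective, τ.θ_surj⟩
  have ht : t * t = Fr F := RingEquiv.ext fun x => by
    rw [Fr_apply, ← sq x]; exact τ.θθ x
  obtain ⟨l, σ, hl⟩ := monomial (by rwa [Nat.card_eq_fintype_card]) ht
    (AddMonoidHom.mk' φ fun a c => (hφf a c).1) (AddMonoidHom.mk' ψ hψ) hne hsq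
  simp only [AddMonoidHom.mk'_apply] at hl
  have hl0 : l ≠ 0 := by
    rintro rfl
    exact hne (by rw [hl, zero_mul])
  have hσ : ∀ a, σ (τ.θ a) = τ.θ (σ a) := fun a => τ.aut_θ σ a
  have hψ' : ∀ b, ψ b = τ.θ l * l * σ b := by
    intro b
    obtain ⟨a, rfl⟩ := τ.θ_mul_surj b
    simp only [hsq, hl, map_mul, hσ]
    ring
  have hf : ∀ a c, f (a + c) = f a + f c := by
    intro a c
    have := (hφf a c).2
    rw [hψ', hl, hl, map_mul, map_mul, hσ] at this
    linear_combination this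
  refine ⟨AddMonoidHom.mk' f hf, Units.mk0 l hl0, σ, MulEquiv.ext fun x => ?_⟩
  obtain ⟨⟨a, b⟩, rfl⟩ := C.e.surjective x
  rw [C.mk'_apply, h3, hl, hψ']
  rfl

theorem card_addHom [Fintype F] {n : ℕ} (hF : Fintype.card F = 2 ^ n) [CharP F 2] :
    Nat.card (F →+ F) = 2 ^ (n ^ 2) ∧ Nat.card (F ≃+* F) = n := by
  let _ : Algebra (ZMod 2) F := ZMod.algebra F 2
  have hn : Nat.card (F ≃+* F) = n := by
    rw [FieldAut.card_aut 2, finrank_zmod_two (by rw [Nat.card_eq_fintype_card, hF])]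
  refine ⟨?_, hn⟩
  have := finite_aut (F := F)
  let _ : Fintype (F ≃+* F) := Fintype.ofFinite _
  let g : ((F ≃+* F) → F) → (F →+ F) := fun c => AddMonoidHom.mk' (fun x => ∑ σ, c σ * σ x)
    (fun x y => by simp only [map_add, mul_add, Finset.sum_add_distrib])
  have hg : Function.Bijective g := by
    refine ⟨fun c d h => sum_aut_inj fun x => DFunLike.congr_fun h x, fun f => ?_⟩
    obtain ⟨c, hc⟩ := exists_sum_aut f
    exact ⟨c, AddMonoidHom.ext fun x => (hc x).symm⟩
  rw [← Nat.card_congr (Equiv.ofBijective g hg), Nat.card_fun, hn, Nat.card_eq_fintype_card, hF,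
    ← pow_mul, sq]

include C in
theorem card_aut [Fintype F] {n : ℕ} (hF : Fintype.card F = 2 ^ n) (h4 : 4 < Fintype.card F) :
    Nat.card (MulAut S) = 2 ^ (n ^ 2) * (n * (2 ^ n - 1)) := by
  have := τ.charP
  have hb : Function.Bijective (fun p : (F →+ F) × (F ≃+* F) × Fˣ => C.mk' p.1 p.2.2 p.2.1) := by
    refine ⟨fun p q h => ?_, fun α => ?_⟩
    · obtain ⟨h1, h2, h3⟩ := C.mk'_inj h
      exact Prod.ext h1 (Prod.ext h3 h2)
    · obtain ⟨f, l, σ, rfl⟩ := C.mk'_surj h4 α
      exact ⟨(f, σ, l), rfl⟩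
  rw [← Nat.card_congr (Equiv.ofBijective _ hb), Nat.card_prod, Nat.card_prod,
    (card_addHom hF).1, (card_addHom hF).2, Nat.card_units, Nat.card_eq_fintype_card, hF]

/-- The central automorphisms. -/
noncomputable def cen [Fintype F] : Multiplicative (F →+ F) →* MulAut S :=
  MonoidHom.mk' (fun f => C.mk' f.toAdd 1 1) fun f g => MulEquiv.ext fun x => by
    obtain ⟨⟨a, b⟩, rfl⟩ := C.e.surjective x
    simp only [MulAut.mul_apply, C.mk'_apply, toAdd_mul, AddMonoidHom.add_apply, Units.val_one,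
      map_one, one_mul, RingAut.one_apply, add_assoc]

theorem cen_inj [Fintype F] : Function.Injective C.cen := fun f g h =>
  Multiplicative.toAdd.injective (C.mk'_inj h).1

theorem mem_range_cen [Fintype F] (h4 : 4 < Fintype.card F) {α : MulAut S} :
    α ∈ C.cen.range ↔ ∀ x, (C.e.symm (α x)).1 = (C.e.symm x).1 := by
  constructor
  · rintro ⟨f, rfl⟩ x
    obtain ⟨⟨a, b⟩, rfl⟩ := C.e.surjective x
    change (C.e.symm (C.mk' f.toAdd 1 1 (C.e (a, b)))).1 = _
    simp [C.mk'_apply]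
  · intro h
    obtain ⟨f, l, σ, rfl⟩ := C.mk'_surj h4 α
    have key : ∀ a, (l : F) * σ a = a := by
      intro a
      have := h (C.e (a, 0))
      simpa [C.mk'_apply] using this
    have hl : l = 1 := Units.ext (by simpa using key 1)
    subst hl
    have hσ : σ = 1 := RingEquiv.ext fun a => by simpa using key a
    subst hσ
    exact ⟨Multiplicative.ofAdd f, rfl⟩

theorem normal_range_cen [Fintype F] (h4 : 4 < Fintype.card F) : C.cen.range.Normal := by
  refine ⟨fun α hα β => ?_⟩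
  rw [C.mem_range_cen h4] at hα ⊢
  intro x
  obtain ⟨y, rfl⟩ := β.surjective x
  obtain ⟨f, l, σ, rfl⟩ := C.mk'_surj h4 β
  have h := hα y
  simp only [MulAut.mul_apply, MulAut.inv_apply, MulEquiv.symm_apply_apply]
  obtain ⟨⟨a, b⟩, rfl⟩ := C.e.surjective y
  obtain ⟨⟨c, d⟩, hcd⟩ := C.e.surjective (α (C.e (a, b)))
  rw [← hcd] at h ⊢
  simp only [Equiv.symm_apply_apply] at h
  simp only [C.mk'_apply, Equiv.symm_apply_apply, h]

include C in
theorem main [Fintype F] {n : ℕ} (hF : Fintype.card F = 2 ^ n) (h4 : 4 < Fintype.card F)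
    (hn : Odd n) :
    Cfsg.IsElementaryAbelian 2 (Cfsg.pCore 2 (MulAut S)) ∧
      Nat.card (Cfsg.pCore 2 (MulAut S)) = 2 ^ (n ^ 2) ∧
      Nat.card (MulAut S) = 2 ^ (n ^ 2) * (n * (2 ^ n - 1)) := by
  have := τ.charP
  have : Finite S := Finite.of_equiv _ C.e
  have hK : Nat.card C.cen.range = 2 ^ (n ^ 2) := by
    rw [← (card_addHom hF).1]
    exact (Nat.card_congr (MonoidHom.ofInjective C.cen_inj).toEquiv).symm
  have hle : C.cen.range ≤ Cfsg.pCore 2 (MulAut S) :=
    Solv.le_pCore (C.normal_range_cen h4) (IsPGroup.of_card hK)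
  have heq : C.cen.range = Cfsg.pCore 2 (MulAut S) := by
    apply Subgroup.eq_of_le_of_card_ge hle
    obtain ⟨k, hk⟩ := (IsPGroup.iff_card).1 (Solv.pCore_isPGroup 2 (MulAut S))
    have hd := Subgroup.card_subgroup_dvd_card (Cfsg.pCore 2 (MulAut S))
    rw [hk, C.card_aut hF h4] at hd
    have hodd : Odd (n * (2 ^ n - 1)) := by
      refine hn.mul (Nat.Even.sub_odd Nat.one_le_two_pow ?_ odd_one)
      exact (Nat.even_pow.2 ⟨even_two, hn.pos.ne'⟩)
    have hc : Nat.Coprime (2 ^ k) (n * (2 ^ n - 1)) :=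
      Nat.Coprime.pow_left _ (Nat.coprime_two_left.2 hodd)
    rw [hk, hK]
    exact Nat.le_of_dvd (by positivity) (hc.dvd_of_dvd_mul_right hd)
  rw [← heq]
  refine ⟨⟨⟨⟨?_⟩⟩, ?_⟩, hK, C.card_aut hF h4⟩
  · rintro ⟨_, f, rfl⟩ ⟨_, g, rfl⟩
    apply Subtype.ext
    change C.cen f * C.cen g = C.cen g * C.cen f
    rw [← map_mul, ← map_mul, mul_comm]
  · rintro _ ⟨f, rfl⟩
    rw [← map_pow]
    have : f ^ 2 = 1 := by
      apply Multiplicative.toAdd.injective
      ext x
      simp [two_nsmul, add_self τ]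
    rw [this, map_one]

end Crd

end Cfsg.Lib.Known.SzAut
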