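import Mathlib
import Cfsg.Agent.Known.GL2Mat
import Cfsg.Agent.Known.GLDet
import Cfsg.Agent.Known.Eig

/-!
Factorisation of `2 × 2` matrices into two factors with prescribed trace and determinant.
-/

namespace Cfsg.Lib.Known.GL2

open Matrix Polynomial

variable {F : Type*} [Field F] {τ δ ε : F} {A A' : M2 F}

/-- `A = B * H` with `B` of trace `τ` and determinant `δ`, `H` of trace `τ ε / δ` and determinant
`ε ^ 2 / δ`. -/
def Fac (τ δ ε : F) (A : M2 F) : Prop :=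
  A.det = ε ^ 2 ∧ ∃ B : M2 F, B.trace = τ ∧ B.det = δ ∧ (B * A).trace = τ * (A.trace - ε)

theorem Fac.conj (h : Fac τ δ ε A) {x : M2 F} (hx : x.det ≠ 0) (e : x * A = A' * x) :
    Fac τ δ ε A' := by
  obtain ⟨h1, B, h2, h3, h4⟩ := h
  have e' : x * B = x * B * x⁻¹ * x := by rw [nonsing_inv_mul_cancel_right _ _ hx.isUnit]
  refine ⟨det_eq_of_conj hx e ▸ h1, x * B * x⁻¹, trace_eq_of_conj hx e' ▸ h2,
    det_eq_of_conj hx e' ▸ h3, ?_⟩
  rw [← trace_eq_of_conj hx e, ← h4]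
  exact (trace_eq_of_conj hx (by rw [← mul_assoc, e', mul_assoc _ x, e, ← e', mul_assoc _ A'])).symm

theorem fac_smul_one (τ δ ε : F) : Fac τ δ ε (ε • (1 : M2 F)) :=
  ⟨by simp, !![0, -δ; 1, τ], by simp, by simp [det_fin_two], by simp; ring⟩

theorem fac_of_not_isScal [Finite F] (δ : F) (hτ : τ ≠ 0) (hε : ε ≠ 0) (hA : ¬ IsScal A)
    (hd : A.det = ε ^ 2) (ht : A.trace ≠ 2 * ε) : Fac τ δ ε A := by
  obtain ⟨x, hx, e⟩ := exists_conj_companion hA
  refine Fac.conj ?_ hx e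
  obtain ⟨σ, hσ⟩ : ∃ σ, A.trace = σ * ε := ⟨_, (div_mul_cancel₀ _ hε).symm⟩
  have h2 : σ - 2 ≠ 0 := fun h => ht (by rw [hσ, sub_eq_zero.mp h])
  obtain ⟨a, b, h⟩ : ∃ a b : F, a ^ 2 - σ * a * b + b ^ 2 - τ * (a - b) + δ = 0 := by
    by_cases h3 : σ + 2 = 0
    · have h4 : (2 : F) ≠ 0 := fun h => h2 (by linear_combination h3 - 2 * h)
      refine ⟨δ / (2 * τ), -(δ / (2 * τ)), ?_⟩
      rw [show σ = -2 by linear_combination h3]
      field_simp
      ring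
    · obtain ⟨u, v, h⟩ := exists_norm_eq (t := -σ) (d := 1)
        (fun h => mul_ne_zero h2 h3 (by linear_combination h)) (τ ^ 2 / (σ + 2) - δ)
      refine ⟨τ / (σ + 2) + u, -(τ / (σ + 2)) + v, ?_⟩
      field_simp at h ⊢
      linear_combination (σ + 2) * h
  rw [hd, hσ]
  refine ⟨by simp [det_fin_two], !![a, ε * b; (τ + b - a * σ) / ε, τ - a], by simp, ?_, ?_⟩
  · rw [det_fin_two_of]
    field_simp
    linear_combination -h
  · simp [trace_fin_two]
    field_simp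
    ring

theorem exists_fac_col [Finite F] (δ : F) (hτ : τ ≠ 0) (hε : ε ≠ 0) {a c : F} (h : a ≠ 0 ∨ c ≠ 0) :
    ∃ b d, Fac τ δ ε !![a, b; c, d] := by
  by_cases hc : c = 0
  · subst hc
    have ha := h.resolve_right fun h => h rfl
    by_cases h1 : a = ε
    · exact ⟨0, ε, by convert fac_smul_one τ δ ε using 1; ext i j; fin_cases i <;> fin_cases j <;> simp [h1]⟩
    · refine ⟨1, ε ^ 2 / a, fac_of_not_isScal δ hτ hε (by simp [IsScal])
        (by simp [det_fin_two]; field_simp) fun h => h1 (sub_eq_zero.mp (pow_eq_zero_iff two_ne_zero |>.mp ?_))⟩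
      simp at h
      field_simp at h
      linear_combination h
  · exact ⟨(a * (2 * ε + 1 - a) - ε ^ 2) / c, 2 * ε + 1 - a, fac_of_not_isScal δ hτ hε
      (by simp [IsScal, hc]) (by simp [det_fin_two]; field_simp; ring) (by simp)⟩

theorem exists_fac_mulVec [Finite F] (δ : F) (hτ : τ ≠ 0) (hε : ε ≠ 0) {k m : Fin 2 → F}
    (hk : k ≠ 0) (hm : m ≠ 0) : ∃ A, Fac τ δ ε A ∧ A *ᵥ k = m := by
  obtain ⟨x, hx, h1⟩ : ∃ x : M2 F, x.det ≠ 0 ∧ x *ᵥ ![1, 0] = k := by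
    by_cases h : k 0 = 0
    · exact ⟨!![0, 1; k 1, 0], by simpa [det_fin_two] using fun h' => hk (by
        ext i; fin_cases i <;> simp [h, h']), by ext i; fin_cases i <;> simp [h]⟩
    · exact ⟨!![k 0, 0; k 1, 1], by simpa [det_fin_two], by ext i; fin_cases i <;> simp⟩
  obtain ⟨n, rfl⟩ : ∃ n, x *ᵥ n = m :=
    ⟨x⁻¹ *ᵥ m, by rw [mulVec_mulVec, mul_nonsing_inv _ hx.isUnit, one_mulVec]⟩
  obtain ⟨b, d, h3⟩ := exists_fac_col δ hτ hε (a := n 0) (c := n 1) (by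
    by_contra! h
    exact hm (by rw [show n = 0 by ext i; fin_cases i <;> simp [h], mulVec_zero]))
  refine ⟨_, h3.conj hx (nonsing_inv_mul_cancel_right _ _ hx.isUnit).symm, ?_⟩
  rw [← h1, mulVec_mulVec, nonsing_inv_mul_cancel_right _ _ hx.isUnit, ← mulVec_mulVec]
  congr 1
  ext i; fin_cases i <;> simp

theorem charpoly_eq_of_trace_det (h1 : A.trace = τ) (h2 : A.det = δ) :
    A.charpoly = X ^ 2 - C τ * X + C δ := by rw [charpoly_fin_two, h1, h2]

theorem Fac.exists_mul (h : Fac τ δ ε A) (hδ : δ ≠ 0) : ∃ B H : M2 F, A = B * H ∧ B.trace = τ ∧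
    B.det = δ ∧ H.trace = τ * ε / δ ∧ H.det = ε ^ 2 / δ := by
  obtain ⟨h1, B, h2, h3, h4⟩ := h
  refine ⟨B, δ⁻¹ • (B.adjugate * A), ?_, h2, h3, ?_, ?_⟩
  · rw [mul_smul_comm, ← mul_assoc, mul_adjugate, h3, smul_mul_assoc, smul_smul,
      inv_mul_cancel₀ hδ, one_smul, one_mul]
  · rw [trace_smul, adjugate_eq_trace_sub, sub_mul, trace_sub, h4, smul_mul_assoc, trace_smul, h2]
    simp only [one_mul, smul_eq_mul]
    field_simp
    ring
  · rw [det_smul, det_mul, det_adjugate_two, h1, h3]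
    simp
    field_simp

theorem exists_roots (τ δ : F) : ∃ α β : Ec F, α + β = algebraMap F _ τ ∧ α * β = algebraMap F _ δ := by
  obtain ⟨α, h⟩ := IsAlgClosed.exists_aeval_eq_zero (Ec F) (X ^ 2 - C τ * X + C δ) (by
    rw [show (X ^ 2 - C τ * X + C δ : F[X]).degree = 2 by compute_degree!]; decide)
  exact ⟨α, algebraMap F _ τ - α, by ring, by simp at h; linear_combination -h⟩

theorem squarefree_of_map {f : F[X]} {n : ℕ} (a : Fin n → Ec F) (ha : Function.Injective a)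
    (h : f.map (algebraMap F (Ec F)) = ∏ i, (X - C (a i))) : Squarefree f :=
  ((separable_map (algebraMap F (Ec F))).mp (h ▸ separable_prod_X_sub_C_iff.mpr ha)).squarefree

theorem snd_eq_one_of_charpoly {n : Type*} [Fintype n] [DecidableEq n] {M : Matrix n n F}
    (h : Squarefree M.charpoly) : ∀ x ∈ elDivM M, x.2 = 1 :=
  elDivM_snd_eq_one_of_squarefree h M.aeval_self_charpoly

theorem exists_tau [Fintype F] (h2 : (2 : F) ≠ 0) : ∃ τ : F, τ ≠ 0 ∧ τ ^ 2 + 4 ≠ 0 := by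
  by_cases h : (1 : F) ^ 2 + 4 = 0
  · exact ⟨2, h2, fun h' => one_ne_zero (α := F) (by linear_combination 2 * h' - 3 * h)⟩
  · exact ⟨1, one_ne_zero, h⟩

theorem fromBlocks_eq_mul {n : Type*} [Fintype n] [DecidableEq n] {B H : M2 F} (hB : B.det ≠ 0)
    (hH : H.det ≠ 0) (b : Matrix (Fin 2) n F) (c : Matrix n (Fin 2) F) {d e e' : Matrix n n F}
    (h : c * (H⁻¹ * (B⁻¹ * b)) + e * e' = d) : fromBlocks (B * H) b c d =
      fromBlocks B 0 (c * H⁻¹) e * fromBlocks H (B⁻¹ * b) 0 e' := by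
  simp [fromBlocks_multiply, ← h, Matrix.mul_assoc, mul_nonsing_inv_cancel_left _ _ hB.isUnit,
    nonsing_inv_mul _ hH.isUnit]

end Cfsg.Lib.Known.GL2
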