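import Cfsg.Agent.Known.UCommMain
import Cfsg.Agent.Class.HermSimple

/-!
Every element of a finite special unitary group `SU n q`, `n ≥ 3`, is a commutator, except for
`SU 3 2`.
-/

set_option autoImplicit false

namespace Cfsg.Lib.Known.UC

open Module Polynomial Function Cfsg.Lib.Class.Form

variable {F V W : Type*} [Field F] [AddCommGroup V] [Module F V] [AddCommGroup W] [Module F W]
  {σ : F →+* F} {B : V →ₛₗ[σ] V →ₗ[F] F} {B' : W →ₛₗ[σ] W →ₗ[F] F}

/-- Second block of a map. -/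
def bs (g : End F ((V × V) × W)) : End F V :=
  LinearMap.snd F V V ∘ₗ LinearMap.fst F _ W ∘ₗ g ∘ₗ LinearMap.inl F _ W ∘ₗ LinearMap.inl F V V

/-- Third block of a map. -/
def bn (g : End F ((V × V) × W)) : V →ₗ[F] W :=
  LinearMap.snd F _ W ∘ₗ g ∘ₗ LinearMap.inl F _ W ∘ₗ LinearMap.inl F V V

theorem apply_E (g : End F ((V × V) × W)) (x : V) : g ((x, 0), 0) = ((bl g x, bs g x), bn g x) := rfl

theorem Iso.rel {g : End F ((V × V) × W)} (hg : Iso (mB B B') g) (x y : V) :
    B (bl g x) (bs g y) + B (bs g x) (bl g y) + B' (bn g x) (bn g y) = 0 := by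
  simpa [apply_E] using hg ((x, 0), 0) ((y, 0), 0)

theorem exists_ker [FiniteDimensional F W] (hV : 2 ≤ finrank F V) (f : V →ₗ[F] W)
    (hf : finrank F W ≤ 1) : ∃ a ≠ 0, f a = 0 := by
  by_contra! t
  have := LinearMap.finrank_le_finrank_of_injective ((injective_iff_map_eq_zero f).2
    fun a ha => by_contra fun e => t a e ha)
  omega

variable [FiniteDimensional F V] [FiniteDimensional F W] (h : Herm B) (h' : Herm B')
  {g : End F ((V × V) × W)}
include h'

omit [FiniteDimensional F V] in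
theorem aniso (hW : finrank F W ≤ 1) {n : W} (hn : B' n n = 0) : n = 0 := by
  obtain ⟨v, hv⟩ := finrank_le_one_iff.1 hW
  refine h'.sep n fun m => ?_
  obtain ⟨c, rfl⟩ := hv n
  obtain ⟨d, rfl⟩ := hv m
  simp at hn ⊢
  tauto

include h

theorem var (g : End F ((V × V) × W)) (x a : V) (n : W) {b : F} (hb : b + σ b = B' n n) :
    ∃ g', IC (mB B B') g (mB B B') g' ∧ bs g' = bs g ∧ (∀ w, bl g' w = bl g w + B x (bs g w) • a -
      (B a (bs g w) + B' n (bn g w) + b * B x (bs g w)) • x) ∧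
      ∀ w, bn g' w = bn g w + B x (bs g w) • n := by
  let k := (herm_mB h h').eich (u := ((x, 0), 0)) (w := ((a, 0), n)) (by simp) (by simp) b
    (by simpa using hb)
  have k1 : ∀ w, k.1.symm ((w, 0), 0) = ((w, 0), 0) := fun w =>
    k.1.symm_apply_eq.2 (by simp [k, Herm.eich_apply])
  have k2 : ∀ w, k.1.conj g ((w, 0), 0) = k.1 ((bl g w, bs g w), bn g w) := fun w => by
    rw [LinearEquiv.conj_apply_apply, k1, apply_E]
  refine ⟨_, ic_conj k.1 (isom_apply k) g, LinearMap.ext fun w => ?_, fun w => ?_, fun w => ?_⟩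
  · refine (congrArg (·.1.2) (k2 w)).trans ?_
    simp [k, Herm.eich_apply]
  · refine (congrArg (·.1.1) (k2 w)).trans ?_
    simp [k, Herm.eich_apply]
  · refine (congrArg (·.2) (k2 w)).trans ?_
    simp [k, Herm.eich_apply]

variable (hW : finrank F W ≤ 1) (hg : Iso (mB B B') g)
include hW hg

theorem exists_inj : ∃ g', IC (mB B B') g (mB B B') g' ∧ bs g' = bs g ∧ Injective (bl g') := by
  induction e : LinearMap.ker (bl g) using WellFoundedLT.induction generalizing g with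
  | ind K ih =>
    subst e
    by_cases t : Injective (bl g)
    · exact ⟨g, .refl _, rfl, t⟩
    rw [injective_iff_map_eq_zero] at t
    push Not at t
    obtain ⟨w, h1, h0⟩ := t
    have h2 : bn g w = 0 := aniso h' hW (by simpa [h1] using hg.rel w w)
    have h3 : ∀ y, B (bs g w) (bl g y) = 0 := fun y => by simpa [h1, h2] using hg.rel w y
    have h4 : bs g w ≠ 0 := fun e => h0 (by
      simpa using injective_of_isometry (herm_hform (herm_mB h h')) hg
        (a₁ := ((w, 0), 0)) (a₂ := 0) (by simp [apply_E, h1, h2, e, Prod.mk_zero_zero]))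
    obtain ⟨x, hx⟩ := h.exists_ne h4
    have hx' := h.eq_zero_comm.not.1 hx
    obtain ⟨b, b0, hb⟩ := h.exists_trace_zero
    obtain ⟨g', k1, k2, k3, -⟩ := var h h' g x 0 0 (b := b) (by simpa using hb)
    refine (ih _ (SetLike.lt_iff_le_and_exists.2 ⟨fun y hy => ?_, w, h1, fun t => ?_⟩) (k1.iso hg)
      rfl).imp fun _ l => ⟨k1.trans l.1, l.2.1.trans k2, l.2.2⟩
    · have hy := (k3 y).symm.trans (LinearMap.mem_ker.1 hy)
      have := congrArg (B (bs g w)) hy
      simp [h3, hx, b0] at this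
      simpa [this] using hy
    · simpa [h3, hx, hx', b0] using congrArg (B (bs g w)) ((k3 w).symm.trans t)

omit h' hW hg [FiniteDimensional F W] in
theorem exists_mu (hl : Injective (bl g)) (hs : bs g ≠ 0) :
    ∃ x, B (bl g x) (bs g x) ≠ 0 := by
  by_contra! t
  obtain ⟨c, c0, hc⟩ := h.exists_trace_zero
  obtain ⟨d, hd⟩ := DFunLike.ne_iff.1 h.ne_id
  refine hs (LinearMap.ext fun w => h.sep' _ fun y => ?_)
  obtain ⟨y, rfl⟩ := LinearMap.injective_iff_surjective.1 hl y
  have a := t (y + w)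
  have b := t (y + d • w)
  simp [t] at a b
  exact mul_left_cancel₀ (sub_ne_zero.2 hd) (by
    rw [RingHom.id_apply]; linear_combination σ d * a - b)

theorem exists_det [Finite F] (hd : LinearMap.det g = 1) (hl : Injective (bl g)) (hs : bs g ≠ 0) :
    ∃ g', IC (mB B B') g (mB B B') g' ∧ bs g' = bs g ∧ LinearMap.det (bl g') = 1 := by
  obtain ⟨x, hx⟩ := exists_mu h hl hs
  have d0 : LinearMap.det (bl g) ≠ 0 := (LinearEquiv.ofInjectiveEndo _ hl).isUnit_det'.ne_zero
  have r := hg.rel x x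
  rw [← h.conj (bl g x)] at r
  set μ := B (bl g x) (bs g x) with hμ
  set d := LinearMap.det (bl g)
  have hx' := (map_ne_zero σ).2 hx
  have d0' := (map_ne_zero σ).2 d0
  obtain ⟨n, hn⟩ : ∃ n, B' n n = -((d * μ)⁻¹ + σ (d * μ)⁻¹) := by
    rcases Nat.le_one_iff_eq_zero_or_eq_one.1 hW with e | e
    · have := finrank_zero_iff.1 e
      let l := LinearEquiv.ofInjectiveEndo _ hl
      obtain ⟨M', hM⟩ := (herm_hform h).exists_inv_adj (g := l.symm.toLinearMap) l.symm.injective
      obtain ⟨a, a1, a2, a3⟩ := exists_witt h h' hg hl hM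
      have k1 := det_of_trivial h hW e a1 hM a3
      have k2 := det_of_trivial h hW e ((ic_swap _).iso (a1.mul hg)) (M := 1) (M' := 1)
        (by simp [HForm.adj_one]) fun y => by
          simp [a2, show l.symm (bl g y) = y from l.symm_apply_apply y]
      rw [← (sim_conj _ _).det_eq, map_mul, hd, map_one, map_one, mul_one, mul_one] at k2
      rw [k2, one_mul, LinearEquiv.det_coe_symm, map_inv₀, inv_inj] at k1
      refine ⟨0, ?_⟩
      rw [Subsingleton.elim (bn g x) 0] at r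
      simp only [map_zero, map_inv₀, map_mul, show σ d = d from k1] at r ⊢
      field_simp
      linear_combination r
    · have := nontrivial_of_finrank_eq_succ e
      obtain ⟨n, hn⟩ := exists_ne (0 : W)
      obtain ⟨c, hc⟩ := h'.exists_smul_norm_eq (w := n) (fun t => hn (aniso h' hW t))
        (μ := -((d * μ)⁻¹ + σ (d * μ)⁻¹)) (by simp [h.invol, add_comm])
      exact ⟨_, hc⟩
  obtain ⟨g', k1, k2, k3, -⟩ := var h h' g (bl g x) 0 (n - μ⁻¹ • bn g x)
    (b := (1 - B' (n - μ⁻¹ • bn g x) (bn g x) - d⁻¹) / μ) (by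
      have := h'.conj (bn g x) (bn g x)
      simp [h'.conj, hn, h.invol, show B' (bn g x) (bn g x) = -(μ + σ μ) by linear_combination r]
      field_simp
      ring)
  refine ⟨g', k1, k2, ?_⟩
  rw [show bl g' = bl g * LinearMap.transvection (-(B' (n - μ⁻¹ • bn g x) ∘ₗ bn g +
    ((1 - B' (n - μ⁻¹ • bn g x) (bn g x) - d⁻¹) / μ) • B (bl g x) ∘ₗ bs g)) x from
      LinearMap.ext fun w => by simp [k3, LinearMap.transvection.apply]; module, map_mul,
    LinearMap.transvection.det]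
  simp [← hμ]
  field_simp
  ring

omit hW hg in
theorem var2 {x a : V} {b : F} (hb : b + σ b = 0) (h1 : B (bl g x) (bs g a) = 0)
    (h2 : B (bl g a) (bs g x) = 0) (h3 : (b - B (bl g a) (bs g a)) * B (bl g x) (bs g x) = 0) :
    ∃ g', IC (mB B B') g (mB B B') g' ∧ LinearMap.det (bl g') = LinearMap.det (bl g) ∧
      ∀ w, bl g' w = bl g (w + B (bl g x) (bs g w) • a -
        (B (bl g a) (bs g w) + b * B (bl g x) (bs g w)) • x) := by
  obtain ⟨g', k1, -, k3, -⟩ := var h h' g (bl g x) (bl g a) 0 (b := b) (by simpa using hb)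
  refine ⟨g', k1, ?_, fun w => by simp [k3]⟩
  rw [show bl g' = bl g * (LinearMap.transvection (-((B (bl g a) + (b - B (bl g a) (bs g a)) •
    B (bl g x)) ∘ₗ bs g)) x * LinearMap.transvection (B (bl g x) ∘ₗ bs g) a) from
      LinearMap.ext fun w => by simp [k3, LinearMap.transvection.apply, h1]; module, map_mul,
    map_mul, LinearMap.transvection.det, LinearMap.transvection.det]
  simp [h1, h2, h3]

theorem exists_nonscalar (hV : 2 ≤ finrank F V) (hd : LinearMap.det (bl g) = 1) (hs : bs g ≠ 0) :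
    ∃ g', IC (mB B B') g (mB B B') g' ∧ LinearMap.det (bl g') = 1 ∧
      ¬ ∃ c : F, ∀ x, bl g' x = c • x := by
  by_cases t : ∃ c : F, ∀ x, bl g x = c • x
  swap
  · exact ⟨g, .refl _, hd, t⟩
  obtain ⟨c, hc⟩ := t
  have hl : Injective (bl g) :=
    ((End.isUnit_iff _).1 ((LinearMap.isUnit_iff_isUnit_det _).2 (hd ▸ isUnit_one))).1
  obtain ⟨a, a0, ha⟩ := exists_ker hV (bn g) hW
  have sk : ∀ x, B (bl g x) (bs g a) = -σ (B (bl g a) (bs g x)) := fun x => by
    rw [h.conj]; simpa [ha, eq_neg_iff_add_eq_zero] using hg.rel x a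
  suffices ∃ x a b, b + σ b = 0 ∧ B (bl g x) (bs g a) = 0 ∧ B (bl g a) (bs g x) = 0 ∧
      (b - B (bl g a) (bs g a)) * B (bl g x) (bs g x) = 0 ∧ ¬ ∃ e : F, ∀ w, w + B (bl g x) (bs g w) • a
        - (B (bl g a) (bs g w) + b * B (bl g x) (bs g w)) • x = e • w by
    obtain ⟨x, a, b, h1, h2, h3, h4, h5⟩ := this
    obtain ⟨g', k1, k2, k3⟩ := var2 h h' h1 h2 h3 h4
    refine ⟨g', k1, k2.trans hd, fun ⟨e, he⟩ => h5 ⟨e / c, fun w => hl ?_⟩⟩
    have : c ≠ 0 := by rintro rfl; exact a0 (hl (by simp [hc]))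
    rw [← k3, he, hc, smul_smul, mul_div_cancel₀ _ this]
  by_cases t : ∀ w, B (bl g a) (bs g w) = 0
  · obtain ⟨x, hx⟩ := exists_mu h hl hs
    refine ⟨x, a, 0, by simp, by simp [sk x, t], t x, by simp [t], fun ⟨e, he⟩ => ?_⟩
    obtain rfl : 1 = e := smul_left_injective F a0 (by simpa [sk x, t] using he a)
    simpa [t, hx, a0] using he x
  push Not at t
  obtain ⟨w, hw⟩ := t
  by_cases t : B (bl g a) (bs g a) = 0
  · obtain ⟨b, b0, hb⟩ := h.exists_trace_zero
    refine ⟨a, 0, b, hb, by simp, by simp, by simp [t], fun ⟨e, he⟩ => ?_⟩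
    obtain rfl : 1 = e := smul_left_injective F a0 (by simpa [t] using he a)
    simpa [hw, b0, a0] using he w
  obtain ⟨x, x0, hx⟩ := exists_ker hV (B (bl g a) ∘ₗ bs g) (by simp)
  replace hx : B (bl g a) (bs g x) = 0 := hx
  refine ⟨x, a, B (bl g a) (bs g a), eq_neg_iff_add_eq_zero.1 (sk a), by simp [sk x, hx], hx, by simp,
    fun ⟨e, he⟩ => ?_⟩
  have k := he a
  simp only [sk x, hx, map_zero, neg_zero, zero_smul, add_zero, mul_zero] at k
  obtain rfl : 1 = e := mul_right_cancel₀ t (by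
    simpa [hx] using congrArg (fun y => B (bl g a) (bs g y)) k)
  simp [t, x0] at k

theorem exists_s_ne [Finite F] [Nontrivial V] (hs : ¬ ∃ c : F, ∀ v, g v = c • v) :
    ∃ g', IC (mB B B') g (mB B B') g' ∧ bs g' ≠ 0 := by
  have hB := herm_mB h h'
  obtain ⟨v, hv, h1⟩ : ∃ v, mB B B' v v = 0 ∧ ∀ a : F, g v ≠ a • v := by
    by_contra! t
    exact hs (hB.exists_eq_smul_of_isotropic (by
      have := finrank_pos (R := F) (M := V); simp; omega) g t)
  obtain ⟨e, e0⟩ := exists_ne (0 : V)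
  obtain ⟨k, hk⟩ := hB.witt_one (x := v) (y := ((e, 0), 0)) (by rintro rfl; simpa using h1 0)
    (by simp [e0]) (by rw [hv]; simp)
  have h2 := ic_conj k.1 (isom_apply k) g
  have h3 : ∀ a : F, k.1.conj g ((e, 0), 0) ≠ a • ((e, 0), 0) := fun a t => h1 a (k.1.injective (by
    simpa [← hk] using t))
  generalize k.1.conj g = g' at h2 h3
  by_cases h4 : bs g' = 0
  swap
  · exact ⟨g', h2, h4⟩
  have h5 : bn g' e = 0 := aniso h' hW (by simpa [h4] using (h2.iso hg).rel e e)
  obtain ⟨f, hf⟩ := h.exists_forall_eq (x := ![e, bl g' e]) ((LinearIndependent.pair_iff' e0).2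
    fun a t => h3 a (by simp [apply_E, h4, h5, ← t])) ![0, 1]
  have f1 : B f e = 0 := hf 0
  have f2 : B f (bl g' e) = 1 := hf 1
  obtain ⟨b, b0, hb⟩ := h.exists_trace_zero
  let t := hB.transv ((0, f), 0) (by simp) b hb
  refine ⟨_, h2.trans (ic_conj t.1 (isom_apply t) g'), fun z => ?_⟩
  have k1 : t.1.symm ((e, 0), 0) = ((e, 0), 0) :=
    t.1.symm_apply_eq.2 (by simp [t, Herm.transv_apply, f1])
  have k2 : (t.1.conj g' ((e, 0), 0)).1.2 = 0 := LinearMap.congr_fun z e
  rw [LinearEquiv.conj_apply_apply, k1, apply_E] at k2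
  simp [t, Herm.transv_apply, h4, f2, b0] at k2
  simp [k2] at f2

theorem cm_nonscalar [Finite F] [Nontrivial V]
    (hV : finrank F V = 1 → finrank F W ≠ 0 ∧ ∃ a : F, σ a = a ∧ a ≠ 0 ∧ a ≠ 1)
    (hd : LinearMap.det g = 1) (hs : ¬ ∃ c : F, ∀ v, g v = c • v) : Cm (mB B B') g := by
  obtain ⟨g₁, a1, a2⟩ := exists_s_ne h h' hW hg hs
  obtain ⟨g₂, b1, b2, b3⟩ := exists_inj h h' hW (a1.iso hg)
  have c0 := a1.trans b1
  obtain ⟨g₃, c1, c2, c3⟩ := exists_det h h' hW (c0.iso hg) (c0.sim.det_eq ▸ hd) b3 (b2 ▸ a2)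
  replace c0 := c0.trans c1
  by_cases hk : finrank F V = 1
  · obtain ⟨a, d1, d2, d3⟩ := (hV hk).2
    obtain ⟨δ, hδ⟩ := h.exists_norm_eq d1
    obtain ⟨t, ht⟩ := exists_scalar hk.le (bl g₃)
    have e : bl g₃ = t • 1 := LinearMap.ext ht
    refine c0.cm (cm_of_fac h hW h' (fun t => (hV t).1) (c0.iso hg) (c0.sim.det_eq ▸ hd) c3 ?_)
    rw [e, show t = 1 by simpa [e, hk] using c3, one_smul]
    exact fac_one hk (δ := δ) (by rintro rfl; exact d2 (by simpa using hδ.symm)) (hδ ▸ d3)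
  have hk' : 2 ≤ finrank F V := by have := finrank_pos (R := F) (M := V); omega
  obtain ⟨g₄, d1, d2, d3⟩ := exists_nonscalar h h' hW (c0.iso hg) hk' c3 (c2 ▸ b2 ▸ a2)
  replace c0 := c0.trans d1
  refine c0.cm (cm_of_fac h hW h' (fun t => absurd t hk) (c0.iso hg) (c0.sim.det_eq ▸ hd) d2 ?_)
  simpa using fac_of_nonscalar (LinearMap.equivOfIsUnitDet (d2 ▸ isUnit_one :
    IsUnit (LinearMap.det (bl g₄)))) (by simpa using d2) (by simpa using d3) h.ne_id h.invol hk'

omit hW hg h h'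

/-- The orthogonal sum of copies of a form. -/
def piForm (ι : Type*) [Fintype ι] (B : V →ₛₗ[σ] V →ₗ[F] F) : (ι → V) →ₛₗ[σ] (ι → V) →ₗ[F] F :=
  ∑ j, pullForm B (LinearMap.proj j)

omit [FiniteDimensional F V] in
theorem piForm_apply {ι : Type*} [Fintype ι] (x y : ι → V) :
    piForm ι B x y = ∑ j, B (x j) (y j) := by simp [piForm, LinearMap.sum_apply]

omit [FiniteDimensional F V] in
theorem herm_piForm (h : Herm B) (ι : Type*) [Fintype ι] : Herm (piForm ι B) := by
  classical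
  refine herm_of_isSymm h.ne_id h.invol ⟨fun x y => by simp [piForm_apply, h.conj]⟩
    fun u hu => funext fun i => h.sep _ fun v => ?_
  simpa [piForm_apply, Pi.single_apply, apply_ite] using hu (Pi.single i v)

/-- The one-dimensional form. -/
def oneForm (σ : F →+* F) : F →ₛₗ[σ] F →ₗ[F] F := LinearMap.mul F F ∘ₛₗ σ.toSemilinearMap

@[simp] theorem oneForm_apply (x y : F) : oneForm σ x y = σ x * y := rfl

omit [FiniteDimensional F V] in
theorem herm_oneForm (h : Herm B) : Herm (oneForm σ) :=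
  herm_of_isSymm h.ne_id h.invol ⟨fun x y => by simp [h.invol, mul_comm]⟩
    fun u hu => by simpa using hu 1

variable [Finite F]

theorem cm_scalar_aux (h : Herm B) (h' : Herm B') {l : F} (hl : σ l * l = 1) {r : ℕ}
    (hd : finrank F V = (r + 1) * finrank F W) (h0 : finrank F W ≠ 0) {T : End F W} (hT : Iso B' T)
    (h1 : Sim (l ^ (r + 1) • T) T) (h2 : ∏ j : Fin (r + 1), LinearMap.det (l ^ (j : ℕ) • T) = 1)
    {N : ℕ} (n0 : (N : F) ≠ 0) (n1 : l ^ N = 1) (n2 : T ^ N = 1) : Cm B (l • 1) := by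
  have hB := herm_piForm h' (Fin (r + 1))
  obtain ⟨e, he⟩ := h.exists_isometry hB (by simp [hd, finrank_pi_fintype])
  refine IC.cm (g' := l • 1) ⟨e, he, by simp⟩ ?_
  have a1 : Iso (piForm (Fin (r + 1)) B') (piEnd fun j : Fin (r + 1) => l ^ (j : ℕ) • T) :=
    fun u v => by simp [piForm_apply, hT _ _, ← mul_assoc, ← mul_pow, mul_comm l, hl]
  refine cm_of_sim hB (fun u v => by simp [← mul_assoc, (mul_comm l _).trans hl]) a1 (by rwa [det_piEnd]) ?_
    fun μ hμ => ?_
  · refine Sim.trans ?_ (sim_piEnd_equiv (finRotate (r + 1)) _)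
    rw [show (piEnd fun j : Fin (r + 1) => l ^ (j : ℕ) • T) * l • 1 =
      piEnd fun j : Fin (r + 1) => l ^ ((j : ℕ) + 1) • T from
        LinearMap.ext fun p => funext fun j => by simp [pow_succ', mul_smul]]
    refine Sim.piEnd fun j => ?_
    induction j using Fin.lastCases with
    | last => simpa using h1
    | cast j => simpa using Sim.refl _
  · obtain ⟨x, hx⟩ := Multiset.exists_mem_of_ne_zero ((elDiv_eq_zero_iff
      (piEnd fun j : Fin (r + 1) => l ^ (j : ℕ) • T)).not.2 (by simp [finrank_pi_fintype, h0]))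
    obtain ⟨z, z1, z2, z3⟩ := herm_exists_commute_det hB a1 hx hμ
    refine ⟨z, z1, z2, ?_⟩
    rw [z3, elDiv_snd_eq_one_of_squarefree (separable_X_pow_sub_C 1 n0 one_ne_zero).squarefree ?_
      x hx, pow_one]
    rw [aeval_piEnd, piEnd_eq_zero_iff]
    intro j
    simp [_root_.smul_pow, n2, pow_right_comm l j, n1]

theorem cm_scalar (h : Herm B) {l : F} (hl : σ l * l = 1) {m : ℕ} (hm : finrank F V = m + 1)
    (h1 : l ^ (m + 1) = 1) : Cm B (l • 1) := by
  have := Fintype.ofFinite F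
  have h5 : l ≠ 0 := right_ne_zero_of_mul_eq_one hl
  have n0 : ((Fintype.card F - 1 : ℕ) : F) ≠ 0 := by
    rw [Nat.cast_sub Fintype.card_pos, FiniteField.cast_card_eq_zero]; simp
  have n1 := FiniteField.pow_card_sub_one_eq_one l h5
  have s1 : ∀ r : ℕ, (∑ j : Fin (r + 1), (j : ℕ)) * 2 = (r + 1) * r := fun r => by
    rw [Fin.sum_univ_eq_sum_range (fun j => j), Finset.sum_range_id_mul_two]; rfl
  by_cases h2 : l ^ (∑ j : Fin (m + 1), (j : ℕ)) = 1
  · exact cm_scalar_aux h (herm_oneForm h) hl (r := m) (by simp [hm]) (by simp) (T := 1)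
      (fun _ _ => rfl) (by rw [h1, one_smul]; exact Sim.refl _)
      (by simpa [Finset.prod_pow_eq_pow_sum] using h2) n0 n1 (one_pow _)
  obtain ⟨r, hr⟩ : ∃ r, m = 2 * r + 1 := by
    rcases Nat.even_or_odd' m with ⟨r, h | h⟩
    · refine absurd ?_ h2
      rw [show ∑ j : Fin (m + 1), (j : ℕ) = (m + 1) * r by have := s1 m; nlinarith, pow_mul, h1,
        one_pow]
    · exact ⟨r, h⟩
  have h3 : l ^ (r + 1) ≠ 1 := fun e => h2 (by
    rw [show ∑ j : Fin (m + 1), (j : ℕ) = (r + 1) * m by have := s1 m; nlinarith, pow_mul, e,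
      one_pow])
  have h4 : l ^ (r + 1) = -1 :=
    (sq_eq_one_iff.1 (by rw [← pow_mul, ← h1, hr]; congr 1; ring)).resolve_left h3
  refine cm_scalar_aux h (herm_piForm (herm_oneForm h) (Fin 2)) hl (r := r) (by simp [hm, hr]; ring)
    (by simp) (T := Matrix.toLin' !![0, l; 1, 0]) (fun u v => ?_) ?_ ?_
    (N := 2 * (Fintype.card F - 1)) ?_ (by rw [mul_comm, pow_mul, n1, one_pow]) ?_
  · simp [piForm_apply, dotProduct]
    linear_combination σ (u 1) * v 1 * hl
  · refine ⟨LinearEquiv.piCongrRight fun i => if i = 0 then LinearEquiv.neg F else .refl F F,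
      fun p => funext fun i => ?_⟩
    fin_cases i <;> simp [h4, Matrix.mulVec, dotProduct]
  · simp only [LinearMap.det_smul, LinearMap.det_toLin', Matrix.det_fin_two_of, finrank_fin_fun,
      Finset.prod_mul_distrib, Finset.prod_pow, Finset.prod_pow_eq_pow_sum, Finset.prod_const,
      Finset.card_univ, Fintype.card_fin]
    rw [← pow_mul, s1, pow_mul, h4, show (0 * 0 - l * 1 : F) = -1 * l by ring, mul_pow, h4]
    ring_nf
    simp
  · rw [Nat.cast_mul]
    exact mul_ne_zero (fun e => h3 (by rw [h4]; linear_combination -(e : (2 : F) = 0))) n0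
  · rw [pow_mul, show Matrix.toLin' !![0, l; 1, 0] ^ 2 = l • 1 from LinearMap.ext fun v =>
      funext fun i => by fin_cases i <;> simp [pow_two, Matrix.mulVec, dotProduct],
      _root_.smul_pow, n1]
    simp

theorem cm_of_det (h : Herm B) (hn : 3 ≤ finrank F V)
    (hex : finrank F V = 3 → ∃ a : F, σ a = a ∧ a ≠ 0 ∧ a ≠ 1) {g : End F V} (hg : Iso B g)
    (hd : LinearMap.det g = 1) : Cm B g := by
  by_cases hs : ∃ c : F, ∀ v, g v = c • v
  · obtain ⟨c, hc⟩ := hs
    obtain rfl : g = c • 1 := LinearMap.ext hc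
    have := nontrivial_of_finrank_pos (R := F) (M := V) (by omega)
    obtain ⟨v, hv⟩ := exists_ne (0 : V)
    obtain ⟨w, hw⟩ := h.exists_ne hv
    refine cm_scalar h (mul_right_cancel₀ hw ?_) (m := finrank F V - 1) (by omega) (by
      rw [Nat.sub_add_cancel (by omega)]; simpa using hd)
    simpa [← mul_assoc, mul_comm c, mul_right_comm _ _ c] using hg v w
  have h1 := herm_piForm (herm_oneForm h) (Fin (finrank F V / 2))
  have h2 := herm_piForm (herm_oneForm h) (Fin (finrank F V % 2))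
  obtain ⟨e, he⟩ := h.exists_isometry (herm_mB h1 h2) (by simp; omega)
  have k := ic_conj e he g
  have : Nonempty (Fin (finrank F V / 2)) := ⟨⟨0, by omega⟩⟩
  refine k.cm (cm_nonscalar h1 h2 (by simp; omega) (k.iso hg) (fun t => ?_) (k.sim.det_eq ▸ hd)
    fun ⟨c, hc⟩ => hs ⟨c, fun v => e.injective (by simpa using hc (e v))⟩)
  simp only [finrank_fin_fun] at t ⊢
  exact ⟨by omega, hex (by omega)⟩

theorem isCm_sIsom (h : Herm B) (hn : 3 ≤ finrank F V)
    (hex : finrank F V = 3 → ∃ a : F, σ a = a ∧ a ≠ 0 ∧ a ≠ 1) (g : sIsom B) : SC.IsCm g := by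
  obtain ⟨a, b, h1, h2, h3, h4, h5⟩ := cm_of_det h hn hex (g := g.1.1.toLinearMap) (isom_apply g.1)
    (by simpa using mem_sIsom'.1 g.2)
  let a' : sIsom B := ⟨h.ofLin a h1, mem_sIsom'.2 ((h.det_ofLin a h1).trans h3)⟩
  let b' : sIsom B := ⟨h.ofLin b h2, mem_sIsom'.2 ((h.det_ofLin b h2).trans h4)⟩
  have : b' * a' * g = a' * b' := Subtype.ext (isom_ext fun v => LinearMap.congr_fun h5 v)
  exact ⟨a'⁻¹, b'⁻¹, by rw [inv_inv, inv_inv, mul_assoc, ← this]; group⟩

end Cfsg.Lib.Known.UC
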