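import Cfsg.Agent.Known.UCommFac
import Cfsg.Agent.Known.FormProd
import Cfsg.Agent.Class.HermCenter

/-!
Commutators in special unitary groups through a pair of opposite maximal parabolic subgroups.
-/

set_option autoImplicit false

namespace Cfsg.Lib.Known.UC

open Module Polynomial Function Cfsg.Lib.Class.Form

variable {F V W : Type*} [Field F] [AddCommGroup V] [Module F V] [AddCommGroup W] [Module F W]
  {σ : F →+* F} {B : V →ₛₗ[σ] V →ₗ[F] F} {B' : W →ₛₗ[σ] W →ₗ[F] F}

/-- Isometries. -/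
def Iso (B : V →ₛₗ[σ] V →ₗ[F] F) (f : End F V) : Prop := ∀ u v, B (f u) (f v) = B u v

theorem Iso.mul {f g : End F V} (hf : Iso B f) (hg : Iso B g) : Iso B (f * g) :=
  fun u v => (hf _ _).trans (hg u v)

/-- Commutators of isometries of determinant one. -/
def Cm (B : V →ₛₗ[σ] V →ₗ[F] F) (g : End F V) : Prop := ∃ a b : End F V, Iso B a ∧ Iso B b ∧
  LinearMap.det a = 1 ∧ LinearMap.det b = 1 ∧ b * a * g = a * b

/-- Conjugacy under an isometry. -/
def IC (B : V →ₛₗ[σ] V →ₗ[F] F) (g : End F V) (B' : W →ₛₗ[σ] W →ₗ[F] F) (g' : End F W) : Prop :=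
  ∃ e : V ≃ₗ[F] W, (∀ u v, B' (e u) (e v) = B u v) ∧ ∀ v, e (g v) = g' (e v)

theorem ic_conj (e : V ≃ₗ[F] W) (he : ∀ u v, B' (e u) (e v) = B u v) (g : End F V) :
    IC B g B' (e.conj g) := ⟨e, he, by simp⟩

theorem IC.refl (g : End F V) : IC B g B g := ⟨.refl _ _, fun _ _ => rfl, fun _ => rfl⟩

theorem IC.trans {g g' g'' : End F V} (h : IC B g B g') (h' : IC B g' B g'') : IC B g B g'' := by
  obtain ⟨e, a, b⟩ := h
  obtain ⟨e', a', b'⟩ := h'
  exact ⟨e.trans e', fun u v => (a' _ _).trans (a u v), fun v => by simp [b, b']⟩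

namespace IC

variable {g : End F V} {g' : End F W} (h : IC B g B' g')
include h

theorem sim : Sim g g' := h.imp fun _ => And.right

theorem iso (hg : Iso B g) : Iso B' g' := fun u v => by
  obtain ⟨e, a, b⟩ := h
  obtain ⟨u, rfl⟩ := e.surjective u
  obtain ⟨v, rfl⟩ := e.surjective v
  rw [← b, ← b, a, a, hg]

theorem cm (hg : Cm B' g') : Cm B g := by
  obtain ⟨e, h1, h2⟩ := h
  obtain ⟨a, b, k1, k2, k3, k4, k5⟩ := hg
  have i := fun f => ic_conj (B := B') (B' := B) e.symm (fun u v => by simp [← h1]) f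
  refine ⟨_, _, (i a).iso k1, (i b).iso k2, (i a).sim.det_eq ▸ k3, (i b).sim.det_eq ▸ k4,
    LinearMap.ext fun v => ?_⟩
  simpa [h2] using LinearMap.congr_fun k5 (e v)

end IC

theorem aeval_reverse {f g : End F V} (h : g * f = 1) (h' : f * g = 1) {p : F[X]}
    (hp : aeval f p = 0) : aeval g p.reverse = 0 := by
  rw [← mul_zero (g ^ p.natDegree), ← hp, aeval_eq_sum_range' (n := p.natDegree + 1)
    (p.reverse_natDegree_le.trans_lt (by omega)), aeval_eq_sum_range, ← Finset.sum_range_reflect,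
    Finset.mul_sum]
  refine Finset.sum_congr rfl fun i hi => ?_
  obtain ⟨j, hj⟩ := Nat.exists_eq_add_of_le' (Nat.lt_succ_iff.1 (Finset.mem_range.1 hi))
  have : Commute g f := h.trans h'.symm
  rw [coeff_reverse, revAt_le (by omega), show p.natDegree - (p.natDegree + 1 - 1 - i) = i by omega,
    show p.natDegree + 1 - 1 - i = j by omega, hj, pow_add, mul_smul_comm, mul_assoc,
    ← this.mul_pow, h, one_pow, mul_one]

theorem eval_dual {t : F} (ht : σ t * t = 1) (p : F[X]) :
    (dual σ p).eval t = 0 ↔ p.eval t = 0 := by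
  have := invertibleOfNonzero (left_ne_zero_of_mul_eq_one ht)
  have k := eval₂_reverse_eq_zero_iff (RingHom.id F) (σ t) (p.map σ)
  rw [invOf_eq_inv, ← eq_inv_of_mul_eq_one_right ht] at k
  simpa [dual, eval_map_apply] using k

theorem eval_ne_zero {t : F} (ht : σ t * t = 1) {p : F[X]} (h : IsCoprime p (dual σ p)) :
    p.eval t ≠ 0 := fun e => by
  obtain ⟨a, b, k⟩ := h
  simpa [e, (eval_dual ht p).2 e] using congrArg (Polynomial.eval t) k

variable [FiniteDimensional F V]

theorem Iso.norm_det (h : Herm B) {g : End F V} (hg : Iso B g) :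
    σ (LinearMap.det g) * LinearMap.det g = 1 := by
  rw [← (herm_hform h).det_adj, ← map_mul, (herm_hform h).adj_mul_self_eq_one_iff.2 hg, map_one]

theorem witt_lin (h : Herm B) [FiniteDimensional F W] {f f' : W →ₗ[F] V} (hf : Injective f)
    (hf' : Injective f') (k : ∀ x y, B (f' x) (f' y) = B (f x) (f y)) :
    ∃ a : End F V, Iso B a ∧ ∀ x, a (f x) = f' x := by
  let b := finBasis F W
  obtain ⟨a, ha⟩ := h.witt_family (b.linearIndependent.map' f (LinearMap.ker_eq_bot.2 hf))
    (b.linearIndependent.map' f' (LinearMap.ker_eq_bot.2 hf')) fun i j => k _ _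
  exact ⟨a.1.toLinearMap, isom_apply a, LinearMap.congr_fun (f := a.1.toLinearMap ∘ₗ f) (b.ext ha)⟩

theorem cm_of_sim [Finite F] (h : Herm B) {g a : End F V} (hg : Iso B g) (ha : Iso B a)
    (hd : LinearMap.det a = 1) (hs : Sim (a * g) a) (hz : ∀ μ : F, σ μ * μ = 1 →
      ∃ z, Iso B z ∧ Commute z a ∧ LinearMap.det z = μ) : Cm B g := by
  obtain ⟨y, h1, h2⟩ := herm_exists_isometry_of_elDiv h h (ha.mul hg) ha hs.elDiv_eq
  have := Iso.norm_det h (g := y.toLinearMap) h1
  obtain ⟨z, z1, z2, z3⟩ := hz (σ (LinearMap.det y.toLinearMap)) (by rw [h.invol, mul_comm, this])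
  refine ⟨a, z * y.toLinearMap, ha, z1.mul h1, hd, by rw [map_mul, z3, this],
    LinearMap.ext fun v => ?_⟩
  exact (congrArg z (h2 v)).trans (LinearMap.congr_fun z2.eq (y v))

theorem exists_scalar (h : finrank F V ≤ 1) (f : End F V) : ∃ t : F, ∀ v, f v = t • v := by
  obtain ⟨v, hv⟩ := finrank_le_one_iff.1 h
  obtain ⟨t, ht⟩ := hv (f v)
  refine ⟨t, fun w => ?_⟩
  obtain ⟨c, rfl⟩ := hv w
  rw [map_smul, ← ht, smul_comm]

variable [FiniteDimensional F W]

/-- The model space: a hyperbolic space and an anisotropic one. -/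
abbrev mB (B : V →ₛₗ[σ] V →ₗ[F] F) (B' : W →ₛₗ[σ] W →ₗ[F] F) := prodForm (hypForm B 1) B'

omit [FiniteDimensional F V] [FiniteDimensional F W] in
theorem herm_mB (h : Herm B) (h' : Herm B') : Herm (mB B B') :=
  herm_prod (herm_iff_hform.2 ⟨(herm_hform h).hyp (by simp), h.ne_id⟩) h'

/-- Block diagonal maps. -/
abbrev Y (M M' : End F V) (W : Type*) [AddCommGroup W] [Module F W] (t : F) :
    End F (V × W × V) := M.prodMap ((t • 1 : End F W).prodMap M')

variable (h : Herm B) (hW : finrank F W ≤ 1)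
include h

omit [FiniteDimensional F W] in
theorem dual_apply {M M' : End F V} (hM : M' * (herm_hform h).adj M = 1) (x y : V) :
    B (M x) (M' y) = B x y := by
  rw [← (herm_hform h).adj_right, ← End.mul_apply, mul_eq_one_comm.1 hM, End.one_apply]

omit [FiniteDimensional F W] in
theorem dual_symm {M M' : End F V} (hM : M' * (herm_hform h).adj M = 1) :
    M * (herm_hform h).adj M' = 1 := by
  simpa [HForm.adj_mul, HForm.adj_adj, HForm.adj_one] using congrArg (herm_hform h).adj hM

omit [FiniteDimensional F W] in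
theorem dual_det {M M' : End F V} (hM : M' * (herm_hform h).adj M = 1) :
    LinearMap.det M' * σ (LinearMap.det M) = 1 := by
  rw [← (herm_hform h).det_adj, ← map_mul, hM, map_one]

include hW

theorem exists_ext {a : End F ((V × V) × W)} (ha : Iso (mB B B') a) {M M' : End F V}
    (hM : M' * (herm_hform h).adj M = 1) (h1 : ∀ x, a ((x, 0), 0) = ((M x, 0), 0)) :
    ∃ (t : F) (b : End F (V × W)), Ext M a b ∧ Ext (t • 1 : End F W) b M' := by
  let π : ((V × V) × W) →ₗ[F] V × W := (LinearMap.snd F V V).prodMap LinearMap.id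
  let j : (V × W) →ₗ[F] (V × V) × W := (LinearMap.inr F V V).prodMap LinearMap.id
  obtain ⟨t, ht⟩ := exists_scalar hW (LinearMap.snd F _ _ ∘ₗ a ∘ₗ LinearMap.inr F _ _)
  have k : ∀ v, (a v).1.2 = M' v.1.2 := fun v => (herm_hform h).ext_right fun x => by
    rw [← End.one_apply (R := F) x, ← dual_symm h hM, End.mul_apply, dual_apply h hM]
    simpa [h1] using ha (((herm_hform h).adj M' x, 0), 0) v
  refine ⟨t, π ∘ₗ a ∘ₗ j, ⟨LinearMap.inl F _ _ ∘ₗ LinearMap.inl F _ _, π,
    LinearMap.inl_injective.comp LinearMap.inl_injective, fun v => ⟨j v, rfl⟩, fun v => ?_,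
    fun u => (h1 u).symm, fun v => ?_⟩, LinearMap.inr F _ _, LinearMap.fst F _ _,
    LinearMap.inr_injective, Prod.fst_surjective, fun v => ?_, fun u => Prod.ext ?_ (ht u).symm,
    fun v => k _⟩
  · simp [π, Prod.ext_iff, eq_comm]
  · rw [show v = ((v.1.1, 0), 0) + j (π v) by simp [π, j], map_add, h1]
    simp [π, j]
  · simp [Prod.ext_iff, eq_comm]
  · simpa [π, j] using (k ((0, 0), u)).symm

theorem lev_sim {a : End F ((V × V) × W)} (ha : Iso (mB B B') a) (hd : LinearMap.det a = 1)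
    {M M' : End F V} (hM : M' * (herm_hform h).adj M = 1)
    (h1 : ∀ x, a ((x, 0), 0) = ((M x, 0), 0)) {p q : F[X]} (hp : aeval M p = 0)
    (hq : aeval M' q = 0) (hc : IsCoprime p q) {t : F}
    (ht : t * LinearMap.det M = σ (LinearMap.det M)) (h2 : p.eval t ≠ 0) (h3 : q.eval t ≠ 0) :
    Sim a (Y M M' W t) := by
  obtain ⟨s, b, e1, e2⟩ := exists_ext h hW ha hM h1
  have c : ∀ {p : F[X]}, p.eval t ≠ 0 → IsCoprime (X - C t) p := fun e =>
    (irreducible_X_sub_C t).coprime_iff_not_dvd.2 (by rwa [dvd_iff_isRoot])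
  replace e2 : Ext (t • 1 : End F W) b M' := by
    rcases Nat.le_one_iff_eq_zero_or_eq_one.1 hW with e | e
    · have := finrank_zero_iff.1 e
      rwa [Subsingleton.elim (t • 1 : End F W) (s • 1)]
    have k := dual_det h hM
    rw [e1.det, e2.det, LinearMap.det_smul, e, map_one] at hd
    obtain rfl : s = t := by
      linear_combination (-s) * k + t * hd - s * LinearMap.det M' * ht
    exact e2
  have e3 := e2.sim (p := X - C t) (by simp [Algebra.algebraMap_eq_smul_one]) hq (c h3)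
  refine (e1.sim hp (q := (X - C t) * q) ((e3.aeval_eq_zero_iff _).2 (LinearMap.ext fun v => ?_))
    ((c h2).symm.mul_right hc)).trans ((Sim.refl M).prodMap e3)
  rw [aeval_prodMap, mul_comm, map_mul, mul_comm q, map_mul, hq]
  simp [Algebra.algebraMap_eq_smul_one]

/-- First block of a map. -/
def bl (g : End F ((V × V) × W)) : End F V :=
  LinearMap.fst F V V ∘ₗ LinearMap.fst F _ W ∘ₗ g ∘ₗ LinearMap.inl F _ W ∘ₗ LinearMap.inl F V V

omit h hW [FiniteDimensional F V] [FiniteDimensional F W] in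
theorem bl_apply (g : End F ((V × V) × W)) (x : V) : bl g x = (g ((x, 0), 0)).1.1 := rfl

omit hW in
theorem exists_witt (h' : Herm B') {g : End F ((V × V) × W)} (hg : Iso (mB B B') g)
    (hl : Injective (bl g)) {M M' : End F V} (hM : M' * (herm_hform h).adj M = 1) :
    ∃ a, Iso (mB B B') a ∧ (∀ x, a (g ((x, 0), 0)) = ((M (bl g x), 0), 0)) ∧
      ∀ y, a ((0, y), 0) = ((0, M' y), 0) := by
  have i : ∀ {M M' : End F V}, M' * (herm_hform h).adj M = 1 → Injective M' := fun e =>
    LinearMap.injective_iff_surjective.2 fun x => ⟨_, LinearMap.congr_fun e x⟩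
  obtain ⟨a, h1, h2⟩ := witt_lin (herm_mB h h')
    (f := (g ∘ₗ LinearMap.inl F _ W ∘ₗ LinearMap.inl F V V).coprod
      (LinearMap.inl F _ W ∘ₗ LinearMap.inr F V V))
    (f' := LinearMap.inl F _ W ∘ₗ (M * bl g).prodMap M')
    ((injective_iff_map_eq_zero _).2 fun z hz => by
      have e : z.1 = 0 := hl (by simpa [bl_apply, Prod.mk_zero_zero] using congrArg (·.1.1) hz)
      exact Prod.ext e (by simpa [e, Prod.mk_zero_zero] using hz))
    (LinearMap.inl_injective.comp (((i (dual_symm h hM)).comp hl).prodMap (i hM))) fun x y => by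
      have := hg ((x.1, 0), 0) ((y.1, 0), 0)
      simp [dual_apply h hM, dual_apply h (dual_symm h hM), bl_apply] at this ⊢
      linear_combination -this
  exact ⟨a, h1, fun x => by simpa [Prod.mk_zero_zero] using h2 (x, 0),
    fun y => by simpa [Prod.mk_zero_zero] using h2 (0, y)⟩

omit h hW [FiniteDimensional F V] [FiniteDimensional F W] in
theorem ic_swap (a : End F ((V × V) × W)) : IC (mB B B') a (mB B B')
    (((LinearEquiv.prodComm F V V).prodCongr (.refl F W)).conj a) :=
  ic_conj _ (fun u v => by simp [add_comm]) a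

theorem det_of_trivial (h0 : finrank F W = 0) {a : End F ((V × V) × W)} (ha : Iso (mB B B') a)
    {M M' : End F V} (hM : M' * (herm_hform h).adj M = 1)
    (h1 : ∀ y, a ((0, y), 0) = ((0, M' y), 0)) :
    LinearMap.det a * σ (LinearMap.det M) = LinearMap.det M := by
  obtain ⟨t, b, e1, e2⟩ := exists_ext h hW ((ic_swap a).iso ha) (dual_symm h hM) (by simp [h1])
  rw [(ic_swap (B := B) (B' := B') a).sim.det_eq, e1.det, e2.det, LinearMap.det_smul, h0, map_one]
  linear_combination LinearMap.det M * dual_det h hM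

theorem cm_of_fac [Finite F] (h' : Herm B') (hV : finrank F V = 1 → finrank F W ≠ 0)
    {g : End F ((V × V) × W)} (hg : Iso (mB B B') g) (hd : LinearMap.det g = 1)
    (hl : LinearMap.det (bl g) = 1) (hf : Fac σ (bl g)) : Cm (mB B B') g := by
  obtain ⟨M, p, G, hf⟩ := hf
  have i : ∀ {M : End F V}, LinearMap.det M ≠ 0 → Injective M := fun e =>
    ((End.isUnit_iff _).1 ((LinearMap.isUnit_iff_isUnit_det _).2 e.isUnit)).1
  have d1 : LinearMap.det (M * bl g) = LinearMap.det M := by rw [map_mul, hl, mul_one]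
  obtain ⟨M', hM⟩ := (herm_hform h).exists_inv_adj (i G.det)
  obtain ⟨N', hN⟩ := (herm_hform h).exists_inv_adj (i (d1 ▸ G.det))
  obtain ⟨a, a1, a2, a3, a4⟩ : ∃ a, Iso (mB B B') a ∧ LinearMap.det a = 1 ∧
      (∀ x, a (g ((x, 0), 0)) = ((M (bl g x), 0), 0)) ∧ ∀ y, a ((0, y), 0) = ((0, M' y), 0) := by
    obtain ⟨a, a1, a2, a3⟩ := exists_witt h h' hg (i (hl ▸ one_ne_zero)) hM
    rcases Nat.le_one_iff_eq_zero_or_eq_one.1 hW with e | e
    · have := det_of_trivial h hW e a1 hM a3
      rw [G.fix.resolve_left fun t => hV t e] at this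
      exact ⟨a, a1, mul_right_cancel₀ G.det (by rw [this, one_mul]), a2, a3⟩
    have := a1.norm_det (herm_mB h h')
    exact ⟨(LinearMap.prodMap 1 (σ (LinearMap.det a) • 1)) * a, Iso.mul (prodForm_isom
      (fun _ _ => rfl) fun u v => by simp [h.invol, ← mul_assoc, this]) a1, by
        simpa [LinearMap.det_prodMap, e] using this, by simp [a2], by simp [a3]⟩
  have q1 : aeval M' (dual σ p) = 0 := aeval_reverse hM (mul_eq_one_comm.1 hM) (by
    rw [← HForm.adj_aeval, G.ann, HForm.adj_zero])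
  set t := σ (LinearMap.det M) / LinearMap.det M
  have t1 : t * LinearMap.det M = σ (LinearMap.det M) := div_mul_cancel₀ _ G.det
  have t2 : σ t * t = 1 := by
    have := G.det
    have := (map_ne_zero σ).2 this
    simp only [t, map_div₀, h.invol]; field_simp
  have t3 := eval_ne_zero t2 G.cop
  have t4 := (eval_dual t2 p).not.2 t3
  have s1 : Sim a (Y M' M W t) := (sim_conj _ a).trans (lev_sim h hW ((ic_swap a).iso a1)
    ((ic_swap (B := B) (B' := B') a).sim.det_eq ▸ a2) (dual_symm h hM) (by simp [a4]) q1 G.ann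
    G.cop.symm (by
      linear_combination t * LinearMap.det M' * (-dual_det h (dual_symm h hM)) +
        σ (LinearMap.det M') * (dual_det h hM) + σ (LinearMap.det M') * LinearMap.det M' * t1) t4 t3)
  have s2 : Sim (Y M M' W t) (Y M' M W t) := ⟨(LinearEquiv.prodComm F _ _).trans
    (((LinearEquiv.prodComm F _ _).prodCongr (.refl F V)).trans (LinearEquiv.prodAssoc F _ _ _)),
    fun _ => rfl⟩
  have s3 : ∀ {p q : F[X]}, aeval (M * bl g) p = 0 → aeval N' q = 0 → IsCoprime p q →
      p.eval t ≠ 0 → q.eval t ≠ 0 → Sim (a * g) (Y (M * bl g) N' W t) := fun k1 k2 k3 =>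
    lev_sim h hW (a1.mul hg) (by rw [map_mul, a2, hd, one_mul]) hN a3 k1 k2 k3 (d1 ▸ t1)
  have s4 : ∀ {A A' : End F V}, A' * (herm_hform h).adj A = 1 → Sim (M * bl g) A → Sim N' A' :=
    fun k1 k2 => sim_of_elDiv_eq (by
      rw [HForm.elDiv_inv_adj _ k1, HForm.elDiv_inv_adj _ hN, k2.elDiv_eq])
  have y1 : Iso (mB B B') ((M.prodMap M').prodMap (t • 1)) :=
    prodForm_isom (hypForm_isom _ 1 hM) fun u v => by simp; linear_combination B' u v * t2
  have y2 : Sim a ((M.prodMap M').prodMap (t • 1) : End F ((V × V) × W)) :=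
    (s1.trans s2.symm).trans ⟨((LinearEquiv.refl F V).prodCongr (LinearEquiv.prodComm F _ _)).trans
      (LinearEquiv.prodAssoc F _ _ _).symm, fun _ => rfl⟩
  refine cm_of_sim (herm_mB h h') hg a1 a2 (Sim.trans ?_ s1.symm) fun μ hμ => ?_
  · rcases hf with k | ⟨k1, k2, k3⟩
    · have k' := s4 hM k
      exact ((s3 ((k.aeval_eq_zero_iff _).2 G.ann) ((k'.aeval_eq_zero_iff _).2 q1) G.cop t3
        t4).trans (k.prodMap ((Sim.refl _).prodMap k'))).trans s2
    · have k := sim_of_aeval_irreducible k1 k2 k3 q1 rfl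
      have k' := s4 (dual_symm h hM) k
      exact (s3 k3 ((k'.aeval_eq_zero_iff _).2 G.ann) G.cop.symm t4 t3).trans
        (k.prodMap ((Sim.refl _).prodMap k'))
  · obtain ⟨x, x0, hx⟩ := exists_div_eq_of_norm_one h.ne_id h.invol hμ
    obtain ⟨b, b1, b2⟩ := G.cen (σ x) (by simpa)
    obtain ⟨b', hb⟩ := (herm_hform h).exists_inv_adj (g := b) (i (by simpa [b2]))
    obtain ⟨z, z1, z2, z3⟩ := herm_transport_commute (herm_mB h h') (herm_mB h h') a1 y1
      y2.elDiv_eq (z' := (b.prodMap b').prodMap 1) (prodForm_isom (hypForm_isom _ 1 hb)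
        fun _ _ => rfl) (commute_prodMap (commute_prodMap b1 (HForm.commute_inv_adj _ hM hb b1))
        (Commute.one_left _))
    refine ⟨z, z1, z2, ?_⟩
    have := dual_det h hb
    rw [b2, h.invol] at this
    rw [z3.det_eq, LinearMap.det_prodMap, LinearMap.det_prodMap, b2, hx, map_one]
    linear_combination μ * this

end Cfsg.Lib.Known.UC
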