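import Mathlib
import Cfsg.Agent.Class.OrthGen

/-!
Unipotent isometries `1 - N` of quadratic spaces in characteristic two: basic identities and
normalisation of the invariants of vectors.
-/

set_option autoImplicit false

namespace Cfsg.Lib.Known.W2

open Module QuadraticMap Cfsg.Lib.Class.Orth

variable {F V W : Type*} [Field F] [AddCommGroup V] [Module F V] [AddCommGroup W] [Module F W]

/-- Invariant subspaces. -/
def Inv (N : End F V) (T : Submodule F V) : Prop := ∀ v ∈ T, N v ∈ T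

theorem Inv.pow {N : End F V} {T : Submodule F V} (h : Inv N T) (i : ℕ) {v : V} (hv : v ∈ T) :
    (N ^ i) v ∈ T := by
  induction i with
  | zero => exact hv
  | succ i ih => rw [pow_succ']; exact h _ ih

theorem Inv.inf {N : End F V} {T T' : Submodule F V} (h : Inv N T) (h' : Inv N T') :
    Inv N (T ⊓ T') := fun v hv => ⟨h v hv.1, h' v hv.2⟩

theorem Inv.sup {N : End F V} {T T' : Submodule F V} (h : Inv N T) (h' : Inv N T') :
    Inv N (T ⊔ T') := fun v hv => by
  obtain ⟨a, ha, b, hb, rfl⟩ := Submodule.mem_sup.mp hv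
  rw [map_add]
  exact Submodule.add_mem_sup (h a ha) (h' b hb)

theorem pow_N (N : End F V) (i : ℕ) (v : V) : (N ^ i) (N v) = (N ^ (i + 1)) v := by
  rw [pow_succ]; rfl

theorem N_pow (N : End F V) (i : ℕ) (v : V) : N ((N ^ i) v) = (N ^ (i + 1)) v := by
  rw [pow_succ']; rfl

theorem pow_pow (N : End F V) (i j : ℕ) (v : V) : (N ^ i) ((N ^ j) v) = (N ^ (i + j)) v := by
  rw [pow_add]; rfl

theorem Inv.map_pow {N : End F V} {T : Submodule F V} (h : Inv N T) (i : ℕ) :
    Inv N (T.map (N ^ i)) := by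
  rintro _ ⟨v, hv, rfl⟩
  exact ⟨N v, h v hv, by rw [pow_N, N_pow]⟩

theorem pow_eq_zero_of_le' {N : End F V} {v : V} {i j : ℕ} (h : (N ^ i) v = 0) (hij : i ≤ j) :
    (N ^ j) v = 0 := by
  obtain ⟨k, rfl⟩ := Nat.exists_eq_add_of_le' hij
  rw [← pow_pow, h, map_zero]

/-- The invariant subspace generated by `X`. -/
def gen (N : End F V) (X : Submodule F V) : Submodule F V := sInf {T | Inv N T ∧ X ≤ T}

theorem le_gen (N : End F V) (X : Submodule F V) : X ≤ gen N X := le_sInf fun _ h => h.2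

theorem gen_le {N : End F V} {X T : Submodule F V} (h : Inv N T) (hX : X ≤ T) : gen N X ≤ T :=
  sInf_le ⟨h, hX⟩

theorem inv_gen (N : End F V) (X : Submodule F V) : Inv N (gen N X) := fun v hv =>
  Submodule.mem_sInf.mpr fun T hT => hT.1 v (gen_le hT.1 hT.2 hv)

theorem gen_le_of_pow {N : End F V} {X K : Submodule F V} (h : ∀ i, ∀ x ∈ X, (N ^ i) x ∈ K) :
    gen N X ≤ K := fun v hv => by
  have : gen N X ≤ ⨅ i, K.comap (N ^ i) := gen_le (fun v hv => by
    simp only [Submodule.mem_iInf, Submodule.mem_comap, pow_N] at hv ⊢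
    exact fun i => hv (i + 1)) fun x hx => by
      simpa only [Submodule.mem_iInf, Submodule.mem_comap] using fun i => h i x hx
  simpa using (Submodule.mem_iInf _).mp (this hv) 0

theorem map_gen {N : End F V} {N' : End F W} {f : V →ₗ[F] W} (hf : ∀ v, f (N v) = N' (f v))
    (X : Submodule F V) : (gen N X).map f = gen N' (X.map f) := by
  refine le_antisymm (Submodule.map_le_iff_le_comap.mpr (gen_le (fun v hv => ?_)
    (Submodule.map_le_iff_le_comap.mp (le_gen _ _)))) (gen_le ?_ (Submodule.map_mono (le_gen _ _)))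
  · rw [Submodule.mem_comap, hf]; exact inv_gen _ _ _ hv
  · rintro _ ⟨v, hv, rfl⟩
    exact ⟨N v, inv_gen _ _ _ hv, hf v⟩

theorem gen_eq_sup (N : End F V) (X : Submodule F V) : gen N X = X ⊔ (gen N X).map N := by
  refine le_antisymm (gen_le (fun v hv => Submodule.mem_sup_right ⟨v, ?_, rfl⟩) le_sup_left)
    (sup_le (le_gen _ _) ?_)
  · obtain ⟨a, ha, _, ⟨b, hb, rfl⟩, rfl⟩ := Submodule.mem_sup.mp hv
    exact Submodule.add_mem _ (le_gen _ _ ha) (inv_gen _ _ _ hb)
  · rintro _ ⟨v, hv, rfl⟩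
    exact inv_gen _ _ _ hv

theorem exists_of_mem_gen {N : End F V} {X : Submodule F V} {v : V} (hv : v ∈ gen N X) :
    ∃ x ∈ X, ∃ w ∈ gen N X, v = x + N w := by
  rw [gen_eq_sup] at hv
  obtain ⟨a, ha, _, ⟨b, hb, rfl⟩, rfl⟩ := Submodule.mem_sup.mp hv
  exact ⟨a, ha, b, hb, rfl⟩

theorem pow_gen {N : End F V} {X : Submodule F V} {M : ℕ} (h : ∀ x ∈ X, (N ^ M) x = 0) :
    ∀ v ∈ gen N X, (N ^ M) v = 0 :=
  gen_le_of_pow (K := LinearMap.ker (N ^ M)) fun i x hx => by
    rw [LinearMap.mem_ker, pow_pow]; exact pow_eq_zero_of_le' (h x hx) (by omega)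

theorem finrank_gen [FiniteDimensional F V] {N : End F V} (M : ℕ) {X : Submodule F V}
    (h : ∀ x ∈ X, (N ^ M) x = 0) (h' : ∀ x ∈ X, ∀ i < M, (N ^ i) x = 0 → x = 0) :
    finrank F (gen N X) = M * finrank F X := by
  induction M generalizing X with
  | zero =>
    rw [zero_mul, Submodule.finrank_eq_zero, eq_bot_iff]
    exact fun v hv => pow_gen h v hv
  | succ M ih =>
    have h1 : ∀ x ∈ X.map N, (N ^ M) x = 0 := by
      rintro _ ⟨x, hx, rfl⟩
      rw [pow_N, h x hx]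
    have h2 := Submodule.finrank_sup_add_finrank_inf_eq X (gen N (X.map N))
    rw [← map_gen (fun _ => rfl), ← gen_eq_sup, map_gen (fun _ => rfl), ih h1 (by
      rintro _ ⟨x, hx, rfl⟩ i hi h3
      rw [h' x hx (i + 1) (by omega) (by rwa [pow_N] at h3), map_zero]),
      show X ⊓ gen N (X.map N) = ⊥ from eq_bot_iff.mpr fun v hv =>
        h' v hv.1 M (by omega) (pow_gen h1 v hv.2), finrank_bot, add_zero] at h2
    rw [h2]
    rcases Nat.eq_zero_or_pos M with rfl | hM
    · simp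
    have h3 := LinearMap.finrank_range_of_inj (f := N.domRestrict X)
      ((injective_iff_map_eq_zero _).mpr fun x hx =>
        Subtype.ext (h' x x.2 1 (by omega) (by simpa using hx)))
    rw [LinearMap.range_domRestrict] at h3
    rw [h3]; ring

/-- `1 - N` is a unipotent isometry of `Q`, in characteristic two. -/
structure Uni (Q : QuadraticForm F V) (N : End F V) : Prop where
  two : (2 : F) = 0
  hN : ∀ x, Q (N x) = polar Q x (N x)
  nil : IsNilpotent N

/-- The Gram data of a pair of vectors. -/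
def gg (Q : QuadraticForm F V) (N : End F V) (n : ℕ) (x y : V) : F :=
  polar Q ((N ^ (n / 2)) x) ((N ^ ((n + 1) / 2)) y)

variable {Q : QuadraticForm F V} {N : End F V}

theorem gg_even (j : ℕ) (x y : V) : gg Q N (2 * j) x y = polar Q ((N ^ j) x) ((N ^ j) y) := by
  rw [gg, show 2 * j / 2 = j by omega, show (2 * j + 1) / 2 = j by omega]

theorem gg_odd (j : ℕ) (x y : V) :
    gg Q N (2 * j + 1) x y = polar Q ((N ^ j) x) ((N ^ (j + 1)) y) := by
  rw [gg, show (2 * j + 1) / 2 = j by omega, show (2 * j + 1 + 1) / 2 = j + 1 by omega]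

theorem gg_add (n : ℕ) (x y z : V) : gg Q N n x (y + z) = gg Q N n x y + gg Q N n x z := by
  simp only [gg, map_add, polar_add_right]

namespace Uni

variable (h : Uni Q N)
include h

theorem polar_self (x : V) : polar Q x x = 0 := by rw [polar_self', h.two, zero_mul]

theorem polar_NN (a b : V) : polar Q (N a) (N b) = polar Q a (N b) + polar Q (N a) b := by
  have := h.hN (a + b)
  rw [map_add, Q_add, h.hN, h.hN] at this
  simp only [polar_add_left, polar_add_right, polar_comm Q b (N a)] at this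
  linear_combination this

theorem Q_pow (j : ℕ) (x : V) : Q ((N ^ (j + 1)) x) = polar Q ((N ^ j) x) ((N ^ (j + 1)) x) := by
  rw [← N_pow, h.hN]

theorem exists_S : ∃ S : End F V, (∀ x, S x - N (S x) = x) ∧ (∀ i x, S ((N ^ i) x) = (N ^ i) (S x)) ∧
    (∀ T, Inv N T → Inv S T) ∧ (∀ x, Q (S x) = Q x) ∧
    ∀ a b, polar Q (N a) b = polar Q a (N (S b)) := by
  obtain ⟨M, hM⟩ := h.nil
  have h1 : ∀ x, (∑ i ∈ Finset.range M, N ^ i) x - N ((∑ i ∈ Finset.range M, N ^ i) x) = x :=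
    fun x => by simpa [hM] using LinearMap.congr_fun (mul_neg_geom_sum N M) x
  refine ⟨_, h1, fun i x => ?_, fun T hT v hv => ?_, fun x => ?_, fun a b => ?_⟩
  · simp only [LinearMap.sum_apply, map_sum, pow_pow, add_comm]
  · rw [LinearMap.sum_apply]
    exact T.sum_mem fun i _ => hT.pow i hv
  · conv_rhs => rw [← h1 x, Q_sub, h.hN]
    ring
  · conv_lhs => rw [← h1 b, polar_sub_right, h.polar_NN]
    linear_combination (-polar Q a (N ((∑ i ∈ Finset.range M, N ^ i) b))) * h.two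

theorem inv_orth {T : Submodule F V} (hT : Inv N T) : Inv N (orth Q T) := fun v hv a ha => by
  obtain ⟨S, -, -, h3, -, h5⟩ := h.exists_S
  change polar Q a (N v) = 0
  rw [polar_comm, h5]
  exact mem_orth'.mp hv _ (hT _ (h3 T hT a ha))

theorem polar_shift (i : ℕ) (x : V) {z : V} (hz : (N ^ (i + 1)) z = 0) :
    polar Q ((N ^ i) x) z = polar Q x ((N ^ i) z) := by
  obtain ⟨S, h1, h2, -, -, h5⟩ := h.exists_S
  induction i generalizing z with
  | zero => rfl
  | succ i ih =>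
    have h3 : (N ^ (i + 1 + 1)) (S z) = 0 := by rw [← h2, hz, map_zero]
    rw [← N_pow, h5, ih (by rwa [pow_N]), pow_N]
    conv_rhs => rw [← h1 z, map_sub, pow_N, h3, sub_zero]

theorem polar_top {m i j : ℕ} (x : V) {y : V} (hy : (N ^ (m + 1)) y = 0) (hij : m ≤ i + j) :
    polar Q ((N ^ i) x) ((N ^ j) y) = polar Q x ((N ^ (i + j)) y) := by
  rw [h.polar_shift i x (by rw [pow_pow]; exact pow_eq_zero_of_le' hy (by omega)), pow_pow]

theorem polar_eq_zero {M i j : ℕ} (x : V) {y : V} (hy : (N ^ M) y = 0) (hij : M ≤ i + j) :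
    polar Q ((N ^ i) x) ((N ^ j) y) = 0 := by
  rw [h.polar_top x (pow_eq_zero_of_le' hy (Nat.le_succ M)) hij, pow_eq_zero_of_le' hy hij,
    polar_zero_right]

theorem Q_eq_zero {M j : ℕ} {y : V} (hy : (N ^ M) y = 0) (hj : M ≤ 2 * j + 1) :
    Q ((N ^ (j + 1)) y) = 0 := by
  rw [h.Q_pow, h.polar_eq_zero y hy (by omega)]

theorem gg_eq_zero {M n : ℕ} (x : V) {y : V} (hy : (N ^ M) y = 0) (hn : M ≤ n) :
    gg Q N n x y = 0 := h.polar_eq_zero x hy (by omega)

theorem gg_top {m : ℕ} (x : V) {y : V} (hy : (N ^ (m + 1)) y = 0) :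
    gg Q N m x y = polar Q x ((N ^ m) y) := by
  rw [gg, h.polar_top x hy (by omega), show m / 2 + (m + 1) / 2 = m by omega]

theorem polar_of_gg {x y : V} (h0 : ∀ n, gg Q N n x y = 0) (i j : ℕ) :
    polar Q ((N ^ i) x) ((N ^ j) y) = 0 := by
  have h1 : ∀ i j, polar Q ((N ^ (i + 1)) x) ((N ^ (j + 1)) y) =
      polar Q ((N ^ i) x) ((N ^ (j + 1)) y) + polar Q ((N ^ (i + 1)) x) ((N ^ j) y) :=
    fun i j => by rw [← N_pow, ← N_pow N j, h.polar_NN]
  have h2 := fun i => (gg_even i x y).symm.trans (h0 _)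
  have h3 := fun i => (gg_odd i x y).symm.trans (h0 _)
  have key : ∀ d i, (polar Q ((N ^ i) x) ((N ^ (i + d)) y) = 0 ∧
      polar Q ((N ^ i) x) ((N ^ (i + d + 1)) y) = 0) ∧
      polar Q ((N ^ (i + d)) x) ((N ^ i) y) = 0 ∧
        polar Q ((N ^ (i + d + 1)) x) ((N ^ i) y) = 0 := fun d => by
    induction d with
    | zero => exact fun i => ⟨⟨h2 i, h3 i⟩, h2 i, by simpa [h2, h3] using (h1 i i).symm⟩
    | succ d ih =>
      intro i
      have h4 := ih (i + 1)
      rw [show i + 1 + d = i + d + 1 by omega] at h4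
      refine ⟨⟨(ih i).1.2, ?_⟩, (ih i).2.2, ?_⟩
      · simpa [h4.1.1, h4.1.2, ← add_assoc] using (h1 i (i + d + 1)).symm
      · simpa [h4.2.1, h4.2.2, ← add_assoc] using (h1 (i + d + 1) i).symm
  rcases le_total i j with h4 | h4 <;> obtain ⟨d, rfl⟩ := Nat.exists_eq_add_of_le h4
  exacts [(key d i).1.1, (key d j).2.1]

theorem gg_self {x : V} (h0 : ∀ j, Q ((N ^ (j + 1)) x) = 0) (n : ℕ) : gg Q N n x x = 0 := by
  obtain ⟨j, rfl | rfl⟩ := n.even_or_odd'
  · rw [gg_even, h.polar_self]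
  · rw [gg_odd, ← h.Q_pow, h0]

theorem mem_orth_gen {X : Submodule F V} {y : V}
    (h0 : ∀ i, ∀ x ∈ X, polar Q ((N ^ i) x) y = 0) : y ∈ orth Q (gen N X) := fun a ha =>
  mem_orth_singleton.mp (gen_le_of_pow (K := orth Q (Submodule.span F {y}))
    (fun i x hx => mem_orth_singleton.mpr ((polar_comm _ _ _).trans (h0 i x hx))) ha) ▸
    polar_comm _ _ _

theorem exists_kill (j₀ : ℕ) (x w : V) (h1 : polar Q ((N ^ j₀) x) ((N ^ j₀) w) = 1)
    (h2 : ∀ j, j₀ < j → polar Q ((N ^ j) x) ((N ^ j) w) = 0)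
    (h3 : ∀ j, j₀ < j → Q ((N ^ j) w) = 0) : ∃ r, (∀ T, Inv N T → w ∈ T → r ∈ T) ∧
      (∀ j < j₀, Q ((N ^ j) (x + r)) = 0) ∧ ∀ j, j₀ ≤ j → Q ((N ^ j) (x + r)) = Q ((N ^ j) x) := by
  obtain ⟨S, -, h5, h6, h7, h8⟩ := h.exists_S
  induction j₀ generalizing x w with
  | zero => exact ⟨0, fun T _ _ => T.zero_mem, by simp, by simp⟩
  | succ i ih =>
    set w' := S ((N ^ 2) w)
    have e1 : ∀ j, Q ((N ^ j) w') = Q ((N ^ (j + 2)) w) := fun j => by rw [← h5, h7, pow_pow]
    have e2 : ∀ j x, polar Q ((N ^ j) x) ((N ^ j) w') =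
        polar Q ((N ^ (j + 1)) x) ((N ^ (j + 1)) w) := fun j x => by
      rw [← N_pow, h8, h5, N_pow, show w' = _ from h5 2 w, pow_pow]
    set c := Q ((N ^ i) x)
    have e3 : ∀ j, polar Q ((N ^ j) (x + c • w')) ((N ^ j) w') =
        polar Q ((N ^ (j + 1)) x) ((N ^ (j + 1)) w) := fun j => by
      rw [map_add, map_smul, polar_add_left, polar_smul_left', h.polar_self, e2]; ring
    have e4 : ∀ j, i ≤ j → Q ((N ^ j) (x + c • w')) =
        Q ((N ^ j) x) + c * polar Q ((N ^ (j + 1)) x) ((N ^ (j + 1)) w) := fun j hj => by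
      rw [map_add, map_smul, Q_add, Q_smul, polar_smul_right', e1, e2, h3 _ (by omega)]; ring
    obtain ⟨r, h9, h10, h11⟩ := ih (x + c • w') w' (by rw [e3, h1])
      (fun j hj => by rw [e3, h2 _ (by omega)]) fun j hj => by rw [e1, h3 _ (by omega)]
    refine ⟨c • w' + r, fun T hT hw => ?_, fun j hj => ?_, fun j hj => ?_⟩
    · have := h6 T hT _ (hT.pow 2 hw)
      exact T.add_mem (T.smul_mem _ this) (h9 T hT this)
    · rw [← add_assoc]
      rcases (Nat.lt_succ_iff.mp hj).lt_or_eq with hj | rfl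
      · exact h10 j hj
      · rw [h11 _ le_rfl, e4 _ le_rfl, h1]
        linear_combination c * h.two
    · rw [← add_assoc, h11 _ (by omega), e4 _ (by omega), h2 _ (by omega)]; ring

/-- Adjusting the values `Q (N ^ j x)`. -/
theorem exists_adj (j₀ : ℕ) (x w : V) (c : F) (h1 : polar Q ((N ^ j₀) x) ((N ^ j₀) w) = 1)
    (h2 : ∀ j, j₀ < j → polar Q ((N ^ j) x) ((N ^ j) w) = 0)
    (h3 : ∀ j, j₀ < j → Q ((N ^ j) w) = 0) : ∃ r, (∀ T, Inv N T → w ∈ T → r ∈ T) ∧
      (∀ j < j₀, Q ((N ^ j) (x + r)) = 0) ∧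
      Q ((N ^ j₀) (x + r)) = Q ((N ^ j₀) x) + c + c ^ 2 * Q ((N ^ j₀) w) ∧
      ∀ j, j₀ < j → Q ((N ^ j) (x + r)) = Q ((N ^ j) x) := by
  have e3 : ∀ j, polar Q ((N ^ j) (x + c • w)) ((N ^ j) w) =
      polar Q ((N ^ j) x) ((N ^ j) w) := fun j => by
    rw [map_add, map_smul, polar_add_left, polar_smul_left', h.polar_self]; ring
  have e4 : ∀ j, Q ((N ^ j) (x + c • w)) = Q ((N ^ j) x) + c ^ 2 * Q ((N ^ j) w) +
      c * polar Q ((N ^ j) x) ((N ^ j) w) := fun j => by
    rw [map_add, map_smul, Q_add, Q_smul, polar_smul_right']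
  obtain ⟨r, h4, h5, h6⟩ := h.exists_kill j₀ (x + c • w) w (by rw [e3, h1])
    (fun j hj => by rw [e3, h2 j hj]) h3
  refine ⟨c • w + r, fun T hT hw => T.add_mem (T.smul_mem _ hw) (h4 T hT hw),
    by simpa only [← add_assoc] using h5, ?_, fun j hj => ?_⟩
  · rw [← add_assoc, h6 _ le_rfl, e4, h1]; ring
  · rw [← add_assoc, h6 _ hj.le, e4, h2 j hj, h3 j hj]; ring

/-- Normalising the Gram data of a pair. -/
theorem exists_norm {m : ℕ} (x : V) {y : V} (hy : (N ^ (m + 1)) y = 0)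
    (h1 : polar Q x ((N ^ m) y) = 1) : ∃ r, (∀ T, Inv N T → y ∈ T → r ∈ T) ∧
      ∀ n, gg Q N n x (y + N r) = if n = m then 1 else 0 := by
  have key : ∀ s ≤ m, ∃ r, (∀ T, Inv N T → y ∈ T → r ∈ T) ∧
      ∀ n, m - s ≤ n → gg Q N n x (y + N r) = if n = m then 1 else 0 := fun s hs => by
    induction s with
    | zero =>
      refine ⟨0, fun T _ _ => T.zero_mem, fun n hn => ?_⟩
      rw [map_zero, add_zero]
      split_ifs with h2
      · rw [h2, h.gg_top x hy, h1]
      · exact h.gg_eq_zero x hy (by omega)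
    | succ s ih =>
      obtain ⟨r, h2, h3⟩ := ih (by omega)
      set c := gg Q N (m - (s + 1)) x (y + N r)
      refine ⟨r + c • (N ^ s) y, fun T hT hy =>
        T.add_mem (h2 T hT hy) (T.smul_mem _ (hT.pow s hy)), fun n hn => ?_⟩
      rw [map_add, ← add_assoc, gg_add, map_smul, N_pow, gg, gg, map_smul, polar_smul_right',
        pow_pow, h.polar_top x hy (by omega), ← gg]
      rcases hn.lt_or_eq with hn | rfl
      · rw [h3 n (by omega), pow_eq_zero_of_le' hy (by omega), polar_zero_right]; ring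
      · rw [if_neg (by omega), show (m - (s + 1)) / 2 + ((m - (s + 1) + 1) / 2 + (s + 1)) = m by
          omega, h1]
        linear_combination c * h.two
  obtain ⟨r, h2, h3⟩ := key m le_rfl
  exact ⟨r, h2, fun n => h3 n (by omega)⟩

/-- The triangular shape of the form on a homogeneous piece. -/
theorem mem_map_pow {m : ℕ} {X : Submodule F V} (h1 : ∀ x ∈ X, (N ^ (m + 1)) x = 0)
    (h2 : ∀ x ∈ X, (∀ y ∈ X, polar Q x ((N ^ m) y) = 0) → x = 0) {i j : ℕ} (hi : i + j = m + 1)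
    {v : V} (hv : v ∈ gen N X) (h3 : ∀ w ∈ gen N X, polar Q v ((N ^ j) w) = 0) :
    v ∈ (gen N X).map (N ^ i) := by
  induction i generalizing j with
  | zero => exact ⟨v, hv, rfl⟩
  | succ i ih =>
    obtain ⟨u, hu, rfl⟩ := ih (j := j + 1) (by omega) fun w hw => by
      rw [← pow_N]; exact h3 _ (inv_gen _ _ _ hw)
    obtain ⟨x, hx, w, hw, rfl⟩ := exists_of_mem_gen hu
    obtain rfl := h2 x hx fun y hy => by
      have := h3 y (le_gen _ _ hy)
      rwa [map_add, polar_add_left, pow_N, h.polar_eq_zero w (h1 y hy) (by omega), add_zero,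
        h.polar_top _ (h1 y hy) (by omega), show i + j = m by omega] at this
    exact ⟨w, hw, by rw [zero_add, pow_N]⟩

end Uni

end Cfsg.Lib.Known.W2
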