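import Mathlib
import Cfsg.Agent.Known.W2Base

/-!
Normal forms of unipotent isometries of quadratic spaces in characteristic two: the
indecomposable pieces, and uniqueness of a space with given pieces.
-/

set_option autoImplicit false

namespace Cfsg.Lib.Known.W2

open Module QuadraticMap Cfsg.Lib.Class.Orth

variable {F V W : Type*} [Field F] [AddCommGroup V] [Module F V] [AddCommGroup W] [Module F W]

/-- Types of pieces: `W(2k+1)`, `V(2k+2)` (both with a sign) and `W(2k+2)`. -/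
inductive Tag : Type
  | w1 (k : ℕ) (s : Bool)
  | v (k : ℕ) (s : Bool)
  | w0 (k : ℕ)

noncomputable instance instDecEqW2Tag : DecidableEq Tag := Classical.decEq _

/-- The values `Q (N ^ j x)` of the first generator. -/
def Tag.qx (δ : F) : Tag → ℕ → F
  | .w1 k _, j => if j = k then 1 else 0
  | .v k s, j => if j = k + 1 then 1 else if j = k ∧ s = true then δ else 0
  | .w0 _, _ => 0

/-- The values `Q (N ^ j y)` of the second generator. -/
def Tag.qy (δ : F) : Tag → ℕ → F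
  | .w1 k s, j => if j = k ∧ s = true then δ else 0
  | .v _ _, _ => 0
  | .w0 _, _ => 0

/-- The Gram data of the generators. -/
def Tag.gxy (F : Type*) [Field F] : Tag → ℕ → F
  | .w1 k _, n => if n = 2 * k then 1 else 0
  | .v _ _, _ => 0
  | .w0 k, n => if n = 2 * k + 1 then 1 else 0

/-- Half the dimension. -/
def Tag.dim : Tag → ℕ
  | .w1 k _ => 2 * k + 1
  | .v k _ => k + 1
  | .w0 k => 2 * k + 2

/-- The sign. -/
def Tag.sgn : Tag → Bool
  | .w1 _ s => s
  | .v _ s => s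
  | .w0 _ => false

/-- Forgetting the sign on the lowest level. -/
def Tag.forget : Tag → Tag
  | .w1 k s => .w1 k (s && decide (k ≠ 0))
  | .v k s => .v k (s && decide (k ≠ 0))
  | .w0 k => .w0 k

/-- `x`, `y` generate a piece of type `τ`. -/
structure IsPiece (Q : QuadraticForm F V) (N : End F V) (δ : F) (τ : Tag) (x y : V) : Prop where
  hx : ∀ j, Q ((N ^ j) x) = τ.qx δ j
  hy : ∀ j, Q ((N ^ j) y) = τ.qy δ j
  hxy : ∀ n, gg Q N n x y = τ.gxy F n

/-- The piece generated by `x`, `y`. -/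
def pc (N : End F V) (x y : V) : Submodule F V := gen N (Submodule.span F {x, y})

theorem left_mem_pc (N : End F V) (x y : V) : x ∈ pc N x y :=
  le_gen _ _ (Submodule.subset_span (by simp))

theorem right_mem_pc (N : End F V) (x y : V) : y ∈ pc N x y :=
  le_gen _ _ (Submodule.subset_span (by simp))

theorem pc_le {N : End F V} {x y : V} {T : Submodule F V} (h : Inv N T) (hx : x ∈ T) (hy : y ∈ T) :
    pc N x y ≤ T :=
  gen_le h (Submodule.span_le.mpr (Set.insert_subset hx (Set.singleton_subset_iff.mpr hy)))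

/-- `U` is an orthogonal sum of pieces of the types in `s`. -/
inductive NF (Q : QuadraticForm F V) (N : End F V) (δ : F) : Submodule F V → Multiset Tag → Prop
  | nil : NF Q N δ ⊥ 0
  | cons {τ : Tag} {x y : V} {U : Submodule F V} {s : Multiset Tag} : IsPiece Q N δ τ x y →
      U ≤ orth Q (pc N x y) → NF Q N δ U s → NF Q N δ (pc N x y ⊔ U) (τ ::ₘ s)

variable {Q : QuadraticForm F V} {N : End F V} {Q' : QuadraticForm F W} {N' : End F W} {δ : F}

theorem le_orth_symm {A B : Submodule F V} (h : A ≤ orth Q B) : B ≤ orth Q A :=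
  fun b hb => mem_orth'.mpr fun a ha => h ha b hb

theorem NF.eq_bot {U : Submodule F V} {s : Multiset Tag} (h : NF Q N δ U s) (hs : s = 0) :
    U = ⊥ := by
  cases h with
  | nil => rfl
  | cons => exact absurd hs Multiset.cons_ne_zero

theorem NF.exchange {U : Submodule F V} {s : Multiset Tag} (h : NF Q N δ U s) {τ : Tag}
    {s' : Multiset Tag} (hs : s = τ ::ₘ s') : ∃ x y U', IsPiece Q N δ τ x y ∧
      U' ≤ orth Q (pc N x y) ∧ NF Q N δ U' s' ∧ U = pc N x y ⊔ U' := by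
  induction h generalizing s' with
  | nil => exact absurd hs Multiset.zero_ne_cons
  | @cons σ a b U₀ s₀ h1 h2 h3 ih =>
    rcases Multiset.cons_eq_cons.mp hs with ⟨rfl, rfl⟩ | ⟨-, t, rfl, rfl⟩
    · exact ⟨a, b, U₀, h1, h2, h3, rfl⟩
    · obtain ⟨x, y, U₁, h4, h5, h6, rfl⟩ := ih rfl
      exact ⟨x, y, _, h4, sup_le (le_orth_symm (le_sup_left.trans h2)) h5,
        h1 |> fun h1 => NF.cons h1 (le_sup_right.trans h2) h6, sup_left_comm _ _ _⟩

theorem NF.exists_of_mem {U : Submodule F V} {s : Multiset Tag} (h : NF Q N δ U s) {τ : Tag}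
    (hs : τ ∈ s) : ∃ x ∈ U, ∃ y ∈ U, IsPiece Q N δ τ x y := by
  obtain ⟨s', hs⟩ := Multiset.exists_cons_of_mem hs
  obtain ⟨x, y, U', h1, -, -, rfl⟩ := h.exchange hs
  exact ⟨x, Submodule.mem_sup_left (left_mem_pc _ _ _), y,
    Submodule.mem_sup_left (right_mem_pc _ _ _), h1⟩

theorem Uni.polar_pc (h : Uni Q N) {x y : V} (hx : ∀ j, Q ((N ^ (j + 1)) x) = 0)
    (hy : ∀ j, Q ((N ^ (j + 1)) y) = 0) (hxy : ∀ n, gg Q N n x y = 0) :
    pc N x y ≤ orth Q (pc N x y) := by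
  have h1 := h.polar_of_gg hxy
  have h2 := h.polar_of_gg (h.gg_self hx)
  have h3 := h.polar_of_gg (h.gg_self hy)
  refine pc_le (h.inv_orth (inv_gen _ _)) (h.mem_orth_gen fun i z hz => ?_)
    (h.mem_orth_gen fun i z hz => ?_) <;>
    obtain ⟨a, b, rfl⟩ := Submodule.mem_span_pair.mp hz <;>
    simp only [map_add, map_smul, polar_add_left, polar_smul_left']
  · rw [show polar Q ((N ^ i) x) x = 0 from h2 i 0, polar_comm,
      show polar Q x ((N ^ i) y) = 0 from h1 0 i]; simp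
  · rw [show polar Q ((N ^ i) x) y = 0 from h1 i 0, show polar Q ((N ^ i) y) y = 0 from h3 i 0]
    simp

/-- The singular vectors of a totally isotropic subspace. -/
def singSub (Q : QuadraticForm F V) (T : Submodule F V) (h : T ≤ orth Q T) : Submodule F V where
  carrier := {v | v ∈ T ∧ Q v = 0}
  add_mem' {a b} ha hb := ⟨T.add_mem ha.1 hb.1, by 
    rw [Q_add, ha.2, hb.2, mem_orth.mp (h hb.1) a ha.1]; simp⟩
  zero_mem' := ⟨T.zero_mem, map_zero Q⟩
  smul_mem' c a ha := ⟨T.smul_mem c ha.1, by rw [Q_smul, ha.2, mul_zero]⟩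

theorem Q_pc {x y : V} (hx : ∀ j, Q ((N ^ j) x) = 0) (hy : ∀ j, Q ((N ^ j) y) = 0)
    (h : pc N x y ≤ orth Q (pc N x y)) : ∀ v ∈ pc N x y, Q v = 0 := fun v hv =>
  (gen_le_of_pow (K := singSub Q _ h) (fun i z hz => by
    obtain ⟨a, b, rfl⟩ := Submodule.mem_span_pair.mp hz
    rw [map_add, map_smul, map_smul]
    exact Submodule.add_mem _
      (Submodule.smul_mem _ _ ⟨(inv_gen _ _).pow i (left_mem_pc _ _ _), hx i⟩)
      (Submodule.smul_mem _ _ ⟨(inv_gen _ _).pow i (right_mem_pc _ _ _), hy i⟩)) hv).2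

theorem prodMap_pow (i : ℕ) (p : V × W) :
    ((N.prodMap N' : End F (V × W)) ^ i) p = ((N ^ i) p.1, (N' ^ i) p.2) := by
  induction i with
  | zero => rfl
  | succ i ih => rw [← N_pow, ih, ← N_pow, ← N_pow]; rfl

theorem Uni.prod (h : Uni Q N) (h' : Uni Q' N') : Uni (Q.prod Q') (N.prodMap N') where
  two := h.two
  hN p := by simp [h.hN, h'.hN]
  nil := by
    obtain ⟨a, ha⟩ := h.nil
    obtain ⟨b, hb⟩ := h'.nil
    exact ⟨a + b, LinearMap.ext fun p => by
      rw [prodMap_pow, pow_eq_zero_of_le (Nat.le_add_right a b) ha,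
        pow_eq_zero_of_le (Nat.le_add_left b a) hb]; rfl⟩

/-- Two types have the same bilinear data, and the same quadratic data if `b` holds. -/
def Tag.Same (δ : F) (b : Prop) (τ τ' : Tag) : Prop :=
  (∀ j, (b ∨ j ≠ 0) → τ.qx δ j = τ'.qx δ j ∧ τ.qy δ j = τ'.qy δ j) ∧ ∀ n, τ.gxy F n = τ'.gxy F n

theorem NF.exists_rel (h : Uni Q N) (h' : Uni Q' N') {α : Type*} (φ : Tag → α) {b : Prop}
    (hφ : ∀ τ τ', φ τ = φ τ' → Tag.Same δ b τ τ') {U : Submodule F V} {s : Multiset Tag}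
    (hU : NF Q N δ U s) {U' : Submodule F W} {s' : Multiset Tag} (hU' : NF Q' N' δ U' s')
    (hs : s'.map φ = s.map φ) : ∃ Γ : Submodule F (V × W), Inv (N.prodMap N') Γ ∧
      Γ.map (LinearMap.fst F V W) = U ∧ Γ.map (LinearMap.snd F V W) = U' ∧
      Γ ≤ orth (Q.prod Q') Γ ∧ (b → ∀ p ∈ Γ, (Q.prod Q') p = 0) := by
  induction hU generalizing U' s' with
  | nil =>
    rw [hU'.eq_bot (by simpa using hs)]
    exact ⟨⊥, fun p hp => by simp_all, by simp, by simp, bot_le, fun _ p hp => by simp_all⟩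
  | @cons τ x y U s h1 h2 h3 ih =>
    rw [Multiset.map_cons, ← Multiset.map_eq_cons] at hs
    obtain ⟨τ', h4, h5, h6⟩ := hs
    obtain ⟨x', y', U₁, h7, h8, h9, rfl⟩ := hU'.exchange (Multiset.cons_erase h4).symm
    obtain ⟨Γ, g1, rfl, rfl, g4, g5⟩ := ih h9 h6
    obtain ⟨g6, g7⟩ := hφ _ _ h5
    have h2' : ∀ a : F, a + a = 0 := fun a => by linear_combination a * h.two
    have e1 : ∀ j, (b ∨ j ≠ 0) → (Q.prod Q') ((N.prodMap N' ^ j) (x, x')) = 0 := fun j hj => by
      rw [prodMap_pow, prod_apply, h1.hx, h7.hx, (g6 j hj).1, h2']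
    have e2 : ∀ j, (b ∨ j ≠ 0) → (Q.prod Q') ((N.prodMap N' ^ j) (y, y')) = 0 := fun j hj => by
      rw [prodMap_pow, prod_apply, h1.hy, h7.hy, (g6 j hj).2, h2']
    have e3 := (h.prod h').polar_pc (fun j => e1 _ (Or.inr j.succ_ne_zero))
      (fun j => e2 _ (Or.inr j.succ_ne_zero)) fun n => by
        rw [gg, prodMap_pow, prodMap_pow, polar_prod]
        exact (congrArg₂ (· + ·) (h1.hxy n) ((h7.hxy n).trans (g7 n))).trans (h2' _)
    have e4 : (pc (N.prodMap N') (x, x') (y, y')).map (LinearMap.fst F V W) = pc N x y := by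
      rw [pc, map_gen (N := N.prodMap N') (N' := N) (f := LinearMap.fst F V W) fun _ => rfl,
        Submodule.map_span, Set.image_pair]; rfl
    have e5 : (pc (N.prodMap N') (x, x') (y, y')).map (LinearMap.snd F V W) = pc N' x' y' := by
      rw [pc, map_gen (N := N.prodMap N') (N' := N') (f := LinearMap.snd F V W) fun _ => rfl,
        Submodule.map_span, Set.image_pair]; rfl
    have e6 : Γ ≤ orth (Q.prod Q') (pc (N.prodMap N') (x, x') (y, y')) := fun p hp a ha => by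
      change polar (Q.prod Q') a p = 0
      rw [polar_prod, mem_orth.mp (h2 ⟨p, hp, rfl⟩ : p.1 ∈ _) a.1 (e4 ▸ ⟨a, ha, rfl⟩),
        mem_orth.mp (h8 ⟨p, hp, rfl⟩ : p.2 ∈ _) a.2 (e5 ▸ ⟨a, ha, rfl⟩), add_zero]
    refine ⟨pc (N.prodMap N') (x, x') (y, y') ⊔ Γ, (inv_gen _ _).sup g1,
      by rw [Submodule.map_sup, e4], by rw [Submodule.map_sup, e5],
      sup_le (le_orth_symm (sup_le e3 e6)) (le_orth_symm (sup_le (le_orth_symm e6) g4)),
      fun hb p hp => ?_⟩
    obtain ⟨a, ha, c, hc, rfl⟩ := Submodule.mem_sup.mp hp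
    rw [Q_add, Q_pc (fun j => e1 j (Or.inl hb)) (fun j => e2 j (Or.inl hb)) e3 a ha, g5 hb c hc,
      mem_orth.mp (e6 hc) a ha]
    simp

/-- Spaces with the same normal form are isomorphic. -/
theorem NF.exists_equiv (h : Uni Q N) (h' : Uni Q' N') (hQ : (polarBilin Q).Nondegenerate)
    (hQ' : (polarBilin Q').Nondegenerate) {α : Type*} (φ : Tag → α) {b : Prop}
    (hφ : ∀ τ τ', φ τ = φ τ' → Tag.Same δ b τ τ') {s s' : Multiset Tag}
    (hU : NF Q N δ ⊤ s) (hU' : NF Q' N' δ ⊤ s') (hs : s'.map φ = s.map φ) :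
    ∃ e : V ≃ₗ[F] W, (∀ v, e (N v) = N' (e v)) ∧ (∀ u v, polar Q' (e u) (e v) = polar Q u v) ∧
      (b → ∀ v, Q' (e v) = Q v) := by
  obtain ⟨Γ, g1, g2, g3, g4, g5⟩ := hU.exists_rel h h' φ hφ hU' hs
  have e1 : ∀ v, ∃ p ∈ Γ, p.1 = v := fun v => g2.ge (Submodule.mem_top (x := v))
  have e2 : ∀ v, ∃ p ∈ Γ, p.2 = v := fun v => g3.ge (Submodule.mem_top (x := v))
  have e3 : ∀ p ∈ Γ, ∀ p' ∈ Γ, polar Q' p.2 p'.2 = polar Q p.1 p'.1 := fun p hp p' hp' => by
    have : polar (Q.prod Q') p p' = 0 := g4 hp' p hp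
    rw [polar_prod] at this
    linear_combination this - polar Q p.1 p'.1 * h.two
  obtain ⟨e, he⟩ := Submodule.exists_equiv_eq_graph (G := Γ)
    ⟨(injective_iff_map_eq_zero ((LinearMap.fst F V W).comp Γ.subtype)).mpr fun p hp =>
      Subtype.ext (Prod.ext hp (hQ'.1 _ fun v => by
        obtain ⟨p', h1, rfl⟩ := e2 v
        exact (e3 p p.2 p' h1).trans (by rw [show p.1.1 = 0 from hp, polar_zero_left]))),
      fun v => by obtain ⟨p, h1, h2⟩ := e1 v; exact ⟨⟨p, h1⟩, h2⟩⟩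
    ⟨(injective_iff_map_eq_zero ((LinearMap.snd F V W).comp Γ.subtype)).mpr fun p hp =>
      Subtype.ext (Prod.ext (hQ.1 _ fun v => by
        obtain ⟨p', h1, rfl⟩ := e1 v
        exact (e3 p p.2 p' h1).symm.trans (by rw [show p.1.2 = 0 from hp, polar_zero_left])) hp),
      fun v => by obtain ⟨p, h1, h2⟩ := e2 v; exact ⟨⟨p, h1⟩, h2⟩⟩
  have e4 : ∀ v, (v, e v) ∈ Γ := fun v => by rw [he]; rfl
  refine ⟨e, fun v => ?_, fun u v => e3 _ (e4 u) _ (e4 v), fun hb v => ?_⟩
  · have := g1 _ (e4 v)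
    rw [he] at this
    exact Eq.symm this
  · have : Q v + Q' (e v) = 0 := g5 hb _ (e4 v)
    linear_combination this - Q v * h.two

theorem Tag.same_id (δ : F) (τ τ' : Tag) (h : id τ = id τ') : Tag.Same δ True τ τ' := by
  obtain rfl : τ = τ' := h
  exact ⟨fun _ _ => ⟨rfl, rfl⟩, fun _ => rfl⟩

theorem Tag.same_forget_self (δ : F) (τ : Tag) : Tag.Same δ False τ τ.forget := by
  refine ⟨fun j hj => ?_, fun n => by cases τ <;> rfl⟩
  have hj : j ≠ 0 := by simpa using hj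
  rcases τ with ⟨k, s⟩ | ⟨k, s⟩ | k <;> simp only [forget, qx, qy, true_and, and_true] <;>
    by_cases h : j = k <;> simp [h, show j = k → k ≠ 0 from fun h => h ▸ hj]

theorem Tag.same_forget (δ : F) (τ τ' : Tag) (h : τ.forget = τ'.forget) :
    Tag.Same δ False τ τ' := by
  obtain ⟨h1, h2⟩ := τ.same_forget_self δ
  obtain ⟨h3, h4⟩ := τ'.same_forget_self δ
  rw [h] at h1 h2
  exact ⟨fun j hj => ⟨(h1 j hj).1.trans (h3 j hj).1.symm, (h1 j hj).2.trans (h3 j hj).2.symm⟩,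
    fun n => (h2 n).trans (h4 n).symm⟩

end Cfsg.Lib.Known.W2
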