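import Mathlib
import Cfsg.Agent.Known.W2Piece
import Cfsg.Agent.Known.ElusO1

/-!
Splitting off a piece from a unipotent isometry of a quadratic space in characteristic two.
-/

set_option autoImplicit false

namespace Cfsg.Lib.Known.W2

open Module QuadraticMap Cfsg.Lib.Class.Orth

variable {F V : Type*} [Field F] [AddCommGroup V] [Module F V] [FiniteDimensional F V]
  {Q : QuadraticForm F V} {N : End F V} {δ : F}

theorem isPlus_of_orth_le {P T : Submodule F V} (hP : ND Q P) (hT : T ≤ P) (h1 : ∀ t ∈ T, Q t = 0)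
    (h2 : ∀ v ∈ P, v ∈ orth Q T → v ∈ T) : IsPlus (Q.restrict P) := by
  have h3 := finrank_orth hP.restrict (T.comap P.subtype)
  rw [show orth (Q.restrict P) (T.comap P.subtype) = T.comap P.subtype from le_antisymm
    (fun (v : P) hv => h2 v v.2 fun t ht => hv ⟨t, hT ht⟩ ht)
    fun (v : P) hv (t : P) ht => polar_eq_zero_of_forall_mem (Q := Q) h1 ht hv] at h3
  exact ⟨T.comap P.subtype, fun u hu => h1 u hu, by omega⟩

theorem not_isPlus_of_orth {P T : Submodule F V} (hP : ND Q P) (hT : T ≤ P)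
    (h1 : ∀ t ∈ T, Q t = 0) (h2 : ∀ v ∈ P, v ∈ orth Q T → Q v = 0 → v ∈ T) {a : V} (ha : a ∈ P)
    (ha' : a ∈ orth Q T) (h0 : Q a ≠ 0) : ¬ IsPlus (Q.restrict P) := by
  rintro ⟨U, h3, h4⟩
  have h5 := finrank_le_of_maximal_singular hP.restrict (E := T.comap P.subtype)
    (fun v hv hv' => h2 v v.2 (fun t ht => hv ⟨t, hT ht⟩ ht) hv') h3
  have h6 := finrank_orth hP.restrict (T.comap P.subtype)
  have h7 : T.comap P.subtype < orth (Q.restrict P) (T.comap P.subtype) :=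
    lt_of_le_of_ne (fun v hv t ht => polar_eq_zero_of_forall_mem (Q := Q) h1 ht hv)
      fun h => h0 (h1 a (h.ge (x := ⟨a, ha⟩) fun t ht => ha' t ht))
  have := Submodule.finrank_lt_finrank_of_lt h7
  omega

theorem isPlus_iff_of_plane (h2 : (2 : F) = 0) (hδ : ∀ t : F, t ^ 2 + t + δ ≠ 0)
    {P T : Submodule F V} (hP : ND Q P) (hT : T ≤ P) (h1 : ∀ t ∈ T, Q t = 0) {a b : V}
    (ha : a ∈ P) (hb : b ∈ P) (ha' : a ∈ orth Q T) (hb' : b ∈ orth Q T)
    (h3 : ∀ v ∈ P, v ∈ orth Q T → ∃ α β : F, ∃ t ∈ T, v = α • a + β • b + t) (e1 : Q a = 1)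
    (e2 : polar Q a b = 1) {s : Bool} (e3 : Q b = if s = true then δ else 0) :
    IsPlus (Q.restrict P) ↔ s = false := by
  have h4 : ∀ α β : F, ∀ t ∈ T, Q (α • a + β • b + t) = α ^ 2 + α * β + Q b * β ^ 2 :=
    fun α β t ht => by
    rw [Q_add, Q_add, h1 t ht, mem_orth'.mp (Submodule.add_mem _ (Submodule.smul_mem _ _ ha')
      (Submodule.smul_mem _ _ hb')) t ht, Q_smul, Q_smul, polar_smul_left', polar_smul_right', e1,
      e2]
    ring
  cases s
  · refine iff_of_true (isPlus_of_orth_le (T := T ⊔ Submodule.span F {b}) hP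
      (sup_le hT ((Submodule.span_singleton_le_iff_mem _ _).mpr hb)) (fun v hv => ?_)
      fun v hv hv' => ?_) rfl
    · obtain ⟨t, ht, _, hw, rfl⟩ := Submodule.mem_sup.mp hv
      obtain ⟨β, rfl⟩ := Submodule.mem_span_singleton.mp hw
      simpa [e3, add_comm] using h4 0 β t ht
    · obtain ⟨α, β, t, ht, rfl⟩ := h3 v hv (orth_anti le_sup_left hv')
      have h5 := mem_orth'.mp hv' b (Submodule.mem_sup_right (Submodule.mem_span_singleton_self b))
      rw [polar_add_left, polar_add_left, polar_smul_left', polar_smul_left', e2, polar_self', h2,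
        mem_orth.mp hb' t ht] at h5
      rw [show α = 0 by simpa using h5, zero_smul, zero_add, add_comm]
      exact Submodule.add_mem_sup ht (Submodule.mem_span_singleton.mpr ⟨β, rfl⟩)
  · refine iff_of_false (not_isPlus_of_orth hP hT h1 (fun v hv hv' h5 => ?_) ha ha'
      (e1 ▸ one_ne_zero)) (by simp)
    obtain ⟨α, β, t, ht, rfl⟩ := h3 v hv hv'
    rw [h4 α β t ht, e3, if_pos rfl] at h5
    obtain ⟨rfl, rfl⟩ := (aniso_one_iff δ).mpr hδ α β (by linear_combination h5)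
    simpa using ht

/-- The exponent of the pieces, minus one. -/
def Tag.top : Tag → ℕ
  | .w1 k _ => 2 * k
  | .v k _ => 2 * k + 1
  | .w0 k => 2 * k + 1

theorem Uni.piece_spec (h : Uni Q N) (hδ : ∀ t : F, t ^ 2 + t + δ ≠ 0) {τ : Tag} {x y : V}
    (hp : IsPiece Q N δ τ x y) (hx : (N ^ (τ.top + 1)) x = 0) (hy : (N ^ (τ.top + 1)) y = 0)
    (hy0 : ∀ k s, τ = .v k s → y = 0) : ND Q (pc N x y) ∧ finrank F (pc N x y) = 2 * τ.dim ∧
      (IsPlus (Q.restrict (pc N x y)) ↔ τ.sgn = false) := by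
  have h1 : ∀ z ∈ Submodule.span F {x, y}, (N ^ (τ.top + 1)) z = 0 := fun z hz => by
    obtain ⟨a, b, rfl⟩ := Submodule.mem_span_pair.mp hz
    simp [hx, hy]
  have hP := pow_gen h1
  have m1 := left_mem_pc N x y
  have m2 := right_mem_pc N x y
  have iP : Inv N (pc N x y) := inv_gen _ _
  have sym : ∀ a ∈ pc N x y, ∀ b ∈ pc N x y, polar Q a ((N ^ τ.top) b) =
      polar Q b ((N ^ τ.top) a) := fun a ha b hb => by
    rw [polar_comm, h.polar_shift _ _ (hP a ha)]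
  have e1 := h.gg_top x hx
  have e2 := h.gg_top y hy
  have e3 := (h.gg_top x hy).symm.trans (hp.hxy _)
  have key : (∀ a b : F, polar Q (a • x + b • y) ((N ^ τ.top) x) = 0 →
      polar Q (a • x + b • y) ((N ^ τ.top) y) = 0 → a • x + b • y = 0) ∧
      2 * τ.dim = (τ.top + 1) * finrank F (Submodule.span F {x, y}) := by
    have aux : polar Q x ((N ^ τ.top) x) = 0 → polar Q y ((N ^ τ.top) y) = 0 →
        polar Q x ((N ^ τ.top) y) = 1 → (∀ a b : F, polar Q (a • x + b • y) ((N ^ τ.top) x) = 0 →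
        polar Q (a • x + b • y) ((N ^ τ.top) y) = 0 → a • x + b • y = 0) ∧
        finrank F (Submodule.span F {x, y}) = 2 := fun f1 f2 f3 => by
      have : ∀ a b : F, polar Q (a • x + b • y) ((N ^ τ.top) x) = 0 →
          polar Q (a • x + b • y) ((N ^ τ.top) y) = 0 → a = 0 ∧ b = 0 := fun a b f4 f5 => by
        simpa [polar_add_left, f1, f2, f3, sym y m2 x m1, and_comm] using And.intro f4 f5
      exact ⟨fun a b f4 f5 => by simp [this a b f4 f5], finrank_span_pair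
        (LinearIndependent.pair_iff.mpr fun a b f4 => this a b (by simp [f4]) (by simp [f4]))⟩
    rcases τ with ⟨k, s⟩ | ⟨k, s⟩ | k <;> simp only [Tag.top, Tag.gxy, if_true, Tag.dim] at *
    · rw [gg_even, h.polar_self] at e1 e2
      exact ⟨(aux e1.symm e2.symm e3).1, by rw [(aux e1.symm e2.symm e3).2, mul_comm]⟩
    · rw [gg_odd, ← h.Q_pow, hp.hx, Tag.qx, if_pos rfl] at e1
      obtain rfl := hy0 k s rfl
      refine ⟨fun a b f1 _ => ?_, ?_⟩
      · simp [show a = 0 by simpa [← e1] using f1]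
      · rw [Set.pair_comm, Submodule.span_insert_zero, finrank_span_singleton (by
          rintro rfl; simp at e1)]
        ring
    · rw [gg_odd, ← h.Q_pow] at e1 e2
      rw [hp.hx] at e1
      rw [hp.hy] at e2
      exact ⟨(aux e1.symm e2.symm e3).1, by rw [(aux e1.symm e2.symm e3).2, mul_comm]⟩
  have h2 : ∀ z ∈ Submodule.span F {x, y},
      (∀ w ∈ Submodule.span F {x, y}, polar Q z ((N ^ τ.top) w) = 0) → z = 0 := fun z hz h2 => by
    obtain ⟨a, b, rfl⟩ := Submodule.mem_span_pair.mp hz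
    exact key.1 a b (h2 x (Submodule.subset_span (by simp)))
      (h2 y (Submodule.subset_span (by simp)))
  have h3 : ∀ i j, i + j = τ.top + 1 → ∀ v ∈ pc N x y, v ∈ orth Q ((pc N x y).map (N ^ j)) →
      v ∈ (pc N x y).map (N ^ i) := fun i j hij v hv hv' =>
    h.mem_map_pow h1 h2 hij hv fun w hw => mem_orth'.mp hv' _ ⟨w, hw, rfl⟩
  have h4 : ND Q (pc N x y) := fun v hv hv' => by
    obtain ⟨w, hw, rfl⟩ := h.mem_map_pow h1 h2 (j := 0) rfl hv hv'
    exact hP w hw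
  have h5 : ∀ j, (pc N x y).map (N ^ j) ≤ pc N x y := by
    rintro j _ ⟨w, hw, rfl⟩
    exact iP.pow j hw
  have h6 : ∀ i j, τ.top + 1 ≤ i + j → ∀ z, (N ^ i) z ∈ orth Q ((pc N x y).map (N ^ j)) := by
    rintro i j hij z
    rw [mem_orth']
    rintro _ ⟨w, hw, rfl⟩
    exact h.polar_eq_zero z (hP w hw) hij
  have h7 : ∀ j, τ.top + 1 ≤ 2 * j + 1 → ∀ t ∈ (pc N x y).map (N ^ (j + 1)), Q t = 0 := by
    rintro j hj _ ⟨w, hw, rfl⟩
    exact h.Q_eq_zero (hP w hw) hj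
  have h8 : ∀ u ∈ pc N x y, ∃ a b : F, ∃ w ∈ pc N x y, u = a • x + b • y + N w := fun u hu => by
    obtain ⟨z, hz, w, hw, rfl⟩ := exists_of_mem_gen hu
    obtain ⟨a, b, rfl⟩ := Submodule.mem_span_pair.mp hz
    exact ⟨a, b, w, hw, rfl⟩
  refine ⟨h4, key.2 ▸ finrank_gen _ h1 fun z hz i hi h9 => h2 z hz fun w hw => ?_, ?_⟩
  · rw [sym z (le_gen _ _ hz) w (le_gen _ _ hw), pow_eq_zero_of_le' h9 (by omega),
      polar_zero_right]
  rcases τ with ⟨k, s⟩ | ⟨k, s⟩ | k <;> simp only [Tag.top, Tag.sgn] at *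
  · refine isPlus_iff_of_plane h.two hδ h4 (h5 (k + 1)) (h7 k le_rfl) (iP.pow k m1) (iP.pow k m2)
      (h6 _ _ (by omega) _) (h6 _ _ (by omega) _) (fun v hv hv' => ?_)
      (by simp [hp.hx, Tag.qx]) (by rw [← gg_even, hp.hxy, Tag.gxy, if_pos rfl])
      (by simp [hp.hy, Tag.qy])
    obtain ⟨u, hu, rfl⟩ := h3 k _ (by omega) v hv hv'
    obtain ⟨a, b, w, hw, rfl⟩ := h8 u hu
    exact ⟨a, b, _, ⟨w, hw, rfl⟩, by simp only [map_add, map_smul, pow_N]⟩
  · refine isPlus_iff_of_plane h.two hδ h4 (h5 (k + 2)) (h7 (k + 1) (by omega))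
      (iP.pow (k + 1) m1) (iP.pow k m1) (h6 _ _ (by omega) _) (h6 _ _ (by omega) _)
      (fun v hv hv' => ?_) (by simp [hp.hx, Tag.qx])
      (by rw [polar_comm, ← h.Q_pow, hp.hx, Tag.qx, if_pos rfl]) (by simp [hp.hx, Tag.qx])
    obtain ⟨u, hu, rfl⟩ := h3 k _ (by omega) v hv hv'
    obtain ⟨a, b, w, hw, rfl⟩ := h8 u hu
    obtain ⟨a', b', w', hw', rfl⟩ := h8 w hw
    obtain rfl := hy0 k s rfl
    exact ⟨a', a, _, ⟨w', hw', rfl⟩, by
      simp only [map_add, map_smul, pow_N, map_zero, smul_zero, add_zero]; abel⟩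
  · refine iff_of_true (isPlus_of_orth_le h4 (h5 (k + 1)) ?_ (h3 _ _ (by omega))) trivial
    rintro _ ⟨u, hu, rfl⟩
    obtain ⟨a, b, w, hw, rfl⟩ := h8 u hu
    simp only [map_add, map_smul, pow_N, Q_add, Q_smul, hp.hx, hp.hy, Tag.qx, Tag.qy,
      polar_add_left, polar_smul_left', polar_smul_right',
      h.Q_eq_zero (hP w hw) (j := k + 1) (by omega), h.polar_eq_zero x hy (i := k + 1) (j := k + 1)
      (by omega), fun z => h.polar_eq_zero z (hP w hw) (i := k + 1) (j := k + 1 + 1) (by omega)]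
    ring

theorem Uni.split [Finite F] (h : Uni Q N) (hQ : (polarBilin Q).Nondegenerate)
    (hδ : ∀ t : F, t ^ 2 + t + δ ≠ 0) {U : Submodule F V} (hU : Inv N U) (hnd : ND Q U) {τ : Tag}
    {x y : V} (hp : IsPiece Q N δ τ x y) (hx : x ∈ U) (hy : y ∈ U)
    (h0 : ∀ v ∈ U, (N ^ (τ.top + 1)) v = 0) (hy0 : ∀ k s, τ = .v k s → y = 0) :
    ∃ U', U' ≤ orth Q (pc N x y) ∧ U = pc N x y ⊔ U' ∧ Inv N U' ∧ ND Q U' ∧
      finrank F U = 2 * τ.dim + finrank F U' ∧
      (IsPlus (Q.restrict U) ↔ (τ.sgn = false ↔ IsPlus (Q.restrict U'))) := by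
  obtain ⟨h1, h2, h3⟩ := h.piece_spec hδ hp (h0 x hx) (h0 y hy) hy0
  have h4 := pc_le hU hx hy
  have iP : Inv N (pc N x y) := inv_gen _ _
  generalize pc N x y = P at *
  have h5 := isCompl_orth hQ (nd_iff_disjoint.mp h1)
  have h6 : U = P ⊔ orth Q P ⊓ U := by rw [← sup_inf_assoc_of_le _ h4, h5.sup_eq_top, top_inf_eq]
  have h7 : ND Q (orth Q P ⊓ U) := fun v hv hv' => hnd v hv.2 fun w hw => by
    rw [h6] at hw
    obtain ⟨a, ha, b, hb, rfl⟩ := Submodule.mem_sup.mp hw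
    rw [map_add, hv' b hb, add_zero]
    exact mem_orth'.mp hv.1 a ha
  obtain ⟨e, he⟩ := isOSum_sup (Q := Q) (h5.disjoint.mono_right inf_le_left)
    fun a ha b hb => hb.1 a ha
  refine ⟨_, inf_le_left, h6, (h.inv_orth iP).inf hU, h7, ?_, ?_⟩
  · rw [← h2, ← he.finrank_eq, ← h6]
  · rw [← h3, ← he.isPlus_iff (h6 ▸ hnd.restrict) (even_finrank_of_two h1.restrict h.two)
      (even_finrank_of_two h7.restrict h.two), ← h6]

end Cfsg.Lib.Known.W2
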