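import Mathlib
import Cfsg.Agent.Known.W2Split

/-!
Existence of admissible normal forms of unipotent isometries of quadratic spaces over finite
fields of characteristic two.
-/

set_option autoImplicit false

namespace Cfsg.Lib.Known.W2

open Module QuadraticMap Cfsg.Lib.Class.Orth

/-- Admissible multisets of pieces. -/
structure Adm (s : Multiset Tag) : Prop where
  a1 : ∀ k, s.count (.v k false) + s.count (.v k true) ≤ 2
  a2 : ∀ k, s.count (.v k true) + s.count (.w1 k true) ≤ 1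
  a3 : ∀ k, s.count (.v k true) = 0 ∨ s.count (.w1 k false) = 0
  a4 : ∀ k, s.count (.v (k + 1) true) + s.count (.w1 (k + 1) true) = 0 ∨
    s.count (.v k false) + s.count (.v k true) = 0

namespace Adm

variable {s : Multiset Tag} (h : Adm s) {k : ℕ}
include h

theorem cons_w0 : Adm (.w0 k ::ₘ s) :=
  ⟨by simpa using h.a1, by simpa using h.a2, by simpa using h.a3, by simpa using h.a4⟩

theorem cons_w1f (h1 : .v k true ∉ s) : Adm (.w1 k false ::ₘ s) := by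
  refine ⟨by simpa using h.a1, by simpa using h.a2, fun j => ?_, by simpa using h.a4⟩
  by_cases hj : j = k
  · simp [hj, h1]
  · simpa [hj] using h.a3 j

theorem cons_w1t (h1 : .v k true ∉ s) (h2 : .w1 k true ∉ s) (h3 : ∀ j b, k = j + 1 → .v j b ∉ s) :
    Adm (.w1 k true ::ₘ s) := by
  refine ⟨by simpa using h.a1, fun j => ?_, by simpa using h.a3, fun j => ?_⟩
  · by_cases hj : j = k
    · simp [hj, Multiset.count_eq_zero_of_notMem h1, Multiset.count_eq_zero_of_notMem h2]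
    · simpa [hj] using h.a2 j
  · by_cases hj : j + 1 = k
    · simp [h3 j _ hj.symm]
    · simpa [hj] using h.a4 j

theorem cons_vf (h1 : s.count (.v k false) + s.count (.v k true) ≤ 1) (h2 : .v (k + 1) true ∉ s)
    (h3 : .w1 (k + 1) true ∉ s) : Adm (.v k false ::ₘ s) := by
  refine ⟨fun j => ?_, by simpa using h.a2, by simpa using h.a3, fun j => ?_⟩
  · by_cases hj : j = k
    · simp [hj]; omega
    · simpa [hj] using h.a1 j
  · by_cases hj : j = k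
    · simp [hj, h2, h3]
    · simpa [hj] using h.a4 j

theorem cons_vt (h1 : ∀ b, .v k b ∉ s) (h2 : ∀ b, .w1 k b ∉ s) (h3 : ∀ j b, k = j + 1 → .v j b ∉ s)
    (h4 : .v (k + 1) true ∉ s) (h5 : .w1 (k + 1) true ∉ s) : Adm (.v k true ::ₘ s) := by
  refine ⟨fun j => ?_, fun j => ?_, fun j => ?_, fun j => ?_⟩
  · by_cases hj : j = k
    · simp [hj, Multiset.count_eq_zero_of_notMem (h1 _)]
    · simpa [hj] using h.a1 j
  · by_cases hj : j = k
    · simp [hj, Multiset.count_eq_zero_of_notMem (h1 _), Multiset.count_eq_zero_of_notMem (h2 _)]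
    · simpa [hj] using h.a2 j
  · by_cases hj : j = k
    · simp [hj, h2]
    · simpa [hj] using h.a3 j
  · by_cases hj : j = k
    · simp [hj, h4, h5]
    by_cases hj' : j + 1 = k
    · simp [hj, h3 j _ hj'.symm]
    · simpa [hj, hj'] using h.a4 j

end Adm

variable {F V : Type*} [Field F] [AddCommGroup V] [Module F V]
  {Q : QuadraticForm F V} {N : End F V} {δ : F} {U : Submodule F V} {k : ℕ}

theorem NF.exists_two {s : Multiset Tag} (h : NF Q N δ U s)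
    (hs : 2 ≤ s.count (.v k false) + s.count (.v k true)) : ∃ x ∈ U, ∃ x' ∈ U,
      Q ((N ^ (k + 1)) x) = 1 ∧ Q ((N ^ (k + 1)) x') = 1 ∧
      polar Q ((N ^ k) x) ((N ^ (k + 1)) x') = 0 := by
  have key : ∀ t : Multiset Tag, 1 ≤ t.count (.v k false) + t.count (.v k true) →
      ∃ b, .v k b ∈ t := fun t ht => by
    by_contra! h1
    simp [Multiset.count_eq_zero_of_notMem (h1 _)] at ht
  obtain ⟨b, hb⟩ := key s (by omega)
  obtain ⟨t, rfl⟩ := Multiset.exists_cons_of_mem hb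
  obtain ⟨x, y, U', h1, h2, h3, rfl⟩ := h.exchange rfl
  obtain ⟨b', hb'⟩ := key t (by cases b <;> simp at hs <;> omega)
  obtain ⟨t, rfl⟩ := Multiset.exists_cons_of_mem hb'
  obtain ⟨x', y', U'', h4, -, -, rfl⟩ := h3.exchange rfl
  refine ⟨x, Submodule.mem_sup_left (left_mem_pc _ _ _), x',
    Submodule.mem_sup_right (Submodule.mem_sup_left (left_mem_pc _ _ _)),
    by simp [h1.hx, Tag.qx], by simp [h4.hx, Tag.qx], ?_⟩
  exact h2 (Submodule.mem_sup_left ((inv_gen _ _).pow _ (left_mem_pc _ _ _))) _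
    ((inv_gen _ _).pow _ (left_mem_pc _ _ _))

namespace Uni

variable (h : Uni Q N) (hU : Inv N U)
include h

theorem mem_orth_pc {x w : V} (h0 : ∀ n, gg Q N n x w = 0) : w ∈ orth Q (pc N x 0) :=
  h.mem_orth_gen fun i z hz => by
    obtain ⟨a, b, rfl⟩ := Submodule.mem_span_pair.mp hz
    simpa using Or.inr (h.polar_of_gg h0 i 0)

omit h in
theorem gg_of_mem_orth {x w : V} (h0 : w ∈ orth Q (pc N x 0)) (h : Uni Q N) (n : ℕ) :
    gg Q N n x w = 0 :=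
  (h.inv_orth (inv_gen _ _)).pow _ h0 _ ((inv_gen _ _).pow _ (left_mem_pc _ _ _))

include hU

theorem exists_v (h0 : ∀ v ∈ U, (N ^ (2 * k + 1 + 1)) v = 0) {x : V} (hx : x ∈ U) {b : Bool}
    (h1 : Q ((N ^ (k + 1)) x) = 1) {c : F}
    (h2 : Q ((N ^ k) x) + c + c ^ 2 = if b = true then δ else 0) :
    ∃ x' ∈ U, IsPiece Q N δ (.v k b) x' 0 := by
  have e : ∀ j, k < j → Q ((N ^ (j + 1)) x) = 0 := fun j hj => h.Q_eq_zero (h0 x hx) (by omega)
  obtain ⟨r, h3, h4, h5, h6⟩ := h.exists_adj k x (N x) c (by rw [pow_N, ← h.Q_pow, h1])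
    (fun j hj => by rw [pow_N, ← h.Q_pow, e j hj]) fun j hj => by rw [pow_N, e j hj]
  refine ⟨x + r, U.add_mem hx (h3 U hU (hU x hx)), fun j => ?_, fun j => by simp [Tag.qy],
    fun n => by simp [gg, Tag.gxy]⟩
  rw [Tag.qx]
  rcases lt_trichotomy j k with hj | rfl | hj
  · rw [h4 j hj, if_neg (by omega), if_neg (by omega)]
  · rw [h5, pow_N, h1, mul_one, h2]; simp
  · rw [h6 j hj]
    split_ifs with h7 h8
    · rw [h7, h1]
    · omega
    · obtain ⟨i, rfl⟩ := Nat.exists_eq_add_of_lt hj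
      exact e _ (by omega)

theorem exists_w1 (h0 : ∀ v ∈ U, (N ^ (2 * k + 1)) v = 0) {x y : V} (hx : x ∈ U) (hy : y ∈ U)
    {b : Bool} (h1 : polar Q ((N ^ k) x) ((N ^ k) y) = 1) (h2 : Q ((N ^ k) x) = 1)
    (h3 : Q ((N ^ k) y) = if b = true then δ else 0) :
    ∃ x' ∈ U, ∃ y' ∈ U, IsPiece Q N δ (.w1 k b) x' y' := by
  have e : ∀ v ∈ U, ∀ j, k < j → Q ((N ^ j) v) = 0 := fun v hv j hj => by
    obtain ⟨i, rfl⟩ := Nat.exists_eq_add_of_lt hj
    exact h.Q_eq_zero (h0 v hv) (by omega)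
  have e' : ∀ u, ∀ v ∈ U, ∀ j, k < j → polar Q ((N ^ j) u) ((N ^ j) v) = 0 := fun u v hv j hj =>
    h.polar_eq_zero u (h0 v hv) (by omega)
  obtain ⟨r, h4, h5, h6, h7⟩ := h.exists_adj k x y 0 h1 (e' x y hy) (e y hy)
  have h8 := h4 (LinearMap.ker ((polarBilin Q ((N ^ k) y)).comp (N ^ k))) (fun v _ => by
    simpa [pow_N, polar_comm Q ((N ^ k) y)] using h.polar_eq_zero v (h0 y hy) (i := k + 1) (j := k)
      (by omega)) (by simpa using h.polar_self _)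
  have h9 := U.add_mem hx (h4 U hU hy)
  have h10 : polar Q ((N ^ k) (x + r)) ((N ^ k) y) = 1 := by
    rw [map_add, polar_add_left, h1, polar_comm, show polar Q _ _ = 0 from h8, add_zero]
  have h11 : ∀ j, Q ((N ^ j) (x + r)) = if j = k then 1 else 0 := fun j => by
    rcases lt_trichotomy j k with hj | rfl | hj
    · rw [h5 j hj, if_neg hj.ne]
    · rw [h6, h2]; simp
    · rw [e _ h9 j hj, if_neg hj.ne']
  generalize x + r = x at h9 h10 h11
  obtain ⟨r, h12, h13⟩ := h.exists_norm x (h0 y hy) (by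
    rw [← h.gg_top x (h0 y hy), gg_even, h10])
  have h14 := h12 U hU hy
  have h15 := U.add_mem hy (hU r h14)
  have h16 : Q ((N ^ k) (y + N r)) = if b = true then δ else 0 := by
    rw [map_add, pow_N, Q_add, h3, e r h14 _ k.lt_succ_self,
      h.polar_eq_zero y (h0 r h14) (by omega)]
    simp
  generalize y + N r = y at h13 h15 h16
  have f1 : ∀ j, polar Q ((N ^ j) x) ((N ^ j) y) = if j = k then 1 else 0 := fun j => by
    rw [← gg_even, h13]; simp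
  have f2 : ∀ j, polar Q ((N ^ j) x) ((N ^ (j + 1)) y) = 0 := fun j => by
    rw [← gg_odd, h13, if_neg (by omega)]
  have h17 := U.add_mem h9 (hU y h15)
  obtain ⟨r, h18, h19, h20, h21⟩ := h.exists_adj k y (x + N y) 0 (by
    rw [map_add, polar_add_right, polar_comm, f1, pow_N, ← h.Q_pow, e y h15 _ k.lt_succ_self]
    simp) (e' y _ h17) (e _ h17)
  have h22 := h18 _ (h.inv_orth (inv_gen _ _)) (h.mem_orth_pc (x := x) fun n => by
    obtain ⟨j, rfl | rfl⟩ := n.even_or_odd'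
    · rw [gg_even, map_add, polar_add_right, h.polar_self, pow_N, f2, add_zero]
    · have := h.polar_NN ((N ^ j) x) ((N ^ (j + 1)) y)
      rw [N_pow, N_pow, f1, f2] at this
      rw [gg_odd, map_add, polar_add_right, ← h.Q_pow, pow_N, h11]
      linear_combination -this)
  refine ⟨x, h9, y + r, U.add_mem h15 (h18 U hU h17), h11, fun j => ?_, fun n => ?_⟩
  · rw [Tag.qy]
    rcases lt_trichotomy j k with hj | rfl | hj
    · rw [h19 j hj, if_neg (by omega)]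
    · rw [h20, h16]; simp
    · rw [h21 j hj, e y h15 j hj, if_neg (by omega)]
  · rw [gg_add, gg_of_mem_orth h22 h, h13, add_zero, Tag.gxy]

theorem exists_w0 (h0 : ∀ v ∈ U, (N ^ (2 * k + 1 + 1)) v = 0) {x y : V} (hx : x ∈ U) (hy : y ∈ U)
    (h1 : polar Q ((N ^ k) x) ((N ^ (k + 1)) y) = 1) (h2 : Q ((N ^ (k + 1)) x) = 0)
    (h3 : Q ((N ^ (k + 1)) y) = 0) : ∃ x' ∈ U, ∃ y' ∈ U, IsPiece Q N δ (.w0 k) x' y' := by
  have e : ∀ v ∈ U, ∀ j, k < j → Q ((N ^ (j + 1)) v) = 0 := fun v hv j hj =>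
    h.Q_eq_zero (h0 v hv) (by omega)
  have key : ∀ x ∈ U, ∀ y ∈ U, polar Q ((N ^ k) x) ((N ^ (k + 1)) y) = 1 →
      Q ((N ^ (k + 1)) x) = 0 → Q ((N ^ (k + 1)) y) = 0 →
      ∃ r, (∀ T, Inv N T → N y ∈ T → r ∈ T) ∧ ∀ j, Q ((N ^ j) (x + r)) = 0 :=
    fun x hx y hy h1 h2 h3 => by
    obtain ⟨r, h4, h5, h6, h7⟩ := h.exists_adj k x (N y) (Q ((N ^ k) x)) (by rw [pow_N, h1])
      (fun j hj => by rw [pow_N, h.polar_eq_zero x (h0 y hy) (by omega)])
      fun j hj => by rw [pow_N, e y hy j hj]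
    refine ⟨r, h4, fun j => ?_⟩
    rcases lt_trichotomy j k with hj | rfl | hj
    · exact h5 j hj
    · rw [h6, pow_N, h3]
      linear_combination Q ((N ^ j) x) * h.two
    · obtain ⟨i, rfl⟩ := Nat.exists_eq_add_of_lt hj
      rw [h7 _ hj]
      rcases i with _ | i
      exacts [h2, e x hx _ (by omega)]
  obtain ⟨r, h4, h5⟩ := key x hx y hy h1 h2 h3
  obtain ⟨r, h6, rfl⟩ := h4 (U.map (N ^ 1)) (hU.map_pow 1) ⟨y, hy, rfl⟩
  have h9 := U.add_mem hx (hU.pow 1 h6)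
  have h10 : polar Q ((N ^ k) (x + (N ^ 1) r)) ((N ^ (k + 1)) y) = 1 := by
    rw [map_add, polar_add_left, h1, pow_pow, h.polar_eq_zero r (h0 y hy) (by omega), add_zero]
  generalize x + (N ^ 1) r = x at h5 h9 h10
  obtain ⟨r, h12, h13⟩ := h.exists_norm x (h0 y hy) (by
    rw [← h.gg_top x (h0 y hy), gg_odd, h10])
  have h14 := h12 U hU hy
  have h15 := U.add_mem hy (hU r h14)
  have h16 : Q ((N ^ (k + 1)) (y + N r)) = 0 := by
    rw [map_add, pow_N, Q_add, h3, e r h14 _ k.lt_succ_self,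
      h.polar_eq_zero y (h0 r h14) (by omega)]
    simp
  generalize y + N r = y at h13 h15 h16
  obtain ⟨r, h17, h18⟩ := key y h15 x h9 (by
    rw [h.polar_top y (h0 x h9) (by omega), polar_comm, show k + (k + 1) = 2 * k + 1 by omega,
      h.polar_shift _ _ (h0 y h15), ← h.gg_top x (h0 y h15), h13, if_pos rfl]) h16 (h5 _)
  have h22 := h17 _ (h.inv_orth (inv_gen _ _)) (h.inv_orth (inv_gen _ _) _
    (h.mem_orth_pc (x := x) (h.gg_self fun j => h5 _)))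
  exact ⟨x, h9, y + r, U.add_mem h15 (h17 U hU (hU x h9)), h5, h18, fun n => by
    rw [gg_add, gg_of_mem_orth h22 h, h13, add_zero, Tag.gxy]⟩

omit hU in
theorem exists_as [Finite F] (hδ : ∀ t : F, t ^ 2 + t + δ ≠ 0) (a : F) :
    ∃ (c : F) (b : Bool), a + c + c ^ 2 = if b = true then δ else 0 := by
  by_cases h1 : ∀ t : F, t ^ 2 + t + a ≠ 0
  · obtain ⟨c, hc⟩ := exists_sq_add_self_eq h.two hδ h1
    exact ⟨c, true, by simp only [if_true]; linear_combination hc + a * h.two⟩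
  · push Not at h1
    obtain ⟨c, hc⟩ := h1
    exact ⟨c, false, by simp only [Bool.false_eq_true, if_false]; linear_combination hc⟩

omit hU in
theorem exists_sq_mul [Finite F] (a : F) {b : F} (hb : b ≠ 0) : ∃ c : F, c ^ 2 * b = a := by
  have : CharP F 2 := CharTwo.of_one_ne_zero_of_two_eq_zero one_ne_zero h.two
  obtain ⟨c, hc⟩ := (bijective_frobenius F 2).2 (a / b)
  exact ⟨c, by rw [show c ^ 2 = a / b from hc, div_mul_cancel₀ _ hb]⟩

theorem step_odd [Finite F] (hδ : ∀ t : F, t ^ 2 + t + δ ≠ 0)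
    (h0 : ∀ v ∈ U, (N ^ (2 * k + 1)) v = 0) {x y : V} (hx : x ∈ U) (hy : y ∈ U)
    (h1 : polar Q ((N ^ k) x) ((N ^ k) y) ≠ 0) : ∃ (b : Bool), ∃ x ∈ U, ∃ y ∈ U,
      IsPiece Q N δ (.w1 k b) x y ∧
      (b = true → ∀ v ∈ U, v ∈ orth Q (pc N x y) → Q ((N ^ k) v) = 0) := by
  obtain ⟨x, hx, y, hy, h1, h2⟩ : ∃ x ∈ U, ∃ y ∈ U, polar Q ((N ^ k) x) ((N ^ k) y) ≠ 0 ∧
      Q ((N ^ k) x) ≠ 0 := by
    by_cases h2 : Q ((N ^ k) x) = 0
    · by_cases h3 : Q ((N ^ k) y) = 0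
      · exact ⟨x + y, U.add_mem hx hy, y, hy,
          by rwa [map_add, polar_add_left, h.polar_self, add_zero],
          by rwa [map_add, Q_add, h2, h3, zero_add, zero_add]⟩
      · exact ⟨y, hy, x, hx, by rwa [polar_comm], h3⟩
    · exact ⟨x, hx, y, hy, h1, h2⟩
  by_cases H : ∃ x ∈ U, ∃ y ∈ U, polar Q ((N ^ k) x) ((N ^ k) y) = 1 ∧ Q ((N ^ k) x) = 1 ∧
      Q ((N ^ k) y) = 0
  · obtain ⟨x, hx, y, hy, h3, h4, h5⟩ := H
    obtain ⟨x, hx, y, hy, h6⟩ := h.exists_w1 (δ := δ) hU h0 hx hy (b := false) h3 h4 h5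
    exact ⟨false, x, hx, y, hy, h6, by simp⟩
  obtain ⟨c, hc⟩ := h.exists_sq_mul 1 h2
  have hc0 : c ≠ 0 := by rintro rfl; simp at hc
  set d := (c * polar Q ((N ^ k) x) ((N ^ k) y))⁻¹
  obtain ⟨e, b, he⟩ := h.exists_as hδ (d ^ 2 * Q ((N ^ k) y))
  have h3 := U.smul_mem c hx
  have h4 := U.add_mem (U.smul_mem d hy) (U.smul_mem e h3)
  have h5 : Q ((N ^ k) (c • x)) = 1 := by rw [map_smul, Q_smul, hc]
  have h6 : polar Q ((N ^ k) (c • x)) ((N ^ k) (d • y)) = 1 := by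
    rw [map_smul, map_smul, polar_smul_left', polar_smul_right', mul_left_comm,
      inv_mul_cancel₀ (mul_ne_zero hc0 h1)]
  have h7 : polar Q ((N ^ k) (c • x)) ((N ^ k) (d • y + e • c • x)) = 1 := by
    rw [map_add, polar_add_right, h6, map_smul _ e, polar_smul_right', h.polar_self]; simp
  have h8 : Q ((N ^ k) (d • y + e • c • x)) = if b = true then δ else 0 := by
    rw [map_add, Q_add, map_smul _ e, polar_smul_right', polar_comm, h6, Q_smul, h5, map_smul,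
      Q_smul, ← he]
    ring
  obtain ⟨x, hx, y, hy, h9⟩ := h.exists_w1 hU h0 h3 h4 h7 h5 h8
  refine ⟨b, x, hx, y, hy, h9, fun hb v hv hv' => by_contra fun h10 => H ?_⟩
  obtain ⟨f, hf⟩ := h.exists_sq_mul δ h10
  have h11 : ∀ z ∈ pc N x y, polar Q ((N ^ k) z) ((N ^ k) v) = 0 := fun z hz =>
    (h.inv_orth (inv_gen _ _)).pow k hv' _ ((inv_gen _ _).pow k hz)
  refine ⟨x, hx, y + f • v, U.add_mem hy (U.smul_mem f hv), ?_, by simp [h9.hx, Tag.qx], ?_⟩
  · rw [map_add, map_smul, polar_add_right, polar_smul_right', h11 x (left_mem_pc _ _ _), ← gg_even,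
      h9.hxy]
    simp [Tag.gxy]
  · rw [map_add, map_smul, Q_add, Q_smul, hf, polar_smul_right', h11 y (right_mem_pc _ _ _), h9.hy,
      Tag.qy, if_pos ⟨rfl, hb⟩]
    linear_combination δ * h.two

theorem step_v [Finite F] (hδ : ∀ t : F, t ^ 2 + t + δ ≠ 0)
    (h0 : ∀ v ∈ U, (N ^ (2 * k + 1 + 1)) v = 0) {x : V} (hx : x ∈ U)
    (h1 : Q ((N ^ (k + 1)) x) ≠ 0) : ∃ (b : Bool), ∃ x ∈ U, IsPiece Q N δ (.v k b) x 0 ∧
      (b = true → ∀ v ∈ U, v ∈ orth Q (pc N x 0) → Q ((N ^ k) v) = 0 ∧ Q ((N ^ (k + 1)) v) = 0) := by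
  by_cases H : ∃ x ∈ U, Q ((N ^ (k + 1)) x) = 1 ∧ Q ((N ^ k) x) = 0
  · obtain ⟨x, hx, h2, h3⟩ := H
    obtain ⟨x, hx, h4⟩ := h.exists_v (δ := δ) hU h0 hx (b := false) h2 (c := 0) (by simp [h3])
    exact ⟨false, x, hx, h4, by simp⟩
  obtain ⟨c, hc⟩ := h.exists_sq_mul 1 h1
  obtain ⟨e, b, he⟩ := h.exists_as hδ (Q ((N ^ k) (c • x)))
  obtain ⟨x, hx, h2⟩ := h.exists_v hU h0 (U.smul_mem c hx) (by rw [map_smul, Q_smul, hc]) he
  refine ⟨b, x, hx, h2, fun hb => ?_⟩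
  have key : ∀ v ∈ U, v ∈ orth Q (pc N x 0) → Q ((N ^ (k + 1)) v) = 0 → Q ((N ^ k) v) = 0 :=
    fun v hv hv' h3 => by_contra fun h4 => H (by
      obtain ⟨f, hf⟩ := h.exists_sq_mul δ h4
      have h5 : ∀ j, polar Q ((N ^ j) x) ((N ^ j) v) = 0 := fun j =>
        (h.inv_orth (inv_gen _ _)).pow j hv' _ ((inv_gen _ _).pow j (left_mem_pc _ _ _))
      refine ⟨x + f • v, U.add_mem hx (U.smul_mem f hv), ?_, ?_⟩ <;>
        rw [map_add, map_smul, Q_add, Q_smul, polar_smul_right', h5, h2.hx, Tag.qx]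
      · simp [h3]
      · rw [if_neg (by omega), if_pos ⟨rfl, hb⟩, hf]
        linear_combination δ * h.two)
  intro v hv hv'
  have h3 := key (N v) (hU v hv) (h.inv_orth (inv_gen _ _) v hv') (by
    rw [pow_N, h.Q_eq_zero (h0 v hv) (by omega)])
  rw [pow_N] at h3
  exact ⟨key v hv hv' h3, h3⟩

/-- Existence of admissible normal forms. -/
theorem exists_NF [Finite F] [FiniteDimensional F V] (hQ : (polarBilin Q).Nondegenerate)
    (hδ : ∀ t : F, t ^ 2 + t + δ ≠ 0) (hnd : ND Q U) : ∃ s, NF Q N δ U s ∧ Adm s ∧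
      finrank F U = 2 * (s.map Tag.dim).sum ∧
      (IsPlus (Q.restrict U) ↔ Even (s.countP fun τ => τ.sgn = true)) := by
  induction hn : finrank F U using Nat.strong_induction_on generalizing U with
  | _ n ih =>
  subst hn
  by_cases hb : U = ⊥
  · subst hb
    exact ⟨0, .nil, ⟨by simp, by simp, by simp, by simp⟩, by simp,
      iff_of_true ⟨⊥, fun u hu => by simp_all, by simp⟩ (by simp)⟩
  have hex : ∃ m, ∀ v ∈ U, (N ^ m) v = 0 := h.nil.imp fun m hm v _ => by simp [hm]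
  obtain ⟨m, h0, y, hy, h1⟩ : ∃ m, (∀ v ∈ U, (N ^ (m + 1)) v = 0) ∧ ∃ y ∈ U, (N ^ m) y ≠ 0 := by
    classical
    obtain ⟨m, hm⟩ := Nat.exists_eq_succ_of_ne_zero (n := Nat.find hex) fun h0 =>
      hb (eq_bot_iff.mpr (h0 ▸ Nat.find_spec hex :))
    exact ⟨m, (hm ▸ Nat.find_spec hex :), by simpa using Nat.find_min hex (hm ▸ m.lt_succ_self)⟩
  obtain ⟨x, hx, h2⟩ : ∃ x ∈ U, polar Q x ((N ^ m) y) ≠ 0 := by
    by_contra! h2
    exact h1 (hnd _ (hU.pow m hy) fun v hv => (polar_comm _ _ _).trans (h2 v hv))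
  rw [← h.gg_top x (h0 y hy)] at h2
  have key : ∀ τ, ∀ x ∈ U, ∀ y ∈ U, IsPiece Q N δ τ x y → τ.top = m →
      (∀ k s, τ = .v k s → y = 0) → (∀ U' ≤ U, U' ≤ orth Q (pc N x y) → ∀ s, NF Q N δ U' s →
      Adm s → (∀ j b, .v j b ∈ s → 2 * j + 1 ≤ m ∧ ∃ v ∈ U', Q ((N ^ (j + 1)) v) = 1) →
      (∀ j b, .w1 j b ∈ s → 2 * j ≤ m ∧ ∃ v ∈ U', Q ((N ^ j) v) = 1) → Adm (τ ::ₘ s)) →
      ∃ s, NF Q N δ U s ∧ Adm s ∧ finrank F U = 2 * (s.map Tag.dim).sum ∧
        (IsPlus (Q.restrict U) ↔ Even (s.countP fun τ => τ.sgn = true)) := by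
    rintro τ x hx y hy hp rfl h3 h4
    obtain ⟨U', g1, g2, g3, g4, g5, g6⟩ := h.split hQ hδ hU hnd hp hx hy h0 h3
    obtain ⟨s, g7, g8, g9, g10⟩ := ih _ (by
      have : 0 < τ.dim := by cases τ <;> simp [Tag.dim]
      omega) g3 g4 rfl
    have g11 : U' ≤ U := g2 ▸ le_sup_right
    refine ⟨τ ::ₘ s, g2 ▸ .cons hp g1 g7, h4 U' g11 g1 s g7 g8 (fun j b hj => ?_) fun j b hj => ?_,
      by rw [g5, g9, Multiset.map_cons, Multiset.sum_cons, mul_add], ?_⟩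
    · obtain ⟨v, hv, w, -, f⟩ := g7.exists_of_mem hj
      have f1 : Q ((N ^ (j + 1)) v) = 1 := by simp [f.hx, Tag.qx]
      exact ⟨not_lt.mp fun f2 => zero_ne_one
        ((h.Q_eq_zero (h0 v (g11 hv)) (by omega)).symm.trans f1), v, hv, f1⟩
    · obtain ⟨v, hv, w, hw, f⟩ := g7.exists_of_mem hj
      exact ⟨not_lt.mp fun f2 => zero_ne_one ((h.gg_eq_zero v (h0 w (g11 hw)) (by omega)).symm.trans
        ((f.hxy (2 * j)).trans (if_pos rfl))), v, hv, by simp [f.hx, Tag.qx]⟩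
    · rw [g6, g10, Multiset.countP_cons]
      cases τ.sgn <;> simp [Nat.even_add_one]
  obtain ⟨k, rfl | rfl⟩ := m.even_or_odd'
  · obtain ⟨b, x, hx, y, hy, h3, h4⟩ := h.step_odd hU hδ h0 hx hy (by rwa [gg_even] at h2)
    refine key _ x hx y hy h3 rfl (by simp) fun U' g1 g2 s _ g3 g4 g5 => ?_
    have g6 : .v k true ∉ s := fun hk => by have := (g4 _ _ hk).1; omega
    cases b
    · exact g3.cons_w1f g6
    refine g3.cons_w1t g6 (fun hk => ?_) fun j b hj hk => ?_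
    · obtain ⟨-, v, hv, f⟩ := g5 _ _ hk
      exact zero_ne_one ((h4 rfl v (g1 hv) (g2 hv)).symm.trans f)
    · obtain ⟨-, v, hv, f⟩ := g4 _ _ hk
      exact zero_ne_one ((h4 rfl v (g1 hv) (g2 hv)).symm.trans (hj ▸ f))
  by_cases H : ∃ x ∈ U, ∃ y ∈ U, polar Q ((N ^ k) x) ((N ^ (k + 1)) y) = 1 ∧
      Q ((N ^ (k + 1)) x) = 0 ∧ Q ((N ^ (k + 1)) y) = 0
  · obtain ⟨x, hx, y, hy, h3, h4, h5⟩ := H
    obtain ⟨x, hx, y, hy, h6⟩ := h.exists_w0 (δ := δ) hU h0 hx hy h3 h4 h5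
    exact key _ x hx y hy h6 rfl (by simp) fun _ _ _ _ _ g _ _ => g.cons_w0
  obtain ⟨x, hx, h3⟩ : ∃ x ∈ U, Q ((N ^ (k + 1)) x) ≠ 0 := by
    by_contra! h3
    rw [gg_odd] at h2
    exact H ⟨_, U.smul_mem (polar Q ((N ^ k) x) ((N ^ (k + 1)) y))⁻¹ hx, y, hy, by
      rw [map_smul, polar_smul_left', inv_mul_cancel₀ h2], h3 _ (U.smul_mem _ hx), h3 y hy⟩
  obtain ⟨b, x, hx, h4, h5⟩ := h.step_v hU hδ h0 hx h3
  refine key _ x hx 0 U.zero_mem h4 rfl (by simp) fun U' g1 g2 s g7 g3 g4 g5 => ?_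
  have g6 : .v (k + 1) true ∉ s := fun hk => by have := (g4 _ _ hk).1; omega
  have g8 : .w1 (k + 1) true ∉ s := fun hk => by have := (g5 _ _ hk).1; omega
  cases b
  · refine g3.cons_vf (not_lt.mp fun f => H ?_) g6 g8
    obtain ⟨a, ha, c, hc, f1, f2, f3⟩ := g7.exists_two f
    have f4 : ∀ v ∈ U', ∀ i j, polar Q ((N ^ i) x) ((N ^ j) v) = 0 := fun v hv i j =>
      (h.inv_orth (inv_gen _ _)).pow j (g2 hv) _ ((inv_gen _ _).pow i (left_mem_pc _ _ _))
    refine ⟨x + a, U.add_mem hx (g1 ha), a + c, U.add_mem (g1 ha) (g1 hc), ?_, ?_, ?_⟩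
    · simp [polar_add_left, polar_add_right, f4 a ha, f4 c hc, f3, ← h.Q_pow, f1]
    · rw [map_add, Q_add, f4 a ha, f1, h4.hx, Tag.qx, if_pos rfl]
      linear_combination h.two
    · rw [map_add, Q_add, f1, f2, h.polar_eq_zero a (h0 c (g1 hc)) (by omega)]
      linear_combination h.two
  · refine g3.cons_vt (fun b hk => ?_) (fun b hk => ?_) (fun j b hj hk => ?_) g6 g8
    · obtain ⟨-, v, hv, f⟩ := g4 _ _ hk
      exact zero_ne_one ((h5 rfl v (g1 hv) (g2 hv)).2.symm.trans f)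
    · obtain ⟨-, v, hv, f⟩ := g5 _ _ hk
      exact zero_ne_one ((h5 rfl v (g1 hv) (g2 hv)).1.symm.trans f)
    · obtain ⟨-, v, hv, f⟩ := g4 _ _ hk
      exact zero_ne_one ((h5 rfl v (g1 hv) (g2 hv)).1.symm.trans (hj ▸ f))

end Uni

end Cfsg.Lib.Known.W2
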