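import Mathlib
import Cfsg.Agent.Known.ShapeNum

/-!
Numerical estimates for the class numbers of symplectic and orthogonal groups in characteristic
two.
-/

set_option autoImplicit false

namespace Cfsg.Lib.Known.W2

open Finset

/-- The half dimension used by the extra data on level `k`. -/
def cst (k : ℕ) (x : Fin 3 × Bool) : ℕ :=
  (k + 1) * x.1 + if x.1 = 0 ∧ x.2 = true then 2 * k + 1 else 0

/-- The weight of the extra data on the levels `k, …, k + r - 1`. -/
noncomputable def wgt : (r : ℕ) → ℕ → Bool → (Fin r → Fin 3 × Bool) → ℝ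
  | 0, _, _, _ => 1
  | r + 1, k, al, d => (if (d 0).2 = true ∧ al = false then 0 else (1 / 2) ^ cst k (d 0)) *
      wgt r (k + 1) (decide ((d 0).1 = 0)) (Fin.tail d)

/-- The total weight. -/
noncomputable def tot (r k : ℕ) (al : Bool) : ℝ := ∑ d, wgt r k al d

theorem wgt_nonneg (r k : ℕ) (al : Bool) (d : Fin r → Fin 3 × Bool) : 0 ≤ wgt r k al d := by
  induction r generalizing k al with
  | zero => exact zero_le_one
  | succ r ih => exact mul_nonneg (by split_ifs <;> positivity) (ih _ _ _)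

theorem wgt_eq (r k : ℕ) (al : Bool) (d : ℕ → Fin 3 × Bool) (h0 : (d 0).2 = true → al = true)
    (h : ∀ j, (d (j + 1)).2 = true → (d j).1 = 0) :
    wgt r k al (fun i => d i) = (1 / 2) ^ ∑ i ∈ range r, cst (k + i) (d i) := by
  induction r generalizing k al d with
  | zero => simp [wgt]
  | succ r ih =>
    rw [wgt, sum_range_succ', pow_add, mul_comm, if_neg fun h1 => by simp [h0 h1.1] at h1]
    congr 1
    refine (ih (k + 1) (decide ((d 0).1 = 0)) (fun j => d (j + 1))
      (fun h1 => by simp [h 0 h1]) fun j => h (j + 1)).trans ?_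
    simp only [add_assoc, add_comm 1]

theorem tot_zero (k : ℕ) (al : Bool) : tot 0 k al = 1 := by simp [tot, wgt]

theorem tot_succ (r k : ℕ) (al : Bool) : tot (r + 1) k al =
    (1 + if al = true then (1 / 2) ^ (2 * k + 1) else 0) * tot r (k + 1) true +
      (if al = true then 2 else 1) * ((1 / 2) ^ (k + 1) + ((1 / 2) ^ (k + 1)) ^ 2) *
        tot r (k + 1) false := by
  rw [tot, ← (Fin.consEquiv fun _ => Fin 3 × Bool).sum_comp, Fintype.sum_prod_type]
  have : ∀ x y, (Fin.consEquiv fun _ : Fin (r + 1) => Fin 3 × Bool) (x, y) = Fin.cons x y :=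
    fun _ _ => rfl
  simp only [wgt, this, Fin.cons_zero, Fin.tail_cons, ← mul_sum]
  cases al <;> simp [Fintype.sum_prod_type, Fin.sum_univ_three, cst, tot, pow_mul] <;> ring

theorem tot_tail (r : ℕ) {k : ℕ} (hk : 8 ≤ k) (al : Bool) : tot r k al ≤ 1 + 2.1 * (1 / 2) ^ k := by
  induction r generalizing k al with
  | zero => rw [tot_zero]; exact le_add_of_nonneg_right (by positivity)
  | succ r ih =>
    have h1 := ih (k := k + 1) (by omega) true
    have h2 := ih (k := k + 1) (by omega) false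
    have h3 : (1 / 2 : ℝ) ^ k ≤ (1 / 2) ^ 8 := pow_le_pow_of_le_one (by norm_num) (by norm_num) hk
    have h4 : (0 : ℝ) ≤ (1 / 2) ^ k := by positivity
    rw [tot_succ, pow_succ, mul_comm 2 k, pow_mul]
    rw [pow_succ _ k] at h1 h2 ⊢
    generalize (1 / 2 : ℝ) ^ k = z at *
    refine (add_le_add (mul_le_mul (b := 1 + z ^ 2 * (1 / 2)) ?_ h1 ?_ (by positivity))
      (mul_le_mul (b := 2 * (z * (1 / 2) + (z * (1 / 2)) ^ 2)) ?_ h2 ?_ (by positivity))).trans ?_
    · split_ifs <;> nlinarith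
    · exact sum_nonneg fun _ _ => wgt_nonneg _ _ _ _
    · split_ifs <;> nlinarith
    · exact sum_nonneg fun _ _ => wgt_nonneg _ _ _ _
    · nlinarith [mul_le_mul_of_nonneg_left h3 h4, mul_le_mul_of_nonneg_left h3 (mul_nonneg h4 h4)]

theorem tot_step {k : ℕ} {a b a' b' : ℝ} (h : ∀ r, tot r (k + 1) true ≤ a ∧ tot r (k + 1) false ≤ b)
    (h1 : (1 + (1 / 2) ^ (2 * k + 1)) * a +
      2 * ((1 / 2) ^ (k + 1) + ((1 / 2) ^ (k + 1)) ^ 2) * b ≤ a')
    (h2 : a + ((1 / 2) ^ (k + 1) + ((1 / 2) ^ (k + 1)) ^ 2) * b ≤ b') (r : ℕ) :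
    tot r k true ≤ a' ∧ tot r k false ≤ b' := by
  have h3 : 1 ≤ a := tot_zero (k + 1) true ▸ (h 0).1
  have h4 : 1 ≤ b := tot_zero (k + 1) false ▸ (h 0).2
  have h5 : (0 : ℝ) ≤ (1 / 2) ^ (2 * k + 1) := by positivity
  have h6 : (0 : ℝ) ≤ (1 / 2) ^ (k + 1) + ((1 / 2) ^ (k + 1)) ^ 2 := by positivity
  rcases r with _ | r
  · simp only [tot_zero]
    constructor <;> nlinarith
  · simp only [tot_succ, if_true, Bool.false_eq_true, if_false]
    constructor <;> nlinarith [(h r).1, (h r).2]

theorem tot_le (r : ℕ) : tot r 0 true ≤ 7.373 ∧ tot r 0 false ≤ 4.384 := by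
  have h : ∀ r, tot r 12 true ≤ 1.000513 ∧ tot r 12 false ≤ 1.000513 := fun r =>
    ⟨(tot_tail r (by norm_num) _).trans (by norm_num),
      (tot_tail r (by norm_num) _).trans (by norm_num)⟩
  replace h := tot_step (a' := 1.001002) (b' := 1.000758) h (by norm_num) (by norm_num)
  replace h := tot_step (a' := 1.001981) (b' := 1.001491) h (by norm_num) (by norm_num)
  replace h := tot_step (a' := 1.003941) (b' := 1.00296) h (by norm_num) (by norm_num)
  replace h := tot_step (a' := 1.007875) (b' := 1.005904) h (by norm_num) (by norm_num)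
  replace h := tot_step (a' := 1.015796) (b' := 1.01182) h (by norm_num) (by norm_num)
  replace h := tot_step (a' := 1.031854) (b' := 1.023763) h (by norm_num) (by norm_num)
  replace h := tot_step (a' := 1.064851) (b' := 1.048101) h (by norm_num) (by norm_num)
  replace h := tot_step (a' := 1.134485) (b' := 1.098628) h (by norm_num) (by norm_num)
  replace h := tot_step (a' := 1.28926) (b' := 1.207441) h (by norm_num) (by norm_num)
  replace h := tot_step (a' := 1.669143) (b' := 1.459057) h (by norm_num) (by norm_num)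
  replace h := tot_step (a' := 2.789697) (b' := 2.125099) h (by norm_num) (by norm_num)
  exact tot_step h (by norm_num) (by norm_num) r

theorem shapeSum_palW_two {r : ℕ} (hr : 16 ≤ r) (n : ℕ) :
    (shapeSum (fun _ => palW 2) r n : ℝ) ≤ 3.4629 * √2 ^ n := by
  have key : ∀ r, 1 ≤ r → GenLe (palW 2) ((√2)⁻¹ ^ (r + 1)) (1 - (1 / 2) ^ r)⁻¹ := fun r hr => by
    have h1 : ((2 : ℕ) : ℝ) * ((√2)⁻¹ ^ (r + 1)) ^ 2 = (1 / 2) ^ r := by
      rw [← pow_mul, mul_comm (r + 1), pow_mul, inv_pow, Real.sq_sqrt (by norm_num), pow_succ,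
        one_div]
      push_cast
      ring
    exact h1 ▸ genLe_palW 2 (by positivity)
      (h1 ▸ pow_lt_one₀ (by norm_num) (by norm_num) (by omega))
  refine shapeSum_tail (r₀ := 16) (c := 2.01) (z := 1 / 2) (by positivity) (by norm_num)
    (by norm_num) (by norm_num) (by norm_num) (fun n => (shapeSum_steps (r₀ := 1) (D := 1)
      (by positivity) (fun n => ?_) (fun i => key (1 + i) (by omega)) 15 n).trans
      (mul_le_mul_of_nonneg_right ?_ (by positivity))) (fun r hr => ?_) hr n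
  · rw [shapeSum_one, palW, one_mul]
    split_ifs with h
    · obtain ⟨k, rfl⟩ := h
      rw [← two_mul, pow_mul, Real.sq_sqrt (by norm_num)]
      simp
    · simp
  · simp only [prod_range_succ, prod_range_zero]; norm_num
  · refine (key r (by omega)).mono (by positivity) le_rfl ?_
    have h1 : (1 / 2 : ℝ) ^ r ≤ (1 / 2) ^ 16 := pow_le_pow_of_le_one (by norm_num) (by norm_num) hr
    have h2 : (0 : ℝ) ≤ (1 / 2) ^ r := by positivity
    generalize (1 / 2 : ℝ) ^ r = z at *
    rw [inv_eq_one_div, div_le_iff₀ (by norm_num at h1; linarith)]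
    nlinarith [mul_le_mul_of_nonneg_left h1 h2]

theorem shapeSum_palW_le {q : ℕ} (hq : 2 ≤ q) {r : ℕ} (hr : 16 ≤ r) {n m : ℕ} (hm : m ≤ n) :
    (shapeSum (fun _ => palW q) r (2 * (n - m)) : ℝ) ≤ 3.4629 * q ^ n * (1 / 2) ^ m := by
  obtain ⟨n, rfl⟩ := Nat.exists_eq_add_of_le hm
  rw [Nat.add_sub_cancel_left]
  have h1 := shapeSum_compare (w := fun _ => palW q) (w' := fun _ => palW 2) hq
    (fun _ => palW_compare 2 q) r (2 * n)
  have h2 := shapeSum_palW_two hr (2 * n)
  rw [pow_mul, Real.sq_sqrt (by norm_num)] at h2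
  rw [Nat.mul_div_cancel_left _ two_pos, ← Nat.cast_le (α := ℝ)] at h1
  push_cast at h1
  have h3 : (shapeSum (fun _ => palW q) r (2 * n) : ℝ) ≤ 3.4629 * q ^ n :=
    le_of_mul_le_mul_right (h1.trans ((mul_le_mul_of_nonneg_right h2 (by positivity)).trans_eq
      (by ring))) (by positivity)
  refine h3.trans ?_
  have h4 : (1 : ℝ) ≤ (q * (1 / 2)) ^ m := one_le_pow₀ (by
    have : (2 : ℝ) ≤ q := by exact_mod_cast hq
    linarith)
  rw [pow_add, mul_comm ((q : ℝ) ^ m), ← mul_assoc, mul_assoc _ ((q : ℝ) ^ m), ← mul_pow]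
  exact le_mul_of_one_le_right (by positivity) h4

end Cfsg.Lib.Known.W2
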