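import Mathlib
import Cfsg.Agent.Known.W2Num
import Cfsg.Agent.Known.W2Exist
import Cfsg.Agent.Known.WallCount

/-!
Counting types of isometries in characteristic two.
-/

set_option autoImplicit false

namespace Cfsg.Lib.Known.W2

open Module Polynomial Finset

variable {F : Type*} [Field F]

theorem palin_of_not_isRoot (h2 : (2 : F) = 0) {f : F[X]} (h : SelfDual f) (h1 : ¬ f.IsRoot 1) :
    Palin f f.natDegree := by
  have h0 : f.coeff 0 = 1 := by
    simpa [rootMultiplicity_eq_zero h1] using h.sign (one_mul 1)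
  refine ⟨⟨h.1, rfl⟩, ⟨h.2.2, h0⟩, Nat.not_odd_iff_even.mp fun ho => h1 ?_⟩
  have h3 := (dualPoly_eq_self_iff rfl).mp h.2.2
  simp only [h0, RingHom.id_apply, inv_one, one_mul] at h3
  rw [IsRoot.def, eval_eq_sum_range]
  simp only [one_pow, mul_one]
  obtain ⟨k, hk⟩ := ho
  refine sum_involution (fun i _ => f.natDegree - i) (fun i hi => ?_) (fun i hi _ => by omega)
    (fun i hi => mem_range.mpr (by omega)) fun i hi => by have := mem_range.mp hi; omega
  rw [h3 i (Nat.lt_succ_iff.mp (mem_range.mp hi))]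
  linear_combination f.coeff i * h2

theorem palin_mul_pow {f : F[X]} {m : ℕ} (h : Palin f m) (a : ℕ) :
    Palin (f * (X - C 1) ^ (2 * a)) (m + 2 * a) := by
  have h1 := (monic_X_sub_C (1 : F)).pow (n := 2 * a)
  refine ⟨⟨h.1.1.mul h1, by rw [h.1.1.natDegree_mul h1, h.1.2, natDegree_pow, natDegree_X_sub_C,
    mul_one]⟩, ⟨by rw [dualPoly_mul, dualPoly_pow, h.2.1.1, dualPoly_id_X_sub_C (one_mul 1)], ?_⟩,
    h.2.2.add (even_two_mul a)⟩
  rw [mul_coeff_zero, h.2.1.2, coeff_zero_eq_eval_zero]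
  simp

theorem not_isRoot_layer {t : Multiset (F[X] × ℕ)} (ht : NoPM t) (e : ℕ) :
    ¬ (layer t e).IsRoot 1 := fun h => by
  classical
  have h1 := (rootMultiplicity_pos (ht.1.1.monic_layer e).ne_zero).mpr h
  rw [ht.1.1.rootMultiplicity_layer, Multiset.count_pos] at h1
  exact ht.2.2 _ h1 1 (one_mul 1) rfl

variable [Finite F] (h2 : (2 : F) = 0) {Y : Type*} (t : Y → Multiset (F[X] × ℕ))
  (ht : ∀ y, NoPM (t y))
include h2 ht

theorem card_le_of_layers (α : Y → ℕ → ℕ) {R N : ℕ} (hR : ∀ y, elDeg (t y) ≤ R)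
    (hdim : ∀ y, elDeg (t y) + 2 * ∑ i ∈ range R, (i + 1) * α y i = N)
    (hinj : ∀ y y', t y = t y' → (∀ i < R, α y i = α y' i) → y = y') :
    Finite Y ∧ Nat.card Y ≤ shapeSum (fun _ => palW (Nat.card F)) R N := by
  have h1 := fun y e => palin_of_not_isRoot h2 ((ht y).1.selfDual_layer (ht y).2.1 e)
    (not_isRoot_layer (ht y) e)
  let φ : Y → Σ μ : shapes R N, ∀ i : Fin R, {p : F[X] // Palin p (μ.1 i) ∧ True} := fun y =>
    ⟨⟨fun i => (layer (t y) (i + 1)).natDegree + 2 * α y i, mem_shapes.mpr (by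
      rw [← hdim y, (ht y).1.1.elDeg_eq_sum_layer fun x hx =>
        ((ht y).1.1.snd_le_elDeg hx).trans (hR y), mul_sum, sum_range, ← sum_add_distrib]
      exact sum_congr rfl fun i _ => by ring)⟩,
      fun i => ⟨_, palin_mul_pow (h1 y (i + 1)) (α y i), trivial⟩⟩
  have hφ : Function.Injective φ := fun y y' h => by
    have h3 : ∀ i : Fin R, layer (t y) (i + 1) * (X - C 1) ^ (2 * α y i) =
        layer (t y') (i + 1) * (X - C 1) ^ (2 * α y' i) := fun i =>
      congrArg (fun x : Σ μ : shapes R N, ∀ i : Fin R, {p : F[X] // Palin p (μ.1 i) ∧ True} =>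
        (x.2 i).1) h
    have h4 : ∀ y (i : ℕ), (layer (t y) (i + 1) * (X - C 1) ^ (2 * α y i)).rootMultiplicity 1 =
        2 * α y i := fun y i => by
      rw [rootMultiplicity_mul_X_sub_C_pow (h1 y _).1.1.ne_zero,
        rootMultiplicity_eq_zero (not_isRoot_layer (ht y) _), zero_add]
    have h5 : ∀ i < R, α y i = α y' i := fun i hi => by
      have := h4 y i
      rw [h3 ⟨i, hi⟩, h4] at this
      simpa using this.symm
    exact hinj y y' ((ht y).1.1.eq_of_layer_fin (ht y').1.1 (hR y) (hR y') fun i =>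
      mul_right_cancel₀ (pow_ne_zero _ (X_sub_C_ne_zero 1)) (h5 i i.2 ▸ h3 i)) h5
  refine ⟨Finite.of_injective φ hφ, (Nat.card_le_card_of_injective φ hφ).trans ?_⟩
  rw [Nat.card_sigma, shapeSum, ← sum_coe_sort (shapes R N)]
  exact sum_le_sum fun μ _ => by simp [Nat.card_pi, card_palin]

omit h2 ht [Finite F] in
theorem sum_range_two_mul (f : ℕ → ℕ) (r : ℕ) :
    ∑ i ∈ range (2 * r), f i = ∑ k ∈ range r, (f (2 * k) + f (2 * k + 1)) := by
  induction r with
  | zero => simp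
  | succ r ih => rw [mul_add, mul_one, sum_range_succ, sum_range_succ, ih, sum_range_succ, add_assoc]

theorem card_le_of_data (a₀ a₁ : Y → ℕ → ℕ) (d : Y → ℕ → Fin 3 × Bool) {n r : ℕ} (hr : n ≤ r)
    (hr' : 8 ≤ r) (al : Bool) (hb : ∀ y k, (d y k).2 = true → (d y k).1 = 0 → a₁ y k ≠ 0)
    (h0 : ∀ y, (d y 0).2 = true → al = true)
    (hb' : ∀ y k, (d y (k + 1)).2 = true → (d y k).1 = 0)
    (hdim : ∀ y, elDeg (t y) + 2 * ∑ k ∈ range r,
      ((2 * k + 1) * a₁ y k + (k + 1) * (d y k).1 + (2 * k + 2) * a₀ y k) = 2 * n)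
    (hinj : ∀ y y', t y = t y' →
      (∀ k < r, a₀ y k = a₀ y' k ∧ a₁ y k = a₁ y' k ∧ d y k = d y' k) → y = y') :
    Finite Y ∧ ∀ S : Finset (Fin r → Fin 3 × Bool), (∀ y, (fun i : Fin r => d y i) ∈ S) →
      (Nat.card Y : ℝ) ≤ 3.4629 * Nat.card F ^ n * ∑ e ∈ S, wgt r 0 al e := by
  classical
  let D : Y → Fin r → Fin 3 × Bool := fun y i => d y i
  let c : Fin 3 × Bool → ℕ := fun x => if x.1 = 0 ∧ x.2 = true then 1 else 0
  have hc : ∀ y k, c (d y k) ≤ a₁ y k := fun y k => by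
    simp only [c]
    split_ifs with h
    · exact Nat.one_le_iff_ne_zero.mpr (hb y k h.2 h.1)
    · exact Nat.zero_le _
  have key : ∀ e, Finite {y // D y = e} ∧ (Nat.card {y // D y = e} : ℝ) ≤
      3.4629 * Nat.card F ^ n * if ∃ y, D y = e then wgt r 0 al e else 0 := fun e => by
    split_ifs with h
    swap
    · have : IsEmpty {y // D y = e} := ⟨fun y => h ⟨y, y.2⟩⟩
      exact ⟨inferInstance, by simp⟩
    obtain ⟨y₀, rfl⟩ := h
    have h3 : ∀ y : {y // D y = D y₀}, ∀ k < r, d y k = d y₀ k := fun y k hk =>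
      congrFun y.2 ⟨k, hk⟩
    set m := ∑ i ∈ range r, cst (0 + i) (d y₀ i) with hm
    let α : {y // D y = D y₀} → ℕ → ℕ := fun y i =>
      if i % 2 = 0 then a₁ y (i / 2) - c (d y (i / 2)) else a₀ y (i / 2)
    have α0 : ∀ y k, α y (2 * k) = a₁ y k - c (d y k) := fun y k => by simp [α]
    have α1 : ∀ y k, α y (2 * k + 1) = a₀ y k := fun y k => by
      simp [α, show (2 * k + 1) / 2 = k by omega]
    have h4 : ∀ y : {y // D y = D y₀},
        elDeg (t y) + 2 * ∑ i ∈ range (2 * r), (i + 1) * α y i + 2 * m = 2 * n := fun y => by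
      rw [← hdim y, sum_range_two_mul, add_assoc, ← mul_add, hm, ← sum_add_distrib]
      congr 2
      refine sum_congr rfl fun k hk => ?_
      obtain ⟨j, hj⟩ := Nat.exists_eq_add_of_le (hc y k)
      rw [α0, α1, ← h3 y k (mem_range.mp hk), hj, Nat.add_sub_cancel_left, cst, zero_add]
      simp only [c]
      split_ifs <;> ring
    have h5 := card_le_of_layers h2 (fun y : {y // D y = D y₀} => t y) (fun y => ht y) α
      (R := 2 * r) (N := 2 * (n - m)) (fun y => by have := h4 y; omega)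
      (fun y => by have := h4 y; omega) fun y y' h5 h6 => Subtype.ext (hinj y y' h5 fun k hk => by
        have h7 := (h3 y k hk).trans (h3 y' k hk).symm
        have h8 := h6 (2 * k) (by omega)
        have h9 := hc y k
        have h10 := hc y' k
        rw [α0, α0, ← h7] at h8
        rw [← h7] at h10
        exact ⟨by rw [← α1, ← α1, h6 _ (by omega)], by omega, h7⟩)
    refine ⟨h5.1, (Nat.cast_le.mpr h5.2).trans ?_⟩
    rw [wgt_eq r 0 al (d y₀) (h0 y₀) (hb' y₀)]
    exact shapeSum_palW_le Finite.one_lt_card (by omega) (by have := h4 ⟨y₀, rfl⟩; omega)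
  have := fun e => (key e).1
  refine ⟨Finite.of_equiv _ (Equiv.sigmaFiberEquiv D), fun S hS => ?_⟩
  rw [← Nat.card_congr (Equiv.sigmaFiberEquiv D), Nat.card_sigma, Nat.cast_sum]
  refine (sum_le_sum fun e _ => (key e).2).trans ?_
  rw [← mul_sum, ← sum_filter]
  refine mul_le_mul_of_nonneg_left (sum_le_sum_of_subset_of_nonneg (fun e he => ?_)
    fun _ _ _ => wgt_nonneg _ _ _ _) (by positivity)
  obtain ⟨y, rfl⟩ := (mem_filter.mp he).2
  exact hS y

end Cfsg.Lib.Known.W2
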