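import Mathlib
import Cfsg.Agent.Known.W2Count
import Cfsg.Agent.Known.WallLower

/-!
Upper bounds for the class numbers of symplectic and orthogonal groups in characteristic two.
-/

set_option autoImplicit false

namespace Cfsg.Lib.Known.W2

open Module Polynomial Finset QuadraticMap Cfsg.Lib.Class Cfsg.Lib.Class.Orth

/-! ### Numerical data of admissible multisets -/

/-- The number of pieces `W(2k+1)`. -/
noncomputable def cW (s : Multiset Tag) (k : ℕ) : ℕ := s.count (.w1 k false) + s.count (.w1 k true)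

/-- The number of pieces `V(2k+2)`. -/
noncomputable def cV (s : Multiset Tag) (k : ℕ) : ℕ := s.count (.v k false) + s.count (.v k true)

/-- The number of signs on level `k`. -/
noncomputable def cS (s : Multiset Tag) (k : ℕ) : ℕ := s.count (.v k true) + s.count (.w1 k true)

/-- The level of a piece. -/
def Tag.lev : Tag → ℕ
  | .w1 k _ => k
  | .v k _ => k
  | .w0 k => k

theorem sum_map_eq (f : Tag → ℕ) {r : ℕ} {s : Multiset Tag} (hs : ∀ τ ∈ s, τ.lev < r) :
    (s.map f).sum = ∑ k ∈ range r, (s.count (.w1 k false) * f (.w1 k false) +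
      s.count (.w1 k true) * f (.w1 k true) + s.count (.v k false) * f (.v k false) +
      s.count (.v k true) * f (.v k true) + s.count (.w0 k) * f (.w0 k)) := by
  induction s using Multiset.induction_on with
  | empty => simp
  | cons τ s ih =>
    have h1 := hs τ (Multiset.mem_cons_self _ _)
    rw [Multiset.map_cons, Multiset.sum_cons, ih fun σ h => hs σ (Multiset.mem_cons_of_mem h)]
    simp only [Multiset.count_cons, add_mul, sum_add_distrib]
    rcases τ with ⟨k, _ | _⟩ | ⟨k, _ | _⟩ | k <;> simp [Tag.lev] at h1 <;> simp [h1] <;> ring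

theorem lev_lt {r : ℕ} {s : Multiset Tag} (hs : (s.map Tag.dim).sum ≤ r) :
    ∀ τ ∈ s, τ.lev < r := fun τ h => by
  have h1 := Multiset.single_le_sum (fun _ _ => Nat.zero_le _) _ (Multiset.mem_map_of_mem Tag.dim h)
  have : τ.lev < τ.dim := by cases τ <;> simp [Tag.lev, Tag.dim] <;> omega
  omega

theorem sum_dim_eq {r : ℕ} {s : Multiset Tag} (hs : (s.map Tag.dim).sum ≤ r) :
    (s.map Tag.dim).sum = ∑ k ∈ range r,
      ((2 * k + 1) * cW s k + (k + 1) * cV s k + (2 * k + 2) * s.count (.w0 k)) := by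
  rw [sum_map_eq _ (lev_lt hs)]
  exact sum_congr rfl fun k _ => by simp only [Tag.dim, cW, cV]; ring

theorem countP_sgn_eq {r : ℕ} {s : Multiset Tag} (hs : (s.map Tag.dim).sum ≤ r) :
    (s.countP fun τ => τ.sgn = true) = ∑ k ∈ range r, cS s k := by
  have : (s.countP fun τ => τ.sgn = true) =
      (s.map fun τ => if τ.sgn = true then 1 else 0).sum := by
    clear hs
    induction s using Multiset.induction_on with
    | empty => simp
    | cons τ s ih => rw [Multiset.countP_cons, ih, Multiset.map_cons, Multiset.sum_cons, add_comm]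
  rw [this, sum_map_eq _ (lev_lt hs)]
  exact sum_congr rfl fun k _ => by simp [Tag.sgn, cS, add_comm]

theorem count_map_forget (s : Multiset Tag) (k : ℕ) (b : Bool) :
    (s.map Tag.forget).count (.w0 k) = s.count (.w0 k) ∧
    (s.map Tag.forget).count (.w1 k b) =
      (if k = 0 then (if b = true then 0 else cW s 0) else s.count (.w1 k b)) ∧
    (s.map Tag.forget).count (.v k b) =
      (if k = 0 then (if b = true then 0 else cV s 0) else s.count (.v k b)) := by
  induction s using Multiset.induction_on with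
  | empty => simp [cW, cV]
  | cons τ s ih =>
    simp only [Multiset.map_cons, Multiset.count_cons, ih, cW, cV]
    rcases τ with ⟨j, _ | _⟩ | ⟨j, _ | _⟩ | j <;> rcases k with _ | k <;> rcases j with _ | j <;>
      cases b <;> simp [Tag.forget] <;> omega

theorem Adm.count_eq {s s' : Multiset Tag} (h : Adm s) (h' : Adm s') {k : ℕ}
    (h1 : cW s k = cW s' k) (h2 : cV s k = cV s' k) (h3 : cS s k = 0 ↔ cS s' k = 0) (b : Bool) :
    s.count (.w1 k b) = s'.count (.w1 k b) ∧ s.count (.v k b) = s'.count (.v k b) := by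
  have := h.a2 k
  have := h'.a2 k
  have := h.a3 k
  have := h'.a3 k
  simp only [cW, cV, cS] at *
  cases b <;> omega

theorem count_eq_zero_of_le {r : ℕ} {s : Multiset Tag} (hs : (s.map Tag.dim).sum ≤ r) {τ : Tag}
    (h : r ≤ τ.lev) : s.count τ = 0 :=
  Multiset.count_eq_zero.mpr fun h1 => (lev_lt hs τ h1).not_ge h

theorem Adm.eq_of {s s' : Multiset Tag} (h : Adm s) (h' : Adm s') {r : ℕ}
    (hs : (s.map Tag.dim).sum ≤ r) (hs' : (s'.map Tag.dim).sum ≤ r)
    (h1 : ∀ k < r, s.count (.w0 k) = s'.count (.w0 k) ∧ cW s k = cW s' k ∧ cV s k = cV s' k ∧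
      (cS s k = 0 ↔ cS s' k = 0)) : s = s' := by
  ext τ
  rcases lt_or_ge τ.lev r with h2 | h2
  · obtain ⟨h3, h4, h5, h6⟩ := h1 _ h2
    rcases τ with ⟨k, b⟩ | ⟨k, b⟩ | k
    exacts [(h.count_eq h' h4 h5 h6 b).1, (h.count_eq h' h4 h5 h6 b).2, h3]
  · rw [count_eq_zero_of_le hs h2, count_eq_zero_of_le hs' h2]

theorem Adm.map_forget_eq_of {s s' : Multiset Tag} (h : Adm s) (h' : Adm s') {r : ℕ}
    (hs : (s.map Tag.dim).sum ≤ r) (hs' : (s'.map Tag.dim).sum ≤ r) (hr : 0 < r)
    (h1 : ∀ k < r, s.count (.w0 k) = s'.count (.w0 k) ∧ cW s k = cW s' k ∧ cV s k = cV s' k ∧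
      (k ≠ 0 → (cS s k = 0 ↔ cS s' k = 0))) : s.map Tag.forget = s'.map Tag.forget := by
  ext τ
  have h0 := h1 0 hr
  rcases lt_or_ge τ.lev r with h2 | h2
  · obtain ⟨h3, h4, h5, h6⟩ := h1 _ h2
    rcases τ with ⟨k, b⟩ | ⟨k, b⟩ | k
    · rw [(count_map_forget s k b).2.1, (count_map_forget s' k b).2.1, h0.2.1]
      exact ite_congr rfl (fun _ => rfl) fun hk => (h.count_eq h' h4 h5 (h6 hk) b).1
    · rw [(count_map_forget s k b).2.2, (count_map_forget s' k b).2.2, h0.2.2.1]
      exact ite_congr rfl (fun _ => rfl) fun hk => (h.count_eq h' h4 h5 (h6 hk) b).2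
    · rw [(count_map_forget s k true).1, (count_map_forget s' k true).1]
      exact h3
  · have h3 := (count_eq_zero_of_le hs h2).trans (count_eq_zero_of_le hs' h2).symm
    rcases τ with ⟨k, b⟩ | ⟨k, b⟩ | k
    · rw [(count_map_forget s k b).2.1, (count_map_forget s' k b).2.1, h0.2.1, h3]
    · rw [(count_map_forget s k b).2.2, (count_map_forget s' k b).2.2, h0.2.2.1, h3]
    · rw [(count_map_forget s k true).1, (count_map_forget s' k true).1, h3]

/-! ### The data of an isometry -/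

variable {F V W : Type*} [Field F] [AddCommGroup V] [Module F V] [AddCommGroup W] [Module F W]
  [FiniteDimensional F V] [FiniteDimensional F W] {Q : QuadraticForm F V} {Q' : QuadraticForm F W}
  {g : End F V} {g' : End F W} {δ : F} {t : Multiset (F[X] × ℕ)} {s s' : Multiset Tag}

/-- `t` are the elementary divisors of the part of `g` without eigenvalue one, `s` is a normal form
of the unipotent part. -/
def Dat (Q : QuadraticForm F V) (g : End F V) (δ : F) (t : Multiset (F[X] × ℕ))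
    (s : Multiset Tag) : Prop :=
  ∃ (U R : Submodule F V) (hU : ∀ v ∈ U, g v ∈ U) (hR : ∀ v ∈ R, g v ∈ R), IsCompl U R ∧
    (∀ u ∈ U, ∀ v ∈ R, polar Q u v = 0) ∧ Uni (Q.restrict U) (g.restrict hU - (1 : F) • 1) ∧
    NF (Q.restrict U) (g.restrict hU - (1 : F) • 1) δ ⊤ s ∧ elDiv (g.restrict hR) = t ∧
    (∀ v ∈ R, g v = v → v = 0) ∧
    (IsPlus (Q.restrict U) ↔ Even (s.countP fun τ => τ.sgn = true))

theorem eq_zero_of_sq (h2 : (2 : F) = 0) (h : ∀ v, g v = v → v = 0) (v : V) (hv : g (g v) = v) :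
    v = 0 := h v (sub_eq_zero.mp (h _ (by
  rw [map_sub, hv, ← neg_sub, neg_eq_iff_add_eq_zero, ← two_smul F, h2, zero_smul])))

theorem exists_dat [Finite F] (h2 : (2 : F) = 0) (hδ : ∀ t : F, t ^ 2 + t + δ ≠ 0)
    (hQ : (polarBilin Q).Nondegenerate) (hg : ∀ v, Q (g v) = Q v) : ∃ t s, Dat Q g δ t s ∧
      NoPM t ∧ Adm s ∧ elDeg t + 2 * (s.map Tag.dim).sum = finrank F V := by
  obtain ⟨U, R, hU, hR, hc, hn, -, hinj, -, ho⟩ := exists_fitting g (1 : F)
  replace ho := ho _ _ _ ⟨hform_polar_quad hQ, polar_isometry hg, one_mul 1, rfl⟩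
  have hs := isOSum_of_isCompl Q hc ho
  have h1 : Uni (Q.restrict U) (g.restrict hU - (1 : F) • 1) := ⟨h2, fun x => by
    change Q (g x - (1 : F) • x) = polar Q x (g x - (1 : F) • x)
    rw [one_smul, Q_sub, hg, polar_sub_right, polar_self', polar_comm]
    linear_combination (2 * Q x - polar Q x (g x)) * h2, hn⟩
  have h3 := hs.nondegenerate_left hQ
  obtain ⟨s, h4, h5, h6, h7⟩ := h1.exists_NF (U := ⊤) (fun _ _ => trivial) h3 hδ
    fun u _ hu => h3.1 u fun v => hu v trivial
  have h8 := hform_polar_quad (hs.nondegenerate_right hQ)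
  have h9 : ∀ u v : R, polarBilin (Q.restrict R) (g.restrict hR u) (g.restrict hR v) =
      polarBilin (Q.restrict R) u v := fun u v => polar_isometry hg u v
  refine ⟨_, s, ⟨U, R, hU, hR, hc, ho, h1, h4, rfl, by simpa using hinj, ?_⟩,
    ⟨finrank_eq_elDeg (g.restrict hR) ▸ h8.isGLType_elDiv h9, h8.elDiv_map_dualED h9,
      fun x hx l hl h10 => ?_⟩, h5, ?_⟩
  · rw [← h7]
    exact isPlus_congr Submodule.topEquiv one_ne_zero fun v => (one_mul _).symm
  · obtain rfl : l = 1 := by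
      have : (l - 1) ^ 2 = 0 := by linear_combination hl + (1 - l) * h2
      exact sub_eq_zero.mp (pow_eq_zero_iff two_ne_zero |>.mp this)
    refine (injective_aeval_iff_elDiv _ (X - C 1)).mp ?_ x hx (h10 ▸ dvd_rfl)
    rw [aeval_X_sub_C_End, injective_iff_map_eq_zero]
    exact fun v hv => Subtype.ext (hinj v v.2 (sub_eq_zero.mp (congrArg Subtype.val hv)))
  · rw [← finrank_eq_elDeg, ← h6, finrank_top, hs.finrank_eq, add_comm]

theorem exists_equiv_of_elDiv [Finite F] (h2 : (2 : F) = 0) (hQ : (polarBilin Q).Nondegenerate)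
    (hQ' : (polarBilin Q').Nondegenerate) (hg : ∀ v, Q (g v) = Q v) (hg' : ∀ v, Q' (g' v) = Q' v)
    (h0 : ∀ v, g v = v → v = 0) (he : elDiv g = elDiv g') :
    ∃ e : V ≃ₗ[F] W, (∀ v, e (g v) = g' (e v)) ∧ ∀ v, Q' (e v) = Q v := by
  obtain ⟨x, hx⟩ := sim_iff_elDiv_eq.mpr he
  obtain ⟨y, h3, h4⟩ := EquivEq.exists_isometry (σ := RingHom.id F) x hx (equivEq_of_injective_sq
    (hform_polar_quad hQ) ((hform_polar_quad hQ').comp x) (polar_isometry hg) (fun u v => by
      simp only [pullForm_apply, LinearEquiv.coe_coe, hx, polar_isometry hg']) (eq_zero_of_sq h2 h0))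
  refine ⟨y, h4, fun v => ?_⟩
  obtain ⟨w, rfl⟩ := LinearMap.injective_iff_surjective (f := g - 1).mp
    ((injective_iff_map_eq_zero _).mpr fun v hv => h0 v (sub_eq_zero.mp hv)) v
  have h5 : polar Q' (y (g w)) (y w) = polar Q (g w) w := h3 _ _
  rw [LinearMap.sub_apply, End.one_apply, map_sub, Q_sub, Q_sub, h5, h4, hg, hg']
  linear_combination (Q' (y w) - Q w) * h2

theorem Dat.exists_equiv [Finite F] (h : Dat Q g δ t s) (h' : Dat Q' g' δ t s')
    (hQ : (polarBilin Q).Nondegenerate) (hQ' : (polarBilin Q').Nondegenerate)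
    (hg : ∀ v, Q (g v) = Q v) (hg' : ∀ v, Q' (g' v) = Q' v) {α : Type*} (φ : Tag → α) {b : Prop}
    (hφ : ∀ τ τ', φ τ = φ τ' → Tag.Same δ b τ τ') (hs : s'.map φ = s.map φ) :
    ∃ e : V ≃ₗ[F] W, (∀ v, e (g v) = g' (e v)) ∧ (∀ u v, polar Q' (e u) (e v) = polar Q u v) ∧
      (b → ∀ v, Q' (e v) = Q v) := by
  obtain ⟨U, R, hU, hR, hc, ho, h1, h2, h3, h4, -⟩ := h
  obtain ⟨U', R', hU', hR', hc', ho', h1', h2', h3', -, -⟩ := h'
  have k := isOSum_of_isCompl Q hc ho
  have k' := isOSum_of_isCompl Q' hc' ho'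
  obtain ⟨e₁, a1, a2, a3⟩ := h2.exists_equiv h1 h1' (k.nondegenerate_left hQ)
    (k'.nondegenerate_left hQ') φ hφ h2' hs
  obtain ⟨e₂, b1, b2⟩ := exists_equiv_of_elDiv h1.two (k.nondegenerate_right hQ)
    (k'.nondegenerate_right hQ') (g := g.restrict hR) (g' := g'.restrict hR') (fun v => hg v)
    (fun v => hg' v) (fun v hv => Subtype.ext (h4 v v.2 (congrArg Subtype.val hv)))
    (h3.trans h3'.symm)
  set i := Submodule.prodEquivOfIsCompl U R hc
  set i' := Submodule.prodEquivOfIsCompl U' R' hc'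
  have hi : ∀ u r, (i.symm.trans ((e₁.prodCongr e₂).trans i')) (i (u, r)) = i' (e₁ u, e₂ r) :=
    fun u r => by simp
  refine ⟨i.symm.trans ((e₁.prodCongr e₂).trans i'), fun v => ?_, fun u v => ?_, fun hb v => ?_⟩
  · obtain ⟨⟨u, r⟩, rfl⟩ := i.surjective v
    have a4 : e₁ (g.restrict hU u) = g'.restrict hU' (e₁ u) := by simpa using a1 u
    rw [show g (i (u, r)) = i (g.restrict hU u, g.restrict hR r) from map_add g _ _, hi, hi, a4, b1]
    exact (map_add g' _ _).symm
  · obtain ⟨⟨u, r⟩, rfl⟩ := i.surjective u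
    obtain ⟨⟨u', r'⟩, rfl⟩ := i.surjective v
    rw [hi, hi, k'.polar_eq, k.polar_eq, a2]
    simp only [polar, ← map_add, b2]
  · obtain ⟨⟨u, r⟩, rfl⟩ := i.surjective v
    rw [hi, k', k, a3 hb, b2]

theorem Dat.even_iff [Finite F] {g' : End F V} (h : Dat Q g δ t s) (h' : Dat Q g' δ t s')
    (hQ : (polarBilin Q).Nondegenerate) (hg : ∀ v, Q (g v) = Q v) (hg' : ∀ v, Q (g' v) = Q v) :
    Even (s.countP fun τ => τ.sgn = true) ↔ Even (s'.countP fun τ => τ.sgn = true) := by
  obtain ⟨U, R, hU, hR, hc, ho, h1, -, h3, h4, h5⟩ := h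
  obtain ⟨U', R', hU', hR', hc', ho', -, -, h3', -, h5'⟩ := h'
  have k := isOSum_of_isCompl Q hc ho
  have k' := isOSum_of_isCompl Q hc' ho'
  obtain ⟨e₂, -, b2⟩ := exists_equiv_of_elDiv h1.two (k.nondegenerate_right hQ)
    (k'.nondegenerate_right hQ) (g := g.restrict hR) (g' := g'.restrict hR') (fun v => hg v)
    (fun v => hg' v) (fun v hv => Subtype.ext (h4 v v.2 (congrArg Subtype.val hv)))
    (h3.trans h3'.symm)
  have a1 := k.isPlus_iff hQ (even_finrank_of_two (k.nondegenerate_left hQ) h1.two)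
    (even_finrank_of_two (k.nondegenerate_right hQ) h1.two)
  have a2 := k'.isPlus_iff hQ (even_finrank_of_two (k'.nondegenerate_left hQ) h1.two)
    (even_finrank_of_two (k'.nondegenerate_right hQ) h1.two)
  rw [isPlus_congr e₂ one_ne_zero fun v => (b2 v).trans (one_mul _).symm] at a2
  tauto

/-! ### The bounds -/

theorem card_le_of_adm [Finite F] (h2 : (2 : F) = 0) {Y : Type*} (t : Y → Multiset (F[X] × ℕ))
    (ht : ∀ y, NoPM (t y)) (s : Y → Multiset Tag) (hs : ∀ y, Adm (s y)) (b : Y → ℕ → Bool)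
    {n r : ℕ} (hr : n ≤ r) (hr' : 8 ≤ r) (al : Bool)
    (hb : ∀ y k, b y k = true → cV (s y) k = 0 → cW (s y) k ≠ 0)
    (h0 : ∀ y, b y 0 = true → al = true) (hb' : ∀ y k, b y (k + 1) = true → cV (s y) k = 0)
    (hdim : ∀ y, elDeg (t y) + 2 * ((s y).map Tag.dim).sum = 2 * n)
    (hinj : ∀ y y', t y = t y' → (∀ k < r, (s y).count (.w0 k) = (s y').count (.w0 k) ∧
      cW (s y) k = cW (s y') k ∧ cV (s y) k = cV (s y') k ∧ b y k = b y' k) → y = y') :
    Finite Y ∧ (Nat.card Y : ℝ) ≤ 3.4629 * Nat.card F ^ n * tot r 0 al ∧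
      ((∀ y k, b y k = false ∧ cV (s y) k = 0) → (Nat.card Y : ℝ) ≤ 3.4629 * Nat.card F ^ n) := by
  obtain ⟨h3, h4⟩ := card_le_of_data h2 t ht (fun y k => (s y).count (.w0 k)) (fun y => cW (s y))
    (fun y k => (⟨cV (s y) k, Nat.lt_succ_of_le ((hs y).a1 k)⟩, b y k)) hr hr' al
    (fun y k h3 h4 => hb y k h3 (congrArg Fin.val h4)) h0 (fun y k h3 => Fin.ext (hb' y k h3))
    (fun y => by rw [← sum_dim_eq (by have := hdim y; omega), hdim])
    fun y y' h3 h4 => hinj y y' h3 fun k hk => by simpa using h4 k hk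
  refine ⟨h3, h4 _ fun _ => mem_univ _, fun h5 => ?_⟩
  have := h4 {fun _ => (0, false)} fun y => mem_singleton.mpr (funext fun i => by simp [h5])
  rwa [sum_singleton, wgt_eq r 0 al (fun _ => (0, false)) (by simp) (by simp),
    sum_eq_zero (by simp [cst]), pow_zero, mul_one] at this

theorem Adm.cS_spec {s : Multiset Tag} (h : Adm s) (k : ℕ) :
    (cS s k ≠ 0 → cV s k = 0 → cW s k ≠ 0) ∧ (cS s (k + 1) ≠ 0 → cV s k = 0) ∧ cS s k ≤ 1 := by
  have := h.a4 k
  have := h.a2 k
  simp only [cS, cV, cW]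
  omega

/-- The symplectic case. -/
theorem card_le_symp [Finite F] (h2 : (2 : F) = 0) {B : LinearMap.BilinForm F V}
    (hB : B.Nondegenerate) {Y : Type*} (ρ : Y → End F V) (Q : Y → QuadraticForm F V)
    (hQ : ∀ y u v, polar (Q y) u v = B u v) (hρ : ∀ y v, Q y (ρ y v) = Q y v)
    (hc : ∀ x x', (∃ e : V ≃ₗ[F] V, (∀ u v, B (e u) (e v) = B u v) ∧
      ∀ v, e (ρ x v) = ρ x' (e v)) → x = x') {n : ℕ} (hn : finrank F V = 2 * n) :
    Finite Y ∧ 5 * Nat.card Y ≤ 76 * Nat.card F ^ n := by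
  obtain ⟨δ, hδ⟩ := exists_no_root F
  have h3 : ∀ y, (polarBilin (Q y)).Nondegenerate := fun y =>
    (LinearMap.ext₂ (hQ y) : polarBilin (Q y) = B) ▸ hB
  choose t s h4 h5 h6 h7 using fun y => exists_dat h2 hδ (h3 y) (hρ y)
  have h8 : ∀ y, ((s y).map Tag.dim).sum ≤ max n 8 := fun y => by have := h7 y; omega
  obtain ⟨h9, h10, -⟩ := card_le_of_adm h2 t h5 s h6 (fun y k => decide (k ≠ 0 ∧ cS (s y) k ≠ 0))
    (le_max_left n 8) (le_max_right n 8) false
    (fun y k h => ((h6 y).cS_spec k).1 (of_decide_eq_true h).2) (by simp)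
    (fun y k h => ((h6 y).cS_spec k).2.1 (of_decide_eq_true h).2) (fun y => (h7 y).trans hn)
    fun y y' h9 h10 => by
      obtain ⟨e, h11, h12, -⟩ := (h4 y).exists_equiv (h9 ▸ h4 y') (h3 y) (h3 y') (hρ y) (hρ y')
        Tag.forget (Tag.same_forget δ) ((h6 y).map_forget_eq_of (h6 y') (h8 y) (h8 y') (by omega)
          fun k hk => ⟨(h10 k hk).1, (h10 k hk).2.1, (h10 k hk).2.2.1, fun hk' => by
            simpa [hk', not_iff_not] using (h10 k hk).2.2.2⟩).symm
      exact hc y y' ⟨e, fun u v => by rw [← hQ y', h12, hQ], h11⟩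
  refine ⟨h9, ?_⟩
  have h11 := (tot_le (max n 8)).2
  have h12 : (0 : ℝ) ≤ Nat.card F ^ n := by positivity
  have : (5 * Nat.card Y : ℝ) ≤ 76 * Nat.card F ^ n := by nlinarith
  exact_mod_cast this

/-- The orthogonal case. -/
theorem card_le_orth [Finite F] (h2 : (2 : F) = 0) (hQ : (polarBilin Q).Nondegenerate) {Y : Type*}
    (ρ : Y → End F V) (hρ : ∀ y v, Q (ρ y v) = Q v)
    (hc : ∀ x x', (∃ e : V ≃ₗ[F] V, (∀ v, Q (e v) = Q v) ∧
      ∀ v, e (ρ x v) = ρ x' (e v)) → x = x') {n : ℕ} (hn : finrank F V = 2 * n) :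
    Nat.card Y ≤ 15 * Nat.card F ^ n := by
  classical
  obtain ⟨δ, hδ⟩ := exists_no_root F
  choose t s h4 h5 h6 h7 using fun y => exists_dat h2 hδ hQ (hρ y)
  set r := max n 8
  have h8 : ∀ y, ((s y).map Tag.dim).sum ≤ r := fun y => by have := h7 y; omega
  have hinj : ∀ y y', t y = t y' → (∀ k < r, (s y).count (.w0 k) = (s y').count (.w0 k) ∧
      cW (s y) k = cW (s y') k ∧ cV (s y) k = cV (s y') k ∧ (cS (s y) k = 0 ↔ cS (s y') k = 0)) →
      y = y' := fun y y' h9 h10 => by
    obtain ⟨e, h11, -, h12⟩ := (h4 y).exists_equiv (h9 ▸ h4 y') hQ hQ (hρ y) (hρ y')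
      id (Tag.same_id δ) (by rw [(h6 y).eq_of (h6 y') (h8 y) (h8 y') h10])
    exact hc y y' ⟨e, h12 trivial, h11⟩
  let P : Y → Prop := fun y => ∃ k, cV (s y) k + cW (s y) k ≠ 0
  obtain ⟨pos, hp, hp'⟩ : ∃ pos : {y // P y} → ℕ,
      (∀ y : {y // P y}, cV (s y) (pos y) + cW (s y) (pos y) ≠ 0) ∧
      ∀ y : {y // P y}, ∀ k < pos y, cV (s y) k + cW (s y) k = 0 :=
    ⟨fun y => Nat.find y.2, fun y => Nat.find_spec y.2,
      fun y k hk => not_not.mp (Nat.find_min y.2 hk)⟩
  have hk : ∀ y, pos y < r := fun y => not_le.mp fun h => hp y (by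
    have h1 := fun b => count_eq_zero_of_le (h8 y) (τ := .v (pos y) b) h
    have h3 := fun b => count_eq_zero_of_le (h8 y) (τ := .w1 (pos y) b) h
    rw [cV, cW, h1, h1, h3, h3])
  obtain ⟨f1, f2, -⟩ := card_le_of_adm h2 (Y := Y ⊕ {y // P y}) (fun y => t (y.elim id (↑)))
    (fun _ => h5 _) (fun y => s (y.elim id (↑))) (fun _ => h6 _)
    (fun y k => y.elim (fun y => decide (cS (s y) k ≠ 0))
      fun y : {y // P y} => decide (cS (s y) k ≠ 0 ↔ k ≠ pos y))
    (le_max_left n 8) (le_max_right n 8) true (by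
      rintro (y | y) k h
      · exact ((h6 y).cS_spec k).1 (of_decide_eq_true h)
      · by_cases h9 : k = pos y
        · intro h10
          simpa [← h9, show cV (s y) k = 0 from h10] using hp y
        · exact ((h6 y).cS_spec k).1 ((of_decide_eq_true h).mpr h9)) (by simp) (by
      rintro (y | y) k h
      · exact ((h6 y).cS_spec k).2.1 (of_decide_eq_true h)
      · by_cases h9 : k + 1 = pos y
        · have := hp' y k (by omega)
          change cV (s y) k = 0
          omega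
        · exact ((h6 y).cS_spec k).2.1 ((of_decide_eq_true h).mpr h9))
    (fun y => (h7 _).trans hn) (by
      have key : ∀ (y : Y) (y' : {y // P y}), t y = t y' →
          ¬ ∀ k < r, (cS (s y) k ≠ 0 ↔ (cS (s y') k ≠ 0 ↔ k ≠ pos y')) := fun y y' h9 h10 => by
        have h11 := (h4 y).even_iff (h9 ▸ h4 y') hQ (hρ y) (hρ y')
        rw [countP_sgn_eq (h8 y), countP_sgn_eq (h8 y'),
          ← add_sum_erase _ _ (mem_range.mpr (hk y')), ← add_sum_erase _ _ (mem_range.mpr (hk y')),
          sum_congr rfl (g := fun k => cS (s y') k) fun k hk => by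
            have h12 := h10 k (mem_range.mp (mem_of_mem_erase hk))
            have := ((h6 y).cS_spec k).2.2
            have := ((h6 y').cS_spec k).2.2
            rw [iff_true_right (ne_of_mem_erase hk)] at h12
            omega] at h11
        have h12 := h10 _ (hk y')
        have := ((h6 y).cS_spec (pos y')).2.2
        have := ((h6 y').cS_spec (pos y')).2.2
        simp only [Nat.even_iff, ne_eq, not_true_eq_false, iff_false] at h11 h12
        omega
      rintro (y | y) (y' | y') h9 h10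
      · exact congrArg _ (hinj y y' h9 fun k hk => ⟨(h10 k hk).1, (h10 k hk).2.1, (h10 k hk).2.2.1,
          by simpa [not_iff_not] using (h10 k hk).2.2.2⟩)
      · exact absurd (fun k hk => decide_eq_decide.mp (h10 k hk).2.2.2) (key y y' h9)
      · exact absurd (fun k hk => decide_eq_decide.mp (h10 k hk).2.2.2.symm) (key y' y h9.symm)
      · have h11 : pos y = pos y' := le_antisymm
          (not_lt.mp fun h => by
            have := h10 _ (hk y')
            have := hp y'
            have := hp' y _ h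
            simp only [Sum.elim_inr] at *
            omega)
          (not_lt.mp fun h => by
            have := h10 _ (hk y)
            have := hp y
            have := hp' y' _ h
            simp only [Sum.elim_inr] at *
            omega)
        refine congrArg _ (Subtype.ext (hinj y y' h9 fun k hk =>
          ⟨(h10 k hk).1, (h10 k hk).2.1, (h10 k hk).2.2.1, ?_⟩))
        have h12 := decide_eq_decide.mp (h10 k hk).2.2.2
        rw [h11] at h12
        tauto)
  have hP : ∀ y : {y // ¬ P y}, ∀ k, cV (s y) k = 0 ∧ cW (s y) k = 0 ∧ cS (s y) k = 0 :=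
    fun y k => by
    have := not_not.mp (not_exists.mp y.2 k)
    simp only [cV, cW, cS] at *
    omega
  have f3 := (card_le_of_adm h2 (Y := {y // ¬ P y}) (fun y => t y) (fun _ => h5 _) (fun y => s y)
    (fun _ => h6 _) (fun _ _ => false) (le_max_left n 8) (le_max_right n 8) true (by simp) (by simp)
    (by simp) (fun y => (h7 _).trans hn) fun y y' h9 h10 => Subtype.ext (hinj y y' h9 fun k hk =>
      ⟨(h10 k hk).1, (h10 k hk).2.1, (h10 k hk).2.2.1, by simp [hP]⟩)).2.2 (by simp [hP])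
  have : Finite Y := Finite.of_injective (β := Y ⊕ {y // P y}) _ Sum.inl_injective
  have f4 := Nat.card_congr (Equiv.sumCompl P)
  rw [Nat.card_sum] at f2 f4
  rw [← Nat.cast_inj (R := ℝ)] at f4
  push_cast at f2 f4
  have h11 := (tot_le r).1
  have h12 : (0 : ℝ) ≤ Nat.card F ^ n := by positivity
  have : (Nat.card Y : ℝ) ≤ 15 * Nat.card F ^ n := by nlinarith
  exact_mod_cast this

end Cfsg.Lib.Known.W2
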