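import Mathlib
import Cfsg.Agent.Known.W2Class
import Cfsg.Agent.Known.SymTwo
import Cfsg.Agent.Known.Cov2Dye
import Cfsg.Agent.S2585

/-!
Lower bounds for the class numbers of orthogonal groups in characteristic two.
-/

set_option autoImplicit false

namespace Cfsg.Lib.Known.W2

open Module Polynomial Finset QuadraticMap Cfsg.Lib.Class Cfsg.Lib.Class.Orth

universe u

variable {F : Type u} [Field F] [Fintype F] [CharP F 2] {V : Type*} [AddCommGroup V] [Module F V]
  [FiniteDimensional F V] {Q Q' : QuadraticForm F V}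

omit [Fintype F] in
theorem sum_sum_symm {ι : Type*} [Fintype ι] (f : ι → ι → F) (h : ∀ i j, f i j = f j i) :
    ∑ i, ∑ j, f i j = ∑ i, f i i := by
  classical
  have h1 : ∑ p ∈ (univ : Finset ι).offDiag, f p.1 p.2 = 0 :=
    sum_involution (fun p _ => p.swap) (fun p _ => by
      rw [Prod.fst_swap, Prod.snd_swap, h p.2, CharTwo.add_self_eq_zero])
      (fun p hp _ h1 => (mem_offDiag.mp hp).2.2 (congrArg Prod.snd h1))
      (fun p hp => mem_offDiag.mpr ⟨mem_univ _, mem_univ _, (mem_offDiag.mp hp).2.2.symm⟩)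
      fun _ _ => rfl
  rw [← sum_product', ← diag_union_offDiag, sum_union (disjoint_diag_offDiag _), h1, add_zero,
    sum_diag]

theorem sq_eq_trace {β : LinearMap.BilinForm F V} (h : SymND β) {A : End F V}
    (hA : ∀ x y, β (A x) y = β x (A y)) {w₁ w₂ : V} (h1 : ∀ x, β (A x) x = β x w₁ ^ 2)
    (h2 : ∀ x, β x x = β x w₂ ^ 2) : β w₁ w₂ ^ 2 = LinearMap.trace F V A := by
  set b := Module.finBasis F V
  set d := β.dualBasis h.nondegenerate b
  have key : ∀ x y, β x y = ∑ i, β x (b i) * β (d i) y := fun x y => by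
    conv_lhs => rw [← d.sum_repr x]
    simp [d, LinearMap.BilinForm.dualBasis_repr_apply]
  rw [key, CharTwo.sum_sq, LinearMap.trace_eq_matrix_trace F d, Matrix.trace]
  simp only [Matrix.diag, LinearMap.toMatrix_apply, d, LinearMap.BilinForm.dualBasis_repr_apply]
  rw [sum_congr rfl fun i _ => (hA _ _).trans ((h.symm _ _).trans (key _ _)),
    sum_sum_symm _ fun i j => by rw [hA, h.symm, h.symm (d j)]]
  exact sum_congr rfl fun i _ => by rw [mul_pow, h1, h2, h.symm w₁]

omit [Fintype F] [FiniteDimensional F V] in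
theorem polar_shift_eq {w : V} (h : ∀ x, Q' x = Q x + polar Q w x ^ 2) (x y : V) :
    polar Q' x y = polar Q x y := by
  rw [polar, h, h, h, polar_add_right, CharTwo.add_sq, polar, Q_add (Q := Q) x y]
  ring

theorem isPlus_shift_iff (hQ : (polarBilin Q).Nondegenerate) (hp : IsPlus Q) {w : V}
    (h : ∀ x, Q' x = Q x + polar Q w x ^ 2) : IsPlus Q' ↔ ∃ μ : F, μ ^ 2 + μ = Q w := by
  have h2 : (2 : F) = 0 := CharTwo.two_eq_zero
  have hA : (polarBilin Q).IsAlt := fun x => (polar_self' x).trans (by rw [h2, zero_mul])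
  refine ⟨fun hp' => by_contra fun hw => ?_, fun ⟨μ, hμ⟩ => ?_⟩
  swap
  · obtain ⟨t, ht⟩ := IsQuadFor.exists_move (B := polarBilin Q) (Q := Q) ⟨Q_add, Q_smul⟩ hQ hA hμ
    exact (isPlus_congr (Q := Q') (Q' := Q) t.1 one_ne_zero fun v => by
      rw [ht, one_mul, h]; rfl).mp hp
  have hδ : ∀ t : F, t ^ 2 + t + Q w ≠ 0 := fun t ht =>
    hw ⟨t, by linear_combination ht - Q w * h2⟩
  have h0 : Q w ≠ 0 := by simpa using hδ 0
  have hu : Uni Q 0 := ⟨h2, by simp, IsNilpotent.zero⟩
  obtain ⟨f, hf⟩ : ∃ f, polar Q w f = 1 := by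
    obtain ⟨f, hf⟩ : ∃ f, polar Q w f ≠ 0 := by
      by_contra! h1
      exact h0 (by rw [hQ.1 w h1, map_zero])
    exact ⟨(polar Q w f)⁻¹ • f, by rw [polar_smul_right', inv_mul_cancel₀ hf]⟩
  obtain ⟨c, hc⟩ := hu.exists_sq_mul 1 h0
  have hc0 : c ≠ 0 := by rintro rfl; simp at hc
  obtain ⟨e, s, he⟩ := hu.exists_as hδ (Q (c⁻¹ • f))
  set a := c • w with ha
  set b := c⁻¹ • f + e • a with hb
  have e0 : polar Q w a = 0 := by rw [ha, polar_smul_right', hu.polar_self, mul_zero]
  have e1 : Q a = 1 := by rw [ha, Q_smul, hc]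
  have e2 : polar Q w b = c⁻¹ := by
    rw [hb, polar_add_right, polar_smul_right', polar_smul_right', e0, hf]; ring
  have e3 : polar Q a b = 1 := by rw [ha, polar_smul_left', e2, mul_inv_cancel₀ hc0]
  have e4 : Q b = if s = true then Q w else 0 := by
    have := e3
    rw [hb, polar_add_right, polar_smul_right' e, hu.polar_self, mul_zero, add_zero] at this
    rw [hb, Q_add, Q_smul e, e1, polar_smul_right', polar_comm, this, ← he]
    ring
  have e5 : Q' b = if (!s) = true then Q w else 0 := by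
    rw [h, e2, e4, show c⁻¹ ^ 2 = Q w by field_simp; exact hc.symm]
    cases s <;> simp [CharTwo.add_self_eq_zero]
  have m1 : a ∈ Submodule.span F {a, b} := Submodule.subset_span (by simp)
  have m2 : b ∈ Submodule.span F {a, b} := Submodule.subset_span (by simp)
  have nd : ND Q (Submodule.span F {a, b}) := fun v hv hv' => by
    obtain ⟨α, β, rfl⟩ := Submodule.mem_span_pair.mp hv
    have f1 := hv' a m1
    have f2 := hv' b m2
    simp only [polarBilin_apply_apply, polar_add_left, polar_smul_left', hu.polar_self, e3,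
      polar_comm Q b a, mul_zero, mul_one, zero_add, add_zero] at f1 f2
    simp [f1, f2]
  have hB : polarBilin Q' = polarBilin Q := LinearMap.ext₂ (polar_shift_eq h)
  have nd' : ND Q' (Submodule.span F {a, b}) := by rwa [ND, hB]
  have key : ∀ v ∈ Submodule.span F {a, b}, ∃ α β : F, ∃ t ∈ (⊥ : Submodule F V),
      v = α • a + β • b + t := fun v hv => by
    obtain ⟨α, β, rfl⟩ := Submodule.mem_span_pair.mp hv
    exact ⟨α, β, 0, rfl, (add_zero _).symm⟩
  have f1 := isPlus_iff_of_plane h2 hδ nd bot_le (by simp) m1 m2 (by simp [mem_orth])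
    (by simp [mem_orth]) (fun v hv _ => key v hv) e1 e3 e4
  have f2 := isPlus_iff_of_plane h2 hδ nd' bot_le (by simp) m1 m2 (by simp [mem_orth])
    (by simp [mem_orth]) (fun v hv _ => key v hv) (by rw [h, e0, e1]; simp)
    (by rw [polar_shift_eq h, e3]) e5
  have k := isOSum_orth hQ (nd_iff_disjoint.mp nd)
  have k' := isOSum_of_isCompl Q' (isCompl_orth hQ (nd_iff_disjoint.mp nd))
    fun u hu v hv => (polar_shift_eq h u v).trans (hv u hu)
  have f3 := k.isPlus_iff hQ (even_finrank_of_two nd.restrict h2)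
    (even_finrank_of_two (k.nondegenerate_right hQ) h2)
  have f4 := k'.isPlus_iff (hB ▸ hQ) (even_finrank_of_two nd.restrict h2)
    (even_finrank_of_two (k.nondegenerate_right hQ) h2)
  rw [isPlus_congr (Q' := Q'.restrict (orth Q _)) (Q := Q.restrict _) (LinearEquiv.refl F _)
    one_ne_zero fun v => by
      have := (polar_smul_left' c w v.1).symm.trans (v.2 a m1)
      rw [mul_eq_zero] at this
      change Q' v = 1 * Q v
      rw [h, this.resolve_left hc0]; ring] at f4
  rw [f1] at f3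
  rw [f2] at f4
  cases s <;> simp_all

theorem exists_twist {f : F[X]} (hf : f.Monic) (h0 : f.coeff 0 ≠ 0) :
    ∃ (V : Type u) (_ : AddCommGroup V) (_ : Module F V) (_ : FiniteDimensional F V)
      (Q : QuadraticForm F V) (g : O Q) (Y : End F V), (polarBilin Q).Nondegenerate ∧
      finrank F V = 2 * f.natDegree ∧ (IsPlus Q ↔ ∃ μ : F, μ ^ 2 + μ = f.nextCoeff) ∧
      (∀ v, g.1 v = v → v = 0) ∧ (∀ v, Y (g.1 (g.1 v) - v) = g.1 v) ∧ Y.charpoly = f * f := by
  have := finite_cyc hf.ne_zero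
  obtain ⟨φ, hφ⟩ := exists_frobenius_functional hf
  have h2 : (2 : Cyc f) = 0 := by
    rw [← map_ofNat (algebraMap F (Cyc f)), CharTwo.two_eq_zero, map_zero]
  set y : Cyc f := Ideal.Quotient.mk _ X with hy
  obtain ⟨z, hz⟩ : ∃ z, y * z = 1 := ⟨Ideal.Quotient.mk _ (-C (f.coeff 0)⁻¹ * f.divX), by
    rw [hy, ← map_mul, ← map_one (Ideal.Quotient.mk _), Ideal.Quotient.eq,
      Ideal.mem_span_singleton]
    refine ⟨-C (f.coeff 0)⁻¹, ?_⟩
    have h1 : C (f.coeff 0)⁻¹ * C (f.coeff 0) = 1 := by rw [← C_mul, inv_mul_cancel₀ h0, C_1]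
    linear_combination (-C (f.coeff 0)⁻¹) * f.X_mul_divX_add + h1⟩
  let β : LinearMap.BilinForm F (Cyc f) := (LinearMap.mul F _).compr₂ φ
  have hβ : SymND β := ⟨fun a b => congrArg φ (mul_comm a b), hφ⟩
  let Q₀ : QuadraticForm F (Cyc f × Cyc f) :=
    LinearMap.BilinMap.toQuadraticMap (β.compl₁₂ (LinearMap.fst _ _ _) (LinearMap.snd _ _ _))
  let Q : QuadraticForm F (Cyc f × Cyc f) := Q₀ + LinearMap.BilinMap.toQuadraticMap
    (β.compl₁₂ ((cycX f).comp (LinearMap.fst _ _ _)) (LinearMap.fst _ _ _) +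
      β.compl₁₂ (LinearMap.snd _ _ _) (LinearMap.snd _ _ _))
  have e0 : ∀ x, Q₀ x = φ (x.1 * x.2) := fun _ => rfl
  have e1 : ∀ x, Q x = φ (x.1 * x.2) + (φ (y * x.1 * x.1) + φ (x.2 * x.2)) := fun _ => rfl
  have e2 : ∀ x x', polar Q₀ x x' = φ (x.1 * x'.2) + φ (x'.1 * x.2) := fun x x' => by
    simp only [polar, e0, Prod.fst_add, Prod.snd_add, mul_add, add_mul, map_add]; ring
  have hQ₀ : (polarBilin Q₀).Nondegenerate := by
    have : ∀ x, (∀ x', polar Q₀ x x' = 0) → x = 0 := fun x hx =>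
      Prod.ext (hφ _ fun b => by simpa [e2] using hx (0, b))
        (hφ _ fun a => by simpa [e2, mul_comm] using hx (a, 0))
    exact ⟨this, fun x hx => this x fun x' => (polar_comm _ _ _).trans (hx x')⟩
  obtain ⟨w₂, h3⟩ := hβ.exists_charVec
  obtain ⟨ψ, h4⟩ := exists_dual_sq (F := F) (f := fun a : Cyc f => β (cycX f a) a) (fun a b => by
    change φ (y * (a + b) * (a + b)) = φ (y * a * a) + φ (y * b * b)
    rw [← map_add]
    congr 1
    linear_combination y * a * b * h2) fun c a => by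
      simp only [map_smul, LinearMap.smul_apply, smul_eq_mul]; ring
  obtain ⟨w₁, h5⟩ := hβ.exists_dual ψ
  have h6 := sq_eq_trace hβ (A := cycX f) (fun a b => congrArg φ (by
    change y * a * b = a * (y * b); ring)) (fun x => (h4 x).trans (by rw [h5])) h3
  have h7 : ∀ x, Q x = Q₀ x + polar Q₀ (w₂, w₁) x ^ 2 := fun x => by
    rw [e1, e0, e2, CharTwo.add_sq, add_comm (φ (y * x.1 * x.1)), mul_comm w₂]
    exact congrArg _ (congrArg₂ _ (h3 x.2) ((h4 x.1).trans (by rw [← h5]; rfl)))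
  have h8 : IsPlus Q₀ := ⟨LinearMap.range (LinearMap.inl F _ _), by
    rintro _ ⟨a, rfl⟩
    simp [e0], by rw [LinearMap.finrank_range_of_inj LinearMap.inl_injective, finrank_prod, two_mul]⟩
  let g : End F (Cyc f × Cyc f) := (LinearMap.fst _ _ _ + (LinearMap.mul F _ z).comp
    (LinearMap.fst _ _ _ + LinearMap.snd _ _ _)).prod (LinearMap.fst _ _ _ + LinearMap.snd _ _ _)
  have hg : ∀ x, g x = (x.1 + z * (x.1 + x.2), x.1 + x.2) := fun _ => rfl
  have hi : Function.Injective g := (injective_iff_map_eq_zero g).mpr fun x hx => by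
    rw [hg, Prod.mk_eq_zero] at hx
    have h9 : x.1 = 0 := by simpa [hx.2] using hx.1
    exact Prod.ext h9 (by simpa [h9] using hx.2)
  refine ⟨_, _, _, inferInstance, Q, ⟨LinearEquiv.ofInjectiveEndo g hi, mem_O.2 fun x => ?_⟩,
    (cycX f).prodMap (cycX f), 
      (LinearMap.ext₂ (polar_shift_eq h7) : polarBilin Q = polarBilin Q₀) ▸ hQ₀,
    by rw [finrank_prod, finrank_cyc, two_mul], ?_, fun x hx => ?_, fun x => ?_,
    by rw [LinearMap.charpoly_prodMap, charpoly_cycX hf]⟩
  · change Q (g x) = Q x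
    simp only [e1, hg, ← map_add]
    congr 1
    linear_combination ((x.1 + x.2) * (2 * x.1 + z * (x.1 + x.2))) * hz +
      (x.1 * (x.1 + x.2) + z * (x.1 + x.2) ^ 2 + x.1 ^ 2 + x.1 * x.2) * h2
  · rw [isPlus_shift_iff hQ₀ h8 h7, e0]
    rw [LinearMap.trace_eq_matrix_trace F (Module.finBasis F _),
      Matrix.trace_eq_neg_charpoly_nextCoeff, LinearMap.charpoly_toMatrix, charpoly_cycX hf,
      CharTwo.neg_eq] at h6
    rw [← h6, mul_comm]
    change (∃ μ, _ = β w₁ w₂) ↔ _
    exact ⟨fun ⟨μ, h⟩ => ⟨μ + β w₁ w₂, by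
        linear_combination h + (μ * β w₁ w₂ + β w₁ w₂) * CharTwo.two_eq_zero (R := F)⟩,
      fun ⟨μ, h⟩ => ⟨μ + β w₁ w₂, by
        linear_combination h + (μ * β w₁ w₂ + β w₁ w₂ ^ 2) * CharTwo.two_eq_zero (R := F)⟩⟩
  · replace hx : g x = x := hx
    rw [hg, Prod.ext_iff] at hx
    have h9 : x.1 = 0 := by simpa using hx.2
    exact Prod.ext h9 (by
      change x.2 = 0
      linear_combination y * hx.1 - (x.1 + x.2) * hz - h9)
  · change (cycX f).prodMap (cycX f) (g (g x) - x) = g x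
    simp only [hg]
    refine Prod.ext ?_ ?_
    · change y * (_ - _) = _
      linear_combination (x.1 + z * (x.1 + x.2) + 2 * (x.1 + x.2)) * hz + (x.1 + x.2) * h2
    · change y * (_ - _) = _
      linear_combination (x.1 + x.2) * hz + y * x.1 * h2

theorem exists_qT_of_palin {p : F[X]} {m : ℕ} (hp : Palin p (2 * m)) : ∃ ε, QT (ssType p) ε := by
  have h1 := isElDivs_ssType p
  have h2 := elProd_ssType hp.1.1
  have h3 : elDeg (ssType p) = 2 * m := by rw [← h1.natDegree_elProd, h2, hp.1.2]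
  have h4 := h1.forall_ne_X_iff.mpr (h2.symm ▸ hp.selfDual.2.1)
  have h5 : (ssType p).map (dualED (RingHom.id F)) = ssType p := by
    rw [ssType_map_dualED (fun _ => rfl) hp.1.1 hp.selfDual.2.1, hp.2.1.1]
  obtain ⟨g, hg⟩ := (spReal_of_parity h1 h4 h5 (spParity_of_semisimple h1 h4 h5 (ssType_snd p)
    (h3 ▸ even_two_mul m) (h2.symm ▸ hp.2.1.2))).exists_Sp h3
  obtain ⟨Q, h6, h7⟩ := Cfsg.Agent.S2585.result g
  have hQ : (polarBilin Q).Nondegenerate :=
    (LinearMap.ext₂ fun u v => (h6 u v).trans (sympBilin_apply _ u v).symm :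
      polarBilin Q = sympBilin m F) ▸ sympBilin_nondegenerate m
  exact ⟨_, _, _, _, inferInstance, Q, hQ, ⟨LinearEquiv.ofInjectiveEndo (Matrix.toLin' g.1)
    (injective_of_isometry (hform_polar_quad hQ) (polar_isometry h7)), mem_O.2 h7⟩, hg, Iff.rfl⟩

theorem card_le_of_qT (hQ : (polarBilin Q).Nondegenerate) {A : Type*}
    (ψ : A → Multiset (F[X] × ℕ)) (h1 : ∀ a, QT (ψ a) (IsPlus Q))
    (h2 : ∀ a, elDeg (ψ a) = finrank F V) (h3 : Function.Injective ψ) :
    Nat.card A ≤ Nat.card (ConjClasses (O Q)) := by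
  have := Module.finite_of_finite F (M := V)
  have : Finite (V ≃ₗ[F] V) := DFunLike.finite _
  choose g hg using fun a => (h1 a).exists_O hQ (h2 a)
  refine Nat.card_le_card_of_injective (fun a => ConjClasses.mk (g a)) fun a a' h => h3 ?_
  obtain ⟨y, -, h4⟩ := isConj_Isom_iff.mp (ConjClasses.mk_eq_mk_iff_isConj.mp h)
  rw [← hg, ← hg]
  exact Sim.elDiv_eq ⟨y, h4⟩

omit [CharP F 2] in
theorem card_ne_zero_add (m : ℕ) : Nat.card {v : Fin (m + 1) → F // v 0 ≠ 0} +
    Fintype.card F ^ m = Fintype.card F ^ (m + 1) := by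
  classical
  have h1 := Nat.card_congr (Equiv.sumCompl fun v : Fin (m + 1) → F => v 0 = 0)
  have h2 : Nat.card {v : Fin (m + 1) → F // v 0 = 0} = Fintype.card F ^ m := by
    rw [Nat.card_congr (β := Fin m → F) ⟨fun v => Fin.tail v.1, fun w => ⟨Fin.cons 0 w, rfl⟩,
      fun v => Subtype.ext (by
        conv_rhs => rw [← Fin.cons_self_tail v.1, v.2]), fun w => Fin.tail_cons _ _⟩]
    simp
  rw [Nat.card_sum, h2, add_comm] at h1
  simpa using h1

theorem pow_le_two_mul_card (hQ : (polarBilin Q).Nondegenerate) {n : ℕ} (hn : 2 ≤ n)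
    (hV : finrank F V = 2 * n) : Fintype.card F ^ n ≤ 2 * Nat.card (ConjClasses (O Q)) := by
  classical
  obtain ⟨m, rfl⟩ : ∃ m, n = m + 2 := ⟨n - 2, by omega⟩
  obtain ⟨δ, hδ⟩ := exists_no_root F
  have h2 : (2 : F) = 0 := CharTwo.two_eq_zero
  let P : (Fin (m + 2) → F) → Prop := fun v =>
    (∃ μ : F, μ ^ 2 + μ = v (Fin.last _)) ↔ IsPlus Q
  let f : (Fin (m + 2) → F) → F[X] := fun v => X ^ (m + 2) + ∑ i, C (v i) * X ^ (i : ℕ)
  have f1 : ∀ v, (f v).Monic := fun v => monic_X_pow_add (degree_sum_fin_lt v)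
  have f2 : ∀ v, (f v).natDegree = m + 2 := fun v => by
    rw [natDegree_add_eq_left_of_degree_lt (by rw [degree_X_pow]; exact degree_sum_fin_lt v),
      natDegree_X_pow]
  have f3 : ∀ v (i : Fin (m + 2)), (f v).coeff i = v i := fun v i => by
    simp [f, coeff_X_pow, i.2.ne, Fin.val_inj]
  have f4 : ∀ v, (f v).nextCoeff = v (Fin.last _) := fun v => by
    rw [nextCoeff_of_natDegree_pos (by rw [f2]; omega), f2, ← f3 v]; rfl
  choose W i1 i2 i3 q g Y g1 g2 g3 g4 g5 g6 using
    fun v : {v : Fin (m + 2) → F // v 0 ≠ 0 ∧ P v} => exists_twist (f1 v) ((f3 v 0).symm ▸ v.2.1)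
  have h3 := card_le_of_qT hQ (A := {p // Palin p (2 * (m + 1))} ⊕ {v // v 0 ≠ 0 ∧ P v})
    (Sum.elim (fun p => Multiset.replicate 2 (X - 1, 1) + ssType p.1)
      fun v => elDiv ((g v).1 : End F (W v))) (by
      rintro (p | v)
      · obtain ⟨ε, h⟩ := exists_qT_of_palin p.2
        exact ((qT_one (ε ↔ IsPlus Q)).add h).congr (by tauto)
      · exact ⟨W v, _, _, i3 v, q v, g1 v, g v, rfl, (g3 v).trans (f4 v ▸ v.2.2)⟩) (by
      rintro (p | v)
      · rw [Sum.elim_inl, elDeg_add, elDeg_replicate, ← (isElDivs_ssType _).natDegree_elProd,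
          elProd_ssType p.2.1.1, p.2.1.2, hV, natDegree_X_sub_one]
        ring
      · rw [Sum.elim_inr, ← finrank_eq_elDeg, g2, f2, hV]) (by
      have key : ∀ v t, Multiset.replicate 2 ((X - 1 : F[X]), 1) + t ≠
          elDiv ((g v).1 : End F (W v)) := fun v t h =>
        (injective_aeval_iff_elDiv ((g v).1 : End F (W v)) (X - C 1)).mp (by
          rw [aeval_X_sub_C_End, injective_iff_map_eq_zero]
          exact fun x hx => g4 v x ((sub_eq_zero.mp hx).trans (one_smul F x))) (X - 1, 1)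
          (by rw [← h]; simp) dvd_rfl
      rintro (p | v) (p' | v') h
      · have h4 := congrArg elProd (add_left_cancel h)
        rw [elProd_ssType p.2.1.1, elProd_ssType p'.2.1.1] at h4
        exact congrArg _ (Subtype.ext h4)
      · exact absurd h (key _ _)
      · exact absurd h.symm (key _ _)
      · obtain ⟨e, he⟩ := sim_iff_elDiv_eq.mpr h
        have h4 : Sim (Y v) (Y v') := ⟨e, fun x => by
          obtain ⟨x, rfl⟩ := LinearMap.injective_iff_surjective
            (f := (g v).1.toLinearMap * (g v).1.toLinearMap - 1).mp ((injective_iff_map_eq_zero _).mpr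
              fun x hx => eq_zero_of_sq h2 (g := (g v).1) (g4 v) x (sub_eq_zero.mp hx)) x
          have he' : ∀ x, e ((g v).1 x) = (g v').1 (e x) := he
          change e (Y v ((g v).1 ((g v).1 x) - x)) = Y v' (e ((g v).1 ((g v).1 x) - x))
          rw [g5, map_sub, he', he', he', g5]⟩
        have h5 := h4.charpoly_eq
        rw [g6, g6, mul_self_eq_mul_self_iff, CharTwo.neg_eq, or_self] at h5
        exact congrArg _ (Subtype.ext (funext fun i => by rw [← f3 v, h5, f3])))
  have h4 : Nat.card {v : Fin (m + 2) → F // v 0 ≠ 0 ∧ ¬ P v} ≤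
      Nat.card {v : Fin (m + 2) → F // v 0 ≠ 0 ∧ P v} := by
    refine Nat.card_le_card_of_injective (fun v => ⟨v.1 + Pi.single (Fin.last _) δ,
      by simpa [Pi.single_eq_of_ne (Fin.last_pos (n := m + 1)).ne] using v.2.1, ?_⟩)
      fun v v' h => Subtype.ext (add_right_cancel (congrArg Subtype.val h))
    have h5 := v.2.2
    simp only [P, Pi.add_apply, Pi.single_eq_same, not_iff] at h5 ⊢
    exact Iff.trans ⟨fun ⟨μ, h⟩ ⟨ν, h'⟩ => hδ (μ + ν) (by
        linear_combination h + h' + (μ * ν + v.1 (Fin.last _) + δ) * h2),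
      fun h => exists_sq_add_self_eq h2 (fun t ht => h ⟨t, by
        linear_combination ht - v.1 (Fin.last _) * h2⟩) hδ⟩ h5
  have h5 := Nat.card_congr (Equiv.sumCompl fun v : {v : Fin (m + 2) → F // v 0 ≠ 0} => P v)
  rw [Nat.card_sum, Nat.card_congr (Equiv.subtypeSubtypeEquivSubtypeInter _ P),
    Nat.card_congr (Equiv.subtypeSubtypeEquivSubtypeInter _ fun v => ¬ P v)] at h5
  have h6 := card_ne_zero_add (F := F) (m + 1)
  have : Finite {p : F[X] // Palin p (2 * (m + 1))} := by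
    simpa using instFinitePalin (F := F) (2 * (m + 1)) fun _ => True
  rw [Nat.card_sum, card_palin, palW, if_pos (even_two_mul _), Nat.mul_div_cancel_left _ two_pos,
    Nat.card_eq_fintype_card (α := F)] at h3
  change Nat.card {v : Fin (m + 2) → F // v 0 ≠ 0} + _ = _ ^ (m + 2) at h6
  omega

theorem card_conjClasses_O (hQ : (polarBilin Q).Nondegenerate) {n : ℕ} (hn : 2 ≤ n)
    (hV : finrank F V = 2 * n) : Fintype.card F ^ n ≤ 2 * Nat.card (ConjClasses (O Q)) ∧
      Nat.card (ConjClasses (O Q)) ≤ 15 * Fintype.card F ^ n := by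
  refine ⟨pow_le_two_mul_card hQ hn hV, Nat.card_eq_fintype_card (α := F) ▸ card_le_orth
    CharTwo.two_eq_zero hQ (fun C : ConjClasses (O Q) => (C.out.1 : End F V)) (fun C => O_map _)
    (fun C C' ⟨y, h3, h4⟩ => ?_) hV⟩
  rw [← C.out_eq, ← C'.out_eq]
  exact Quotient.sound (isConj_Isom_iff.mpr ⟨y, fun u _ => h3 u, h4⟩)

end Cfsg.Lib.Known.W2
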