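import Mathlib
import Cfsg.Agent.Known.WeilQ

/-!
A representation of `Sp_{2n}(q)` (`n ≥ 2`) of rank one receives a non-zero map from a Weil
representation.
-/

namespace Cfsg.Lib.Known.WG

open Module Cfsg.Lib.Class Matrix

variable {F : Type*} [Field F] [Fintype F] [DecidableEq F] {n : ℕ} {ψ : AddChar F ℂ}
  {V : Type*} [AddCommGroup V] [Module ℂ V] {σ : Representation ℂ (SpG n F) V}
  {h2 : (2 : F) ≠ 0} {hψ : ψ ≠ 1} {T : (Fin n ⊕ Fin n → F) → ((Fin n → F) → ℂ) →ₗ[ℂ] V}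

theorem Fam.exists_glue (hT : Fam h2 hψ σ T) :
    ∃ S : ((Fin n → F) → ℂ) →ₗ[ℂ] V, S (dl 0) = 0 ∧ ∀ y, S ∘ₗ hp ψ (inL y) = T (inL y) := by
  classical
  have hex : ∀ x : Fin n → F, x ≠ 0 → ∃ y, y ⬝ᵥ x = 1 := fun x hx => by
    obtain ⟨y, -, hy⟩ := exists_dot (b := 0) (e := x) (by simpa using hx)
    exact ⟨y, hy⟩
  choose! ys hys using hex
  let S : ((Fin n → F) → ℂ) →ₗ[ℂ] V := ∑ x, (LinearMap.proj x : _ →ₗ[ℂ] ℂ).smulRight
    (if x = 0 then 0 else T (inL (ys x)) (dl x))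
  have hS : ∀ x, S (dl x) = if x = 0 then 0 else T (inL (ys x)) (dl x) := fun x => by
    simp only [S, LinearMap.sum_apply, LinearMap.smulRight_apply, LinearMap.proj_apply, dl_apply]
    rw [Finset.sum_eq_single x] <;> simp +contextual
  refine ⟨S, by simp [hS], fun y => ext_dl fun x => ?_⟩
  rw [LinearMap.comp_apply, hp_inL_dl hψ]
  split_ifs with h
  · have hx := (ne_zero_of_dot h).2
    rw [hS, if_neg hx]
    by_cases h1 : inL (ys x) ∈ Submodule.span F {inL y}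
    · obtain ⟨a, ha⟩ := Submodule.mem_span_singleton.1 h1
      have h3 : a • y = ys x := by simpa using congrArg (· ∘ Sum.inl) ha
      have h4 := hys x hx
      rw [← h3, smul_dotProduct, h, smul_eq_mul, mul_one] at h4
      rw [← h3, h4, one_smul]
    · have := LinearMap.congr_fun (hT.compat _ _ (inL_ne_zero (ne_zero_of_dot h).1) h1
        (by simp [sympForm_dot])) (dl x)
      rw [LinearMap.comp_apply, LinearMap.comp_apply, hp_inL_dl hψ, hp_inL_dl hψ, if_pos h,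
        if_pos (hys x hx)] at this
      exact this.symm
  · rw [map_zero, apply_dl_eq_zero hψ (hT.proj _) h]

section Glue

variable {S : ((Fin n → F) → ℂ) →ₗ[ℂ] V}

theorem Fam.glue_dl (hψ : ψ ≠ 1) (hS : ∀ y, S ∘ₗ hp ψ (inL y) = T (inL y)) {y x : Fin n → F} (h : y ⬝ᵥ x = 1) :
    S (dl x) = T (inL y) (dl x) := by
  rw [← hS, LinearMap.comp_apply, hp_inL_dl hψ, if_pos h]

theorem Fam.glue_sieg (hn : 2 ≤ n) (hT : Fam h2 hψ σ T) (hS0 : S (dl 0) = 0)
    (hS : ∀ y, S ∘ₗ hp ψ (inL y) = T (inL y)) (M : Matrix (Fin n) (Fin n) F) :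
    tau h2 hψ σ (sieg M) S = S := ext_dl fun x => by
  by_cases hx : x = 0
  · rw [tau_sieg_dl hn, hx, hS0]; simp
  · obtain ⟨y, -, hy⟩ := exists_dot (b := 0) (e := x) (by simpa using hx)
    rw [tau_sieg_dl hn, Fam.glue_dl hψ hS hy, ← tau_sieg_dl (h2 := h2) (hψ := hψ) hn,
      hT.equiv, sieg_inL]

theorem Fam.apply_eq (hT : Fam h2 hψ σ T) (hS : ∀ y, S ∘ₗ hp ψ (inL y) = T (inL y))
    {v : Fin n ⊕ Fin n → F} (hv : v ∘ Sum.inr ≠ 0) {y : Fin n → F} (hy : y ≠ 0)
    (hyv : y ⬝ᵥ v ∘ Sum.inr = 0) {f : (Fin n → F) → ℂ} (hf : hp ψ (inL y) f = f) :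
    T v f = S (hp ψ v f) := by
  have hB : sympBilin n F (inL y) v = 0 := by simp [sympForm_dot, hyv]
  have h1 := LinearMap.congr_fun (hT.compat (inL y) v (inL_ne_zero hy) (fun h => by
    obtain ⟨a, rfl⟩ := Submodule.mem_span_singleton.1 h
    simp at hv) hB) f
  rw [LinearMap.comp_apply, LinearMap.comp_apply, hf, ← hS, LinearMap.comp_apply,
    ← End.mul_apply, hp_comm h2 hB, End.mul_apply, hf] at h1
  exact h1.symm

theorem eigP_tau_sieg (hn : 2 ≤ n) (M : Matrix (Fin n) (Fin n) F) (e : Fin n → F)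
    (R : ((Fin n → F) → ℂ) →ₗ[ℂ] V) :
    eigP σ ψ (-vecMulVec e e) (tau h2 hψ σ (sieg M) R (dl e)) =
      eigP σ ψ (-vecMulVec e e) (R (dl e)) := by
  rw [tau_sieg_dl hn, map_smul, ← End.mul_apply, eigP_mul_sieg, LinearMap.smul_apply, smul_smul,
    ← AddChar.map_add_eq_mul, mp_neg_vecMulVec]
  simp

theorem Fam.line (hn : 2 ≤ n) (hT : Fam h2 hψ σ T) (hS0 : S (dl 0) = 0)
    (hS : ∀ y, S ∘ₗ hp ψ (inL y) = T (inL y)) {e : Fin n → F} (he : e ≠ 0) {s : F} (hs : s ≠ 0) :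
    eigP σ ψ (-vecMulVec e e) (T (inR (s • e)) (dl e)) =
      eigP σ ψ (-vecMulVec e e) (S (hp ψ (inR (s • e)) (dl e))) := by
  obtain ⟨u, x₁, y₁, hue, hyx, hye, hux⟩ := exists_frame hn he
  set v₀ := inR (s • e) with hv₀
  let h : F → SpG n F := fun c => spT (hAl n F) (inR x₁) c
  let Rσ : End ℂ V := ∑ c, σ (h c)
  let Rρ : End ℂ ((Fin n → F) → ℂ) := ∑ t : F, heis ψ (t • inR x₁)
  have hRρ : ∑ c, weil h2 hψ (h c) = Rρ :=
    sum_weil_spT h2 hψ hn (inR_ne_zero (ne_zero_of_dot hyx).2)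
  have hi : ∀ v, sympBilin n F v (inR x₁) = 0 → ∀ f, Rσ (T v f) = T v (Rρ f) := fun v hv f => by
    rw [← hRρ, LinearMap.sum_apply, LinearMap.sum_apply, map_sum]
    refine Finset.sum_congr rfl fun c _ => ?_
    rw [← tau_weil h2 hψ, hT.equiv, spT_apply, hv]
    simp
  have hRhp : ∀ v, sympBilin n F (inR x₁) v = 0 → ∀ f, hp ψ v (Rρ f) = Rρ (hp ψ v f) :=
    fun v hv f => by
      simp only [Rρ, LinearMap.sum_apply, map_sum]
      refine Finset.sum_congr rfl fun t _ => ?_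
      rw [← End.mul_apply, ← heis_mul_hp h2 (by rw [map_smul, LinearMap.smul_apply, hv, smul_zero]),
        End.mul_apply]
  have hv₀r : v₀ ∘ Sum.inr ≠ 0 := by simp [v₀, hs, he]
  have hii : ∀ f, (∀ x, y₁ ⬝ᵥ x = 0 → f x = 0) → hp ψ v₀ f = f → T v₀ f = S f := fun f hf hf' => by
    have h1 : f = ∑ r : F, hp ψ (inL (r • y₁)) f := by
      ext x
      simp only [Finset.sum_apply, hp_inL hψ, smul_dotProduct, smul_eq_mul]
      by_cases hx : y₁ ⬝ᵥ x = 0
      · simp [hf x hx]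
      · rw [Finset.sum_eq_single (y₁ ⬝ᵥ x)⁻¹, if_pos (inv_mul_cancel₀ hx)]
        · intro r _ hr
          exact if_neg fun h => hr (eq_inv_of_mul_eq_one_left h)
        · simp
    rw [h1, map_sum, map_sum]
    refine Finset.sum_congr rfl fun r _ => ?_
    by_cases hr : r = 0
    · rw [hr, zero_smul, inL_zero, hp_zero hψ]; simp
    · have hB : sympBilin n F (inL (r • y₁)) v₀ = 0 := by simp [sympForm_dot, v₀, hye]
      rw [hT.apply_eq hS hv₀r (smul_ne_zero hr (ne_zero_of_dot hyx).1) (by simp [v₀, hye])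
        (by rw [← End.mul_apply, hp_mul_hp h2]), ← End.mul_apply, ← hp_comm h2 hB, End.mul_apply,
        hf']
  set φ := hp ψ v₀ (dl e) with hφ
  have hφ' : φ = (Fintype.card F : ℂ)⁻¹ • ∑ t : F, ψ (-t) • dl ((1 - t * s) • e) := by
    simp only [φ, hp, LinearMap.smul_apply, LinearMap.sum_apply]
    congr 1
    refine Finset.sum_congr rfl fun t _ => ?_
    congr 1
    ext x
    rw [smul_inR, heis_inR, dl_apply, dl_apply]
    refine if_congr ?_ rfl rfl
    rw [← eq_sub_iff_add_eq, sub_smul, one_smul, smul_smul]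
  have hφ0 : ∀ x, y₁ ⬝ᵥ x ≠ 0 → φ x = 0 := fun x hx => by
    rw [hφ', Pi.smul_apply, Finset.sum_apply, Finset.sum_eq_zero, smul_zero]
    intro t _
    rw [Pi.smul_apply, dl_apply, if_neg, smul_zero]
    rintro rfl
    exact hx (by rw [dotProduct_smul, hye, smul_zero])
  have hiii : Rσ (T v₀ φ) - T v₀ φ = S (Rρ φ - φ) := by
    have hB : sympBilin n F v₀ (inR x₁) = 0 := by simp [sympForm_dot, v₀]
    rw [hi _ hB, ← map_sub]
    refine hii _ (fun x hx => ?_) ?_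
    · simp only [Rρ, Pi.sub_apply, LinearMap.sum_apply, Finset.sum_apply, smul_inR, heis_inR]
      rw [Finset.sum_eq_single 0]
      · simp
      · intro t _ ht
        exact hφ0 _ (by simpa [hx, hyx] using ht)
      · simp
    · rw [map_sub, hRhp _ (by simp [sympForm_dot, v₀]), hφ, ← End.mul_apply (hp ψ v₀), hp_mul_hp h2]
  obtain ⟨t₀, ht₀⟩ := AddChar.ne_one_iff.mp hψ
  let N := vecMulVec u ((2⁻¹ * (-(2 * t₀))) • u)
  have hN : sieg N = spT (hAl n F) (inL u) (-(2 * t₀)) := (spT_inL h2 u _).symm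
  have hcomm : ∀ c, sieg N * h c = h c * sieg N := fun c => by
    rw [hN]
    exact Subtype.ext (altTEquiv_commute (hAl n F) (by simp [sympForm_dot, hux]) _ _)
  have hcσ : ∀ z, σ (sieg N) (Rσ z) = Rσ (σ (sieg N) z) := fun z => by
    simp only [Rσ, LinearMap.sum_apply, map_sum, ← End.mul_apply, ← map_mul, hcomm]
  have hcρ : ∀ z, weil h2 hψ (sieg N) (Rρ z) = Rρ (weil h2 hψ (sieg N) z) := fun z => by
    simp only [← hRρ, LinearMap.sum_apply, map_sum, ← End.mul_apply, ← map_mul, hcomm]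
  have hiv : ∀ l : F, σ (sieg N) (S (Rρ (dl (l • e)) - dl (l • e)) - (Rσ (S (dl (l • e))) -
      S (dl (l • e)))) = S (Rρ (dl (l • e)) - dl (l • e)) - (Rσ (S (dl (l • e))) -
      S (dl (l • e))) := fun l => by
    by_cases hl : l = 0
    · rw [hl, zero_smul, hS0, map_zero, sub_zero, sub_zero, ← tau_weil h2 hψ,
        hT.glue_sieg hn hS0 hS, map_sub, hcρ, weil_sieg_dl h2 hψ hn]
      simp
    · have hy : (l⁻¹ • u) ⬝ᵥ (l • e) = 1 := by simp [hue, hl]
      have : Rσ (S (dl (l • e))) = S (Rρ (dl (l • e))) := by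
        rw [Fam.glue_dl hψ hS hy, hi _ (by simp [sympForm_dot, hux]), ← hS,
          LinearMap.comp_apply, hRhp _ (by simp [sympForm_dot, hux]), hp_inL_dl hψ, if_pos hy]
      rw [this, map_sub S, sub_self, map_zero]
  have hv : σ (sieg N) (S (Rρ φ - φ) - (Rσ (S φ) - S φ)) = S (Rρ φ - φ) - (Rσ (S φ) - S φ) := by
    let L : ((Fin n → F) → ℂ) →ₗ[ℂ] V := S ∘ₗ (Rρ - 1) - (Rσ - 1) ∘ₗ S
    have hL : ∀ f, L f = S (Rρ f - f) - (Rσ (S f) - S f) := fun f => rfl
    have hL' : ∀ l : F, σ (sieg N) (L (dl (l • e))) = L (dl (l • e)) := hiv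
    rw [← hL, hφ']
    simp only [map_smul, map_sum, hL']
  have hRR : ∀ z, Rσ (Rσ z) = (Fintype.card F : ℂ) • Rσ z := fun z => by
    have : ∀ c, σ (h c) (Rσ z) = Rσ z := fun c => by
      simp only [Rσ, LinearMap.sum_apply, map_sum, ← End.mul_apply, ← map_mul, h, spT_mul]
      exact Fintype.sum_equiv (Equiv.addLeft c) _ _ fun d => rfl
    rw [show Rσ (Rσ z) = ∑ c, σ (h c) (Rσ z) from LinearMap.sum_apply _ _ _]
    simp [this, Nat.cast_smul_eq_nsmul]
  set D := T v₀ φ - S φ with hD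
  have h1 : Rσ (σ (sieg N) D - D) = σ (sieg N) D - D := by
    have h3 : Rσ D - D = S (Rρ φ - φ) - (Rσ (S φ) - S φ) := by
      rw [← hiii, hD, map_sub]; abel
    rw [← h3, map_sub, hcσ] at hv
    rw [map_sub]
    linear_combination (norm := module) hv
  have h3 : σ (sieg N) D = D := by
    have h4 := hRR (σ (sieg N) D - D)
    rw [h1, h1] at h4
    have h5 : ((Fintype.card F : ℂ) - 1) • (σ (sieg N) D - D) = 0 := by
      rw [sub_smul, one_smul, ← h4, sub_self]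
    refine sub_eq_zero.1 ((smul_eq_zero.1 h5).resolve_left fun h6 => ?_)
    have : Fintype.card F = 1 := by exact_mod_cast sub_eq_zero.1 h6
    exact absurd this Fintype.one_lt_card.ne'
  have h4 := LinearMap.congr_fun (eigP_mul_sieg (σ := σ) (ψ := ψ) (-vecMulVec e e) N) D
  rw [End.mul_apply, h3, LinearMap.smul_apply, mp_neg_vecMulVec] at h4
  have h5 : -(e ⬝ᵥ N *ᵥ e) = t₀ := by
    simp only [N, vecMulVec_mulVec, smul_dotProduct, hue, dotProduct_smul, dotProduct_comm e u,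
      op_smul_eq_smul, smul_eq_mul]
    field_simp
  have h6 : (1 - ψ t₀) • eigP σ ψ (-vecMulVec e e) D = 0 := by
    rw [sub_smul, one_smul, ← h5, ← h4, sub_self]
  have h7 := (smul_eq_zero.1 h6).resolve_left fun h => ht₀ (sub_eq_zero.1 h).symm
  rw [hD, map_sub, sub_eq_zero] at h7
  rw [← h7, hφ, ← LinearMap.comp_apply (T v₀), hT.proj]

theorem Fam.eigP_eq (hn : 2 ≤ n) (hT : Fam h2 hψ σ T) (hS0 : S (dl 0) = 0)
    (hS : ∀ y, S ∘ₗ hp ψ (inL y) = T (inL y)) {e : Fin n → F} (he : e ≠ 0)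
    (v : Fin n ⊕ Fin n → F) :
    eigP σ ψ (-vecMulVec e e) (T v (dl e)) = eigP σ ψ (-vecMulVec e e) (S (hp ψ v (dl e))) := by
  by_cases hv : v ∘ Sum.inr = 0
  · rw [eq_inL hv, ← hS, LinearMap.comp_apply]
  by_cases h : e ∈ Submodule.span F {v ∘ Sum.inr}
  · obtain ⟨a, ha⟩ := Submodule.mem_span_singleton.1 h
    have ha0 : a ≠ 0 := by rintro rfl; exact he (by rw [← ha, zero_smul])
    obtain ⟨u, -, -, hue, -⟩ := exists_frame hn he
    let a' := a • v ∘ Sum.inl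
    let M := vecMulVec a' u - (2⁻¹ * (a' ⬝ᵥ e)) • vecMulVec u u
    have h1 : (sieg M).1 (inR (a⁻¹ • e)) = v := by
      refine vec_ext ?_ (by rw [sieg_inr, inR_inr, ← ha, inv_smul_smul₀ ha0])
      simp only [sieg_inl, inR_inl, inR_inr, zero_add, M, transpose_sub, transpose_smul,
        transpose_vecMulVec, add_mulVec, sub_mulVec, smul_mulVec, vecMulVec_mulVec, mulVec_smul,
        hue, op_smul_eq_smul]
      simp only [a']
      match_scalars <;> field_simp <;> ring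
    rw [← h1, ← hT.equiv, eigP_tau_sieg hn, hT.line hn hS0 hS he (inv_ne_zero ha0),
      ← LinearMap.comp_apply S (hp ψ ((sieg M).1 _))]
    nth_rewrite 2 [← hT.glue_sieg hn hS0 hS M]
    rw [tau_hp, eigP_tau_sieg hn, LinearMap.comp_apply]
  · obtain ⟨y, hy, hye⟩ := exists_dot h
    rw [hT.apply_eq hS hv (ne_zero_of_dot hye).1 hy (by rw [hp_inL_dl hψ, if_pos hye])]

end Glue

theorem exists_intertwiner (h2 : (2 : F) ≠ 0) (hψ : ψ ≠ 1) (hn : 2 ≤ n) (hR : R1 σ ψ)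
    {e : Fin n → F} (he : e ≠ 0) {m : V} (hm0 : m ≠ 0) (hm : IsEig σ ψ (-vecMulVec e e) m) :
    ∃ L : ((Fin n → F) → ℂ) →ₗ[ℂ] V, L ≠ 0 ∧ ∀ g f, L (weil h2 hψ g f) = σ g (L f) := by
  obtain ⟨u, -, -, hue, -⟩ := exists_frame hn he
  obtain ⟨T, hT, hTm⟩ := exists_fam (h2 := h2) (hψ := hψ) hn hR hue hm
  obtain ⟨S, hS0, hS⟩ := hT.exists_glue
  refine ⟨∑ v, T v, fun h0 => ?_, fun g f => ?_⟩
  · have hSe : S (dl e) = m := by rw [Fam.glue_dl hψ hS hue, hTm]
    have hSe' : IsEig σ ψ (-vecMulVec e e) (S (dl (-e))) := fun M => by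
      rw [← tau_weil h2 hψ, hT.glue_sieg hn hS0 hS, weil_sieg_dl h2 hψ hn, map_smul,
        mp_neg_vecMulVec, mulVec_neg, neg_dotProduct_neg]
    have h1 := congrArg (eigP σ ψ (-vecMulVec e e)) (LinearMap.congr_fun h0 (dl e))
    have hpar : ∀ x : Fin n → F, parity F n (dl x) = dl (-x) := fun x => by
      ext z; simp [Pi.single_apply, neg_eq_iff_eq_neg]
    rw [LinearMap.sum_apply, map_sum, LinearMap.zero_apply, map_zero] at h1
    simp only [hT.eigP_eq hn hS0 hS he, ← map_sum] at h1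
    rw [← LinearMap.sum_apply, sum_hp h2 hψ, LinearMap.smul_apply, LinearMap.sub_apply, hpar,
      map_smul, map_smul, map_sub, map_sub, LinearMap.smul_apply, End.one_apply, map_smul, hSe,
      map_smul, hm.eigP hψ, hSe'.eigP hψ, if_pos rfl, if_pos rfl] at h1
    have h3 := sub_eq_zero.1 ((smul_eq_zero.1 h1).resolve_left
      (mul_ne_zero (inv_ne_zero (card_ne F)) (pow_ne_zero _ (card_ne F))))
    have H : (-1 : Matrix (Fin n) (Fin n) F)ᵀ * (-1) = 1 := by simp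
    let z := levi (-1) (-1) H
    have hz : ∀ v, z.1 v = -v := fun v =>
      vec_ext (by simp [z, levi_inl, neg_mulVec]) (by simp [z, levi_inr, neg_mulVec])
    have hzz : z * z = 1 := spB_ext fun v => by rw [spB_mul_apply, hz, hz, neg_neg]; rfl
    obtain ⟨κ, -, hκ⟩ := weil_dl h2 hψ z (fun y => by simp [hz]) e
    rw [hz, neg_inr, inR_inr] at hκ
    have hκ' : weil h2 hψ z (dl (-e)) = κ • dl e := by
      rw [← hpar, ← End.mul_apply, (weil_commute_parity h2 hψ z).eq, End.mul_apply, hκ, map_smul,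
        hpar, neg_neg]
    have hκ2 : κ * κ = 1 := by
      have := congrArg (weil h2 hψ z) hκ
      rw [← End.mul_apply, ← map_mul, hzz, map_one, map_smul, hκ', smul_smul] at this
      simpa using (congrFun this e).symm
    have h4 : σ z m = (κ * (Fintype.card F : ℂ) ^ n) • m := by
      rw [← hTm, ← tau_weil h2 hψ, hT.equiv, hκ, map_smul, hz, neg_inL,
        ← Fam.glue_dl hψ hS (by rw [neg_dotProduct_neg, hue]), ← h3, hTm, smul_smul]
    have h5 := congrArg (σ z) h4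
    rw [← End.mul_apply, ← map_mul, hzz, map_one, map_smul, h4, smul_smul, End.one_apply] at h5
    have h6 : (1 : ℂ) = (κ * (Fintype.card F : ℂ) ^ n) * (κ * (Fintype.card F : ℂ) ^ n) :=
      smul_left_injective ℂ hm0 (by simpa using h5)
    have h7 : ((Fintype.card F ^ (n + n) : ℕ) : ℂ) = 1 := by
      push_cast
      rw [pow_add]
      linear_combination -h6 - (Fintype.card F : ℂ) ^ n * (Fintype.card F : ℂ) ^ n * hκ2
    have h8 : Fintype.card F ^ (n + n) = 1 := by exact_mod_cast h7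
    exact absurd h8 (Nat.one_lt_pow (by omega) Fintype.one_lt_card).ne'
  · rw [← tau_weil h2 hψ, map_sum]
    congr 1
    simp only [hT.equiv]
    exact (Fintype.sum_equiv g.1.toEquiv _ _ fun v => rfl).symm

end Cfsg.Lib.Known.WG
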