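import Mathlib
import Cfsg.Agent.Known.WeilGlue
import Cfsg.Agent.Known.SymOrbit

/-!
Irreducible representations of `Sp_{2n}(q)`, `q` odd, `n ≥ 2`: trivial, Weil, or of large degree.
-/

namespace Cfsg.Lib.Known.WG

open Module Cfsg.Lib.Class Cfsg.Lib.Char Matrix

variable {F : Type*} [Field F] [Fintype F] [DecidableEq F] {n : ℕ} {ψ : AddChar F ℂ}
  {V : Type*} [AddCommGroup V] [Module ℂ V] {σ : Representation ℂ (SpG n F) V}

omit [DecidableEq F] in
theorem two_ne_of_odd (hF : Odd (Fintype.card F)) : (2 : F) ≠ 0 := by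
  intro h
  obtain ⟨k, hk⟩ := hF
  have := FiniteField.cast_card_eq_zero F
  rw [hk] at this
  simp [h] at this

omit [Fintype F] [DecidableEq F] in
theorem mulShift_ne_one (hψ : ψ ≠ 1) {d : F} (hd : d ≠ 0) : ψ.mulShift d ≠ 1 := fun h =>
  hd (eq_of_addChar hψ fun t => by
    have := DFunLike.congr_fun h t
    simpa [mul_comm] using this)

theorem exists_sq_or {δ : F} (hδ : ¬ IsSquare δ) {x : F} (hx : x ≠ 0) :
    ∃ d s : F, (d = 1 ∨ d = δ) ∧ x = d * s ^ 2 := by
  by_cases h : IsSquare x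
  · obtain ⟨s, hs⟩ := h
    exact ⟨1, s, .inl rfl, by rw [hs]; ring⟩
  · have hδ0 : δ ≠ 0 := by rintro rfl; exact hδ IsSquare.zero
    have h1 : quadraticChar F (x * δ) = 1 := by
      rw [map_mul, quadraticChar_neg_one_iff_not_isSquare.2 h,
        quadraticChar_neg_one_iff_not_isSquare.2 hδ]; norm_num
    obtain ⟨s, hs⟩ := (quadraticChar_one_iff_isSquare (mul_ne_zero hx hδ0)).1 h1
    refine ⟨δ, s / δ, .inr rfl, ?_⟩
    field_simp
    rw [hs, sq]

omit [Fintype F] [DecidableEq F] in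
theorem isEig_mulShift {d : F} {b : Matrix (Fin n) (Fin n) F} {v : V} :
    IsEig σ (ψ.mulShift d) b v ↔ IsEig σ ψ (d • b) v := by
  simp only [IsEig, AddChar.mulShift_apply, mp_comm (d • b), mp_smul, mp_comm b]

instance : Finite (SpG n F) := Finite.of_equiv _ (spEquivSpB n F).toEquiv

theorem coe_weilPart (h2 : (2 : F) ≠ 0) (hψ : ψ ≠ 1) (ε : ℤˣ) (g : SpG n F) (f : WeilSp F n ε) :
    (weilPart h2 hψ ε g f : (Fin n → F) → ℂ) = weil h2 hψ g f :=
  coe_weilRes (weil_commute_parity h2 hψ g) f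

theorem nontrivial_weilSp (h2 : (2 : F) ≠ 0) (hn : 2 ≤ n) (ε : ℤˣ) : Nontrivial (WeilSp F n ε) := by
  refine (Module.finrank_pos_iff (R := ℂ)).1 (Nat.pos_of_ne_zero fun h => ?_)
  have h1 := two_mul_finrank_weilSp (n := n) h2 ε
  have h3 : 1 < Fintype.card F ^ n := Nat.one_lt_pow (by omega) Fintype.one_lt_card
  rw [h, ← Nat.cast_pow] at h1
  rcases Int.units_eq_one_or ε with rfl | rfl <;> simp only [Units.val_one, Units.val_neg] at h1 <;>
    omega

theorem character_eq_of_intertwiner [FiniteDimensional ℂ V] (hσ : σ.IsIrreducible)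
    (h2 : (2 : F) ≠ 0) (hψ : ψ ≠ 1) (hn : 2 ≤ n) {L : ((Fin n → F) → ℂ) →ₗ[ℂ] V} (hL0 : L ≠ 0)
    (hL : ∀ g f, L (weil h2 hψ g f) = σ g (L f)) :
    ∃ ε, σ.character = (weilPart h2 hψ ε).character := by
  have := Fintype.ofFinite (SpG n F)
  obtain ⟨ε, hε⟩ : ∃ ε, L ∘ₗ (WeilSp F n ε).subtype ≠ 0 := by
    by_contra! h
    refine hL0 (LinearMap.ext fun f => ?_)
    have h1 := LinearMap.congr_fun (h 1) (weilProj F n 1 f)
    have h3 := LinearMap.congr_fun (h (-1)) (weilProj F n (-1) f)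
    simp only [LinearMap.comp_apply, Submodule.subtype_apply, coe_weilProj, map_smul, map_add,
      LinearMap.zero_apply, Units.val_one, Int.cast_one, Units.val_neg, Int.cast_neg] at h1 h3 ⊢
    linear_combination (norm := module) h1 + h3
  have := nontrivial_weilSp h2 hn ε
  have := weilPart_isIrreducible (n := n) h2 hψ ε
  refine ⟨ε, (isIrrCharacter_rep σ).eq_of_classInner_ne_zero (isIrrCharacter_rep _) ?_⟩
  rw [classInner_rep, Nat.cast_ne_zero]
  let Φ : Representation.IntertwiningMap (weilPart h2 hψ ε) σ :=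
    (L ∘ₗ (WeilSp F n ε).subtype).intertwiningMap_of_isIntertwiningMap _ _ fun g f => by
      simp only [LinearMap.comp_apply, Submodule.subtype_apply, coe_weilPart, hL]
  have : Nontrivial (Representation.IntertwiningMap (weilPart h2 hψ ε) σ) :=
    ⟨Φ, 0, fun h => hε (congrArg Representation.IntertwiningMap.toLinearMap h)⟩
  exact Module.finrank_pos.ne'

theorem irr_trichotomy {k : ℕ} {σ : Representation ℂ (SpG (k + 2) F) V} [FiniteDimensional ℂ V]
    (hσ : σ.IsIrreducible) (hq : Odd (Fintype.card F)) (h2 : (2 : F) ≠ 0) (hψ : ψ ≠ 1) {δ : F}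
    (hδ : ¬ IsSquare δ) :
    finrank ℂ V = 1 ∨
    (Fintype.card F ^ (k + 2) - 1) * (Fintype.card F ^ (k + 2) - Fintype.card F) ≤
      finrank ℂ V * (2 * (Fintype.card F + 1)) ∨
    ∃ d, (d = 1 ∨ d = δ) ∧ ∃ (hd : ψ.mulShift d ≠ 1) (ε : ℤˣ),
      σ.character = (weilPart h2 hd ε).character := by
  have hn : 2 ≤ k + 2 := by omega
  by_cases hR : R1 σ ψ
  swap
  · right; left
    simp only [R1, not_forall] at hR
    obtain ⟨b, v, hv0, hv, y, z, hyz⟩ := hR
    refine (card_cong_ge hq h2 (hv.symm hψ hv0) ⟨y, z, hyz⟩).trans (Nat.mul_le_mul_right _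
      (card_le_finrank (σ := σ) hψ _ fun c hc => ?_))
    obtain ⟨g, l, H, rfl⟩ := mem_cong.1 hc
    refine ⟨_, fun h => hv0 ?_, hv.levi g l H⟩
    have := congrArg (σ (levi g l H)⁻¹) h
    rwa [← End.mul_apply, ← map_mul, inv_mul_cancel, map_one, map_zero] at this
  by_cases h : ∃ b v, b ≠ 0 ∧ v ≠ 0 ∧ IsEig σ ψ b v
  · right; right
    obtain ⟨b, v, hb0, hv0, hv⟩ := h
    have hb := hv.symm hψ hv0
    obtain ⟨y, hy⟩ : ∃ y, y ⬝ᵥ b *ᵥ y ≠ 0 := by
      by_contra! h
      exact hb0 (eq_zero_of_quad h2 hb h)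
    obtain ⟨d, s, hd, hs⟩ := exists_sq_or hδ (neg_ne_zero.2 (inv_ne_zero hy))
    have hd0 : d ≠ 0 := by rintro rfl; simp [hy] at hs
    have h1 : b + d • vecMulVec (s • b *ᵥ y) (s • b *ᵥ y) = 0 := by
      refine eq_zero_of_quad h2 (by rw [transpose_add, hb, transpose_smul, transpose_vecMulVec])
        fun z => ?_
      have h3 := hR b v hv0 hv y z
      simp only [add_mulVec, smul_mulVec, vecMulVec_mulVec, dotProduct_add, dotProduct_smul,
        smul_dotProduct, op_smul_eq_smul, smul_eq_mul, dotProduct_comm (b *ᵥ y), sym_dot hb z y]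
      have h4 : (y ⬝ᵥ b *ᵥ y) * (d * s ^ 2) = -1 := by rw [← hs]; field_simp
      refine mul_left_cancel₀ hy ?_
      linear_combination h3 + (y ⬝ᵥ b *ᵥ z) ^ 2 * h4
    have he : s • b *ᵥ y ≠ 0 := fun h => hb0 (by simpa [h] using h1)
    have hψ' := mulShift_ne_one hψ hd0
    have hR' : R1 σ (ψ.mulShift d) := fun c w hw0 hw y z => by
      have := hR _ w hw0 (isEig_mulShift.1 hw) y z
      simp only [smul_mulVec, dotProduct_smul, smul_eq_mul] at this
      refine mul_left_cancel₀ (pow_ne_zero 2 hd0) ?_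
      linear_combination this
    obtain ⟨L, hL0, hL⟩ := exists_intertwiner h2 hψ' hn hR' he hv0 (isEig_mulShift.2 (by
      rwa [smul_neg, ← eq_neg_of_add_eq_zero_left h1]))
    exact ⟨d, hd, hψ', character_eq_of_intertwiner hσ h2 hψ' hn hL0 hL⟩
  · left
    push Not at h
    have h1 : ∀ M, σ (sieg M) = 1 := fun M => LinearMap.ext fun v => by
      have : IsEig σ ψ 0 v := by
        rw [← sum_eigP (σ := σ) hψ v]
        refine IsEig.sum _ fun b _ => ?_
        by_cases hb : b = 0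
        · rw [hb]; exact isEig_eigP _ _
        · by_cases h0 : eigP σ ψ b v = 0
          · rw [h0]; exact isEig_zero _
          · exact absurd (isEig_eigP b v) (h b _ hb h0)
      simpa [mp] using this M
    have h3 : (MonoidHom.ker σ : Subgroup (SpG (k + 2) F)) = ⊤ := by
      refine SpB_eq_top_of_spT_mem (hNd _ F) (hAl _ F) _ fun w c => ?_
      by_cases hw : w = 0
      · rw [hw, spT_zero_left]; exact one_mem _
      have hy : (Pi.single 0 1 : Fin (k + 2) → F) ≠ 0 := fun h => by simpa using congrFun h 0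
      obtain ⟨g, hg, hgw⟩ := SpB_exists_apply_eq (hNd _ F) (hAl _ F) (inL_ne_zero hy) hw
      have := spT_conj (hAl _ F) ⟨g, hg⟩ (inL (Pi.single 0 1)) c
      rw [hgw, spT_inL h2] at this
      rw [← this, MonoidHom.mem_ker, map_mul, map_mul, h1, mul_one, ← map_mul, mul_inv_cancel,
        map_one]
    have htriv : ∀ g, σ g = 1 := fun g => MonoidHom.mem_ker.1 (h3 ▸ Subgroup.mem_top g)
    obtain ⟨hnt, hirr⟩ := (isIrreducible_iff σ).1 hσ
    obtain ⟨v, hv⟩ := exists_ne (0 : V)
    rcases hirr (Submodule.span ℂ {v}) (fun x w hw => by rwa [htriv]) with h4 | h4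
    · exact absurd (Submodule.span_singleton_eq_bot.1 h4) hv
    · have h5 := finrank_span_singleton (K := ℂ) hv
      rwa [h4, finrank_top] at h5

theorem weilPart_character_ne (h2 : (2 : F) ≠ 0) (hψ : ψ ≠ 1) (hn : 2 ≤ n) {δ : F}
    (hδ : ¬ IsSquare δ) (h1 : ψ.mulShift 1 ≠ 1) (hd : ψ.mulShift δ ≠ 1) (ε : ℤˣ) :
    (weilPart (n := n) h2 h1 ε).character ≠ (weilPart h2 hd ε).character := fun h => by
  have := Fintype.ofFinite (SpG n F)
  have := nontrivial_weilSp h2 hn ε
  have := weilPart_isIrreducible (n := n) h2 h1 ε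
  have := weilPart_isIrreducible (n := n) h2 hd ε
  have h3 := (isIrrCharacter_rep (weilPart (n := n) h2 hd ε)).classInner_self
  nth_rewrite 2 [← h] at h3
  rw [classInner_rep] at h3
  have h4 : 0 < finrank ℂ (Representation.IntertwiningMap (weilPart (n := n) h2 h1 ε)
      (weilPart h2 hd ε)) := Nat.pos_of_ne_zero fun h => by simp [h] at h3
  have := Module.nontrivial_of_finrank_pos h4
  obtain ⟨Φ, hΦ⟩ := exists_ne (0 : Representation.IntertwiningMap (weilPart (n := n) h2 h1 ε)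
    (weilPart h2 hd ε))
  have hinj := (Representation.IsIrreducible.injective_or_eq_zero Φ).resolve_right hΦ
  let i : Fin n := ⟨0, by omega⟩
  let e : Fin n → F := Pi.single i 1
  have hee : e ≠ -e := fun h => by
    have := congrFun h i
    simp only [e, Pi.single_eq_same, Pi.neg_apply] at this
    exact h2 (by linear_combination this)
  let f := weilProj F n ε (dl e)
  have hf : (f : (Fin n → F) → ℂ) = (2⁻¹ : ℂ) • (dl e + ((ε : ℤ) : ℂ) • dl (-e)) := by
    rw [coe_weilProj]
    congr 3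
    ext z; simp [Pi.single_apply, neg_eq_iff_eq_neg]
  have hf0 : f ≠ 0 := fun h => by
    have := congrFun hf e
    simp [h, hee] at this
  have hΦf : Φ f ≠ 0 := fun h => hf0 (hinj (h.trans (map_zero Φ).symm))
  obtain ⟨x, hx⟩ : ∃ x, (Φ f : (Fin n → F) → ℂ) x ≠ 0 := by
    by_contra! h
    exact hΦf (Subtype.ext (funext h))
  have key : δ * x i ^ 2 = 1 := eq_of_addChar hψ fun t => by
    have h5 : weilPart h2 h1 ε (sieg (single i i (-t))) f = ψ t • f := Subtype.ext (by
      rw [coe_weilPart, Submodule.coe_smul, hf, map_smul, map_add, map_smul,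
        weil_sieg_dl h2 h1 hn, weil_sieg_dl h2 h1 hn, mulVec_neg, neg_dotProduct_neg]
      have : e ⬝ᵥ single i i (-t) *ᵥ e = -t := by simp [e, single_mulVec]
      rw [this, neg_neg, AddChar.mulShift_apply, one_mul]
      module)
    have h6 := congrFun (congrArg Subtype.val (Φ.isIntertwining (g := sieg (single i i (-t))) (v := f))) x
    rw [h5, map_smul, coe_weilPart, weil_sieg h2 hd hn, Submodule.coe_smul, Pi.smul_apply,
      smul_eq_mul] at h6
    rw [mul_one, mul_right_cancel₀ hx h6, AddChar.mulShift_apply]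
    congr 1
    simp [single_mulVec, dotProduct, Function.update_apply]
    ring
  have hx0 : x i ≠ 0 := by rintro h; simp [h] at key
  exact hδ ⟨(x i)⁻¹, by field_simp; exact key⟩

end Cfsg.Lib.Known.WG
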